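import Cfsg.Agent.GLn.Defs
import Mathlib.RingTheory.RootsOfUnity.AlgebraicallyClosed
import Mathlib.RingTheory.RootsOfUnity.Complex
import Mathlib.GroupTheory.FiniteAbelian.Duality

/-!
# S4536: arithmetic of the algebraic closure, part 1 (`Mk`, `pr`, `chr`)
-/

set_option autoImplicit false

namespace Cfsg.GLn

open Finset Function

universe u

variable {F : Type u} [Field F] [Fintype F]

local notation "q" => Fintype.card F

variable (F) in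
theorem one_lt_q : 1 < q := Fintype.one_lt_card

variable (F) in
theorem q_pos : 0 < q := Fintype.card_pos

theorem one_lt_q_pow {k : ℕ} (hk : 0 < k) : 1 < q ^ k := Nat.one_lt_pow hk.ne' (one_lt_q F)

theorem q_pow_sub_pos {k : ℕ} (hk : 0 < k) : 0 < q ^ k - 1 := by
  have := one_lt_q_pow (F := F) hk; omega

theorem q_pow_sub_add (k : ℕ) : q ^ k - 1 + 1 = q ^ k :=
  Nat.sub_add_cancel (Nat.one_le_pow _ _ (q_pos F))

theorem coprime_q_of_not_dvd {N : ℕ} (h : ¬ ringChar F ∣ N) : (q).Coprime N := by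
  obtain ⟨n, hp, hn⟩ := FiniteField.card F (ringChar F)
  rw [hn]
  exact ((Nat.Prime.coprime_iff_not_dvd hp).2 h).pow_left _

theorem ringChar_dvd_q : ringChar F ∣ q := by
  obtain ⟨n, -, hn⟩ := FiniteField.card F (ringChar F)
  rw [hn]
  exact dvd_pow_self _ n.ne_zero

theorem coprime_q_prime {ℓ : ℕ} (hl : ℓ.Prime) (h : ℓ ≠ ringChar F) : (q).Coprime ℓ :=
  coprime_q_of_not_dvd fun hd => h ((Nat.prime_dvd_prime_iff_eq
    (FiniteField.card F (ringChar F)).choose_spec.1 hl).1 hd).symm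

theorem exists_pow_eq_one (x : (K F)ˣ) : ∃ N, 0 < N ∧ (q).Coprime N ∧ x ^ N = 1 := by
  obtain ⟨N, hN, hx⟩ := BL.exists_pow_eq_one_of_isAlgebraic (F := F) x
  refine ⟨N, Nat.pos_of_ne_zero ?_, coprime_q_of_not_dvd hN, Units.ext (by simpa using hx)⟩
  rintro rfl
  exact hN (dvd_zero _)

theorem isOfFinOrder_K (x : (K F)ˣ) : IsOfFinOrder x := by
  obtain ⟨N, hN, -, hx⟩ := exists_pow_eq_one x
  exact isOfFinOrder_iff_pow_eq_one.2 ⟨N, hN, hx⟩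

theorem orderOf_pos_K (x : (K F)ˣ) : 0 < orderOf x := (isOfFinOrder_K x).orderOf_pos

theorem coprime_q_orderOf (x : (K F)ˣ) : (q).Coprime (orderOf x) := by
  obtain ⟨N, -, hN, hx⟩ := exists_pow_eq_one x
  exact hN.coprime_dvd_right (orderOf_dvd_of_pow_eq_one hx)

variable (F) in
theorem allPer : Dyn.AllPer (fr F) := fun x =>
  Dyn.mem_periodicPts_pow (orderOf_pos_K x) (coprime_q_orderOf x)

theorem fr_apply (x : (K F)ˣ) : fr F x = x ^ q := rfl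

theorem fr_iterate (n : ℕ) (x : (K F)ˣ) : (fr F)^[n] x = x ^ q ^ n := Dyn.iterate_pow _ n x

theorem io_eq_iff {x y : (K F)ˣ} : io x = io y ↔ ∃ n : ℕ, x ^ q ^ n = y := by
  simp only [← fr_iterate]
  exact (allPer F).omk_eq_iff

@[simp] theorem io_rep (o : I F) : io o.rep = o := Dyn.omk_rep o

@[simp] theorem io_pow_q (x : (K F)ˣ) (n : ℕ) : io (x ^ q ^ n) = io x := by
  rw [← fr_iterate]; exact Dyn.omk_iterate x n

theorem exists_rep_io (x : (K F)ˣ) : ∃ n : ℕ, (io x).rep = x ^ q ^ n := by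
  obtain ⟨n, hn⟩ := io_eq_iff.1 (io_rep (io x)).symm
  exact ⟨n, hn.symm⟩

theorem per_pos (o : I F) : 0 < o.per := (allPer F).per_pos o

theorem per_io (x : (K F)ˣ) : (io x).per = orderOf (q : ZMod (orderOf x)) := by
  rw [(allPer F).per_omk]
  exact Dyn.minimalPeriod_pow _ x

theorem per_io_dvd_iff (x : (K F)ˣ) (k : ℕ) : (io x).per ∣ k ↔ x ^ q ^ k = x := by
  rw [← fr_iterate]; exact ((allPer F).iterate_eq_iff x k).symm

theorem pow_q_per (x : (K F)ˣ) : x ^ q ^ (io x).per = x := (per_io_dvd_iff x _).1 dvd_rfl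

theorem rep_pow_q_per (o : I F) : o.rep ^ q ^ o.per = o.rep := by
  have := pow_q_per o.rep
  rwa [io_rep] at this

theorem orderOf_pow_q (x : (K F)ˣ) (n : ℕ) : orderOf (x ^ q ^ n) = orderOf x :=
  ((coprime_q_orderOf x).symm.pow_right n).orderOf_pow

theorem orderOf_rep_io (x : (K F)ˣ) : orderOf (io x).rep = orderOf x := by
  obtain ⟨n, hn⟩ := exists_rep_io x
  rw [hn, orderOf_pow_q]

theorem pow_q_injective (n : ℕ) : Injective fun x : (K F)ˣ => x ^ q ^ n := by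
  simp only [← fr_iterate]
  exact (allPer F).injective.iterate n

theorem mem_pts {o : I F} {x : (K F)ˣ} : x ∈ o.pts ↔ io x = o := (allPer F).mem_pts

variable (F) in
theorem th_injective : Injective (th F) := (BL.exists_injective_hom F (K F)).choose_spec

theorem orderOf_th (x : (K F)ˣ) : orderOf (th F x) = orderOf x :=
  orderOf_injective _ (th_injective F) x

theorem pow_q_eq_iff (x : (K F)ˣ) (k : ℕ) : x ^ q ^ k = x ↔ x ^ (q ^ k - 1) = 1 := by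
  conv_lhs => rw [← q_pow_sub_add (F := F) k, pow_succ, mul_eq_right]

theorem neZero_K {k : ℕ} (hk : 0 < k) : NeZero ((q ^ k - 1 : ℕ) : K F) := ⟨by
  rw [Nat.cast_sub (Nat.one_le_pow _ _ (q_pos F)), Nat.cast_pow]
  have : ((q : ℕ) : K F) = 0 := by
    rw [← map_natCast (algebraMap F (K F)), FiniteField.cast_card_eq_zero, map_zero]
  simp [this, hk.ne']⟩

theorem setOf_Mk (k : ℕ) :
    {x : (K F)ˣ | x ^ q ^ k = x} = (rootsOfUnity (q ^ k - 1) (K F) : Set (K F)ˣ) := by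
  ext x
  rw [Set.mem_setOf_eq, pow_q_eq_iff, SetLike.mem_coe, mem_rootsOfUnity]

theorem finite_Mk {k : ℕ} (hk : 0 < k) : {x : (K F)ˣ | x ^ q ^ k = x}.Finite := by
  haveI : NeZero (q ^ k - 1) := ⟨(q_pow_sub_pos hk).ne'⟩
  rw [setOf_Mk]
  exact Set.finite_coe_iff.1 (inferInstanceAs (Finite (rootsOfUnity (q ^ k - 1) (K F))))

theorem finite_fix {k : ℕ} (hk : 0 < k) : {x : (K F)ˣ | (fr F)^[k] x = x}.Finite := by
  simp only [fr_iterate]; exact finite_Mk hk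

theorem mem_Mk {k : ℕ} (hk : 0 < k) {x : (K F)ˣ} : x ∈ Mk F k ↔ x ^ q ^ k = x := by
  rw [Mk, dif_pos (finite_Mk hk), Set.Finite.mem_toFinset, Set.mem_setOf_eq]

theorem mem_Mk' {k : ℕ} (hk : 0 < k) {x : (K F)ˣ} : x ∈ Mk F k ↔ x ^ (q ^ k - 1) = 1 := by
  rw [mem_Mk hk, pow_q_eq_iff]

theorem mem_Mk_orderOf {k : ℕ} (hk : 0 < k) {x : (K F)ˣ} :
    x ∈ Mk F k ↔ orderOf x ∣ q ^ k - 1 := by
  rw [mem_Mk' hk, orderOf_dvd_iff_pow_eq_one]

theorem mem_Mk_per {k : ℕ} (hk : 0 < k) {x : (K F)ˣ} : x ∈ Mk F k ↔ (io x).per ∣ k := by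
  rw [mem_Mk hk, per_io_dvd_iff]

theorem Mk_eq_fixF {k : ℕ} (hk : 0 < k) : Mk F k = Dyn.fixF (fr F) k (finite_fix hk) := by
  ext x; rw [mem_Mk hk, Dyn.mem_fixF, fr_iterate]

omit [Fintype F] in
theorem infinite_units_K : Infinite (K F)ˣ := by
  by_contra h
  rw [not_infinite_iff_finite] at h
  have : Finite (K F) := Finite.of_surjective (fun o : Option (K F)ˣ => o.elim 0 Units.val)
    fun a => by
      by_cases ha : a = 0
      · exact ⟨none, ha.symm⟩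
      · exact ⟨some (Units.mk0 a ha), rfl⟩
  exact not_finite (K F)

theorem Mk_zero : Mk F 0 = ∅ := by
  haveI := infinite_units_K (F := F)
  rw [Mk, dif_neg]
  simp only [pow_zero, pow_one, Set.setOf_true]
  exact Set.infinite_univ

theorem pos_of_mem_Mk {k : ℕ} {x : (K F)ˣ} (hx : x ∈ Mk F k) : 0 < k := by
  rcases Nat.eq_zero_or_pos k with rfl | h
  · simp [Mk_zero] at hx
  · exact h

theorem pow_of_mem_Mk {k : ℕ} {x : (K F)ˣ} (hx : x ∈ Mk F k) : x ^ q ^ k = x :=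
  (mem_Mk (pos_of_mem_Mk hx)).1 hx

theorem pow_of_mem_Mk' {k : ℕ} {x : (K F)ˣ} (hx : x ∈ Mk F k) : x ^ (q ^ k - 1) = 1 :=
  (mem_Mk' (pos_of_mem_Mk hx)).1 hx

theorem card_Mk {k : ℕ} (hk : 0 < k) : #(Mk F k) = q ^ k - 1 := by
  haveI : NeZero (q ^ k - 1) := ⟨(q_pow_sub_pos hk).ne'⟩
  haveI := neZero_K (F := F) hk
  rw [Mk, dif_pos (finite_Mk hk), ← Set.ncard_eq_toFinset_card _ (finite_Mk hk), setOf_Mk,
    ← Nat.card_coe_set_eq]
  exact HasEnoughRootsOfUnity.natCard_rootsOfUnity (K F) _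

theorem one_mem_Mk {k : ℕ} (hk : 0 < k) : (1 : (K F)ˣ) ∈ Mk F k := (mem_Mk hk).2 (one_pow _)

theorem mul_mem_Mk {k : ℕ} {x y : (K F)ˣ} (hx : x ∈ Mk F k) (hy : y ∈ Mk F k) :
    x * y ∈ Mk F k :=
  (mem_Mk (pos_of_mem_Mk hx)).2 (by rw [mul_pow, pow_of_mem_Mk hx, pow_of_mem_Mk hy])

theorem inv_mem_Mk {k : ℕ} {x : (K F)ˣ} (hx : x ∈ Mk F k) : x⁻¹ ∈ Mk F k :=
  (mem_Mk (pos_of_mem_Mk hx)).2 (by rw [inv_pow, pow_of_mem_Mk hx])

theorem pow_mem_Mk {k : ℕ} {x : (K F)ˣ} (hx : x ∈ Mk F k) (n : ℕ) : x ^ n ∈ Mk F k :=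
  (mem_Mk (pos_of_mem_Mk hx)).2 (by rw [← pow_mul, mul_comm, pow_mul, pow_of_mem_Mk hx])

theorem zpow_mem_Mk {k : ℕ} {x : (K F)ˣ} (hx : x ∈ Mk F k) (n : ℤ) : x ^ n ∈ Mk F k := by
  cases n with
  | ofNat n => simpa using pow_mem_Mk hx n
  | negSucc n => simpa using inv_mem_Mk (pow_mem_Mk hx (n + 1))

theorem prod_mem_Mk {k : ℕ} (hk : 0 < k) {ι : Type*} {s : Finset ι} {f : ι → (K F)ˣ}
    (h : ∀ i ∈ s, f i ∈ Mk F k) : ∏ i ∈ s, f i ∈ Mk F k :=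
  Finset.prod_induction _ (· ∈ Mk F k) (fun _ _ => mul_mem_Mk) (one_mem_Mk hk) h

theorem mem_Mk_of_dvd {c k : ℕ} (hk : 0 < k) (h : c ∣ k) {x : (K F)ˣ} (hx : x ∈ Mk F c) :
    x ∈ Mk F k := (mem_Mk_per hk).2 (((mem_Mk_per (pos_of_mem_Mk hx)).1 hx).trans h)

theorem rep_mem_Mk {o : I F} {k : ℕ} (hk : 0 < k) (h : o.per ∣ k) : o.rep ∈ Mk F k :=
  (mem_Mk_per hk).2 (by rwa [io_rep])

theorem rep_mem_Mk_mul (o : I F) {m : ℕ} (hm : 0 < m) : o.rep ∈ Mk F (o.per * m) :=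
  rep_mem_Mk (Nat.mul_pos (per_pos o) hm) (dvd_mul_right _ _)

theorem mem_Mk_self (x : (K F)ˣ) : x ∈ Mk F (io x).per := (mem_Mk_per (per_pos _)).2 dvd_rfl

theorem exists_mem_Mk₂ (x y : (K F)ˣ) : ∃ k, x ∈ Mk F k ∧ y ∈ Mk F k :=
  have h := Nat.mul_pos (per_pos (io x)) (per_pos (io y))
  ⟨_, (mem_Mk_per h).2 (dvd_mul_right _ _), (mem_Mk_per h).2 (dvd_mul_left _ _)⟩

variable (F) in
/-- `Mk` as a subgroup -/
noncomputable def MG (k : ℕ) : Subgroup (K F)ˣ := rootsOfUnity (q ^ k - 1) (K F)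

theorem mem_MG {k : ℕ} (hk : 0 < k) {x : (K F)ˣ} : x ∈ MG F k ↔ x ∈ Mk F k := by
  rw [mem_Mk' hk, MG, mem_rootsOfUnity]

theorem finite_MG {k : ℕ} (hk : 0 < k) : Finite (MG F k) := by
  haveI : NeZero (q ^ k - 1) := ⟨(q_pow_sub_pos hk).ne'⟩
  unfold MG; infer_instance

theorem card_MG {k : ℕ} (hk : 0 < k) : Nat.card (MG F k) = q ^ k - 1 := by
  haveI : NeZero (q ^ k - 1) := ⟨(q_pow_sub_pos hk).ne'⟩
  haveI := neZero_K (F := F) hk
  exact HasEnoughRootsOfUnity.natCard_rootsOfUnity (K F) _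

/-! ### the pairing -/

variable (F) in
/-- the standard primitive root of unity of order `q ^ k - 1` -/
noncomputable def zt (k : ℕ) : ℂ :=
  Complex.exp (2 * Real.pi * Complex.I / ((q ^ k - 1 : ℕ) : ℂ))

theorem zt_prim {k : ℕ} (hk : 0 < k) : IsPrimitiveRoot (zt F k) (q ^ k - 1) :=
  Complex.isPrimitiveRoot_exp _ (q_pow_sub_pos hk).ne'

theorem th_eq_zt {k : ℕ} {ξ : (K F)ˣ} (h : ξ ∈ Mk F k) : (th F ξ : ℂ) = zt F k ^ lgz k ξ := by
  have hk := pos_of_mem_Mk h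
  haveI : NeZero (q ^ k - 1) := ⟨(q_pow_sub_pos hk).ne'⟩
  have h1 : (th F ξ : ℂ) ^ (q ^ k - 1) = 1 := by
    rw [← Units.val_pow_eq_pow_val, ← map_pow, pow_of_mem_Mk' h, map_one, Units.val_one]
  obtain ⟨i, -, hi⟩ := (zt_prim hk).eq_pow_of_pow_eq_one h1
  exact Classical.epsilon_spec (p := fun a : ℕ => (th F ξ : ℂ) = zt F k ^ a) ⟨i, hi.symm⟩

theorem pr_apply (k : ℕ) (ξ x : (K F)ˣ) : pr k ξ x = th F x ^ lgz k ξ := rfl

theorem pr_comm {k : ℕ} {ξ x : (K F)ˣ} (hξ : ξ ∈ Mk F k) (hx : x ∈ Mk F k) :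
    pr k ξ x = pr k x ξ := by
  apply Units.ext
  rw [pr_apply, pr_apply, Units.val_pow_eq_pow_val, Units.val_pow_eq_pow_val, th_eq_zt hξ,
    th_eq_zt hx, ← pow_mul, ← pow_mul, mul_comm]

theorem pr_mul {k : ℕ} {ξ η x : (K F)ˣ} (hξ : ξ ∈ Mk F k) (hη : η ∈ Mk F k) (hx : x ∈ Mk F k) :
    pr k (ξ * η) x = pr k ξ x * pr k η x := by
  rw [pr_comm (mul_mem_Mk hξ hη) hx, map_mul, pr_comm hx hξ, pr_comm hx hη]

theorem pr_one {k : ℕ} {x : (K F)ˣ} (hx : x ∈ Mk F k) : pr k 1 x = 1 := by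
  rw [pr_comm (one_mem_Mk (pos_of_mem_Mk hx)) hx, map_one]

theorem pr_pow {k : ℕ} {ξ x : (K F)ˣ} (hξ : ξ ∈ Mk F k) (hx : x ∈ Mk F k) (n : ℕ) :
    pr k (ξ ^ n) x = pr k ξ x ^ n := by
  rw [pr_comm (pow_mem_Mk hξ n) hx, map_pow, pr_comm hx hξ]

theorem pr_inv {k : ℕ} {ξ x : (K F)ˣ} (hξ : ξ ∈ Mk F k) (hx : x ∈ Mk F k) :
    pr k ξ⁻¹ x = (pr k ξ x)⁻¹ := by
  rw [pr_comm (inv_mem_Mk hξ) hx, map_inv, pr_comm hx hξ]

theorem pr_pow' {k : ℕ} {ξ x : (K F)ˣ} (hξ : ξ ∈ Mk F k) (hx : x ∈ Mk F k) (n : ℕ) :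
    pr k (ξ ^ n) x = pr k ξ (x ^ n) := by rw [pr_pow hξ hx, map_pow]

theorem pr_pow_q {k : ℕ} {ξ x : (K F)ˣ} (hξ : ξ ∈ Mk F k) (hx : x ∈ Mk F k) :
    pr k (ξ ^ q) x = pr k ξ (x ^ q) := pr_pow' hξ hx _

theorem pr_prod {k : ℕ} (hk : 0 < k) {ι : Type*} {s : Finset ι} {f : ι → (K F)ˣ}
    (h : ∀ i ∈ s, f i ∈ Mk F k) {x : (K F)ˣ} (hx : x ∈ Mk F k) :
    pr k (∏ i ∈ s, f i) x = ∏ i ∈ s, pr k (f i) x := by
  rw [pr_comm (prod_mem_Mk hk h) hx, map_prod]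
  exact Finset.prod_congr rfl fun i hi => pr_comm hx (h i hi)

theorem conj_th (x : (K F)ˣ) : (starRingEnd ℂ) (th F x : ℂ) = (th F x⁻¹ : ℂ) := by
  have h : ‖(th F x : ℂ)‖ = 1 := by
    refine Complex.norm_eq_one_of_pow_eq_one (n := orderOf x) ?_ (orderOf_pos_K x).ne'
    rw [← Units.val_pow_eq_pow_val, ← map_pow, pow_orderOf_eq_one, map_one, Units.val_one]
  rw [map_inv, Units.val_inv_eq_inv_val, Complex.inv_eq_conj h]

theorem conj_pr (k : ℕ) (ξ x : (K F)ˣ) :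
    (starRingEnd ℂ) (pr k ξ x : ℂ) = (pr k ξ x⁻¹ : ℂ) := by
  rw [pr_apply, pr_apply, Units.val_pow_eq_pow_val, Units.val_pow_eq_pow_val, map_pow, conj_th]

theorem exists_gen {k : ℕ} (hk : 0 < k) : ∃ g ∈ Mk F k, (th F g : ℂ) = zt F k := by
  haveI : NeZero (q ^ k - 1) := ⟨(q_pow_sub_pos hk).ne'⟩
  haveI := neZero_K (F := F) hk
  obtain ⟨z, hz⟩ := HasEnoughRootsOfUnity.exists_primitiveRoot (K F) (q ^ k - 1)
  obtain ⟨g, rfl⟩ := hz.isUnit (NeZero.ne _)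
  have hg : IsPrimitiveRoot g (q ^ k - 1) := IsPrimitiveRoot.coe_units_iff.1 hz
  have h1 : IsPrimitiveRoot (th F g : ℂ) (q ^ k - 1) :=
    IsPrimitiveRoot.coe_units_iff.2 (hg.map_of_injective (th_injective F))
  obtain ⟨i, -, hi⟩ := h1.eq_pow_of_pow_eq_one (zt_prim hk).pow_eq_one
  exact ⟨g ^ i, pow_mem_Mk ((mem_Mk' hk).2 hg.pow_eq_one) i, by rw [map_pow, ← hi]; simp⟩

variable (F) in
/-- the standard generator of `Mk k` -/
noncomputable def gen (k : ℕ) : (K F)ˣ := by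
  classical exact if hk : 0 < k then (exists_gen (F := F) hk).choose else 1

theorem gen_mem {k : ℕ} (hk : 0 < k) : gen F k ∈ Mk F k := by
  rw [gen, dif_pos hk]; exact (exists_gen hk).choose_spec.1

theorem th_gen {k : ℕ} (hk : 0 < k) : (th F (gen F k) : ℂ) = zt F k := by
  rw [gen, dif_pos hk]; exact (exists_gen hk).choose_spec.2

theorem gen_pow_lgz {k : ℕ} {ξ : (K F)ˣ} (h : ξ ∈ Mk F k) : gen F k ^ lgz k ξ = ξ :=
  th_injective F (Units.ext (by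
    rw [map_pow, Units.val_pow_eq_pow_val, th_gen (pos_of_mem_Mk h), th_eq_zt h]))

theorem orderOf_gen {k : ℕ} (hk : 0 < k) : orderOf (gen F k) = q ^ k - 1 := by
  rw [← orderOf_th, ← orderOf_units, th_gen hk, ← (zt_prim hk).eq_orderOf]

theorem pr_gen_right {k : ℕ} {ξ : (K F)ˣ} (h : ξ ∈ Mk F k) : pr k ξ (gen F k) = th F ξ := by
  rw [pr_apply, ← map_pow, gen_pow_lgz h]

theorem pr_gen {k : ℕ} {x : (K F)ˣ} (h : x ∈ Mk F k) : pr k (gen F k) x = th F x := by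
  rw [pr_comm (gen_mem (pos_of_mem_Mk h)) h, pr_gen_right h]

/-- `th ^ a` on `Mk k` is `pr k (gen k ^ a)` -/
theorem pr_gen_pow {k : ℕ} {x : (K F)ˣ} (h : x ∈ Mk F k) (a : ℕ) :
    pr k (gen F k ^ a) x = th F x ^ a := by
  rw [pr_pow (gen_mem (pos_of_mem_Mk h)) h, pr_gen h]

theorem eq_of_pr_eq {k : ℕ} {ξ η : (K F)ˣ} (hξ : ξ ∈ Mk F k) (hη : η ∈ Mk F k)
    (h : ∀ x ∈ Mk F k, pr k ξ x = pr k η x) : ξ = η := by
  have := h _ (gen_mem (pos_of_mem_Mk hξ))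
  rw [pr_gen_right hξ, pr_gen_right hη] at this
  exact th_injective F this

theorem sum_Mk_mul_left {k : ℕ} {y : (K F)ˣ} (hy : y ∈ Mk F k) {A : Type*} [AddCommMonoid A]
    (f : (K F)ˣ → A) : ∑ x ∈ Mk F k, f (y * x) = ∑ x ∈ Mk F k, f x :=
  Finset.sum_nbij' (fun x => y * x) (fun x => y⁻¹ * x) (fun _ hx => mul_mem_Mk hy hx)
    (fun _ hx => mul_mem_Mk (inv_mem_Mk hy) hx) (fun x _ => by simp) (fun x _ => by simp)
    fun _ _ => rfl

theorem sum_Mk_pow_q {k : ℕ} (n : ℕ) {A : Type*} [AddCommMonoid A]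
    (f : (K F)ˣ → A) : ∑ x ∈ Mk F k, f (x ^ q ^ n) = ∑ x ∈ Mk F k, f x := by
  classical
  refine Finset.sum_bij (fun x _ => x ^ q ^ n) (fun x hx => pow_mem_Mk hx _)
    (fun x _ y _ h => pow_q_injective n h) (fun y hy => ?_) fun _ _ => rfl
  have : (Mk F k).image (fun x => x ^ q ^ n) = Mk F k :=
    Finset.eq_of_subset_of_card_le (fun z hz => by
      obtain ⟨x, hx, rfl⟩ := Finset.mem_image.1 hz
      exact pow_mem_Mk hx _) (by rw [Finset.card_image_of_injective _ (pow_q_injective n)])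
  rw [← this] at hy
  obtain ⟨x, hx, rfl⟩ := Finset.mem_image.1 hy
  exact ⟨x, hx, rfl⟩

theorem sum_pr {k : ℕ} {ξ : (K F)ˣ} (hξ : ξ ∈ Mk F k) :
    ∑ x ∈ Mk F k, (pr k ξ x : ℂ) = if ξ = 1 then ((q ^ k - 1 : ℕ) : ℂ) else 0 := by
  have hk := pos_of_mem_Mk hξ
  split_ifs with h
  · subst h
    rw [Finset.sum_congr rfl fun x hx => congrArg Units.val (pr_one hx)]
    simp [card_Mk hk]
  · have h1 := sum_Mk_mul_left (gen_mem (F := F) hk) fun x => (pr k ξ x : ℂ)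
    simp only [map_mul, Units.val_mul, ← Finset.mul_sum, pr_gen_right hξ] at h1
    have h2 : (th F ξ : ℂ) ≠ 1 := fun h2 =>
      h (th_injective F ((Units.ext h2).trans (map_one _).symm))
    exact eq_zero_of_mul_eq_self_left h2 h1

theorem sum_pr_left {k : ℕ} {x : (K F)ˣ} (hx : x ∈ Mk F k) :
    ∑ ξ ∈ Mk F k, (pr k ξ x : ℂ) = if x = 1 then ((q ^ k - 1 : ℕ) : ℂ) else 0 := by
  rw [← sum_pr hx]
  exact Finset.sum_congr rfl fun ξ hξ => by rw [pr_comm hξ hx]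

theorem sum_pr_conj {k : ℕ} {ξ η : (K F)ˣ} (hξ : ξ ∈ Mk F k) (hη : η ∈ Mk F k) :
    ∑ x ∈ Mk F k, (pr k ξ x : ℂ) * (starRingEnd ℂ) (pr k η x : ℂ) =
      if ξ = η then ((q ^ k - 1 : ℕ) : ℂ) else 0 := by
  have := sum_pr (mul_mem_Mk hξ (inv_mem_Mk hη))
  simp only [mul_inv_eq_one] at this
  rw [← this]
  refine Finset.sum_congr rfl fun x hx => ?_
  rw [conj_pr, pr_mul hξ (inv_mem_Mk hη) hx, pr_inv hη hx, map_inv, Units.val_mul]

/-- the geometric sum -/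
theorem geom_mul (c m : ℕ) : (∑ i ∈ range m, q ^ (c * i)) * (q ^ c - 1) = q ^ (c * m) - 1 := by
  have := geom_sum_mul_add (q ^ c - 1) m
  rw [q_pow_sub_add] at this
  simp only [pow_mul]
  omega

theorem prod_pow_q (c m : ℕ) (x : (K F)ˣ) :
    ∏ i ∈ range m, x ^ q ^ (c * i) = x ^ ∑ i ∈ range m, q ^ (c * i) :=
  Finset.prod_pow_eq_pow_sum _ _ _

theorem norm_mem_Mk {c k : ℕ} (h : c ∣ k) {x : (K F)ˣ} (hx : x ∈ Mk F k) :
    ∏ i ∈ range (k / c), x ^ q ^ (c * i) ∈ Mk F c := by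
  have hk := pos_of_mem_Mk hx
  obtain ⟨m, rfl⟩ := h
  have hc : 0 < c := Nat.pos_of_mul_pos_right hk |> fun _ => Nat.pos_of_ne_zero (by
    rintro rfl; simp at hk)
  rw [mem_Mk' hc, prod_pow_q, ← pow_mul, Nat.mul_div_cancel_left _ hc, geom_mul,
    pow_of_mem_Mk' hx]

theorem zt_pow_geom {c m : ℕ} (hc : 0 < c) (hm : 0 < m) :
    zt F (c * m) ^ (∑ i ∈ range m, q ^ (c * i)) = zt F c := by
  rw [zt, zt, ← Complex.exp_nat_mul, ← geom_mul]
  have h1 : ((q ^ c - 1 : ℕ) : ℂ) ≠ 0 := Nat.cast_ne_zero.2 (q_pow_sub_pos hc).ne'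
  have h2 : ((∑ i ∈ range m, q ^ (c * i) : ℕ) : ℂ) ≠ 0 := Nat.cast_ne_zero.2 (by
    intro h
    have := geom_mul (F := F) c m
    rw [h, zero_mul] at this
    exact (q_pow_sub_pos (F := F) (Nat.mul_pos hc hm)).ne this)
  congr 1
  rw [Nat.cast_mul]
  field_simp

/-- compatibility of the pairings with the norm maps -/
theorem pr_compat {c k : ℕ} (h : c ∣ k) {ξ x : (K F)ˣ} (hξ : ξ ∈ Mk F c) (hx : x ∈ Mk F k) :
    pr k ξ x = pr c ξ (∏ i ∈ range (k / c), x ^ q ^ (c * i)) := by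
  have hk := pos_of_mem_Mk hx
  have hc := pos_of_mem_Mk hξ
  rw [pr_comm (mem_Mk_of_dvd hk h hξ) hx]
  obtain ⟨m, rfl⟩ := h
  have hm : 0 < m := Nat.pos_of_mul_pos_left hk
  apply Units.ext
  rw [Nat.mul_div_cancel_left _ hc, prod_pow_q, pr_apply, pr_apply, map_pow]
  simp only [Units.val_pow_eq_pow_val]
  rw [th_eq_zt hξ, th_eq_zt hx, ← zt_pow_geom hc hm]
  simp only [← pow_mul]
  congr 1
  ring

/-- the norm maps are onto -/
theorem norm_gen {c m : ℕ} (hc : 0 < c) (hm : 0 < m) :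
    ∏ i ∈ range m, gen F (c * m) ^ q ^ (c * i) = gen F c :=
  th_injective F (Units.ext (by
    rw [prod_pow_q, map_pow, Units.val_pow_eq_pow_val, th_gen (Nat.mul_pos hc hm), th_gen hc,
      zt_pow_geom hc hm]))

theorem exists_norm_eq {c k : ℕ} (hk : 0 < k) (h : c ∣ k) {y : (K F)ˣ} (hy : y ∈ Mk F c) :
    ∃ x ∈ Mk F k, ∏ i ∈ range (k / c), x ^ q ^ (c * i) = y := by
  have hc := pos_of_mem_Mk hy
  obtain ⟨m, rfl⟩ := h
  have hm : 0 < m := Nat.pos_of_mul_pos_left hk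
  refine ⟨gen F (c * m) ^ lgz c y, pow_mem_Mk (gen_mem hk) _, ?_⟩
  rw [Nat.mul_div_cancel_left _ hc, prod_pow_q, ← pow_mul, mul_comm (lgz c y), pow_mul,
    ← prod_pow_q, norm_gen hc hm, gen_pow_lgz hy]

/-! ### the characters of `Fˣ` -/

omit [Fintype F] in
theorem iu_injective : Injective (iu : Fˣ →* (K F)ˣ) :=
  Units.map_injective (algebraMap F (K F)).injective

omit [Fintype F] in
theorem iu_val (lam : Fˣ) : (iu lam : K F) = algebraMap F (K F) lam := rfl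

omit [Fintype F] in
theorem orderOf_iu (lam : Fˣ) : orderOf (iu lam) = orderOf lam :=
  orderOf_injective _ iu_injective lam

theorem units_pow_sub_one (lam : Fˣ) : lam ^ (q - 1) = 1 :=
  Units.ext (by simpa using FiniteField.pow_card_sub_one_eq_one (lam : F) lam.ne_zero)

theorem orderOf_dvd_q_sub_one (lam : Fˣ) : orderOf lam ∣ q - 1 :=
  orderOf_dvd_of_pow_eq_one (units_pow_sub_one lam)

theorem iu_mem (lam : Fˣ) : iu lam ∈ Mk F 1 :=
  (mem_Mk' one_pos).2 (by rw [pow_one, ← map_pow, units_pow_sub_one, map_one])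

theorem iu_mem_Mk {k : ℕ} (hk : 0 < k) (lam : Fˣ) : iu lam ∈ Mk F k :=
  mem_Mk_of_dvd hk (one_dvd k) (iu_mem lam)

theorem iu_pow_q (lam : Fˣ) (n : ℕ) : iu lam ^ q ^ n = iu lam :=
  (per_io_dvd_iff _ n).1 (((mem_Mk_per one_pos).1 (iu_mem lam)).trans (one_dvd n))

theorem mem_Mk_one {x : (K F)ˣ} : x ∈ Mk F 1 ↔ ∃ lam : Fˣ, iu lam = x := by
  classical
  refine ⟨fun hx => ?_, fun ⟨lam, h⟩ => h ▸ iu_mem lam⟩
  have : (univ : Finset Fˣ).image iu = Mk F 1 :=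
    Finset.eq_of_subset_of_card_le (fun z hz => by
      obtain ⟨x, -, rfl⟩ := Finset.mem_image.1 hz
      exact iu_mem x) (by
        rw [Finset.card_image_of_injective _ iu_injective, card_Mk one_pos, card_univ,
          Fintype.card_units, pow_one])
  rw [← this] at hx
  obtain ⟨lam, -, h⟩ := Finset.mem_image.1 hx
  exact ⟨lam, h⟩

theorem range_iu : Set.range (iu : Fˣ →* (K F)ˣ) = Mk F 1 := by
  ext x; rw [Finset.mem_coe, mem_Mk_one]; rfl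

/-- an element whose order divides `q - 1` lies in `F` -/
theorem exists_iu_of_pow {r : ℕ} (hr : r ∣ q - 1) {x : (K F)ˣ} (hx : x ^ r = 1) :
    ∃ lam : Fˣ, iu lam = x := by
  obtain ⟨c, hc⟩ := hr
  exact mem_Mk_one.1 ((mem_Mk' one_pos).2 (by rw [pow_one, hc, pow_mul, hx, one_pow]))

theorem chr_apply (lam x : Fˣ) : chr lam x = pr 1 (iu lam) (iu x) := rfl

theorem chr_comm (lam x : Fˣ) : chr lam x = chr x lam := pr_comm (iu_mem _) (iu_mem _)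

theorem chr_mul (lam mu : Fˣ) : chr (lam * mu) = chr lam * chr mu :=
  MonoidHom.ext fun x => by
    rw [MonoidHom.mul_apply, chr_comm, map_mul, chr_comm x, chr_comm x]

theorem chr_one : chr (1 : Fˣ) = 1 :=
  MonoidHom.ext fun x => by rw [chr_comm, map_one, MonoidHom.one_apply]

variable (F) in
/-- `chr` as a homomorphism -/
noncomputable def chrH : Fˣ →* (Fˣ →* ℂˣ) := ⟨⟨chr, chr_one⟩, chr_mul⟩

theorem chrH_apply (lam : Fˣ) : chrH F lam = chr lam := rfl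

theorem chr_pow (lam : Fˣ) (n : ℕ) : chr (lam ^ n) = chr lam ^ n := map_pow (chrH F) lam n

theorem chr_inv (lam : Fˣ) : chr lam⁻¹ = (chr lam)⁻¹ := map_inv (chrH F) lam

theorem chr_injective : Injective (chr : Fˣ → (Fˣ →* ℂˣ)) := fun lam mu h =>
  iu_injective (eq_of_pr_eq (iu_mem _) (iu_mem _) fun x hx => by
    obtain ⟨y, rfl⟩ := mem_Mk_one.1 hx
    exact DFunLike.congr_fun h y)

theorem card_hom_units : Nat.card (Fˣ →* ℂˣ) = Nat.card Fˣ := by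
  haveI : NeZero (Monoid.exponent Fˣ) := ⟨Monoid.exponent_ne_zero_of_finite⟩
  exact CommGroup.card_monoidHom_of_hasEnoughRootsOfUnity Fˣ ℂ

theorem chr_bijective : Bijective (chr : Fˣ → (Fˣ →* ℂˣ)) := by
  haveI : Finite (Fˣ →* ℂˣ) := Nat.finite_of_card_ne_zero (by
    rw [card_hom_units]; exact Nat.card_pos.ne')
  exact chr_injective.bijective_of_nat_card_le card_hom_units.le

theorem orderOf_chr (lam : Fˣ) : orderOf (chr lam) = orderOf lam :=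
  orderOf_injective (chrH F) chr_injective lam

/-- `pr k (iu λ)` is `chr λ` of the norm -/
theorem pr_iu {k : ℕ} (lam : Fˣ) {x : (K F)ˣ} (hx : x ∈ Mk F k) :
    pr k (iu lam) x = pr 1 (iu lam) (∏ i ∈ range k, x ^ q ^ i) := by
  simpa using pr_compat (one_dvd k) (iu_mem lam) hx

end Cfsg.GLn
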