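import Cfsg.Agent.GLn.Ar

/-!
# S4536: arithmetic of the algebraic closure, part 2 (`ℓ`-parts, `rpI`, `powI`, `mulI`, `fib`)
-/

set_option autoImplicit false

namespace Cfsg.GLn

open Finset Function

universe u

variable {F : Type u} [Field F] [Fintype F]

local notation "q" => Fintype.card F

/-! ### orbits of bounded length -/

variable (F) in
/-- the orbits whose length divides `k` (`0 < k`) -/
noncomputable def Ok (k : ℕ) : Finset (I F) := (Mk F k).image io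

theorem mem_Ok {k : ℕ} (hk : 0 < k) {o : I F} : o ∈ Ok F k ↔ o.per ∣ k := by
  rw [Ok, Finset.mem_image]
  constructor
  · rintro ⟨x, hx, rfl⟩
    exact (mem_Mk_per hk).1 hx
  · exact fun h => ⟨o.rep, rep_mem_Mk hk h, io_rep o⟩

theorem sum_Mk_orbits (k : ℕ) {A : Type*} [AddCommMonoid A] (f : (K F)ˣ → A) :
    ∑ x ∈ Mk F k, f x = ∑ o ∈ Ok F k, ∑ x ∈ o.pts, f x := by
  rcases Nat.eq_zero_or_pos k with rfl | hk
  · simp [Ok, Mk_zero]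
  exact (allPer F).sum_orbits _ _ (fun x => by rw [mem_Mk_per hk, mem_Ok hk]) f

theorem sum_Mk_io (k : ℕ) {A : Type*} [AddCommMonoid A] (f : I F → A) :
    ∑ x ∈ Mk F k, f (io x) = ∑ o ∈ Ok F k, o.per • f o := by
  rw [sum_Mk_orbits]
  refine Finset.sum_congr rfl fun o _ => ?_
  rw [← o.card_pts, ← Finset.sum_const]
  exact Finset.sum_congr rfl fun x hx => by rw [mem_pts.1 hx]

theorem finite_per_le (n : ℕ) : {o : I F | o.per ≤ n}.Finite :=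
  (Ok F n.factorial).finite_toSet.subset fun o ho =>
    (mem_Ok n.factorial_pos).2 (Nat.dvd_factorial (per_pos o) ho)

theorem pts_eq (x : (K F)ˣ) : (io x).pts = (range (io x).per).image fun i => x ^ q ^ i := by
  rw [(allPer F).pts_omk, (allPer F).per_omk]
  simp only [fr_iterate]

theorem sum_pts_io (x : (K F)ˣ) {A : Type*} [AddCommMonoid A] (f : (K F)ˣ → A) :
    ∑ y ∈ (io x).pts, f y = ∑ i ∈ range (io x).per, f (x ^ q ^ i) := by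
  rw [(allPer F).sum_pts_omk, (allPer F).per_omk]
  simp only [fr_iterate]

theorem sum_range_pow_q (x : (K F)ˣ) {A : Type*} [AddCommMonoid A] (f : (K F)ˣ → A) {k : ℕ}
    (hk : (io x).per ∣ k) :
    ∑ i ∈ range k, f (x ^ q ^ i) = (k / (io x).per) • ∑ y ∈ (io x).pts, f y := by
  have := Dyn.sum_range_of_dvd (T := fr F) x f (k := k) (by rwa [← (allPer F).per_omk])
  simp only [fr_iterate, ← (allPer F).per_omk] at this
  rw [this, sum_pts_io]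

theorem pow_q_eq_pow_q_iff (x : (K F)ˣ) (i j : ℕ) :
    x ^ q ^ i = x ^ q ^ j ↔ i ≡ j [MOD (io x).per] := by
  wlog h : i ≤ j generalizing i j
  · rw [eq_comm, this j i (by omega)]
    exact ⟨Nat.ModEq.symm, Nat.ModEq.symm⟩
  obtain ⟨d, rfl⟩ := Nat.exists_eq_add_of_le h
  rw [Nat.modEq_iff_dvd' h, Nat.add_sub_cancel_left, per_io_dvd_iff, add_comm, pow_add, pow_mul]
  exact ⟨fun h => (pow_q_injective i h).symm, fun h => by rw [h]⟩

/-! ### `ℓ`-parts -/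

section parts

variable {ℓ : ℕ} [hl : Fact ℓ.Prime]

theorem exists_MG₂ (x y : (K F)ˣ) : ∃ k, Finite (MG F k) ∧ x ∈ MG F k ∧ y ∈ MG F k := by
  obtain ⟨k, hx, hy⟩ := exists_mem_Mk₂ x y
  have hk := pos_of_mem_Mk hx
  exact ⟨k, finite_MG hk, (mem_MG hk).2 hx, (mem_MG hk).2 hy⟩

theorem pPartK_mul (x y : (K F)ˣ) : pPart ℓ (x * y) = pPart ℓ x * pPart ℓ y := by
  obtain ⟨k, _, hx, hy⟩ := exists_MG₂ x y
  have := congrArg Subtype.val (pPart_mul (p := ℓ) (x := (⟨x, hx⟩ : MG F k)) (y := ⟨y, hy⟩)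
    (Commute.all _ _))
  simpa [coe_pPart] using this

theorem pRegPartK_mul (x y : (K F)ˣ) : pRegPart ℓ (x * y) = pRegPart ℓ x * pRegPart ℓ y := by
  simp only [pRegPart, pPartK_mul, mul_inv]
  exact mul_mul_mul_comm _ _ _ _

omit hl [Fintype F] in
theorem pPartK_inv (x : (K F)ˣ) : pPart ℓ x⁻¹ = (pPart ℓ x)⁻¹ := pPart_inv ℓ x

variable (F ℓ) in
/-- the `ℓ`-part as a homomorphism -/
noncomputable def pPartH : (K F)ˣ →* (K F)ˣ := ⟨⟨pPart ℓ, pPart_one ℓ⟩, pPartK_mul⟩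

variable (F ℓ) in
/-- the `ℓ'`-part as a homomorphism -/
noncomputable def pRegH : (K F)ˣ →* (K F)ˣ := ⟨⟨pRegPart ℓ, pRegPart_one ℓ⟩, pRegPartK_mul⟩

theorem pPartK_pow (x : (K F)ˣ) (n : ℕ) : pPart ℓ (x ^ n) = pPart ℓ x ^ n :=
  map_pow (pPartH F ℓ) x n

theorem pRegPartK_pow (x : (K F)ˣ) (n : ℕ) : pRegPart ℓ (x ^ n) = pRegPart ℓ x ^ n :=
  map_pow (pRegH F ℓ) x n

theorem exists_orderOf_pPartK (x : (K F)ˣ) : ∃ a : ℕ, orderOf (pPart ℓ x) = ℓ ^ a := by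
  obtain ⟨k, _, hx, -⟩ := exists_MG₂ x x
  obtain ⟨a, ha⟩ := exists_orderOf_pPart (p := ℓ) (⟨x, hx⟩ : MG F k)
  exact ⟨a, by rw [← ha, ← Subgroup.orderOf_coe, coe_pPart]⟩

theorem not_dvd_orderOf_pRegPartK (x : (K F)ˣ) : ¬ ℓ ∣ orderOf (pRegPart ℓ x) := by
  obtain ⟨k, _, hx, -⟩ := exists_MG₂ x x
  have := not_dvd_orderOf_pRegPart (p := ℓ) (⟨x, hx⟩ : MG F k)
  rwa [← Subgroup.orderOf_coe, coe_pRegPart] at this

theorem pRegPartK_eq_self_iff {x : (K F)ˣ} : pRegPart ℓ x = x ↔ ¬ ℓ ∣ orderOf x := by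
  obtain ⟨k, _, hx, -⟩ := exists_MG₂ x x
  have := pRegPart_eq_self_iff (p := ℓ) (g := (⟨x, hx⟩ : MG F k))
  rwa [← Subgroup.orderOf_coe, Subtype.ext_iff, coe_pRegPart] at this

theorem pRegPartK_eq_one_iff {x : (K F)ˣ} : pRegPart ℓ x = 1 ↔ ∃ a : ℕ, orderOf x = ℓ ^ a := by
  obtain ⟨k, _, hx, -⟩ := exists_MG₂ x x
  have := pRegPart_eq_one_iff (p := ℓ) (g := (⟨x, hx⟩ : MG F k))
  rwa [← Subgroup.orderOf_coe, Subtype.ext_iff, coe_pRegPart] at this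

theorem pPartK_eq_self_iff {x : (K F)ˣ} : pPart ℓ x = x ↔ ∃ a : ℕ, orderOf x = ℓ ^ a := by
  obtain ⟨k, _, hx, -⟩ := exists_MG₂ x x
  have := pPart_eq_self_iff (p := ℓ) (g := (⟨x, hx⟩ : MG F k))
  rwa [← Subgroup.orderOf_coe, Subtype.ext_iff, coe_pPart] at this

theorem pPartK_eq_one_iff {x : (K F)ˣ} : pPart ℓ x = 1 ↔ ¬ ℓ ∣ orderOf x := by
  obtain ⟨k, _, hx, -⟩ := exists_MG₂ x x
  have := pPart_eq_one_iff (p := ℓ) (g := (⟨x, hx⟩ : MG F k))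
  rwa [← Subgroup.orderOf_coe, Subtype.ext_iff, coe_pPart] at this

theorem pRegPartK_idem (x : (K F)ˣ) : pRegPart ℓ (pRegPart ℓ x) = pRegPart ℓ x :=
  pRegPartK_eq_self_iff.2 (not_dvd_orderOf_pRegPartK x)

theorem pPartK_idem (x : (K F)ˣ) : pPart ℓ (pPart ℓ x) = pPart ℓ x :=
  pPartK_eq_self_iff.2 (exists_orderOf_pPartK x)

theorem pRegPartK_pPart (x : (K F)ˣ) : pRegPart ℓ (pPart ℓ x) = 1 :=
  pRegPartK_eq_one_iff.2 (exists_orderOf_pPartK x)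

theorem pPartK_pRegPart (x : (K F)ˣ) : pPart ℓ (pRegPart ℓ x) = 1 :=
  pPartK_eq_one_iff.2 (not_dvd_orderOf_pRegPartK x)

theorem pRegPartK_mul_of {s u : (K F)ˣ} (hs : ¬ ℓ ∣ orderOf s) (hu : ∃ a : ℕ, orderOf u = ℓ ^ a) :
    pRegPart ℓ (s * u) = s := by
  rw [pRegPartK_mul, pRegPartK_eq_self_iff.2 hs, pRegPartK_eq_one_iff.2 hu, mul_one]

theorem pPartK_mul_of {s u : (K F)ˣ} (hs : ¬ ℓ ∣ orderOf s) (hu : ∃ a : ℕ, orderOf u = ℓ ^ a) :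
    pPart ℓ (s * u) = u := by
  rw [pPartK_mul, pPartK_eq_one_iff.2 hs, pPartK_eq_self_iff.2 hu, one_mul]

theorem not_dvd_orderOf_mul {s t : (K F)ˣ} (hs : ¬ ℓ ∣ orderOf s) (ht : ¬ ℓ ∣ orderOf t) :
    ¬ ℓ ∣ orderOf (s * t) :=
  pPartK_eq_one_iff.1 (by rw [pPartK_mul, pPartK_eq_one_iff.2 hs, pPartK_eq_one_iff.2 ht, one_mul])

theorem iu_pRegPart (lam : Fˣ) : iu (pRegPart ℓ lam) = pRegPart ℓ (iu lam) := by
  have h := pRegPart_mul_pPart ℓ lam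
  conv_rhs => rw [← h, map_mul]
  rw [pRegPartK_mul_of (by rw [orderOf_iu]; exact not_dvd_orderOf_pRegPart lam)
    (by rw [orderOf_iu]; exact exists_orderOf_pPart lam)]

theorem iu_pPart (lam : Fˣ) : iu (pPart ℓ lam) = pPart ℓ (iu lam) := by
  have h := pRegPart_mul_pPart ℓ lam
  conv_rhs => rw [← h, map_mul]
  rw [pPartK_mul_of (by rw [orderOf_iu]; exact not_dvd_orderOf_pRegPart lam)
    (by rw [orderOf_iu]; exact exists_orderOf_pPart lam)]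

omit hl in
theorem pPart_mem_Mk {k : ℕ} {x : (K F)ˣ} (hx : x ∈ Mk F k) : pPart ℓ x ∈ Mk F k :=
  pow_mem_Mk hx _

omit hl in
theorem pRegPart_mem_Mk {k : ℕ} {x : (K F)ˣ} (hx : x ∈ Mk F k) : pRegPart ℓ x ∈ Mk F k :=
  mul_mem_Mk (inv_mem_Mk (pPart_mem_Mk hx)) hx

omit hl in
theorem reg_io {x : (K F)ˣ} : Reg ℓ (io x) ↔ ¬ ℓ ∣ orderOf x := by rw [Reg, orderOf_rep_io]

theorem rpI_io (x : (K F)ˣ) : rpI ℓ (io x) = io (pRegPart ℓ x) := by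
  obtain ⟨n, hn⟩ := exists_rep_io x
  rw [rpI, hn, pRegPartK_pow, io_pow_q]

theorem reg_rpI (o : I F) : Reg ℓ (rpI ℓ o) := reg_io.2 (not_dvd_orderOf_pRegPartK _)

theorem rpI_eq_self_iff {o : I F} : rpI ℓ o = o ↔ Reg ℓ o :=
  ⟨fun h => h ▸ reg_rpI o, fun h => by rw [rpI, pRegPartK_eq_self_iff.2 h, io_rep]⟩

theorem Reg.rpI_eq {o : I F} (h : Reg ℓ o) : rpI ℓ o = o := rpI_eq_self_iff.2 h

theorem rpI_rpI (o : I F) : rpI ℓ (rpI ℓ o) = rpI ℓ o := (reg_rpI o).rpI_eq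

omit hl in
theorem per_rpI_dvd (o : I F) : (rpI ℓ o).per ∣ o.per :=
  (mem_Mk_per (per_pos o)).1 (pRegPart_mem_Mk (rep_mem_Mk (per_pos o) dvd_rfl))

/-- every orbit over `ψ` is the orbit of `ψ.rep * u` for an `ℓ`-element `u` -/
theorem exists_io_of_rpI {φ ψ : I F} (h : rpI ℓ φ = ψ) :
    ∃ u : (K F)ˣ, (∃ a : ℕ, orderOf u = ℓ ^ a) ∧ φ = io (ψ.rep * u) := by
  obtain ⟨n, hn⟩ := io_eq_iff.1 (h.trans (io_rep ψ).symm)
  refine ⟨pPart ℓ (φ.rep ^ q ^ n), exists_orderOf_pPartK _, ?_⟩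
  rw [← hn, ← pRegPartK_pow, pRegPart_mul_pPart, io_pow_q, io_rep]

theorem rpI_io_mul {s u : (K F)ˣ} (hs : ¬ ℓ ∣ orderOf s) (hu : ∃ a : ℕ, orderOf u = ℓ ^ a) :
    rpI ℓ (io (s * u)) = io s := by rw [rpI_io, pRegPartK_mul_of hs hu]

theorem per_io_mul {s u : (K F)ˣ} (h : (orderOf s).Coprime (orderOf u)) :
    (io (s * u)).per = Nat.lcm (io s).per (io u).per := by
  simp only [(allPer F).per_omk]
  exact Dyn.minimalPeriod_pow_mul _ (Commute.all _ _) h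

theorem coprime_orderOf_of {s u : (K F)ˣ} (hs : ¬ ℓ ∣ orderOf s)
    (hu : ∃ a : ℕ, orderOf u = ℓ ^ a) : (orderOf s).Coprime (orderOf u) := by
  obtain ⟨a, ha⟩ := hu
  rw [ha]
  exact ((Nat.Prime.coprime_iff_not_dvd hl.out).2 hs).symm.pow_right a

variable (F ℓ) in
/-- the `ℓ`-elements of `Mk k` -/
noncomputable def Lk (k : ℕ) : Finset (K F)ˣ := (Mk F k).filter fun u => pRegPart ℓ u = 1

variable (F ℓ) in
/-- the `ℓ'`-elements of `Mk k` -/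
noncomputable def Rk (k : ℕ) : Finset (K F)ˣ := (Mk F k).filter fun s => ¬ ℓ ∣ orderOf s

theorem mem_Lk {k : ℕ} {u : (K F)ˣ} :
    u ∈ Lk F ℓ k ↔ u ∈ Mk F k ∧ ∃ a : ℕ, orderOf u = ℓ ^ a := by
  rw [Lk, mem_filter, pRegPartK_eq_one_iff]

omit hl in
theorem mem_Rk {k : ℕ} {s : (K F)ˣ} : s ∈ Rk F ℓ k ↔ s ∈ Mk F k ∧ ¬ ℓ ∣ orderOf s := by
  rw [Rk, mem_filter]

theorem nl_pos (k : ℕ) : 0 < nl F ℓ k := pow_pos hl.out.pos _

omit hl in
theorem nl_dvd (k : ℕ) : nl F ℓ k ∣ q ^ k - 1 := Nat.ordProj_dvd _ _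

theorem mem_Lk' {k : ℕ} (hk : 0 < k) {u : (K F)ˣ} : u ∈ Lk F ℓ k ↔ u ^ nl F ℓ k = 1 := by
  rw [mem_Lk, mem_Mk_orderOf hk, ← orderOf_dvd_iff_pow_eq_one]
  constructor
  · rintro ⟨h, a, ha⟩
    rw [ha] at h ⊢
    exact pow_dvd_pow _ ((hl.out.pow_dvd_iff_le_factorization (q_pow_sub_pos hk).ne').1 h)
  · intro h
    obtain ⟨a, -, ha⟩ := (Nat.dvd_prime_pow hl.out).1 h
    exact ⟨h.trans (nl_dvd k), a, ha⟩

omit hl in
/-- the number of `r`-th roots of unity -/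
theorem card_roots {r k : ℕ} (hk : 0 < k) (hr : r ∣ q ^ k - 1) (S : Finset (K F)ˣ)
    (hS : ∀ x, x ∈ S ↔ x ^ r = 1) : #S = r := by
  haveI : NeZero (q ^ k - 1) := ⟨(q_pow_sub_pos hk).ne'⟩
  haveI := neZero_K (F := F) hk
  haveI : NeZero r := ⟨fun h => (NeZero.ne (q ^ k - 1)) (by rw [h] at hr; simpa using hr)⟩
  haveI := HasEnoughRootsOfUnity.of_dvd (K F) hr
  rw [← HasEnoughRootsOfUnity.natCard_rootsOfUnity (K F) r, ← Nat.card_eq_finsetCard]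
  exact Nat.card_congr (Equiv.subtypeEquivRight fun x => by rw [hS, mem_rootsOfUnity])

theorem card_Lk {k : ℕ} (hk : 0 < k) : #(Lk F ℓ k) = nl F ℓ k :=
  card_roots hk (nl_dvd k) _ fun _ => mem_Lk' hk

theorem one_mem_Lk {k : ℕ} (hk : 0 < k) : (1 : (K F)ˣ) ∈ Lk F ℓ k := (mem_Lk' hk).2 (one_pow _)

/-- splitting `Mk k` into `ℓ'`- and `ℓ`-parts -/
theorem sum_Mk_split (k : ℕ) {A : Type*} [AddCommMonoid A] (f : (K F)ˣ → A) :
    ∑ x ∈ Mk F k, f x = ∑ s ∈ Rk F ℓ k, ∑ u ∈ Lk F ℓ k, f (s * u) := by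
  rw [← Finset.sum_product']
  refine Finset.sum_nbij' (fun x => (pRegPart ℓ x, pPart ℓ x)) (fun y => y.1 * y.2)
    (fun x hx => ?_) (fun y hy => ?_) (fun x _ => pRegPart_mul_pPart ℓ x) (fun y hy => ?_)
    fun x _ => by rw [pRegPart_mul_pPart]
  · exact mem_product.2 ⟨mem_Rk.2 ⟨pRegPart_mem_Mk hx, not_dvd_orderOf_pRegPartK x⟩,
      mem_Lk.2 ⟨pPart_mem_Mk hx, exists_orderOf_pPartK x⟩⟩
  · exact mul_mem_Mk (mem_Rk.1 (mem_product.1 hy).1).1 (mem_Lk.1 (mem_product.1 hy).2).1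
  · have h1 := (mem_Rk.1 (mem_product.1 hy).1).2
    have h2 := (mem_Lk.1 (mem_product.1 hy).2).2
    exact Prod.ext (pRegPartK_mul_of h1 h2) (pPartK_mul_of h1 h2)

omit hl in
theorem e0_dvd_iff (k : ℕ) : e0 F ℓ ∣ k ↔ ℓ ∣ q ^ k - 1 := by
  rw [e0, Dyn.orderOf_zmod_dvd_iff, Nat.ModEq.comm,
    Nat.modEq_iff_dvd' (Nat.one_le_pow _ _ (q_pos F))]

theorem e0_pos (h : ℓ ≠ ringChar F) : 0 < e0 F ℓ :=
  Dyn.orderOf_zmod_pos hl.out.pos (coprime_q_prime hl.out h)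

theorem e0_dvd_sub_one (h : ℓ ≠ ringChar F) : e0 F ℓ ∣ ℓ - 1 :=
  Dyn.orderOf_zmod_dvd_sub_one hl.out (coprime_q_prime hl.out h)

theorem e0_lt (h : ℓ ≠ ringChar F) : e0 F ℓ < ℓ := by
  have h1 := hl.out.two_le
  have := Nat.le_of_dvd (by omega) (e0_dvd_sub_one h)
  omega

omit hl in
theorem e0_eq_one_iff : e0 F ℓ = 1 ↔ ℓ ∣ q - 1 := by
  rw [← Nat.dvd_one, e0_dvd_iff, pow_one]

theorem one_lt_nl_iff {k : ℕ} (hk : 0 < k) : 1 < nl F ℓ k ↔ e0 F ℓ ∣ k := by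
  rw [e0_dvd_iff, nl, hl.out.dvd_iff_one_le_factorization (q_pow_sub_pos hk).ne']
  constructor
  · intro h
    by_contra h0
    rw [show (q ^ k - 1).factorization ℓ = 0 by omega] at h
    simp at h
  · exact fun h => Nat.one_lt_pow (by omega) hl.out.one_lt

theorem nl_eq_one_iff {k : ℕ} (hk : 0 < k) : nl F ℓ k = 1 ↔ ¬ e0 F ℓ ∣ k := by
  rw [← one_lt_nl_iff hk]
  have := nl_pos (F := F) (ℓ := ℓ) k
  omega

/-- the length of the orbit of a non-trivial `ℓ`-element -/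
theorem per_io_of_pElt (h : ℓ ≠ ringChar F) {u : (K F)ˣ} (hu : ∃ a : ℕ, orderOf u = ℓ ^ a)
    (h1 : u ≠ 1) : ∃ b, (io u).per = e0 F ℓ * ℓ ^ b := by
  obtain ⟨a, ha⟩ := hu
  rw [(allPer F).per_omk]
  exact Dyn.minimalPeriod_pow_of_prime_pow hl.out (coprime_q_prime hl.out h)
    (a := a) (by rw [← ha, pow_orderOf_eq_one]) h1

omit hl in
theorem per_mul_ee (o : I F) : o.per * ee ℓ o = Nat.lcm o.per (e0 F ℓ) := by
  rw [ee, Nat.lcm, Nat.mul_div_assoc _ (Nat.gcd_dvd_right _ _)]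

theorem ee_pos (h : ℓ ≠ ringChar F) (o : I F) : 0 < ee ℓ o :=
  Nat.div_pos (Nat.le_of_dvd (e0_pos h) (Nat.gcd_dvd_right _ _))
    (Nat.gcd_pos_of_pos_left _ (per_pos o))

omit hl in
theorem ee_dvd_e0 (o : I F) : ee ℓ o ∣ e0 F ℓ := Nat.div_dvd_of_dvd (Nat.gcd_dvd_right _ _)

theorem ee_lt (h : ℓ ≠ ringChar F) (o : I F) : ee ℓ o < ℓ :=
  (Nat.le_of_dvd (e0_pos h) (ee_dvd_e0 o)).trans_lt (e0_lt h)

omit hl in
theorem e0_dvd_per_mul_iff (o : I F) (m : ℕ) : e0 F ℓ ∣ o.per * m ↔ ee ℓ o ∣ m := by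
  rw [← Nat.mul_dvd_mul_iff_left (b := ee ℓ o) (per_pos o), per_mul_ee, Nat.lcm_dvd_iff]
  exact ⟨fun h => ⟨dvd_mul_right _ _, h⟩, fun h => h.2⟩

omit hl in
theorem ee_congr {o o' : I F} (h : o.per = o'.per) : ee ℓ o = ee ℓ o' := by rw [ee, ee, h]

theorem e0_dvd_per_of_not_reg {φ : I F} (h : ¬ Reg ℓ φ) : e0 F ℓ ∣ φ.per := by
  rw [e0_dvd_iff]
  exact (not_not.1 h).trans ((mem_Mk_orderOf (per_pos φ)).1 (rep_mem_Mk (per_pos φ) dvd_rfl))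

theorem ee_dvd_of_not_reg {φ : I F} (h : ¬ Reg ℓ φ) :
    ee ℓ (rpI ℓ φ) ∣ φ.per / (rpI ℓ φ).per := by
  rw [← e0_dvd_per_mul_iff, Nat.mul_div_cancel' (per_rpI_dvd φ)]
  exact e0_dvd_per_of_not_reg h

/-- the exact length of a non-regular orbit -/
theorem per_of_not_reg (h : ℓ ≠ ringChar F) {φ : I F} (hφ : ¬ Reg ℓ φ) :
    ∃ b, φ.per = Nat.lcm (rpI ℓ φ).per (e0 F ℓ * ℓ ^ b) := by
  have h1 : pPart ℓ φ.rep ≠ 1 := fun h1 => hφ (pPartK_eq_one_iff.1 h1)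
  obtain ⟨b, hb⟩ := per_io_of_pElt h (exists_orderOf_pPartK φ.rep) h1
  refine ⟨b, ?_⟩
  rw [← hb, rpI, ← per_io_mul (coprime_orderOf_of (not_dvd_orderOf_pRegPartK _)
    (exists_orderOf_pPartK _)), pRegPart_mul_pPart, io_rep]

/-- the elements of `Mk k` over an `ℓ'`-orbit -/
theorem sum_Mk_rpI {ψ : I F} (hψ : Reg ℓ ψ) {k : ℕ} (hk : 0 < k) (hd : ψ.per ∣ k) {A : Type*}
    [AddCommMonoid A] (f : (K F)ˣ → A) :
    ∑ x ∈ Mk F k with rpI ℓ (io x) = ψ, f x = ∑ s ∈ ψ.pts, ∑ u ∈ Lk F ℓ k, f (s * u) := by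
  rw [Finset.sum_filter, sum_Mk_split (ℓ := ℓ)]
  have h1 : ψ.pts = (Rk F ℓ k).filter fun s => io s = ψ := by
    ext s
    rw [mem_filter, mem_pts, mem_Rk]
    refine ⟨fun h => ⟨⟨(mem_Mk_per hk).2 (h ▸ hd), reg_io.1 (h ▸ hψ)⟩, h⟩, fun h => h.2⟩
  rw [h1, Finset.sum_filter]
  refine Finset.sum_congr rfl fun s hs => ?_
  rw [Finset.sum_congr rfl fun u hu => by rw [rpI_io_mul (mem_Rk.1 hs).2 (mem_Lk.1 hu).2]]
  split_ifs <;> simp

theorem sum_per_rpI {ψ : I F} (hψ : Reg ℓ ψ) {k : ℕ} (hk : 0 < k) (hd : ψ.per ∣ k) :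
    ∑ o ∈ Ok F k with rpI ℓ o = ψ, o.per = ψ.per * nl F ℓ k := by
  have h1 := sum_Mk_rpI hψ hk hd fun _ => 1
  rw [Finset.sum_filter, sum_Mk_io k fun o => if rpI ℓ o = ψ then 1 else 0] at h1
  rw [Finset.sum_filter]
  simp only [smul_eq_mul, mul_ite, mul_one, mul_zero, Finset.sum_const, card_Lk hk,
    Dyn.Orb.card_pts] at h1
  exact h1

end parts

/-! ### `powI` and `mulI` -/

theorem powI_io (r : ℕ) (x : (K F)ˣ) : powI r (io x) = io (x ^ r) := by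
  obtain ⟨n, hn⟩ := exists_rep_io x
  rw [powI, hn, ← pow_mul, mul_comm, pow_mul, io_pow_q]

theorem mulI_io (lam : Fˣ) (x : (K F)ˣ) : mulI lam (io x) = io (iu lam * x) := by
  obtain ⟨n, hn⟩ := exists_rep_io x
  rw [mulI, hn, ← io_pow_q (iu lam * x) n, mul_pow, iu_pow_q]

@[simp] theorem mulI_one (o : I F) : mulI 1 o = o := by rw [mulI, map_one, one_mul, io_rep]

theorem mulI_mul (lam mu : Fˣ) (o : I F) : mulI (lam * mu) o = mulI lam (mulI mu o) := by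
  rw [mulI.eq_1 mu, mulI_io, mulI, map_mul, mul_assoc]

@[simp] theorem mulI_inv_mulI (lam : Fˣ) (o : I F) : mulI lam⁻¹ (mulI lam o) = o := by
  rw [← mulI_mul, inv_mul_cancel, mulI_one]

@[simp] theorem mulI_mulI_inv (lam : Fˣ) (o : I F) : mulI lam (mulI lam⁻¹ o) = o := by
  rw [← mulI_mul, mul_inv_cancel, mulI_one]

theorem mulI_comm (lam mu : Fˣ) (o : I F) : mulI lam (mulI mu o) = mulI mu (mulI lam o) := by
  rw [← mulI_mul, mul_comm, mulI_mul]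

/-- `mulI` as a permutation -/
noncomputable def mulE (lam : Fˣ) : I F ≃ I F :=
  ⟨mulI lam, mulI lam⁻¹, mulI_inv_mulI lam, mulI_mulI_inv lam⟩

theorem mulI_injective (lam : Fˣ) : Injective (mulI lam : I F → I F) := (mulE lam).injective

theorem mulI_surjective (lam : Fˣ) : Surjective (mulI lam : I F → I F) := (mulE lam).surjective

/-- the action of `Fˣ` on the orbits (not a global instance) -/
@[reducible] noncomputable def mulIAction : MulAction Fˣ (I F) where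
  smul := mulI
  one_smul := mulI_one
  mul_smul := mulI_mul

theorem per_mulI (lam : Fˣ) (o : I F) : (mulI lam o).per = o.per := by
  have key : ∀ (lam : Fˣ) (o : I F), (mulI lam o).per ∣ o.per := fun lam o =>
    (mem_Mk_per (per_pos o)).1 (mul_mem_Mk (iu_mem_Mk (per_pos o) lam)
      (rep_mem_Mk (per_pos o) dvd_rfl))
  refine Nat.dvd_antisymm (key lam o) ?_
  simpa using key lam⁻¹ (mulI lam o)

theorem ee_mulI (ℓ : ℕ) (lam : Fˣ) (o : I F) : ee ℓ (mulI lam o) = ee ℓ o :=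
  ee_congr (per_mulI lam o)

theorem mulI_eq_iff {lam : Fˣ} {o : I F} :
    mulI lam o = o ↔ ∃ i, iu lam * o.rep = o.rep ^ q ^ i := by
  rw [eq_comm]
  conv_lhs => rw [← io_rep o, mulI_io]
  rw [io_eq_iff]
  exact ⟨fun ⟨i, h⟩ => ⟨i, h.symm⟩, fun ⟨i, h⟩ => ⟨i, h.symm⟩⟩

@[simp] theorem powI_one (o : I F) : powI 1 o = o := by rw [powI, pow_one, io_rep]

theorem powI_mul (r s : ℕ) (o : I F) : powI (r * s) o = powI s (powI r o) := by
  rw [powI.eq_1 r, powI_io, powI, pow_mul]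

theorem powI_mulI (r : ℕ) (lam : Fˣ) (o : I F) :
    powI r (mulI lam o) = mulI (lam ^ r) (powI r o) := by
  rw [mulI, powI_io, powI, mulI_io, mul_pow, map_pow]

theorem powI_mulI_of {r : ℕ} {lam : Fˣ} (h : lam ^ r = 1) (o : I F) :
    powI r (mulI lam o) = powI r o := by rw [powI_mulI, h, mulI_one]

theorem per_powI_dvd (r : ℕ) (o : I F) : (powI r o).per ∣ o.per :=
  (mem_Mk_per (per_pos o)).1 (pow_mem_Mk (rep_mem_Mk (per_pos o) dvd_rfl) r)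

omit [Fintype F] in
theorem exists_pow_eq {r : ℕ} (hr : 0 < r) (y : (K F)ˣ) : ∃ x : (K F)ˣ, x ^ r = y := by
  obtain ⟨z, hz⟩ := IsAlgClosed.exists_pow_nat_eq (y : K F) hr
  have h0 : z ≠ 0 := by
    rintro rfl
    rw [zero_pow hr.ne'] at hz
    exact y.ne_zero hz.symm
  exact ⟨Units.mk0 z h0, Units.ext (by simpa using hz)⟩

theorem powI_surjective {r : ℕ} (hr : 0 < r) : Surjective (powI r : I F → I F) := fun o => by
  obtain ⟨x, hx⟩ := exists_pow_eq hr o.rep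
  exact ⟨io x, by rw [powI_io, hx, io_rep]⟩

theorem powI_eq_iff' {r : ℕ} (hr : r ∣ q - 1) {φ φ' : I F} :
    powI r φ = powI r φ' ↔ ∃ mu : Fˣ, mu ^ r = 1 ∧ φ' = mulI mu φ := by
  refine ⟨fun h => ?_, fun ⟨mu, h1, h2⟩ => by rw [h2, powI_mulI_of h1]⟩
  obtain ⟨n, hn⟩ := io_eq_iff.1 h
  obtain ⟨mu, hmu⟩ := exists_iu_of_pow hr (x := φ'.rep * (φ.rep ^ q ^ n)⁻¹) (by
    rw [mul_pow, inv_pow, ← hn, ← pow_mul, ← pow_mul, mul_comm r, mul_inv_cancel])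
  refine ⟨mu, iu_injective ?_, ?_⟩
  · rw [map_pow, hmu, mul_pow, inv_pow, ← hn, ← pow_mul, ← pow_mul, mul_comm r, mul_inv_cancel,
      map_one]
  · conv_rhs => rw [← io_rep φ, ← io_pow_q φ.rep n, mulI_io, hmu, inv_mul_cancel_right, io_rep]

theorem mem_zpowers_of_pow {lam mu : Fˣ} (h : mu ^ orderOf lam = 1) : ∃ j : ℕ, lam ^ j = mu := by
  haveI : NeZero (orderOf lam) := ⟨(orderOf_pos lam).ne'⟩
  obtain ⟨j, -, hj⟩ := (IsPrimitiveRoot.orderOf lam).eq_pow_of_mem_rootsOfUnity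
    ((mem_rootsOfUnity _ _).2 h)
  exact ⟨j, hj⟩

theorem powI_eq_iff (lam : Fˣ) {φ φ' : I F} :
    powI (orderOf lam) φ = powI (orderOf lam) φ' ↔ ∃ j : ℕ, φ' = mulI (lam ^ j) φ := by
  rw [powI_eq_iff' (orderOf_dvd_q_sub_one lam)]
  constructor
  · rintro ⟨mu, h1, h2⟩
    obtain ⟨j, rfl⟩ := mem_zpowers_of_pow h1
    exact ⟨j, h2⟩
  · rintro ⟨j, h⟩
    exact ⟨lam ^ j, by rw [← pow_mul, mul_comm, pow_mul, pow_orderOf_eq_one, one_pow], h⟩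

omit [Fintype F] in
theorem finite_pow_eq {r : ℕ} (hr : 0 < r) (y : (K F)ˣ) : {x : (K F)ˣ | x ^ r = y}.Finite := by
  classical
  refine Set.Finite.of_finite_image (f := Units.val) ((Polynomial.nthRoots r
    (y : K F)).toFinset.finite_toSet.subset ?_) Units.val_injective.injOn
  rintro _ ⟨x, hx, rfl⟩
  rw [Finset.mem_coe, Multiset.mem_toFinset, Polynomial.mem_nthRoots hr,
    ← Units.val_pow_eq_pow_val, hx]

theorem finite_fib {r : ℕ} (hr : 0 < r) (o : I F) : {φ | powI r φ = o}.Finite := by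
  refine ((finite_pow_eq hr o.rep).image io).subset fun φ hφ => ?_
  obtain ⟨n, hn⟩ := io_eq_iff.1 (hφ.trans (io_rep o).symm)
  exact ⟨φ.rep ^ q ^ n, by rw [Set.mem_setOf_eq, ← hn, ← pow_mul, ← pow_mul, mul_comm],
    by rw [io_pow_q, io_rep]⟩

theorem mem_fib {r : ℕ} (hr : 0 < r) {o φ : I F} : φ ∈ fib r o ↔ powI r φ = o := by
  rw [fib, dif_pos (finite_fib hr o), Set.Finite.mem_toFinset, Set.mem_setOf_eq]

theorem fib_one (o : I F) : fib 1 o = {o} := by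
  ext φ; rw [mem_fib one_pos, powI_one, mem_singleton]

theorem fib_nonempty {r : ℕ} (hr : 0 < r) (o : I F) : (fib r o).Nonempty := by
  obtain ⟨φ, h⟩ := powI_surjective hr o
  exact ⟨φ, (mem_fib hr).2 h⟩

theorem pos_of_dvd_q_sub_one {r : ℕ} (hr : r ∣ q - 1) : 0 < r :=
  Nat.pos_of_dvd_of_pos hr (by have := one_lt_q F; omega)

theorem card_pow_eq {r : ℕ} (hr : r ∣ q - 1) (y : (K F)ˣ) (S : Finset (K F)ˣ)
    (hS : ∀ x, x ∈ S ↔ x ^ r = y) : #S = r := by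
  obtain ⟨z, rfl⟩ := exists_pow_eq (pos_of_dvd_q_sub_one hr) y
  rw [← Finset.card_image_of_injective S (mul_right_injective z⁻¹)]
  refine card_roots one_pos (by rwa [pow_one]) _ fun x => ?_
  rw [Finset.mem_image]
  constructor
  · rintro ⟨w, hw, rfl⟩
    rw [mul_pow, (hS w).1 hw, inv_pow, inv_mul_cancel]
  · intro hx
    exact ⟨z * x, (hS _).2 (by rw [mul_pow, hx, mul_one]), by simp⟩

/-- a sum over the points of the orbits in a fibre -/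
theorem sum_fib_pts {r : ℕ} (hr : r ∣ q - 1) (o : I F) {A : Type*} [AddCommMonoid A]
    (f : (K F)ˣ → A) : ∑ φ ∈ fib r o, ∑ x ∈ φ.pts, f (x ^ r) = r • ∑ y ∈ o.pts, f y := by
  have h0 := pos_of_dvd_q_sub_one hr
  let S : Finset (K F)ˣ := (fib r o).biUnion fun φ => φ.pts
  have hS : ∀ x, x ∈ S ↔ io x ∈ fib r o := fun x => by
    simp only [S, Finset.mem_biUnion, mem_pts]
    exact ⟨fun ⟨φ, h1, h2⟩ => h2 ▸ h1, fun h => ⟨_, h, rfl⟩⟩
  rw [← (allPer F).sum_orbits S _ hS, ← Finset.sum_fiberwise_of_maps_to (g := fun x => x ^ r)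
    (t := o.pts) (fun x hx => by rw [mem_pts, ← powI_io, ← mem_fib h0, ← hS]; exact hx),
    Finset.smul_sum]
  refine Finset.sum_congr rfl fun y hy => ?_
  rw [Finset.sum_congr rfl fun x hx => by rw [(mem_filter.1 hx).2], Finset.sum_const,
    card_pow_eq hr y]
  intro x
  rw [mem_filter, hS, mem_fib h0, powI_io]
  exact ⟨fun h => h.2, fun h => ⟨by rw [h, mem_pts.1 hy], h⟩⟩

theorem sum_per_fib {r : ℕ} (hr : r ∣ q - 1) (o : I F) : ∑ φ ∈ fib r o, φ.per = r * o.per := by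
  simpa [Dyn.Orb.card_pts] using sum_fib_pts (A := ℕ) hr o fun _ => 1

theorem per_eq_of_powI_eq {r : ℕ} (hr : r ∣ q - 1) {φ φ' : I F} (h : powI r φ = powI r φ') :
    φ.per = φ'.per := by
  obtain ⟨mu, -, rfl⟩ := (powI_eq_iff' hr).1 h
  rw [per_mulI]

theorem card_fib_mul_per {r : ℕ} (hr : r ∣ q - 1) (φ : I F) :
    #(fib r (powI r φ)) * φ.per = r * (powI r φ).per := by
  rw [← sum_per_fib hr, ← smul_eq_mul, ← Finset.sum_const]
  exact Finset.sum_congr rfl fun φ' h =>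
    per_eq_of_powI_eq hr ((mem_fib (pos_of_dvd_q_sub_one hr)).1 h).symm

section parts

variable {ℓ : ℕ} [hl : Fact ℓ.Prime]

theorem rpI_powI (r : ℕ) (o : I F) : rpI ℓ (powI r o) = powI r (rpI ℓ o) := by
  rw [powI, rpI_io, rpI, powI_io, pRegPartK_pow]

theorem rpI_mulI (lam : Fˣ) (o : I F) :
    rpI ℓ (mulI lam o) = mulI (pRegPart ℓ lam) (rpI ℓ o) := by
  rw [mulI, rpI_io, rpI, mulI_io, pRegPartK_mul, iu_pRegPart]

theorem rpI_mulI_of {lam : Fˣ} (h : ¬ ℓ ∣ orderOf lam) (o : I F) :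
    rpI ℓ (mulI lam o) = mulI lam (rpI ℓ o) := by
  rw [rpI_mulI, pRegPart_eq_self_iff.2 h]

theorem Reg.mulI {lam : Fˣ} (h : ¬ ℓ ∣ orderOf lam) {o : I F} (ho : Reg ℓ o) :
    Reg ℓ (mulI lam o) := rpI_eq_self_iff.1 (by rw [rpI_mulI_of h, ho.rpI_eq])

theorem reg_mulI_iff {lam : Fˣ} (h : ¬ ℓ ∣ orderOf lam) {o : I F} :
    Reg ℓ (mulI lam o) ↔ Reg ℓ o :=
  ⟨fun ho => by simpa using ho.mulI (lam := lam⁻¹) (by rwa [orderOf_inv]), Reg.mulI h⟩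

theorem Reg.powI (r : ℕ) {o : I F} (ho : Reg ℓ o) : Reg ℓ (powI r o) :=
  rpI_eq_self_iff.1 (by rw [rpI_powI, ho.rpI_eq])

theorem reg_powI_iff {r : ℕ} (h : ¬ ℓ ∣ r) {o : I F} : Reg ℓ (powI r o) ↔ Reg ℓ o := by
  refine ⟨fun ho => ?_, Reg.powI r⟩
  rw [powI, reg_io] at ho
  intro h1
  have h2 : orderOf o.rep ∣ orderOf (o.rep ^ r) * r :=
    orderOf_dvd_of_pow_eq_one (by rw [mul_comm, pow_mul, pow_orderOf_eq_one])
  rcases (Nat.Prime.dvd_mul hl.out).1 (h1.trans h2) with h3 | h3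
  exacts [ho h3, h h3]

/-- if `ℓ` does not divide `q - 1` all elements of `Fˣ` are `ℓ`-regular -/
theorem not_dvd_orderOf_units (h : ¬ ℓ ∣ q - 1) (lam : Fˣ) : ¬ ℓ ∣ orderOf lam :=
  fun h1 => h (h1.trans (orderOf_dvd_q_sub_one lam))

end parts

end Cfsg.GLn
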