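import Cfsg.Agent.GLn.SymB

/-! Symmetric functions of one family: triangularity of the Kostka matrix. -/

set_option autoImplicit false

namespace Cfsg.GLn

open Finset SymCh Equiv

variable {N : ℕ}

/-- The weight `∑ i * γ i`. -/
def wt (γ : Fin N → ℕ) : ℕ := ∑ i : Fin N, (i : ℕ) * γ i

theorem cast_par {X : Finset ℕ} (h : #X = N) (i : Fin N) :
    (par N X i : ℤ) = lab N X i - (i : ℕ) := by
  have := le_of_strictMono (lab_strictMono h) (lab_nonneg X) i
  simp only [del] at this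
  rw [par, Int.toNat_of_nonneg (by omega)]

theorem sum_par {X : Finset ℕ} (h : #X = N) : ∑ i, par N X i = sz N X := by
  have h1 := sum_lab_of_mem (mem_bs_sz h)
  have : ((∑ i, par N X i : ℕ) : ℤ) = sz N X := by
    push_cast
    simp only [cast_par h, sum_sub_distrib, h1, del]; ring
  exact_mod_cast this

theorem par_monotone {X : Finset ℕ} (h : #X = N) : Monotone (par N X) := by
  have key : ∀ (d : ℕ) (i j : Fin N), (j : ℕ) = i + d → lab N X i + d ≤ lab N X j := by
    intro d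
    induction d with
    | zero => intro i j e; rw [Fin.ext (a := j) (b := i) e]; simp
    | succ d ih =>
      intro i j e
      have h1 := ih i ⟨i + d, by omega⟩ rfl
      have h2 := lab_strictMono h (show (⟨i + d, by omega⟩ : Fin N) < j from by
        rw [Fin.lt_def]; simp only; omega)
      push_cast; omega
  intro i j hij
  have := key (j - i) i j (by rw [Fin.le_def] at hij; omega)
  have h1 := cast_par h i
  have h2 := cast_par h j
  rw [Fin.le_def] at hij
  omega

theorem par_inj {X Y : Finset ℕ} (hX : #X = N) (hY : #Y = N) (h : par N X = par N Y) : X = Y := by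
  have : lab N X = lab N Y := funext fun i => by
    have h1 := cast_par hX i
    have h2 := cast_par hY i
    rw [h] at h1; omega
  ext x
  rw [mem_iff_lab hX, mem_iff_lab hY, this]

theorem exists_par_eq {γ : Fin N → ℕ} (h : Monotone γ) :
    ∃ X ∈ bs N (∑ i, γ i), par N X = γ := by
  have hf : StrictMono fun i : Fin N => γ i + (i : ℕ) := fun i j hij =>
    add_lt_add_of_le_of_lt (h hij.le) hij
  have hc : #(univ.image fun i : Fin N => γ i + (i : ℕ)) = N := by
    rw [card_image_of_injective _ hf.injective]; simp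
  have hp : par N (univ.image fun i : Fin N => γ i + (i : ℕ)) = γ := funext fun i => by
    simp [par, lab_image hf]
  refine ⟨_, ?_, hp⟩
  have := mem_bs_sz hc
  rwa [← sum_par hc, hp] at this

theorem wt_le (γ : Fin N → ℕ) : wt γ ≤ N * ∑ i, γ i := by
  rw [wt, mul_sum]
  exact sum_le_sum fun i _ => Nat.mul_le_mul_right _ i.2.le

theorem wt_lt_swap {γ : Fin N → ℕ} {i j : Fin N} (hij : i < j) (h : γ j < γ i) :
    wt γ < wt (γ ∘ swap i j) := by
  have e : ∑ k : Fin N, (((k : ℕ) : ℤ) * γ (swap i j k) - (k : ℕ) * γ k) =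
      ((i : ℕ) * γ j - (i : ℕ) * γ i) + ((j : ℕ) * γ i - (j : ℕ) * γ j) := by
    rw [Fintype.sum_eq_add i j hij.ne fun k hk => by rw [swap_apply_of_ne_of_ne hk.1 hk.2]; simp]
    simp
  rw [sum_sub_distrib] at e
  have h1 : ((i : ℕ) : ℤ) < (j : ℕ) := by exact_mod_cast hij
  have h2 : (γ j : ℤ) < γ i := by exact_mod_cast h
  have : (wt γ : ℤ) < wt (γ ∘ swap i j) := by
    simp only [wt, Function.comp_apply]
    push_cast
    nlinarith [mul_pos (sub_pos.2 h1) (sub_pos.2 h2)]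
  exact_mod_cast this

theorem sum_mul_perm_lt {w : Perm (Fin N)} (hw : w ≠ 1) :
    ∑ i : Fin N, ((i : ℕ) : ℤ) * (w i : ℕ) < ∑ i : Fin N, ((i : ℕ) : ℤ) * (i : ℕ) := by
  obtain ⟨k, hk⟩ : ∃ k, w k ≠ k := by
    by_contra h; push Not at h; exact hw (Equiv.ext h)
  have h1 : 0 < ∑ i : Fin N, (((i : ℕ) : ℤ) - (w i : ℕ)) ^ 2 :=
    sum_pos' (fun i _ => sq_nonneg _) ⟨k, mem_univ _, by
      have : ((k : ℕ) : ℤ) - (w k : ℕ) ≠ 0 := fun e => hk (Fin.ext (by omega))
      positivity⟩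
  have h2 : ∑ i : Fin N, ((w i : ℕ) : ℤ) * (w i : ℕ) = ∑ i : Fin N, ((i : ℕ) : ℤ) * (i : ℕ) :=
    Equiv.sum_comp w fun i : Fin N => ((i : ℕ) : ℤ) * (i : ℕ)
  have h3 : ∑ i : Fin N, (((i : ℕ) : ℤ) - (w i : ℕ)) ^ 2 = ∑ i : Fin N, ((i : ℕ) : ℤ) * (i : ℕ) -
      2 * ∑ i : Fin N, ((i : ℕ) : ℤ) * (w i : ℕ) + ∑ i : Fin N, ((w i : ℕ) : ℤ) * (w i : ℕ) := by
    rw [mul_sum, ← sum_sub_distrib, ← sum_add_distrib]
    exact sum_congr rfl fun i _ => by ring
  omega

theorem exists_kostka (γ : Fin N → ℕ) : ∃ K : Finset ℕ → ℤ,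
    (∀ ρ, cf (fun i => (γ i : ℤ)) ρ = ∑ X ∈ bs N (∑ i, γ i), (K X : ℚ) * ph N X ρ) ∧
    (∀ X, K X ≠ 0 → X ∈ bs N (∑ i, γ i) ∧ (wt γ < wt (par N X) ∨ γ = par N X)) ∧
    ∀ X, #X = N → γ = par N X → K X = 1 := by
  classical
  induction hn : N * ∑ i, γ i - wt γ using Nat.strong_induction_on generalizing γ with
  | _ n ih =>
  by_cases hm : Monotone γ
  · obtain ⟨Y, hY, rfl⟩ := exists_par_eq hm
    have hc := (mem_bs.1 hY).1
    set m := ∑ i, par N Y i with hmdef
    have key : ∀ w : Perm (Fin N), w ≠ 1 → ∃ K : Finset ℕ → ℤ,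
        (∀ ρ, cf (lab N Y - del N ∘ w) ρ = ∑ X ∈ bs N m, (K X : ℚ) * ph N X ρ) ∧
        ∀ X, K X ≠ 0 → X ∈ bs N m ∧ wt (par N Y) < wt (par N X) := by
      intro w hw
      by_cases h0 : ∃ i, (lab N Y - del N ∘ w) i < 0
      · obtain ⟨i, hi⟩ := h0
        exact ⟨0, fun ρ => by simp [cf_neg hi], fun X h => (h rfl).elim⟩
      push Not at h0
      obtain ⟨δ, hδ⟩ : ∃ δ : Fin N → ℕ, ∀ i, (δ i : ℤ) = lab N Y i - (w i : ℕ) :=
        ⟨fun i => ((lab N Y - del N ∘ w) i).toNat, fun i => Int.toNat_of_nonneg (h0 i)⟩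
      have hs : ∑ i, δ i = m := by
        have h2 : ∑ j, ((w j : ℕ) : ℤ) = ∑ j, del N j := Equiv.sum_comp w (del N)
        have : ((∑ i, δ i : ℕ) : ℤ) = m := by
          push_cast
          simp only [hδ, sum_sub_distrib, sum_lab_of_mem hY, h2]; ring
        exact_mod_cast this
      have hw' : wt (par N Y) < wt δ := by
        have h3 := sum_mul_perm_lt hw
        have : (wt (par N Y) : ℤ) < wt δ := by
          simp only [wt]
          push_cast
          simp only [hδ, cast_par hc, mul_sub, sum_sub_distrib]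
          omega
        exact_mod_cast this
      have hb := wt_le δ
      obtain ⟨K, h1, h2, -⟩ := ih _ (by rw [← hn, hs]; rw [hs] at hb; omega) δ rfl
      rw [hs] at h1 h2
      refine ⟨K, fun ρ => ?_, fun X hX => ⟨(h2 X hX).1, ?_⟩⟩
      · rw [← h1]; congr 1; funext i; exact (hδ i).symm
      · rcases (h2 X hX).2 with h | h
        · exact hw'.trans h
        · exact h ▸ hw'
    choose! K hK1 hK2 using key
    have hY0 : ∀ w ∈ univ.erase (1 : Perm (Fin N)), K w Y = 0 := fun w hw => by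
      by_contra h
      exact lt_irrefl _ (hK2 w (ne_of_mem_erase hw) Y h).2
    refine ⟨fun X => (if X = Y then 1 else 0) -
      ∑ w ∈ univ.erase 1, ((Perm.sign w : ℤˣ) : ℤ) * K w X, fun ρ => ?_, fun X hX => ?_,
      fun X hX h => ?_⟩
    · have e := phi_eq_sum_cf (lab N Y) ρ
      rw [← add_sum_erase _ _ (mem_univ 1), sg_one, one_mul,
        sum_congr rfl fun w hw => by rw [hK1 w (ne_of_mem_erase hw), mul_sum], sum_comm] at e
      have e2 : (fun i => (par N Y i : ℤ)) = lab N Y - del N ∘ (1 : Perm (Fin N)) :=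
        funext fun i => cast_par hc i
      rw [e2, ← sub_eq_iff_eq_add.2 e]
      push_cast
      simp only [sub_mul, sum_sub_distrib, ite_mul, one_mul, zero_mul, sum_ite_eq', if_pos hY,
        sum_mul, mul_assoc]
      rfl
    · by_cases hXY : X = Y
      · subst hXY; exact ⟨hY, Or.inr rfl⟩
      · beta_reduce at hX
        rw [if_neg hXY, zero_sub, neg_ne_zero] at hX
        obtain ⟨w, hw, h⟩ := exists_ne_zero_of_sum_ne_zero hX
        have := hK2 w (ne_of_mem_erase hw) X (right_ne_zero_of_mul h)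
        exact ⟨this.1, Or.inl this.2⟩
    · obtain rfl := par_inj hc hX h
      beta_reduce
      rw [if_pos rfl, sum_eq_zero fun w hw => by rw [hY0 w hw, mul_zero], sub_zero]
  · obtain ⟨i, j, hij, h⟩ : ∃ i j, i < j ∧ γ j < γ i := by
      by_contra hc
      push Not at hc
      exact hm (monotone_iff_forall_lt.2 fun i j h => hc i j h)
    have h1 := wt_lt_swap hij h
    have hs : ∑ k, (γ ∘ swap i j) k = ∑ k, γ k := Equiv.sum_comp (swap i j) γ
    have hb := wt_le (γ ∘ swap i j)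
    obtain ⟨K, k1, k2, -⟩ := ih _ (by rw [← hn, hs]; rw [hs] at hb; omega) (γ ∘ swap i j) rfl
    rw [hs] at k1 k2
    refine ⟨K, fun ρ => ?_, fun X hX => ⟨(k2 X hX).1, Or.inl ?_⟩, fun X hX e => ?_⟩
    · rw [← k1, ← cf_comp _ (swap i j)]; rfl
    · rcases (k2 X hX).2 with h | h
      · exact h1.trans h
      · exact h ▸ h1
    · exact (hm (e ▸ par_monotone hX)).elim

/-- The Kostka numbers. -/
noncomputable def kos (γ : Fin N → ℕ) : Finset ℕ → ℤ := (exists_kostka γ).choose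

theorem kos_mem {γ : Fin N → ℕ} {X : Finset ℕ} (h : kos γ X ≠ 0) : X ∈ bs N (∑ i, γ i) :=
  ((exists_kostka γ).choose_spec.2.1 X h).1

theorem kos_tri {γ : Fin N → ℕ} {X : Finset ℕ} (h : kos γ X ≠ 0) :
    wt γ < wt (par N X) ∨ γ = par N X := ((exists_kostka γ).choose_spec.2.1 X h).2

theorem kos_le {γ : Fin N → ℕ} {X : Finset ℕ} (h : kos γ X ≠ 0) : wt γ ≤ wt (par N X) :=
  (kos_tri h).elim le_of_lt fun e => e ▸ le_rfl

theorem kos_eq {γ : Fin N → ℕ} {X : Finset ℕ} (h : kos γ X ≠ 0) (e : wt γ = wt (par N X)) :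
    γ = par N X := (kos_tri h).resolve_left (e ▸ lt_irrefl _)

theorem kos_par {X : Finset ℕ} (h : #X = N) : kos (par N X) X = 1 :=
  (exists_kostka _).choose_spec.2.2 X h rfl

theorem prod_ex_eq {A : Type*} [CommRing A] [Algebra ℂ A] (p : ℕ → A) (γ : Fin N → ℕ) :
    ∏ i, ex p (γ i) = ∑ X ∈ bs N (∑ i, γ i), kos γ X • S p N X := by
  have := prod_exZ_eq p (∑ i, γ i) (fun i => (γ i : ℤ)) (by push_cast; rfl)
  simp only [exZ_nat] at this
  rw [this, chm_congr p fun ρ _ => (exists_kostka γ).choose_spec.1 ρ, chm_sum]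
  refine sum_congr rfl fun X hX => ?_
  rw [S_eq_chm, sz_of_mem hX, Rat.cast_intCast, Int.cast_smul_eq_zsmul]; rfl

end Cfsg.GLn
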