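import Cfsg.Agent.GLn.ArB
import Cfsg.Agent.GLn.Sym

/-!
# S4536: multipartitions (`lift`, `act`, `deg`, `alpha`, `nn`, `cd`, `ww`)
-/

set_option autoImplicit false

namespace Cfsg.GLn

open Finset Function

universe u

variable {F : Type u} [Field F] [Fintype F] {N : ℕ}

local notation "q" => Fintype.card F

/-! ### beta-sets -/

theorem Bt.zero_val : (0 : Bt N).1 = range N := rfl

theorem sz_range (N : ℕ) : sz N (range N) = 0 := by simp [sz, SymCh.tri]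

@[simp] theorem sz_zero : sz N (0 : Bt N).1 = 0 := sz_range N

@[simp] theorem par_zero (i : Fin N) : par N (0 : Bt N).1 i = 0 := by
  have h := sum_par (N := N) (0 : Bt N).2
  rw [sz_zero, Finset.sum_eq_zero_iff] at h
  exact h i (mem_univ i)

theorem Bt.sz_eq_zero_iff {X : Bt N} : sz N X.1 = 0 ↔ X = 0 := by
  refine ⟨fun h => Subtype.ext (par_inj X.2 (0 : Bt N).2 (funext fun i => ?_)), fun h => ?_⟩
  · have h1 := sum_par X.2
    rw [h, Finset.sum_eq_zero_iff] at h1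
    rw [h1 i (mem_univ i), par_zero]
  · rw [h, sz_zero]

theorem Bt.sz_add_tri (X : Bt N) : sz N X.1 + SymCh.tri N = ∑ x ∈ X.1, x := by
  have h := SymCh.sum_eq_base_add (p := 1) one_pos X.1
  have h2 := SymCh.tri_le_base (SymCh.clsF 1 X.1)
  rw [SymCh.sum_clsF one_pos, X.2] at h2
  rw [sz]
  omega

theorem rc_one (X : Bt N) (j : ℕ) : rc 1 X.1 j = if j = 0 then N else 0 := by
  rw [rc]
  split_ifs with h
  · subst h
    rw [Finset.filter_true_of_mem fun x _ => Nat.mod_one x, X.2]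
  · rw [Finset.card_eq_zero, Finset.filter_eq_empty_iff]
    intro x _
    rw [Nat.mod_one]
    exact Ne.symm h

theorem clsF_eq_of_rc {e : ℕ} {X Y : Finset ℕ} (h : rc e X = rc e Y) :
    SymCh.clsF e X = SymCh.clsF e Y := funext fun j => congrFun h j

theorem rc_eq_of_clsF {e : ℕ} (he : 0 < e) {X Y : Finset ℕ}
    (h : SymCh.clsF e X = SymCh.clsF e Y) : rc e X = rc e Y := funext fun j => by
  by_cases hj : j < e
  · exact congrFun h ⟨j, hj⟩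
  · have : ∀ Z : Finset ℕ, rc e Z j = 0 := fun Z => by
      rw [rc, Finset.card_eq_zero, Finset.filter_eq_empty_iff]
      intro x _ hx
      exact hj (hx ▸ Nat.mod_lt x he)
    rw [this, this]

/-! ### `lift` and `act` -/

theorem fsp_apply {f : I F → Bt N} (h : (Function.support f).Finite) (o : I F) :
    fsp f o = f o := by
  rw [fsp, dif_pos h]
  rfl

theorem act_apply (lam : Fˣ) (μ : MP F N) (φ : I F) : act lam μ φ = μ (mulI lam⁻¹ φ) :=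
  fsp_apply ((μ.hasFiniteSupport.preimage (mulI_injective lam⁻¹).injOn).subset fun _ h => h) φ

theorem act_apply_mulI (lam : Fˣ) (μ : MP F N) (φ : I F) : act lam μ (mulI lam φ) = μ φ := by
  rw [act_apply, mulI_inv_mulI]

theorem act_eq (lam : Fˣ) (μ : MP F N) : act lam μ = μ.equivMapDomain (mulE lam) :=
  Finsupp.ext fun φ => act_apply lam μ φ

@[simp] theorem act_one (μ : MP F N) : act 1 μ = μ :=
  Finsupp.ext fun φ => by rw [act_apply, inv_one, mulI_one]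

theorem act_mul (lam mu : Fˣ) (μ : MP F N) : act (lam * mu) μ = act lam (act mu μ) :=
  Finsupp.ext fun φ => by rw [act_apply, act_apply, act_apply, ← mulI_mul, mul_inv_rev]

theorem act_injective (lam : Fˣ) : Injective (act lam : MP F N → MP F N) := fun μ ν h => by
  rw [← act_one μ, ← act_one ν, ← inv_mul_cancel lam, act_mul, act_mul, h]

theorem act_pow_of {lam : Fˣ} {μ : MP F N} (h : act lam μ = μ) (j : ℕ) : act (lam ^ j) μ = μ := by
  induction j with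
  | zero => rw [pow_zero, act_one]
  | succ j ih => rw [pow_succ, act_mul, h, ih]

theorem act_inv_of {lam : Fˣ} {μ : MP F N} (h : act lam μ = μ) : act lam⁻¹ μ = μ := by
  conv_lhs => rw [← h, ← act_mul, inv_mul_cancel, act_one]

theorem act_eq_self_iff {lam : Fˣ} {μ : MP F N} :
    act lam μ = μ ↔ ∀ φ, μ (mulI lam φ) = μ φ :=
  ⟨fun h φ => by conv_lhs => rw [← h, act_apply_mulI],
    fun h => Finsupp.ext fun φ => by rw [act_apply, ← h, mulI_mulI_inv]⟩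

theorem mem_support_act {lam : Fˣ} {μ : MP F N} {φ : I F} :
    φ ∈ (act lam μ).support ↔ mulI lam⁻¹ φ ∈ μ.support := by
  rw [Finsupp.mem_support_iff, Finsupp.mem_support_iff, act_apply]

theorem sum_act (lam : Fˣ) (μ : MP F N) {A : Type*} [AddCommMonoid A] (g : I F → Bt N → A) :
    (act lam μ).sum g = μ.sum fun o X => g (mulI lam o) X := by
  rw [act_eq, Finsupp.sum_equivMapDomain]
  rfl

theorem prod_act (lam : Fˣ) (μ : MP F N) {A : Type*} [CommMonoid A] (g : I F → Bt N → A) :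
    (act lam μ).prod g = μ.prod fun o X => g (mulI lam o) X := by
  rw [act_eq, Finsupp.prod_equivMapDomain]
  rfl

theorem lift_apply {r : ℕ} (hr : 0 < r) (ν : MP F N) (φ : I F) : lift r ν φ = ν (powI r φ) :=
  fsp_apply ((ν.hasFiniteSupport.biUnion fun o _ => finite_fib hr o).subset fun φ h =>
    Set.mem_biUnion (x := powI r φ) h rfl) φ

@[simp] theorem lift_one (ν : MP F N) : lift 1 ν = ν :=
  Finsupp.ext fun φ => by rw [lift_apply one_pos, powI_one]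

theorem lift_injective {r : ℕ} (hr : 0 < r) : Injective (lift r : MP F N → MP F N) :=
  fun μ ν h => Finsupp.ext fun o => by
    obtain ⟨φ, rfl⟩ := powI_surjective hr o
    rw [← lift_apply hr, ← lift_apply hr, h]

theorem mem_support_lift {r : ℕ} (hr : 0 < r) {ν : MP F N} {φ : I F} :
    φ ∈ (lift r ν).support ↔ powI r φ ∈ ν.support := by
  rw [Finsupp.mem_support_iff, Finsupp.mem_support_iff, lift_apply hr]

theorem support_lift {r : ℕ} (hr : 0 < r) (ν : MP F N) :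
    (lift r ν).support = ν.support.biUnion (fib r) := by
  ext φ
  simp only [mem_support_lift hr, Finset.mem_biUnion, mem_fib hr]
  exact ⟨fun h => ⟨_, h, rfl⟩, fun ⟨o, h1, h2⟩ => h2 ▸ h1⟩

theorem prod_lift {r : ℕ} (hr : 0 < r) (ν : MP F N) {A : Type*} [CommMonoid A]
    (g : I F → Bt N → A) : (lift r ν).prod g = ν.prod fun o X => ∏ φ ∈ fib r o, g φ X := by
  rw [Finsupp.prod, Finsupp.prod, ← Finset.prod_fiberwise_of_maps_to (g := powI r)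
    (t := ν.support) fun φ h => (mem_support_lift hr).1 h]
  refine Finset.prod_congr rfl fun o ho => Finset.prod_congr ?_ fun φ h => ?_
  · ext φ
    rw [mem_filter, mem_support_lift hr, mem_fib hr]
    exact ⟨fun h => h.2, fun h => ⟨h ▸ ho, h⟩⟩
  · rw [lift_apply hr, (mem_fib hr).1 h]

theorem sum_lift {r : ℕ} (hr : 0 < r) (ν : MP F N) {A : Type*} [AddCommMonoid A]
    (g : I F → Bt N → A) : (lift r ν).sum g = ν.sum fun o X => ∑ φ ∈ fib r o, g φ X :=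
  prod_lift (A := Multiplicative A) hr ν g

theorem act_lift {r : ℕ} (hr : 0 < r) {lam : Fˣ} (h : lam ^ r = 1) (ν : MP F N) :
    act lam (lift r ν) = lift r ν :=
  act_eq_self_iff.2 fun φ => by rw [lift_apply hr, lift_apply hr, powI_mulI_of h]

theorem act_lift_orderOf (lam : Fˣ) (ν : MP F N) :
    act lam (lift (orderOf lam) ν) = lift (orderOf lam) ν :=
  act_lift (orderOf_pos lam) (pow_orderOf_eq_one lam) ν

theorem act_lift_comm {r : ℕ} (hr : 0 < r) (lam : Fˣ) (ν : MP F N) :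
    act lam (lift r ν) = lift r (act (lam ^ r) ν) := Finsupp.ext fun φ => by
  rw [act_apply, lift_apply hr, lift_apply hr, act_apply, powI_mulI, inv_pow]

theorem exists_lift_of_act {lam : Fˣ} {μ : MP F N} (h : act lam μ = μ) :
    ∃ ν, lift (orderOf lam) ν = μ := by
  have hr := orderOf_pos lam
  let s := Function.surjInv (powI_surjective (F := F) hr)
  have hs : ∀ o, powI (orderOf lam) (s o) = o := Function.surjInv_eq _
  have hfin : (Function.support fun o => μ (s o)).Finite :=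
    (μ.hasFiniteSupport.image (powI (orderOf lam))).subset fun o ho => ⟨s o, ho, hs o⟩
  refine ⟨fsp fun o => μ (s o), Finsupp.ext fun φ => ?_⟩
  rw [lift_apply hr, fsp_apply hfin]
  obtain ⟨j, hj⟩ := (powI_eq_iff lam).1 (hs (powI (orderOf lam) φ)).symm
  rw [hj, act_eq_self_iff.1 (act_pow_of h j)]

theorem act_eq_self_iff_lift {lam : Fˣ} {μ : MP F N} :
    act lam μ = μ ↔ ∃ ν, lift (orderOf lam) ν = μ :=
  ⟨exists_lift_of_act, fun ⟨ν, h⟩ => h ▸ act_lift_orderOf lam ν⟩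

theorem deg_act (lam : Fˣ) (μ : MP F N) : deg (act lam μ) = deg μ := by
  simp only [deg, sum_act, per_mulI]

theorem alpha_act (lam : Fˣ) (μ : MP F N) : alpha (act lam μ) = alpha μ := by
  funext i; simp only [alpha, sum_act, per_mulI]

theorem deg_lift {r : ℕ} (hr : r ∣ q - 1) (ν : MP F N) : deg (lift r ν) = r * deg ν := by
  simp only [deg, sum_lift (pos_of_dvd_q_sub_one hr), ← Finset.sum_mul, sum_per_fib hr, mul_assoc]
  simp only [Finsupp.sum, Finset.mul_sum]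

theorem alpha_lift {r : ℕ} (hr : r ∣ q - 1) (ν : MP F N) (i : Fin N) :
    alpha (lift r ν) i = r * alpha ν i := by
  simp only [alpha, sum_lift (pos_of_dvd_q_sub_one hr), ← Finset.sum_mul, sum_per_fib hr,
    mul_assoc]
  simp only [Finsupp.sum, Finset.mul_sum]

theorem deg_lift_orderOf (lam : Fˣ) (ν : MP F N) :
    deg (lift (orderOf lam) ν) = orderOf lam * deg ν := deg_lift (orderOf_dvd_q_sub_one lam) ν

theorem alpha_lift_orderOf (lam : Fˣ) (ν : MP F N) :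
    alpha (lift (orderOf lam) ν) = fun i => orderOf lam * alpha ν i :=
  funext (alpha_lift (orderOf_dvd_q_sub_one lam) ν)

theorem sum_alpha (μ : MP F N) : ∑ i, alpha μ i = deg μ := by
  simp only [alpha, deg, Finsupp.sum]
  rw [Finset.sum_comm]
  exact Finset.sum_congr rfl fun o _ => by rw [← Finset.mul_sum, sum_par (μ o).2]

theorem deg_eq_sum (μ : MP F N) {s : Finset (I F)} (hs : μ.support ⊆ s) :
    deg μ = ∑ o ∈ s, o.per * sz N (μ o).1 :=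
  Finsupp.sum_of_support_subset μ hs _ fun _ _ => by simp

theorem per_mul_sz_le_deg (μ : MP F N) (o : I F) : o.per * sz N (μ o).1 ≤ deg μ := by
  rw [deg_eq_sum μ (Finset.subset_insert o _)]
  exact Finset.single_le_sum (f := fun o : I F => o.per * sz N (μ o).1) (fun _ _ => Nat.zero_le _)
    (mem_insert_self _ _)

theorem sz_le_deg (μ : MP F N) (o : I F) : sz N (μ o).1 ≤ deg μ :=
  (Nat.le_mul_of_pos_left _ (per_pos o)).trans (per_mul_sz_le_deg μ o)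

theorem deg_eq_zero_iff {μ : MP F N} : deg μ = 0 ↔ μ = 0 :=
  ⟨fun h => Finsupp.ext fun o => Bt.sz_eq_zero_iff.1 (Nat.le_zero.1 (h ▸ sz_le_deg μ o)),
    fun h => by rw [h, deg, Finsupp.sum_zero_index]⟩

theorem deg_single (o : I F) (X : Bt N) : deg (Finsupp.single o X) = o.per * sz N X.1 := by
  rw [deg, Finsupp.sum_single_index (by simp)]

/-! ### `nn`, `cd`, `ww` -/

variable {ℓ : ℕ}

theorem nn_eq_sum (μ : MP F N) (ψ : I F) {s : Finset (I F)} (hs : μ.support ⊆ s) :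
    nn ℓ μ ψ = ∑ φ ∈ s with rpI ℓ φ = ψ, φ.per / ψ.per * sz N (μ φ).1 := by
  rw [Finset.sum_filter]
  exact Finsupp.sum_of_support_subset μ hs _ fun _ _ => by simp

theorem per_mul_nn (μ : MP F N) (ψ : I F) {s : Finset (I F)} (hs : μ.support ⊆ s) :
    ψ.per * nn ℓ μ ψ = ∑ φ ∈ s with rpI ℓ φ = ψ, φ.per * sz N (μ φ).1 := by
  rw [nn_eq_sum μ ψ hs, Finset.mul_sum]
  refine Finset.sum_congr rfl fun φ h => ?_
  rw [← mul_assoc, Nat.mul_div_cancel' ((mem_filter.1 h).2 ▸ per_rpI_dvd φ)]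

theorem deg_eq_sum_nn (μ : MP F N) {t : Finset (I F)} (ht : ∀ φ ∈ μ.support, rpI ℓ φ ∈ t) :
    deg μ = ∑ ψ ∈ t, ψ.per * nn ℓ μ ψ := by
  rw [deg_eq_sum μ Subset.rfl, ← Finset.sum_fiberwise_of_maps_to ht]
  exact Finset.sum_congr rfl fun ψ _ => (per_mul_nn μ ψ Subset.rfl).symm

theorem per_div_pos (φ : I F) : 0 < φ.per / (rpI ℓ φ).per :=
  Nat.div_pos (Nat.le_of_dvd (per_pos φ) (per_rpI_dvd φ)) (per_pos _)

theorem nn_eq_zero_iff {μ : MP F N} {ψ : I F} :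
    nn ℓ μ ψ = 0 ↔ ∀ φ, rpI ℓ φ = ψ → μ φ = 0 := by
  rw [nn_eq_sum μ ψ Subset.rfl, Finset.sum_eq_zero_iff]
  constructor
  · intro h φ hφ
    by_contra h0
    have := h φ (mem_filter.2 ⟨Finsupp.mem_support_iff.2 h0, hφ⟩)
    rcases Nat.mul_eq_zero.1 this with h1 | h1
    · exact (hφ ▸ per_div_pos φ).ne' h1
    · exact h0 (Bt.sz_eq_zero_iff.1 h1)
  · intro h φ hφ
    rw [h φ (mem_filter.1 hφ).2, sz_zero, mul_zero]

theorem finite_support_nn (μ : MP F N) : (Function.support (nn ℓ μ)).Finite :=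
  (μ.hasFiniteSupport.image (rpI ℓ)).subset fun ψ h => by
    by_contra h1
    refine h (nn_eq_zero_iff.2 fun φ hφ => ?_)
    by_contra h2
    exact h1 ⟨φ, h2, hφ⟩

theorem per_mul_nn_le_deg (μ : MP F N) (ψ : I F) : ψ.per * nn ℓ μ ψ ≤ deg μ := by
  rw [per_mul_nn μ ψ Subset.rfl, deg_eq_sum μ Subset.rfl]
  exact Finset.sum_le_sum_of_subset (Finset.filter_subset _ _)

theorem nn_le_deg (μ : MP F N) (ψ : I F) : nn ℓ μ ψ ≤ deg μ :=
  (Nat.le_mul_of_pos_left _ (per_pos ψ)).trans (per_mul_nn_le_deg μ ψ)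

theorem cd_of_reg (μ : MP F N) {ψ : I F} (h : Reg ℓ ψ) :
    cd ℓ μ ψ = (nn ℓ μ ψ, rc (ee ℓ ψ) (μ ψ).1) := by rw [cd, if_pos h]

theorem cd_of_not_reg (μ : MP F N) {ψ : I F} (h : ¬ Reg ℓ ψ) : cd ℓ μ ψ = 0 := by
  rw [cd, if_neg h]

theorem ww_of_reg (μ : MP F N) {ψ : I F} (h : Reg ℓ ψ) : ww ℓ μ ψ =
    (nn ℓ μ ψ + SymCh.tri N - SymCh.base (SymCh.clsF (ee ℓ ψ) (μ ψ).1)) / ee ℓ ψ := by
  rw [ww, if_pos h]

theorem ww_of_not_reg (μ : MP F N) {ψ : I F} (h : ¬ Reg ℓ ψ) : ww ℓ μ ψ = 0 := by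
  rw [ww, if_neg h]

theorem reg_of_ww_pos {μ : MP F N} {ψ : I F} (h : 0 < ww ℓ μ ψ) : Reg ℓ ψ := by
  by_contra h1
  rw [ww_of_not_reg μ h1] at h
  exact lt_irrefl _ h

theorem rc_eq_of_cd {μ ν : MP F N} (h : cd ℓ μ = cd ℓ ν) {ψ : I F} (hψ : Reg ℓ ψ) :
    rc (ee ℓ ψ) (μ ψ).1 = rc (ee ℓ ψ) (ν ψ).1 := by
  have := congrFun h ψ
  rw [cd_of_reg μ hψ, cd_of_reg ν hψ] at this
  exact congrArg Prod.snd this

theorem ww_le_nn (μ : MP F N) (ψ : I F) : ww ℓ μ ψ ≤ nn ℓ μ ψ := by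
  by_cases h : Reg ℓ ψ
  · rw [ww_of_reg μ h]
    rcases Nat.eq_zero_or_pos (ee ℓ ψ) with h0 | h0
    · rw [Nat.div_eq_zero_iff.2 (Or.inl h0)]; exact Nat.zero_le _
    · have h2 := SymCh.tri_le_base (SymCh.clsF (ee ℓ ψ) (μ ψ).1)
      rw [SymCh.sum_clsF h0, (μ ψ).2] at h2
      exact (Nat.div_le_self _ _).trans (by omega)
  · rw [ww_of_not_reg μ h]; exact Nat.zero_le _

theorem finite_support_ww (μ : MP F N) : (Function.support (ww ℓ μ)).Finite :=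
  (finite_support_nn (ℓ := ℓ) μ).subset fun ψ h h0 => h (Nat.le_zero.1 (h0 ▸ ww_le_nn μ ψ))

theorem W_eq_sum (μ : MP F N) {t : Finset (I F)} (ht : ∀ ψ, 0 < ww ℓ μ ψ → ψ ∈ t) :
    W ℓ μ = ∑ ψ ∈ t, ww ℓ μ ψ :=
  finsum_eq_sum_of_support_subset _ fun ψ h => ht ψ (Nat.pos_of_ne_zero h)

variable [hl : Fact ℓ.Prime]

theorem nn_of_not_reg (μ : MP F N) {ψ : I F} (h : ¬ Reg ℓ ψ) : nn ℓ μ ψ = 0 :=
  nn_eq_zero_iff.2 fun φ hφ => absurd (hφ ▸ reg_rpI φ) h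

theorem nn_eq_of_cd {μ ν : MP F N} (h : cd ℓ μ = cd ℓ ν) : nn ℓ μ = nn ℓ ν := funext fun ψ => by
  by_cases hψ : Reg ℓ ψ
  · have := congrFun h ψ
    rw [cd_of_reg μ hψ, cd_of_reg ν hψ] at this
    exact congrArg Prod.fst this
  · rw [nn_of_not_reg μ hψ, nn_of_not_reg ν hψ]

theorem cd_eq_iff {μ ν : MP F N} : cd ℓ μ = cd ℓ ν ↔ ∀ ψ, Reg ℓ ψ →
    nn ℓ μ ψ = nn ℓ ν ψ ∧ rc (ee ℓ ψ) (μ ψ).1 = rc (ee ℓ ψ) (ν ψ).1 := by
  refine ⟨fun h ψ hψ => ⟨congrFun (nn_eq_of_cd h) ψ, rc_eq_of_cd h hψ⟩, fun h => funext fun ψ => ?_⟩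
  by_cases hψ : Reg ℓ ψ
  · rw [cd_of_reg μ hψ, cd_of_reg ν hψ, (h ψ hψ).1, (h ψ hψ).2]
  · rw [cd_of_not_reg μ hψ, cd_of_not_reg ν hψ]

theorem ww_eq_of_cd {μ ν : MP F N} (h : cd ℓ μ = cd ℓ ν) : ww ℓ μ = ww ℓ ν := funext fun ψ => by
  by_cases hψ : Reg ℓ ψ
  · rw [ww_of_reg μ hψ, ww_of_reg ν hψ, nn_eq_of_cd h, clsF_eq_of_rc (rc_eq_of_cd h hψ)]
  · rw [ww_of_not_reg μ hψ, ww_of_not_reg ν hψ]

theorem W_eq_of_cd {μ ν : MP F N} (h : cd ℓ μ = cd ℓ ν) : W ℓ μ = W ℓ ν := by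
  rw [W, W, ww_eq_of_cd h]

theorem bd_eq_of_cd {μ ν : MP F N} (h : cd ℓ μ = cd ℓ ν) : bd ℓ μ = bd ℓ ν := by
  rw [bd, bd, W_eq_of_cd h, nn_eq_of_cd h]

theorem deg_eq_of_cd {μ ν : MP F N} (h : cd ℓ μ = cd ℓ ν) : deg μ = deg ν := by
  rw [deg_eq_sum_nn (ℓ := ℓ) μ (t := (μ.support ∪ ν.support).image (rpI ℓ))
      fun φ hφ => mem_image_of_mem _ (mem_union_left _ hφ),
    deg_eq_sum_nn (ℓ := ℓ) ν (t := (μ.support ∪ ν.support).image (rpI ℓ))
      fun φ hφ => mem_image_of_mem _ (mem_union_right _ hφ), nn_eq_of_cd h]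

theorem nn_act (lam : Fˣ) (μ : MP F N) (ψ : I F) :
    nn ℓ (act lam μ) ψ = nn ℓ μ (mulI (pRegPart ℓ lam)⁻¹ ψ) := by
  simp only [nn, sum_act, per_mulI, rpI_mulI]
  refine Finsupp.sum_congr fun φ _ => if_congr ?_ rfl rfl
  exact ⟨fun h => by rw [← h, mulI_inv_mulI], fun h => by rw [h, mulI_mulI_inv]⟩

theorem ee_eq_one (h : ℓ ∣ q - 1) (o : I F) : ee ℓ o = 1 :=
  Nat.dvd_one.1 (e0_eq_one_iff.2 h ▸ ee_dvd_e0 o)

theorem cd_act (lam : Fˣ) (μ : MP F N) (ψ : I F) :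
    cd ℓ (act lam μ) ψ = cd ℓ μ (mulI (pRegPart ℓ lam)⁻¹ ψ) := by
  have h1 : ¬ ℓ ∣ orderOf (pRegPart ℓ lam)⁻¹ := by
    rw [orderOf_inv]; exact not_dvd_orderOf_pRegPart lam
  by_cases hψ : Reg ℓ ψ
  · rw [cd_of_reg _ hψ, cd_of_reg _ (hψ.mulI h1), nn_act, ee_mulI, act_apply]
    by_cases h2 : ℓ ∣ orderOf lam
    · rw [ee_eq_one (h2.trans (orderOf_dvd_q_sub_one lam))]
      exact Prod.ext rfl (funext fun j => by simp only [rc_one])
    · rw [pRegPart_eq_self_iff.2 h2]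
  · rw [cd_of_not_reg _ hψ, cd_of_not_reg _ fun h => hψ ((reg_mulI_iff h1).1 h)]

theorem cd_act_congr (lam : Fˣ) {μ ν : MP F N} (h : cd ℓ μ = cd ℓ ν) :
    cd ℓ (act lam μ) = cd ℓ (act lam ν) := funext fun ψ => by rw [cd_act, cd_act, h]

theorem cd_act_of_pElt {lam : Fˣ} (h : ∃ a, orderOf lam = ℓ ^ a) (μ : MP F N) :
    cd ℓ (act lam μ) = cd ℓ μ := funext fun ψ => by
  rw [cd_act, pRegPart_eq_one_iff.2 h, inv_one, mulI_one]

theorem ww_act (lam : Fˣ) (μ : MP F N) (ψ : I F) :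
    ww ℓ (act lam μ) ψ = ww ℓ μ (mulI (pRegPart ℓ lam)⁻¹ ψ) := by
  have h1 : ¬ ℓ ∣ orderOf (pRegPart ℓ lam)⁻¹ := by
    rw [orderOf_inv]; exact not_dvd_orderOf_pRegPart lam
  by_cases hψ : Reg ℓ ψ
  · have h := cd_act (ℓ := ℓ) lam μ ψ
    rw [cd_of_reg _ hψ, cd_of_reg _ (hψ.mulI h1), ee_mulI] at h
    rw [ww_of_reg _ hψ, ww_of_reg _ (hψ.mulI h1), nn_act, ee_mulI,
      clsF_eq_of_rc (congrArg Prod.snd h)]
  · rw [ww_of_not_reg _ hψ, ww_of_not_reg _ fun h => hψ ((reg_mulI_iff h1).1 h)]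

/-- the part of `nn` coming from the non-regular orbits -/
theorem nn_eq_sz_add (μ : MP F N) {ψ : I F} (hψ : Reg ℓ ψ) : nn ℓ μ ψ = sz N (μ ψ).1 +
    ∑ φ ∈ μ.support.erase ψ with rpI ℓ φ = ψ, φ.per / ψ.per * sz N (μ φ).1 := by
  rw [nn_eq_sum μ ψ (s := insert ψ (μ.support.erase ψ)) (Finset.subset_insert_iff.2 Subset.rfl),
    Finset.filter_insert, if_pos hψ.rpI_eq, Finset.sum_insert (by simp),
    Nat.div_self (per_pos ψ), one_mul]

theorem Basic.nn_eq {μ : MP F N} (h : Basic ℓ μ) {ψ : I F} (hψ : Reg ℓ ψ) :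
    nn ℓ μ ψ = sz N (μ ψ).1 := by
  rw [nn_eq_sz_add μ hψ, Finset.sum_eq_zero, add_zero]
  intro φ hφ
  obtain ⟨h1, h2⟩ := mem_filter.1 hφ
  obtain ⟨h3, h4⟩ := mem_erase.1 h1
  exact absurd ((h φ h4).rpI_eq.symm.trans h2) h3

/-- the weight as a sum -/
theorem ww_eq (hℓ : ℓ ≠ ringChar F) (μ : MP F N) {ψ : I F} (hψ : Reg ℓ ψ) :
    ww ℓ μ ψ = SymCh.wt (ee ℓ ψ) (μ ψ).1 + ∑ φ ∈ μ.support.erase ψ with rpI ℓ φ = ψ,
      φ.per / ψ.per / ee ℓ ψ * sz N (μ φ).1 := by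
  have he := ee_pos hℓ ψ
  have h1 : ∑ φ ∈ μ.support.erase ψ with rpI ℓ φ = ψ, φ.per / ψ.per * sz N (μ φ).1 =
      ee ℓ ψ * ∑ φ ∈ μ.support.erase ψ with rpI ℓ φ = ψ,
        φ.per / ψ.per / ee ℓ ψ * sz N (μ φ).1 := by
    rw [Finset.mul_sum]
    refine Finset.sum_congr rfl fun φ hφ => ?_
    obtain ⟨h1, h2⟩ := mem_filter.1 hφ
    have h3 : ¬ Reg ℓ φ := fun h => (mem_erase.1 h1).1 (h.rpI_eq.symm.trans h2)
    rw [← mul_assoc, Nat.mul_div_cancel' (h2 ▸ ee_dvd_of_not_reg h3)]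
  have h2 := Bt.sz_add_tri (μ ψ)
  rw [SymCh.sum_eq_base_add he] at h2
  rw [ww_of_reg μ hψ, nn_eq_sz_add μ hψ, h1]
  refine Nat.div_eq_of_eq_mul_right he ?_
  rw [mul_add]
  omega

theorem nn_add_tri (hℓ : ℓ ≠ ringChar F) (μ : MP F N) {ψ : I F} (hψ : Reg ℓ ψ) :
    nn ℓ μ ψ + SymCh.tri N =
      SymCh.base (SymCh.clsF (ee ℓ ψ) (μ ψ).1) + ee ℓ ψ * ww ℓ μ ψ := by
  have he := ee_pos hℓ ψ
  have h1 : ∑ φ ∈ μ.support.erase ψ with rpI ℓ φ = ψ, φ.per / ψ.per * sz N (μ φ).1 =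
      ee ℓ ψ * ∑ φ ∈ μ.support.erase ψ with rpI ℓ φ = ψ,
        φ.per / ψ.per / ee ℓ ψ * sz N (μ φ).1 := by
    rw [Finset.mul_sum]
    refine Finset.sum_congr rfl fun φ hφ => ?_
    obtain ⟨h1, h2⟩ := mem_filter.1 hφ
    have h3 : ¬ Reg ℓ φ := fun h => (mem_erase.1 h1).1 (h.rpI_eq.symm.trans h2)
    rw [← mul_assoc, Nat.mul_div_cancel' (h2 ▸ ee_dvd_of_not_reg h3)]
  have h2 := Bt.sz_add_tri (μ ψ)
  rw [SymCh.sum_eq_base_add he] at h2
  rw [ww_eq hℓ μ hψ, nn_eq_sz_add μ hψ, h1, mul_add]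
  omega

/-- weight zero: an `e`-core at `ψ` and nothing at the other orbits over `ψ` -/
theorem ww_eq_zero_iff (hℓ : ℓ ≠ ringChar F) (μ : MP F N) {ψ : I F} (hψ : Reg ℓ ψ) :
    ww ℓ μ ψ = 0 ↔ SymCh.wt (ee ℓ ψ) (μ ψ).1 = 0 ∧ ∀ φ, φ ≠ ψ → rpI ℓ φ = ψ → μ φ = 0 := by
  rw [ww_eq hℓ μ hψ, Nat.add_eq_zero_iff, Finset.sum_eq_zero_iff]
  refine and_congr_right fun _ => ⟨fun h φ h1 h2 => ?_, fun h φ hφ => ?_⟩
  · by_contra h0
    have := h φ (mem_filter.2 ⟨mem_erase.2 ⟨h1, Finsupp.mem_support_iff.2 h0⟩, h2⟩)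
    have h3 : ¬ Reg ℓ φ := fun h => h1 (h.rpI_eq.symm.trans h2)
    rcases Nat.mul_eq_zero.1 this with h4 | h4
    · subst h2
      exact (Nat.div_pos (Nat.le_of_dvd (per_div_pos φ) (ee_dvd_of_not_reg h3))
        (ee_pos hℓ _)).ne' h4
    · exact h0 (Bt.sz_eq_zero_iff.1 h4)
  · rw [h φ (mem_erase.1 (mem_filter.1 hφ).1).1 (mem_filter.1 hφ).2, sz_zero, mul_zero]

theorem ww_eq_nn (h : ℓ ∣ q - 1) (μ : MP F N) (ψ : I F) : ww ℓ μ ψ = nn ℓ μ ψ := by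
  by_cases hψ : Reg ℓ ψ
  · rw [ww_of_reg μ hψ, ee_eq_one h, Nat.div_one]
    have : SymCh.base (SymCh.clsF 1 (μ ψ).1) = SymCh.tri N := by
      have h1 := SymCh.sum_clsF (p := 1) one_pos (μ ψ).1
      rw [(μ ψ).2] at h1
      simp only [SymCh.base, Fin.sum_univ_one, Fin.isValue, Fin.val_zero, zero_mul, add_zero,
        one_mul] at h1 ⊢
      rw [h1]
    omega
  · rw [ww_of_not_reg μ hψ, nn_of_not_reg μ hψ]

end Cfsg.GLn
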