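import Cfsg.Agent.GLn.HallA

/-!
# S4536: associativity and the unit of the twisted Hall algebra
-/

set_option autoImplicit false

namespace Cfsg.GLn

open Matrix ComplexConjugate

universe u

variable {F : Type u} [Field F] [Fintype F] [DecidableEq F] {ω : Fˣ →* ℂˣ} {i j k : ℕ}

/-- stacking rows -/
def rowsE (i j k : ℕ) : Matrix (Fin i) (Fin k) F × Matrix (Fin j) (Fin k) F ≃
    Matrix (Fin (i + j)) (Fin k) F := Fin.appendEquiv i j

/-- juxtaposing columns -/
def colsE (i j k : ℕ) : Matrix (Fin i) (Fin j) F × Matrix (Fin i) (Fin k) F ≃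
    Matrix (Fin i) (Fin (j + k)) F :=
  (Equiv.arrowProdEquivProdArrow _ _ _).symm.trans (Equiv.piCongrRight fun _ => Fin.appendEquiv j k)

section entries
omit [Field F] [Fintype F] [DecidableEq F]
theorem rowsE_l (v : Matrix (Fin i) (Fin k) F) (w : Matrix (Fin j) (Fin k) F) (r : Fin i)
    (s : Fin k) : rowsE i j k (v, w) (Fin.castAdd j r) s = v r s :=
  congrFun (Fin.append_left v w r) s
theorem rowsE_r (v : Matrix (Fin i) (Fin k) F) (w : Matrix (Fin j) (Fin k) F) (r : Fin j)
    (s : Fin k) : rowsE i j k (v, w) (Fin.natAdd i r) s = w r s :=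
  congrFun (Fin.append_right v w r) s
theorem colsE_l (v : Matrix (Fin i) (Fin j) F) (w : Matrix (Fin i) (Fin k) F) (r : Fin i)
    (s : Fin j) : colsE i j k (v, w) r (Fin.castAdd k s) = v r s := Fin.append_left (v r) (w r) s
theorem colsE_r (v : Matrix (Fin i) (Fin j) F) (w : Matrix (Fin i) (Fin k) F) (r : Fin i)
    (s : Fin k) : colsE i j k (v, w) r (Fin.natAdd j s) = w r s := Fin.append_right (v r) (w r) s
end entries

theorem blk_assoc (x : G F i) (y : G F j) (z : G F k) (u : Matrix (Fin i) (Fin j) F)
    (v : Matrix (Fin i) (Fin k) F) (w : Matrix (Fin j) (Fin k) F) :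
    (⟨i + j + k, blk (blk x u y) (rowsE i j k (v, w)) z⟩ : Obj F) =
      ⟨i + (j + k), blk x (colsE i j k (u, v)) (blk y w z)⟩ := by
  have c1 : ∀ r : Fin i, Fin.cast (add_assoc i j k) (Fin.castAdd k (Fin.castAdd j r)) =
      Fin.castAdd (j + k) r := fun r => Fin.ext rfl
  have c2 : ∀ r : Fin j, Fin.cast (add_assoc i j k) (Fin.castAdd k (Fin.natAdd i r)) =
      Fin.natAdd i (Fin.castAdd k r) := fun r => Fin.ext rfl
  have c3 : ∀ r : Fin k, Fin.cast (add_assoc i j k) (Fin.natAdd (i + j) r) =
      Fin.natAdd i (Fin.natAdd j r) := fun r => Fin.ext (by simp [add_assoc])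
  refine obj_eq (add_assoc i j k) fun r s => ?_
  induction r using Fin.addCases with
  | left r =>
    induction r using Fin.addCases <;> induction s using Fin.addCases with
    | left s => induction s using Fin.addCases <;> simp [c1, c2, colsE_l]
    | right s => simp [c1, c2, c3, colsE_r, rowsE_l, rowsE_r]
  | right r =>
    induction s using Fin.addCases with
    | left s => induction s using Fin.addCases <;> simp [c1, c2, c3]
    | right s => simp [c3]

/-- coassociativity -/
theorem De_assoc (d : H ω) (x : G F i) (y : G F j) (z : G F k) :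
    ((Fintype.card F : ℂ) ^ (i * j))⁻¹ * ∑ u, De d (i + j) k (blk x u y) z =
      ((Fintype.card F : ℂ) ^ (j * k))⁻¹ * ∑ w, De d i (j + k) x (blk y w z) := by
  have hq := cardF_ne (F := F)
  simp only [De, ← Finset.mul_sum, ← mul_assoc]
  congr 1
  · field_simp
    ring
  · simp only [← (rowsE (F := F) i j k).sum_comp, ← (colsE (F := F) i j k).sum_comp,
      Fintype.sum_prod_type, blk_assoc]
    exact (Finset.sum_congr rfl fun u _ => Finset.sum_comm).trans Finset.sum_comm

/-- the left partial restriction -/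
noncomputable def DeLft (d : H ω) (n k : ℕ) (z : G F k) : H ω := mk ω n fun x => De d n k x z
/-- the right partial restriction -/
noncomputable def DeRgt (d : H ω) (i n : ℕ) (x : G F i) : H ω := mk ω n fun z => De d i n x z

theorem DeLft_apply (d : H ω) (x : G F i) (z : G F k) : DeLft d i k z ⟨i, x⟩ = De d i k x z :=
  mk_apply_of (fun g t => De_conj_left d g t z) x
theorem DeRgt_apply (d : H ω) (x : G F i) (z : G F k) : DeRgt d i k x ⟨k, z⟩ = De d i k x z :=
  mk_apply_of (fun g t => De_conj_right d x g t) z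

theorem IsHom.ip_mul_lft {a b : H ω} (h : IsHom i a) (h' : IsHom j b) (d : H ω) :
    ip (a * b) d = (∑ y, b ⟨j, y⟩ * ip a (DeLft d i j y)) / Nat.card (G F j) := by
  rw [h.ip_mul h', Finset.sum_comm]
  simp only [h.ip_eq, classInner, DeLft_apply, Finset.mul_sum, Finset.sum_div,
    Nat.card_eq_fintype_card]
  refine Finset.sum_congr rfl fun y _ => Finset.sum_congr rfl fun x _ => ?_
  ring

theorem IsHom.ip_mul_rgt {a b : H ω} (h : IsHom i a) (h' : IsHom j b) (d : H ω) :
    ip (a * b) d = (∑ x, a ⟨i, x⟩ * ip b (DeRgt d i j x)) / Nat.card (G F i) := by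
  rw [h.ip_mul h']
  simp only [h'.ip_eq, classInner, DeRgt_apply, Finset.mul_sum, Finset.sum_div,
    Nat.card_eq_fintype_card]
  refine Finset.sum_congr rfl fun y _ => Finset.sum_congr rfl fun x _ => ?_
  ring

theorem H.mul_assoc (a b c : H ω) : a * b * c = a * (b * c) := by
  induction a using H.induction with
  | h0 => simp only [H.zero_mul]
  | h2 a a' h h' => simp only [H.add_mul, h, h']
  | h1 i a ha =>
  induction b using H.induction with
  | h0 => simp only [H.zero_mul, H.mul_zero]
  | h2 b b' h h' => simp only [H.add_mul, H.mul_add, h, h']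
  | h1 j b hb =>
  induction c using H.induction with
  | h0 => simp only [H.mul_zero]
  | h2 c c' h h' => simp only [H.mul_add, h, h']
  | h1 k c hc =>
  refine ext_ip' fun d => ?_
  rw [(ha.mul hb).ip_mul_lft hc, ha.ip_mul_rgt (hb.mul hc)]
  simp only [ha.ip_mul hb, hb.ip_mul hc]
  have e1 : ∀ x y z, De (DeLft d (i + j) k z) i j x y = De (DeRgt d i (j + k) x) j k y z :=
    fun x y z => by
      rw [De, De]
      simp only [DeLft_apply, DeRgt_apply]
      exact De_assoc d x y z
  simp only [e1, Finset.mul_sum, Finset.sum_div]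
  rw [Finset.sum_comm]
  refine Finset.sum_congr rfl fun x _ => Finset.sum_comm.trans
    (Finset.sum_congr rfl fun y _ => Finset.sum_congr rfl fun z _ => ?_)
  ring

theorem H.one_mul (a : H ω) : 1 * a = a := by
  induction a using H.induction with
  | h0 => exact H.mul_zero _
  | h2 a a' h h' => simp only [H.mul_add, h, h']
  | h1 i a ha =>
  refine ext_ip' fun d => ?_
  rw [isHom_one.ip_mul ha, Fintype.sum_unique, ha.ip_eq]
  simp only [one_apply, De_zero_left, classInner, Nat.card_unique]
  simp [div_eq_inv_mul]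

theorem H.mul_one (a : H ω) : a * 1 = a := by
  induction a using H.induction with
  | h0 => exact H.zero_mul _
  | h2 a a' h h' => simp only [H.add_mul, h, h']
  | h1 i a ha =>
  refine ext_ip' fun d => ?_
  rw [ha.ip_mul isHom_one, ha.ip_eq]
  simp only [Fintype.sum_unique, one_apply, De_zero_right, classInner, Nat.card_unique]
  simp [div_eq_inv_mul]

end Cfsg.GLn
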