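import Cfsg.Agent.Mod.CoprimeLift
import Cfsg.Agent.CT.BrauerInduction
import Mathlib.LinearAlgebra.ExteriorPower.Basis
import Mathlib.RingTheory.MvPolynomial.Symmetric.FundamentalTheorem
import Mathlib.RingTheory.Polynomial.Vieta
import Mathlib.Algebra.MvPolynomial.Expand

/-! Green's theorem: symmetric functions of lifted eigenvalues are generalized characters. -/

set_option autoImplicit false

namespace Cfsg.GLn.BL

open Polynomial Module Matrix

universe u v w

theorem isCharacter_trace_of_mul {L : Type u} [Group L] {V : Type v} [AddCommGroup V] [Module ℂ V]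
    [FiniteDimensional ℂ V] (Y : L → Module.End ℂ V) (hY : ∀ a b, Y (a * b) = Y a * Y b) :
    IsCharacter L fun a => LinearMap.trace ℂ V (Y a) := by
  have h1 : ∀ a v, Y a v ∈ LinearMap.range (Y 1) := fun a v =>
    ⟨Y a v, by rw [← Module.End.mul_apply, ← hY, one_mul]⟩
  let σ : Representation ℂ L (LinearMap.range (Y 1)) :=
    { toFun := fun a => (Y a).restrict fun v _ => h1 a v
      map_one' := by
        ext ⟨_, v, rfl⟩
        simp only [LinearMap.coe_restrict_apply, Module.End.one_apply]
        rw [← Module.End.mul_apply, ← hY, one_mul]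
      map_mul' := fun a b => by
        ext v
        simp [hY] }
  convert isCharacter_of_rep σ with a
  rw [← LinearMap.trace_restrict_eq_of_forall_mem _ _ (h1 a)]
  rfl

theorem trace_exteriorPower_map {ι : Type v} [Fintype ι] [DecidableEq ι] (A : Matrix ι ι ℂ)
    (k : ℕ) : LinearMap.trace ℂ _ (exteriorPower.map k (Matrix.toLin' A)) =
      ∑ s ∈ Finset.univ.powersetCard k,
        (A.submatrix (Subtype.val : s → ι) (Subtype.val : s → ι)).det := by
  let _ : LinearOrder ι := LinearOrder.lift' (Fintype.equivFin ι) (Fintype.equivFin ι).injective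
  rw [LinearMap.trace_eq_matrix_trace ℂ ((Pi.basisFun ℂ ι).exteriorPower k), Matrix.trace]
  symm
  refine Finset.sum_bij' (fun s hs => ⟨s, (Finset.mem_powersetCard.1 hs).2⟩) (fun s _ => s.1)
    (fun _ _ => Finset.mem_univ _)
    (fun s _ => Finset.mem_powersetCard.2 ⟨Finset.subset_univ _, s.2⟩) (fun _ _ => rfl)
    (fun _ _ => rfl) fun s hs => ?_
  have hk := (Finset.mem_powersetCard.1 hs).2
  rw [Matrix.diag_apply, LinearMap.toMatrix_apply, exteriorPower.basis_repr_apply,
    exteriorPower.basis_apply, exteriorPower.map_apply_ιMulti_family, exteriorPower.ιMulti_family,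
    exteriorPower.ιMultiDual_apply_ιMulti, ← Matrix.det_transpose,
    ← Matrix.det_submatrix_equiv_self (s.orderIsoOfFin hk).toEquiv]
  congr 1
  ext i j
  simp [Set.powersetCard.ofFinEmbEquiv_symm_apply]

theorem esymm_roots_charpoly {K : Type u} [Field K] {ι : Type v} [Fintype ι] [DecidableEq ι]
    (A : Matrix ι ι K) (hA : A.charpoly.Splits) (k : ℕ) : A.charpoly.roots.esymm k =
      ∑ s ∈ Finset.univ.powersetCard k,
        (A.submatrix (Subtype.val : s → ι) (Subtype.val : s → ι)).det := by
  have hc : A.charpoly.roots.card = Fintype.card ι := by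
    rw [← hA.natDegree_eq_card_roots, Matrix.charpoly_natDegree_eq_dim]
  rcases le_or_gt k (Fintype.card ι) with hk | hk
  · have h1 := Matrix.charpoly_coeff_eq_sum_minors A k hk
    rw [Polynomial.coeff_eq_esymm_roots_of_card (hc.trans (Matrix.charpoly_natDegree_eq_dim A).symm)
      (by rw [Matrix.charpoly_natDegree_eq_dim]; omega), Matrix.charpoly_natDegree_eq_dim,
      (Matrix.charpoly_monic A).leadingCoeff, one_mul,
      show Fintype.card ι - (Fintype.card ι - k) = k by omega] at h1
    exact mul_left_cancel₀ (pow_ne_zero _ (neg_ne_zero.2 one_ne_zero)) h1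
  · rw [Multiset.esymm, Multiset.powersetCard_eq_empty _ (hc ▸ hk),
      Finset.powersetCard_eq_empty.2 (by simpa using hk)]
    simp

theorem isCharacter_esymm {L : Type u} [Group L] {ι : Type v} [Fintype ι] [DecidableEq ι]
    (Y : L → Matrix ι ι ℂ) (hY : ∀ a b, Y (a * b) = Y a * Y b) (k : ℕ) :
    IsCharacter L fun a => (Y a).charpoly.roots.esymm k := by
  have h := isCharacter_trace_of_mul (fun a => exteriorPower.map k (Matrix.toLin' (Y a)))
    fun a b => by rw [hY, Matrix.toLin'_mul, exteriorPower.map_comp]; rfl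
  convert h using 2 with a
  rw [esymm_roots_charpoly _ (IsAlgClosed.splits _), trace_exteriorPower_map]

theorem isGeneralizedCharacter_aeval {L : Type u} [Group L] {σ : Type v} (e : σ → L → ℂ)
    (he : ∀ i, IsGeneralizedCharacter L (e i)) (Q : MvPolynomial σ ℤ) :
    IsGeneralizedCharacter L fun h => MvPolynomial.aeval (fun i => e i h) Q := by
  induction Q using MvPolynomial.induction_on with
  | C a => simpa using IsCharacter.one.isGeneralizedCharacter.zsmul (G := L) a
  | add p q hp hq => simpa [Pi.add_def] using hp.add hq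
  | mul_X p i hp => simpa [Pi.mul_def] using hp.mul (he i)

theorem isGeneralizedCharacter_of_symm {L : Type u} [Group L] {σ : Type v} [Fintype σ]
    (a : L → σ → ℂ)
    (he : ∀ i, IsGeneralizedCharacter L fun h => (Finset.univ.val.map (a h)).esymm i)
    {P : MvPolynomial σ ℤ} (hP : P.IsSymmetric) :
    IsGeneralizedCharacter L fun h => MvPolynomial.aeval (a h) P := by
  obtain ⟨Q, hQ⟩ := MvPolynomial.esymmAlgHom_surjective ℤ (σ := σ) (n := Fintype.card σ) le_rfl
    ⟨P, hP⟩
  have h1 : P = MvPolynomial.aeval (fun i : Fin (Fintype.card σ) =>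
      MvPolynomial.esymm σ ℤ (i + 1)) Q := by
    rw [← MvPolynomial.esymmAlgHom_apply, hQ]
  convert isGeneralizedCharacter_aeval _ (fun i : Fin (Fintype.card σ) => he (i + 1)) Q using 2
    with h
  rw [h1, ← AlgHom.comp_apply, MvPolynomial.comp_aeval]
  simp only [MvPolynomial.aeval_esymm_eq_multiset_esymm]

theorem exists_fin_of_card {α : Type v} {n : ℕ} (s : Multiset α) (hs : s.card = n) :
    ∃ a : Fin n → α, Finset.univ.val.map a = s := by
  subst hs
  induction s using Quotient.inductionOn with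
  | h l => exact ⟨l.get, (Fin.univ_val_map _).trans (congrArg _ (List.ofFn_get l))⟩

theorem isGeneralizedCharacter_esymm_pow {L : Type u} [Group L] {n : ℕ} (s : L → Multiset ℂ)
    (hs : ∀ h, (s h).card = n) (he : ∀ i, IsGeneralizedCharacter L fun h => (s h).esymm i)
    (k i : ℕ) : IsGeneralizedCharacter L fun h => ((s h).map (· ^ k)).esymm i := by
  choose a ha using fun h => exists_fin_of_card (s h) (hs h)
  have hP : (MvPolynomial.expand k (MvPolynomial.esymm (Fin n) ℤ i)).IsSymmetric := fun e => by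
    rw [MvPolynomial.rename_expand, MvPolynomial.esymm_isSymmetric]
  convert isGeneralizedCharacter_of_symm a (by simpa only [ha] using he) hP using 2 with h
  rw [MvPolynomial.expand, MvPolynomial.aeval_bind₁,
    MvPolynomial.aeval_esymm_eq_multiset_esymm, ← ha, Multiset.map_map]
  simp

section spec
variable {K : Type u} [Field K] {ι : Type v} [Fintype ι] [DecidableEq ι]

theorem det_aeval_of_splits (A : Matrix ι ι K) (hA : A.charpoly.Splits) {q : K[X]}
    (hq : q.Splits) : (aeval A q).det = (A.charpoly.roots.map fun z => q.eval z).prod := by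
  have hc : A.charpoly.roots.card = Fintype.card ι := by
    rw [← hA.natDegree_eq_card_roots, Matrix.charpoly_natDegree_eq_dim]
  have h1 : ∀ s : Multiset K, (aeval A (s.map fun w => X - C w).prod).det =
      (A.charpoly.roots.map fun z => ((s.map fun w => X - C w).prod).eval z).prod := fun s => by
    induction s using Multiset.induction_on with
    | empty => simp
    | cons w s ih =>
      simp only [Multiset.map_cons, Multiset.prod_cons, map_mul, Matrix.det_mul, ih, eval_mul,
        Multiset.prod_map_mul]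
      congr 1
      have h2 := Matrix.eval_charpoly A w
      conv_lhs at h2 => rw [hA.eq_prod_roots_of_monic (Matrix.charpoly_monic A)]
      rw [eval_multiset_prod, Multiset.map_map] at h2
      have h3 : aeval A (X - C w) = -(Matrix.scalar ι w - A) := by
        simp [Algebra.algebraMap_eq_smul_one, Matrix.smul_one_eq_diagonal]
      rw [h3, Matrix.det_neg, ← h2, ← hc, ← Multiset.card_map (eval w ∘ fun x => X - C x),
        ← Multiset.prod_map_neg, Multiset.map_map]
      simp
  conv_lhs => rw [hq.eq_prod_roots]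
  conv_rhs => rw [hq.eq_prod_roots]
  simp only [map_mul, Matrix.det_mul, h1, eval_mul, Multiset.prod_map_mul, eval_C, aeval_C,
    Multiset.map_const', Multiset.prod_replicate, hc]
  congr 1
  simp [Algebra.algebraMap_eq_smul_one]

/-- spectral mapping for the roots of the characteristic polynomial -/
theorem charpoly_aeval [IsAlgClosed K] (A : Matrix ι ι K) (q : K[X]) :
    (aeval A q).charpoly = (A.charpoly.roots.map fun z => X - C (q.eval z)).prod := by
  refine Polynomial.funext fun t => ?_
  rw [Matrix.eval_charpoly, eval_multiset_prod, Multiset.map_map]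
  have h3 : Matrix.scalar ι t - aeval A q = aeval A (C t - q) := by
    simp [Algebra.algebraMap_eq_smul_one, Matrix.smul_one_eq_diagonal]
  rw [h3, det_aeval_of_splits A (IsAlgClosed.splits _) (IsAlgClosed.splits _)]
  simp

theorem roots_charpoly_aeval [IsAlgClosed K] (A : Matrix ι ι K) (q : K[X]) :
    (aeval A q).charpoly.roots = A.charpoly.roots.map fun z => q.eval z := by
  rw [charpoly_aeval, ← roots_multiset_prod_X_sub_C (A.charpoly.roots.map fun z => q.eval z),
    Multiset.map_map]
  rfl

theorem roots_charpoly_pow [IsAlgClosed K] (A : Matrix ι ι K) (k : ℕ) :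
    (A ^ k).charpoly.roots = A.charpoly.roots.map (· ^ k) := by
  simpa using roots_charpoly_aeval A (X ^ k)

theorem eval_eq_zero_of_mem_roots [IsAlgClosed K] {A : Matrix ι ι K} {q : K[X]}
    (hq : aeval A q = 0) {z : K} (hz : z ∈ A.charpoly.roots) : q.eval z = 0 := by
  have h1 : q.eval z ∈ (aeval A q).charpoly.roots := by
    rw [roots_charpoly_aeval]; exact Multiset.mem_map_of_mem _ hz
  rw [hq] at h1
  simpa using (by simpa using h1 : _ ∧ _).2

end spec

/-- the Adams operations preserve generalized characters -/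
theorem adams {G : Type u} [Group G] {χ : G → ℂ} (h : IsGeneralizedCharacter G χ) (k : ℕ) :
    IsGeneralizedCharacter G fun g => χ (g ^ k) := by
  suffices H : ∀ χ, IsCharacter G χ → IsGeneralizedCharacter G fun g => χ (g ^ k) by
    obtain ⟨a, b, ha, hb, rfl⟩ := h
    exact (H a ha).sub (H b hb)
  intro χ hχ
  obtain ⟨n, X, hX⟩ := isCharacter_iff_matrix.1 hχ
  have h1 := isGeneralizedCharacter_esymm_pow (n := n) (fun g => (X g).charpoly.roots)
    (fun g => by rw [← (IsAlgClosed.splits _).natDegree_eq_card_roots,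
      Matrix.charpoly_natDegree_eq_dim, Fintype.card_fin])
    (fun i => (isCharacter_esymm X X.map_mul i).isGeneralizedCharacter) k 1
  convert h1 using 2 with g
  rw [hX, map_pow, Matrix.trace_eq_sum_roots_charpoly, roots_charpoly_pow]
  simp [Multiset.esymm, Multiset.powersetCard_one]

theorem esymm_filter_ne_zero (s : Multiset ℂ) (i : ℕ) :
    (s.filter (· ≠ 0)).esymm i = s.esymm i := by
  induction s using Multiset.induction_on generalizing i with
  | empty => simp
  | cons a s ih =>
    rcases i with _ | i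
    · simp [Multiset.esymm]
    have h1 : ∀ t : Multiset ℂ, (a ::ₘ t).esymm (i + 1) = t.esymm (i + 1) + a * t.esymm i :=
      fun t => by simp [Multiset.esymm, Multiset.sum_map_mul_left]
    by_cases ha : a = 0
    · rw [Multiset.filter_cons_of_neg _ (by simpa using ha), h1, ih, ha, zero_mul, add_zero]
    · rw [Multiset.filter_cons_of_pos (p := (· ≠ 0)) _ ha, h1, h1, ih, ih]

section lift
variable {r : ℕ} {M : Ideal AlgInt} {n : Type v} [Fintype n] [DecidableEq n]

theorem card_roots_charpoly {K : Type u} [Field K] {A : Matrix n n K} (hA : A.charpoly.Splits) :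
    A.charpoly.roots.card = Fintype.card n := by
  rw [← hA.natDegree_eq_card_roots, Matrix.charpoly_natDegree_eq_dim]

theorem pow_card_eq_one_of_mem_roots {K : Type u} [Field K] [IsAlgClosed K] {L : Type w} [Group L]
    (ρ : L →* Matrix n n K) {h : L} {N : ℕ} (hN : h ^ N = 1) {z : K}
    (hz : z ∈ (ρ h).charpoly.roots) : z ^ N = 1 := by
  have h1 := eval_eq_zero_of_mem_roots (q := X ^ N - 1) 
    (by rw [map_sub, map_pow, aeval_X, ← map_pow, hN, map_one, map_one, sub_self]) hz
  simpa [sub_eq_zero] using h1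

theorem exists_lift (hM : IsPModular r M) {L : Type u} [Group L] [Finite L]
    (hr : ¬ r ∣ Nat.card L) (ρ : L →* Matrix n n (resK M)) :
    ∃ s : L → Multiset ℂ, (∀ h, ∀ z ∈ s h, z ^ Nat.card L = 1) ∧
      (∀ h, (s h).map (red M) = (ρ h).charpoly.roots) ∧
        ∀ i, IsCharacter L fun h => (s h).esymm i := by
  classical
  have := Fintype.ofFinite L
  let φ := IsLocalRing.residue (valO M)
  obtain ⟨c, hc⟩ := hM.exists_avg hr
  choose lf hlf using IsLocalRing.residue_surjective (R := valO M)
  let e : L → Equiv.Perm (L × n) := fun h => (Equiv.mulLeft h⁻¹).prodCongr (Equiv.refl n)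
  let P : L → Matrix (L × n) (L × n) (valO M) := fun h => (e h).toPEquiv.toMatrix
  let a : Matrix (L × n) (L × n) (valO M) := Matrix.of fun x y => c * lf (ρ (x.1⁻¹ * y.1) x.2 y.2)
  let I : Matrix (L × n) n (resK M) := Matrix.of fun x j => ρ x.1⁻¹ x.2 j
  let π : Matrix n (L × n) (resK M) := Matrix.of fun i y => φ c * ρ y.1 i y.2
  have hP : ∀ x y, P (x * y) = P x * P y := fun x y => by
    simp only [P]
    rw [PEquiv.toMatrix_toPEquiv_mul]
    ext ⟨g, i⟩ ⟨g', j⟩
    simp [e, PEquiv.toMatrix, mul_assoc]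
  have ha : a.map φ = I * π := by
    ext ⟨g, i⟩ ⟨g', j⟩
    simp only [a, I, π, Matrix.of_apply, Matrix.map_apply, map_mul, Matrix.mul_apply, φ, hlf, Finset.mul_sum]
    exact Finset.sum_congr rfl fun _ _ => by ring
  have hπ : π * I = 1 := by
    have h1 : π * I = φ c • ∑ g : L, ρ g * ρ g⁻¹ := by
      ext i j
      simp only [I, π, Matrix.of_apply, Matrix.mul_apply, Fintype.sum_prod_type, Matrix.smul_apply,
        Matrix.sum_apply, smul_eq_mul, Finset.mul_sum, mul_assoc]
    rw [h1]
    simp only [← map_mul, mul_inv_cancel, map_one, Finset.sum_const, Finset.card_univ]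
    rw [← Nat.card_eq_fintype_card, ← Nat.cast_smul_eq_nsmul (resK M), smul_smul,
      ← map_natCast φ, ← map_mul, hc, map_one, one_smul]
  have hPI : ∀ h, (P h).map φ * I = I * ρ h := fun h => by
    simp only [P]
    rw [PEquiv.map_toMatrix, PEquiv.toMatrix_toPEquiv_mul]
    ext ⟨g, i⟩ j
    simp [I, e, Matrix.mul_apply]
  obtain ⟨E, hE, hEa, hEc⟩ := exists_matrix_idem_lift (a := a) (by
    change a.map φ * a.map φ = a.map φ
    rw [ha, Matrix.mul_assoc, ← Matrix.mul_assoc π, hπ, Matrix.one_mul])
  have hPE : ∀ h, Commute (P h) E := fun h => hEc _ (by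
    simp only [P]
    rw [commute_iff_eq, PEquiv.toMatrix_toPEquiv_mul, PEquiv.mul_toMatrix_toPEquiv]
    ext ⟨g, i⟩ ⟨g', j⟩
    simp [a, e, mul_assoc])
  let Y : L → Matrix (L × n) (L × n) ℂ := fun h => (P h * E).map (valO M).subtype
  have hY : ∀ x y, Y (x * y) = Y x * Y y := fun x y => by
    simp only [Y]
    rw [← Matrix.map_mul, hP, mul_assoc (P x) E, ← mul_assoc E, ← (hPE y).eq, mul_assoc _ E E,
      hE.eq, mul_assoc]
  have hYp : ∀ x k, Y x ^ (k + 1) = Y (x ^ (k + 1)) := fun x k => by
    induction k with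
    | zero => simp
    | succ k ih => rw [pow_succ, ih, ← hY, ← pow_succ]
  have hz : ∀ h, ∀ z ∈ (Y h).charpoly.roots, z ≠ 0 → z ^ Nat.card L = 1 := fun h z hz h0 => by
    have h1 := eval_eq_zero_of_mem_roots (q := X ^ (Nat.card L + 1) - X)
      (by rw [map_sub, map_pow, aeval_X, hYp, pow_succ, pow_card_eq_one', one_mul, sub_self]) hz
    rw [eval_sub, eval_pow, eval_X, pow_succ, sub_eq_zero] at h1
    exact mul_right_cancel₀ h0 (h1.trans (one_mul z).symm)
  refine ⟨fun h => (Y h).charpoly.roots.filter (· ≠ 0), fun h z hz' =>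
    hz h z (Multiset.mem_filter.1 hz').1 (Multiset.mem_filter.1 hz').2, fun h => ?_,
    fun i => by simpa only [esymm_filter_ne_zero] using isCharacter_esymm Y hY i⟩
  obtain ⟨s, hs⟩ := valO_exists_eq_prod _ (Matrix.charpoly_monic (P h * E))
  have h1 : (Y h).charpoly.roots = s.map (valO M).subtype := by
    simp only [Y]
    rw [Matrix.charpoly_map, hs, Polynomial.map_multiset_prod, Multiset.map_map,
      ← roots_multiset_prod_X_sub_C (s.map (valO M).subtype), Multiset.map_map]
    simp
  have h2 : ((P h * E).map φ).charpoly.roots = s.map φ := by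
    rw [Matrix.charpoly_map, hs, Polynomial.map_multiset_prod, Multiset.map_map,
      ← roots_multiset_prod_X_sub_C (s.map φ), Multiset.map_map]
    simp
  have h3 : E.map φ = I * π := ha ▸ hEa
  rw [Matrix.map_mul, h3, ← Matrix.mul_assoc, hPI, Matrix.mul_assoc,
    Matrix.charpoly_mul_comm_of_le _ _ (by
      rw [Fintype.card_prod]; exact Nat.le_mul_of_pos_left _ Fintype.card_pos),
    Matrix.mul_assoc, hπ, Matrix.mul_one, roots_mul (mul_ne_zero (pow_ne_zero _ X_ne_zero)
      (Matrix.charpoly_monic _).ne_zero), roots_X_pow] at h2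
  have h4 : (ρ h).charpoly.roots = (s.map φ).filter (· ≠ 0) := by
    rw [← h2, Multiset.filter_add, Multiset.filter_eq_nil.2 (by simp), zero_add,
      Multiset.filter_eq_self.2]
    rintro z hz rfl
    have := pow_card_eq_one_of_mem_roots ρ pow_card_eq_one' hz
    rw [zero_pow Nat.card_pos.ne'] at this
    exact zero_ne_one this
  beta_reduce
  rw [h4, h1, Multiset.filter_map, Multiset.filter_map, Multiset.map_map]
  refine Multiset.map_congr (Multiset.filter_congr fun z hz' => ⟨fun h0 => ?_, fun h0 h5 => h0 ?_⟩)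
    fun z _ => red_coe z
  · have h5 := hz h z (h1 ▸ Multiset.mem_map_of_mem _ hz') h0
    exact (red_coe z).symm.trans_ne
      (red_ne_zero_iff.2 (valM_eq_one_of_pow_eq_one Nat.card_pos.ne' h5))
  · rw [show z = 0 from Subtype.ext h5]; exact map_zero φ

theorem eq_of_red_eq (hM : IsPModular r M) {N : ℕ} (hN : ¬ r ∣ N) {z w : ℂ} (hz : z ^ N = 1)
    (hw : w ^ N = 1) (h : red M z = red M w) : z = w := by
  have hN0 : N ≠ 0 := fun h => hN (h ▸ dvd_zero r)
  have h1 := valM_eq_one_of_pow_eq_one (M := M) hN0 hz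
  have h2 := valM_eq_one_of_pow_eq_one (M := M) hN0 hw
  have h3 : w ≠ 0 := fun h => by simp [h, hN0] at hw
  refine (div_eq_one_iff_eq h3).1 (hM.eq_one_of_red_eq_one hN (by rw [div_pow, hz, hw, div_one]) ?_)
  rw [red_div (mem_valO_iff.2 h1.le) h2, h, div_self (red_ne_zero_iff.2 h2)]

theorem exists_pow_of_mul (hM : IsPModular r M) {N : ℕ} (hN : ¬ r ∣ N) {K : Type u} [Field K]
    (j : K →+* resK M) (t : K → ℂ) (ht1 : t 1 = 1)
    (ht : ∀ a b, a ≠ 0 → b ≠ 0 → t (a * b) = t a * t b) :
    ∃ k : ℕ, ∀ (a : K) (z : ℂ), z ^ N = 1 → red M z = j a → z ^ k = t a := by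
  have hN0 : N ≠ 0 := fun h => hN (h ▸ dvd_zero r)
  have := NeZero.mk hN0
  obtain ⟨ω, hω⟩ := IsCyclic.exists_monoid_generator (α := rootsOfUnity N K)
  have hω1 : ((ω : Kˣ) : K) ^ N = 1 := (mem_rootsOfUnity' _ _).1 ω.2
  obtain ⟨z₀, h1, h2⟩ := hM.exists_lift_rootOfUnity (x := j ((ω : Kˣ) : K)) hN
    (by rw [← map_pow, hω1, map_one])
  have h3 : z₀ ∈ valO M := mem_valO_iff.2 (valM_eq_one_of_pow_eq_one hN0 h1).le
  have h4 : ∀ m, t (((ω : Kˣ) : K) ^ m) = t ((ω : Kˣ) : K) ^ m := fun m => by
    induction m with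
    | zero => simpa using ht1
    | succ m ih => rw [pow_succ, ht _ _ (pow_ne_zero _ (Units.ne_zero _)) (Units.ne_zero _), ih,
        pow_succ]
  have h5 : ∀ m, (z₀ ^ m) ^ N = 1 := fun m => by rw [← pow_mul, mul_comm, pow_mul, h1, one_pow]
  have h6 : 0 < orderOf z₀ := (isOfFinOrder_iff_pow_eq_one.2 ⟨N, Nat.pos_of_ne_zero hN0, h1⟩).orderOf_pos
  have := NeZero.mk h6.ne'
  obtain ⟨k, -, hk⟩ := (IsPrimitiveRoot.orderOf z₀).eq_pow_of_pow_eq_one
    (ξ := t ((ω : Kˣ) : K)) (by
      rw [← h4, ← ht1]
      congr 1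
      apply j.injective
      rw [map_pow, ← h2, ← red_pow h3, pow_orderOf_eq_one, red_one, map_one])
  refine ⟨k, fun a z hz hza => ?_⟩
  have h7 : a ^ N = 1 := j.injective (by
    rw [map_pow, ← hza, ← red_pow (mem_valO_iff.2 (valM_eq_one_of_pow_eq_one hN0 hz).le), hz,
      red_one, map_one])
  obtain ⟨m, hm⟩ := hω (rootsOfUnity.mkOfPowEq a h7)
  have h8 : ((ω : Kˣ) : K) ^ m = a := by
    simpa using congrArg (fun x : rootsOfUnity N K => ((x : Kˣ) : K)) hm
  rw [eq_of_red_eq hM hN hz (h5 m) (by rw [hza, red_pow h3, h2, ← map_pow, h8]), ← h8, h4, ← hk,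
    ← pow_mul, ← pow_mul, mul_comm]

theorem green_coprime (hM : IsPModular r M) {L : Type u} [Group L] [Finite L]
    (hr : ¬ r ∣ Nat.card L) {K : Type w} [Field K] (j : K →+* resK M) (ρ : L →* Matrix n n K)
    (hs : ∀ g, (ρ g).charpoly.Splits) (t : K → ℂ) (ht1 : t 1 = 1)
    (ht : ∀ a b, a ≠ 0 → b ≠ 0 → t (a * b) = t a * t b) (i : ℕ) :
    IsGeneralizedCharacter L fun g => ((ρ g).charpoly.roots.map t).esymm i := by
  obtain ⟨s, h1, h2, h3⟩ := exists_lift hM hr
    ((j.mapMatrix : Matrix n n K →+* _).toMonoidHom.comp ρ)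
  have h4 : ∀ h, (s h).map (red M) = (ρ h).charpoly.roots.map j := fun h => by
    rw [h2, ← (hs h).roots_map, ← Matrix.charpoly_map]; rfl
  obtain ⟨k, hk⟩ := exists_pow_of_mul hM hr j t ht1 ht
  convert isGeneralizedCharacter_esymm_pow (n := Fintype.card n) s (fun h => by
    rw [← Multiset.card_map (red M), h4, Multiset.card_map, card_roots_charpoly (hs h)])
    (fun i => (h3 i).isGeneralizedCharacter) k i using 3 with h
  exact (Multiset.rel_eq.1 (Multiset.rel_map.2 ((Multiset.rel_map.1 (Multiset.rel_eq.2 (h4 h))).mono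
    fun z hz a _ hza => hk a z (h1 h z hz) hza))).symm

theorem green_core (hM : IsPModular r M) {G : Type u} [Group G] [Finite G]
    {K : Type w} [Field K] (j : K →+* resK M) (ρ : G →* Matrix n n K)
    (hs : ∀ g, (ρ g).charpoly.Splits) (t : K → ℂ) (ht1 : t 1 = 1)
    (ht : ∀ a b, a ≠ 0 → b ≠ 0 → t (a * b) = t a * t b) (i : ℕ) :
    IsGeneralizedCharacter G fun g => ((ρ g).charpoly.roots.map t).esymm i := by
  have := Fact.mk hM.prime
  have := hM.charP
  have hn : Nat.card G ≠ 0 := Nat.card_pos.ne'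
  have hG := (Nat.ordProj_mul_ordCompl_eq_self (Nat.card G) r).symm
  have hN := Nat.not_dvd_ordCompl hM.prime hn
  have hc := (Nat.coprime_ordCompl hM.prime hn).pow_left ((Nat.card G).factorization r)
  generalize Nat.card G / r ^ (Nat.card G).factorization r = N at hG hN hc
  generalize (Nat.card G).factorization r = a at hG hc
  obtain ⟨m, h1, h2⟩ := Nat.chineseRemainder hc 0 1
  have h3 : m * m ≡ m [MOD Nat.card G] := hG ▸ (Nat.modEq_and_modEq_iff_modEq_mul hc).1
    ⟨by simpa using (h1.mul h1).trans h1.symm, by simpa using (h2.mul h2).trans h2.symm⟩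
  have h4 : ∀ g, (ρ (g ^ m)).charpoly.roots = (ρ g).charpoly.roots := fun g => by
    apply Multiset.map_injective j.injective
    let ρ' := (j.mapMatrix : Matrix n n K →+* _).toMonoidHom.comp ρ
    have h5 : ∀ h, (ρ h).charpoly.roots.map j = (ρ' h).charpoly.roots := fun h => by
      rw [← (hs h).roots_map, ← Matrix.charpoly_map]; rfl
    simp only [h5]
    rw [map_pow, roots_charpoly_pow]
    refine (Multiset.map_congr rfl fun z hz => ?_).trans (Multiset.map_id' _)
    have h6 := pow_card_eq_one_of_mem_roots ρ' pow_card_eq_one' hz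
    rw [hG, ExpChar.pow_prime_pow_mul_eq_one_iff] at h6
    rw [pow_eq_pow_of_modEq h2 h6, pow_one]
  refine isGeneralizedCharacter_of_nilpotent (fun g x => ?_) fun E hE => ?_
  · rw [map_mul, Matrix.charpoly_mul_comm, ← map_mul, inv_mul_cancel_left]
  let f : E →* E := MonoidHom.mk' (fun e => e ^ m)
    (mul_pow_of_isNilpotent_of_idem (h3.of_dvd E.card_subgroup_dvd_card))
  have h5 : ¬ r ∣ Nat.card f.range := fun h => by
    obtain ⟨⟨_, w, rfl⟩, hz⟩ := exists_prime_orderOf_dvd_card' r h
    apply hN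
    rw [← hz, ← Subgroup.orderOf_coe]
    refine orderOf_dvd_of_pow_eq_one ?_
    change (w ^ m) ^ N = 1
    rw [← pow_mul, ← orderOf_dvd_iff_pow_eq_one]
    refine ((orderOf_dvd_natCard w).trans E.card_subgroup_dvd_card).trans ?_
    rw [hG]
    exact Nat.mul_dvd_mul_right (Nat.modEq_zero_iff_dvd.1 h1) N
  convert (green_coprime hM h5 j (ρ.comp (E.subtype.comp f.range.subtype)) (fun _ => hs _) t ht1
    ht i).comp f.rangeRestrict using 4 with e
  exact (h4 e).symm

variable {G : Type u} [Group G] [Finite G] {F : Type*} [Field F] [Finite F] {K : Type w} [Field K]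
  [Algebra F K] [Algebra.IsAlgebraic F K]

/-- Green's theorem, elementary symmetric functions -/
theorem green_esymm (ρ : G →* Matrix n n F)
    (hs : ∀ g, ((ρ g).charpoly.map (algebraMap F K)).Splits) (t : K → ℂ) (ht1 : t 1 = 1)
    (ht : ∀ a b, a ≠ 0 → b ≠ 0 → t (a * b) = t a * t b) (i : ℕ) :
    IsGeneralizedCharacter G fun g => (((ρ g).charpoly.aroots K).map t).esymm i := by
  obtain ⟨r, hr⟩ := CharP.exists F
  have hp := CharP.char_is_prime F r
  have := Fact.mk hp
  obtain ⟨M, hM⟩ := exists_isPModular hp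
  have := hM.charP
  let _ : Algebra (ZMod r) F := ZMod.algebra _ r
  let _ : Algebra (ZMod r) (resK M) := ZMod.algebra _ r
  let _ : Algebra F (resK M) := (IsAlgClosed.lift : F →ₐ[ZMod r] resK M).toRingHom.toAlgebra
  have h := green_core hM (IsAlgClosed.lift : K →ₐ[F] resK M).toRingHom
    (((algebraMap F K).mapMatrix : Matrix n n F →+* _).toMonoidHom.comp ρ)
    (fun g => (Matrix.charpoly_map (ρ g) (algebraMap F K)).symm ▸ hs g) t ht1 ht i
  convert h using 4 with g
  exact congrArg _ (Matrix.charpoly_map (ρ g) (algebraMap F K)).symm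

/-- Green's theorem, the Brauer lift -/
theorem green_sum (ρ : G →* Matrix n n F)
    (hs : ∀ g, ((ρ g).charpoly.map (algebraMap F K)).Splits) (t : K → ℂ) (ht1 : t 1 = 1)
    (ht : ∀ a b, a ≠ 0 → b ≠ 0 → t (a * b) = t a * t b) :
    IsGeneralizedCharacter G fun g => (((ρ g).charpoly.aroots K).map t).sum := by
  simpa [Multiset.esymm, Multiset.powersetCard_one] using green_esymm ρ hs t ht1 ht 1

/-- Green's theorem, any integral symmetric polynomial -/
theorem green_symm (ρ : G →* Matrix n n F)
    (hs : ∀ g, ((ρ g).charpoly.map (algebraMap F K)).Splits) (t : K → ℂ) (ht1 : t 1 = 1)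
    (ht : ∀ a b, a ≠ 0 → b ≠ 0 → t (a * b) = t a * t b) {σ : Type*} [Fintype σ] (a : G → σ → K)
    (ha : ∀ g, Finset.univ.val.map (a g) = (ρ g).charpoly.aroots K)
    {P : MvPolynomial σ ℤ} (hP : P.IsSymmetric) :
    IsGeneralizedCharacter G fun g => MvPolynomial.aeval (fun i => t (a g i)) P := by
  refine isGeneralizedCharacter_of_symm (fun g i => t (a g i)) (fun i => ?_) hP
  convert green_esymm ρ hs t ht1 ht i using 3 with g
  rw [← ha, Multiset.map_map]; rfl

end lift

open Classical in
/-- Green's theorem for `GL n F` and a character of the units of the algebraic closure -/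
theorem green_GL {n : Type v} [Fintype n] [DecidableEq n] {F : Type u} [Field F] [Finite F]
    (th : (AlgebraicClosure F)ˣ →* ℂˣ) (j : ℕ) :
    IsGeneralizedCharacter (GL n F) fun g =>
      ((((g : Matrix n n F).charpoly.aroots (AlgebraicClosure F)).map
        fun x => if h : x = 0 then (0 : ℂ) else th (Units.mk0 x h)).esymm j) := by
  refine green_esymm (Units.coeHom (Matrix n n F)) (fun _ => IsAlgClosed.splits _) _ ?_ ?_ j
  · simp
  · intro a b ha hb
    rw [dif_neg ha, dif_neg hb, dif_neg (mul_ne_zero ha hb), Units.mk0_mul, map_mul, Units.val_mul]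

theorem exists_pow_eq_one_of_isAlgebraic {F : Type u} [Field F] [Finite F] {K : Type w} [Field K]
    [Algebra F K] [Algebra.IsAlgebraic F K] (x : Kˣ) :
    ∃ N, ¬ ringChar F ∣ N ∧ (x : K) ^ N = 1 := by
  have hx := Algebra.IsIntegral.isIntegral (R := F) (x : K)
  have := IntermediateField.adjoin.finiteDimensional hx
  have : Finite (IntermediateField.adjoin F {(x : K)}) := Module.finite_of_finite F
  have := Fintype.ofFinite (IntermediateField.adjoin F {(x : K)})
  have hp := CharP.char_is_prime F (ringChar F)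
  have : CharP (IntermediateField.adjoin F {(x : K)}) (ringChar F) :=
    charP_of_injective_algebraMap (algebraMap F _).injective _
  obtain ⟨k, -, hk⟩ := FiniteField.card (IntermediateField.adjoin F {(x : K)}) (ringChar F)
  refine ⟨Fintype.card (IntermediateField.adjoin F {(x : K)}) - 1, fun h => ?_, ?_⟩
  · have h1 : ringChar F ∣ Fintype.card (IntermediateField.adjoin F {(x : K)}) :=
      hk ▸ dvd_pow_self _ k.ne_zero
    have h2 := Nat.dvd_sub h1 h
    rw [Nat.sub_sub_self Fintype.card_pos] at h2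
    exact hp.one_lt.ne' (Nat.dvd_one.1 h2)
  · have h1 := FiniteField.pow_card_sub_one_eq_one
      (⟨x, IntermediateField.mem_adjoin_simple_self F (x : K)⟩ :
        IntermediateField.adjoin F {(x : K)}) (fun h => x.ne_zero (congrArg Subtype.val h))
    exact congrArg Subtype.val h1

/-- an injective character of the units of an algebraic extension of a finite field -/
theorem exists_injective_hom (F : Type u) [Field F] [Finite F] (K : Type w) [Field K]
    [Algebra F K] [Algebra.IsAlgebraic F K] : ∃ th : Kˣ →* ℂˣ, Function.Injective th := by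
  have hp := CharP.char_is_prime F (ringChar F)
  have := Fact.mk hp
  obtain ⟨M, hM⟩ := exists_isPModular hp
  have := hM.charP
  let _ : Algebra (ZMod (ringChar F)) F := ZMod.algebra _ _
  let _ : Algebra (ZMod (ringChar F)) (resK M) := ZMod.algebra _ _
  let _ : Algebra F (resK M) :=
    (IsAlgClosed.lift : F →ₐ[ZMod (ringChar F)] resK M).toRingHom.toAlgebra
  let j : K →+* resK M := (IsAlgClosed.lift : K →ₐ[F] resK M).toRingHom
  have h1 : ∀ x : Kˣ, ∃ z : ℂˣ, ∃ N, ¬ ringChar F ∣ N ∧ (z : ℂ) ^ N = 1 ∧ red M z = j x := fun x => by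
    obtain ⟨N, hN, hx⟩ := exists_pow_eq_one_of_isAlgebraic (F := F) x
    obtain ⟨z, h1, h2⟩ := hM.exists_lift_rootOfUnity (x := j x) hN (by rw [← map_pow, hx, map_one])
    refine ⟨Units.mk0 z fun h => ?_, N, hN, h1, h2⟩
    rw [h, zero_pow fun h : N = 0 => hN (h ▸ dvd_zero _)] at h1
    exact zero_ne_one h1
  choose z N hN hz hzj using h1
  have h2 : ∀ x, (z x : ℂ) ∈ valO M := fun x => mem_valO_iff.2
    (valM_eq_one_of_pow_eq_one (fun h : N x = 0 => hN x (h ▸ dvd_zero _)) (hz x)).le
  refine ⟨MonoidHom.mk' z fun a b => Units.ext (eq_of_red_eq hM (N := N (a * b) * (N a * N b))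
    (fun h => (hp.dvd_mul.1 h).elim (hN _) fun h => (hp.dvd_mul.1 h).elim (hN _) (hN _)) ?_ ?_ ?_),
    fun a b h => Units.ext (j.injective ?_)⟩
  · rw [pow_mul, hz, one_pow]
  · rw [mul_comm (N _), pow_mul, Units.val_mul, mul_pow, pow_mul, hz, mul_comm (N a), pow_mul, hz]
    simp
  · rw [Units.val_mul, red_mul (h2 a) (h2 b), hzj, hzj, hzj, Units.val_mul, map_mul]
  · rw [← hzj, ← hzj]
    exact congrArg (fun u : ℂˣ => red M u) h

end Cfsg.GLn.BL
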