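import Mathlib.Algebra.Module.PID
import Mathlib.Algebra.Polynomial.Module.FiniteDimensional
import Mathlib.RingTheory.AdjoinRoot
import Mathlib.LinearAlgebra.Matrix.ToLin
import Mathlib.Algebra.DirectSum.Module
import Mathlib.LinearAlgebra.Matrix.Basis
import Mathlib.LinearAlgebra.StdBasis
import Mathlib.Data.Matrix.Block

/-!
# Primary rational canonical form

Every endomorphism of a finite-dimensional vector space is similar to multiplication by the root
on a product of rings `F[t]/(f^e)`.
-/

set_option autoImplicit false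

namespace Cfsg.GLn.Cls

open Polynomial

universe u v

variable {F : Type u} [Field F]

/-- module form, with an arbitrary finite index type -/
theorem exists_equiv_aux {V : Type v} [AddCommGroup V] [Module F V] [FiniteDimensional F V]
    (g : Module.End F V) :
    ∃ (ι : Type u) (_ : Fintype ι) (f : ι → F[X]) (e : ι → ℕ),
      (∀ i, Irreducible (f i) ∧ (f i).Monic) ∧
      ∃ φ : V ≃ₗ[F] (∀ i, AdjoinRoot (f i ^ e i)),
        ∀ v i, φ (g v) i = AdjoinRoot.root (f i ^ e i) * φ v i := by
  classical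
  have ht : Module.IsTorsion F[X] (Module.AEval' g) :=
    Module.AEval.isTorsion_of_finiteDimensional F V g
  obtain ⟨ι, hι, p, hp, e, ⟨l⟩⟩ := Module.equiv_directSum_of_isTorsion ht
  refine ⟨ι, hι, fun i => normalize (p i), e, fun i => ⟨?_, ?_⟩, ?_⟩
  · exact (associated_normalize (p i)).irreducible (hp i)
  · exact Polynomial.monic_normalize (hp i).ne_zero
  · have hq : ∀ i, (F[X] ∙ p i ^ e i) = Ideal.span {normalize (p i) ^ e i} := by
      intro i
      change Ideal.span {p i ^ e i} = _
      exact Ideal.span_singleton_eq_span_singleton.2 ((associated_normalize (p i)).pow_pow)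
    let l2 : Module.AEval' g ≃ₗ[F[X]] (∀ i, F[X] ⧸ Ideal.span {normalize (p i) ^ e i}) :=
      l.trans ((DirectSum.linearEquivFunOnFintype F[X] ι _).trans
        (LinearEquiv.piCongrRight fun i => Submodule.quotEquivOfEq _ _ (hq i)))
    refine ⟨(Module.AEval'.of g).trans (l2.restrictScalars F), fun v i => ?_⟩
    change l2 (Module.AEval'.of g (g v)) i = _
    rw [← Module.AEval'.X_smul_of, map_smul]
    rfl

/-- the primary rational canonical form: index type `Fin m`, all exponents positive -/
theorem exists_equiv {V : Type v} [AddCommGroup V] [Module F V] [FiniteDimensional F V]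
    (g : Module.End F V) :
    ∃ (m : ℕ) (f : Fin m → F[X]) (e : Fin m → ℕ),
      (∀ i, Irreducible (f i) ∧ (f i).Monic ∧ 0 < e i) ∧
      ∃ φ : V ≃ₗ[F] (∀ i, AdjoinRoot (f i ^ e i)),
        ∀ v i, φ (g v) i = AdjoinRoot.root (f i ^ e i) * φ v i := by
  classical
  obtain ⟨ι, hι, f, e, hf, φ, hφ⟩ := exists_equiv_aux g
  let s := {i : ι // 0 < e i}
  let σ : Fin (Fintype.card s) ≃ s := (Fintype.equivFin s).symm
  have hsub : ∀ i, ¬ 0 < e i → Subsingleton (AdjoinRoot (f i ^ e i)) := by
    intro i hi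
    have : e i = 0 := by omega
    rw [this, pow_zero]
    exact ⟨fun a b => by
      obtain ⟨a, rfl⟩ := AdjoinRoot.mk_surjective a
      obtain ⟨b, rfl⟩ := AdjoinRoot.mk_surjective b
      exact AdjoinRoot.mk_eq_mk.2 (one_dvd _)⟩
  let ψ : (∀ i, AdjoinRoot (f i ^ e i)) →ₗ[F]
      (∀ j : Fin (Fintype.card s), AdjoinRoot (f (σ j).1 ^ e (σ j).1)) :=
    LinearMap.pi fun j => LinearMap.proj (σ j).1
  have hψ : Function.Bijective ψ := by
    constructor
    · intro a b hab
      funext i
      by_cases hi : 0 < e i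
      · have h := congrFun hab (σ.symm ⟨i, hi⟩)
        simp only [ψ, LinearMap.pi_apply, LinearMap.coe_proj, Function.eval] at h
        have key : ∀ k : s, k = ⟨i, hi⟩ → a k.1 = b k.1 → a i = b i := by
          rintro k rfl h; exact h
        exact key _ (σ.apply_symm_apply _) h
      · exact (hsub i hi).elim _ _
    · intro b
      refine ⟨fun i => if hi : 0 < e i then
        cast (by rw [σ.apply_symm_apply]) (b (σ.symm ⟨i, hi⟩)) else 0, ?_⟩
      funext j
      simp only [ψ, LinearMap.pi_apply, LinearMap.coe_proj, Function.eval]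
      rw [dif_pos (σ j).2]
      have key : ∀ (k : Fin (Fintype.card s)) (h : k = j)
          (h' : AdjoinRoot (f (σ k).1 ^ e (σ k).1) = AdjoinRoot (f (σ j).1 ^ e (σ j).1)),
          cast h' (b k) = b j := by
        rintro k rfl h'; rfl
      exact key _ (σ.symm_apply_apply j) _
  refine ⟨Fintype.card s, fun j => f (σ j).1, fun j => e (σ j).1,
    fun j => ⟨(hf _).1, (hf _).2, (σ j).2⟩, φ.trans (LinearEquiv.ofBijective ψ hψ),
    fun v j => ?_⟩
  exact hφ v (σ j).1

/-- for an injective endomorphism no block belongs to the polynomial `X` -/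
theorem ne_X_of_injective {V : Type v} [AddCommGroup V] [Module F V] {g : Module.End F V}
    (hg : Function.Injective g) {ι : Type*} {f : ι → F[X]} {e : ι → ℕ} (he : ∀ i, 0 < e i)
    (φ : V ≃ₗ[F] (∀ i, AdjoinRoot (f i ^ e i)))
    (hφ : ∀ v i, φ (g v) i = AdjoinRoot.root (f i ^ e i) * φ v i) (i : ι) : f i ≠ X := by
  classical
  intro hX
  obtain ⟨k, hk⟩ : ∃ k, e i = k + 1 := ⟨e i - 1, by have := he i; omega⟩
  let w : ∀ j, AdjoinRoot (f j ^ e j) := Pi.single i (AdjoinRoot.mk _ (X ^ k))
  have h0 : g (φ.symm w) = 0 := by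
    apply φ.injective
    funext j
    rw [hφ, φ.apply_symm_apply, map_zero]
    by_cases hj : j = i
    · subst hj
      simp only [w, Pi.single_eq_same, Pi.zero_apply]
      rw [← AdjoinRoot.mk_X, ← map_mul, AdjoinRoot.mk_eq_zero, hX, hk, pow_succ']
    · simp [w, Pi.single_eq_of_ne hj]
  have h1 : w = 0 := by
    have := hg (h0.trans (map_zero g).symm)
    simpa using congrArg φ this
  have h2 := congrFun h1 i
  simp only [w, Pi.single_eq_same, Pi.zero_apply] at h2
  rw [AdjoinRoot.mk_eq_zero, hX, hk] at h2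
  have := Polynomial.natDegree_le_of_dvd h2 (pow_ne_zero _ X_ne_zero)
  simp at this

/-- the dimension is the sum of the degrees of the blocks -/
theorem finrank_eq {V : Type v} [AddCommGroup V] [Module F V] {m : ℕ} {f : Fin m → F[X]}
    {e : Fin m → ℕ} (φ : V ≃ₗ[F] (∀ i, AdjoinRoot (f i ^ e i))) (hf : ∀ i, f i ≠ 0) :
    Module.finrank F V = ∑ i, e i * (f i).natDegree := by
  haveI : ∀ i, Module.Finite F (AdjoinRoot (f i ^ e i)) := fun i =>
    (AdjoinRoot.powerBasis (pow_ne_zero (e i) (hf i))).finite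
  rw [φ.finrank_eq, Module.finrank_pi_fintype]
  refine Finset.sum_congr rfl fun i _ => ?_
  rw [(AdjoinRoot.powerBasis (pow_ne_zero (e i) (hf i))).finrank, AdjoinRoot.powerBasis_dim,
    natDegree_pow]

/-- the matrix of multiplication by the root in the power basis of `F[t]/(h)` -/
noncomputable def comp (h : F[X]) (h0 : h ≠ 0) : Matrix (Fin h.natDegree) (Fin h.natDegree) F :=
  LinearMap.toMatrix (AdjoinRoot.powerBasisAux h0) (AdjoinRoot.powerBasisAux h0)
    (LinearMap.mulLeft F (AdjoinRoot.root h))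

/-- matrix form: every square matrix is similar to a block diagonal matrix of companion blocks -/
theorem exists_similar {n : Type*} [Fintype n] [DecidableEq n] (A : Matrix n n F) :
    ∃ (m : ℕ) (f : Fin m → F[X]) (e : Fin m → ℕ)
      (hf : ∀ i, Irreducible (f i) ∧ (f i).Monic ∧ 0 < e i)
      (σ : n ≃ Σ i, Fin (f i ^ e i).natDegree) (P Q : Matrix n n F), P * Q = 1 ∧ Q * P = 1 ∧
      P * A * Q = Matrix.reindex σ.symm σ.symm (Matrix.blockDiagonal' fun i =>
        comp (f i ^ e i) (pow_ne_zero _ (hf i).1.ne_zero)) := by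
  classical
  obtain ⟨m, f, e, hf, φ, hφ⟩ := exists_equiv (Matrix.toLin' A)
  let b0 := Pi.basis fun i => AdjoinRoot.powerBasisAux (pow_ne_zero (e i) (hf i).1.ne_zero)
  let b1 := b0.map φ.symm
  let σ : n ≃ Σ i, Fin (f i ^ e i).natDegree := (Pi.basisFun F n).indexEquiv b1
  let b := b1.reindex σ.symm
  refine ⟨m, f, e, hf, σ, b.toMatrix (Pi.basisFun F n), (Pi.basisFun F n).toMatrix b,
    Module.Basis.toMatrix_mul_toMatrix_flip _ _, Module.Basis.toMatrix_mul_toMatrix_flip _ _, ?_⟩
  have hA : A = LinearMap.toMatrix (Pi.basisFun F n) (Pi.basisFun F n) (Matrix.toLin' A) := by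
    rw [LinearMap.toMatrix_eq_toMatrix', LinearMap.toMatrix'_toLin']
  rw [hA, basis_toMatrix_mul_linearMap_toMatrix_mul_basis_toMatrix]
  ext x y
  rw [LinearMap.toMatrix_apply]
  simp only [b, Module.Basis.reindex_apply, Module.Basis.repr_reindex_apply, Equiv.symm_symm,
    Matrix.reindex_apply, Matrix.submatrix_apply]
  generalize σ x = x'
  generalize σ y = y'
  obtain ⟨i, a⟩ := x'
  obtain ⟨j, c⟩ := y'
  simp only [b1, Module.Basis.map_apply, Module.Basis.map_repr, LinearEquiv.trans_apply,
    LinearEquiv.symm_symm, b0, Pi.basis_repr, Pi.basis_apply]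
  rw [hφ, φ.apply_symm_apply]
  by_cases hij : i = j
  · subst hij
    rw [Pi.single_eq_same, Matrix.blockDiagonal'_apply_eq, comp, LinearMap.toMatrix_apply]
    rfl
  · rw [Pi.single_eq_of_ne hij, mul_zero, map_zero, Matrix.blockDiagonal'_apply_ne _ _ _ hij]
    rfl

end Cfsg.GLn.Cls
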