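import Mathlib

/-! Transitivity of linear equivalences on pairs of subspaces with given dimensions. -/

set_option autoImplicit false

namespace Cfsg.GLn

open Module

variable {F : Type*} [Field F] {V V' : Type*} [AddCommGroup V] [Module F V]
  [AddCommGroup V'] [Module F V']

/-- glue two equivalences along complementary subspaces -/
theorem exists_equiv_glue {A C : Submodule F V} {A' C' : Submodule F V'} (h : IsCompl A C)
    (h' : IsCompl A' C') (a : A ≃ₗ[F] A') (c : C ≃ₗ[F] C') :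
    ∃ e : V ≃ₗ[F] V', (∀ x : A, e x = a x) ∧ ∀ x : C, e x = c x := by
  refine ⟨(Submodule.prodEquivOfIsCompl A C h).symm ≪≫ₗ (a.prodCongr c) ≪≫ₗ
    Submodule.prodEquivOfIsCompl A' C' h', fun x => ?_, fun x => ?_⟩
  · simp
  · simp

theorem map_eq_of_restrict {A : Submodule F V} {A' : Submodule F V'} (e : V ≃ₗ[F] V')
    (a : A ≃ₗ[F] A') (he : ∀ x : A, e x = a x) {I : Submodule F V} {I' : Submodule F V'}
    (hI : I ≤ A) (hI' : I' ≤ A')
    (h : (I.comap A.subtype).map (a : A →ₗ[F] A') = I'.comap A'.subtype) :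
    I.map (e : V →ₗ[F] V') = I' := by
  ext y
  constructor
  · rintro ⟨x, hx, rfl⟩
    have : a ⟨x, hI hx⟩ ∈ I'.comap A'.subtype := h ▸ ⟨⟨x, hI hx⟩, hx, rfl⟩
    have h2 := he ⟨x, hI hx⟩
    simp only [LinearEquiv.coe_coe]
    rw [show e x = _ from h2]
    exact this
  · intro hy
    have : (⟨y, hI' hy⟩ : A') ∈ I'.comap A'.subtype := hy
    rw [← h] at this
    obtain ⟨x, hx, hxy⟩ := this
    refine ⟨x, hx, ?_⟩
    simp only [LinearEquiv.coe_coe] at hxy ⊢
    rw [he x, hxy]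

variable [FiniteDimensional F V] [FiniteDimensional F V']

theorem finrank_compl_eq {A C : Submodule F V} {A' C' : Submodule F V'} (h : IsCompl A C)
    (h' : IsCompl A' C') (hV : finrank F V = finrank F V') (hA : finrank F A = finrank F A') :
    finrank F C = finrank F C' := by
  have h1 := Submodule.finrank_add_eq_of_isCompl h
  have h2 := Submodule.finrank_add_eq_of_isCompl h'
  omega

/-- one subspace -/
theorem exists_equiv_map (W : Submodule F V) (U : Submodule F V')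
    (hV : finrank F V = finrank F V') (hW : finrank F W = finrank F U) :
    ∃ e : V ≃ₗ[F] V', W.map (e : V →ₗ[F] V') = U := by
  obtain ⟨C, hC⟩ := W.exists_isCompl
  obtain ⟨C', hC'⟩ := U.exists_isCompl
  obtain ⟨a⟩ := FiniteDimensional.nonempty_linearEquiv_of_finrank_eq hW
  obtain ⟨c⟩ := FiniteDimensional.nonempty_linearEquiv_of_finrank_eq
    (finrank_compl_eq hC hC' hV hW)
  obtain ⟨e, he, -⟩ := exists_equiv_glue hC hC' a c
  refine ⟨e, map_eq_of_restrict e a he le_rfl le_rfl ?_⟩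
  simp

omit [FiniteDimensional F V] in
theorem finrank_comap_subtype {I A : Submodule F V} (h : I ≤ A) :
    finrank F (I.comap A.subtype) = finrank F I :=
  (Submodule.comapSubtypeEquivOfLe h).finrank_eq

/-- pairs of subspaces -/
theorem exists_equiv_pair (W₁ W₂ : Submodule F V) (U₁ U₂ : Submodule F V')
    (hV : finrank F V = finrank F V') (h₁ : finrank F W₁ = finrank F U₁)
    (h₂ : finrank F W₂ = finrank F U₂)
    (h₁₂ : finrank F (W₁ ⊓ W₂ : Submodule F V) = finrank F (U₁ ⊓ U₂ : Submodule F V')) :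
    ∃ e : V ≃ₗ[F] V', W₁.map (e : V →ₗ[F] V') = U₁ ∧ W₂.map (e : V →ₗ[F] V') = U₂ := by
  obtain ⟨C, hC, hCs⟩ := IsModularLattice.exists_disjoint_and_sup_eq
    (inf_le_left : W₁ ⊓ W₂ ≤ W₁)
  obtain ⟨C', hC', hCs'⟩ := IsModularLattice.exists_disjoint_and_sup_eq
    (inf_le_left : U₁ ⊓ U₂ ≤ U₁)
  have hCW : C ≤ W₁ := hCs ▸ le_sup_right
  have hCW' : C' ≤ U₁ := hCs' ▸ le_sup_right
  have hd : Disjoint C W₂ := by
    rw [disjoint_iff] at hC ⊢
    rw [← hC, inf_comm (W₁ ⊓ W₂), ← inf_assoc, inf_eq_left.2 hCW]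
  have hd' : Disjoint C' U₂ := by
    rw [disjoint_iff] at hC' ⊢
    rw [← hC', inf_comm (U₁ ⊓ U₂), ← inf_assoc, inf_eq_left.2 hCW']
  obtain ⟨D, hCD, hD⟩ := hd.exists_isCompl
  obtain ⟨D', hCD', hD'⟩ := hd'.exists_isCompl
  have hCC : finrank F C = finrank F C' := by
    have e1 := Submodule.finrank_sup_add_finrank_inf_eq (W₁ ⊓ W₂) C
    have e2 := Submodule.finrank_sup_add_finrank_inf_eq (U₁ ⊓ U₂) C'
    rw [hCs, hC.eq_bot, finrank_bot] at e1
    rw [hCs', hC'.eq_bot, finrank_bot] at e2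
    omega
  obtain ⟨a, ha⟩ := exists_equiv_map ((W₁ ⊓ W₂).comap W₂.subtype) ((U₁ ⊓ U₂).comap U₂.subtype)
    h₂ (by rw [finrank_comap_subtype inf_le_right, finrank_comap_subtype inf_le_right, h₁₂])
  obtain ⟨c, hc⟩ := exists_equiv_map (C.comap D.subtype) (C'.comap D'.subtype)
    (finrank_compl_eq hD.symm hD'.symm hV h₂)
    (by rw [finrank_comap_subtype hCD, finrank_comap_subtype hCD', hCC])
  obtain ⟨e, hea, hec⟩ := exists_equiv_glue hD.symm hD'.symm a c
  have e1 := map_eq_of_restrict e a hea inf_le_right inf_le_right ha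
  have e2 := map_eq_of_restrict e c hec hCD hCD' hc
  refine ⟨e, ?_, map_eq_of_restrict e a hea le_rfl le_rfl (by simp)⟩
  rw [← hCs, Submodule.map_sup, e1, e2, hCs']

/-- extension of an equivalence of subspaces -/
theorem exists_equiv_extend {A : Submodule F V} {A' : Submodule F V'}
    (hV : finrank F V = finrank F V') (a : A ≃ₗ[F] A') :
    ∃ e : V ≃ₗ[F] V', ∀ x : A, e x = a x := by
  obtain ⟨C, hC⟩ := A.exists_isCompl
  obtain ⟨C', hC'⟩ := A'.exists_isCompl
  obtain ⟨c⟩ := FiniteDimensional.nonempty_linearEquiv_of_finrank_eq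
    (finrank_compl_eq hC hC' hV a.finrank_eq)
  obtain ⟨e, he, -⟩ := exists_equiv_glue hC hC' a c
  exact ⟨e, he⟩

/-- every linear automorphism of `ι → F` is given by an invertible matrix -/
theorem exists_gl_of_equiv {ι : Type*} [Fintype ι] [DecidableEq ι] (e : (ι → F) ≃ₗ[F] (ι → F)) :
    ∃ g : GL ι F, Matrix.toLin' (g : Matrix ι ι F) = (e : (ι → F) →ₗ[F] (ι → F)) := by
  refine ⟨⟨LinearMap.toMatrix' (e : (ι → F) →ₗ[F] (ι → F)),
    LinearMap.toMatrix' (e.symm : (ι → F) →ₗ[F] (ι → F)), ?_, ?_⟩, by simp⟩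
  · rw [← LinearMap.toMatrix'_comp]; simp
  · rw [← LinearMap.toMatrix'_comp]; simp

/-- matrix form of the transitivity on pairs -/
theorem exists_gl_pair {ι : Type*} [Fintype ι] [DecidableEq ι] (W₁ W₂ U₁ U₂ : Submodule F (ι → F))
    (h₁ : finrank F W₁ = finrank F U₁) (h₂ : finrank F W₂ = finrank F U₂)
    (h₁₂ : finrank F (W₁ ⊓ W₂ : Submodule F (ι → F)) =
      finrank F (U₁ ⊓ U₂ : Submodule F (ι → F))) :
    ∃ g : GL ι F, W₁.map (Matrix.toLin' (g : Matrix ι ι F)) = U₁ ∧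
      W₂.map (Matrix.toLin' (g : Matrix ι ι F)) = U₂ := by
  obtain ⟨e, h⟩ := exists_equiv_pair W₁ W₂ U₁ U₂ rfl h₁ h₂ h₁₂
  obtain ⟨g, hg⟩ := exists_gl_of_equiv e
  exact ⟨g, hg ▸ h⟩

end Cfsg.GLn
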