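import Cfsg.Agent.GLn.HallA
import Cfsg.Agent.GLn.Cls
import Cfsg.Agent.GLn.Pair
import Cfsg.Agent.GLn.BrauerLift
import Mathlib.LinearAlgebra.Matrix.Charpoly.Minpoly
import Mathlib.LinearAlgebra.Charpoly.ToMatrix

/-!
# Blocks with coprime characteristic polynomials; module models of elements of `GL_n(F)`
-/

set_option autoImplicit false

namespace Cfsg.GLn

open Matrix Polynomial

universe u v w

section Sylvester

variable {F : Type u} [Field F] {m n : Type*} [Fintype m] [DecidableEq m] [Fintype n]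
  [DecidableEq n]

theorem aeval_mul_of_intertwine {A : Matrix m m F} {B : Matrix n n F} {w : Matrix m n F}
    (h : A * w = w * B) (p : F[X]) : aeval A p * w = w * aeval B p := by
  induction p using Polynomial.induction_on with
  | C a => simp [Algebra.algebraMap_eq_smul_one]
  | add p q hp hq => simp [Matrix.add_mul, Matrix.mul_add, hp, hq]
  | monomial k a ih =>
    rw [pow_succ, ← mul_assoc, map_mul, map_mul (aeval B), aeval_X, aeval_X, Matrix.mul_assoc, h,
      ← Matrix.mul_assoc, ih, Matrix.mul_assoc]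

theorem eq_zero_of_intertwine {A : Matrix m m F} {B : Matrix n n F}
    (hc : IsCoprime A.charpoly B.charpoly) {w : Matrix m n F} (h : A * w = w * B) : w = 0 := by
  obtain ⟨a, b, hab⟩ := hc
  have h1 : aeval A (a * A.charpoly + b * B.charpoly) * w = w := by
    rw [hab, map_one, Matrix.one_mul]
  rw [map_add, map_mul, map_mul, aeval_self_charpoly, mul_zero, zero_add, Matrix.mul_assoc,
    aeval_mul_of_intertwine h, aeval_self_charpoly, Matrix.mul_zero, Matrix.mul_zero] at h1
  exact h1.symm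

/-- Sylvester's equation -/
theorem sylvester {A : Matrix m m F} {B : Matrix n n F} (hc : IsCoprime A.charpoly B.charpoly)
    (u : Matrix m n F) : ∃ w : Matrix m n F, A * w - w * B = u := by
  let L : Matrix m n F →ₗ[F] Matrix m n F :=
    { toFun := fun w => A * w - w * B
      map_add' := fun x y => by simp only [Matrix.mul_add, Matrix.add_mul]; abel
      map_smul' := fun c x => by simp [smul_sub] }
  have hL : Function.Injective L := by
    rw [injective_iff_map_eq_zero]
    exact fun w hw => eq_zero_of_intertwine hc (sub_eq_zero.1 hw)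
  exact LinearMap.injective_iff_surjective.1 hL u

end Sylvester

variable {F : Type u} [Field F]

/-- the characteristic polynomial of an element of `GL_n(F)` -/
noncomputable abbrev chp {n : ℕ} (g : GL (Fin n) F) : F[X] := (g : Matrix (Fin n) (Fin n) F).charpoly

theorem chp_conj {n : ℕ} (g z : GL (Fin n) F) : chp (z * g * z⁻¹) = chp g := by
  have := charpoly_units_conj z (g : Matrix (Fin n) (Fin n) F)
  simpa [chp] using this

theorem chp_monic {n : ℕ} (g : GL (Fin n) F) : (chp g).Monic := charpoly_monic _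

theorem chp_natDegree {n : ℕ} (g : GL (Fin n) F) : (chp g).natDegree = n := by
  simp [chp]

theorem chp_blk {i j : ℕ} (a : G F i) (u : Matrix (Fin i) (Fin j) F) (b : G F j) :
    chp (blk a u b) = chp a * chp b := by
  rw [chp, blk_val, blkM, charpoly_reindex, charpoly_fromBlocks_zero₂₁]

theorem diag_apply {i j : ℕ} (a : G F i) (b : G F j) : diag (a, b) = blk a 0 b := rfl

theorem chp_diag {i j : ℕ} (a : G F i) (b : G F j) : chp (diag (a, b)) = chp a * chp b :=
  chp_blk a 0 b

theorem dt_diag {i j : ℕ} (a : G F i) (b : G F j) : dt (diag (a, b)) = dt a * dt b :=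
  dt_blk a 0 b

theorem blk_one_inv {i j : ℕ} (w : Matrix (Fin i) (Fin j) F) :
    (blk (1 : G F i) w (1 : G F j))⁻¹ = blk 1 (-w) 1 := by
  rw [inv_eq_iff_mul_eq_one, blk_mul]
  simp [blk_one]

theorem blk_injective {i j : ℕ} {a a' : G F i} {u u' : Matrix (Fin i) (Fin j) F} {b b' : G F j}
    (h : blk a u b = blk a' u' b') : a = a' ∧ u = u' ∧ b = b' := by
  have h1 : blkM a.val u b.val = blkM a'.val u' b'.val := congrArg Units.val h
  rw [blkM, blkM, EmbeddingLike.apply_eq_iff_eq, fromBlocks_inj] at h1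
  exact ⟨Units.ext h1.1, h1.2.1, Units.ext h1.2.2.2⟩

theorem diag_injective {i j : ℕ} : Function.Injective (diag : G F i × G F j →* G F (i + j)) :=
  fun _ _ h => Prod.ext (blk_injective h).1 (blk_injective h).2.2

/-- a block triangular matrix with coprime diagonal blocks is conjugate to the block diagonal one
by a unipotent element -/
theorem blk_conj_diag {i j : ℕ} {a : G F i} {b : G F j} (hc : IsCoprime (chp a) (chp b))
    (u : Matrix (Fin i) (Fin j) F) : ∃ w : Matrix (Fin i) (Fin j) F,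
      blk a u b = blk 1 w 1 * diag (a, b) * (blk 1 w 1)⁻¹ := by
  obtain ⟨w, hw⟩ := sylvester hc (-u)
  refine ⟨w, ?_⟩
  rw [blk_one_inv, diag_apply, blk_mul, blk_mul]
  have : u = -(a.val * w) + w * b.val := by
    rw [← neg_neg u, ← hw]; abel
  simp [← this]

section Centralizer

theorem blkM_eq_reindex {i j : ℕ} (z : Matrix (Fin (i + j)) (Fin (i + j)) F) :
    ∃ A B C D, z = reindex finSumFinEquiv finSumFinEquiv (fromBlocks A B C D) := by
  let y := reindex finSumFinEquiv.symm finSumFinEquiv.symm z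
  refine ⟨y.toBlocks₁₁, y.toBlocks₁₂, y.toBlocks₂₁, y.toBlocks₂₂, ?_⟩
  rw [fromBlocks_toBlocks]
  simp [y]

/-- the centralizer of a block diagonal element with coprime blocks -/
theorem commute_diag_iff {i j : ℕ} {a : G F i} {b : G F j} (hc : IsCoprime (chp a) (chp b))
    (z : G F (i + j)) : z * diag (a, b) = diag (a, b) * z ↔
      ∃ (z₁ : G F i) (z₂ : G F j), z₁ * a = a * z₁ ∧ z₂ * b = b * z₂ ∧ z = diag (z₁, z₂) := by
  constructor
  · intro h
    have key : ∀ y : Matrix (Fin (i + j)) (Fin (i + j)) F,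
        y * (diag (a, b)).val = (diag (a, b)).val * y →
        ∃ A D, y = blkM A 0 D ∧ A * a.val = a.val * A ∧ D * b.val = b.val * D := by
      intro y hy
      obtain ⟨A, B, C, D, rfl⟩ := blkM_eq_reindex y
      rw [diag_apply, blk_val, blkM] at hy
      simp only [reindex_apply, submatrix_mul_equiv, fromBlocks_multiply, Matrix.mul_zero,
        Matrix.zero_mul, add_zero, zero_add] at hy
      obtain ⟨h1, h2, h3, h4⟩ :=
        fromBlocks_inj.1 ((reindex finSumFinEquiv finSumFinEquiv).injective hy)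
      have hB : B = 0 := eq_zero_of_intertwine hc h2.symm
      have hC : C = 0 := eq_zero_of_intertwine hc.symm h3.symm
      exact ⟨A, D, by rw [hB, hC, blkM], h1, h4⟩
    have h' : z⁻¹ * diag (a, b) = diag (a, b) * z⁻¹ := by
      rw [inv_mul_eq_iff_eq_mul, ← mul_assoc, h, mul_assoc, mul_inv_cancel, mul_one]
    obtain ⟨A, D, hz, hA, hD⟩ := key z.val (congrArg Units.val h)
    obtain ⟨A', D', hz', -, -⟩ := key z⁻¹.val (congrArg Units.val h')
    have e1 : blkM (A * A') 0 (D * D') = blkM 1 0 1 := by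
      have := z.val_inv
      change z.val * z⁻¹.val = 1 at this
      rw [hz, hz', blkM_mul] at this
      simpa [blkM_one] using this
    rw [blkM, blkM, EmbeddingLike.apply_eq_iff_eq, fromBlocks_inj] at e1
    refine ⟨⟨A, A', e1.1, mul_eq_one_comm.1 e1.1⟩, ⟨D, D', e1.2.2.2, mul_eq_one_comm.1 e1.2.2.2⟩,
      Units.ext hA, Units.ext hD, Units.ext hz⟩
  · rintro ⟨z₁, z₂, h₁, h₂, rfl⟩
    rw [← map_mul, ← map_mul, Prod.mk_mul_mk, Prod.mk_mul_mk, h₁, h₂]

theorem centralizer_diag {i j : ℕ} {a : G F i} {b : G F j} (hc : IsCoprime (chp a) (chp b)) :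
    Subgroup.centralizer {diag (a, b)} =
      ((Subgroup.centralizer {a}).prod (Subgroup.centralizer {b})).map diag := by
  ext z
  rw [Subgroup.mem_centralizer_singleton_iff, commute_diag_iff hc, Subgroup.mem_map]
  constructor
  · rintro ⟨z₁, z₂, h₁, h₂, rfl⟩
    exact ⟨(z₁, z₂), ⟨Subgroup.mem_centralizer_singleton_iff.2 h₁,
      Subgroup.mem_centralizer_singleton_iff.2 h₂⟩, rfl⟩
  · rintro ⟨⟨z₁, z₂⟩, ⟨h₁, h₂⟩, rfl⟩
    exact ⟨z₁, z₂, Subgroup.mem_centralizer_singleton_iff.1 h₁,
      Subgroup.mem_centralizer_singleton_iff.1 h₂, rfl⟩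

end Centralizer

/-- Harish-Chandra restriction at a pair with coprime characteristic polynomials -/
theorem De_of_coprime [Fintype F] [DecidableEq F] {ω : Fˣ →* ℂˣ} (c : H ω) {i j : ℕ} {a : G F i}
    {b : G F j} (hc : IsCoprime (chp a) (chp b)) : De c i j a b = c ⟨i + j, diag (a, b)⟩ := by
  have h : ∀ u, c ⟨i + j, blk a u b⟩ = c ⟨i + j, diag (a, b)⟩ := fun u => by
    obtain ⟨w, hw⟩ := blk_conj_diag hc u
    rw [hw, H.conj, dt_blk]
    simp
  have hq : (Fintype.card F : ℂ) ^ (i * j) ≠ 0 := pow_ne_zero _ (by simp)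
  rw [De]
  simp only [h, Finset.sum_const, Finset.card_univ, nsmul_eq_mul]
  rw [card_mat, Nat.cast_pow, ← mul_assoc, inv_mul_cancel₀ hq, one_mul]

/-- a primitive element vanishes at a block sum with coprime characteristic polynomials -/
theorem Prim.apply_diag [Fintype F] [DecidableEq F] {ω : Fˣ →* ℂˣ} {c : H ω} (h : Prim c)
    {i j : ℕ} {a : G F i} {b : G F j} (hi : 0 < i) (hj : 0 < j)
    (hc : IsCoprime (chp a) (chp b)) : c ⟨i + j, diag (a, b)⟩ = 0 := by
  rw [← De_of_coprime c hc, h.2 i j a b hi hj]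

/-! ### Module models -/

/-- `(V, T)` is a model of the element `g` of `GL_n(F)` -/
def Mdl {n : ℕ} (g : GL (Fin n) F) (V : Type v) [AddCommGroup V] [Module F V]
    (T : Module.End F V) : Prop :=
  ∃ φ : (Fin n → F) ≃ₗ[F] V, ∀ x, φ (g.val *ᵥ x) = T (φ x)

section Mdl

variable {V : Type v} [AddCommGroup V] [Module F V] {V' : Type w} [AddCommGroup V'] [Module F V']

theorem Mdl.self {n : ℕ} (g : GL (Fin n) F) : Mdl g (Fin n → F) (toLin' g.val) :=
  ⟨LinearEquiv.refl _ _, fun _ => rfl⟩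

theorem Mdl.finrank {n : ℕ} {g : GL (Fin n) F} {T : Module.End F V} (h : Mdl g V T) :
    Module.finrank F V = n := by
  obtain ⟨φ, -⟩ := h
  rw [← φ.finrank_eq]; simp

theorem Mdl.finite {n : ℕ} {g : GL (Fin n) F} {T : Module.End F V} (h : Mdl g V T) :
    FiniteDimensional F V := by
  obtain ⟨φ, -⟩ := h
  exact φ.finiteDimensional

theorem Mdl.equiv {n : ℕ} {g : GL (Fin n) F} {T : Module.End F V} (h : Mdl g V T)
    {T' : Module.End F V'} (e : V ≃ₗ[F] V') (he : ∀ x, e (T x) = T' (e x)) : Mdl g V' T' := by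
  obtain ⟨φ, hφ⟩ := h
  exact ⟨φ.trans e, fun x => by simp [hφ, he]⟩

theorem Mdl.bijective {n : ℕ} {g : GL (Fin n) F} {T : Module.End F V} (h : Mdl g V T) :
    Function.Bijective T := by
  obtain ⟨φ, hφ⟩ := h
  have h1 : Function.Bijective fun x : Fin n → F => g.val *ᵥ x := by
    refine Function.bijective_iff_has_inverse.2 ⟨fun x => g.inv *ᵥ x, fun x => ?_, fun x => ?_⟩
    · simp only [mulVec_mulVec, g.inv_val, one_mulVec]
    · simp only [mulVec_mulVec, g.val_inv, one_mulVec]
  have : (T : V → V) = φ ∘ (fun x : Fin n → F => g.val *ᵥ x) ∘ φ.symm := by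
    funext y; simp [hφ]
  rw [this]
  exact φ.bijective.comp (h1.comp φ.symm.bijective)

theorem exists_mdl [FiniteDimensional F V] {T : Module.End F V} (hT : Function.Injective T)
    {n : ℕ} (hn : Module.finrank F V = n) : ∃ g : GL (Fin n) F, Mdl g V T := by
  let φ : (Fin n → F) ≃ₗ[F] V := LinearEquiv.ofFinrankEq _ _ (by simp [hn])
  let e : V ≃ₗ[F] V := LinearEquiv.ofInjectiveEndo T hT
  obtain ⟨g, hg⟩ := exists_gl_of_equiv (φ.trans (e.trans φ.symm))
  refine ⟨g, φ, fun x => ?_⟩
  have := LinearMap.congr_fun hg x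
  rw [toLin'_apply] at this
  rw [this]
  simp [e]

/-- two elements with a common model are conjugate -/
theorem Mdl.conj {n : ℕ} {g g' : GL (Fin n) F} {T : Module.End F V} (h : Mdl g V T)
    (h' : Mdl g' V T) : ∃ z : GL (Fin n) F, z * g * z⁻¹ = g' := by
  obtain ⟨φ, hφ⟩ := h
  obtain ⟨ψ, hψ⟩ := h'
  obtain ⟨z, hz⟩ := exists_gl_of_equiv (φ.trans ψ.symm)
  have hz' : ∀ x, z.val *ᵥ x = ψ.symm (φ x) := fun x => by
    have := LinearMap.congr_fun hz x
    rwa [toLin'_apply] at this
  refine ⟨z, ?_⟩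
  rw [mul_inv_eq_iff_eq_mul]
  apply Units.ext
  apply toLin'.injective
  ext1 x
  ext1
  apply ψ.injective
  simp only [Units.val_mul, LinearMap.comp_apply, toLin'_apply, ← mulVec_mulVec, hz', hψ, hφ,
    LinearEquiv.apply_symm_apply]

theorem Mdl.of_conj {n : ℕ} {g : GL (Fin n) F} {T : Module.End F V} (h : Mdl g V T)
    (z : GL (Fin n) F) : Mdl (z * g * z⁻¹) V T := by
  obtain ⟨φ, hφ⟩ := h
  let e : (Fin n → F) ≃ₗ[F] (Fin n → F) :=
    LinearEquiv.ofLinear (toLin' z.inv) (toLin' z.val)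
      (by rw [← toLin'_mul, z.inv_val, toLin'_one]) (by rw [← toLin'_mul, z.val_inv, toLin'_one])
  refine ⟨e.trans φ, fun x => ?_⟩
  simp only [LinearEquiv.trans_apply, ← hφ]
  congr 1
  change z.inv *ᵥ _ = g.val *ᵥ (z.inv *ᵥ x)
  simp only [mulVec_mulVec, Units.val_mul]
  congr 1
  change z.inv * (z.val * g.val * z.inv) = _
  rw [← Matrix.mul_assoc, ← Matrix.mul_assoc, z.inv_val, Matrix.one_mul]

theorem Mdl.chp_eq [FiniteDimensional F V] {n : ℕ} {g : GL (Fin n) F} {T : Module.End F V}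
    (h : Mdl g V T) : chp g = T.charpoly := by
  obtain ⟨φ, hφ⟩ := h
  have : T = φ.conj (toLin' g.val) := by
    ext y
    simp [LinearEquiv.conj_apply, hφ]
  rw [this, LinearEquiv.charpoly_conj, charpoly_toLin']

theorem Mdl.aeval_apply {n : ℕ} {g : GL (Fin n) F} {T : Module.End F V}
    (φ : (Fin n → F) ≃ₗ[F] V) (hφ : ∀ x, φ (g.val *ᵥ x) = T (φ x)) (p : F[X]) (x : Fin n → F) :
    φ (aeval g.val p *ᵥ x) = aeval T p (φ x) := by
  induction p using Polynomial.induction_on generalizing x with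
  | C a => simp [Algebra.algebraMap_eq_smul_one, smul_mulVec]
  | add p q hp hq => simp [add_mulVec, hp, hq]
  | monomial k a ih =>
    rw [pow_succ, ← mul_assoc, map_mul, map_mul (aeval T), aeval_X, aeval_X, ← mulVec_mulVec, ih,
      hφ, Module.End.mul_apply]

/-- the splitting of `F^(i+j)` -/
def splitE (F : Type u) [Field F] (i j : ℕ) :
    (Fin (i + j) → F) ≃ₗ[F] (Fin i → F) × (Fin j → F) :=
  (LinearEquiv.funCongrLeft F F finSumFinEquiv).trans (LinearEquiv.sumArrowLequivProdArrow _ _ F F)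

theorem splitE_blkM {i j : ℕ} (a : Matrix (Fin i) (Fin i) F) (u : Matrix (Fin i) (Fin j) F)
    (b : Matrix (Fin j) (Fin j) F) (x : Fin (i + j) → F) :
    splitE F i j (blkM a u b *ᵥ x) =
      (a *ᵥ (splitE F i j x).1 + u *ᵥ (splitE F i j x).2, b *ᵥ (splitE F i j x).2) := by
  have h : blkM a u b *ᵥ x = (fromBlocks a u 0 b *ᵥ (x ∘ finSumFinEquiv)) ∘ finSumFinEquiv.symm := by
    rw [blkM, reindex_apply, submatrix_mulVec_equiv]
    rfl
  have h2 : (x ∘ finSumFinEquiv) = Sum.elim (splitE F i j x).1 (splitE F i j x).2 := by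
    funext s
    cases s <;> rfl
  rw [h, h2, fromBlocks_mulVec]
  refine Prod.ext ?_ ?_ <;> funext s <;> simp [splitE]

theorem Mdl.prod {i j : ℕ} {a : G F i} {b : G F j} {T : Module.End F V} {T' : Module.End F V'}
    (h : Mdl a V T) (h' : Mdl b V' T') : Mdl (diag (a, b)) (V × V') (T.prodMap T') := by
  obtain ⟨φ, hφ⟩ := h
  obtain ⟨ψ, hψ⟩ := h'
  refine ⟨(splitE F i j).trans (φ.prodCongr ψ), fun x => ?_⟩
  rw [LinearEquiv.trans_apply, diag_apply, blk_val, splitE_blkM]
  simp [hφ, hψ]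

/-- a model with an invariant complementary pair -/
theorem Mdl.compl {i j : ℕ} {a : G F i} {b : G F j} {T : Module.End F V} {W W' : Submodule F V}
    (hc : IsCompl W W') (hW : ∀ x ∈ W, T x ∈ W) (hW' : ∀ x ∈ W', T x ∈ W')
    (h : Mdl a W (T.restrict hW)) (h' : Mdl b W' (T.restrict hW')) : Mdl (diag (a, b)) V T :=
  (h.prod h').equiv (Submodule.prodEquivOfIsCompl W W' hc) fun x => by
    simp [Submodule.coe_prodEquivOfIsCompl']

/-- a model with an invariant subspace -/
theorem Mdl.tri {i j : ℕ} {a : G F i} {b : G F j} {T : Module.End F V} {W : Submodule F V}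
    (hW : ∀ x ∈ W, T x ∈ W) (h : Mdl a W (T.restrict hW)) (h' : Mdl b (V ⧸ W) (W.mapQ W T hW)) :
    ∃ u, Mdl (blk a u b) V T := by
  obtain ⟨φ, hφ⟩ := h
  obtain ⟨ψ, hψ⟩ := h'
  obtain ⟨s, hs⟩ := W.mkQ.exists_rightInverse_of_surjective W.range_mkQ
  have hs' : ∀ y, W.mkQ (s y) = y := fun y => LinearMap.congr_fun hs y
  have hmem : ∀ y : Fin j → F, T (s (ψ y)) - s (ψ (b.val *ᵥ y)) ∈ W := fun y => by
    rw [← Submodule.Quotient.eq, ← Submodule.mkQ_apply, ← Submodule.mkQ_apply, hs', hψ]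
    conv_rhs => rw [← hs' (ψ y)]
    rfl
  let U : (Fin j → F) →ₗ[F] (Fin i → F) := φ.symm.toLinearMap ∘ₗ LinearMap.codRestrict W
    (T ∘ₗ s ∘ₗ ψ.toLinearMap - s ∘ₗ ψ.toLinearMap ∘ₗ toLin' b.val) (fun y => by simpa using hmem y)
  let E : ((Fin i → F) × (Fin j → F)) →ₗ[F] V :=
    (W.subtype ∘ₗ φ.toLinearMap).coprod (s ∘ₗ ψ.toLinearMap)
  have hE : Function.Bijective E := by
    constructor
    · rw [injective_iff_map_eq_zero]
      rintro ⟨x, y⟩ hxy
      have h0 : (φ x : V) + s (ψ y) = 0 := hxy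
      have h1 : ψ y = 0 := by
        have := congrArg W.mkQ h0
        rwa [map_add, hs', map_zero, Submodule.mkQ_apply,
          (Submodule.Quotient.mk_eq_zero W).2 (φ x).2, zero_add] at this
      rw [h1, map_zero, add_zero] at h0
      have h2 : φ x = 0 := Subtype.ext h0
      exact Prod.ext (φ.map_eq_zero_iff.1 h2) (ψ.map_eq_zero_iff.1 h1)
    · intro z
      have h1 : z - s (W.mkQ z) ∈ W := by
        rw [← Submodule.Quotient.eq, ← Submodule.mkQ_apply, ← Submodule.mkQ_apply, hs']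
      refine ⟨(φ.symm ⟨_, h1⟩, ψ.symm (W.mkQ z)), ?_⟩
      simp [E]
  refine ⟨LinearMap.toMatrix' U, (splitE F i j).trans (LinearEquiv.ofBijective E hE), fun x => ?_⟩
  rw [LinearEquiv.trans_apply, blk_val, splitE_blkM, LinearEquiv.trans_apply]
  generalize splitE F i j x = y
  obtain ⟨y₁, y₂⟩ := y
  have h3 : (φ (a.val *ᵥ y₁) : V) = T (φ y₁) := by rw [hφ]; rfl
  simp [E, U, h3, add_assoc]

end Mdl

/-! ### Companion blocks and the induction principle -/

/-- `g` is a cyclic element with minimal polynomial `h` -/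
def IsCyc {n : ℕ} (g : GL (Fin n) F) (h : F[X]) : Prop :=
  Mdl g (AdjoinRoot h) (LinearMap.mulLeft F (AdjoinRoot.root h))

theorem charpoly_mulLeft_root {h : F[X]} (hm : h.Monic) :
    haveI := (AdjoinRoot.powerBasis hm.ne_zero).finite
    (LinearMap.mulLeft F (AdjoinRoot.root h)).charpoly = h := by
  haveI := (AdjoinRoot.powerBasis hm.ne_zero).finite
  have h1 := charpoly_leftMulMatrix (AdjoinRoot.powerBasis hm.ne_zero)
  rw [AdjoinRoot.minpoly_powerBasis_gen_of_monic hm, Algebra.leftMulMatrix_apply,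
    LinearMap.charpoly_toMatrix] at h1
  exact h1

theorem IsCyc.chp_eq {n : ℕ} {g : GL (Fin n) F} {h : F[X]} (hg : IsCyc g h) (hm : h.Monic) :
    chp g = h := by
  haveI := (AdjoinRoot.powerBasis hm.ne_zero).finite
  rw [Mdl.chp_eq hg, charpoly_mulLeft_root hm]

theorem mulLeft_root_injective {h : F[X]} (h0 : h.coeff 0 ≠ 0) :
    Function.Injective (LinearMap.mulLeft F (AdjoinRoot.root h)) := by
  rw [injective_iff_map_eq_zero]
  intro x hx
  obtain ⟨p, rfl⟩ := AdjoinRoot.mk_surjective x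
  rw [LinearMap.mulLeft_apply, ← AdjoinRoot.mk_X, ← map_mul, AdjoinRoot.mk_eq_zero] at hx
  rw [AdjoinRoot.mk_eq_zero]
  refine IsCoprime.dvd_of_dvd_mul_left ?_ hx
  rw [isCoprime_comm, irreducible_X.coprime_iff_not_dvd, X_dvd_iff]
  exact h0

theorem exists_isCyc {h : F[X]} (hm : h.Monic) (h0 : h.coeff 0 ≠ 0) :
    ∃ g : GL (Fin h.natDegree) F, IsCyc g h := by
  haveI := (AdjoinRoot.powerBasis hm.ne_zero).finite
  exact exists_mdl (mulLeft_root_injective h0) (AdjoinRoot.powerBasis hm.ne_zero).finrank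

theorem coeff_zero_ne_of_ne_X {f : F[X]} (hf : Irreducible f) (hm : f.Monic) (hX : f ≠ X) :
    f.coeff 0 ≠ 0 := fun h0 =>
  hX (eq_of_monic_of_associated hm monic_X
    ((irreducible_X.associated_of_dvd hf (X_dvd_iff.2 h0)).symm))

/-- multiplication by the roots on a product of rings `F[t]/(h i)` -/
noncomputable def piRoot {ι : Type*} (h : ι → F[X]) : Module.End F (∀ i, AdjoinRoot (h i)) :=
  LinearMap.pi fun i => LinearMap.mulLeft F (AdjoinRoot.root (h i)) ∘ₗ LinearMap.proj i

theorem piRoot_apply {ι : Type*} (h : ι → F[X]) (x : ∀ i, AdjoinRoot (h i)) (i : ι) :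
    piRoot h x i = AdjoinRoot.root (h i) * x i := rfl

theorem piRoot_injective {ι : Type*} {h : ι → F[X]} (h0 : ∀ i, (h i).coeff 0 ≠ 0) :
    Function.Injective (piRoot h) := fun x y hxy => funext fun i =>
  mulLeft_root_injective (h0 i) (by
    rw [LinearMap.mulLeft_apply, LinearMap.mulLeft_apply, ← piRoot_apply, ← piRoot_apply, hxy])

theorem Mdl.cons {m i j : ℕ} {h : Fin (m + 1) → F[X]} {a : G F i} {b : G F j}
    (ha : IsCyc a (h 0)) (hb : Mdl b _ (piRoot fun t : Fin m => h t.succ)) :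
    Mdl (diag (a, b)) _ (piRoot h) :=
  (Mdl.prod ha hb).equiv (Fin.consLinearEquiv F fun t => AdjoinRoot (h t)) fun x => by
    funext t
    refine Fin.cases ?_ (fun t => ?_) t <;> rfl

/-- every element has a model by primary cyclic blocks -/
theorem exists_mdl_piRoot {n : ℕ} (g : GL (Fin n) F) :
    ∃ (m : ℕ) (f : Fin m → F[X]) (e : Fin m → ℕ),
      (∀ i, Irreducible (f i) ∧ (f i).Monic ∧ f i ≠ X ∧ 0 < e i) ∧
      Mdl g _ (piRoot fun i => f i ^ e i) := by
  obtain ⟨m, f, e, hf, φ, hφ⟩ := Cls.exists_equiv (toLin' g.val)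
  exact ⟨m, f, e, fun i => ⟨(hf i).1, (hf i).2.1,
    Cls.ne_X_of_injective (Mdl.self g).bijective.1 (fun i => (hf i).2.2) φ hφ i, (hf i).2.2⟩,
    (Mdl.self g).equiv φ fun x => funext fun i => hφ x i⟩

/-- induction over the primary cyclic blocks -/
theorem gl_induction {P : ∀ n : ℕ, GL (Fin n) F → Prop}
    (hconj : ∀ (n : ℕ) (g z : GL (Fin n) F), P n g → P n (z * g * z⁻¹))
    (h0 : P 0 1)
    (hcons : ∀ (i j : ℕ) (a : G F i) (b : G F j) (f : F[X]) (e : ℕ), Irreducible f → f.Monic →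
      f ≠ X → 0 < e → IsCyc a (f ^ e) → P j b → P (i + j) (diag (a, b)))
    (n : ℕ) (g : GL (Fin n) F) : P n g := by
  have key : ∀ (m : ℕ) (f : Fin m → F[X]) (e : Fin m → ℕ),
      (∀ i, Irreducible (f i) ∧ (f i).Monic ∧ f i ≠ X ∧ 0 < e i) →
      ∀ (n : ℕ) (g : GL (Fin n) F), Mdl g _ (piRoot fun i => f i ^ e i) → P n g := by
    intro m
    induction m with
    | zero =>
      intro f e _ n g hg
      have hn := hg.finrank
      rw [Module.finrank_zero_of_subsingleton] at hn
      subst hn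
      rwa [Subsingleton.elim g 1]
    | succ m ih =>
      intro f e hf n g hg
      have hc : ∀ i, (f i ^ e i).coeff 0 ≠ 0 := fun i => by
        rw [coeff_zero_eq_eval_zero, eval_pow, ← coeff_zero_eq_eval_zero]
        exact pow_ne_zero _ (coeff_zero_ne_of_ne_X (hf i).1 (hf i).2.1 (hf i).2.2.1)
      obtain ⟨a, ha⟩ := exists_isCyc ((hf 0).2.1.pow (e 0)) (hc 0)
      haveI : ∀ i, Module.Finite F (AdjoinRoot (f i ^ e i)) := fun i =>
        (AdjoinRoot.powerBasis (pow_ne_zero (e i) (hf i).1.ne_zero)).finite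
      obtain ⟨b, hb⟩ := exists_mdl (piRoot_injective (h := fun i : Fin m => f i.succ ^ e i.succ)
        fun i => hc i.succ) rfl
      have hP := hcons _ _ a b (f 0) (e 0) (hf 0).1 (hf 0).2.1 (hf 0).2.2.1 (hf 0).2.2.2 ha
        (ih (fun i => f i.succ) (fun i => e i.succ) (fun i => hf i.succ) _ b hb)
      have hM := Mdl.cons (h := fun i => f i ^ e i) ha hb
      have hn := hg.finrank.symm.trans hM.finrank
      subst hn
      obtain ⟨z, rfl⟩ := hM.conj hg
      exact hconj _ _ _ hP
  obtain ⟨m, f, e, hf, hg⟩ := exists_mdl_piRoot g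
  exact key m f e hf n g hg

/-! ### Splitting along a coprime factorisation of the characteristic polynomial -/

/-- the eigenvalues are roots of every annihilating polynomial -/
theorem aeval_eq_zero_of_charpoly {ι : Type*} [Fintype ι] [DecidableEq ι] {A : Matrix ι ι F}
    {p : F[X]} (hp : aeval A p = 0) {K : Type*} [Field K] [Algebra F K] [IsAlgClosed K] {z : K}
    (hz : aeval z A.charpoly = 0) : aeval z p = 0 := by
  have h1 : aeval (A.map (algebraMap F K)) (p.map (algebraMap F K)) = 0 := by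
    rw [aeval_map_algebraMap]
    have := aeval_algHom_apply ((Algebra.ofId F K).mapMatrix (m := ι)) A p
    rw [hp, map_zero] at this
    exact this
  have h2 : z ∈ (A.map (algebraMap F K)).charpoly.roots := by
    rw [mem_roots (charpoly_monic _).ne_zero, charpoly_map, IsRoot, eval_map_algebraMap]
    exact hz
  have := BL.eval_eq_zero_of_mem_roots h1 h2
  rwa [eval_map_algebraMap] at this

theorem isCoprime_charpoly {ι : Type*} [Fintype ι] [DecidableEq ι] {A : Matrix ι ι F}
    {p q : F[X]} (hp : aeval A p = 0) (hc : IsCoprime p q) : IsCoprime A.charpoly q := by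
  rw [isCoprime_iff_aeval_ne_zero_of_isAlgClosed F (AlgebraicClosure F)] at hc ⊢
  intro z
  by_cases hz : aeval z A.charpoly = 0
  · exact Or.inr ((hc z).resolve_left (not_not.2 (aeval_eq_zero_of_charpoly hp hz)))
  · exact Or.inl hz

theorem aeval_restrict_apply {V : Type v} [AddCommGroup V] [Module F V] {T : Module.End F V}
    {W : Submodule F V} (hW : ∀ x ∈ W, T x ∈ W) (p : F[X]) (x : W) :
    (aeval (T.restrict hW : Module.End F W) p x : V) = aeval T p x := by
  induction p using Polynomial.induction_on generalizing x with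
  | C a => simp [Algebra.algebraMap_eq_smul_one]
  | add p q hp hq => simp [hp, hq]
  | monomial k a ih =>
    rw [pow_succ, ← mul_assoc, map_mul, map_mul (aeval T), aeval_X, aeval_X, Module.End.mul_apply,
      ih, Module.End.mul_apply]
    rfl

theorem Mdl.aeval_eq_zero_iff {V : Type v} [AddCommGroup V] [Module F V] {n : ℕ}
    {g : GL (Fin n) F} {T : Module.End F V} (h : Mdl g V T) (p : F[X]) :
    aeval g.val p = 0 ↔ aeval T p = 0 := by
  obtain ⟨φ, hφ⟩ := h
  constructor
  · intro h0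
    ext y
    obtain ⟨x, rfl⟩ := φ.surjective y
    rw [← Mdl.aeval_apply φ hφ, h0]
    simp
  · intro h0
    apply toLin'.injective
    refine LinearMap.ext fun x => φ.injective ?_
    rw [toLin'_apply, Mdl.aeval_apply φ hφ, h0]
    simp

theorem ker_aeval_inv {V : Type v} [AddCommGroup V] [Module F V] (T : Module.End F V) (p : F[X]) :
    ∀ x ∈ LinearMap.ker (aeval T p), T x ∈ LinearMap.ker (aeval T p) := fun x hx => by
  rw [LinearMap.mem_ker] at hx ⊢
  have : aeval T p * T = T * aeval T p := by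
    conv_lhs => rw [← aeval_X (R := F) T]
    conv_rhs => rw [← aeval_X (R := F) T]
    simp only [aeval_X]
    have h := (map_mul (aeval T) p X).symm.trans ((congrArg _ (mul_comm p X)).trans
      (map_mul (aeval T) X p))
    simpa using h
  rw [← Module.End.mul_apply, this, Module.End.mul_apply, hx, map_zero]

/-- splitting along a coprime factorisation of an annihilating polynomial -/
theorem exists_split' {n : ℕ} (g : GL (Fin n) F) {p₁ p₂ : F[X]} (hc : IsCoprime p₁ p₂)
    (h : aeval g.val (p₁ * p₂) = 0) : ∃ (i j : ℕ) (a : G F i) (b : G F j),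
      aeval a.val p₁ = 0 ∧ aeval b.val p₂ = 0 ∧ Mdl (diag (a, b)) (Fin n → F) (toLin' g.val) := by
  let T : Module.End F (Fin n → F) := toLin' g.val
  have hT : Function.Injective T := (Mdl.self g).bijective.1
  have hcompl : IsCompl (LinearMap.ker (aeval T p₁)) (LinearMap.ker (aeval T p₂)) := by
    refine ⟨disjoint_ker_aeval_of_isCoprime T hc, codisjoint_iff.2 ?_⟩
    rw [sup_ker_aeval_eq_ker_aeval_mul_of_coprime T hc, ((Mdl.self g).aeval_eq_zero_iff _).1 h,
      LinearMap.ker_zero]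
  have key : ∀ p : F[X], ∃ (i : ℕ) (a : G F i), aeval a.val p = 0 ∧
      Mdl a (LinearMap.ker (aeval T p)) (T.restrict (ker_aeval_inv T p)) := fun p => by
    obtain ⟨a, ha⟩ := exists_mdl (T := T.restrict (ker_aeval_inv T p))
      (fun x y hxy => Subtype.ext (hT (congrArg Subtype.val hxy))) rfl
    refine ⟨_, a, (ha.aeval_eq_zero_iff p).2 ?_, ha⟩
    ext x
    rw [aeval_restrict_apply, LinearMap.mem_ker.1 x.2]
    rfl
  obtain ⟨i, a, ha, ha'⟩ := key p₁
  obtain ⟨j, b, hb, hb'⟩ := key p₂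
  exact ⟨i, j, a, b, ha, hb, Mdl.compl hcompl _ _ ha' hb'⟩

/-- splitting along a coprime factorisation of the characteristic polynomial -/
theorem exists_split {n : ℕ} (g : GL (Fin n) F) {p₁ p₂ : F[X]} (hc : IsCoprime p₁ p₂)
    (m₁ : p₁.Monic) (m₂ : p₂.Monic) (h : chp g = p₁ * p₂) :
    ∃ (i j : ℕ) (a : G F i) (b : G F j) (z : G F n), chp a = p₁ ∧ chp b = p₂ ∧
      (⟨n, z * g * z⁻¹⟩ : Σ n : ℕ, G F n) = ⟨i + j, diag (a, b)⟩ := by
  obtain ⟨i, j, a, b, ha, hb, hM⟩ := exists_split' g hc (by rw [← h]; exact aeval_self_charpoly _)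
  have hn : n = i + j := by simpa using hM.finrank
  subst hn
  obtain ⟨z, hz⟩ := (Mdl.self g).conj hM
  have h1 : chp a * chp b = p₁ * p₂ := by rw [← chp_diag, ← hz, chp_conj, h]
  have c1 : IsCoprime (chp a) p₂ := isCoprime_charpoly ha hc
  have c2 : IsCoprime (chp b) p₁ := isCoprime_charpoly hb hc.symm
  have e1 : chp a = p₁ := by
    refine eq_of_monic_of_associated (chp_monic a) m₁ (associated_of_dvd_dvd ?_ ?_)
    · exact c1.dvd_of_dvd_mul_right ⟨chp b, h1.symm⟩
    · exact c2.symm.dvd_of_dvd_mul_right ⟨p₂, h1⟩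
  refine ⟨i, j, a, b, z, e1, ?_, by rw [hz]⟩
  rw [e1] at h1
  exact mul_left_cancel₀ m₁.ne_zero h1

/-- an element is primary or splits non-trivially into blocks with coprime characteristic
polynomials -/
theorem primary_or_split {n : ℕ} (hn : 0 < n) (g : GL (Fin n) F) :
    (∃ (f : F[X]) (k : ℕ), Irreducible f ∧ f.Monic ∧ f ≠ X ∧ 0 < k ∧ chp g = f ^ k) ∨
    ∃ (i j : ℕ) (a : G F i) (b : G F j) (z : G F n), 0 < i ∧ 0 < j ∧ IsCoprime (chp a) (chp b) ∧
      (⟨n, z * g * z⁻¹⟩ : Σ n : ℕ, G F n) = ⟨i + j, diag (a, b)⟩ := by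
  classical
  have hdeg : 0 < (chp g).degree := by
    rw [← natDegree_pos_iff_degree_pos, chp_natDegree]; exact hn
  obtain ⟨f₀, hf₀, hd₀⟩ := exists_irreducible_of_degree_pos hdeg
  have hf : Irreducible (normalize f₀) := (associated_normalize f₀).irreducible hf₀
  have hm : (normalize f₀).Monic := monic_normalize hf₀.ne_zero
  have hd : normalize f₀ ∣ chp g := (normalize_associated f₀).dvd.trans hd₀
  generalize normalize f₀ = f at hf hm hd
  obtain ⟨k, r, hr, hkr⟩ := WfDvdMonoid.max_power_factor (chp_monic g).ne_zero hf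
  have hk : 0 < k := by
    rcases Nat.eq_zero_or_pos k with rfl | h
    · rw [pow_zero, one_mul] at hkr
      exact absurd (hkr ▸ hd) hr
    · exact h
  have mr : r.Monic := (hm.pow k).of_mul_monic_left (hkr ▸ chp_monic g)
  have hX : f ≠ X := by
    rintro rfl
    rw [X_dvd_iff] at hd
    have h0 := det_eq_sign_charpoly_coeff g.val
    rw [hd, mul_zero] at h0
    exact (Matrix.isUnits_det_units g).ne_zero h0
  by_cases h1 : r = 1
  · exact Or.inl ⟨f, k, hf, hm, hX, hk, by rw [hkr, h1, mul_one]⟩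
  · have hc : IsCoprime (f ^ k) r := (hf.coprime_iff_not_dvd.2 hr).pow_left
    obtain ⟨i, j, a, b, z, ha, hb, hz⟩ := exists_split g hc (hm.pow k) mr hkr
    refine Or.inr ⟨i, j, a, b, z, ?_, ?_, by rwa [ha, hb], hz⟩
    · rw [← chp_natDegree a, ha, hm.natDegree_pow]
      exact Nat.mul_pos hk hf.natDegree_pos
    · rw [← chp_natDegree b, hb]
      exact Nat.pos_of_ne_zero fun h => h1 (mr.natDegree_eq_zero.1 h)

/-- primitive elements are supported on primary elements -/
theorem Prim.primary [Fintype F] [DecidableEq F] {ω : Fˣ →* ℂˣ} {c : H ω} (h : Prim c) {n : ℕ}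
    {g : G F n} (hg : c ⟨n, g⟩ ≠ 0) :
    ∃ (f : F[X]) (k : ℕ), Irreducible f ∧ f.Monic ∧ f ≠ X ∧ 0 < k ∧ chp g = f ^ k := by
  have hn : 0 < n := by
    rcases Nat.eq_zero_or_pos n with rfl | hn
    · rw [Subsingleton.elim g 1] at hg
      exact absurd h.1 hg
    · exact hn
  rcases primary_or_split hn g with h1 | ⟨i, j, a, b, z, hi, hj, hc, hz⟩
  · exact h1
  · have h2 := c.conj g z
    rw [hz, h.apply_diag hi hj hc] at h2
    exact absurd ((mul_eq_zero.1 h2.symm).resolve_left (Units.ne_zero _)) hg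

end Cfsg.GLn
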