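import Cfsg.Agent.GLn.Fock
import Cfsg.Agent.GLn.Cop

/-! Pointwise multiplication operators on the Hall algebra. -/

set_option autoImplicit false

namespace Cfsg.GLn

open ComplexConjugate Finset

universe u

variable {F : Type u} [Field F] [Fintype F] [DecidableEq F] {ω : Fˣ →* ℂˣ}

/-- conjugation invariant functions -/
def CInv {M : Type*} (m : Obj F → M) : Prop :=
  ∀ (n : ℕ) (g z : G F n), m ⟨n, z * g * z⁻¹⟩ = m ⟨n, g⟩

theorem CInv.comp {M N : Type*} {m : Obj F → M} (hm : CInv m) (f : M → N) :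
    CInv fun x => f (m x) := fun n g z => congrArg f (hm n g z)

/-- pointwise multiplication by an invariant function -/
noncomputable def pwm {m : Obj F → ℂ} (hm : CInv m) : H ω →ₗ[ℂ] H ω where
  toFun a := ⟨Finsupp.onFinset a.1.support (fun x => m x * a x) fun x hx =>
      Finsupp.mem_support_iff.2 (right_ne_zero_of_mul hx), fun n g z => by
    simp only [Finsupp.onFinset_apply]
    rw [hm, a.conj]; ring⟩
  map_add' a b := H.ext fun x => mul_add (m x) (a x) (b x)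
  map_smul' c a := H.ext fun x => mul_left_comm (m x) c (a x)

variable {m : Obj F → ℂ} (hm : CInv m)

@[simp] theorem pwm_apply (a : H ω) (x : Obj F) : pwm hm a x = m x * a x := rfl

theorem IsHom.pwm {n : ℕ} {a : H ω} (h : IsHom n a) : IsHom n (pwm hm a) := fun x hx => by
  rw [pwm_apply, h x hx, mul_zero]

theorem ip_pwm (a b : H ω) : ip (pwm hm a) b = ip a (pwm (hm.comp conj) b) := by
  obtain ⟨N, hN⟩ := a.exists_bound
  rw [ip_eq_range hN, ip_eq_range (N := N) fun x hx => by rw [pwm_apply, hN x hx, mul_zero]]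
  refine sum_congr rfl fun n _ => ?_
  simp only [classInner_def, pwm_apply, map_mul, Complex.conj_conj]
  congr 1
  exact sum_congr rfl fun g _ => by ring

theorem De_pwm (a : H ω) {i j : ℕ} {g₁ : G F i} {g₂ : G F j} {c : ℂ}
    (h : ∀ u, m ⟨i + j, blk g₁ u g₂⟩ = c) : De (pwm hm a) i j g₁ g₂ = c * De a i j g₁ g₂ := by
  simp only [De, pwm_apply, h, ← mul_sum]; ring

theorem Prim.pwm {a : H ω} (ha : Prim a)
    (h : ∀ (i j : ℕ) (g₁ : G F i) (g₂ : G F j) u, m ⟨i + j, blk g₁ u g₂⟩ = m ⟨i + j, blk g₁ 0 g₂⟩) :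
    Prim (pwm hm a) :=
  ⟨by rw [pwm_apply, ha.1, mul_zero], fun i j g₁ g₂ hi hj => by
    rw [De_pwm hm a (h i j g₁ g₂), ha.2 i j g₁ g₂ hi hj, mul_zero]⟩

theorem pwm_mul_gen {ι : Type*} (s : Finset ι) {m₁ m₂ : ι → Obj F → ℂ} (h₁ : ∀ t, CInv (m₁ t))
    (h₂ : ∀ t, CInv (m₂ t)) (h : ∀ (i j : ℕ) (g₁ : G F i) (g₂ : G F j) u,
      m ⟨i + j, blk g₁ u g₂⟩ = ∑ t ∈ s, m₁ t ⟨i, g₁⟩ * m₂ t ⟨j, g₂⟩) (a b : H ω) :
    pwm hm (a * b) = ∑ t ∈ s, pwm (h₁ t) a * pwm (h₂ t) b := by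
  induction a using H.induction with
  | h0 => simp [H.zero_mul]
  | h2 a a' ha ha' => simp only [H.add_mul, map_add, ha, ha', sum_add_distrib]
  | h1 i a ha =>
    induction b using H.induction with
    | h0 => simp [H.mul_zero]
    | h2 b b' hb hb' => simp only [H.mul_add, map_add, hb, hb', sum_add_distrib]
    | h1 j b hb =>
      refine ext_ip' fun c => ?_
      rw [ip_pwm, ha.ip_mul hb, ip_sum_left,
        sum_congr rfl fun t _ => (ha.pwm (h₁ t)).ip_mul (hb.pwm (h₂ t)) c, ← sum_div]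
      congr 1
      rw [sum_comm (s := s)]
      refine sum_congr rfl fun x _ => ?_
      rw [sum_comm (s := s)]
      refine sum_congr rfl fun y _ => ?_
      rw [De_pwm _ c fun u => congrArg conj (h i j x y u), map_mul, Complex.conj_conj, sum_mul,
        mul_sum]
      exact sum_congr rfl fun t _ => by simp only [pwm_apply]; ring

/-- multiplicative functions give ring endomorphisms -/
theorem pwm_mul_of_mul (h : ∀ (i j : ℕ) (g₁ : G F i) (g₂ : G F j) u,
      m ⟨i + j, blk g₁ u g₂⟩ = m ⟨i, g₁⟩ * m ⟨j, g₂⟩) (a b : H ω) :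
    pwm hm (a * b) = pwm hm a * pwm hm b := by
  simpa using pwm_mul_gen hm (univ : Finset Unit) (fun _ => hm) (fun _ => hm) (by simpa using h) a b

theorem pwm_const_one (a : H ω) : pwm (m := fun _ => 1) (fun _ _ _ => rfl) a = a :=
  H.ext fun x => one_mul (a x)

/-- additive functions give derivations -/
theorem pwm_mul_of_add (h : ∀ (i j : ℕ) (g₁ : G F i) (g₂ : G F j) u,
      m ⟨i + j, blk g₁ u g₂⟩ = m ⟨i, g₁⟩ + m ⟨j, g₂⟩) (a b : H ω) :
    pwm hm (a * b) = pwm hm a * b + a * pwm hm b := by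
  have h1 : CInv fun _ : Obj F => (1 : ℂ) := fun _ _ _ => rfl
  have := pwm_mul_gen hm (univ : Finset Bool) (m₁ := fun t => if t then m else fun _ => 1)
    (m₂ := fun t => if t then (fun _ => 1) else m) (fun t => by cases t; exacts [h1, hm])
    (fun t => by cases t; exacts [hm, h1]) (by simpa using h) a b
  rw [this, Fintype.sum_bool]
  congr 2 <;> exact H.ext fun x => by simp

theorem pwm_one (h : m ⟨0, 1⟩ = 1) : pwm hm (1 : H ω) = 1 :=
  (isHom_one.pwm hm).ext isHom_one fun g => by rw [pwm_apply, Subsingleton.elim g 1, h, one_mul]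

/-- the algebra endomorphism of a multiplicative function -/
noncomputable def pwmAlg [Laws F] (h0 : m ⟨0, 1⟩ = 1)
    (h : ∀ (i j : ℕ) (g₁ : G F i) (g₂ : G F j) u,
      m ⟨i + j, blk g₁ u g₂⟩ = m ⟨i, g₁⟩ * m ⟨j, g₂⟩) : H ω →ₐ[ℂ] H ω :=
  AlgHom.ofLinearMap (pwm hm) (pwm_one hm h0) (pwm_mul_of_mul hm h)

theorem pwmAlg_apply [Laws F] (h0 : m ⟨0, 1⟩ = 1) (h : ∀ (i j : ℕ) (g₁ : G F i) (g₂ : G F j) u,
      m ⟨i + j, blk g₁ u g₂⟩ = m ⟨i, g₁⟩ * m ⟨j, g₂⟩) (a : H ω) :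
    pwmAlg hm h0 h a = pwm hm a := rfl

/-- the support of a product -/
theorem exists_of_mul_ne_zero {a b : H ω} {x : Obj F} (h : (a * b) x ≠ 0) :
    ∃ (i j : ℕ) (g₁ : G F i) (g₂ : G F j) (u : Matrix (Fin i) (Fin j) F) (z : G F (i + j)),
      a ⟨i, g₁⟩ ≠ 0 ∧ b ⟨j, g₂⟩ ≠ 0 ∧ x = ⟨i + j, z * blk g₁ u g₂ * z⁻¹⟩ := by
  rw [mul_def, Finsupp.sum, H.sum_apply] at h
  obtain ⟨⟨i, g₁⟩, h1, h⟩ := exists_ne_zero_of_sum_ne_zero h
  rw [Finsupp.sum, H.sum_apply] at h
  obtain ⟨⟨j, g₂⟩, h2, h⟩ := exists_ne_zero_of_sum_ne_zero h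
  rw [H.smul_apply, mu0, H.smul_apply, H.sum_apply] at h
  obtain ⟨u, -, h⟩ := exists_ne_zero_of_sum_ne_zero (right_ne_zero_of_mul (right_ne_zero_of_mul h))
  refine ⟨i, j, g₁, g₂, u, ?_⟩
  by_contra hc
  push Not at hc
  obtain ⟨n, g⟩ := x
  by_cases hn : n = i + j
  · subst hn
    rw [orb_apply] at h
    obtain ⟨z, -, hz⟩ := exists_ne_zero_of_sum_ne_zero h
    refine hc z (Finsupp.mem_support_iff.1 h1) (Finsupp.mem_support_iff.1 h2) ?_
    rw [of_not_not fun e => hz (if_neg e)]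
  · exact h (isHom_orb _ _ hn)

/-! ### Eigenvalues -/

variable (K : Type*) [Field K] [Algebra F K]

/-- the eigenvalues -/
noncomputable def evs (x : Obj F) : Multiset K := (chp x.2).aroots K

theorem cInv_evs : CInv (evs (F := F) K) := fun n g z => by
  simp only [evs, chp_conj]

theorem evs_blk {i j : ℕ} (g₁ : G F i) (u : Matrix (Fin i) (Fin j) F) (g₂ : G F j) :
    evs K ⟨i + j, blk g₁ u g₂⟩ = evs K ⟨i, g₁⟩ + evs K ⟨j, g₂⟩ := by
  simp only [evs, chp_blk]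
  exact Polynomial.aroots_mul (mul_ne_zero (chp_monic _).ne_zero (chp_monic _).ne_zero)

theorem card_evs [IsAlgClosed K] (x : Obj F) : (evs K x).card = x.1 := by
  rw [evs, IsAlgClosed.card_aroots_eq_natDegree, chp_natDegree]

theorem evs_zero (g : G F 0) : evs K ⟨0, g⟩ = 0 := by
  simp [evs, Matrix.charpoly_isEmpty]

end Cfsg.GLn
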