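import Cfsg.Agent.GLn.Ar
import Cfsg.Agent.GLn.Pw

/-!
# S4536: eigenvalues and pointwise multiplications
-/

set_option autoImplicit false

namespace Cfsg.GLn

open Matrix Polynomial ComplexConjugate

universe u

variable {F : Type u} [Field F] [Fintype F] [DecidableEq F] {ω : Fˣ →* ℂˣ} {n i j : ℕ}

/-! ### eigenvalues -/

section eig
omit [Fintype F] [DecidableEq F]

theorem coe_un {a : K F} (h : a ≠ 0) : (un a : K F) = a := by simp [un, h]

@[simp] theorem un_coe (a : (K F)ˣ) : un (a : K F) = a := Units.ext (coe_un a.ne_zero)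

theorem chp_ne_zero (g : G F n) : chp g ≠ 0 := (chp_monic g).ne_zero

theorem chp_coeff_zero (g : G F n) : (chp g).coeff 0 ≠ 0 := fun h => by
  have := Matrix.det_eq_sign_charpoly_coeff g.val
  rw [h, mul_zero] at this
  exact (dt g).ne_zero this

theorem map_un_coe {f : F[X]} (h : f.coeff 0 ≠ 0) :
    ((f.aroots (K F)).map un).map Units.val = f.aroots (K F) := by
  rw [Multiset.map_map]
  refine (Multiset.map_congr rfl fun a ha => coe_un ?_).trans (Multiset.map_id _)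
  rintro rfl
  have := (mem_aroots.1 ha).2
  rw [← coeff_zero_eq_aeval_zero', map_eq_zero] at this
  exact h this

theorem eig_def (g : G F n) : eig ⟨n, g⟩ = ((chp g).aroots (K F)).map un := rfl

theorem eig_map_coe (x : Obj F) : (eig x).map Units.val = (chp x.2).aroots (K F) :=
  map_un_coe (chp_coeff_zero x.2)

theorem eig_ext {x : Obj F} {s : Multiset (K F)ˣ} (h : (chp x.2).aroots (K F) = s.map Units.val) :
    eig x = s := Multiset.map_injective Units.val_injective ((eig_map_coe x).trans h)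

theorem mem_eig {x : Obj F} {α : (K F)ˣ} : α ∈ eig x ↔ aeval (α : K F) (chp x.2) = 0 := by
  rw [← Multiset.mem_map_of_injective Units.val_injective, eig_map_coe, mem_aroots,
    and_iff_right (chp_ne_zero _)]

theorem card_aroots (f : F[X]) : (f.aroots (K F)).card = f.natDegree := by
  rw [aroots_def, ← (IsAlgClosed.splits _).natDegree_eq_card_roots, natDegree_map]

theorem card_eig (x : Obj F) : (eig x).card = x.1 := by
  rw [eig, Multiset.card_map, card_aroots]; exact chp_natDegree x.2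

theorem eig_zero (g : G F 0) : eig ⟨0, g⟩ = 0 := Multiset.card_eq_zero.1 (card_eig _)

theorem eig_of_chp_mul {m : ℕ} {g : G F m} {a : G F i} {b : G F j} (h : chp g = chp a * chp b) :
    eig ⟨m, g⟩ = eig ⟨i, a⟩ + eig ⟨j, b⟩ := by
  rw [eig_def, h, aroots_mul (mul_ne_zero (chp_ne_zero a) (chp_ne_zero b)), Multiset.map_add]
  rfl

theorem eig_blk (a : G F i) (u : Matrix (Fin i) (Fin j) F) (b : G F j) :
    eig ⟨i + j, blk a u b⟩ = eig ⟨i, a⟩ + eig ⟨j, b⟩ := eig_of_chp_mul (chp_blk a u b)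

theorem eig_diag (a : G F i) (b : G F j) : eig ⟨i + j, diag (a, b)⟩ = eig ⟨i, a⟩ + eig ⟨j, b⟩ :=
  eig_blk a 0 b

theorem map_chp (x : Obj F) :
    (chp x.2).map (algebraMap F (K F)) = ((eig x).map fun α : (K F)ˣ => X - C α.val).prod := by
  rw [(IsAlgClosed.splits _).eq_prod_roots_of_monic ((chp_monic x.2).map _), ← aroots_def,
    ← eig_map_coe, Multiset.map_map]
  rfl

theorem chp_eq_of_eig {x y : Obj F} (h : eig x = eig y) : chp x.2 = chp y.2 :=
  map_injective _ (algebraMap F (K F)).injective (by rw [map_chp, map_chp, h])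

theorem isCoprime_iff_eig {x y : Obj F} :
    IsCoprime (chp x.2) (chp y.2) ↔ Disjoint (eig x) (eig y) := by
  rw [isCoprime_iff_aeval_ne_zero_of_isAlgClosed F (K F), Multiset.disjoint_left]
  refine ⟨fun h a h1 h2 => (h a).elim (fun h => h (mem_eig.1 h1)) fun h => h (mem_eig.1 h2),
    fun h a => by_contra fun hh => ?_⟩
  push Not at hh
  have h0 : a ≠ 0 := by
    rintro rfl
    exact chp_coeff_zero x.2 (by simpa [← coeff_zero_eq_aeval_zero'] using hh.1)
  exact h (a := Units.mk0 a h0) (mem_eig.2 hh.1) (mem_eig.2 hh.2)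

theorem aroots_chp (g : G F n) :
    (chp g).aroots (K F) = (g.val.map (algebraMap F (K F))).charpoly.roots := by
  rw [charpoly_map]

theorem prod_eig (g : G F n) : (eig ⟨n, g⟩).prod = iu (dt g) := Units.ext <| by
  rw [← Units.coeHom_apply, map_multiset_prod, Units.coeHom, MonoidHom.coe_mk, OneHom.coe_mk,
    eig_map_coe, aroots_chp, ← det_eq_prod_roots_charpoly_of_splits (IsAlgClosed.splits _)]
  exact ((algebraMap F (K F)).map_det g.val).symm

/-- spectral mapping -/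
theorem eig_map_coe_aeval {g g' : G F n} (p : F[X]) (h : g'.val = aeval g.val p) :
    (eig ⟨n, g'⟩).map Units.val = (eig ⟨n, g⟩).map fun α : (K F)ˣ => aeval α.val p := by
  have : g'.val.map (algebraMap F (K F)) =
      aeval (g.val.map (algebraMap F (K F))) (p.map (algebraMap F (K F))) := by
    rw [h, aeval_map_algebraMap]
    exact (aeval_algHom_apply (Algebra.ofId F (K F)).mapMatrix g.val p).symm
  rw [eig_map_coe, aroots_chp, this, BL.roots_charpoly_aeval, ← aroots_chp,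
    ← eig_map_coe ⟨n, g⟩, Multiset.map_map]
  simp

theorem eig_of_aeval {g g' : G F n} (p : F[X]) (h : g'.val = aeval g.val p) {φ : (K F)ˣ → (K F)ˣ}
    (hφ : ∀ α, (φ α : K F) = aeval (α : K F) p) : eig ⟨n, g'⟩ = (eig ⟨n, g⟩).map φ :=
  Multiset.map_injective Units.val_injective <| by
    rw [eig_map_coe_aeval p h, Multiset.map_map]; simp [hφ]

theorem eig_pow (g : G F n) (k : ℕ) : eig ⟨n, g ^ k⟩ = (eig ⟨n, g⟩).map (· ^ k) :=
  eig_of_aeval (X ^ k) (by simp) (by simp)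

theorem eig_neg (g : G F n) : eig ⟨n, -g⟩ = (eig ⟨n, g⟩).map (- ·) :=
  eig_of_aeval (-X) (by simp) (by simp)

theorem eig_one (n : ℕ) : eig (⟨n, 1⟩ : Obj F) = Multiset.replicate n 1 := by
  refine Multiset.eq_replicate.2 ⟨card_eig _, fun α h => ?_⟩
  have := eig_pow (1 : G F n) 0
  rw [pow_zero] at this
  rw [this] at h
  obtain ⟨β, -, rfl⟩ := Multiset.mem_map.1 h
  exact pow_zero β

theorem pow_eq_one_of_mem_eig {g : G F n} {k : ℕ} (h : g ^ k = 1) {α : (K F)ˣ}
    (hα : α ∈ eig ⟨n, g⟩) : α ^ k = 1 := by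
  have := Multiset.mem_map_of_mem (· ^ k) hα
  rw [← eig_pow, h, eig_one] at this
  exact Multiset.eq_of_mem_replicate this

theorem orderOf_dvd_of_mem_eig {g : G F n} {α : (K F)ˣ} (hα : α ∈ eig ⟨n, g⟩) :
    orderOf α ∣ orderOf g := orderOf_dvd_of_pow_eq_one (pow_eq_one_of_mem_eig (pow_orderOf_eq_one g) hα)

end eig

omit [DecidableEq F] in
/-- unipotent elements have order a power of the characteristic -/
theorem pow_eq_one_of_eig {g : G F n} (h : ∀ α ∈ eig ⟨n, g⟩, α = 1) : g ^ ringChar F ^ n = 1 := by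
  have hp : (ringChar F).Prime := CharP.char_is_prime F _
  haveI := Fact.mk hp
  have h1 : chp g = (X - 1) ^ n := map_injective _ (algebraMap F (K F)).injective <| by
    rw [map_chp ⟨n, g⟩, Multiset.eq_replicate.2 ⟨card_eig ⟨n, g⟩, h⟩]; simp
  have h2 : aeval g.val ((X - 1 : F[X]) ^ ringChar F ^ n) = 0 := by
    obtain ⟨k, hk⟩ := Nat.exists_eq_add_of_le (Nat.lt_pow_self hp.one_lt (n := n)).le
    rw [hk, pow_add, ← h1, map_mul, aeval_self_charpoly, zero_mul]
  rw [sub_pow_char_pow, one_pow, map_sub, map_one, sub_eq_zero] at h2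
  exact Units.ext (by simpa using h2)

omit [DecidableEq F] in
theorem dvd_orderOf_iff {ℓ : ℕ} (hℓ : ℓ.Prime) (hc : ℓ ≠ ringChar F) (g : G F n) :
    ℓ ∣ orderOf g ↔ ∃ α ∈ eig ⟨n, g⟩, ℓ ∣ orderOf α := by
  refine ⟨fun h => by_contra fun hh => ?_, fun ⟨α, hα, h⟩ => h.trans (orderOf_dvd_of_mem_eig hα)⟩
  push Not at hh
  have h1 := pow_eq_one_of_eig (g := g ^ ((eig ⟨n, g⟩).map orderOf).prod) fun α hα => by
    rw [eig_pow] at hα
    obtain ⟨β, hβ, rfl⟩ := Multiset.mem_map.1 hα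
    exact orderOf_dvd_iff_pow_eq_one.1 (Multiset.dvd_prod (Multiset.mem_map_of_mem _ hβ))
  rw [← pow_mul] at h1
  rcases (Nat.Prime.dvd_mul hℓ).1 (h.trans (orderOf_dvd_of_pow_eq_one h1)) with h2 | h2
  · obtain ⟨β, hβ, h4⟩ := hℓ.prime.exists_mem_multiset_map_dvd h2
    exact hh β hβ h4
  · exact hc ((Nat.prime_dvd_prime_iff_eq hℓ (CharP.char_is_prime F _)).1 (hℓ.dvd_of_dvd_pow h2))

/-! ### Frobenius orbits and irreducible polynomials -/

omit [DecidableEq F] in
theorem aroots_map_frob (f : F[X]) :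
    (f.aroots (K F)).map (· ^ Fintype.card F) = f.aroots (K F) := by
  have := (IsAlgClosed.splits (f.map (algebraMap F (K F)))).roots_map
    (FiniteField.frobeniusAlgHom F (K F) : K F →+* K F)
  rw [Polynomial.map_map, AlgHom.comp_algebraMap] at this
  exact this.symm

omit [DecidableEq F] in
theorem eig_map_fr (x : Obj F) : (eig x).map (fr F) = eig x :=
  (eig_ext <| by rw [← aroots_map_frob, ← eig_map_coe, Multiset.map_map, Multiset.map_map]; rfl).symm

omit [DecidableEq F] in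
theorem fr_mem_eig {x : Obj F} {α : (K F)ˣ} (h : α ∈ eig x) : fr F α ∈ eig x :=
  eig_map_fr x ▸ Multiset.mem_map_of_mem _ h

omit [DecidableEq F] in
theorem iterate_fr_iff (α : (K F)ˣ) (k : ℕ) :
    (fr F)^[k] α = α ↔ (minpoly F (α : K F)).natDegree ∣ k := by
  have hi : IsIntegral F (α : K F) := Algebra.IsIntegral.isIntegral _
  haveI := Fact.mk (minpoly.irreducible hi)
  set f := minpoly F (α : K F)
  have hf : f ≠ 0 := minpoly.ne_zero hi
  haveI := (AdjoinRoot.powerBasis hf).finite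
  haveI : Finite (AdjoinRoot f) := Module.finite_of_finite F
  let φ : AdjoinRoot f →ₐ[F] K F := AdjoinRoot.liftAlgHom f (Algebra.ofId _ _) α (minpoly.aeval F _)
  have hφ : φ (AdjoinRoot.root f) = α := AdjoinRoot.liftAlgHom_root ..
  rw [show f.natDegree = orderOf (FiniteField.frobeniusAlgHom F (AdjoinRoot f)) from by
    rw [FiniteField.orderOf_frobeniusAlgHom, (AdjoinRoot.powerBasis hf).finrank]; rfl,
    orderOf_dvd_iff_pow_eq_one, show (fr F)^[k] α = α ^ Fintype.card F ^ k from Dyn.iterate_pow _ _ _,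
    Units.ext_iff, Units.val_pow_eq_pow_val, ← hφ, ← map_pow,
    (show Function.Injective φ from φ.toRingHom.injective).eq_iff]
  have : (FiniteField.frobeniusAlgHom F (AdjoinRoot f) ^ k) (AdjoinRoot.root f) =
      AdjoinRoot.root f ^ Fintype.card F ^ k := by
    rw [AlgHom.coe_pow, FiniteField.coe_frobeniusAlgHom, pow_iterate]
  exact ⟨fun h => AdjoinRoot.algHom_ext (this.trans h), fun h => by rw [← this, h]; rfl⟩

omit [DecidableEq F] in
theorem per_io_eq_natDegree (α : (K F)ˣ) : (io α).per = (minpoly F (α : K F)).natDegree :=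
  Nat.dvd_antisymm (((allPer F).iterate_eq_iff _ _).1 ((iterate_fr_iff α _).2 dvd_rfl))
    ((iterate_fr_iff α _).1 (((allPer F).iterate_eq_iff _ _).2 dvd_rfl))

omit [DecidableEq F] in
theorem aroots_minpoly (α : (K F)ˣ) :
    (minpoly F (α : K F)).aroots (K F) = (io α).pts.val.map Units.val := by
  have hi : IsIntegral F (α : K F) := Algebra.IsIntegral.isIntegral _
  refine (Multiset.eq_of_le_of_card_le ((Multiset.le_iff_subset
    ((io α).pts.nodup.map Units.val_injective)).2 fun β hβ => ?_) ?_).symm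
  · obtain ⟨γ, hγ, rfl⟩ := Multiset.mem_map.1 hβ
    obtain ⟨k, rfl⟩ := (allPer F).omk_eq_iff.1 ((allPer F).mem_pts.1 hγ).symm
    clear hβ hγ
    induction k with
    | zero => exact mem_aroots.2 ⟨minpoly.ne_zero hi, minpoly.aeval F _⟩
    | succ k ih =>
      rw [Function.iterate_succ_apply', ← aroots_map_frob]
      exact Multiset.mem_map_of_mem _ ih
  · rw [card_aroots, Multiset.card_map, Finset.card_val, Dyn.Orb.card_pts, per_io_eq_natDegree]

/-- the irreducible polynomial of an orbit -/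
noncomputable def mp (o : I F) : F[X] := minpoly F (o.rep : K F)

section mp
omit [DecidableEq F]

theorem mp_irreducible (o : I F) : Irreducible (mp o) :=
  minpoly.irreducible (Algebra.IsIntegral.isIntegral _)
theorem mp_monic (o : I F) : (mp o).Monic := minpoly.monic (Algebra.IsIntegral.isIntegral _)
theorem mp_natDegree (o : I F) : (mp o).natDegree = o.per := by
  rw [mp, ← per_io_eq_natDegree, io_rep]
theorem aroots_mp (o : I F) : (mp o).aroots (K F) = o.pts.val.map Units.val := by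
  rw [mp, aroots_minpoly, io_rep]
theorem aeval_mp {o : I F} {α : (K F)ˣ} : aeval (α : K F) (mp o) = 0 ↔ io α = o := by
  rw [← (allPer F).mem_pts, ← Finset.mem_val, ← Multiset.mem_map_of_injective Units.val_injective,
    ← aroots_mp, mem_aroots, and_iff_right (mp_monic o).ne_zero]
theorem mp_coeff_zero (o : I F) : (mp o).coeff 0 ≠ 0 :=
  minpoly.coeff_zero_ne_zero (Algebra.IsIntegral.isIntegral _) o.rep.ne_zero
theorem mp_ne_X (o : I F) : mp o ≠ X := fun h => mp_coeff_zero o (by rw [h, coeff_X_zero])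
theorem mp_io (α : (K F)ˣ) : mp (io α) = minpoly F (α : K F) :=
  minpoly.eq_of_irreducible_of_monic (mp_irreducible _) (aeval_mp.2 rfl) (mp_monic _)
theorem mp_injective : Function.Injective (mp : I F → F[X]) := fun o o' h => by
  rw [← Dyn.omk_rep o]
  exact aeval_mp.1 (h ▸ aeval_mp.2 (Dyn.omk_rep o))
theorem isCoprime_mp {o o' : I F} (h : o ≠ o') : IsCoprime (mp o) (mp o') :=
  (mp_irreducible o).coprime_iff_not_dvd.2 fun hd => h <| mp_injective <|
    eq_of_monic_of_associated (mp_monic o) (mp_monic o')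
      ((mp_irreducible o).associated_of_dvd (mp_irreducible o') hd)
theorem exists_mp {f : F[X]} (hf : Irreducible f) (hm : f.Monic) (hX : f ≠ X) : ∃ o : I F, mp o = f := by
  obtain ⟨a, ha⟩ := IsAlgClosed.exists_aeval_eq_zero (K F) f (degree_pos_of_irreducible hf).ne'
  have h0 : a ≠ 0 := by
    rintro rfl
    exact coeff_zero_ne_of_ne_X hf hm hX (by simpa [← coeff_zero_eq_aeval_zero'] using ha)
  exact ⟨io (Units.mk0 a h0), (mp_io _).trans (minpoly.eq_of_irreducible_of_monic hf ha hm).symm⟩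

theorem eig_of_chp_pow {g : G F n} {o : I F} {k : ℕ} (h : chp g = mp o ^ k) :
    eig ⟨n, g⟩ = k • o.pts.val ∧ n = o.per * k := by
  refine ⟨eig_ext ?_, ?_⟩
  · rw [h, aroots_pow, aroots_mp, Multiset.map_nsmul]
  · rw [← chp_natDegree g, h, (mp_monic o).natDegree_pow, mp_natDegree, mul_comm]

theorem chp_eq_pow_iff {g : G F n} {o : I F} {k : ℕ} :
    chp g = mp o ^ k ↔ eig ⟨n, g⟩ = k • o.pts.val := by
  refine ⟨fun h => (eig_of_chp_pow h).1, fun h => map_injective _ (algebraMap F (K F)).injective ?_⟩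
  rw [map_chp ⟨n, g⟩, h, Polynomial.map_pow, (IsAlgClosed.splits _).eq_prod_roots_of_monic
    ((mp_monic o).map _), ← aroots_def, aroots_mp, Multiset.map_nsmul, Multiset.prod_nsmul,
    Multiset.map_map]
  rfl

theorem exists_orb_of_chp_pow {g : G F n} {f : F[X]} (hf : Irreducible f) (hm : f.Monic)
    (hX : f ≠ X) {k : ℕ} (h : chp g = f ^ k) :
    ∃ o : I F, mp o = f ∧ eig ⟨n, g⟩ = k • o.pts.val ∧ n = o.per * k := by
  obtain ⟨o, rfl⟩ := exists_mp hf hm hX
  exact ⟨o, rfl, eig_of_chp_pow h⟩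

theorem mem_eig_iff_dvd {x : Obj F} {α : (K F)ˣ} : α ∈ eig x ↔ mp (io α) ∣ chp x.2 := by
  rw [mem_eig, mp_io, minpoly.dvd_iff]

theorem mem_eig_of_io {x : Obj F} {α β : (K F)ˣ} (h : α ∈ eig x) (e : io α = io β) : β ∈ eig x := by
  rwa [mem_eig_iff_dvd, ← e, ← mem_eig_iff_dvd]

theorem io_of_mem_nsmul {o : I F} {k : ℕ} {α : (K F)ˣ} (h : α ∈ k • o.pts.val) : io α = o :=
  (allPer F).mem_pts.1 (Multiset.mem_of_mem_nsmul h)

/-- every orbit and exponent occurs -/
theorem exists_isCyc_mp (o : I F) (k : ℕ) : ∃ g : G F (o.per * k), IsCyc g (mp o ^ k) ∧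
    eig ⟨_, g⟩ = k • o.pts.val := by
  have := exists_isCyc ((mp_monic o).pow k) (by
    rw [coeff_zero_eq_eval_zero, eval_pow, ← coeff_zero_eq_eval_zero]
    exact pow_ne_zero _ (mp_coeff_zero o))
  rw [(mp_monic o).natDegree_pow, mp_natDegree, mul_comm] at this
  obtain ⟨g, hg⟩ := this
  exact ⟨g, hg, (eig_of_chp_pow (hg.chp_eq ((mp_monic o).pow k))).1⟩

end mp

theorem Prim.supp {a : H ω} (h : Prim a) {x : Obj F} (hx : a x ≠ 0) :
    ∃ (o : I F) (m : ℕ), 0 < m ∧ eig x = m • o.pts.val ∧ x.1 = o.per * m := by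
  obtain ⟨f, k, hf, hm, hX, hk, e⟩ := h.primary (g := x.2) hx
  obtain ⟨o, -, h⟩ := exists_orb_of_chp_pow hf hm hX e
  exact ⟨o, k, hk, h⟩

/-! ### pointwise multiplications -/

variable {φ ψ : Multiset (K F)ˣ → ℂ} {Φ Ψ : (K F)ˣ → ℂ} {a b : H ω}

theorem cInv_eig (φ : Multiset (K F)ˣ → ℂ) : CInv fun x : Obj F => φ (eig x) :=
  fun _ g z => congrArg φ (eig_conj g z)

theorem sc_eq_pwm (φ : Multiset (K F)ˣ → ℂ) (a : H ω) : sc φ a = pwm (cInv_eig φ) a :=
  H.ext fun _ => rfl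

theorem De_sc (φ : Multiset (K F)ˣ → ℂ) (a : H ω) (x : G F i) (y : G F j) :
    De (sc φ a) i j x y = φ (eig ⟨i, x⟩ + eig ⟨j, y⟩) * De a i j x y := by
  rw [sc_eq_pwm]; exact De_pwm _ a fun u => by rw [eig_blk]

theorem Prim.sc (h : Prim a) (φ : Multiset (K F)ˣ → ℂ) : Prim (sc φ a) :=
  ⟨by rw [sc_apply, h.1, mul_zero], fun i j x y hi hj => by rw [De_sc, h.2 i j x y hi hj, mul_zero]⟩

theorem IsHom.sc (h : IsHom n a) (φ : Multiset (K F)ˣ → ℂ) : IsHom n (sc φ a) :=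
  fun x hx => by rw [sc_apply, h x hx, mul_zero]

theorem ip_sc (φ : Multiset (K F)ˣ → ℂ) (a b : H ω) :
    ip (sc φ a) b = ip a (sc (fun s => conj (φ s)) b) := by
  rw [sc_eq_pwm, ip_pwm, sc_eq_pwm]

theorem sc_sc (φ ψ : Multiset (K F)ˣ → ℂ) (a : H ω) : sc φ (sc ψ a) = sc (fun s => φ s * ψ s) a :=
  H.ext fun _ => (mul_assoc _ _ _).symm

theorem sc_congr (h : ∀ x, a x ≠ 0 → φ (eig x) = ψ (eig x)) : sc φ a = sc ψ a := H.ext fun x => by
  by_cases hx : a x = 0
  · simp [hx]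
  · rw [sc_apply, sc_apply, h x hx]

theorem sc_eq_smul {c : ℂ} (h : ∀ x, a x ≠ 0 → φ (eig x) = c) : sc φ a = c • a :=
  (sc_congr (ψ := fun _ => c) h).trans (H.ext fun _ => rfl)

theorem sc_mul_of_add (h : ∀ s t, φ (s + t) = φ s + φ t) (a b : H ω) :
    sc φ (a * b) = sc φ a * b + a * sc φ b := by
  simp only [sc_eq_pwm]; exact pwm_mul_of_add _ (fun i j x y u => by rw [eig_blk, h]) a b

theorem sc_mul_of_mul (h : ∀ s t, φ (s + t) = φ s * φ t) (a b : H ω) :
    sc φ (a * b) = sc φ a * sc φ b := by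
  simp only [sc_eq_pwm]; exact pwm_mul_of_mul _ (fun i j x y u => by rw [eig_blk, h]) a b

@[simp] theorem mu_apply (Φ : (K F)ˣ → ℂ) (a : H ω) (x : Obj F) :
    mu Φ a x = ((eig x).map Φ).prod * a x := rfl

theorem mu_mul (Φ : (K F)ˣ → ℂ) (a b : H ω) : mu Φ (a * b) = mu Φ a * mu Φ b :=
  sc_mul_of_mul (fun s t => by rw [Multiset.map_add, Multiset.prod_add]) a b

theorem mu_one (Φ : (K F)ˣ → ℂ) : mu Φ (1 : H ω) = 1 :=
  IsHom.ext (isHom_one.sc _) isHom_one fun g => (mu_apply Φ 1 _).trans (by rw [eig_zero]; simp)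

theorem mu_mu (Φ Ψ : (K F)ˣ → ℂ) (a : H ω) : mu Φ (mu Ψ a) = mu (fun α => Φ α * Ψ α) a :=
  H.ext fun x => by simp only [mu_apply, Multiset.prod_map_mul, mul_assoc]

theorem mu_const_one (a : H ω) : mu (fun _ => 1) a = a := H.ext fun x => by simp

theorem ip_mu (Φ : (K F)ˣ → ℂ) (a b : H ω) : ip (mu Φ a) b = ip a (mu (fun α => conj (Φ α)) b) := by
  rw [mu, ip_sc, mu]; simp only [map_multiset_prod, Multiset.map_map]; rfl

theorem De_mu (Φ : (K F)ˣ → ℂ) (a : H ω) (x : G F i) (y : G F j) : De (mu Φ a) i j x y =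
    ((eig ⟨i, x⟩).map Φ).prod * ((eig ⟨j, y⟩).map Φ).prod * De a i j x y := by
  rw [mu, De_sc, Multiset.map_add, Multiset.prod_add]

theorem Prim.mu (h : Prim a) (Φ : (K F)ˣ → ℂ) : Prim (mu Φ a) := h.sc _
theorem IsHom.mu (h : IsHom n a) (Φ : (K F)ˣ → ℂ) : IsHom n (mu Φ a) := h.sc _

theorem GrpLike.mu {δ : ℕ} {h : ℕ → H ω} (hh : GrpLike δ h) (Φ : (K F)ˣ → ℂ) :
    GrpLike δ fun m => mu Φ (h m) :=
  ⟨hh.pos, by rw [hh.zero, mu_one], fun m => (hh.hom m).mu Φ, fun m i j x y => by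
    rw [De_mu, hh.de, Finset.mul_sum]
    exact Finset.sum_congr rfl fun _ _ => by simp only [mu_apply]; ring⟩

/-- `mu Φ` as an algebra endomorphism -/
noncomputable def muA [Laws F] (Φ : (K F)ˣ → ℂ) : H ω →ₐ[ℂ] H ω :=
  AlgHom.ofLinearMap (mu Φ) (mu_one Φ) (mu_mul Φ)

@[simp] theorem muA_apply [Laws F] (Φ : (K F)ˣ → ℂ) (a : H ω) : muA Φ a = mu Φ a := rfl

/-- `dd ℓ` as an algebra endomorphism -/
noncomputable def ddA [Laws F] (ℓ : ℕ) : H ω →ₐ[ℂ] H ω := muA fun α => if ℓ ∣ orderOf α then 0 else 1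

@[simp] theorem ddA_apply [Laws F] (ℓ : ℕ) (a : H ω) : ddA ℓ a = dd ℓ a := rfl

/-- `tens λ` as an algebra endomorphism -/
noncomputable def tensA [Laws F] (lam : Fˣ) : H ω →ₐ[ℂ] H ω := muA fun α => pr 1 (iu lam) α

@[simp] theorem tensA_apply [Laws F] (lam : Fˣ) (a : H ω) : tensA lam a = tens lam a := rfl

variable {ℓ : ℕ}

open scoped Classical in
theorem dd_apply (ℓ : ℕ) (a : H ω) (x : Obj F) :
    dd ℓ a x = if ∃ α ∈ eig x, ℓ ∣ orderOf α then 0 else a x := by
  rw [dd, mu_apply]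
  split_ifs with h
  · obtain ⟨α, h1, h2⟩ := h
    refine mul_eq_zero_of_left (Multiset.prod_eq_zero (Multiset.mem_map.2 ⟨α, h1, ?_⟩)) _
    exact if_pos h2
  · rw [Multiset.prod_eq_one fun c hc => ?_, one_mul]
    obtain ⟨α, h1, rfl⟩ := Multiset.mem_map.1 hc
    exact if_neg fun h2 => h ⟨α, h1, h2⟩

theorem dd_mul (ℓ : ℕ) (a b : H ω) : dd ℓ (a * b) = dd ℓ a * dd ℓ b := mu_mul _ a b
theorem dd_one (ℓ : ℕ) : dd ℓ (1 : H ω) = 1 := mu_one _
theorem Prim.dd (h : Prim a) (ℓ : ℕ) : Prim (dd ℓ a) := h.sc _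
theorem IsHom.dd (h : IsHom n a) (ℓ : ℕ) : IsHom n (dd ℓ a) := h.sc _

theorem dd_dd (ℓ : ℕ) (a : H ω) : dd ℓ (dd ℓ a) = dd ℓ a := H.ext fun x => by
  simp only [dd_apply]; split_ifs <;> rfl

theorem ip_dd (ℓ : ℕ) (a b : H ω) : ip (dd ℓ a) b = ip a (dd ℓ b) := by
  rw [dd, ip_mu]; congr 3; ext α; split_ifs <;> simp

theorem ip_dd_dd (ℓ : ℕ) (a b : H ω) : ip (dd ℓ a) (dd ℓ b) = ip (dd ℓ a) b := by
  rw [← ip_dd, dd_dd]

theorem cm_dd (hℓ : ℓ.Prime) (hc : ℓ ≠ ringChar F) (a : H ω) (n : ℕ) :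
    cm (dd ℓ a) n = pRegularPart ℓ (cm a n) := funext fun g => by
  simp only [dd_apply, pRegularPart, IsPRegular, ← dvd_orderOf_iff hℓ hc]
  by_cases h : ℓ ∣ orderOf g <;> simp [h]

theorem tens_apply (lam : Fˣ) (a : H ω) (g : G F n) :
    tens lam a ⟨n, g⟩ = chr lam (dt g) * a ⟨n, g⟩ := by
  rw [tens, mu_apply, chr, MonoidHom.comp_apply, ← prod_eig, map_multiset_prod,
    ← Units.coeHom_apply, map_multiset_prod, Multiset.map_map]
  rfl

theorem tens_mul (lam : Fˣ) (a b : H ω) : tens lam (a * b) = tens lam a * tens lam b := mu_mul _ a b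
theorem Prim.tens (h : Prim a) (lam : Fˣ) : Prim (tens lam a) := h.sc _
theorem IsHom.tens (h : IsHom n a) (lam : Fˣ) : IsHom n (tens lam a) := h.sc _

theorem ip_tens_tens (lam : Fˣ) (a b : H ω) : ip (tens lam a) (tens lam b) = ip a b := by
  induction a using H.induction with
  | h0 => simp
  | h2 a a' h h' => rw [map_add, ip_add_left, ip_add_left, h, h']
  | h1 n a ha =>
  rw [(ha.tens lam).ip_eq, ha.ip_eq, classInner, classInner]
  refine congrArg _ (Finset.sum_congr rfl fun g _ => ?_)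
  rw [tens_apply, tens_apply, map_mul, mul_mul_mul_comm, om_mul_conj, one_mul]

theorem dd_tens (ℓ : ℕ) (lam : Fˣ) (a : H ω) : dd ℓ (tens lam a) = tens lam (dd ℓ a) :=
  H.ext fun _ => mul_left_comm _ _ _

/-! ### translation by `-1` -/

theorem ng_apply' (a : H ω) (x : Obj F) : ng a x = a ⟨x.1, -x.2⟩ := rfl

/-- `ng` as a linear map -/
noncomputable def ngL : H ω →ₗ[ℂ] H ω :=
  ⟨⟨ng, fun _ _ => H.ext fun _ => rfl⟩, fun _ _ => H.ext fun _ => rfl⟩

@[simp] theorem ngL_apply (a : H ω) : ngL a = ng a := rfl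
theorem ng_add (a b : H ω) : ng (a + b) = ng a + ng b := H.ext fun _ => rfl
theorem ng_smul (c : ℂ) (a : H ω) : ng (c • a) = c • ng a := H.ext fun _ => rfl
@[simp] theorem ng_zero : ng (0 : H ω) = 0 := H.ext fun _ => rfl
@[simp] theorem ng_ng (a : H ω) : ng (ng a) = a := H.ext fun ⟨n, g⟩ => by simp
theorem IsHom.ng (h : IsHom n a) : IsHom n (ng a) := fun x hx => h ⟨x.1, -x.2⟩ hx

omit [Fintype F] [DecidableEq F] in
theorem neg_blk (x : G F i) (u : Matrix (Fin i) (Fin j) F) (y : G F j) :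
    -blk x u y = blk (-x) (-u) (-y) := Units.ext <| by
  ext r s
  induction r using Fin.addCases <;> induction s using Fin.addCases <;> simp [blkM]

theorem De_ng (a : H ω) (x : G F i) (y : G F j) : De (ng a) i j x y = De a i j (-x) (-y) := by
  simp only [De, ng_apply, neg_blk]
  exact congrArg _ (Equiv.sum_comp (Equiv.neg _) fun u => a ⟨i + j, blk (-x) u (-y)⟩)

theorem Prim.ng (h : Prim a) : Prim (ng a) :=
  ⟨by rw [ng_apply, Subsingleton.elim (-1) 1, h.1], fun i j x y hi hj => by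
    rw [De_ng, h.2 i j _ _ hi hj]⟩

theorem ip_ng (a b : H ω) : ip (ng a) b = ip a (ng b) := by
  induction a using H.induction with
  | h0 => simp
  | h2 a a' h h' => rw [ng_add, ip_add_left, ip_add_left, h, h']
  | h1 n a ha =>
  rw [ha.ng.ip_eq, ha.ip_eq, classInner, classInner, ← Equiv.sum_comp (Equiv.neg (G F n))]
  simp

theorem ip_ng_ng (a b : H ω) : ip (ng a) (ng b) = ip a b := by rw [ip_ng, ng_ng]

theorem ng_mul (a b : H ω) : ng (a * b) = ng a * ng b := by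
  induction a using H.induction with
  | h0 => simp [H.zero_mul]
  | h2 a a' h h' => simp only [ng_add, H.add_mul, h, h']
  | h1 i a ha =>
  induction b using H.induction with
  | h0 => simp [H.mul_zero]
  | h2 a a' h h' => simp only [ng_add, H.mul_add, h, h']
  | h1 j b hb =>
  refine ext_ip' fun c => ?_
  rw [ip_ng, ha.ip_mul hb, ha.ng.ip_mul hb.ng, ← Equiv.sum_comp (Equiv.neg (G F i))]
  refine congrArg (· / _) (Finset.sum_congr rfl fun x _ => ?_)
  rw [← Equiv.sum_comp (Equiv.neg (G F j))]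
  simp [De_ng]

theorem ng_one : ng (1 : H ω) = 1 := isHom_one.ng.ext isHom_one fun g => by
  rw [ng_apply, one_apply, one_apply]

/-- `ng` as an algebra endomorphism -/
noncomputable def ngA [Laws F] : H ω →ₐ[ℂ] H ω := AlgHom.ofLinearMap ngL ng_one ng_mul

@[simp] theorem ngA_apply [Laws F] (a : H ω) : ngA a = ng a := rfl

theorem ng_sc (φ : Multiset (K F)ˣ → ℂ) (a : H ω) :
    ng (sc φ a) = sc (fun s => φ (s.map (- ·))) (ng a) := H.ext fun ⟨n, g⟩ => by
  rw [ng_apply, sc_apply, sc_apply, eig_neg, ng_apply]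

/-! ### the spaces `HS` -/

variable {S : I F → Prop}

theorem mem_HS : a ∈ HS ω S n ↔ IsHom n a ∧ ∀ x, (∃ α ∈ eig x, ¬ S (io α)) → a x = 0 := Iff.rfl

theorem mul_mem_HS (ha : a ∈ HS ω S i) (hb : b ∈ HS ω S j) : a * b ∈ HS ω S (i + j) :=
  ⟨ha.1.mul hb.1, fun x ⟨α, h1, h2⟩ => by_contra fun hx => by
    obtain ⟨i', j', g₁, g₂, u, z, h3, h4, rfl⟩ := exists_of_mul_ne_zero hx
    rw [eig_conj, eig_blk, Multiset.mem_add] at h1
    exact h1.elim (fun h => h3 (ha.2 _ ⟨α, h, h2⟩)) fun h => h4 (hb.2 _ ⟨α, h, h2⟩)⟩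

theorem one_mem_HS : (1 : H ω) ∈ HS ω S 0 := ⟨isHom_one, fun ⟨n, g⟩ ⟨α, h1, _⟩ =>
  isHom_one _ (by rintro (rfl : n = 0); simp [eig_zero] at h1)⟩

theorem sc_mem_HS (ha : a ∈ HS ω S n) (φ : Multiset (K F)ˣ → ℂ) : sc φ a ∈ HS ω S n :=
  ⟨ha.1.sc φ, fun x hx => by rw [sc_apply, ha.2 x hx, mul_zero]⟩

theorem mem_HS_true : a ∈ HS ω (fun _ => True) n ↔ IsHom n a :=
  ⟨fun h => h.1, fun h => ⟨h, fun _ ⟨_, _, h⟩ => (h trivial).elim⟩⟩

end Cfsg.GLn
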