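import Cfsg.Agent.GLn.BasA
import Cfsg.Agent.GLn.Mu
import Cfsg.Agent.GLn.ArB

/-! The piece `Bas` of S4536. -/

set_option autoImplicit false
set_option linter.unusedSectionVars false

namespace Cfsg.GLn

open Finset SymCh ComplexConjugate

universe u

variable {F : Type u} [Field F] [Fintype F] [DecidableEq F] {ω : Fˣ →* ℂˣ} {N ℓ : ℕ}

variable [Laws F] {r : ℕ} {p : I F → ℕ → H ω}

theorem dd_schur (p : I F → ℕ → H ω) (μ : MP F N) :
    dd ℓ (schur p μ) = schur (fun o k => dd ℓ (p o k)) μ := map_schur (ddA ℓ) p μ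

theorem dd_pmon (p : I F → ℕ → H ω) (τ : Multiset (I F × ℕ)) :
    dd ℓ (pmon p τ) = pmon (fun o k => dd ℓ (p o k)) τ := map_pmon (ddA ℓ) p τ

theorem Fk.prim_dd (h : Fk r p) (o : I F) {m : ℕ} (hm : 0 < m) : Prim (dd ℓ (p o m)) :=
  (h.prim o m hm).dd ℓ

theorem Fk.isHom_dd (h : Fk r p) (o : I F) {m : ℕ} (hm : 0 < m) :
    IsHom (r * (o.per * m)) (dd ℓ (p o m)) := (h.hom o m hm).dd ℓ

theorem Gr.ip_dd_dd (h : Gr ℓ p) (o o' : I F) {m m' : ℕ} (hm : 0 < m) (hm' : 0 < m') :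
    ip (dd ℓ (p o m)) (dd ℓ (p o' m')) = gram ℓ o m o' m' := by
  rw [GLn.ip_dd_dd, h _ _ _ _ hm hm']

variable [Fact ℓ.Prime]

omit [Laws F] in
theorem per_rpI_mul (o : I F) (m : ℕ) :
    (rpI ℓ o).per * (o.per / (rpI ℓ o).per * m) = o.per * m := by
  rw [← mul_assoc, Nat.mul_div_cancel' (per_rpI_dvd o)]

omit [Laws F] in
theorem per_div_pos_b (o : I F) : 0 < o.per / (rpI ℓ o).per :=
  Nat.div_pos (Nat.le_of_dvd (per_pos o) (per_rpI_dvd o)) (per_pos _)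

theorem Gr.dd_eq (h : Gr ℓ p) (o : I F) {m : ℕ} (hm : 0 < m) :
    dd ℓ (p o m) = dd ℓ (p (rpI ℓ o) (o.per / (rpI ℓ o).per * m)) := by
  have hm' := Nat.mul_pos (per_div_pos_b (ℓ := ℓ) o) hm
  refine sub_eq_zero.1 (eq_zero_of_ip_self ?_)
  rw [ip_sub_left, ip_sub_right, ip_sub_right, h.ip_dd_dd _ _ hm hm, h.ip_dd_dd _ _ hm hm',
    h.ip_dd_dd _ _ hm' hm, h.ip_dd_dd _ _ hm' hm']
  simp only [gram, per_rpI_mul, rpI_rpI, and_self, if_true, sub_self]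

theorem gram_reg {ψ : I F} (h : Reg ℓ ψ) (m m' : ℕ) :
    gram ℓ ψ m ψ m' = if m = m' then (m : ℂ) * (nl F ℓ (ψ.per * m) : ℂ)⁻¹ else 0 := by
  have h0 : (ψ.per : ℂ) ≠ 0 := Nat.cast_ne_zero.2 (per_pos ψ).ne'
  simp only [gram, h.rpI_eq, and_true, Nat.mul_right_inj (per_pos ψ).ne', Nat.cast_mul,
    mul_div_mul_left _ _ h0, div_eq_mul_inv]

theorem gram_ne {o o' : I F} (h : rpI ℓ o ≠ rpI ℓ o') (m m' : ℕ) : gram ℓ o m o' m' = 0 :=
  if_neg fun e => h e.2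

theorem Gr.spM_le (h : Gr ℓ p) (P : I F → Prop) (n : ℕ) :
    spM (fun o k => dd ℓ (p o k)) P n ≤ spM (fun o k => dd ℓ (p o k)) (Reg ℓ) n := by
  refine Submodule.span_mono ?_
  rintro _ ⟨τ, hτ, rfl⟩
  refine ⟨τ.map fun x => (rpI ℓ x.1, x.1.per / (rpI ℓ x.1).per * x.2), ⟨fun y hy => ?_, ?_⟩, ?_⟩
  · obtain ⟨x, hx, rfl⟩ := Multiset.mem_map.1 hy
    exact ⟨reg_rpI _, Nat.mul_pos (per_div_pos_b _) (hτ.1 x hx).2⟩
  · simp only [Multiset.map_map, Function.comp_def, per_rpI_mul, hτ.2]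
  · simp only [pmon, Multiset.map_map, Function.comp_def]
    exact congrArg _ (Multiset.map_congr rfl fun x hx => (h.dd_eq _ (hτ.1 x hx).2).symm)

theorem Gr.linearIndependent (h : Gr ℓ p) (hF : Fk r p) :
    LinearIndependent ℂ fun τ : {τ : Multiset (I F × ℕ) // ∀ x ∈ τ, Reg ℓ x.1 ∧ 0 < x.2} =>
      dd ℓ (pmon p τ.1) := by
  have := linearIndependent_multiset (s := {x : I F × ℕ | Reg ℓ x.1 ∧ 0 < x.2})
    (a := fun x => dd ℓ (p x.1 x.2)) (fun x hx => hF.prim_dd _ hx.2) (fun x hx e => ?_)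
    fun x hx y hy hxy => ?_
  · simp only [dd_pmon]
    exact this
  · have := h.ip_dd_dd x.1 x.1 hx.2 hx.2
    rw [e, ip_zero_left, gram_reg hx.1, if_pos rfl] at this
    exact mul_ne_zero (Nat.cast_ne_zero.2 hx.2.ne')
      (inv_ne_zero (Nat.cast_ne_zero.2 (nl_pos _).ne')) this.symm
  · rw [h.ip_dd_dd _ _ hx.2 hy.2]
    by_cases e : x.1 = y.1
    · rw [← e, gram_reg hx.1, if_neg fun e' => hxy (Prod.ext e e')]
    · exact gram_ne (by rwa [hx.1.rpI_eq, hy.1.rpI_eq]) _ _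

theorem stBas (hℓ : ℓ ≠ ringChar F) (hP : StP F) : StBas F ℓ := by
  intro ω r p hF hG
  refine ⟨fun N ν hν => ?_, fun a ha h0 => ?_, fun N μ ν => ?_⟩
  · simp only [dd_schur]
    exact spM_le_span _ _ hν (hG.spM_le _ _ (schur_mem_spM _ ν (P := fun _ => True)
      fun _ _ => trivial))
  · have h1 : a ∈ Submodule.span ℂ (Set.range
        fun τ : {τ : Multiset (I F × ℕ) // ∀ x ∈ τ, Reg ℓ x.1 ∧ 0 < x.2} => pmon p τ.1) := by
      rw [← Subalgebra.mem_toSubmodule, Algebra.adjoin_eq_span] at ha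
      refine Submodule.span_mono (fun x hx => ?_) ha
      induction hx using Submonoid.closure_induction with
      | mem x hx =>
        obtain ⟨ψ, m, h1, h2, rfl⟩ := hx
        exact ⟨⟨{(ψ, m)}, by simp [h1, h2]⟩, by simp [pmon]⟩
      | one => exact ⟨⟨0, by simp⟩, by simp [pmon]⟩
      | mul x y _ _ hx hy =>
        obtain ⟨τ, rfl⟩ := hx
        obtain ⟨σ, rfl⟩ := hy
        exact ⟨⟨τ.1 + σ.1, fun x hx => (Multiset.mem_add.1 hx).elim (τ.2 x) (σ.2 x)⟩,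
          pmon_add ..⟩
    rw [← Finsupp.range_linearCombination] at h1
    obtain ⟨c, rfl⟩ := h1
    rw [Finsupp.apply_linearCombination] at h0
    rw [linearIndependent_iff.1 (hG.linearIndependent hF) c h0, map_zero]
  · have hG' := hP.gr ℓ Fact.out hℓ
    rw [AA, chi, chi, ← GLn.ip_dd_dd, ← GLn.ip_dd_dd ℓ (schur pp μ), dd_schur, dd_schur, dd_schur,
      dd_schur]
    exact ip_schur_eq (fun o m hm => hF.prim_dd o hm) (fun o m hm => hP.fk.prim_dd o hm)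
      (fun o m o' m' hm hm' => by rw [hG.ip_dd_dd _ _ hm hm', hG'.ip_dd_dd _ _ hm hm']) μ ν

end Cfsg.GLn
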