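import Cfsg.Agent.CT.SymBeta

/-! Symmetric functions of one family in a commutative `ℂ`-algebra: the definitions. -/

set_option autoImplicit false

namespace Cfsg.GLn

open Finset

variable {A : Type*} [CommRing A] [Algebra ℂ A]

/-- The coefficients of `exp (∑ p k * t ^ k / k)`. -/
noncomputable def ex (p : ℕ → A) : ℕ → A
  | 0 => 1
  | n + 1 => ((n + 1 : ℂ)⁻¹) • ∑ k : Fin (n + 1), p (k + 1) * ex p (n - k)
decreasing_by omega

/-- The Newton power sums of a sequence `h` with `h 0 = 1`. -/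
noncomputable def lg (h : ℕ → A) : ℕ → A
  | 0 => 0
  | n + 1 => ((n + 1 : ℕ) : A) * h (n + 1) - ∑ k : Fin n, lg h (k + 1) * h (n - k)
decreasing_by omega

/-- The power sum monomial. -/
def pm (p : ℕ → A) (ρ : Multiset ℕ) : A := (ρ.map p).prod

/-- The size of the partition with beta-set `X`. -/
def sz (N : ℕ) (X : Finset ℕ) : ℕ := (∑ x ∈ X, x) - SymCh.tri N

/-- The parts (in increasing order) of the partition with beta-set `X`. -/
def par (N : ℕ) (X : Finset ℕ) (i : Fin N) : ℕ := (SymCh.lab N X i - (i : ℕ)).toNat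

/-- The Schur function. -/
noncomputable def S (p : ℕ → A) (N : ℕ) (X : Finset ℕ) : A :=
  ∑ ρ ∈ SymCh.ptn (sz N X), ((SymCh.ph N X ρ / SymCh.zz ρ : ℚ) : ℂ) • pm p ρ

theorem ex_zero (p : ℕ → A) : ex p 0 = 1 := by rw [ex]

theorem ex_succ (p : ℕ → A) (n : ℕ) :
    ex p (n + 1) = ((n + 1 : ℂ)⁻¹) • ∑ k ∈ range (n + 1), p (k + 1) * ex p (n - k) := by
  rw [ex, Fin.sum_univ_eq_sum_range (fun k => p (k + 1) * ex p (n - k))]

omit [Algebra ℂ A] in
theorem lg_zero (h : ℕ → A) : lg h 0 = 0 := by rw [lg]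

omit [Algebra ℂ A] in
theorem lg_succ (h : ℕ → A) (n : ℕ) :
    lg h (n + 1) = ((n + 1 : ℕ) : A) * h (n + 1) - ∑ k ∈ range n, lg h (k + 1) * h (n - k) := by
  rw [lg, Fin.sum_univ_eq_sum_range (fun k => lg h (k + 1) * h (n - k))]

end Cfsg.GLn
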