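import Cfsg.Agent.GLn.HallA
import Cfsg.Agent.GLn.Sym0

/-! Fock space formalism: primitive elements act as derivations. -/

set_option autoImplicit false

namespace Cfsg.GLn

open ComplexConjugate Finset TensorProduct

universe u

variable {F : Type u} [Field F] [Fintype F] [DecidableEq F] {ω : Fˣ →* ℂˣ}

theorem ip_cj (a b : H ω) : ip b a = conj (ip a b) := (ip_conj a b).symm

theorem ip_one_right (a : H ω) : ip a 1 = a ⟨0, 1⟩ := by rw [ip_cj, ip_one, Complex.conj_conj]

theorem ip_mul_of_de {ι : Type*} {s : Finset ι} {c : H ω} {c' c'' : ι → H ω}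
    (h : ∀ (i j : ℕ) (g₁ : G F i) (g₂ : G F j),
      De c i j g₁ g₂ = ∑ t ∈ s, c' t ⟨i, g₁⟩ * c'' t ⟨j, g₂⟩) (a b : H ω) :
    ip (a * b) c = ∑ t ∈ s, ip a (c' t) * ip b (c'' t) := by
  rw [ip_mul]
  simp only [ip, Finsupp.sum, h, map_sum, map_mul, sum_mul_sum]
  simp only [mul_sum, sum_div]
  rw [sum_comm (s := s)]
  refine sum_congr rfl fun x _ => ?_
  rw [sum_comm]
  refine sum_congr rfl fun t _ => sum_congr rfl fun y _ => ?_
  ring

theorem ip_orb_mul_orb {i j : ℕ} (g₁ : G F i) (g₂ : G F j) (c : H ω) :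
    ip (orb ω i g₁ * orb ω j g₂) c = conj (De c i j g₁ g₂) := by
  rw [(isHom_orb g₁).ip_mul (isHom_orb g₂), div_eq_iff (mul_ne_zero (cardG_ne i) (cardG_ne j))]
  simp only [orb_apply, sum_mul, mul_sum]
  rw [sum_comm]
  simp only [Nat.card_eq_fintype_card]
  calc _ = ∑ z : G F i, ∑ w : G F j, conj (De c i j g₁ g₂) := by
        rw [sum_comm]
        refine (sum_congr rfl fun x _ => sum_comm).trans ?_
        rw [sum_comm]
        refine (sum_congr rfl fun w _ => ?_).trans sum_comm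
        refine (sum_congr rfl fun x _ => sum_comm).trans ?_
        rw [sum_comm]
        refine sum_congr rfl fun z _ => ?_
        simp only [ite_mul, mul_ite, zero_mul, mul_zero, sum_ite_eq, mem_univ, if_true]
        rw [De_conj, map_mul, map_mul]
        linear_combination (conj (De c i j g₁ g₂) * ω (dt w) * conj (ω (dt w) : ℂ)) *
          om_mul_conj ω (dt z) + conj (De c i j g₁ g₂) * om_mul_conj ω (dt w)
    _ = _ := by simp; ring

theorem de_of_ip_mul {ι : Type*} {s : Finset ι} {c : H ω} {c' c'' : ι → H ω}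
    (h : ∀ a b : H ω, ip (a * b) c = ∑ t ∈ s, ip a (c' t) * ip b (c'' t))
    (i j : ℕ) (g₁ : G F i) (g₂ : G F j) :
      De c i j g₁ g₂ = ∑ t ∈ s, c' t ⟨i, g₁⟩ * c'' t ⟨j, g₂⟩ := by
  have := h (orb ω i g₁) (orb ω j g₂)
  rw [ip_orb_mul_orb] at this
  simpa [ip_orb] using congrArg conj this

/-- The adjoint of the multiplication by `c`. -/
noncomputable def adj (c : H ω) : H ω →ₗ[ℂ] H ω where
  toFun a := (exists_adj c a).choose
  map_add' a b := ext_ip fun y => by
    rw [ip_add_right, ← (exists_adj c a).choose_spec, ← (exists_adj c b).choose_spec,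
      ← (exists_adj c (a + b)).choose_spec, ip_add_right]
  map_smul' z a := ext_ip fun y => by
    rw [RingHom.id_apply, ip_smul_right, ← (exists_adj c a).choose_spec,
      ← (exists_adj c (z • a)).choose_spec, ip_smul_right]

theorem ip_mul_adj (c y a : H ω) : ip (c * y) a = ip y (adj c a) := (exists_adj c a).choose_spec y

theorem ip_adj_mul (c y a : H ω) : ip a (c * y) = ip (adj c a) y := by
  rw [ip_cj, ip_mul_adj, ← ip_cj]

theorem Prim.de {c : H ω} (hc : Prim c) (i j : ℕ) (g₁ : G F i) (g₂ : G F j) :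
    De c i j g₁ g₂ = ∑ t : Fin 2, ![c, 1] t ⟨i, g₁⟩ * ![1, c] t ⟨j, g₂⟩ := by
  have h0 : ∀ g : G F 0, c ⟨0, g⟩ = 0 := fun g => by rw [Subsingleton.elim g 1]; exact hc.1
  simp only [Fin.sum_univ_two, Matrix.cons_val_zero, Matrix.cons_val_one]
  rcases Nat.eq_zero_or_pos j with rfl | hj
  · rw [De_zero_right, one_apply, h0, mul_one, mul_zero, add_zero]
  rcases Nat.eq_zero_or_pos i with rfl | hi
  · rw [De_zero_left, one_apply, h0, one_mul, zero_mul, zero_add]
  rw [hc.2 i j g₁ g₂ hi hj, isHom_one ⟨i, g₁⟩ hi.ne', isHom_one ⟨j, g₂⟩ hj.ne', mul_zero, zero_mul, add_zero]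

theorem Prim.ip_mul {c : H ω} (hc : Prim c) (a b : H ω) :
    ip (a * b) c = ip a c * ip b 1 + ip a 1 * ip b c := by
  simpa using ip_mul_of_de (s := univ) hc.de a b

theorem Prim.ip_one {c : H ω} (hc : Prim c) : ip c 1 = 0 := by rw [ip_one_right, hc.1]

theorem Prim.one_ip {c : H ω} (hc : Prim c) : ip 1 c = 0 := by rw [ip_cj, hc.ip_one, map_zero]

theorem prim_of_ip_mul {c : H ω} (h0 : ip c 1 = 0)
    (h : ∀ a b, ip (a * b) c = ip a c * ip b 1 + ip a 1 * ip b c) : Prim c := by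
  refine ⟨by rwa [ip_one_right] at h0, fun i j g₁ g₂ hi hj => ?_⟩
  rw [de_of_ip_mul (s := univ) (c' := ![c, 1]) (c'' := ![1, c]) (fun a b => by simpa using h a b)]
  simp [isHom_one ⟨i, g₁⟩ hi.ne', isHom_one ⟨j, g₂⟩ hj.ne']

theorem ip_one_one : ip (1 : H ω) 1 = 1 := by rw [ip_one_right, one_apply]

theorem ip_mul_one (a b : H ω) : ip (a * b) 1 = ip a 1 * ip b 1 := by
  simpa using ip_mul_of_de (s := (univ : Finset Unit)) (c := 1) (c' := fun _ => 1)
    (c'' := fun _ => 1) (fun i j g₁ g₂ => by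
      simp only [univ_unique, sum_singleton]
      rcases Nat.eq_zero_or_pos j with rfl | hj
      · rw [De_zero_right, one_apply, mul_one]
      rw [isHom_one ⟨j, g₂⟩ hj.ne', mul_zero, De,
        sum_eq_zero fun u _ => isHom_one _ (by simp; omega), mul_zero]) a b

theorem Prim.add {a b : H ω} (ha : Prim a) (hb : Prim b) : Prim (a + b) :=
  prim_of_ip_mul (by rw [ip_add_left, ha.ip_one, hb.ip_one, add_zero]) fun x y => by
    simp only [ip_add_right, ha.ip_mul, hb.ip_mul]; ring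

theorem Prim.smul {a : H ω} (ha : Prim a) (z : ℂ) : Prim (z • a) :=
  prim_of_ip_mul (by rw [ip_smul_left, ha.ip_one, mul_zero]) fun x y => by
    simp only [ip_smul_right, ha.ip_mul]; ring

theorem prim_zero : Prim (0 : H ω) :=
  prim_of_ip_mul (ip_zero_left _) fun x y => by simp [ip_zero_right]

theorem Prim.sum {ι : Type*} {s : Finset ι} {a : ι → H ω} (h : ∀ i ∈ s, Prim (a i)) :
    Prim (∑ i ∈ s, a i) :=
  sum_induction a Prim (fun _ _ => Prim.add) prim_zero h

/-- a primitive element is orthogonal to proper products -/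
theorem Prim.ip_mul_eq_zero {c a b : H ω} (hc : Prim c) (ha : ip a 1 = 0) (hb : ip b 1 = 0) :
    ip (a * b) c = 0 := by rw [hc.ip_mul, ha, hb, mul_zero, zero_mul, add_zero]

theorem Prim.adj_prim {c b : H ω} (hc : Prim c) (hb : Prim b) : adj c b = ip b c • 1 :=
  ext_ip fun y => by
    rw [← ip_mul_adj, hb.ip_mul, hc.ip_one, zero_mul, add_zero, ip_smul_right, ← ip_cj]

theorem Prim.adj_one {c : H ω} (hc : Prim c) : adj c 1 = 0 :=
  ext_ip fun y => by rw [← ip_mul_adj, ip_mul_one, hc.ip_one, zero_mul, ip_zero_right]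

theorem GrpLike.ip_mul {δ : ℕ} {h : ℕ → H ω} (hh : GrpLike δ h) (m : ℕ) (a b : H ω) :
    ip (a * b) (h m) = ∑ x ∈ antidiagonal m, ip a (h x.1) * ip b (h x.2) :=
  ip_mul_of_de (hh.de m) a b

theorem grpLike_of_ip_mul {δ : ℕ} {h : ℕ → H ω} (hδ : 0 < δ) (h0 : h 0 = 1)
    (hom : ∀ m, IsHom (δ * m) (h m))
    (hh : ∀ m a b, ip (a * b) (h m) = ∑ x ∈ antidiagonal m, ip a (h x.1) * ip b (h x.2)) :
    GrpLike δ h :=
  ⟨hδ, h0, hom, fun m => de_of_ip_mul (hh m)⟩

variable [Laws F]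

theorem adj_one_left (a : H ω) : adj 1 a = a :=
  ext_ip fun y => by rw [← ip_mul_adj, one_mul]

theorem adj_mul_left (c d a : H ω) : adj (c * d) a = adj d (adj c a) :=
  ext_ip fun y => by rw [← ip_mul_adj, ← ip_mul_adj, ← ip_mul_adj, mul_assoc]

/-- Mackey formula for the adjoints -/
theorem adj_mul_of_ip_mul {ι : Type*} {s : Finset ι} {c : H ω} {c' c'' : ι → H ω}
    (h : ∀ a b : H ω, ip (a * b) c = ∑ t ∈ s, ip a (c' t) * ip b (c'' t)) (a b : H ω) :
    adj c (a * b) = ∑ t ∈ s, adj (c' t) a * adj (c'' t) b := by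
  let e := s.equivFin.symm
  have h1 : ∀ {M : Type u} [AddCommMonoid M] (f : ι → M), ∑ t ∈ s, f t = ∑ k, f (e k) :=
    fun f => by rw [← sum_coe_sort, ← e.sum_comp]
  have h2 : ∀ (f : ι → ℂ), ∑ t ∈ s, f t = ∑ k, f (e k) :=
    fun f => by rw [← sum_coe_sort, ← e.sum_comp]
  refine ext_ip fun x => ?_
  rw [← ip_mul_adj, h1]
  exact Laws.mackey ω (Fin #s) univ c (fun k => c' (e k)) (fun k => c'' (e k))
    (fun i j g₁ g₂ => by rw [de_of_ip_mul h, h2]) a b x _ _
    (fun t _ y => ip_mul_adj _ _ _) (fun t _ y => ip_mul_adj _ _ _)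

/-- the adjoint of a primitive element is a derivation -/
theorem Prim.adj_mul {c : H ω} (hc : Prim c) (a b : H ω) :
    adj c (a * b) = adj c a * b + a * adj c b := by
  have := adj_mul_of_ip_mul (s := univ) (c := c) (c' := ![c, 1]) (c'' := ![1, c])
    (fun a b => by simpa using hc.ip_mul a b) a b
  simpa [adj_one_left] using this

/-- coproducts multiply -/
theorem ip_mul_mul {ι κ : Type*} {s : Finset ι} {t : Finset κ} {c d : H ω} {c' c'' : ι → H ω}
    {d' d'' : κ → H ω}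
    (hc : ∀ a b : H ω, ip (a * b) c = ∑ i ∈ s, ip a (c' i) * ip b (c'' i))
    (hd : ∀ a b : H ω, ip (a * b) d = ∑ i ∈ t, ip a (d' i) * ip b (d'' i)) (a b : H ω) :
    ip (a * b) (c * d) = ∑ i ∈ s, ∑ j ∈ t, ip a (c' i * d' j) * ip b (c'' i * d'' j) := by
  rw [ip_adj_mul, adj_mul_of_ip_mul hc, ip_sum_left]
  simp only [hd, ip_adj_mul]

/-- the counit -/
noncomputable def eps0 : H ω →ₐ[ℂ] ℂ :=
  AlgHom.ofLinearMap (ipL 1) (by rw [ipL_apply, ip_one_one])
    fun a b => by simp only [ipL_apply, ip_mul_one]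

theorem eps0_apply (a : H ω) : eps0 a = ip a 1 := ipL_apply _ _

theorem newton {A : Type*} [CommRing A] {h : ℕ → A} (h0 : h 0 = 1) (n : ℕ) :
    (n : A) * h n = ∑ x ∈ antidiagonal n, lg h x.1 * h x.2 := by
  rcases n with _ | n
  · simp [lg_zero]
  rw [Nat.sum_antidiagonal_eq_sum_range_succ (fun i j => lg h i * h j), sum_range_succ,
    sum_range_succ', lg_zero, Nat.sub_self, h0, lg_succ]
  simp

theorem GrpLike.isHom_lg {δ : ℕ} {h : ℕ → H ω} (hh : GrpLike δ h) (m : ℕ) :
    IsHom (δ * m) (lg h m) := by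
  induction m using Nat.strong_induction_on with
  | _ m ih =>
    rcases m with _ | m
    · rw [lg_zero]; exact fun _ _ => rfl
    intro x hx
    rw [lg_succ, ← nsmul_eq_mul, ← Nat.cast_smul_eq_nsmul ℂ, H.sub_apply, H.smul_apply,
      hh.hom _ x hx, H.sum_apply, sum_eq_zero, mul_zero, sub_zero]
    intro k hk
    have hk := mem_range.1 hk
    refine IsHom.mul (ih (k + 1) (by omega)) (hh.hom _) x ?_
    rwa [← mul_add, show k + 1 + (m - k) = m + 1 by omega]

theorem GrpLike.lg_ip_one {δ : ℕ} {h : ℕ → H ω} (hh : GrpLike δ h) (m : ℕ) :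
    ip (lg h m) 1 = 0 := by
  rcases m with _ | m
  · rw [lg_zero, ip_zero_left]
  · exact IsHom.ip_eq_zero (hh.isHom_lg _) isHom_one (Nat.mul_pos hh.pos m.succ_pos).ne'

theorem GrpLike.ip_one {δ : ℕ} {h : ℕ → H ω} (hh : GrpLike δ h) {m : ℕ} (hm : m ≠ 0) :
    ip (h m) 1 = 0 :=
  IsHom.ip_eq_zero (hh.hom _) isHom_one (Nat.mul_pos hh.pos (Nat.pos_of_ne_zero hm)).ne'

theorem ip_natCast_mul (n : ℕ) (a b : H ω) : ip a (n * b) = n * ip a b := by
  rw [← nsmul_eq_mul, ← Nat.cast_smul_eq_nsmul ℂ, ip_smul_right, map_natCast]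

theorem ip_natCast_mul_left (n : ℕ) (a b : H ω) : ip ((n : H ω) * a) b = n * ip a b := by
  rw [← nsmul_eq_mul, ← Nat.cast_smul_eq_nsmul ℂ, ip_smul_left]

theorem GrpLike.prim_lg {δ : ℕ} {h : ℕ → H ω} (hh : GrpLike δ h) (m : ℕ) : Prim (lg h m) := by
  induction m using Nat.strong_induction_on with
  | _ m ih =>
    refine prim_of_ip_mul (hh.lg_ip_one m) fun a b => ?_
    -- `T k n`: the expected value of `ip (a * b) (lg h k * h n)`
    let T : ℕ → ℕ → ℂ := fun k n => ∑ x ∈ antidiagonal n,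
      (ip a (lg h k * h x.1) * ip b (h x.2) + ip a (h x.1) * ip b (lg h k * h x.2))
    have h1 : ∀ k < m, ∀ n, ip (a * b) (lg h k * h n) = T k n := by
      intro k hk n
      rw [ip_mul_mul (s := univ) (c' := ![lg h k, 1]) (c'' := ![1, lg h k])
        (fun a b => by simpa using (ih k hk).ip_mul a b) (hh.ip_mul n)]
      simp [T, sum_add_distrib]
    have h2 : ∑ x ∈ antidiagonal m, ip (a * b) (lg h x.1 * h x.2) =
        ∑ x ∈ antidiagonal m, T x.1 x.2 := by
      rw [← ip_sum_right, ← newton hh.zero, ip_natCast_mul, hh.ip_mul, mul_sum]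
      simp only [T, sum_add_distrib]
      have e1 : ∑ x ∈ antidiagonal m, ∑ y ∈ antidiagonal x.2,
          ip a (lg h x.1 * h y.1) * ip b (h y.2) =
          ∑ x ∈ antidiagonal m, x.1 * ip a (h x.1) * ip b (h x.2) := by
        simp only [← ip_natCast_mul, newton hh.zero, ip_sum_right, sum_mul]
        rw [sum_sigma', sum_sigma']
        refine sum_nbij' (fun z => ⟨(z.1.1 + z.2.1, z.2.2), (z.1.1, z.2.1)⟩)
          (fun z => ⟨(z.2.1, z.2.2 + z.1.2), (z.2.2, z.1.2)⟩) ?_ ?_ ?_ ?_ ?_ <;>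
        · rintro ⟨⟨i, j⟩, ⟨k, l⟩⟩ hz
          simp only [mem_sigma, HasAntidiagonal.mem_antidiagonal, and_true] at hz ⊢
          all_goals first
          | omega
          | (obtain ⟨_, rfl⟩ := hz; rfl)
      have e2 : ∑ x ∈ antidiagonal m, ∑ y ∈ antidiagonal x.2,
          ip a (h y.1) * ip b (lg h x.1 * h y.2) =
          ∑ x ∈ antidiagonal m, ip a (h x.1) * (x.2 * ip b (h x.2)) := by
        simp only [← ip_natCast_mul, newton hh.zero, ip_sum_right, mul_sum]
        rw [sum_sigma', sum_sigma']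
        refine sum_nbij' (fun z => ⟨(z.2.1, z.1.1 + z.2.2), (z.1.1, z.2.2)⟩)
          (fun z => ⟨(z.2.1, z.1.1 + z.2.2), (z.1.1, z.2.2)⟩) ?_ ?_ ?_ ?_ ?_ <;>
        · rintro ⟨⟨i, j⟩, ⟨k, l⟩⟩ hz
          simp only [mem_sigma, HasAntidiagonal.mem_antidiagonal, and_true] at hz ⊢
          all_goals first
          | omega
          | (obtain ⟨_, rfl⟩ := hz; rfl)
      rw [e1, e2, ← sum_add_distrib]
      refine sum_congr rfl fun x hx => ?_
      rw [← HasAntidiagonal.mem_antidiagonal.1 hx]; push_cast; ring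
    rw [← add_sum_erase _ _ (HasAntidiagonal.mem_antidiagonal.2 (add_zero m) : (m, 0) ∈ _),
      ← add_sum_erase _ _ (HasAntidiagonal.mem_antidiagonal.2 (add_zero m) : (m, 0) ∈ _),
      sum_congr rfl fun x hx => h1 x.1 (by
        have h3 := mem_erase.1 hx
        have h4 := HasAntidiagonal.mem_antidiagonal.1 h3.2
        by_contra h5
        exact h3.1 (Prod.ext (by simp only; omega) (by simp only; omega))) x.2] at h2
    simpa [T, hh.zero] using add_right_cancel h2

theorem GrpLike.ip_mul_hom {δ : ℕ} {h : ℕ → H ω} (hh : GrpLike δ h) {i j : ℕ} {a b : H ω}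
    (ha : IsHom (δ * i) a) (hb : IsHom (δ * j) b) :
    ip (a * b) (h (i + j)) = ip a (h i) * ip b (h j) := by
  rw [hh.ip_mul, sum_eq_single (i, j)]
  · intro x hx hne
    have h4 := HasAntidiagonal.mem_antidiagonal.1 hx
    rw [IsHom.ip_eq_zero ha (hh.hom _) fun h5 => hne ?_, zero_mul]
    have := Nat.eq_of_mul_eq_mul_left hh.pos h5
    exact Prod.ext this.symm (by simp only; omega)
  · simp

/-- generating function of `ip (h m) (h' m)` -/
theorem GrpLike.ex_ip_lg' {δ : ℕ} {h h' : ℕ → H ω} (hh : GrpLike δ h) (hh' : GrpLike δ h')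
    (m : ℕ) : ex (fun m => ip (lg h m) (h' m)) m = ip (h m) (h' m) := by
  induction m using Nat.strong_induction_on with
  | _ m ih =>
    rcases m with _ | m
    · rw [ex_zero, hh.zero, hh'.zero, ip_one_one]
    have h1 : ((m + 1 : ℕ) : ℂ) ≠ 0 := Nat.cast_ne_zero.2 m.succ_ne_zero
    have h2 := congrArg (ip · (h' (m + 1))) (newton hh.zero (m + 1))
    simp only [ip_sum_left] at h2
    rw [ip_natCast_mul_left, Nat.sum_antidiagonal_succ, lg_zero, zero_mul, ip_zero_left, zero_add,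
      Nat.sum_antidiagonal_eq_sum_range_succ (fun i j => ip (lg h (i + 1) * h j) (h' (m + 1)))]
      at h2
    rw [ex_succ, smul_eq_mul, ← Nat.cast_succ, inv_mul_eq_iff_eq_mul₀ h1]
    refine Eq.trans ?_ h2.symm
    refine sum_congr rfl fun k hk => ?_
    have hk := mem_range.1 hk
    rw [ih _ (by omega), ← hh'.ip_mul_hom (hh.isHom_lg _) (hh.hom _)]
    congr 2; omega

theorem GrpLike.ex_ip_lg {δ : ℕ} {h : ℕ → H ω} (hh : GrpLike δ h) (m : ℕ) :
    ex (fun m => ip (lg h m) (h m)) m = ip (h m) (h m) := hh.ex_ip_lg' hh m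

theorem Prim.ip_lg {c : H ω} (hc : Prim c) {δ : ℕ} {h : ℕ → H ω} (hh : GrpLike δ h) (m : ℕ) :
    ip c (lg h m) = m * ip c (h m) := by
  rcases m with _ | m
  · simp [lg_zero, ip_zero_right]
  rw [← ip_natCast_mul, lg_succ, eq_comm, ← sub_eq_zero, ← neg_eq_zero, neg_sub]
  have : ∀ x y z : H ω, ip x (y - z) - ip x y = - ip x z := fun x y z => by
    have := ip_add_right x (y - z) z
    rw [sub_add_cancel] at this
    rw [this]; ring
  rw [this, ip_sum_right, neg_eq_zero]
  refine sum_eq_zero fun k hk => ?_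
  have hk := mem_range.1 hk
  rw [ip_cj, hc.ip_mul_eq_zero (hh.lg_ip_one _) (hh.ip_one (by omega)), map_zero]

theorem GrpLike.ip_lg_lg {δ δ' : ℕ} {h h' : ℕ → H ω} (hh : GrpLike δ h) (hh' : GrpLike δ' h')
    (m m' : ℕ) : ip (lg h m) (lg h' m') = m' * ip (lg h m) (h' m') :=
  (hh.prim_lg m).ip_lg hh' m'

/-- `ex` of a homogeneous primitive sequence is group-like -/
theorem grpLike_ex {δ : ℕ} (hδ : 0 < δ) {p : ℕ → H ω} (hp : ∀ k, 0 < k → Prim (p k))
    (hom : ∀ k, 0 < k → IsHom (δ * k) (p k)) : GrpLike δ (ex p) := by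
  have nw : ∀ n : ℕ, ((n + 1 : ℕ) : ℂ) • ex p (n + 1) =
      ∑ x ∈ antidiagonal n, p (x.1 + 1) * ex p x.2 := fun n => by
    rw [ex_succ, smul_smul, Nat.cast_succ, mul_inv_cancel₀ (Nat.cast_add_one_ne_zero n), one_smul,
      Nat.sum_antidiagonal_eq_sum_range_succ (fun i j => p (i + 1) * ex p j)]
  have nw' : ∀ (a : H ω) (n : ℕ), ((n + 1 : ℕ) : ℂ) * ip a (ex p (n + 1)) =
      ∑ x ∈ antidiagonal n, ip a (p (x.1 + 1) * ex p x.2) := fun a n => by
    rw [← ip_sum_right, ← nw, ip_smul_right, map_natCast]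
  refine grpLike_of_ip_mul hδ (ex_zero p) (fun m => ?_) fun m => ?_
  · induction m using Nat.strong_induction_on with
    | _ m ih =>
      rcases m with _ | m
      · rw [ex_zero]; exact isHom_one
      rw [ex_succ]
      refine (IsHom.sum fun k hk => ?_).smul _
      have hk := mem_range.1 hk
      have := (hom (k + 1) k.succ_pos).mul (ih (m - k) (by omega))
      rwa [← mul_add, show k + 1 + (m - k) = m + 1 by omega] at this
  · induction m using Nat.strong_induction_on with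
    | _ m ih =>
      intro a b
      rcases m with _ | m
      · simp [ex_zero, ip_mul_one]
      refine mul_left_cancel₀ (Nat.cast_ne_zero.2 m.succ_ne_zero : ((m + 1 : ℕ) : ℂ) ≠ 0) ?_
      have h1 : ∀ x ∈ antidiagonal m, ip (a * b) (p (x.1 + 1) * ex p x.2) =
          ∑ y ∈ antidiagonal x.2, ip a (p (x.1 + 1) * ex p y.1) * ip b (ex p y.2) +
          ∑ y ∈ antidiagonal x.2, ip a (ex p y.1) * ip b (p (x.1 + 1) * ex p y.2) := by
        intro x hx
        have := HasAntidiagonal.mem_antidiagonal.1 hx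
        rw [ip_mul_mul (s := univ) (c' := ![p (x.1 + 1), 1]) (c'' := ![1, p (x.1 + 1)])
          (fun a b => by simpa using (hp _ x.1.succ_pos).ip_mul a b) (ih x.2 (by omega))]
        simp
      have e1 : ∑ x ∈ antidiagonal m, ∑ y ∈ antidiagonal x.2,
          ip a (p (x.1 + 1) * ex p y.1) * ip b (ex p y.2) =
          ∑ x ∈ antidiagonal (m + 1), x.1 * ip a (ex p x.1) * ip b (ex p x.2) := by
        rw [Nat.sum_antidiagonal_succ]
        simp only [nw', sum_mul, Nat.cast_zero, zero_mul, zero_add]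
        rw [sum_sigma', sum_sigma']
        refine sum_nbij' (fun z => ⟨(z.1.1 + z.2.1, z.2.2), (z.1.1, z.2.1)⟩)
          (fun z => ⟨(z.2.1, z.2.2 + z.1.2), (z.2.2, z.1.2)⟩) ?_ ?_ ?_ ?_ ?_ <;>
        · rintro ⟨⟨i, j⟩, ⟨k, l⟩⟩ hz
          simp only [mem_sigma, HasAntidiagonal.mem_antidiagonal, and_true] at hz ⊢
          all_goals first
          | omega
          | (obtain ⟨_, rfl⟩ := hz; rfl)
      have e2 : ∑ x ∈ antidiagonal m, ∑ y ∈ antidiagonal x.2,
          ip a (ex p y.1) * ip b (p (x.1 + 1) * ex p y.2) =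
          ∑ x ∈ antidiagonal (m + 1), ip a (ex p x.1) * (x.2 * ip b (ex p x.2)) := by
        rw [Nat.sum_antidiagonal_succ']
        simp only [nw', mul_sum, Nat.cast_zero, zero_mul, mul_zero, zero_add]
        rw [sum_sigma', sum_sigma']
        refine sum_nbij' (fun z => ⟨(z.2.1, z.1.1 + z.2.2), (z.1.1, z.2.2)⟩)
          (fun z => ⟨(z.2.1, z.1.1 + z.2.2), (z.1.1, z.2.2)⟩) ?_ ?_ ?_ ?_ ?_ <;>
        · rintro ⟨⟨i, j⟩, ⟨k, l⟩⟩ hz
          simp only [mem_sigma, HasAntidiagonal.mem_antidiagonal, and_true] at hz ⊢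
          all_goals first
          | omega
          | (obtain ⟨_, rfl⟩ := hz; rfl)
      rw [nw', sum_congr rfl h1, sum_add_distrib, e1, e2, ← sum_add_distrib, mul_sum]
      refine sum_congr rfl fun x hx => ?_
      rw [← HasAntidiagonal.mem_antidiagonal.1 hx]; push_cast; ring

/-! ### Polynomials in primitive elements -/

section Poly

open MvPolynomial

variable {J : Type*}

theorem Prim.adj_aeval {c : H ω} (hc : Prim c) {a : J → H ω} (ha : ∀ j, Prim (a j))
    (g : MvPolynomial J ℂ) :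
    adj c (aeval a g) = aeval a (mkDerivation ℂ (fun j => C (ip (a j) c)) g) := by
  induction g using MvPolynomial.induction_on with
  | C z => rw [aeval_C, Algebra.algebraMap_eq_smul_one, map_smul, hc.adj_one, smul_zero,
      derivation_C, map_zero]
  | add f g hf hg => simp only [map_add, hf, hg]
  | mul_X f j hf =>
    rw [map_mul, hc.adj_mul, hf, Derivation.leibniz, mkDerivation_X, aeval_X, hc.adj_prim (ha j)]
    simp only [smul_eq_mul, map_add, map_mul, aeval_X, aeval_C, Algebra.algebraMap_eq_smul_one]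
    ring

theorem ip_aeval_one {a : J → H ω} (ha : ∀ j, Prim (a j)) (g : MvPolynomial J ℂ) :
    ip (aeval a g) 1 = constantCoeff g := by
  rw [← eps0_apply, ← AlgHom.comp_apply, comp_aeval]
  simp only [eps0_apply, (ha _).ip_one]
  exact aeval_zero' g

/-- PERM: the form on polynomials in primitive elements only depends on the Gram matrix -/
theorem ip_aeval_eq {ω' : Fˣ →* ℂˣ} {a : J → H ω} {b : J → H ω'} (ha : ∀ j, Prim (a j))
    (hb : ∀ j, Prim (b j)) (h : ∀ i j, ip (a i) (a j) = ip (b i) (b j))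
    (f g : MvPolynomial J ℂ) : ip (aeval a f) (aeval a g) = ip (aeval b f) (aeval b g) := by
  induction f using MvPolynomial.induction_on generalizing g with
  | C z =>
    simp only [aeval_C, Algebra.algebraMap_eq_smul_one, ip_smul_left]
    rw [ip_cj, ip_cj (aeval b g), ip_aeval_one ha, ip_aeval_one hb]
  | add f f' hf hf' => simp only [map_add, ip_add_left, hf, hf']
  | mul_X f j hf =>
    simp only [map_mul, aeval_X]
    rw [mul_comm _ (a j), mul_comm _ (b j), ip_mul_adj, ip_mul_adj, (ha j).adj_aeval ha,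
      (hb j).adj_aeval hb, hf]
    simp only [h]

theorem Prim.adj_mem_adjoin {c : H ω} (hc : Prim c) {s : Set (H ω)} (hs : ∀ x ∈ s, Prim x)
    {y : H ω} (hy : y ∈ Algebra.adjoin ℂ s) : adj c y ∈ Algebra.adjoin ℂ s := by
  induction hy using Algebra.adjoin_induction with
  | mem x hx => rw [hc.adj_prim (hs x hx)]; exact Subalgebra.smul_mem _ (one_mem _) _
  | algebraMap z => rw [Algebra.algebraMap_eq_smul_one, map_smul, hc.adj_one, smul_zero]
                    exact zero_mem _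
  | add x y _ _ hx hy => rw [map_add]; exact add_mem hx hy
  | mul x y hx hy hx' hy' => rw [hc.adj_mul]; exact add_mem (mul_mem hx' hy) (mul_mem hx hy')

theorem Prim.adj_eq_zero {c : H ω} (hc : Prim c) {s : Set (H ω)} (hs : ∀ x ∈ s, Prim x)
    (h : ∀ x ∈ s, ip x c = 0) {y : H ω} (hy : y ∈ Algebra.adjoin ℂ s) : adj c y = 0 := by
  induction hy using Algebra.adjoin_induction with
  | mem x hx => rw [hc.adj_prim (hs x hx), h x hx, zero_smul]
  | algebraMap z => rw [Algebra.algebraMap_eq_smul_one, map_smul, hc.adj_one, smul_zero]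
  | add x y _ _ hx hy => rw [map_add, hx, hy, add_zero]
  | mul x y _ _ hx hy => rw [hc.adj_mul, hx, hy, zero_mul, mul_zero, add_zero]

theorem adjoin_induction_left {A : Type*} [CommRing A] [Algebra ℂ A] {s : Set A} {P : A → Prop}
    (h1 : ∀ z : ℂ, P (z • 1)) (h2 : ∀ x y, P x → P y → P (x + y))
    (h3 : ∀ x ∈ s, ∀ y ∈ Algebra.adjoin ℂ s, P y → P (x * y)) {y : A}
    (hy : y ∈ Algebra.adjoin ℂ s) : P y := by
  rw [← Subtype.range_coe (s := s), Algebra.adjoin_range_eq_range_aeval] at hy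
  obtain ⟨f, rfl⟩ := hy
  induction f using MvPolynomial.induction_on with
  | C z => simpa [Algebra.algebraMap_eq_smul_one] using h1 z
  | add f g hf hg => simpa using h2 _ _ hf hg
  | mul_X f j hf =>
    have : aeval (Subtype.val : s → A) f ∈ Algebra.adjoin ℂ s := by
      have h4 := Algebra.adjoin_range_eq_range_aeval ℂ (Subtype.val : s → A)
      rw [Subtype.range_coe] at h4
      rw [h4]; exact ⟨f, rfl⟩
    simpa [mul_comm] using h3 _ j.2 _ this hf

/-- FACT: factorisation of the form for mutually orthogonal sets of primitive elements -/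
theorem ip_mul_mul_adjoin {s t : Set (H ω)} (hs : ∀ x ∈ s, Prim x) (ht : ∀ x ∈ t, Prim x)
    (h : ∀ x ∈ s, ∀ y ∈ t, ip x y = 0) {f₁ g₁ f₂ g₂ : H ω} (hf₁ : f₁ ∈ Algebra.adjoin ℂ s)
    (hg₁ : g₁ ∈ Algebra.adjoin ℂ s) (hf₂ : f₂ ∈ Algebra.adjoin ℂ t)
    (hg₂ : g₂ ∈ Algebra.adjoin ℂ t) : ip (f₁ * f₂) (g₁ * g₂) = ip f₁ g₁ * ip f₂ g₂ := by
  have h' : ∀ x ∈ s, ∀ y ∈ t, ip y x = 0 := fun x hx y hy => by rw [ip_cj, h x hx y hy, map_zero]
  revert g₁
  refine adjoin_induction_left (P := fun f₁ => ∀ {g₁}, g₁ ∈ Algebra.adjoin ℂ s →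
    ip (f₁ * f₂) (g₁ * g₂) = ip f₁ g₁ * ip f₂ g₂) (fun z g₁ hg₁ => ?_)
    (fun x y hx hy g₁ hg₁ => ?_) (fun x hx y _ hy g₁ hg₁ => ?_) hf₁
  · rw [smul_mul_assoc, one_mul, ip_smul_left, ip_smul_left, mul_assoc]
    congr 1
    refine adjoin_induction_left (P := fun g₁ => ip f₂ (g₁ * g₂) = ip 1 g₁ * ip f₂ g₂)
      (fun w => ?_) (fun x y hx hy => ?_) (fun x hx y _ _ => ?_) hg₁
    · rw [smul_mul_assoc, one_mul, ip_smul_right, ip_smul_right, ip_one_one, mul_one]
    · rw [add_mul, ip_add_right, ip_add_right, hx, hy, add_mul]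
    · rw [mul_assoc, ip_adj_mul x, ip_adj_mul x, (hs x hx).adj_eq_zero ht (h' x hx) hf₂,
        (hs x hx).adj_one, ip_zero_left, ip_zero_left, zero_mul]
  · rw [add_mul, ip_add_left, ip_add_left, hx hg₁, hy hg₁, add_mul]
  · rw [mul_assoc, ip_mul_adj x, ip_mul_adj x, (hs x hx).adj_mul,
      (hs x hx).adj_eq_zero ht (h' x hx) hg₂, mul_zero, add_zero,
      hy ((hs x hx).adj_mem_adjoin hs hg₁)]

/-- FACT for finitely many mutually orthogonal sets -/
theorem ip_prod_prod_adjoin {ι : Type*} (s : ι → Set (H ω)) (hs : ∀ i, ∀ x ∈ s i, Prim x)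
    (h : ∀ i j, i ≠ j → ∀ x ∈ s i, ∀ y ∈ s j, ip x y = 0) (T : Finset ι) {f g : ι → H ω}
    (hf : ∀ i ∈ T, f i ∈ Algebra.adjoin ℂ (s i)) (hg : ∀ i ∈ T, g i ∈ Algebra.adjoin ℂ (s i)) :
    ip (∏ i ∈ T, f i) (∏ i ∈ T, g i) = ∏ i ∈ T, ip (f i) (g i) := by
  classical
  induction T using Finset.induction_on with
  | empty => simpa using ip_one_one
  | insert i T hi ih =>
    have key : ∀ {f : ι → H ω}, (∀ j ∈ insert i T, f j ∈ Algebra.adjoin ℂ (s j)) →
        ∏ j ∈ T, f j ∈ Algebra.adjoin ℂ (⋃ j ∈ T, s j) := fun hf =>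
      Subalgebra.prod_mem _ fun j hj => Algebra.adjoin_mono
        (Set.subset_biUnion_of_mem (u := s) (mem_coe.2 hj)) (hf j (mem_insert_of_mem hj))
    rw [prod_insert hi, prod_insert hi, prod_insert hi,
      ← ih (fun j hj => hf j (mem_insert_of_mem hj)) fun j hj => hg j (mem_insert_of_mem hj)]
    refine ip_mul_mul_adjoin (hs i) (t := ⋃ j ∈ T, s j) ?_ ?_ (hf i (mem_insert_self _ _))
      (hg i (mem_insert_self _ _)) (key hf) (key hg)
    · intro x hx
      obtain ⟨j, -, hx⟩ := Set.mem_iUnion₂.1 hx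
      exact hs j x hx
    · intro x hx y hy
      obtain ⟨j, hj, hy⟩ := Set.mem_iUnion₂.1 hy
      exact h i j (by rintro rfl; exact hi hj) x hx y hy

end Poly

/-! ### Monomials in orthogonal primitive elements -/

section Orth

variable {J : Type*} [DecidableEq J] {a : J → H ω}

theorem Prim.adj_multiset {c : H ω} (hc : Prim c) (σ : Multiset J) (ha : ∀ j ∈ σ, Prim (a j))
    (j : J) (h : ∀ i ∈ σ, i ≠ j → ip (a i) c = 0) :
    adj c (σ.map a).prod = (σ.count j * ip (a j) c) • ((σ.erase j).map a).prod := by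
  induction σ using Multiset.induction_on with
  | empty => simp [hc.adj_one]
  | cons i σ ih =>
    rw [Multiset.map_cons, Multiset.prod_cons, hc.adj_mul, hc.adj_prim (ha i (by simp)),
      ih (fun k hk => ha k (by simp [hk])) fun k hk => h k (by simp [hk])]
    by_cases hij : i = j
    · subst hij
      rw [Multiset.count_cons_self, Multiset.erase_cons_head]
      by_cases hi : i ∈ σ
      · conv_rhs => rw [← Multiset.cons_erase hi, Multiset.map_cons, Multiset.prod_cons]
        conv_lhs => congr; rw [← Multiset.cons_erase hi, Multiset.map_cons, Multiset.prod_cons]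
        rw [Multiset.cons_erase hi, smul_mul_assoc, one_mul, mul_smul_comm, ← add_smul]
        congr 1; push_cast; ring
      · simp [Multiset.count_eq_zero_of_notMem hi]
    · rw [h i (by simp) hij, Multiset.count_cons_of_ne (Ne.symm hij),
        Multiset.erase_cons_tail _ hij]
      simp

/-- the norm of a monomial -/
noncomputable def mnorm (w : J → ℂ) (ρ : Multiset J) : ℂ :=
  ∏ j ∈ ρ.toFinset, ((ρ.count j).factorial : ℂ) * w j ^ ρ.count j

theorem mnorm_cons (w : J → ℂ) (j : J) (ρ : Multiset J) :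
    mnorm w (j ::ₘ ρ) = (ρ.count j + 1) * w j * mnorm w ρ := by
  have h : ∀ σ : Multiset J, σ.toFinset ⊆ insert j ρ.toFinset → mnorm w σ =
      ∏ i ∈ insert j ρ.toFinset, ((σ.count i).factorial : ℂ) * w i ^ σ.count i := fun σ hσ =>
    prod_subset hσ fun i _ hi => by
      simp [Multiset.count_eq_zero_of_notMem (mt Multiset.mem_toFinset.2 hi)]
  rw [h _ (by simp), h ρ (subset_insert _ _), ← mul_prod_erase _ _ (mem_insert_self j _),
    ← mul_prod_erase _ _ (mem_insert_self j _), Multiset.count_cons_self, Nat.factorial_succ,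
    prod_congr rfl fun i hi => by rw [Multiset.count_cons_of_ne (ne_of_mem_erase hi)]]
  push_cast; ring

theorem mnorm_ne_zero {w : J → ℂ} {ρ : Multiset J} (h : ∀ j ∈ ρ, w j ≠ 0) : mnorm w ρ ≠ 0 :=
  prod_ne_zero_iff.2 fun j hj => mul_ne_zero (Nat.cast_ne_zero.2 (Nat.factorial_ne_zero _))
    (pow_ne_zero _ (h j (Multiset.mem_toFinset.1 hj)))

/-- ORTH -/
theorem ip_multiset {s : Set J} (ha : ∀ j ∈ s, Prim (a j))
    (h : ∀ i ∈ s, ∀ j ∈ s, i ≠ j → ip (a i) (a j) = 0) {ρ σ : Multiset J} (hρ : ∀ j ∈ ρ, j ∈ s)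
    (hσ : ∀ j ∈ σ, j ∈ s) : ip (ρ.map a).prod (σ.map a).prod =
      if ρ = σ then mnorm (fun j => ip (a j) (a j)) ρ else 0 := by
  induction ρ using Multiset.induction_on generalizing σ with
  | empty =>
    induction σ using Multiset.induction_on with
    | empty => simpa [mnorm] using ip_one_one
    | cons j σ _ =>
      rw [Multiset.map_cons, Multiset.prod_cons, Multiset.map_zero, Multiset.prod_zero, ip_adj_mul,
        (ha j (hσ j (by simp))).adj_one, ip_zero_left, if_neg (by simp)]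
  | cons j ρ ih =>
    have hj := hρ j (by simp)
    rw [Multiset.map_cons, Multiset.prod_cons, ip_mul_adj,
      (ha j hj).adj_multiset σ (fun i hi => ha i (hσ i hi)) j
        (fun i hi hij => h i (hσ i hi) j hj hij), ip_smul_right,
      ih (fun i hi => hρ i (by simp [hi])) fun i hi => hσ i (Multiset.mem_of_mem_erase hi),
      map_mul, ip_conj, map_natCast]
    by_cases hjσ : j ∈ σ
    · obtain ⟨τ, rfl⟩ := Multiset.exists_cons_of_mem hjσ
      simp only [Multiset.erase_cons_head, Multiset.cons_inj_right, mnorm_cons,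
        Multiset.count_cons_self]
      split_ifs with h1
      · subst h1; push_cast; ring
      · exact mul_zero _
    · rw [Multiset.count_eq_zero_of_notMem hjσ, if_neg (c := j ::ₘ ρ = σ)
        (by rintro rfl; simp at hjσ)]
      simp

/-- monomials in non-zero orthogonal primitive elements are linearly independent -/
theorem linearIndependent_multiset {s : Set J} (ha : ∀ j ∈ s, Prim (a j))
    (h0 : ∀ j ∈ s, a j ≠ 0) (h : ∀ i ∈ s, ∀ j ∈ s, i ≠ j → ip (a i) (a j) = 0) :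
    LinearIndependent ℂ fun ρ : {ρ : Multiset J // ∀ j ∈ ρ, j ∈ s} => (ρ.1.map a).prod := by
  classical
  rw [linearIndependent_iff']
  intro T g hg ρ hρ
  have := congrArg (ip · (ρ.1.map a).prod) hg
  simp only [ip_sum_left, ip_smul_left, ip_zero_left] at this
  rw [sum_eq_single ρ (fun σ _ hσ => by
    rw [ip_multiset ha h σ.2 ρ.2, if_neg (fun e => hσ (Subtype.ext e)), mul_zero])
    (fun h => (h hρ).elim), ip_multiset ha h ρ.2 ρ.2, if_pos rfl] at this
  exact (mul_eq_zero.1 this).resolve_right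
    (mnorm_ne_zero fun j hj e => h0 j (ρ.2 j hj) (eq_zero_of_ip_self e))

theorem mnorm_mul_eq (w : ℕ → ℂ) (ρ : Multiset ℕ) :
    mnorm (fun k => k * w k) ρ = SymCh.zz ρ * (ρ.map w).prod := by
  induction ρ using Multiset.induction_on with
  | empty => simp [mnorm]
  | cons j ρ ih => rw [mnorm_cons, ih, SymCh.zz_cons, Multiset.map_cons, Multiset.prod_cons]
                   push_cast; ring

/-- power sum monomials -/
theorem ip_pm {p : ℕ → H ω} (hp : ∀ k, 0 < k → Prim (p k)) {w : ℕ → ℂ}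
    (h : ∀ k l, 0 < k → 0 < l → ip (p k) (p l) = if k = l then k * w k else 0)
    {ρ σ : Multiset ℕ} (hρ : ∀ k ∈ ρ, 0 < k) (hσ : ∀ k ∈ σ, 0 < k) :
    ip (pm p ρ) (pm p σ) = if ρ = σ then SymCh.zz ρ * (ρ.map w).prod else 0 := by
  rw [pm, pm, ip_multiset (s := {k | 0 < k}) hp (fun k hk l hl hkl => by
    rw [h k l hk hl, if_neg hkl]) hρ hσ, ← mnorm_mul_eq]
  congr 1
  exact prod_congr rfl fun k hk => by
    simp only []
    rw [h k k (hρ k (Multiset.mem_toFinset.1 hk)) (hρ k (Multiset.mem_toFinset.1 hk)), if_pos rfl]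

/-- Schur functions -/
theorem ip_S {p : ℕ → H ω} (hp : ∀ k, 0 < k → Prim (p k)) {w : ℕ → ℂ}
    (h : ∀ k l, 0 < k → 0 < l → ip (p k) (p l) = if k = l then k * w k else 0)
    (N : ℕ) (X Y : Finset ℕ) : ip (S p N X) (S p N Y) = if sz N X = sz N Y then
      ∑ ρ ∈ SymCh.ptn (sz N X), ((SymCh.ph N X ρ * SymCh.ph N Y ρ / SymCh.zz ρ : ℚ) : ℂ) *
        (ρ.map w).prod else 0 := by
  simp only [S, ip_sum_left, ip_sum_right, ip_smul_left, ip_smul_right, map_ratCast]
  split_ifs with hs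
  · rw [← hs]
    refine sum_congr rfl fun ρ hρ => ?_
    have h0 := (SymCh.mem_ptn.1 hρ).2
    have hz : (SymCh.zz ρ : ℂ) ≠ 0 := Nat.cast_ne_zero.2 (SymCh.zz_pos h0).ne'
    rw [sum_eq_single ρ (fun σ hσ hne => by
      rw [ip_pm hp h (SymCh.mem_ptn.1 hσ).2 h0, if_neg hne, mul_zero]) (fun h => (h hρ).elim),
      ip_pm hp h h0 h0, if_pos rfl]
    push_cast; field_simp
  · refine sum_eq_zero fun ρ hρ => mul_eq_zero_of_right _ (sum_eq_zero fun σ hσ => ?_)
    rw [ip_pm hp h (SymCh.mem_ptn.1 hσ).2 (SymCh.mem_ptn.1 hρ).2, if_neg, mul_zero]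
    rintro rfl
    exact hs ((SymCh.mem_ptn.1 hσ).1.symm.trans (SymCh.mem_ptn.1 hρ).1)

/-- Schur functions are orthonormal -/
theorem ip_S_one {p : ℕ → H ω} (hp : ∀ k, 0 < k → Prim (p k))
    (h : ∀ k l, 0 < k → 0 < l → ip (p k) (p l) = if k = l then (k : ℂ) else 0)
    {N m m' : ℕ} {X Y : Finset ℕ} (hX : X ∈ SymCh.bs N m) (hY : Y ∈ SymCh.bs N m') :
    ip (S p N X) (S p N Y) = if X = Y then 1 else 0 := by
  have e : ∀ {m X}, X ∈ SymCh.bs N m → sz N X = m := fun h => by
    rw [sz, (SymCh.mem_bs.1 h).2, Nat.add_sub_cancel]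
  rw [ip_S (w := fun _ => 1) hp (by simpa using h), e hX, e hY]
  split_ifs with h1 h2 h2
  · subst h1 h2
    have := SymCh.sum_ph_mul_ph hX hX
    rw [if_pos rfl] at this
    simpa using congrArg (Rat.cast : ℚ → ℂ) this
  · subst h1
    have := SymCh.sum_ph_mul_ph hX hY
    rw [if_neg h2] at this
    simpa using congrArg (Rat.cast : ℚ → ℂ) this
  · subst h2; exact (h1 ((e hX).symm.trans (e hY))).elim
  · rfl

end Orth

end Cfsg.GLn
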