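import Cfsg.Agent.GLn.Defs2
import Cfsg.Agent.GLn.Sym
import Cfsg.Agent.GLn.Fock
import Cfsg.Agent.GLn.Ar

/-! Products of Schur functions and monomials in power sums (tools for `Bas` and `Core`). -/

set_option autoImplicit false
set_option linter.unusedSectionVars false

namespace Cfsg.GLn

open Finset SymCh

universe u

variable {F : Type u} [Field F] [Fintype F] [DecidableEq F] {ω : Fˣ →* ℂˣ} {N : ℕ}

section Gen

variable {A B : Type*} [CommRing A] [Algebra ℂ A] [CommRing B] [Algebra ℂ B]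

theorem sz_range_b (N : ℕ) : sz N (range N) = 0 := by simp [sz, tri]

theorem S_range_b (p : ℕ → A) : S p N (range N) = 1 := by
  have h := sum_ph_mul_ph (mem_bs_sz (card_range N)) (mem_bs_sz (card_range N))
  have h2 := pm_eq_sum_S p (m := 0) (N := N) (Nat.zero_le _) (ρ := 0) (by simp [mem_ptn])
  have h3 : ph N (range N) 0 = 1 := by
    have : lab N (range N) = del N := by
      funext i
      have := lab_image (N := N) (f := fun i => (i : ℕ)) (fun _ _ h => h) i
      rwa [show univ.image (fun i : Fin N => (i : ℕ)) = range N by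
        ext x; simp [Fin.exists_iff]] at this
    rw [ph, this, phi_zero, dd_self del_injective]
  rw [S, sz_range_b, GLn.ptn_zero]
  simp [h3]

theorem pm_congr {p q : ℕ → A} (h : ∀ k, 0 < k → p k = q k) {ρ : Multiset ℕ}
    (hρ : ∀ k ∈ ρ, 0 < k) : pm p ρ = pm q ρ :=
  congrArg _ (Multiset.map_congr rfl fun k hk => h k (hρ k hk))

theorem S_congr {p q : ℕ → A} (h : ∀ k, 0 < k → p k = q k) (X : Finset ℕ) :
    S p N X = S q N X :=
  sum_congr rfl fun _ hρ => by rw [pm_congr h (mem_ptn.1 hρ).2]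

theorem schur_congr {p q : I F → ℕ → A} (h : ∀ o k, 0 < k → p o k = q o k) (μ : MP F N) :
    schur p μ = schur q μ := prod_congr rfl fun o _ => S_congr (h o) _

theorem map_schur (f : A →ₐ[ℂ] B) (p : I F → ℕ → A) (μ : MP F N) :
    f (schur p μ) = schur (fun o k => f (p o k)) μ := by
  simp only [schur, Finsupp.prod, map_prod, map_S]

theorem map_pmon (f : A →ₐ[ℂ] B) (p : I F → ℕ → A) (τ : Multiset (I F × ℕ)) :
    f (pmon p τ) = pmon (fun o k => f (p o k)) τ := by
  simp only [pmon, map_multiset_prod, Multiset.map_map, Function.comp_def]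

omit [Algebra ℂ A] in
theorem pmon_add (p : I F → ℕ → A) (τ σ : Multiset (I F × ℕ)) :
    pmon p (τ + σ) = pmon p τ * pmon p σ := by simp [pmon]

theorem schur_eq_prod_b (p : I F → ℕ → A) (μ : MP F N) {T : Finset (I F)} (h : μ.support ⊆ T) :
    schur p μ = ∏ o ∈ T, S (p o) N (μ o).1 :=
  Finsupp.prod_of_support_subset _ h _ fun _ _ => S_range_b _

theorem deg_eq_sum_b (μ : MP F N) {T : Finset (I F)} (h : μ.support ⊆ T) :
    deg μ = ∑ o ∈ T, o.per * sz N (μ o).1 :=
  Finsupp.sum_of_support_subset _ h _ fun o _ => congrArg (o.per * ·) (sz_range_b N)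

theorem sz_le_deg_b (μ : MP F N) (o : I F) : sz N (μ o).1 ≤ deg μ := by
  rw [deg_eq_sum_b μ (subset_insert o _)]
  exact (Nat.le_mul_of_pos_left _ (per_pos o)).trans
    (single_le_sum (f := fun o => o.per * sz N (μ o).1) (fun _ _ => Nat.zero_le _)
      (mem_insert_self _ _))

/-- the span of the monomials -/
def spM (p : I F → ℕ → A) (P : I F → Prop) (n : ℕ) : Submodule ℂ A :=
  Submodule.span ℂ (pmon p '' PT P n)

theorem mul_mem_spM {p : I F → ℕ → A} {P : I F → Prop} {m n : ℕ} {a b : A} (ha : a ∈ spM p P m)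
    (hb : b ∈ spM p P n) : a * b ∈ spM p P (m + n) := by
  have := Submodule.mul_mem_mul ha hb
  rw [spM, spM, Submodule.span_mul_span] at this
  refine Submodule.span_mono ?_ this
  rintro _ ⟨_, ⟨τ, hτ, rfl⟩, _, ⟨σ, hσ, rfl⟩, rfl⟩
  refine ⟨τ + σ, ⟨fun x hx => (Multiset.mem_add.1 hx).elim (hτ.1 x) (hσ.1 x), ?_⟩, pmon_add ..⟩
  rw [Multiset.map_add, Multiset.sum_add, hτ.2, hσ.2]

theorem S_mem_spM (p : I F → ℕ → A) {P : I F → Prop} {o : I F} (ho : P o) (X : Finset ℕ) :
    S (p o) N X ∈ spM p P (o.per * sz N X) := by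
  refine Submodule.sum_mem _ fun ρ hρ => Submodule.smul_mem _ _ (Submodule.subset_span
    ⟨ρ.map fun k => (o, k), ⟨fun x hx => ?_, ?_⟩, by simp [pmon, pm]⟩)
  · obtain ⟨k, hk, rfl⟩ := Multiset.mem_map.1 hx
    exact ⟨ho, (mem_ptn.1 hρ).2 k hk⟩
  · rw [Multiset.map_map, ← (mem_ptn.1 hρ).1]
    exact (Multiset.sum_map_mul_left (a := o.per) (f := id)).trans (by simp)

theorem prod_S_mem_spM (p : I F → ℕ → A) {P : I F → Prop} (T : Finset (I F)) (h : ∀ o ∈ T, P o)
    (X : I F → Finset ℕ) : ∏ o ∈ T, S (p o) N (X o) ∈ spM p P (∑ o ∈ T, o.per * sz N (X o)) := by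
  induction T using Finset.induction_on with
  | empty => exact Submodule.subset_span ⟨0, ⟨by simp, by simp⟩, by simp [pmon]⟩
  | insert o T ho ih =>
    rw [prod_insert ho, sum_insert ho]
    exact mul_mem_spM (S_mem_spM p (h o (mem_insert_self _ _)) _)
      (ih fun o' ho' => h o' (mem_insert_of_mem ho'))

theorem schur_mem_spM (p : I F → ℕ → A) {P : I F → Prop} (μ : MP F N)
    (h : ∀ o ∈ μ.support, P o) : schur p μ ∈ spM p P (deg μ) :=
  prod_S_mem_spM p _ h fun o => (μ o).1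

theorem prod_pm_mem_span (p : I F → ℕ → A) (T : Finset (I F)) (ρ : I F → Multiset ℕ)
    (h0 : ∀ o, ∀ k ∈ ρ o, 0 < k) (hN : ∀ o ∈ T, (ρ o).sum ≤ N) :
    ∏ o ∈ T, pm (p o) (ρ o) ∈ Submodule.span ℂ (schur p ''
      {ν : MP F N | ν.support ⊆ T ∧ deg ν = ∑ o ∈ T, o.per * (ρ o).sum}) := by
  induction T using Finset.induction_on with
  | empty => exact Submodule.subset_span ⟨0, ⟨by simp, by simp [deg]⟩, by simp [schur]⟩
  | insert o T ho ih =>
    rw [prod_insert ho, sum_insert ho, pm_eq_sum_S (p o) (hN o (mem_insert_self _ _))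
      (mem_ptn.2 ⟨rfl, h0 o⟩), sum_mul]
    refine Submodule.sum_mem _ fun X hX => ?_
    rw [smul_mul_assoc]
    refine Submodule.smul_mem _ _ (Submodule.span_induction (fun x hx => ?_) (by simp)
      (fun x y _ _ hx hy => by rw [mul_add]; exact add_mem hx hy)
      (fun c x _ hx => by rw [mul_smul_comm]; exact Submodule.smul_mem _ _ hx)
      (ih fun o' ho' => hN o' (mem_insert_of_mem ho')))
    obtain ⟨ν, ⟨h1, h2⟩, rfl⟩ := hx
    obtain ⟨X', rfl⟩ : ∃ X' : Bt N, X'.1 = X := ⟨⟨X, (mem_bs.1 hX).1⟩, rfl⟩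
    have h3 : (ν.update o X').support ⊆ insert o T :=
      (Finsupp.support_update_subset _ _).trans (insert_subset_insert _ h1)
    have h4 : ∀ o' ∈ T, ν.update o X' o' = ν o' := fun o' ho' => by
      rw [Finsupp.update_apply, if_neg (ne_of_mem_of_not_mem ho' ho)]
    refine Submodule.subset_span ⟨_, ⟨h3, ?_⟩, ?_⟩
    · rw [deg_eq_sum_b _ h3, sum_insert ho, ← h2, deg_eq_sum_b _ h1, Finsupp.update_apply, if_pos rfl,
        sz_of_mem hX, sum_congr rfl fun o' ho' => by rw [h4 o' ho']]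
    · rw [schur_eq_prod_b _ _ h3, prod_insert ho, schur_eq_prod_b _ _ h1, Finsupp.update_apply,
        if_pos rfl, prod_congr rfl fun o' ho' => by rw [h4 o' ho']]

@[to_additive]
theorem prod_map_fiber {M α β : Type*} [CommMonoid M] [DecidableEq α] (f : α → β → M)
    (τ : Multiset (α × β)) {T : Finset α} (hT : ∀ x ∈ τ, x.1 ∈ T) :
    (τ.map fun x => f x.1 x.2).prod =
      ∏ o ∈ T, (((τ.filter fun x => x.1 = o).map Prod.snd).map (f o)).prod := by
  induction τ using Multiset.induction_on with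
  | empty => simp
  | cons x τ ih =>
    rw [Multiset.map_cons, Multiset.prod_cons, ih fun y hy => hT y (Multiset.mem_cons_of_mem hy)]
    simp only [Multiset.filter_cons, Multiset.map_add, Multiset.prod_add, prod_mul_distrib]
    congr 1
    rw [prod_eq_single_of_mem x.1 (hT x (Multiset.mem_cons_self _ _))
      fun o _ ho => by simp [ho.symm]]
    simp

theorem spM_le_span (p : I F → ℕ → A) (P : I F → Prop) {n : ℕ} (hn : n ≤ N) :
    spM p P n ≤ Submodule.span ℂ (schur p ''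
      {ν : MP F N | (∀ o ∈ ν.support, P o) ∧ deg ν = n}) := by
  refine Submodule.span_le.2 ?_
  rintro _ ⟨τ, hτ, rfl⟩
  let T := (τ.map Prod.fst).toFinset
  let ρ : I F → Multiset ℕ := fun o => (τ.filter fun x => x.1 = o).map Prod.snd
  have hT : ∀ x ∈ τ, x.1 ∈ T := fun x hx => by simpa [T] using ⟨x.2, hx⟩
  have h1 : n = ∑ o ∈ T, o.per * (ρ o).sum := by
    rw [← hτ.2, sum_map_fiber (fun (o : I F) k => o.per * k) τ hT]
    exact sum_congr rfl fun o _ => Multiset.sum_map_mul_left.trans (by simp [ρ])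
  have := prod_pm_mem_span (N := N) p T ρ (fun o k hk => ?_) fun o ho => ?_
  · rw [pmon, prod_map_fiber p τ hT]
    refine Submodule.span_mono (Set.image_mono ?_) this
    rintro ν ⟨h2, h3⟩
    refine ⟨fun o ho => ?_, h3.trans h1.symm⟩
    obtain ⟨x, hx, rfl⟩ := Multiset.mem_map.1 (Multiset.mem_toFinset.1 (h2 ho))
    exact (hτ.1 x hx).1
  · obtain ⟨x, hx, rfl⟩ := Multiset.mem_map.1 hk
    exact (hτ.1 x (Multiset.mem_filter.1 hx).1).2
  · refine le_trans ?_ hn
    rw [h1]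
    exact (Nat.le_mul_of_pos_left _ (per_pos o)).trans
      (single_le_sum (f := fun o => o.per * (ρ o).sum) (fun _ _ => Nat.zero_le _) ho)

theorem pm_mem_adjoin_b {p : ℕ → A} {s : Set A} {ρ : Multiset ℕ} (h : ∀ k ∈ ρ, p k ∈ s) :
    pm p ρ ∈ Algebra.adjoin ℂ s :=
  Subalgebra.multiset_prod_mem _ fun x hx => by
    obtain ⟨k, hk, rfl⟩ := Multiset.mem_map.1 hx
    exact Algebra.subset_adjoin (h k hk)

theorem S_mem_adjoin_b {p : ℕ → A} {s : Set A} (h : ∀ k, 0 < k → p k ∈ s) (X : Finset ℕ) :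
    S p N X ∈ Algebra.adjoin ℂ s :=
  Subalgebra.sum_mem _ fun _ hρ => Subalgebra.smul_mem _
    (pm_mem_adjoin_b fun k hk => h k ((mem_ptn.1 hρ).2 k hk)) _

end Gen

variable [Laws F]

/-- PERM for products of Schur functions -/
theorem ip_schur_eq {ω' : Fˣ →* ℂˣ} {p : I F → ℕ → H ω} {p' : I F → ℕ → H ω'}
    (hp : ∀ o m, 0 < m → Prim (p o m)) (hp' : ∀ o m, 0 < m → Prim (p' o m))
    (h : ∀ o m o' m', 0 < m → 0 < m' → ip (p o m) (p o' m') = ip (p' o m) (p' o' m'))
    (μ ν : MP F N) : ip (schur p μ) (schur p ν) = ip (schur p' μ) (schur p' ν) := by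
  have key : ∀ {ω : Fˣ →* ℂˣ} (p : I F → ℕ → H ω) (μ : MP F N), schur p μ =
      MvPolynomial.aeval (fun x : I F × ℕ => p x.1 (x.2 + 1))
        (schur (fun o k => (MvPolynomial.X (o, k - 1) : MvPolynomial (I F × ℕ) ℂ)) μ) :=
    fun p μ => by
      rw [map_schur]
      exact schur_congr (fun o k hk => by rw [MvPolynomial.aeval_X, Nat.sub_add_cancel hk]) μ
  rw [key p, key p, key p', key p']
  exact ip_aeval_eq (fun x => hp _ _ x.2.succ_pos) (fun x => hp' _ _ x.2.succ_pos)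
    (fun x y => h _ _ _ _ x.2.succ_pos y.2.succ_pos) _ _

theorem IsHom.prod' {ι : Type*} {s : Finset ι} {a : ι → H ω} {d : ι → ℕ}
    (h : ∀ i ∈ s, IsHom (d i) (a i)) : IsHom (∑ i ∈ s, d i) (∏ i ∈ s, a i) := by
  classical
  induction s using Finset.induction_on with
  | empty => exact isHom_one
  | insert i s hi ih =>
    rw [sum_insert hi, prod_insert hi]
    exact (h i (mem_insert_self _ _)).mul (ih fun j hj => h j (mem_insert_of_mem hj))

theorem isHom_pm_b {p : ℕ → H ω} {d : ℕ} (h : ∀ k, 0 < k → IsHom (d * k) (p k)) {ρ : Multiset ℕ}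
    (hρ : ∀ k ∈ ρ, 0 < k) : IsHom (d * ρ.sum) (pm p ρ) := by
  induction ρ using Multiset.induction_on with
  | empty => exact isHom_one
  | cons k ρ ih =>
    rw [pm_cons, Multiset.sum_cons, mul_add]
    exact (h k (hρ k (Multiset.mem_cons_self _ _))).mul
      (ih fun j hj => hρ j (Multiset.mem_cons_of_mem hj))

theorem isHom_S_b {p : ℕ → H ω} {d : ℕ} (h : ∀ k, 0 < k → IsHom (d * k) (p k)) (X : Finset ℕ) :
    IsHom (d * sz N X) (S p N X) :=
  IsHom.sum fun _ hρ => ((mem_ptn.1 hρ).1 ▸ isHom_pm_b h (mem_ptn.1 hρ).2).smul _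

end Cfsg.GLn
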