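import Cfsg.Agent.CT.ClassSum
import Cfsg.Agent.CT.Values
import Cfsg.Agent.CT.Induction
import Cfsg.Agent.CT.PRegular

/-! Isotypic projections of (not necessarily class) functions on a finite group and functions
equivariant under conjugation for a linear character. -/

set_option autoImplicit false
set_option linter.unusedSectionVars false
set_option linter.unusedVariables false

namespace Cfsg.GLn

open scoped ComplexConjugate

universe u v w

variable {Γ : Type u} [Group Γ] [Fintype Γ]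

/-- convolution -/
noncomputable def cv (a b : Γ → ℂ) : Γ → ℂ := fun x => ∑ y, a y * b (y⁻¹ * x)

/-- the `χ`-isotypic projection -/
noncomputable def pjG (χ a : Γ → ℂ) : Γ → ℂ :=
  fun x => χ 1 / Nat.card Γ * ∑ y, χ y * a (y⁻¹ * x)

/-- equivariance under conjugation -/
def Eqv (w : Γ →* ℂˣ) (a : Γ → ℂ) : Prop := ∀ g z, a (z * g * z⁻¹) = w z * a g

theorem cardΓ_ne : (Nat.card Γ : ℂ) ≠ 0 := Nat.cast_ne_zero.2 Nat.card_pos.ne'

theorem cv_apply (a b : Γ → ℂ) (x : Γ) : cv a b x = ∑ y, a y * b (y⁻¹ * x) := rfl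

theorem cv_apply' (a b : Γ → ℂ) (x : Γ) : cv a b x = ∑ y, a (x * y⁻¹) * b y :=
  Fintype.sum_equiv ((Equiv.inv Γ).trans (Equiv.mulRight x)) _ _ fun y => by simp

theorem cv_assoc (a b c : Γ → ℂ) : cv (cv a b) c = cv a (cv b c) := by
  funext x
  simp only [cv, Finset.sum_mul, Finset.mul_sum]
  rw [Finset.sum_comm]
  refine Finset.sum_congr rfl fun z _ => ?_
  refine Fintype.sum_equiv (Equiv.mulLeft z⁻¹) _ _ fun y => ?_
  simp [mul_assoc]

theorem cv_comm {χ : Γ → ℂ} (h : IsClassFunction Γ χ) (a : Γ → ℂ) : cv χ a = cv a χ := by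
  funext x
  rw [cv_apply', cv_apply]
  exact Finset.sum_congr rfl fun y _ => by rw [h.mul_comm, mul_comm]

theorem cv_add_left (a a' b : Γ → ℂ) : cv (a + a') b = cv a b + cv a' b := by
  funext x; simp [cv, add_mul, Finset.sum_add_distrib]

theorem cv_add_right (a b b' : Γ → ℂ) : cv a (b + b') = cv a b + cv a b' := by
  funext x; simp [cv, mul_add, Finset.sum_add_distrib]

theorem cv_smul_left (c : ℂ) (a b : Γ → ℂ) : cv (c • a) b = c • cv a b := by
  funext x; simp [cv, Finset.mul_sum, mul_assoc]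

theorem cv_smul_right (c : ℂ) (a b : Γ → ℂ) : cv a (c • b) = c • cv a b := by
  funext x; simp [cv, Finset.mul_sum, mul_left_comm]

@[simp] theorem cv_zero_left (b : Γ → ℂ) : cv 0 b = 0 := by funext x; simp [cv]
@[simp] theorem cv_zero_right (a : Γ → ℂ) : cv a 0 = 0 := by funext x; simp [cv]

theorem pjG_eq (χ a : Γ → ℂ) : pjG χ a = (χ 1 / Nat.card Γ) • cv χ a := rfl

theorem pjG_add (χ a b : Γ → ℂ) : pjG χ (a + b) = pjG χ a + pjG χ b := by
  rw [pjG_eq, pjG_eq, pjG_eq, cv_add_right, smul_add]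

theorem pjG_smul (χ : Γ → ℂ) (c : ℂ) (a : Γ → ℂ) : pjG χ (c • a) = c • pjG χ a := by
  rw [pjG_eq, pjG_eq, cv_smul_right, smul_comm]

/-- the projection as a linear map -/
noncomputable def pjGL (χ : Γ → ℂ) : (Γ → ℂ) →ₗ[ℂ] (Γ → ℂ) :=
  ⟨⟨pjG χ, pjG_add χ⟩, pjG_smul χ⟩

@[simp] theorem pjGL_apply (χ a : Γ → ℂ) : pjGL χ a = pjG χ a := rfl

@[simp] theorem pjG_zero (χ : Γ → ℂ) : pjG χ 0 = 0 := map_zero (pjGL χ)

theorem pjG_sub (χ a b : Γ → ℂ) : pjG χ (a - b) = pjG χ a - pjG χ b := map_sub (pjGL χ) a b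

theorem pjG_neg (χ a : Γ → ℂ) : pjG χ (-a) = -pjG χ a := map_neg (pjGL χ) a

theorem pjG_sum {ι : Type*} (χ : Γ → ℂ) (s : Finset ι) (a : ι → Γ → ℂ) :
    pjG χ (∑ i ∈ s, a i) = ∑ i ∈ s, pjG χ (a i) := map_sum (pjGL χ) a s

theorem pjG_const_mul (χ : Γ → ℂ) (c : ℂ) (a : Γ → ℂ) :
    pjG χ (fun x => c * a x) = fun x => c * pjG χ a x := pjG_smul χ c a

theorem pjG_cv (χ a b : Γ → ℂ) : pjG χ (cv a b) = cv (pjG χ a) b := by
  rw [pjG_eq, pjG_eq, cv_smul_left, cv_assoc]

theorem pjG_cv' {χ : Γ → ℂ} (h : IsClassFunction Γ χ) (a b : Γ → ℂ) :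
    pjG χ (cv a b) = cv a (pjG χ b) := by
  rw [pjG_eq, pjG_eq, cv_smul_right, ← cv_assoc, cv_comm h, cv_assoc]

theorem pjG_irr_self (χ : IrrCharacter Γ) : pjG χ.1 χ.1 = χ.1 := by
  funext x
  have := χ.one_mul_sum_mul_inv_mul χ x
  rw [if_pos rfl] at this
  rw [pjG, div_mul_eq_mul_div, this, mul_div_cancel_left₀ _ cardΓ_ne]

theorem pjG_irr_ne {χ ψ : IrrCharacter Γ} (h : χ ≠ ψ) : pjG χ.1 ψ.1 = 0 := by
  funext x
  have := ψ.one_mul_sum_mul_inv_mul χ x
  rw [if_neg h.symm] at this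
  rw [pjG, (mul_eq_zero.1 this).resolve_left ψ.one_ne_zero, mul_zero, Pi.zero_apply]

theorem pjG_pjG_self (χ : IrrCharacter Γ) (a : Γ → ℂ) : pjG χ.1 (pjG χ.1 a) = pjG χ.1 a := by
  rw [pjG_eq χ.1 a, pjG_smul, pjG_cv, pjG_irr_self]

theorem pjG_pjG_ne {χ ψ : IrrCharacter Γ} (h : χ ≠ ψ) (a : Γ → ℂ) :
    pjG χ.1 (pjG ψ.1 a) = 0 := by
  rw [pjG_eq ψ.1 a, pjG_smul, pjG_cv, pjG_irr_ne h, cv_zero_left, smul_zero]

theorem sum_pjG (a : Γ → ℂ) : ∑ χ : IrrCharacter Γ, pjG χ.1 a = a := by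
  classical
  funext x
  rw [Finset.sum_apply]
  simp only [pjG, Finset.mul_sum]
  rw [Finset.sum_comm]
  have : ∀ y : Γ, ∑ χ : IrrCharacter Γ, χ.1 1 / Nat.card Γ * (χ.1 y * a (y⁻¹ * x)) =
      (∑ χ : IrrCharacter Γ, χ.1 1 * χ.1 y) * (a (y⁻¹ * x) / Nat.card Γ) := fun y => by
    rw [Finset.sum_mul]
    exact Finset.sum_congr rfl fun χ _ => by ring
  simp only [this, sum_irr_one_mul, ite_mul, zero_mul, Finset.sum_ite_eq', Finset.mem_univ,
    if_true, inv_one, one_mul]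
  exact mul_div_cancel₀ _ cardΓ_ne

theorem pjG_class (χ : IrrCharacter Γ) {f : Γ → ℂ} (h : IsClassFunction Γ f) :
    pjG χ.1 f = classInner f χ.1 • χ.1 := by
  have : f = ∑ ψ : IrrCharacter Γ, classInner f ψ.1 • ψ.1 := by
    funext g; rw [Finset.sum_apply]; exact h.eq_sum_irr g
  conv_lhs => rw [this]
  rw [pjG_sum, Finset.sum_eq_single χ, pjG_smul, pjG_irr_self]
  · intro ψ _ hψ
    rw [pjG_smul, pjG_irr_ne hψ.symm, smul_zero]
  · simp

theorem classInner_cv_left (a b c : Γ → ℂ) :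
    classInner (cv a b) c = classInner b (cv (fun x => conj (a x⁻¹)) c) := by
  simp only [classInner_def, cv, Finset.sum_mul, map_sum, map_mul, Finset.mul_sum,
    Complex.conj_conj]
  rw [Finset.sum_comm]
  conv_rhs => rw [Finset.sum_comm]
  refine Fintype.sum_equiv (Equiv.inv Γ) _ _ fun y => ?_
  refine Fintype.sum_equiv (Equiv.mulLeft y⁻¹) _ _ fun x => ?_
  simp only [Equiv.inv_apply, inv_inv, Equiv.coe_mulLeft, mul_inv_cancel_left]
  ring

/-- self-adjointness -/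
theorem classInner_pjG (χ : IrrCharacter Γ) (a b : Γ → ℂ) :
    classInner (pjG χ.1 a) b = classInner a (pjG χ.1 b) := by
  have h1 : (fun x => conj (χ.1 x⁻¹)) = χ.1 := by
    funext x; rw [χ.apply_inv, Complex.conj_conj]
  rw [pjG_eq, pjG_eq, classInner_smul_left, classInner_smul_right, classInner_cv_left, h1,
    map_div₀, χ.one_eq_charDegree, map_natCast, map_natCast]

theorem classInner_pjG_pjG_self (χ : IrrCharacter Γ) (a b : Γ → ℂ) :
    classInner (pjG χ.1 a) (pjG χ.1 b) = classInner (pjG χ.1 a) b := by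
  rw [← classInner_pjG, pjG_pjG_self]

theorem classInner_pjG_pjG_ne {χ ψ : IrrCharacter Γ} (h : χ ≠ ψ) (a b : Γ → ℂ) :
    classInner (pjG χ.1 a) (pjG ψ.1 b) = 0 := by
  rw [← classInner_pjG, pjG_pjG_ne h.symm, classInner_zero_left]

theorem pjG_hom_mul (w : Γ →* ℂˣ) (χ a : Γ → ℂ) :
    pjG (fun g => w g * χ g) (fun g => w g * a g) = fun g => w g * pjG χ a g := by
  funext x
  simp only [pjG, map_one, Units.val_one, one_mul, Finset.mul_sum]
  refine Finset.sum_congr rfl fun y _ => ?_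
  have : (w x : ℂ) = w y * w (y⁻¹ * x) := by
    rw [← Units.val_mul, ← map_mul, mul_inv_cancel_left]
  rw [this]; ring

theorem pjG_twist (w : Γ →* ℂˣ) (χ : IrrCharacter Γ) (a : Γ → ℂ) :
    pjG (χ.twist w).1 (fun g => w g * a g) = fun g => w g * pjG χ.1 a g := pjG_hom_mul w χ.1 a

/-- the twist of the projection when `a` lives on the kernel of `w` -/
theorem pjG_twist_of_supp (w : Γ →* ℂˣ) (χ : IrrCharacter Γ) {a : Γ → ℂ}
    (h : ∀ g, w g ≠ 1 → a g = 0) : pjG (χ.twist w).1 a = fun g => w g * pjG χ.1 a g := by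
  rw [← pjG_twist]
  congr 1
  funext g
  by_cases hg : w g = 1
  · simp [hg]
  · simp [h g hg]

theorem classInner_hom_mul (w : Γ →* ℂˣ) (a b : Γ → ℂ) :
    classInner (fun g => w g * a g) (fun g => w g * b g) = classInner a b := by
  rw [classInner_def, classInner_def]
  congr 1
  refine Finset.sum_congr rfl fun g _ => ?_
  have : (w g : ℂ) * conj (w g : ℂ) = 1 := by
    rw [conj_unitsHom, ← Units.val_mul, ← map_mul, mul_inv_cancel, map_one, Units.val_one]
  rw [map_mul]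
  linear_combination (a g * conj (b g)) * this

/-! ### equivariant functions -/

section eqv

variable {w w' : Γ →* ℂˣ} {a b : Γ → ℂ}

theorem eqv_one_iff : Eqv 1 a ↔ IsClassFunction Γ a := by
  simp only [Eqv, IsClassFunction, MonoidHom.one_apply, Units.val_one, one_mul]

theorem Eqv.zero : Eqv w 0 := fun g z => by simp

theorem Eqv.add (ha : Eqv w a) (hb : Eqv w b) : Eqv w (a + b) := fun g z => by
  simp only [Pi.add_apply, ha g z, hb g z, mul_add]

theorem Eqv.smul (c : ℂ) (ha : Eqv w a) : Eqv w (c • a) := fun g z => by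
  simp only [Pi.smul_apply, ha g z, smul_eq_mul, mul_left_comm]

theorem Eqv.neg (ha : Eqv w a) : Eqv w (-a) := fun g z => by
  simp only [Pi.neg_apply, ha g z, mul_neg]

theorem Eqv.sub (ha : Eqv w a) (hb : Eqv w b) : Eqv w (a - b) := fun g z => by
  simp only [Pi.sub_apply, ha g z, hb g z, mul_sub]

theorem Eqv.sum {ι : Type*} (s : Finset ι) {a : ι → Γ → ℂ} (h : ∀ i ∈ s, Eqv w (a i)) :
    Eqv w (∑ i ∈ s, a i) := fun g z => by
  simp only [Finset.sum_apply, Finset.mul_sum]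
  exact Finset.sum_congr rfl fun i hi => h i hi g z

theorem Eqv.class_mul {f : Γ → ℂ} (hf : IsClassFunction Γ f) (ha : Eqv w a) :
    Eqv w (fun g => f g * a g) := fun g z => by
  simp only [ha g z, hf g z, mul_left_comm]

theorem Eqv.hom_mul (l : Γ →* ℂˣ) (ha : Eqv w a) : Eqv w (fun g => l g * a g) :=
  ha.class_mul (isCharacter_unitsHom l).isClassFunction

theorem Eqv.apply_eq_zero (ha : Eqv w a) {g : Γ} (hg : w g ≠ 1) : a g = 0 := by
  have := ha g g
  rw [mul_inv_cancel_right] at this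
  have h1 : (1 - (w g : ℂ)) * a g = 0 := by linear_combination this
  refine (mul_eq_zero.1 h1).resolve_left fun h => hg (Units.ext ?_)
  rw [Units.val_one]; linear_combination -h

theorem Eqv.pRegularPart (p : ℕ) (ha : Eqv w a) : Eqv w (pRegularPart p a) := fun g z => by
  have : orderOf (z * g * z⁻¹) = orderOf g := MulEquiv.orderOf_eq (MulAut.conj z) g
  by_cases h : p ∣ orderOf g <;> simp [Cfsg.pRegularPart, IsPRegular, this, ha g z, h]

theorem Eqv.cv (ha : Eqv w a) (hb : Eqv w' b) : Eqv (w * w') (cv a b) := fun g z => by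
  simp only [GLn.cv, Finset.mul_sum]
  refine (Fintype.sum_equiv (MulAut.conj z).toEquiv _ _ fun y => ?_).symm
  have : (z * y * z⁻¹)⁻¹ * (z * g * z⁻¹) = z * (y⁻¹ * g) * z⁻¹ := by group
  simp only [MulEquiv.toEquiv_eq_coe, EquivLike.coe_coe, MulAut.conj_apply, this, ha y z,
    hb _ z, MonoidHom.mul_apply, Units.val_mul]
  ring

theorem Eqv.star (ha : Eqv w a) : Eqv w⁻¹ (fun x => conj (a x⁻¹)) := fun g z => by
  have : (z * g * z⁻¹)⁻¹ = z * g⁻¹ * z⁻¹ := by group
  simp only [this, ha _ z, map_mul, conj_unitsHom, MonoidHom.inv_apply, map_inv]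

theorem Eqv.pjG' {χ : Γ → ℂ} (hχ : IsClassFunction Γ χ) (ha : Eqv w a) : Eqv w (pjG χ a) := by
  have := ((eqv_one_iff.2 hχ).cv ha).smul (χ 1 / Nat.card Γ)
  rwa [show 1 * w = w by ext; simp] at this

theorem Eqv.pjG (χ : IrrCharacter Γ) (ha : Eqv w a) : Eqv w (pjG χ.1 a) :=
  ha.pjG' χ.isClassFunction

/-- functions equivariant for different linear characters are orthogonal -/
theorem Eqv.classInner_eq_zero (ha : Eqv w a) (hb : Eqv w' b) (h : w ≠ w') :
    classInner a b = 0 := by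
  obtain ⟨z, hz⟩ : ∃ z, w z ≠ w' z := by
    by_contra hc
    push Not at hc
    exact h (MonoidHom.ext hc)
  have h1 : ∑ g, a g * conj (b g) = (w z * conj (w' z : ℂ)) * ∑ g, a g * conj (b g) := by
    rw [Finset.mul_sum]
    refine (Fintype.sum_equiv (MulAut.conj z).toEquiv _ _ fun g => ?_).symm
    simp only [MulEquiv.toEquiv_eq_coe, EquivLike.coe_coe, MulAut.conj_apply, ha g z, hb g z,
      map_mul]
    ring
  have h2 : (1 - w z * conj (w' z : ℂ)) * ∑ g, a g * conj (b g) = 0 := by linear_combination h1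
  rw [classInner_def, (mul_eq_zero.1 h2).resolve_left, mul_zero]
  intro h3
  apply hz
  rw [conj_unitsHom, map_inv, ← Units.val_mul, sub_eq_zero, eq_comm, Units.val_eq_one] at h3
  exact mul_inv_eq_one.1 h3

theorem Eqv.cv_eq (ha : Eqv w a) (χ : Γ → ℂ) : GLn.cv (fun g => w g * χ g) a = GLn.cv a χ := by
  funext x
  rw [cv_apply, cv_apply']
  refine Finset.sum_congr rfl fun y _ => ?_
  have : x * y⁻¹ = y * (y⁻¹ * x) * y⁻¹ := by group
  rw [this, ha]; ring

theorem Eqv.pjG_twist_eq (ha : Eqv w a) (χ : IrrCharacter Γ) :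
    GLn.pjG (χ.twist w).1 a = GLn.pjG χ.1 a := by
  rw [pjG_eq, pjG_eq, cv_comm χ.isClassFunction, ← ha.cv_eq]
  simp only [IrrCharacter.twist_apply, map_one, Units.val_one, one_mul]
  rfl

/-- CL1 -/
theorem Eqv.pjG_eq_zero (ha : Eqv w a) {χ : IrrCharacter Γ} (h : χ.twist w ≠ χ) :
    GLn.pjG χ.1 a = 0 := by
  rw [← pjG_pjG_self, ← ha.pjG_twist_eq χ, pjG_pjG_ne h.symm]

theorem Eqv.pjG_eq_zero' (ha : Eqv w a) {χ : IrrCharacter Γ}
    (h : ¬ ∀ g, (w g : ℂ) * χ.1 g = χ.1 g) : GLn.pjG χ.1 a = 0 :=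
  ha.pjG_eq_zero fun h1 => h fun g => congrFun (congrArg Subtype.val h1) g

theorem eq_smul_of_class_of_pjG {χ : IrrCharacter Γ} {f : Γ → ℂ} (hf : IsClassFunction Γ f)
    (h : pjG χ.1 f = f) : f = (f 1 / χ.1 1) • χ.1 := by
  rw [pjG_class χ hf] at h
  have : f 1 = classInner f χ.1 * χ.1 1 := (congrFun h 1).symm
  rw [this, mul_div_cancel_right₀ _ χ.one_ne_zero, h]

/-- CL1, second part: the equivariant functions in one isotypic component are proportional -/
theorem Eqv.smul_eq_smul (ha : Eqv w a) (hb : Eqv w b) {χ : IrrCharacter Γ}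
    (h1 : GLn.pjG χ.1 a = a) (h2 : GLn.pjG χ.1 b = b) :
    classInner b b • a = classInner a b • b := by
  set b' : Γ → ℂ := fun x => conj (b x⁻¹)
  have e1 : IsClassFunction Γ (GLn.cv a b') := by
    have := ha.cv hb.star
    rwa [show w * w⁻¹ = 1 by ext; simp, eqv_one_iff] at this
  have e2 : IsClassFunction Γ (GLn.cv b' b) := by
    have := hb.star.cv hb
    rwa [show w⁻¹ * w = 1 by ext; simp, eqv_one_iff] at this
  have f1 := eq_smul_of_class_of_pjG e1 (χ := χ) (by rw [pjG_cv, h1])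
  have f2 := eq_smul_of_class_of_pjG e2 (χ := χ) (by rw [pjG_cv' χ.isClassFunction, h2])
  have g1 : GLn.cv a b' 1 = Nat.card Γ * classInner a b := by
    rw [classInner_def, mul_inv_cancel_left₀ cardΓ_ne, cv_apply]
    simp [b']
  have g2 : GLn.cv b' b 1 = Nat.card Γ * classInner b b := by
    rw [classInner_def, mul_inv_cancel_left₀ cardΓ_ne, cv_apply']
    simp [b', mul_comm]
  have k := cv_assoc a b' b
  rw [f1, f2, cv_smul_left, cv_smul_right, ← cv_comm χ.isClassFunction, g1, g2] at k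
  have l1 : GLn.cv χ.1 a = ((Nat.card Γ : ℂ) / χ.1 1) • a := by
    conv_rhs => rw [← h1, pjG_eq, smul_smul]
    rw [div_mul_div_cancel₀ χ.one_ne_zero, div_self cardΓ_ne, one_smul]
  have l2 : GLn.cv χ.1 b = ((Nat.card Γ : ℂ) / χ.1 1) • b := by
    conv_rhs => rw [← h2, pjG_eq, smul_smul]
    rw [div_mul_div_cancel₀ χ.one_ne_zero, div_self cardΓ_ne, one_smul]
  rw [l1, l2, smul_smul, smul_smul] at k
  have hc : ((Nat.card Γ : ℂ) / χ.1 1) * ((Nat.card Γ : ℂ) / χ.1 1) ≠ 0 :=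
    mul_ne_zero (div_ne_zero cardΓ_ne χ.one_ne_zero) (div_ne_zero cardΓ_ne χ.one_ne_zero)
  refine smul_right_injective _ hc ?_
  simp only [smul_smul]
  convert k.symm using 2 <;> ring

theorem Eqv.exists_smul (ha : Eqv w a) (hb : Eqv w b) {χ : IrrCharacter Γ}
    (h1 : GLn.pjG χ.1 a = a) (h2 : GLn.pjG χ.1 b = b) (h0 : b ≠ 0) :
    a = (classInner a b / classInner b b) • b := by
  have hb0 : classInner b b ≠ 0 := fun h => h0 (classInner_self_eq_zero.1 h)
  refine smul_right_injective _ hb0 ?_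
  simp only [smul_smul]
  rw [ha.smul_eq_smul hb h1 h2, mul_div_cancel₀ _ hb0]

/-- if `s` has norm one, every equivariant function projects to a multiple of `s` -/
theorem Eqv.pjG_eq_smul (ha : Eqv w a) (hb : Eqv w b) {χ : IrrCharacter Γ}
    (h2 : GLn.pjG χ.1 b = b) (h0 : classInner b b = 1) :
    GLn.pjG χ.1 a = classInner a b • b := by
  have := (ha.pjG χ).smul_eq_smul hb (pjG_pjG_self χ a) h2
  rwa [h0, one_smul, classInner_pjG, h2] at this

end eqv

end Cfsg.GLn
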