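import Cfsg.Agent.Blk.Second
import Cfsg.Agent.Blk.Induced
import Cfsg.Agent.Blk.Cover
import Cfsg.Agent.Blk.Transport
import Cfsg.Agent.Blk.CentralProd
import Cfsg.Agent.Blk.Rank

/-! Two block lemmas: peeling a direct factor off a centralizer (second main theorem), and the
rank of the restrictions of a covering block to a normal subgroup. -/

set_option autoImplicit false
set_option linter.unusedSectionVars false
set_option linter.unusedVariables false

namespace Cfsg.GLn

open scoped MonoidAlgebra ComplexConjugate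

universe u v w

variable {p : ℕ} {M : Ideal AlgInt}

/-- a defect group of a covering block pulls back to a defect group of the covered block, when
the group is the product of the image and its centralizer -/
theorem isDefectGroup_comap_of_cover {C : Type u} [Group C] [Finite C] {N : Type v} [Group N]
    [Fintype N] (hM : IsPModular p M) (φ : N →* C) (hφ : Function.Injective φ)
    (hgen : φ.range ⊔ Subgroup.centralizer (φ.range : Set C) = ⊤)
    {B : Set (IrrCharacter C)} (hB : IsPBlock M B) {b : Set (IrrCharacter N)} (hb : IsPBlock M b)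
    (hcov : ∃ χ ∈ B, ∃ θ ∈ b, classInner (fun n => χ.1 (φ n)) θ.1 ≠ 0) {P : Subgroup C}
    (hP : IsDefectGroup p M B P) : IsDefectGroup p M b (P.comap φ) := by
  have : Fact p.Prime := ⟨hM.1⟩
  have := hM.charP
  have hn : φ.range.Normal := normal_of_commute_of_sup_eq_top
    (fun u hu v hv => (Subgroup.mem_centralizer_iff.1 hv) u hu) hgen
  have hc := hb.isBlk_gaPush hM hφ
  have hec := ((hB.isBlockUnion hM).idemK_mul_gaPush_ne_zero_iff φ hM (hb.isBlockUnion hM)).2 hcov
  obtain ⟨g, -, h⟩ := (hB.isBlk_top hM).exists_isDefGrp_inf le_top top_le_normalizer_of_normal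
    hc hec ((hB.isDefectGroup_iff hM).1 hP)
  have h1 : IsFixedGA (Subgroup.centralizer (φ.range : Set C))
      (gaPush (resK M) φ (idemK M b)) :=
    isFixedGA_of_mem_suppGA_centralizer (suppGA_mono (fun x hx =>
      Subgroup.mem_centralizer_iff.2 fun y hy => (Subgroup.mem_centralizer_iff.1 hy x hx).symm)
      hc.mem.1)
  have h2 : IsFixedGA ⊤ (gaPush (resK M) φ (idemK M b)) := hgen ▸ (hc.mem.2.sup h1)
  rw [h2 g (Subgroup.mem_top g)] at h
  rw [hb.isDefectGroup_iff hM, ← isDefGrp_gaPush_iff hφ, ← MonoidHom.range_eq_map,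
    Subgroup.map_comap_eq, inf_comm]
  exact h

/-- a class function whose regular part is not orthogonal to `θ` has a constituent in the block
of `θ` -/
theorem exists_mem_blockOf_of_regular {N : Type v} [Group N] [Fintype N] (hM : IsPModular p M)
    {ψ : N → ℂ} (hψ : IsClassFunction N ψ) (θ : IrrCharacter N)
    (h : ∑ s : N, ψ s * conj (pRegularPart p θ.1 s) ≠ 0) :
    ∃ η ∈ blockOf M θ.1, classInner ψ η.1 ≠ 0 := by
  by_contra hc
  push Not at hc
  have hb : IsBlockUnion M (blockOf M θ.1) := (isPBlock_blockOf (M := M) θ).isBlockUnion hM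
  have h1 : blockPart (blockOf M θ.1) ψ = 0 := blockPart_eq_zero_iff.2 hc
  have h2 : classInner ψ (pRegularPart p θ.1) = 0 := by
    rw [← hb.blockPart_pRegularPart_irr_of_mem hM (hM.mem_blockOf_self θ),
      ← classInner_blockPart_left, h1, classInner_zero_left]
  rw [classInner_def] at h2
  have h3 : (Nat.card N : ℂ)⁻¹ ≠ 0 := inv_ne_zero (Nat.cast_ne_zero.2 Nat.card_pos.ne')
  exact h ((mul_eq_zero.1 h2).resolve_left h3)

theorem not_dvd_orderOf_prod {G1 : Type v} {G2 : Type w} [Group G1] [Group G2] (hp : p.Prime)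
    {s1 : G1} {s2 : G2} (h1 : ¬ p ∣ orderOf s1) (h2 : ¬ p ∣ orderOf s2) :
    ¬ p ∣ orderOf (s1, s2) := by
  rw [Prod.orderOf_mk]
  intro h
  rcases (hp.dvd_mul).1 (h.trans (Nat.lcm_dvd_mul _ _)) with h | h
  · exact h1 h
  · exact h2 h

section prod

variable {C : Type u} [Group C] [Finite C] {G1 : Type v} {G2 : Type w} [Group G1] [Group G2]
  [Fintype G1] [Fintype G2]

theorem range_inl_sup_range_inr (e : G1 × G2 →* C) (he : Function.Surjective e) :
    (e.comp (MonoidHom.inl G1 G2)).range ⊔ (e.comp (MonoidHom.inr G1 G2)).range = ⊤ := by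
  rw [eq_top_iff]
  intro c _
  obtain ⟨⟨a, b⟩, rfl⟩ := he c
  have : e (a, b) = e (a, 1) * e (1, b) := by rw [← map_mul]; simp
  rw [this]
  exact Subgroup.mul_mem_sup ⟨a, rfl⟩ ⟨b, rfl⟩

theorem commute_range_inl_inr (e : G1 × G2 →* C) :
    ∀ a ∈ (e.comp (MonoidHom.inl G1 G2)).range, ∀ b ∈ (e.comp (MonoidHom.inr G1 G2)).range,
      a * b = b * a := by
  rintro _ ⟨a, rfl⟩ _ ⟨b, rfl⟩
  simp only [MonoidHom.comp_apply, MonoidHom.inl_apply, MonoidHom.inr_apply, ← map_mul]
  simp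

/-- an irreducible character of a direct product is the product of its restrictions -/
theorem irr_prod_apply (e : G1 × G2 →* C) (he : Function.Surjective e) (ψ : IrrCharacter C)
    (a : G1) (b : G2) : ψ.1 (e (a, b)) = ψ.1 (e (a, 1)) * ψ.1 (e (1, b)) / ψ.1 1 := by
  have : e (a, b) = e (a, 1) * e (1, b) := by rw [← map_mul]; simp
  rw [this]
  exact IrrCharacter.mul_one_eq_of_commute_of_sup_eq_top (commute_range_inl_inr e)
    (range_inl_sup_range_inr e he) ψ ⟨a, rfl⟩ ⟨b, rfl⟩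

/-- defect groups of a block of a direct product contain the product of defect groups of the
covered blocks of the factors -/
theorem exists_defect_prod_le (hM : IsPModular p M) (e : G1 × G2 →* C)
    (he : Function.Bijective e) (ψ : IrrCharacter C) (θ1 : IrrCharacter G1)
    (θ2 : IrrCharacter G2)
    (h : ∑ s1 : G1, ∑ s2 : G2, ψ.1 (e (s1, s2)) * conj (pRegularPart p θ1.1 s1) *
      conj (pRegularPart p θ2.1 s2) ≠ 0) {P : Subgroup C}
    (hP : IsDefectGroup p M (blockOf M ψ.1) P) :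
    ∃ D1 D2, IsDefectGroup p M (blockOf M θ1.1) D1 ∧ IsDefectGroup p M (blockOf M θ2.1) D2 ∧
      (D1.prod D2).map e ≤ P := by
  have h0 : ∑ s1 : G1, ∑ s2 : G2, ψ.1 (e (s1, s2)) * conj (pRegularPart p θ1.1 s1) *
      conj (pRegularPart p θ2.1 s2) =
      (∑ s1 : G1, ψ.1 (e (s1, 1)) * conj (pRegularPart p θ1.1 s1)) *
        (∑ s2 : G2, ψ.1 (e (1, s2)) * conj (pRegularPart p θ2.1 s2)) / ψ.1 1 := by
    rw [Finset.sum_mul_sum, Finset.sum_div]
    refine Finset.sum_congr rfl fun s1 _ => ?_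
    rw [Finset.sum_div]
    refine Finset.sum_congr rfl fun s2 _ => ?_
    rw [irr_prod_apply e he.2]
    ring
  rw [h0] at h
  have h1 := left_ne_zero_of_mul (div_ne_zero_iff.1 h).1
  have h2 := right_ne_zero_of_mul (div_ne_zero_iff.1 h).1
  obtain ⟨η1, hη1, hη1'⟩ := exists_mem_blockOf_of_regular hM
    (ψ.isClassFunction.comp (e.comp (MonoidHom.inl G1 G2))) θ1 h1
  obtain ⟨η2, hη2, hη2'⟩ := exists_mem_blockOf_of_regular hM
    (ψ.isClassFunction.comp (e.comp (MonoidHom.inr G1 G2))) θ2 h2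
  have hsup := range_inl_sup_range_inr e he.2
  have hcm := commute_range_inl_inr e
  have hi1 : Function.Injective (e.comp (MonoidHom.inl G1 G2)) := fun a b hab => by
    simpa using he.1 hab
  have hi2 : Function.Injective (e.comp (MonoidHom.inr G1 G2)) := fun a b hab => by
    simpa using he.1 hab
  have hg1 : (e.comp (MonoidHom.inl G1 G2)).range ⊔
      Subgroup.centralizer ((e.comp (MonoidHom.inl G1 G2)).range : Set C) = ⊤ := by
    rw [eq_top_iff, ← hsup]
    exact sup_le_sup_left (fun b hb => Subgroup.mem_centralizer_iff.2 fun a ha => hcm a ha b hb) _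
  have hg2 : (e.comp (MonoidHom.inr G1 G2)).range ⊔
      Subgroup.centralizer ((e.comp (MonoidHom.inr G1 G2)).range : Set C) = ⊤ := by
    rw [eq_top_iff, ← hsup, sup_comm]
    exact sup_le_sup_left
      (fun b hb => Subgroup.mem_centralizer_iff.2 fun a ha => (hcm b hb a ha).symm) _
  have hb := isPBlock_blockOf (M := M) ψ
  refine ⟨_, _, isDefectGroup_comap_of_cover hM _ hi1 hg1 hb (isPBlock_blockOf θ1)
    ⟨ψ, hM.mem_blockOf_self ψ, η1, hη1, hη1'⟩ hP,
    isDefectGroup_comap_of_cover hM _ hi2 hg2 hb (isPBlock_blockOf θ2)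
    ⟨ψ, hM.mem_blockOf_self ψ, η2, hη2, hη2'⟩ hP, ?_⟩
  rintro _ ⟨⟨a, b⟩, ⟨ha, hb⟩, rfl⟩
  have : e (a, b) = e (a, 1) * e (1, b) := by rw [← map_mul]; simp
  rw [this]
  exact P.mul_mem ha hb

end prod

section peel

variable {G : Type u} [Group G] [Finite G] {G1 : Type v} {G2 : Type w} [Group G1] [Group G2]
  [Fintype G1] [Fintype G2]

/-- general form: the centralizer of the `p`-element `f (u1, u2)` is `G1 × G2` -/
theorem peel_gen (hM : IsPModular p M) (f : G1 × G2 →* G) (hf : Function.Injective f)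
    {u1 : G1} {u2 : G2} (hr : f.range = Subgroup.centralizer {f (u1, u2)})
    (hu : ∃ k : ℕ, orderOf (f (u1, u2)) = p ^ k) {B : Set (IrrCharacter G)} (hB : IsPBlock M B)
    {χ : IrrCharacter G} (hχ : χ ∈ B) (θ1 : IrrCharacter G1) (θ2 : IrrCharacter G2)
    (h : ∑ s1 : G1, ∑ s2 : G2, χ.1 (f (u1 * s1, u2 * s2)) * conj (pRegularPart p θ1.1 s1) *
      conj (pRegularPart p θ2.1 s2) ≠ 0) {D : Subgroup G} (hD : IsDefectGroup p M B D) :
    ∃ D1 D2, IsDefectGroup p M (blockOf M θ1.1) D1 ∧ IsDefectGroup p M (blockOf M θ2.1) D2 ∧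
      IsConjLE ((D1.prod D2).map f) D := by
  classical
  have := Fintype.ofFinite f.range
  set V := inducingChars M f.range B
  set a : IrrCharacter f.range → ℂ := fun ψ =>
    classInner (fun c : f.range => χ.1 (f (u1, u2) * c)) ψ.1
  have key : ∑ s1 : G1, ∑ s2 : G2, χ.1 (f (u1 * s1, u2 * s2)) * conj (pRegularPart p θ1.1 s1) *
      conj (pRegularPart p θ2.1 s2) = ∑ ψ ∈ irrFinset V, a ψ * ∑ s1 : G1, ∑ s2 : G2,
        ψ.1 (f.rangeRestrict (s1, s2)) * conj (pRegularPart p θ1.1 s1) *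
          conj (pRegularPart p θ2.1 s2) := by
    simp only [Finset.mul_sum]
    refine Eq.trans ?_ Finset.sum_comm
    refine Finset.sum_congr rfl fun s1 _ => ?_
    refine Eq.trans ?_ Finset.sum_comm
    refine Finset.sum_congr rfl fun s2 _ => ?_
    by_cases h1 : p ∣ orderOf s1
    · simp [pRegularPart, IsPRegular, h1]
    by_cases h2 : p ∣ orderOf s2
    · simp [pRegularPart, IsPRegular, h2]
    have h3 : ¬ p ∣ orderOf (f.rangeRestrict (s1, s2)) := by
      rw [orderOf_injective f.rangeRestrict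
        (fun a b hab => hf (congrArg Subtype.val hab)) (s1, s2)]
      exact not_dvd_orderOf_prod hM.1 h1 h2
    have h4 := hB.apply_section hM hu hr hχ h3
    have h5 : f (u1 * s1, u2 * s2) = f (u1, u2) * (f.rangeRestrict (s1, s2) : G) := by
      rw [MonoidHom.coe_rangeRestrict, ← map_mul]; rfl
    rw [h5, h4, blockPart_eq_sum_smul, Finset.sum_apply, Finset.sum_mul, Finset.sum_mul]
    refine Finset.sum_congr rfl fun ψ _ => ?_
    simp only [Pi.smul_apply, smul_eq_mul, a]
    ring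
  rw [key] at h
  obtain ⟨ψ, hψ, h⟩ := Finset.exists_ne_zero_of_sum_ne_zero h
  have hind := hM.mem_inducingChars_iff.1 (mem_irrFinset.1 hψ)
  obtain ⟨P, hP⟩ := (isPBlock_blockOf (M := M) ψ).exists_isDefectGroup hM
  obtain ⟨D1, D2, h1, h2, h3⟩ := exists_defect_prod_le hM f.rangeRestrict
    ⟨fun a b hab => hf (congrArg Subtype.val hab), f.rangeRestrict_surjective⟩ ψ θ1 θ2
    (right_ne_zero_of_mul h) hP
  obtain ⟨D', hD', h4⟩ := hind.exists_isDefectGroup_ge hM hP
  refine ⟨D1, D2, h1, h2, (IsConjLE.of_le ?_).trans (hD'.isConjLE hM hB hD)⟩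
  refine le_trans ?_ h4
  rintro _ ⟨x, hx, rfl⟩
  exact ⟨f.rangeRestrict x, h3 ⟨x, hx, rfl⟩, rfl⟩

theorem isConjLE_prod_map (f : G1 × G2 →* G) {D1 E1 : Subgroup G1} {D2 E2 : Subgroup G2}
    (h1 : IsConjLE E1 D1) (h2 : IsConjLE E2 D2) :
    IsConjLE ((E1.prod E2).map f) ((D1.prod D2).map f) := by
  obtain ⟨x1, h1⟩ := h1
  obtain ⟨x2, h2⟩ := h2
  refine ⟨f (x1, x2), ?_⟩
  rintro _ ⟨_, ⟨⟨a, b⟩, ⟨ha, hb⟩, rfl⟩, rfl⟩
  refine ⟨(x1 * a * x1⁻¹, x2 * b * x2⁻¹), ⟨h1 ⟨a, ha, rfl⟩, h2 ⟨b, hb, rfl⟩⟩, ?_⟩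
  simp only [MulEquiv.toMonoidHom_eq_coe, MonoidHom.coe_coe, MulAut.conj_apply, ← map_inv,
    ← map_mul]
  rfl

/-- the same for all defect groups of the two blocks -/
theorem peel_gen_all (hM : IsPModular p M) (f : G1 × G2 →* G) (hf : Function.Injective f)
    {u1 : G1} {u2 : G2} (hr : f.range = Subgroup.centralizer {f (u1, u2)})
    (hu : ∃ k : ℕ, orderOf (f (u1, u2)) = p ^ k) {B : Set (IrrCharacter G)} (hB : IsPBlock M B)
    {χ : IrrCharacter G} (hχ : χ ∈ B) (θ1 : IrrCharacter G1) (θ2 : IrrCharacter G2)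
    (h : ∑ s1 : G1, ∑ s2 : G2, χ.1 (f (u1 * s1, u2 * s2)) * conj (pRegularPart p θ1.1 s1) *
      conj (pRegularPart p θ2.1 s2) ≠ 0) {D : Subgroup G} (hD : IsDefectGroup p M B D)
    {D1 : Subgroup G1} {D2 : Subgroup G2} (h1 : IsDefectGroup p M (blockOf M θ1.1) D1)
    (h2 : IsDefectGroup p M (blockOf M θ2.1) D2) : IsConjLE ((D1.prod D2).map f) D := by
  obtain ⟨E1, E2, e1, e2, e3⟩ := peel_gen hM f hf hr hu hB hχ θ1 θ2 h hD
  exact (isConjLE_prod_map f (h1.isConjLE hM (isPBlock_blockOf θ1) e1)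
    (h2.isConjLE hM (isPBlock_blockOf θ2) e2)).trans e3

/-- PEEL, in the shape `u = f (1, u2)` -/
theorem peel (hM : IsPModular p M) (f : G1 × G2 →* G) (hf : Function.Injective f)
    {u2 : G2} (hr : f.range = Subgroup.centralizer {f (1, u2)})
    (hu : ∃ k : ℕ, orderOf u2 = p ^ k) {B : Set (IrrCharacter G)} (hB : IsPBlock M B)
    {χ : IrrCharacter G} (hχ : χ ∈ B) (θ1 : IrrCharacter G1) (θ2 : IrrCharacter G2)
    (h : ∑ s1 : G1, ∑ s2 : G2, χ.1 (f (s1, u2 * s2)) * conj (pRegularPart p θ1.1 s1) *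
      conj (pRegularPart p θ2.1 s2) ≠ 0) {D : Subgroup G} (hD : IsDefectGroup p M B D) :
    ∃ D1 D2, IsDefectGroup p M (blockOf M θ1.1) D1 ∧ IsDefectGroup p M (blockOf M θ2.1) D2 ∧
      u2 ∈ D2 ∧ IsConjLE ((D1.prod D2).map f) D := by
  have hu' : ∃ k : ℕ, orderOf (f (1, u2)) = p ^ k := by
    rw [orderOf_injective f hf, Prod.orderOf_mk, orderOf_one, Nat.lcm_one_left]; exact hu
  obtain ⟨D1, D2, h1, h2, h3⟩ := peel_gen hM f hf hr hu' hB hχ θ1 θ2 (by simpa using h) hD
  refine ⟨D1, D2, h1, h2, ?_, h3⟩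
  have hc : ∀ g : G2, g * u2 = u2 * g := fun g => by
    have : f (1, g) ∈ Subgroup.centralizer {f (1, u2)} := hr ▸ ⟨_, rfl⟩
    have := Subgroup.mem_centralizer_singleton_iff.1 this
    rw [← map_mul, ← map_mul] at this
    simpa using hf this
  have hn : (Subgroup.zpowers u2).Normal := ⟨by
    rintro _ ⟨k, rfl⟩ g
    have : Commute g u2 := hc g
    rw [(this.zpow_right k).eq, mul_inv_cancel_right]
    exact ⟨k, rfl⟩⟩
  exact h2.le_of_normal hM (isPBlock_blockOf θ2) (isPGroup_zpowers_of_orderOf hM.1 hu)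
    (Subgroup.mem_zpowers u2)

/-- expanding two class functions into irreducible characters -/
theorem exists_irr_of_sum_ne_zero (c : G1 → G2 → ℂ) {φ1 : G1 → ℂ} {φ2 : G2 → ℂ}
    (h1 : IsClassFunction G1 φ1) (h2 : IsClassFunction G2 φ2)
    (h : ∑ s1 : G1, ∑ s2 : G2, c s1 s2 * conj (pRegularPart p φ1 s1) *
      conj (pRegularPart p φ2 s2) ≠ 0) :
    ∃ (θ1 : IrrCharacter G1) (θ2 : IrrCharacter G2), classInner φ1 θ1.1 ≠ 0 ∧
      classInner φ2 θ2.1 ≠ 0 ∧ ∑ s1 : G1, ∑ s2 : G2, c s1 s2 * conj (pRegularPart p θ1.1 s1) *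
      conj (pRegularPart p θ2.1 s2) ≠ 0 := by
  have key : ∑ s1 : G1, ∑ s2 : G2, c s1 s2 * conj (pRegularPart p φ1 s1) *
      conj (pRegularPart p φ2 s2) = ∑ θ1 : IrrCharacter G1, ∑ θ2 : IrrCharacter G2,
        conj (classInner φ1 θ1.1) * conj (classInner φ2 θ2.1) * ∑ s1 : G1, ∑ s2 : G2,
          c s1 s2 * conj (pRegularPart p θ1.1 s1) * conj (pRegularPart p θ2.1 s2) := by
    have e1 : ∀ s1, pRegularPart p φ1 s1 =
        ∑ θ1 : IrrCharacter G1, classInner φ1 θ1.1 * pRegularPart p θ1.1 s1 := fun s1 => by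
      by_cases hs : p ∣ orderOf s1
      · simp [pRegularPart, IsPRegular, hs]
      · simpa [pRegularPart, IsPRegular, hs] using h1.eq_sum_irr s1
    have e2 : ∀ s2, pRegularPart p φ2 s2 =
        ∑ θ2 : IrrCharacter G2, classInner φ2 θ2.1 * pRegularPart p θ2.1 s2 := fun s2 => by
      by_cases hs : p ∣ orderOf s2
      · simp [pRegularPart, IsPRegular, hs]
      · simpa [pRegularPart, IsPRegular, hs] using h2.eq_sum_irr s2
    have e3 : ∀ s1 s2, c s1 s2 * conj (pRegularPart p φ1 s1) * conj (pRegularPart p φ2 s2) =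
        ∑ θ1 : IrrCharacter G1, ∑ θ2 : IrrCharacter G2,
          conj (classInner φ1 θ1.1) * conj (classInner φ2 θ2.1) *
          (c s1 s2 * conj (pRegularPart p θ1.1 s1) * conj (pRegularPart p θ2.1 s2)) := by
      intro s1 s2
      rw [e1, e2, mul_assoc, map_sum, map_sum, Finset.sum_mul_sum, Finset.mul_sum]
      refine Finset.sum_congr rfl fun θ1 _ => ?_
      rw [Finset.mul_sum]
      refine Finset.sum_congr rfl fun θ2 _ => ?_
      simp only [map_mul]
      ring
    simp only [e3, Finset.mul_sum]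
    rw [Finset.sum_congr rfl fun s1 _ => Finset.sum_comm, Finset.sum_comm]
    refine Finset.sum_congr rfl fun θ1 _ => ?_
    rw [Finset.sum_congr rfl fun s1 _ => Finset.sum_comm, Finset.sum_comm]
  rw [key] at h
  obtain ⟨θ1, -, h⟩ := Finset.exists_ne_zero_of_sum_ne_zero h
  obtain ⟨θ2, -, h⟩ := Finset.exists_ne_zero_of_sum_ne_zero h
  refine ⟨θ1, θ2, fun h0 => h ?_, fun h0 => h ?_, right_ne_zero_of_mul h⟩
  · rw [h0]; simp
  · rw [h0]; simp

/-- PEEL with class functions in place of the two irreducible characters -/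
theorem peel_cf (hM : IsPModular p M) (f : G1 × G2 →* G) (hf : Function.Injective f)
    {u2 : G2} (hr : f.range = Subgroup.centralizer {f (1, u2)})
    (hu : ∃ k : ℕ, orderOf u2 = p ^ k) {B : Set (IrrCharacter G)} (hB : IsPBlock M B)
    {χ : IrrCharacter G} (hχ : χ ∈ B) {φ1 : G1 → ℂ} {φ2 : G2 → ℂ}
    (h1 : IsClassFunction G1 φ1) (h2 : IsClassFunction G2 φ2)
    (h : ∑ s1 : G1, ∑ s2 : G2, χ.1 (f (s1, u2 * s2)) * conj (pRegularPart p φ1 s1) *
      conj (pRegularPart p φ2 s2) ≠ 0) {D : Subgroup G} (hD : IsDefectGroup p M B D) :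
    ∃ (θ1 : IrrCharacter G1) (θ2 : IrrCharacter G2), classInner φ1 θ1.1 ≠ 0 ∧
      classInner φ2 θ2.1 ≠ 0 ∧ ∃ D1 D2, IsDefectGroup p M (blockOf M θ1.1) D1 ∧
      IsDefectGroup p M (blockOf M θ2.1) D2 ∧ u2 ∈ D2 ∧ IsConjLE ((D1.prod D2).map f) D := by
  obtain ⟨θ1, θ2, e1, e2, e3⟩ :=
    exists_irr_of_sum_ne_zero (fun s1 s2 => χ.1 (f (s1, u2 * s2))) h1 h2 h
  exact ⟨θ1, θ2, e1, e2, peel hM f hf hr hu hB hχ θ1 θ2 e3 hD⟩

/-- PEEL from a single value: if `χ (f (s1, u2 * s2))`, paired on the regular `s1` with a class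
function, is nonzero at a regular `s2` -/
theorem peel_val (hM : IsPModular p M) (f : G1 × G2 →* G) (hf : Function.Injective f)
    {u2 : G2} (hr : f.range = Subgroup.centralizer {f (1, u2)})
    (hu : ∃ k : ℕ, orderOf u2 = p ^ k) {B : Set (IrrCharacter G)} (hB : IsPBlock M B)
    {χ : IrrCharacter G} (hχ : χ ∈ B) {φ1 : G1 → ℂ} (h1 : IsClassFunction G1 φ1)
    {t : G2} (ht : ¬ p ∣ orderOf t)
    (h : ∑ s1 : G1, χ.1 (f (s1, u2 * t)) * conj (pRegularPart p φ1 s1) ≠ 0)
    {D : Subgroup G} (hD : IsDefectGroup p M B D) :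
    ∃ (θ1 : IrrCharacter G1), classInner φ1 θ1.1 ≠ 0 ∧ ∃ D1, IsDefectGroup p M (blockOf M θ1.1) D1 ∧
      IsConjLE ((D1.prod (Subgroup.zpowers u2)).map f) D := by
  classical
  have hc : ∀ g : G2, g * u2 = u2 * g := fun g => by
    have : f (1, g) ∈ Subgroup.centralizer {f (1, u2)} := hr ▸ ⟨_, rfl⟩
    have := Subgroup.mem_centralizer_singleton_iff.1 this
    rw [← map_mul, ← map_mul] at this
    simpa using hf this
  set ψ : G2 → ℂ := fun s2 => ∑ s1 : G1, χ.1 (f (s1, u2 * s2)) * conj (pRegularPart p φ1 s1)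
  have hψ : IsClassFunction G2 ψ := by
    intro x g
    refine Finset.sum_congr rfl fun s1 _ => ?_
    have : f (s1, u2 * (g * x * g⁻¹)) = f (1, g) * f (s1, u2 * x) * (f (1, g))⁻¹ := by
      rw [← map_inv, ← map_mul, ← map_mul]
      congr 1
      ext
      · simp
      · simp only [Prod.snd_mul, Prod.snd_inv, ← mul_assoc, hc g]
    rw [this, χ.isClassFunction]
  have h3 : ∑ s1 : G1, ∑ s2 : G2, χ.1 (f (s1, u2 * s2)) * conj (pRegularPart p φ1 s1) *
      conj (pRegularPart p ψ s2) = ∑ s2 : G2, pRegularPart p ψ s2 * conj (pRegularPart p ψ s2) := by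
    rw [Finset.sum_comm]
    refine Finset.sum_congr rfl fun s2 _ => ?_
    rw [← Finset.sum_mul]
    by_cases hs : p ∣ orderOf s2
    · simp [pRegularPart, IsPRegular, hs]
    · simp only [pRegularPart, IsPRegular, hs, not_false_eq_true, if_true]
      rfl
  have h4 : ∑ s2 : G2, pRegularPart p ψ s2 * conj (pRegularPart p ψ s2) ≠ 0 := by
    intro h0
    have : classInner (pRegularPart p ψ) (pRegularPart p ψ) = 0 := by
      rw [classInner_def, h0, mul_zero]
    have := congrFun (classInner_self_eq_zero.1 this) t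
    simp only [pRegularPart, IsPRegular, ht, not_false_eq_true, if_true] at this
    exact h this
  obtain ⟨θ1, θ2, e1, -, D1, D2, e2, -, e3, e4⟩ :=
    peel_cf hM f hf hr hu hB hχ h1 hψ (h3 ▸ h4) hD
  exact ⟨θ1, e1, D1, e2, (IsConjLE.of_le (Subgroup.map_mono (Subgroup.prod_mono le_rfl
    (Subgroup.zpowers_le.2 e3)))).trans e4⟩

end peel

section res

variable {G : Type u} [Group G] [Finite G] {N : Subgroup G} [hN : N.Normal] [Fintype N]

theorem pRegularPart_conjChar (g : G) (θ : N → ℂ) :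
    pRegularPart p (conjChar g θ) = conjChar g (pRegularPart p θ) := by
  funext n
  have : orderOf (⟨g⁻¹ * n * g, hN.conj_mem' n n.2 g⟩ : N) = orderOf n := by
    rw [← Subgroup.orderOf_coe, ← Subgroup.orderOf_coe n]
    have h : (g⁻¹ * n * g : G) = (MulAut.conj g⁻¹) n := by simp
    simp only [h]
    exact MulEquiv.orderOf_eq _ _
  simp only [pRegularPart, IsPRegular, conjChar_apply, this]

/-- a `G`-invariant class function on `N` living in the blocks covered by `B` is determined by its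
part in one covered block -/
theorem eq_zero_of_blockPart_eq_zero (hM : IsPModular p M) {B : Set (IrrCharacter G)}
    (hB : IsPBlock M B) {b : Set (IrrCharacter N)} (hb : IsPBlock M b)
    (hcov : ∃ χ ∈ B, ∃ θ ∈ b, classInner (fun n : N => χ.1 n) θ.1 ≠ 0) {φ : N → ℂ}
    (hφ : φ ∈ (regSpan p B).map (regComapL p N.subtype)) (h0 : blockPart b φ = 0) : φ = 0 := by
  have hP : ∀ φ ∈ (regSpan p B).map (regComapL p N.subtype), IsClassFunction N φ ∧
      (∀ g : G, conjChar g φ = φ) ∧ ∀ η : IrrCharacter N, (∀ g : G, g • η ∉ b) →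
        classInner φ η.1 = 0 := by
    rintro _ ⟨ϑ, hϑ, rfl⟩
    refine ⟨((isClassFunction_of_mem_regSpan hϑ).comp N.subtype).pRegularPart p, fun g => ?_,
      fun η hη => ?_⟩
    · rw [regComapL_apply, ← pRegularPart_conjChar]
      congr 1
      exact (isClassFunction_of_mem_regSpan hϑ).conjChar_res g
    · obtain ⟨a, rfl⟩ := mem_regSpan_iff_exists.1 hϑ
      rw [map_sum, classInner_sum_left]
      refine Finset.sum_eq_zero fun χ hχ => ?_
      rw [map_smul, classInner_smul_left, regComapL_pRegularPart]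
      refine mul_eq_zero_of_right _ ?_
      by_contra hne
      have hne' : ∑ s : N, χ.1 s * conj (pRegularPart p η.1 s) ≠ 0 := by
        intro h1
        apply hne
        rw [classInner_def]
        refine mul_eq_zero_of_right _ (Eq.trans (Finset.sum_congr rfl fun s _ => ?_) h1)
        by_cases hs : p ∣ orderOf s <;> simp [pRegularPart, IsPRegular, hs]
      obtain ⟨ζ, hζ, hζ'⟩ := exists_mem_blockOf_of_regular hM (χ.isClassFunction.res N) η hne'
      obtain ⟨g, hg⟩ := hB.exists_smul_of_covers hM (isPBlock_blockOf η) hb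
        ⟨χ, mem_irrFinset.1 hχ, ζ, hζ, hζ'⟩ hcov
      exact hη g ((hg η).2 (hM.mem_blockOf_self η))
  obtain ⟨h1, h2, h3⟩ := hP φ hφ
  refine h1.eq_zero_of_classInner fun η => ?_
  by_cases hη : ∃ g : G, g • η ∈ b
  · obtain ⟨g, hg⟩ := hη
    rw [← classInner_conjChar g, h2, ← IrrCharacter.smul_val]
    exact blockPart_eq_zero_iff.1 h0 _ hg
  · push Not at hη
    exact h3 η hη

/-- RES: the regular parts of the restrictions of the members of a block covering `b` span a
space of dimension at most `l(b)` -/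
theorem finrank_res_le (hM : IsPModular p M) {B : Set (IrrCharacter G)}
    (hB : IsPBlock M B) {b : Set (IrrCharacter N)} (hb : IsPBlock M b)
    (hcov : ∃ χ ∈ B, ∃ θ ∈ b, classInner (fun n : N => χ.1 n) θ.1 ≠ 0) :
    Module.finrank ℂ ((regSpan p B).map (regComapL p N.subtype)) ≤ blockRank p b := by
  rw [blockRank_eq_finrank]
  have hm : ∀ φ ∈ (regSpan p B).map (regComapL p N.subtype), blockPartL b φ ∈ regSpan p b := by
    rintro _ ⟨ϑ, hϑ, rfl⟩
    rw [blockPartL_apply, regComapL_apply, (hb.isBlockUnion hM).blockPart_pRegularPart' hM]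
    exact pRegularPart_blockPart_mem _ _
  refine LinearMap.finrank_le_finrank_of_injective (f := (blockPartL b).restrict hm) ?_
  rw [← LinearMap.ker_eq_bot, eq_bot_iff]
  intro φ hφ
  exact Subtype.ext (eq_zero_of_blockPart_eq_zero hM hB hb hcov φ.2 (congrArg Subtype.val hφ))

theorem map_regSpan_res (B : Set (IrrCharacter G)) :
    (regSpan p B).map (regComapL p N.subtype) = Submodule.span ℂ
      ((fun χ : IrrCharacter G => pRegularPart p (fun n : N => χ.1 n)) '' B) := by
  rw [regSpan, Submodule.map_span, Set.image_image]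
  congr 1
  refine Set.image_congr fun χ _ => ?_
  exact regComapL_pRegularPart _ _

/-- RES in span form -/
theorem finrank_span_res_le (hM : IsPModular p M) {B : Set (IrrCharacter G)}
    (hB : IsPBlock M B) {b : Set (IrrCharacter N)} (hb : IsPBlock M b)
    (hcov : ∃ χ ∈ B, ∃ θ ∈ b, classInner (fun n : N => χ.1 n) θ.1 ≠ 0) :
    Module.finrank ℂ (Submodule.span ℂ
      ((fun χ : IrrCharacter G => pRegularPart p (fun n : N => χ.1 n)) '' B)) ≤ blockRank p b :=
  map_regSpan_res (N := N) (p := p) B ▸ finrank_res_le hM hB hb hcov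

end res

end Cfsg.GLn
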