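import Cfsg.Agent.GLn.Clif
import Cfsg.Agent.GLn.Peel
import Cfsg.Agent.Blk.Over
import Cfsg.Agent.CT.Gallagher
import Mathlib.GroupTheory.FiniteAbelian.Duality

/-! Clifford theory for an abelian quotient, in terms of equivariant functions. -/

set_option autoImplicit false
set_option linter.unusedSectionVars false
set_option linter.unusedVariables false

namespace Cfsg.GLn

open scoped ComplexConjugate

universe u v w x

variable {Γ : Type u} [Group Γ] [Fintype Γ] {p : ℕ} {M : Ideal AlgInt}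

/-! ### extension by zero -/

section ext

variable {P : Type v} [Group P] [Fintype P] {f : P →* Γ}

theorem sum_extend_mul (hf : Function.Injective f) (a : P → ℂ) (c : Γ → ℂ) :
    ∑ g, Function.extend f a 0 g * c g = ∑ x, a x * c (f x) := by
  classical
  symm
  refine Finset.sum_of_injOn f hf.injOn (fun _ _ => Finset.mem_univ _) (fun g _ hg => ?_)
    fun x _ => by rw [hf.extend_apply]
  rw [Function.extend_apply' _ _ _ (fun ⟨x, hx⟩ => hg ⟨x, by simp, hx⟩), Pi.zero_apply, zero_mul]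

theorem cv_extend (hf : Function.Injective f) (χ : Γ → ℂ) (a : P → ℂ) (x : P) :
    cv χ (Function.extend f a 0) (f x) = cv (fun y => χ (f y)) a x := by
  rw [cv_apply', cv_apply']
  simp only [mul_comm (χ _), sum_extend_mul hf, map_mul, map_inv]

theorem classInner_extend_right (hf : Function.Injective f) (c : Γ → ℂ) (a : P → ℂ) :
    classInner c (Function.extend f a 0) =
      (Nat.card P / Nat.card Γ : ℂ) * classInner (fun x => c (f x)) a := by
  rw [← conj_classInner, ← conj_classInner a, classInner_def, classInner_def, sum_extend_mul hf]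
  simp only [map_mul, map_inv₀, map_natCast]
  have := cardΓ_ne (Γ := P)
  field_simp

theorem cv_class_eq_sum {c : P → ℂ} (hc : IsClassFunction P c) (a : P → ℂ) :
    cv c a = ∑ η : IrrCharacter P, (classInner c η.1 * (Nat.card P / η.1 1)) • pjG η.1 a := by
  conv_lhs => rw [← sum_pjG (cv c a)]
  refine Finset.sum_congr rfl fun η _ => ?_
  rw [pjG_cv, pjG_class η hc, cv_smul_left, pjG_eq, smul_smul, mul_assoc,
    div_mul_div_cancel₀ η.one_ne_zero, div_self cardΓ_ne, mul_one]

/-- CL3 -/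
theorem pjG_extend_eq_zero (hf : Function.Injective f) (χ : IrrCharacter Γ) {a : P → ℂ}
    (h : ∀ η : IrrCharacter P, classInner (fun x => χ.1 (f x)) η.1 ≠ 0 → pjG η.1 a = 0) :
    pjG χ.1 (Function.extend f a 0) = 0 := by
  have h1 : cv (fun y => χ.1 (f y)) a = 0 := by
    rw [cv_class_eq_sum (χ.isClassFunction.comp f)]
    refine Finset.sum_eq_zero fun η _ => ?_
    by_cases h0 : classInner (fun x => χ.1 (f x)) η.1 = 0
    · rw [h0, zero_mul, zero_smul]
    · rw [h η h0, smul_zero]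
  rw [← classInner_self_eq_zero, classInner_pjG_pjG_self, classInner_extend_right hf]
  have : (fun x => pjG χ.1 (Function.extend f a 0) (f x)) = 0 := by
    funext x
    rw [pjG_eq, Pi.smul_apply, cv_extend hf, h1]
    simp
  rw [this, classInner_zero_left, mul_zero]

theorem pjG_extend_eq_zero_of_irr (hf : Function.Injective f) (χ : IrrCharacter Γ)
    (η : IrrCharacter P) (h0 : classInner (fun x => χ.1 (f x)) η.1 = 0) {a : P → ℂ}
    (ha : pjG η.1 a = a) : pjG χ.1 (Function.extend f a 0) = 0 :=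
  pjG_extend_eq_zero hf χ fun ζ hζ => by
    rw [← ha, pjG_pjG_ne]
    rintro rfl
    exact hζ h0

theorem pjG_extendByZero_eq_zero {K : Subgroup Γ} [Fintype K] (χ : IrrCharacter Γ)
    (η : IrrCharacter K) (h0 : classInner (fun x : K => χ.1 x) η.1 = 0) {a : K → ℂ}
    (ha : pjG η.1 a = a) : pjG χ.1 (extendByZero K a) = 0 :=
  pjG_extend_eq_zero_of_irr (f := K.subtype) K.subtype_injective χ η h0 ha

/-- the constituents of the restriction of a `χ`-isotypic function lie under `χ` -/
theorem classInner_res_pjG_eq_zero (hf : Function.Injective f) (χ : IrrCharacter Γ)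
    (η : IrrCharacter P) (h0 : classInner (fun x => χ.1 (f x)) η.1 = 0) (a : Γ → ℂ) :
    classInner (fun x => pjG χ.1 a (f x)) η.1 = 0 := by
  have h1 := classInner_extend_right hf (pjG χ.1 a) η.1
  rw [classInner_pjG, pjG_extend_eq_zero_of_irr hf χ η h0 (pjG_irr_self η),
    classInner_zero_right] at h1
  exact (mul_eq_zero.1 h1.symm).resolve_left (div_ne_zero cardΓ_ne cardΓ_ne)

theorem eq_extendByZero {K : Subgroup Γ} {b : Γ → ℂ} (hb : ∀ g, g ∉ K → b g = 0) :
    b = extendByZero K (fun x : K => b x) := by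
  funext g
  by_cases hg : g ∈ K
  · rw [extendByZero_of_mem _ _ hg]
  · rw [extendByZero_of_not_mem _ _ hg, hb g hg]

theorem classInner_of_supp {K : Subgroup Γ} [Fintype K] (a : Γ → ℂ) {b : Γ → ℂ}
    (hb : ∀ g, g ∉ K → b g = 0) : classInner a b =
      (Nat.card K / Nat.card Γ : ℂ) * classInner (fun x : K => a x) (fun x : K => b x) := by
  conv_lhs => rw [eq_extendByZero hb]
  exact classInner_extend_right (f := K.subtype) K.subtype_injective a _

theorem pRegularPart_res (K : Subgroup Γ) (a : Γ → ℂ) :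
    (fun x : K => pRegularPart p a x) = pRegularPart p (fun x : K => a x) := by
  funext x
  by_cases h : p ∣ orderOf x <;> simp [pRegularPart, IsPRegular, h]

end ext

/-! ### CL2 -/

theorem Eqv.isClassFunction_res {w : Γ →* ℂˣ} {a : Γ → ℂ} (ha : Eqv w a) {K : Subgroup Γ}
    (hK : K ≤ w.ker) : IsClassFunction K (fun x : K => a x) := fun g z => by
  have := ha g z
  rw [MonoidHom.mem_ker.1 (hK z.2), Units.val_one, one_mul] at this
  exact this

theorem exists_twist_pow_of_over {w : Γ →* ℂˣ} [Fintype w.ker] {χ ψ : IrrCharacter Γ}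
    {η : IrrCharacter w.ker} (h1 : classInner (fun x : w.ker => χ.1 x) η.1 ≠ 0)
    (h2 : classInner (fun x : w.ker => ψ.1 x) η.1 ≠ 0) : ∃ j : ℕ, χ.twist (w ^ j) = ψ := by
  classical
  have h3 := (χ.isCharacter.res _).classInner_ne_zero_of_common (ψ.isCharacter.res _) η h1 h2
  by_contra hc
  push Not at hc
  have h4 : ∑ j ∈ Finset.range (Nat.card Γ), classInner (χ.twist (w ^ j)).1 ψ.1 = 0 :=
    Finset.sum_eq_zero fun j _ => IrrCharacter.classInner_of_ne (hc j)
  rw [← classInner_sum_left, ← conj_classInner, map_eq_zero,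
    classInner_of_supp (K := w.ker)] at h4
  · have h5 : (fun x : w.ker => (∑ j ∈ Finset.range (Nat.card Γ), (χ.twist (w ^ j)).1) x) =
        fun x : w.ker => (Nat.card Γ : ℂ) * χ.1 x := by
      funext x
      simp [Finset.sum_apply, MonoidHom.mem_ker.1 x.2]
    rw [h5, classInner_const_mul_right, map_natCast, ← conj_classInner] at h4
    simp only [mul_eq_zero, div_eq_zero_iff, cardΓ_ne, map_eq_zero, or_self, false_or] at h4
    exact h3 h4
  · intro g hg
    simp only [Finset.sum_apply, IrrCharacter.twist_apply, MonoidHom.pow_apply,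
      Units.val_pow_eq_pow_val, ← Finset.sum_mul]
    rw [geom_sum_eq (fun h => hg (Units.ext h)), ← Units.val_pow_eq_pow_val, ← map_pow,
      pow_card_eq_one', map_one]
    simp

theorem twist_pow_mem {w : Γ →* ℂˣ} {U : Set (IrrCharacter Γ)} (hw : ∀ χ ∈ U, χ.twist w ∈ U)
    {χ : IrrCharacter Γ} (hχ : χ ∈ U) (j : ℕ) : χ.twist (w ^ j) ∈ U := by
  induction j with
  | zero =>
    have : χ.twist (w ^ 0) = χ := Subtype.ext (funext fun g => by simp)
    rwa [this]
  | succ j ih =>
    have : χ.twist (w ^ (j + 1)) = (χ.twist (w ^ j)).twist w :=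
      Subtype.ext (funext fun g => by simp [pow_succ]; ring)
    rw [this]
    exact hw _ ih

theorem isBlockUnion_under (hM : IsPModular p M) {K : Subgroup Γ} [K.Normal] [Fintype K]
    {U : Set (IrrCharacter Γ)} (hU : IsBlockUnion M U) :
    IsBlockUnion M {η : IrrCharacter K | ∃ χ ∈ U, classInner (fun x : K => χ.1 x) η.1 ≠ 0} := by
  rintro η ⟨χ, hχ, h⟩ ζ hζ
  have := range_subtype_normal (N := K)
  exact IsPBlock.exists_over_of_covers_hom (f := K.subtype) hM K.subtype_injective hU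
    (isPBlock_blockOf η) ⟨χ, hχ, η, hM.mem_blockOf_self η, h⟩ hζ

/-- CL2 -/
theorem classInner_pRegularPart_pjG_eq_zero (hM : IsPModular p M) {U : Set (IrrCharacter Γ)}
    (hU : IsBlockUnion M U) {w : Γ →* ℂˣ} (hw : ∀ χ ∈ U, χ.twist w ∈ U)
    {χ χ2 : IrrCharacter Γ} (hχ : χ ∈ U) (hχ2 : χ2 ∉ U) {a b : Γ → ℂ} (ha : Eqv w a)
    (hb : Eqv w b) : classInner (pRegularPart p (pjG χ.1 a)) (pjG χ2.1 b) = 0 := by
  classical
  have := Fintype.ofFinite w.ker
  have hV := isBlockUnion_under (K := w.ker) hM hU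
  set V := {η : IrrCharacter w.ker | ∃ χ ∈ U, classInner (fun x : w.ker => χ.1 x) η.1 ≠ 0}
  rw [classInner_of_supp (K := w.ker) _ fun g hg => (hb.pjG χ2).apply_eq_zero hg, pRegularPart_res]
  have h1 : blockPart V (fun x : w.ker => pjG χ.1 a x) = fun x : w.ker => pjG χ.1 a x := by
    rw [((ha.pjG χ).isClassFunction_res le_rfl).blockPart_eq_self_iff]
    intro η hη
    refine classInner_res_pjG_eq_zero (f := w.ker.subtype) w.ker.subtype_injective χ η ?_ a
    by_contra h0
    exact hη ⟨χ, hχ, h0⟩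
  have h2 : blockPart V (fun x : w.ker => pjG χ2.1 b x) = 0 := by
    rw [blockPart_eq_zero_iff]
    rintro η ⟨χ', hχ', h'⟩
    refine classInner_res_pjG_eq_zero (f := w.ker.subtype) w.ker.subtype_injective χ2 η ?_ b
    by_contra h0
    obtain ⟨j, hj⟩ := exists_twist_pow_of_over h' h0
    exact hχ2 (hj ▸ twist_pow_mem hw hχ' j)
  rw [← h1, ← hV.blockPart_pRegularPart' hM, classInner_blockPart_left, h2, classInner_zero_right,
    mul_zero]

/-! ### abelian quotients -/

section ab

variable {A : Type v} [CommGroup A] [Finite A] [Fintype (A →* ℂˣ)]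

theorem enoughRoots (A : Type v) [CommGroup A] [Finite A] :
    HasEnoughRootsOfUnity ℂ (Monoid.exponent A) :=
  have : NeZero (Monoid.exponent A : ℂ) := ⟨Nat.cast_ne_zero.2 Monoid.exponent_ne_zero_of_finite⟩
  inferInstance

theorem card_dual (A : Type v) [CommGroup A] [Finite A] : Nat.card (A →* ℂˣ) = Nat.card A :=
  have := enoughRoots A
  CommGroup.card_monoidHom_of_hasEnoughRootsOfUnity A ℂ

theorem sum_dual_one : ∑ ω : A →* ℂˣ, (ω 1 : ℂ) = Nat.card A := by
  simp [← card_dual A]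

theorem sum_dual_ne {a : A} (ha : a ≠ 1) : ∑ ω : A →* ℂˣ, (ω a : ℂ) = 0 := by
  have := enoughRoots A
  obtain ⟨φ, hφ⟩ := CommGroup.exists_apply_ne_one_of_hasEnoughRootsOfUnity A ℂ ha
  have h1 : ∑ ω : A →* ℂˣ, (ω a : ℂ) = φ a * ∑ ω : A →* ℂˣ, (ω a : ℂ) := by
    rw [Finset.mul_sum]
    exact (Fintype.sum_equiv (Equiv.mulLeft φ) _ _ fun ω => by simp).symm
  have h2 : (1 - (φ a : ℂ)) * ∑ ω : A →* ℂˣ, (ω a : ℂ) = 0 := by linear_combination h1
  refine (mul_eq_zero.1 h2).resolve_left fun h => hφ (Units.ext ?_)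
  rw [Units.val_one]; linear_combination -h

variable {δ : Γ →* A}

theorem card_ker_mul (hδ : Function.Surjective δ) :
    (Nat.card A : ℂ) * Nat.card δ.ker = Nat.card Γ := by
  rw [← Nat.cast_mul, ← Nat.card_congr (QuotientGroup.quotientKerEquivOfSurjective δ hδ).toEquiv,
    ← Subgroup.card_eq_card_quotient_mul_card_subgroup]

theorem card_mul_div (hδ : Function.Surjective δ) :
    (Nat.card A : ℂ) * (Nat.card δ.ker / Nat.card Γ) = 1 := by
  rw [← mul_div_assoc, card_ker_mul hδ, div_self cardΓ_ne]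

/-- inner products on the kernel -/
theorem classInner_res_ker (hδ : Function.Surjective δ) [Fintype δ.ker] (a b : Γ → ℂ) :
    classInner (fun x : δ.ker => a x) (fun x : δ.ker => b x) =
      ∑ l : A →* ℂˣ, classInner a (fun g => l (δ g) * b g) := by
  rw [← classInner_sum_right, classInner_of_supp (K := δ.ker)]
  · have h5 : (fun x : δ.ker => (∑ l : A →* ℂˣ, fun g => (l (δ g) : ℂ) * b g) x) =
        fun x : δ.ker => (Nat.card A : ℂ) * b x := by
      funext x
      rw [Finset.sum_apply, ← Finset.sum_mul, MonoidHom.mem_ker.1 x.2, sum_dual_one]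
    rw [h5, classInner_const_mul_right, map_natCast, ← mul_assoc, mul_comm _ (Nat.card A : ℂ),
      card_mul_div hδ, one_mul]
  · intro g hg
    rw [Finset.sum_apply, ← Finset.sum_mul, sum_dual_ne hg, zero_mul]

theorem comp_injective (hδ : Function.Surjective δ) {ω ω' : A →* ℂˣ}
    (h : ω.comp δ = ω'.comp δ) : ω = ω' := (MonoidHom.cancel_right hδ).1 h

/-- the component of a sum of equivariant functions -/
theorem eqv_component (hδ : Function.Surjective δ) {γ : (A →* ℂˣ) → Γ → ℂ}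
    (hγ : ∀ ω, Eqv (ω.comp δ) (γ ω)) (ω : A →* ℂˣ) (x : Γ) :
    (Nat.card Γ : ℂ) * γ ω x = ∑ z, conj (ω (δ z) : ℂ) * ∑ ω', γ ω' (z * x * z⁻¹) := by
  classical
  simp only [Finset.mul_sum]
  rw [Finset.sum_comm, Finset.sum_eq_single ω]
  · have : ∀ z, conj (ω (δ z) : ℂ) * γ ω (z * x * z⁻¹) = γ ω x := fun z => by
      rw [hγ ω x z, conj_unitsHom, ← mul_assoc, MonoidHom.comp_apply, ← Units.val_mul, ← map_mul,
        inv_mul_cancel, map_one, Units.val_one, one_mul]
    simp [this]
  · intro ω' _ h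
    have : ∀ z, conj (ω (δ z) : ℂ) * γ ω' (z * x * z⁻¹) =
        ((Units.coeHom ℂ).comp ((ω⁻¹ * ω').comp δ)) z * γ ω' x := fun z => by
      rw [hγ ω' x z, conj_unitsHom, ← mul_assoc]
      simp
    simp only [this, ← Finset.sum_mul]
    rw [sum_hom_units_eq_zero, zero_mul]
    intro h1
    refine h (comp_injective hδ (MonoidHom.ext fun z => ?_))
    have := DFunLike.congr_fun h1 z
    simp only [MonoidHom.comp_apply, MonoidHom.mul_apply, MonoidHom.inv_apply, Units.coeHom_apply,
      MonoidHom.one_apply, Units.val_eq_one, inv_mul_eq_one] at this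
    exact this.symm
  · simp

theorem eqv_supp (hδ : Function.Surjective δ) {γ : (A →* ℂˣ) → Γ → ℂ}
    (hγ : ∀ ω, Eqv (ω.comp δ) (γ ω)) (h : ∀ g, g ∉ δ.ker → ∑ ω, γ ω g = 0) (ω : A →* ℂˣ)
    (g : Γ) (hg : g ∉ δ.ker) : γ ω g = 0 := by
  have := eqv_component hδ hγ ω g
  rw [Finset.sum_eq_zero] at this
  · exact (mul_eq_zero.1 this).resolve_left cardΓ_ne
  · intro z _
    rw [h _ fun h1 => hg (by simpa using h1), mul_zero]

theorem classInner_sum_eqv (hδ : Function.Surjective δ) {γ : (A →* ℂˣ) → Γ → ℂ}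
    (hγ : ∀ ω, Eqv (ω.comp δ) (γ ω)) {ω : A →* ℂˣ} {a : Γ → ℂ} (ha : Eqv (ω.comp δ) a) :
    classInner a (∑ ω', γ ω') = classInner a (γ ω) := by
  rw [classInner_sum_right, Finset.sum_eq_single ω]
  · intro ω' _ h
    exact ha.classInner_eq_zero (hγ ω') fun h1 => h (comp_injective hδ h1).symm
  · simp

theorem exists_unique_common {K : Type w} [Group K] [Fintype K] {φ θ : K → ℂ}
    (hφ : IsCharacter K φ) (hθ : IsCharacter K θ) (h : classInner φ θ = 1) :
    ∃ θ0 : IrrCharacter K, classInner φ θ0.1 = 1 ∧ classInner θ θ0.1 = 1 ∧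
      ∀ η : IrrCharacter K, η ≠ θ0 → classInner φ η.1 ≠ 0 → classInner θ η.1 = 0 := by
  classical
  choose m hm using fun η : IrrCharacter K => hφ.exists_classInner_eq_nat η.isCharacter
  choose n hn using fun η : IrrCharacter K => hθ.exists_classInner_eq_nat η.isCharacter
  rw [hφ.isClassFunction.classInner_eq_sum hθ.isClassFunction] at h
  simp only [hm, hn, map_natCast, ← Nat.cast_mul, ← Nat.cast_sum, Nat.cast_eq_one] at h
  obtain ⟨θ0, -, h0⟩ := Finset.exists_ne_zero_of_sum_ne_zero (h ▸ one_ne_zero)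
  rw [← Finset.add_sum_erase _ _ (Finset.mem_univ θ0)] at h
  have h1 : m θ0 * n θ0 = 1 := by omega
  have h2 : ∑ η ∈ Finset.univ.erase θ0, m η * n η = 0 := by omega
  refine ⟨θ0, by rw [hm, Nat.eq_one_of_mul_eq_one_right h1, Nat.cast_one],
    by rw [hn, Nat.eq_one_of_mul_eq_one_left h1, Nat.cast_one], fun η hη h3 => ?_⟩
  have := Finset.sum_eq_zero_iff.1 h2 η (by simp [hη])
  rw [hm, Nat.cast_ne_zero] at h3
  rw [hn, (mul_eq_zero.1 this).resolve_left h3, Nat.cast_zero]

variable [Fintype δ.ker]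

/-- the distinguished constituent -/
theorem exists_theta0 (hδ : Function.Surjective δ) {γ : (A →* ℂˣ) → Γ → ℂ}
    (hγ : ∀ ω, Eqv (ω.comp δ) (γ ω)) {θ : δ.ker → ℂ} (hθ : IsCharacter δ.ker θ)
    (hs : ∀ g, ∑ ω, γ ω g = Nat.card A * extendByZero δ.ker θ g) {χ : IrrCharacter Γ}
    (h1 : classInner χ.1 (γ 1) = 1) :
    ∃ θ0 : IrrCharacter δ.ker, classInner (fun x : δ.ker => χ.1 x) θ0.1 = 1 ∧
      classInner θ θ0.1 = 1 ∧ (∀ η : IrrCharacter δ.ker, η ≠ θ0 →
        classInner (fun x : δ.ker => χ.1 x) η.1 ≠ 0 → classInner θ η.1 = 0) ∧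
      ∀ x : δ.ker, ∑ ω, pjG χ.1 (γ ω) x = χ.1 1 / θ0.1 1 * θ0.1 x := by
  have hs' : ∑ ω, γ ω = (Nat.card A : ℂ) • extendByZero δ.ker θ := by
    funext g; rw [Finset.sum_apply, hs]; rfl
  have h2 : classInner (fun x : δ.ker => χ.1 x) θ = 1 := by
    rw [← classInner_sum_eqv hδ hγ (ω := 1) (eqv_one_iff.2 χ.isClassFunction), hs',
      classInner_smul_right, map_natCast] at h1
    erw [classInner_extend_right (f := δ.ker.subtype) δ.ker.subtype_injective] at h1
    rwa [← mul_assoc, card_mul_div hδ, one_mul] at h1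
  obtain ⟨θ0, e1, e2, e3⟩ := exists_unique_common (χ.isCharacter.res _) hθ h2
  refine ⟨θ0, e1, e2, e3, fun x => ?_⟩
  rw [← Finset.sum_apply, ← pjG_sum, hs', pjG_smul, pjG_eq, Pi.smul_apply, Pi.smul_apply]
  erw [cv_extend (f := δ.ker.subtype) δ.ker.subtype_injective]
  rw [cv_class_eq_sum (χ.isClassFunction.comp _), Finset.sum_eq_single θ0]
  · erw [e1]
    rw [pjG_class θ0 hθ.isClassFunction, e2]
    simp only [Pi.smul_apply, smul_eq_mul, one_mul]
    have := card_mul_div hδ
    linear_combination (χ.1 1 / θ0.1 1 * θ0.1 x) * this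
  · intro η _ hη
    by_cases h0 : classInner (fun x : δ.ker => χ.1 x) η.1 = 0
    · erw [h0]; rw [zero_mul, zero_smul]
    · rw [pjG_class η hθ.isClassFunction, e3 η hη h0, zero_smul, smul_zero]
  · simp

open ComplexOrder in
/-- NORM -/
theorem norm_pjG_eq_one (hδ : Function.Surjective δ) {γ : (A →* ℂˣ) → Γ → ℂ}
    (hγ : ∀ ω, Eqv (ω.comp δ) (γ ω)) {θ : δ.ker → ℂ} (hθ : IsCharacter δ.ker θ)
    (hs : ∀ g, ∑ ω, γ ω g = Nat.card A * extendByZero δ.ker θ g) {χ : IrrCharacter Γ}
    (h1 : classInner χ.1 (γ 1) = 1) {ω : A →* ℂˣ} (hω : ∀ g, (ω (δ g) : ℂ) * χ.1 g = χ.1 g) :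
    classInner (pjG χ.1 (γ ω)) (pjG χ.1 (γ ω)) = 1 := by
  classical
  obtain ⟨θ0, e1, e2, e3, e4⟩ := exists_theta0 hδ hγ hθ hs h1
  have hs' : ∑ ω, γ ω = (Nat.card A : ℂ) • extendByZero δ.ker θ := by
    funext g; rw [Finset.sum_apply, hs]; rfl
  obtain ⟨e, -, f1, -, f2, f3, -⟩ := clifford χ (θ := θ0) (by rw [e1]; exact one_ne_zero)
  rw [e1, eq_comm, Nat.cast_eq_one] at f1
  subst f1
  set T := charInertia θ0.1
  have hr : χ.1 1 / θ0.1 1 = T.index := by
    rw [div_eq_iff θ0.one_ne_zero, χ.one_eq_charDegree, θ0.one_eq_charDegree, f2]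
    simp
  have hT : (T.index : ℂ) * Nat.card T = Nat.card Γ := by
    rw [← Nat.cast_mul, Subgroup.index_mul_card]
  have hT0 : (Nat.card T : ℂ) ≠ 0 := Nat.cast_ne_zero.2 Nat.card_pos.ne'
  -- the formula for the norms
  have key : ∀ ω : A →* ℂˣ, (Nat.card T : ℂ) * classInner (pjG χ.1 (γ ω)) (pjG χ.1 (γ ω)) =
      ∑ z : T, conj (ω (δ z) : ℂ) := by
    intro ω
    rw [classInner_pjG_pjG_self, ← classInner_sum_eqv hδ hγ ((hγ ω).pjG χ), hs',
      classInner_smul_right, map_natCast]
    erw [classInner_extend_right (f := δ.ker.subtype) δ.ker.subtype_injective]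
    rw [← mul_assoc (Nat.card A : ℂ), card_mul_div hδ, one_mul]
    have g1 : (fun x : δ.ker => pjG χ.1 (γ ω) (δ.ker.subtype x)) =
        ∑ z : Γ, (conj (ω (δ z) : ℂ) * (Nat.card T : ℂ)⁻¹) • (z⁻¹ • θ0).1 := by
      funext x
      have := eqv_component hδ (fun ω => (hγ ω).pjG χ) ω x
      refine mul_left_cancel₀ cardΓ_ne (this.trans ?_)
      rw [Finset.sum_apply, Finset.mul_sum]
      refine Finset.sum_congr rfl fun z _ => ?_
      rw [e4 ⟨z * x * z⁻¹, δ.normal_ker.conj_mem _ x.2 z⟩, hr, Pi.smul_apply,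
        IrrCharacter.inv_smul_apply, ← hT, smul_eq_mul]
      field_simp
    rw [g1, classInner_sum_left, Finset.mul_sum, ← Finset.sum_subtype (Finset.univ.filter (· ∈ T))
      (p := (· ∈ T)) (by simp) (fun z => conj (ω (δ z) : ℂ)), Finset.sum_filter]
    refine Finset.sum_congr rfl fun z _ => ?_
    rw [classInner_smul_left, ← conj_classInner]
    split_ifs with hz
    · rw [IrrCharacter.mem_charInertia_iff.1 (T.inv_mem hz), e2, map_one]
      field_simp
    · rw [e3 _ (fun h => hz (by simpa using T.inv_mem (IrrCharacter.mem_charInertia_iff.2 h)))]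
      · simp
      · rw [IrrCharacter.classInner_res_smul χ.isClassFunction, e1]; exact one_ne_zero
  have k01 : ∀ ω : A →* ℂˣ, classInner (pjG χ.1 (γ ω)) (pjG χ.1 (γ ω)) = 0 ∨
      classInner (pjG χ.1 (γ ω)) (pjG χ.1 (γ ω)) = 1 := by
    intro ω
    have := key ω
    by_cases h : (Units.coeHom ℂ).comp ((ω⁻¹.comp δ).comp T.subtype) = 1
    · right
      have h2 : ∀ z : T, conj (ω (δ z) : ℂ) = 1 := fun z => by
        rw [conj_unitsHom]; simpa using DFunLike.congr_fun h z
      simp only [h2, Finset.sum_const, Finset.card_univ, nsmul_eq_mul, mul_one,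
        ← Nat.card_eq_fintype_card] at this
      exact mul_left_cancel₀ hT0 (this.trans (mul_one _).symm)
    · left
      have h2 := sum_hom_units_eq_zero _ h
      have h3 : ∑ z : T, conj (ω (δ z) : ℂ) = 0 := by
        rw [← h2]
        exact Finset.sum_congr rfl fun z _ => by rw [conj_unitsHom]; simp
      exact (mul_eq_zero.1 (this.trans h3)).resolve_left hT0
  have ksum : ∑ ω : A →* ℂˣ, classInner (pjG χ.1 (γ ω)) (pjG χ.1 (γ ω)) = T.index := by
    refine mul_left_cancel₀ hT0 ?_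
    rw [Finset.mul_sum, Finset.sum_congr rfl fun ω _ => key ω, Finset.sum_comm, mul_comm, hT,
      ← card_ker_mul hδ]
    have hKT : δ.ker ≤ T := θ0.le_charInertia
    rw [← Finset.sum_subtype (Finset.univ.filter (· ∈ T)) (p := (· ∈ T)) (by simp)
      (fun z => ∑ ω : A →* ℂˣ, conj (ω (δ z) : ℂ)),
      ← Finset.sum_subset (s₁ := Finset.univ.filter (· ∈ δ.ker))]
    · rw [Finset.sum_congr rfl (g := fun _ => (Nat.card A : ℂ)), Finset.sum_const, nsmul_eq_mul,
        mul_comm, Nat.card_eq_fintype_card (α := δ.ker), Fintype.card_subtype]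
      intro z hz
      rw [← map_sum, MonoidHom.mem_ker.1 (Finset.mem_filter.1 hz).2, sum_dual_one, map_natCast]
    · intro z hz
      simpa using hKT (Finset.mem_filter.1 hz).2
    · intro z _ hz
      rw [← map_sum, sum_dual_ne (by simpa using hz), map_zero]
  have ksum2 : ∑ ω : A →* ℂˣ, classInner χ.1 (χ.twist (ω.comp δ)).1 = T.index := by
    rw [classInner_res_ker hδ] at f3
    exact f3.trans (by simp [T])
  have kz : ∑ ω : A →* ℂˣ, (classInner χ.1 (χ.twist (ω.comp δ)).1 -
      classInner (pjG χ.1 (γ ω)) (pjG χ.1 (γ ω))) = 0 := by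
    rw [Finset.sum_sub_distrib, ksum, ksum2, sub_self]
  rw [Finset.sum_eq_zero_iff_of_nonneg] at kz
  · have := kz ω (Finset.mem_univ _)
    rw [show χ.twist (ω.comp δ) = χ from Subtype.ext (funext hω), χ.classInner_self] at this
    linear_combination -this
  · intro ω' _
    by_cases h : χ.twist (ω'.comp δ) = χ
    · rw [h, χ.classInner_self]
      rcases k01 ω' with h | h <;> rw [h] <;> simp
    · rw [IrrCharacter.classInner_of_ne (Ne.symm h), (hγ ω').pjG_eq_zero h]
      simp

end ab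

end Cfsg.GLn
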