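import Cfsg.Agent.GLn.ClifB

/-! The abstract descent from a group to the kernel of a map onto an abelian group. -/

set_option autoImplicit false
set_option linter.unusedSectionVars false
set_option linter.unusedVariables false

namespace Cfsg.GLn

open scoped ComplexConjugate

universe u v w x

theorem blockRank_biUnion {K : Type u} [Group K] [Finite K] {p : ℕ} {M : Ideal AlgInt}
    (hM : IsPModular p M) {T : Type v} (V : T → Set (IrrCharacter K))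
    (hV : ∀ t, IsBlockUnion M (V t)) (hd : ∀ t t', t ≠ t' → Disjoint (V t) (V t'))
    (s : Finset T) : blockRank p (⋃ t ∈ s, V t) = ∑ t ∈ s, blockRank p (V t) := by
  classical
  induction s using Finset.induction_on with
  | empty => simp
  | insert a s ha ih =>
    rw [Finset.set_biUnion_insert, Finset.sum_insert ha, ← ih, (hV a).blockRank_union hM]
    · intro χ hχ ψ h
      simp only [Set.mem_iUnion] at hχ ⊢
      obtain ⟨t, ht, h1⟩ := hχ
      exact ⟨t, ht, hV t χ h1 ψ h⟩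
    · simp only [Set.disjoint_iUnion_right]
      exact fun t ht => hd a t fun h => ha (h ▸ ht)

theorem finrank_finset_sup_le {V : Type u} [AddCommGroup V] [Module ℂ V] [FiniteDimensional ℂ V]
    {T : Type v} (S : T → Submodule ℂ V) (s : Finset T) :
    Module.finrank ℂ (s.sup S : Submodule ℂ V) ≤ ∑ t ∈ s, Module.finrank ℂ (S t) := by
  classical
  induction s using Finset.induction_on with
  | empty => simp
  | insert a s ha ih =>
    rw [Finset.sup_insert, Finset.sum_insert ha]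
    exact (Submodule.finrank_add_le_finrank_add_finrank _ _).trans (Nat.add_le_add_left ih _)

theorem blockRank_smul {Γ : Type u} [Group Γ] [Finite Γ] {N : Subgroup Γ} [N.Normal] {p : ℕ}
    (hp : p.Prime) (B : Set (IrrCharacter N)) (g : Γ) :
    blockRank p {ψ : IrrCharacter N | g • ψ ∈ B} = blockRank p B := by
  refine (blockRank_eq_of_mulEquiv hp (MulAut.conjNormal g : MulAut N) fun χ ψ h => ?_).symm
  have : g • ψ = χ := Subtype.ext (funext fun n => by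
    rw [IrrCharacter.smul_apply, h]
    exact congrArg χ.1 (Subtype.ext (by simp [mul_assoc])))
  rw [← this]
  rfl

/-- the abstract data: labelled irreducible characters, unions of blocks, and the twisted
Gelfand–Graev type functions -/
structure Ab (p : ℕ) (Γ : Type u) [Group Γ] [Fintype Γ] (A : Type v) [CommGroup A] [Finite A]
    [Fintype (A →* ℂˣ)] (ι : Type w) (C : Type x) where
  δ : Γ →* A
  onto : Function.Surjective δ
  χ : ι → IrrCharacter Γ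
  bij : Function.Bijective χ
  act : (A →* ℂˣ) → ι → ι
  χ_act : ∀ ω μ g, (χ (act ω μ)).1 g = ω (δ g) * (χ μ).1 g
  cd : ι → C
  cd_orth : ∀ μ ν, cd μ ≠ cd ν → classInner (pRegularPart p (χ μ).1) (χ ν).1 = 0
  cd_act : ∀ ω μ ν, cd μ = cd ν → cd (act ω μ) = cd (act ω ν)
  γ : (A →* ℂˣ) → ι → Γ → ℂ
  eqv : ∀ ω μ, Eqv (ω.comp δ) (γ ω μ)
  γ_act : ∀ ω ω₂ μ, γ ω (act ω₂ μ) = γ ω μ
  sum_γ : ∀ μ, ∃ θ : δ.ker → ℂ, IsCharacter δ.ker θ ∧
    ∀ g, ∑ ω, γ ω μ g = Nat.card A * extendByZero δ.ker θ g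
  ip_γ : ∀ μ, classInner (χ μ).1 (γ 1 μ) = 1

namespace Ab

variable {p : ℕ} {Γ : Type u} [Group Γ] [Fintype Γ] {A : Type v} [CommGroup A] [Finite A]
  [Fintype (A →* ℂˣ)] {ι : Type w} {C : Type x} (S : Ab p Γ A ι C) {M : Ideal AlgInt}

/-- the normalised twisted components -/
noncomputable def s (ω : A →* ℂˣ) (μ : ι) : Γ → ℂ := pjG (S.χ μ).1 (S.γ ω μ)

theorem s_def (ω : A →* ℂˣ) (μ : ι) : S.s ω μ = pjG (S.χ μ).1 (S.γ ω μ) := rfl

theorem χ_act' (ω : A →* ℂˣ) (μ : ι) : S.χ (S.act ω μ) = (S.χ μ).twist (ω.comp S.δ) :=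
  Subtype.ext (funext (S.χ_act ω μ))

theorem act_one (μ : ι) : S.act 1 μ = μ :=
  S.bij.1 (Subtype.ext (funext fun g => by rw [S.χ_act]; simp))

theorem act_mul (ω ω' : A →* ℂˣ) (μ : ι) : S.act (ω * ω') μ = S.act ω (S.act ω' μ) :=
  S.bij.1 (Subtype.ext (funext fun g => by simp [S.χ_act, mul_assoc]))

theorem act_eq_iff {ω : A →* ℂˣ} {μ : ι} :
    S.act ω μ = μ ↔ ∀ g, (ω (S.δ g) : ℂ) * (S.χ μ).1 g = (S.χ μ).1 g :=
  ⟨fun h g => by rw [← S.χ_act, h],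
    fun h => S.bij.1 (Subtype.ext (funext fun g => by rw [S.χ_act, h]))⟩

theorem γ_supp (ω : A →* ℂˣ) (μ : ι) {g : Γ} (hg : g ∉ S.δ.ker) : S.γ ω μ g = 0 := by
  obtain ⟨θ, -, h⟩ := S.sum_γ μ
  exact eqv_supp S.onto (fun ω => S.eqv ω μ)
    (fun g hg => by rw [h, extendByZero_of_not_mem _ _ hg, mul_zero]) ω g hg

theorem s_eqv (ω : A →* ℂˣ) (μ : ι) : Eqv (ω.comp S.δ) (S.s ω μ) := (S.eqv ω μ).pjG _

theorem pjG_s (ω : A →* ℂˣ) (μ : ι) : pjG (S.χ μ).1 (S.s ω μ) = S.s ω μ := pjG_pjG_self _ _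

theorem s_eq_zero {ω : A →* ℂˣ} {μ : ι} (h : S.act ω μ ≠ μ) : S.s ω μ = 0 :=
  (S.eqv ω μ).pjG_eq_zero' fun h1 => h (S.act_eq_iff.2 h1)

theorem norm_s {ω : A →* ℂˣ} {μ : ι} (h : S.act ω μ = μ) :
    classInner (S.s ω μ) (S.s ω μ) = 1 := by
  have := Fintype.ofFinite S.δ.ker
  obtain ⟨θ, h1, h2⟩ := S.sum_γ μ
  exact norm_pjG_eq_one S.onto (fun ω => S.eqv ω μ) h1 h2 (S.ip_γ μ) (S.act_eq_iff.1 h)

theorem classInner_s_γ {ω : A →* ℂˣ} {μ : ι} (h : S.act ω μ = μ) :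
    classInner (S.s ω μ) (S.γ ω μ) = 1 := by
  rw [← S.norm_s h, s_def, classInner_pjG_pjG_self]

theorem classInner_s_ne {ω ω' : A →* ℂˣ} {μ ν : ι} (h : μ ≠ ν) :
    classInner (S.s ω μ) (S.s ω' ν) = 0 := classInner_pjG_pjG_ne (fun h1 => h (S.bij.1 h1)) _ _

theorem s_one (μ : ι) : S.s 1 μ = (S.χ μ).1 := by
  rw [s_def, pjG_class _ (eqv_one_iff.1 (S.eqv 1 μ)), ← conj_classInner, S.ip_γ, map_one, one_smul]

theorem s_act (ω l : A →* ℂˣ) (μ : ι) :
    S.s ω (S.act l μ) = fun g => l (S.δ g) * S.s ω μ g := by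
  rw [s_def, S.γ_act, S.χ_act', pjG_twist_of_supp]
  · rfl
  · intro g hg
    exact S.γ_supp ω μ fun h => hg (by rw [MonoidHom.comp_apply, MonoidHom.mem_ker.1 h, map_one])

/-- every equivariant function projects to a multiple of `s ω μ` -/
theorem pjG_eq_smul {ω : A →* ℂˣ} {a : Γ → ℂ} (ha : Eqv (ω.comp S.δ) a) (μ : ι) :
    pjG (S.χ μ).1 a = classInner a (S.s ω μ) • S.s ω μ := by
  by_cases h : S.act ω μ = μ
  · exact ha.pjG_eq_smul (S.s_eqv ω μ) (S.pjG_s ω μ) (S.norm_s h)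
  · rw [S.s_eq_zero h, smul_zero]
    exact ha.pjG_eq_zero' fun h1 => h (S.act_eq_iff.2 h1)

/-- the `s ω μ` span the equivariant functions -/
theorem eq_sum_s [Fintype ι] {ω : A →* ℂˣ} {a : Γ → ℂ} (ha : Eqv (ω.comp S.δ) a) :
    a = ∑ μ, classInner a (S.s ω μ) • S.s ω μ := by
  conv_lhs => rw [← sum_pjG a]
  exact (Fintype.sum_bijective S.χ S.bij _ _ fun μ => (S.pjG_eq_smul ha μ).symm).symm

theorem isBlockUnion_cd (hM : IsPModular p M) (c : C) :
    IsBlockUnion M {χ | ∃ μ, S.cd μ = c ∧ S.χ μ = χ} := by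
  refine hM.isBlockUnion_of_classInner ?_
  rintro _ ⟨μ, rfl, rfl⟩ ψ hψ
  obtain ⟨ν, rfl⟩ := S.bij.2 ψ
  exact S.cd_orth μ ν fun h => hψ ⟨ν, h.symm, rfl⟩

/-- h4 -/
theorem classInner_pRegularPart_s (hM : IsPModular p M) (ω : A →* ℂˣ) {μ ν : ι}
    (h : S.cd μ ≠ S.cd ν) : classInner (pRegularPart p (S.s ω μ)) (S.s ω ν) = 0 := by
  by_cases h1 : S.act ω μ = μ
  · refine classInner_pRegularPart_pjG_eq_zero hM (S.isBlockUnion_cd hM (S.cd μ))
      (w := ω.comp S.δ) ?_ ⟨μ, rfl, rfl⟩ ?_ (S.eqv ω μ) (S.eqv ω ν)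
    · rintro _ ⟨μ', h2, rfl⟩
      exact ⟨S.act ω μ', by rw [S.cd_act ω μ' μ h2, h1], S.χ_act' ω μ'⟩
    · rintro ⟨μ', h2, h3⟩
      exact h (by rw [← h2, S.bij.1 h3])
  · rw [S.s_eq_zero h1]
    have : pRegularPart p (0 : Γ → ℂ) = 0 := by funext g; simp [pRegularPart]
    rw [this, classInner_zero_left]

variable [Fintype S.δ.ker]

theorem exists_t0 (μ : ι) : ∃ θ0 : IrrCharacter S.δ.ker,
    classInner (fun x : S.δ.ker => (S.χ μ).1 x) θ0.1 = 1 ∧
      ∀ x : S.δ.ker, ∑ ω, S.s ω μ x = (S.χ μ).1 1 / θ0.1 1 * θ0.1 x := by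
  obtain ⟨θ, h1, h2⟩ := S.sum_γ μ
  obtain ⟨θ0, e1, -, -, e2⟩ := exists_theta0 S.onto (fun ω => S.eqv ω μ) h1 h2 (S.ip_γ μ)
  exact ⟨θ0, e1, e2⟩

/-- the distinguished constituent of the restriction -/
noncomputable def t0 (μ : ι) : IrrCharacter S.δ.ker := (S.exists_t0 μ).choose

theorem classInner_t0 (μ : ι) : classInner (fun x : S.δ.ker => (S.χ μ).1 x) (S.t0 μ).1 = 1 :=
  (S.exists_t0 μ).choose_spec.1

theorem exists_smul_t0 {μ : ι} {η : IrrCharacter S.δ.ker}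
    (h : classInner (fun x : S.δ.ker => (S.χ μ).1 x) η.1 ≠ 0) : ∃ g : Γ, g • S.t0 μ = η :=
  clifford_exists_smul (S.χ μ) (by rw [S.classInner_t0]; exact one_ne_zero) h

theorem smul_t0_eq (μ : ι) (g : Γ) : (g • S.t0 μ).1 = ∑ ω : A →* ℂˣ,
    ((S.t0 μ).1 1 / (S.χ μ).1 1 * conj (ω (S.δ g) : ℂ)) • fun x : S.δ.ker => S.s ω μ x := by
  funext x
  have h1 : ∑ ω, S.s ω μ (g⁻¹ * x * g) = (S.χ μ).1 1 / (S.t0 μ).1 1 * (g • S.t0 μ).1 x := by
    rw [IrrCharacter.smul_apply]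
    exact (S.exists_t0 μ).choose_spec.2 ⟨g⁻¹ * x * g, S.δ.normal_ker.conj_mem' _ x.2 g⟩
  have h2 : ∀ ω : A →* ℂˣ, S.s ω μ (g⁻¹ * x * g) = conj (ω (S.δ g) : ℂ) * S.s ω μ x := fun ω => by
    have := S.s_eqv ω μ x g⁻¹
    rw [inv_inv] at this
    rw [this, conj_unitsHom]
    simp
  simp only [h2] at h1
  simp only [Finset.sum_apply, Pi.smul_apply, smul_eq_mul, mul_assoc, ← Finset.mul_sum, h1]
  have := (S.χ μ).one_ne_zero
  have := (S.t0 μ).one_ne_zero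
  field_simp

theorem pRegularPart_smul_t0_eq (μ : ι) (g : Γ) : pRegularPart p (g • S.t0 μ).1 = ∑ ω : A →* ℂˣ,
    ((S.t0 μ).1 1 / (S.χ μ).1 1 * conj (ω (S.δ g) : ℂ)) •
      fun x : S.δ.ker => pRegularPart p (S.s ω μ) x := by
  rw [S.smul_t0_eq]
  funext x
  simp only [Finset.sum_apply, Pi.smul_apply, pRegularPart_apply, Subgroup.orderOf_coe]
  split_ifs <;> simp

theorem classInner_res_s (ω ω' : A →* ℂˣ) (μ ν : ι) :
    classInner (fun x : S.δ.ker => pRegularPart p (S.s ω μ) x) (fun x : S.δ.ker => S.s ω' ν x) =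
      ∑ l : A →* ℂˣ, classInner (pRegularPart p (S.s ω μ)) (S.s ω' (S.act l ν)) := by
  rw [classInner_res_ker S.onto]
  exact Finset.sum_congr rfl fun l _ => by rw [S.s_act]

theorem classInner_smul_t0 (μ ν : ι) (g h : Γ) :
    classInner (pRegularPart p (g • S.t0 μ).1) (h • S.t0 ν).1 =
      (S.t0 μ).1 1 / (S.χ μ).1 1 * conj ((S.t0 ν).1 1 / (S.χ ν).1 1) *
      ∑ ω : A →* ℂˣ, ω (S.δ (g⁻¹ * h)) *
        ∑ l : A →* ℂˣ, classInner (pRegularPart p (S.s ω μ)) (S.s ω (S.act l ν)) := by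
  rw [S.pRegularPart_smul_t0_eq, S.smul_t0_eq, classInner_sum_left, Finset.mul_sum]
  refine Finset.sum_congr rfl fun ω _ => ?_
  rw [classInner_smul_left, classInner_sum_right, Finset.sum_eq_single ω, classInner_smul_right,
    S.classInner_res_s, map_mul, Complex.conj_conj, conj_unitsHom, map_mul, map_mul,
    map_inv S.δ, Units.val_mul]
  · ring
  · intro ω' _ h1
    rw [classInner_smul_right, S.classInner_res_s, Finset.sum_eq_zero, mul_zero]
    intro l _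
    exact ((S.s_eqv ω μ).pRegularPart p).classInner_eq_zero (S.s_eqv ω' _)
      fun h2 => h1 (comp_injective S.onto h2).symm
  · simp

/-- MAIN -/
theorem card_mul_blockRank_le (hM : IsPModular p M) {B : Set (IrrCharacter S.δ.ker)}
    (hB : IsPBlock M B) {θ : IrrCharacter S.δ.ker} (hθ : θ ∈ B) {μ0 : ι}
    (h0 : classInner (fun x : S.δ.ker => (S.χ μ0).1 x) θ.1 ≠ 0) (Y : Subgroup (A →* ℂˣ))
    (hY : ∀ ω₁ ∈ Y, ∀ (ω : A →* ℂˣ) (μ ν : ι), S.cd μ = S.cd μ0 → S.cd ν = S.cd μ0 →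
      classInner (pRegularPart p (S.s (ω * ω₁) μ)) (S.s (ω * ω₁) ν) =
        classInner (pRegularPart p (S.s ω μ)) (S.s ω ν))
    (Nn : (A →* ℂˣ) → ℕ)
    (hN : ∀ ω, Module.finrank ℂ (Submodule.span ℂ
      ((fun μ => pRegularPart p (S.s ω μ)) '' {μ | S.cd μ = S.cd μ0})) ≤ Nn ω) :
    Nat.card Y * blockRank p B ≤ ∑ ω, Nn ω := by
  classical
  have hp := hM.1
  -- the labelling map
  let φ : Γ →* (Y →* ℂˣ) := MonoidHom.mk' (fun g => MonoidHom.mk' (fun y => y.1 (S.δ g))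
    fun _ _ => rfl) fun g h => MonoidHom.ext fun y => by simp
  have φ_apply : ∀ g (y : Y), φ g y = y.1 (S.δ g) := fun _ _ => rfl
  have hφ : Function.Surjective φ := by
    intro t
    have := enoughRoots A
    have := enoughRoots (A →* ℂˣ)
    obtain ⟨t', ht'⟩ := MonoidHom.domRestrict_surjective ℂ Y t
    obtain ⟨g, hg⟩ := S.onto (CommGroup.monoidHomMonoidHomEquiv A ℂ t')
    refine ⟨g, MonoidHom.ext fun y => ?_⟩
    rw [φ_apply, hg, CommGroup.apply_monoidHomMonoidHomEquiv, ← ht']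
    rfl
  have : Finite (Y →* ℂˣ) := Finite.of_surjective φ hφ
  have := Fintype.ofFinite (Y →* ℂˣ)
  let V : (Y →* ℂˣ) → Set (IrrCharacter S.δ.ker) := fun t =>
    {η | ∃ μ g, S.cd μ = S.cd μ0 ∧ φ g = t ∧ g • S.t0 μ = η}
  let W : Set (IrrCharacter S.δ.ker) := {η | ∃ χ ∈ {χ | ∃ μ, S.cd μ = S.cd μ0 ∧ S.χ μ = χ},
    classInner (fun x : S.δ.ker => χ.1 x) η.1 ≠ 0}
  have hW : IsBlockUnion M W := isBlockUnion_under hM (S.isBlockUnion_cd hM _)
  have hWV : ∀ η ∈ W, ∃ t, η ∈ V t := by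
    rintro η ⟨_, ⟨μ, h1, rfl⟩, h2⟩
    obtain ⟨g, hg⟩ := S.exists_smul_t0 h2
    exact ⟨φ g, μ, g, h1, rfl, hg⟩
  have hVW : ∀ t, V t ⊆ W := by
    rintro t _ ⟨μ, g, h1, -, rfl⟩
    refine ⟨_, ⟨μ, h1, rfl⟩, ?_⟩
    rw [IrrCharacter.classInner_res_smul (S.χ μ).isClassFunction, S.classInner_t0]
    exact one_ne_zero
  have horth : ∀ t t', t ≠ t' → ∀ η ∈ V t, ∀ η' ∈ V t',
      classInner (pRegularPart p η.1) η'.1 = 0 := by
    rintro _ _ ht _ ⟨μ, g, h1, rfl, rfl⟩ _ ⟨ν, h, h2, rfl, rfl⟩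
    obtain ⟨y, hy⟩ : ∃ y : Y, y.1 (S.δ (g⁻¹ * h)) ≠ 1 := by
      by_contra hc
      push Not at hc
      refine ht (MonoidHom.ext fun y => ?_)
      have := hc y
      rw [map_mul, map_mul, map_inv, map_inv, inv_mul_eq_one] at this
      exact this
    rw [S.classInner_smul_t0]
    refine mul_eq_zero_of_right _ ?_
    set G : (A →* ℂˣ) → ℂ := fun ω =>
      ∑ l : A →* ℂˣ, classInner (pRegularPart p (S.s ω μ)) (S.s ω (S.act l ν))
    have hG : ∀ ω, G (ω * y.1) = G ω := fun ω => by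
      refine Finset.sum_congr rfl fun l _ => ?_
      by_cases h3 : S.cd (S.act l ν) = S.cd μ0
      · exact hY y.1 y.2 ω μ _ h1 h3
      · rw [S.classInner_pRegularPart_s hM _ (h1 ▸ Ne.symm h3),
          S.classInner_pRegularPart_s hM _ (h1 ▸ Ne.symm h3)]
    have h4 : ∑ ω : A →* ℂˣ, ω (S.δ (g⁻¹ * h)) * G ω =
        y.1 (S.δ (g⁻¹ * h)) * ∑ ω : A →* ℂˣ, ω (S.δ (g⁻¹ * h)) * G ω := by
      rw [Finset.mul_sum]
      refine (Fintype.sum_equiv (Equiv.mulRight y.1) _ _ fun ω => ?_).symm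
      rw [Equiv.coe_mulRight, hG, MonoidHom.mul_apply, Units.val_mul]
      ring
    have h5 : (1 - (y.1 (S.δ (g⁻¹ * h)) : ℂ)) * ∑ ω : A →* ℂˣ, ω (S.δ (g⁻¹ * h)) * G ω = 0 := by
      linear_combination h4
    refine (mul_eq_zero.1 h5).resolve_left fun h6 => hy (Units.ext ?_)
    rw [Units.val_one]; linear_combination -h6
  have hdis : ∀ t t', t ≠ t' → Disjoint (V t) (V t') := by
    intro t t' ht
    rw [Set.disjoint_left]
    intro η h1 h2
    have := horth t t' ht η h1 η h2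
    rw [classInner_pRegularPart_left, classInner_self_eq_zero] at this
    exact η.pRegularPart_ne_zero hp this
  have hV : ∀ t, IsBlockUnion M (V t) := fun t => by
    refine hM.isBlockUnion_of_classInner fun η hη ψ hψ => ?_
    by_cases h1 : ψ ∈ W
    · obtain ⟨t', ht'⟩ := hWV ψ h1
      exact horth t t' (fun h => hψ (h ▸ ht')) η hη ψ ht'
    · exact hW.classInner_pRegularPart_eq_zero hM (hVW t hη) h1
  obtain ⟨t0, ht0⟩ := hWV θ ⟨_, ⟨μ0, rfl, rfl⟩, h0⟩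
  have hBV : B ⊆ V t0 := fun η hη => hV t0 θ ht0 η ((hB.mem_iff_sameBlock hM hθ η).1 hη)
  have hle : ∀ t, blockRank p B ≤ blockRank p (V t) := fun t => by
    obtain ⟨g, hg⟩ := hφ (t0 * t⁻¹)
    rw [← blockRank_smul hp B g]
    refine blockRank_mono fun ψ hψ => ?_
    obtain ⟨μ, h, h1, h2, h3⟩ := hBV hψ
    refine ⟨μ, g⁻¹ * h, h1, ?_, by rw [mul_smul, h3, inv_smul_smul]⟩
    rw [map_mul, map_inv, hg, h2]
    ext y
    simp
  have h1 : Nat.card Y * blockRank p B ≤ blockRank p W := by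
    calc Nat.card Y * blockRank p B = ∑ t : Y →* ℂˣ, blockRank p B := by
          rw [Finset.sum_const, Finset.card_univ, ← Nat.card_eq_fintype_card, card_dual,
            smul_eq_mul]
      _ ≤ ∑ t : Y →* ℂˣ, blockRank p (V t) := Finset.sum_le_sum fun t _ => hle t
      _ = _ := (blockRank_biUnion hM V hV hdis _).symm
      _ ≤ _ := blockRank_mono (Set.iUnion₂_subset fun t _ => hVW t)
  refine h1.trans ?_
  let R : (Γ → ℂ) →ₗ[ℂ] (S.δ.ker → ℂ) := LinearMap.funLeft ℂ ℂ Subtype.val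
  let T : (A →* ℂˣ) → Submodule ℂ (S.δ.ker → ℂ) := fun ω => (Submodule.span ℂ
      ((fun μ => pRegularPart p (S.s ω μ)) '' {μ | S.cd μ = S.cd μ0})).map R
  have h2 : regSpan p W ≤ Finset.univ.sup T := by
    rw [regSpan_le_iff]
    intro η hη
    obtain ⟨t, μ, g, h1, -, rfl⟩ := hWV η hη
    rw [S.pRegularPart_smul_t0_eq]
    refine Submodule.sum_mem _ fun ω _ => Submodule.smul_mem _ _ ?_
    exact (Finset.le_sup (f := T) (Finset.mem_univ ω)) ⟨_, Submodule.subset_span ⟨μ, h1, rfl⟩, rfl⟩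
  rw [blockRank_eq_finrank]
  refine (Submodule.finrank_mono h2).trans ((finrank_finset_sup_le T _).trans
    (Finset.sum_le_sum fun ω _ => (Submodule.finrank_map_le _ _).trans (hN ω)))

end Ab

end Cfsg.GLn
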