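import Cfsg.Agent.GLn.Bas

/-! The piece `Core` of S4536. -/

set_option autoImplicit false
set_option linter.unusedSectionVars false

namespace Cfsg.GLn

open Finset SymCh ComplexConjugate

universe u

variable {F : Type u} [Field F] [Fintype F] [DecidableEq F] {ω : Fˣ →* ℂˣ} {N ℓ e : ℕ}

theorem sum_rptn_phi_zero {m : ℕ} (hN : m ≤ N) {β γ : Fin N → ℤ} (h : cls e β ≠ cls e γ) :
    ∑ ρ ∈ rptn e m, phi β ρ * phi γ ρ / zz ρ = 0 := by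
  have key : ∀ β : Fin N → ℤ, (∀ ρ ∈ rptn e m, phi β ρ = 0) ∨ ∃ X ∈ bs N m, ∃ c : ℚ,
      clsF e X = cls e β ∧ ∀ ρ, phi β ρ = c * ph N X ρ := fun β => by
    refine or_iff_not_imp_left.2 fun h => ?_
    push Not at h
    obtain ⟨ρ, hρ, h⟩ := h
    obtain ⟨X, hX, w, rfl⟩ := exists_lab_comp (β := β)
      (by_contra fun h' => h (phi_eq_zero_of_not_injective h' ρ))
      fun i => not_lt.1 fun h' => h (phi_eq_zero_of_neg h' ρ)
    refine ⟨X, mem_bs.2 ⟨hX, ?_⟩, sg w, by rw [cls_comp, cls_lab hX], fun ρ => phi_comp _ _ _⟩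
    have := sum_eq_of_phi_ne_zero h
    rw [show ∑ i, (lab N X ∘ w) i = ∑ i, lab N X i from Equiv.sum_comp w _,
      sum_lab hX (fun x => x), sum_del, (mem_ptn.1 (mem_rptn.1 hρ).1).1, ← Nat.cast_sum] at this
    exact_mod_cast this
  rcases key β with h1 | ⟨X, hX, c, h1, h2⟩
  · exact sum_eq_zero fun ρ hρ => by rw [h1 ρ hρ, zero_mul, zero_div]
  rcases key γ with h3 | ⟨Y, hY, d, h3, h4⟩
  · exact sum_eq_zero fun ρ hρ => by rw [h3 ρ hρ, mul_zero, zero_div]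
  have := sum_rptn_eq_zero hN hX hY (by rwa [h1, h3] : clsF e X ≠ clsF e Y)
  rw [← mul_zero (c * d), ← this, mul_sum]
  exact sum_congr rfl fun ρ _ => by rw [h2, h4]; ring

theorem sum_rptn_phi {m : ℕ} (hN : m ≤ N) {ν ν' : Multiset ℕ} (hν : ∀ r ∈ ν, e ∣ r)
    (hν' : ∀ r ∈ ν', e ∣ r) {β γ : Fin N → ℤ} (h : cls e β ≠ cls e γ) :
    ∑ ρ ∈ rptn e m, phi β (ν + ρ) * phi γ (ν' + ρ) / zz ρ = 0 := by
  induction ν using Multiset.induction_on generalizing β with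
  | empty =>
    induction ν' using Multiset.induction_on generalizing γ with
    | empty => simpa using sum_rptn_phi_zero hN h
    | cons r ν' ih =>
      simp only [Multiset.cons_add, phi_cons, mul_sum, sum_div]
      rw [sum_comm]
      exact sum_eq_zero fun i _ => ih (fun s hs => hν' s (Multiset.mem_cons_of_mem hs))
        (by rwa [cls_sub_single _ _ (hν' r (Multiset.mem_cons_self _ _))])
  | cons r ν ih =>
    simp only [Multiset.cons_add, phi_cons β, sum_mul, sum_div]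
    rw [sum_comm]
    exact sum_eq_zero fun i _ => ih (fun s hs => hν s (Multiset.mem_cons_of_mem hs))
      (by rwa [cls_sub_single _ _ (hν r (Multiset.mem_cons_self _ _))])

section Split

variable {A : Type*} [CommRing A] [Algebra ℂ A]

/-- the `e`-regular parts of a Schur function -/
noncomputable def Sreg (p : ℕ → A) (N e : ℕ) (X : Finset ℕ) (ν : Multiset ℕ) (m : ℕ) : A :=
  ∑ ρ ∈ rptn e m, ((ph N X (ν + ρ) / zz ρ : ℚ) : ℂ) • pm p ρ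

theorem dvd_of_mem_map {μ : Multiset ℕ} : ∀ r ∈ μ.map (e * ·), e ∣ r := fun r hr => by
  obtain ⟨s, -, rfl⟩ := Multiset.mem_map.1 hr
  exact dvd_mul_right _ _

theorem S_split (he : 0 < e) (p : ℕ → A) (X : Finset ℕ) : S p N X =
    ∑ j ∈ range (sz N X + 1) with e * j ≤ sz N X, ∑ μ ∈ ptn j,
      ((zz (μ.map (e * ·)) : ℂ)⁻¹ • pm p (μ.map (e * ·))) *
        Sreg p N e X (μ.map (e * ·)) (sz N X - e * j) := by
  rw [S, sum_ptn_split he]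
  refine sum_congr rfl fun j _ => sum_congr rfl fun μ _ => ?_
  rw [Sreg, mul_sum]
  refine sum_congr rfl fun ρ hρ => ?_
  rw [zz_add fun r hr hr' => (mem_rptn.1 hρ).2 r hr' (dvd_of_mem_map r hr), pm_add,
    smul_mul_smul_comm]
  congr 1
  push_cast
  ring

theorem Sreg_mem (p : ℕ → A) (X : Finset ℕ) (ν : Multiset ℕ) (m : ℕ) :
    Sreg p N e X ν m ∈ Algebra.adjoin ℂ (p '' {k | 0 < k ∧ ¬ e ∣ k}) :=
  Subalgebra.sum_mem _ fun _ hρ => Subalgebra.smul_mem _ (pm_mem_adjoin_b fun k hk => by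
    exact ⟨k, ⟨(mem_ptn.1 (mem_rptn.1 hρ).1).2 k hk, (mem_rptn.1 hρ).2 k hk⟩, rfl⟩) _

end Split

variable [Laws F]

section Local

variable {p : ℕ → H ω} (hp : ∀ k, 0 < k → Prim (p k)) {w : ℕ → ℂ}
  (h : ∀ k l, 0 < k → 0 < l → ip (p k) (p l) = if k = l then k * w k else 0)
  (hw : ∀ k, 0 < k → ¬ e ∣ k → w k = 1)

include hp h hw

theorem ip_Sreg (X Y : Finset ℕ) (ν ν' : Multiset ℕ) (m m' : ℕ) :
    ip (Sreg p N e X ν m) (Sreg p N e Y ν' m') = if m = m' then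
      ((∑ ρ ∈ rptn e m, ph N X (ν + ρ) * ph N Y (ν' + ρ) / zz ρ : ℚ) : ℂ) else 0 := by
  simp only [Sreg, ip_sum_left, ip_sum_right, ip_smul_left, ip_smul_right, map_ratCast, mul_sum]
  have h1 : ∀ {m}, ∀ ρ ∈ rptn e m, ∀ k ∈ ρ, 0 < k := fun ρ hρ => (mem_ptn.1 (mem_rptn.1 hρ).1).2
  split_ifs with hm
  · subst hm
    rw [Rat.cast_sum]
    refine sum_congr rfl fun ρ hρ => ?_
    rw [sum_eq_single_of_mem ρ hρ fun σ hσ hne => by
      rw [ip_pm hp h (h1 _ hσ) (h1 _ hρ), if_neg hne, mul_zero, mul_zero],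
      ip_pm hp h (h1 _ hρ) (h1 _ hρ), if_pos rfl, Multiset.prod_eq_one fun x hx => by
        obtain ⟨k, hk, rfl⟩ := Multiset.mem_map.1 hx
        exact hw k (h1 _ hρ k hk) ((mem_rptn.1 hρ).2 k hk)]
    have : (zz ρ : ℂ) ≠ 0 := Nat.cast_ne_zero.2 (zz_pos (h1 _ hρ)).ne'
    push_cast
    field_simp
  · refine sum_eq_zero fun σ hσ => sum_eq_zero fun ρ hρ => ?_
    rw [ip_pm hp h (h1 _ hρ) (h1 _ hσ), if_neg, mul_zero, mul_zero]
    rintro rfl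
    exact hm ((mem_ptn.1 (mem_rptn.1 hρ).1).1.symm.trans (mem_ptn.1 (mem_rptn.1 hσ).1).1)

theorem ip_S_mul_eq_zero (he : 0 < e) {X Y : Finset ℕ} (hX : #X = N) (hY : #Y = N)
    (hN : sz N X ≤ N) (hc : clsF e X ≠ clsF e Y) {y y' : H ω}
    (hy : y ∈ Algebra.adjoin ℂ (p '' {k | 0 < k ∧ e ∣ k}))
    (hy' : y' ∈ Algebra.adjoin ℂ (p '' {k | 0 < k ∧ e ∣ k})) :
    ip (y * S p N X) (y' * S p N Y) = 0 := by
  have h1 : ∀ {j}, ∀ μ ∈ ptn j, (zz (μ.map (e * ·)) : ℂ)⁻¹ • pm p (μ.map (e * ·)) ∈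
      Algebra.adjoin ℂ (p '' {k | 0 < k ∧ e ∣ k}) := fun μ hμ =>
    Subalgebra.smul_mem _ (pm_mem_adjoin_b fun k hk => by
      obtain ⟨s, hs, rfl⟩ := Multiset.mem_map.1 hk
      exact ⟨_, ⟨Nat.mul_pos he ((mem_ptn.1 hμ).2 s hs), dvd_mul_right _ _⟩, rfl⟩) _
  simp only [S_split he, mul_sum, ip_sum_left, ip_sum_right, ← mul_assoc]
  refine sum_eq_zero fun j _ => sum_eq_zero fun μ hμ => sum_eq_zero fun j' _ =>
    sum_eq_zero fun μ' hμ' => ?_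
  rw [ip_mul_mul_adjoin _ _ _ (mul_mem hy (h1 _ hμ')) (mul_mem hy' (h1 _ hμ))
    (Sreg_mem _ _ _ _) (Sreg_mem _ _ _ _), ip_Sreg hp h hw]
  · split_ifs
    · simp only [ph]
      rw [sum_rptn_phi ((Nat.sub_le _ _).trans hN) dvd_of_mem_map dvd_of_mem_map
        (by rwa [cls_lab hX, cls_lab hY]), Rat.cast_zero, mul_zero]
    · exact mul_zero _
  · rintro _ ⟨k, hk, rfl⟩
    exact hp k hk.1
  · rintro _ ⟨k, hk, rfl⟩
    exact hp k hk.1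
  · rintro _ ⟨k, hk, rfl⟩ _ ⟨l, hl, rfl⟩
    rw [h k l hk.1 hl.1, if_neg fun e : k = l => hl.2 (e ▸ hk.2)]

end Local

variable {r : ℕ} {p : I F → ℕ → H ω} [Fact ℓ.Prime]

omit [Laws F] in
theorem nn_eq_sum_b (μ : MP F N) (ψ : I F) {T : Finset (I F)} (h : μ.support ⊆ T) :
    nn ℓ μ ψ = ∑ φ ∈ T with rpI ℓ φ = ψ, φ.per / ψ.per * sz N (μ φ).1 := by
  rw [sum_filter]
  exact Finsupp.sum_of_support_subset _ h _ fun o _ => by
    rw [show sz N (0 : Bt N).1 = 0 from sz_range_b N]; simp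

/-- the local factor of a truncated product of Schur functions -/
noncomputable def locF (ℓ : ℕ) (p : I F → ℕ → H ω) (μ : MP F N) (ψ : I F) : H ω :=
  ∏ φ ∈ μ.support with rpI ℓ φ = ψ, S (fun k => dd ℓ (p φ k)) N (μ φ).1

omit [Fact ℓ.Prime] in
theorem locF_eq (μ : MP F N) (ψ : I F) {T : Finset (I F)} (h : μ.support ⊆ T) :
    locF ℓ p μ ψ = ∏ φ ∈ T with rpI ℓ φ = ψ, S (fun k => dd ℓ (p φ k)) N (μ φ).1 :=
  prod_subset (filter_subset_filter _ h) fun φ h1 h2 => by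
    rw [Finsupp.notMem_support_iff.1 fun h3 => h2 (mem_filter.2 ⟨h3, (mem_filter.1 h1).2⟩)]
    exact S_range_b _

theorem Fk.isHom_locF (hF : Fk r p) (μ : MP F N) (ψ : I F) :
    IsHom (r * (ψ.per * nn ℓ μ ψ)) (locF ℓ p μ ψ) := by
  rw [nn_eq_sum_b μ ψ Subset.rfl, mul_sum, mul_sum]
  refine IsHom.prod' fun φ hφ => ?_
  rw [← (mem_filter.1 hφ).2, per_rpI_mul, ← mul_assoc]
  exact isHom_S_b (fun k hk => mul_assoc r _ _ ▸ hF.isHom_dd φ hk) _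

theorem Gr.locF_mem (h : Gr ℓ p) (μ : MP F N) (ψ : I F) :
    locF ℓ p μ ψ ∈ Algebra.adjoin ℂ ((fun k => dd ℓ (p ψ k)) '' {k | 0 < k}) :=
  Subalgebra.prod_mem _ fun φ hφ => S_mem_adjoin_b (fun k hk => by
    obtain rfl := (mem_filter.1 hφ).2
    exact ⟨_, Nat.mul_pos (per_div_pos_b φ) hk, (h.dd_eq φ hk).symm⟩) _

omit [Fact ℓ.Prime] in
theorem dd_schur_eq_prod (μ : MP F N) {T : Finset (I F)} (h : ∀ φ ∈ μ.support, rpI ℓ φ ∈ T) :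
    dd ℓ (schur p μ) = ∏ ψ ∈ T, locF ℓ p μ ψ := by
  rw [dd_schur]
  exact (prod_fiberwise_of_maps_to h _).symm

/-- FACT over the `ℓ'`-orbits -/
theorem Gr.ip_dd_schur (h : Gr ℓ p) (hF : Fk r p) (μ ν : MP F N) {T : Finset (I F)}
    (hT : ∀ ψ ∈ T, Reg ℓ ψ) (hμ : ∀ φ ∈ μ.support, rpI ℓ φ ∈ T)
    (hν : ∀ φ ∈ ν.support, rpI ℓ φ ∈ T) :
    ip (dd ℓ (schur p μ)) (schur p ν) = ∏ ψ ∈ T, ip (locF ℓ p μ ψ) (locF ℓ p ν ψ) := by
  rw [← GLn.ip_dd_dd, dd_schur_eq_prod μ hμ, dd_schur_eq_prod ν hν]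
  refine ip_prod_prod_adjoin (fun ψ => (fun k => dd ℓ (p ψ k)) '' {k | 0 < k ∧ Reg ℓ ψ}) ?_ ?_ T
    (fun ψ hψ => by simpa only [hT ψ hψ, and_true] using h.locF_mem μ ψ)
    fun ψ hψ => by simpa only [hT ψ hψ, and_true] using h.locF_mem ν ψ
  · rintro ψ _ ⟨k, hk, rfl⟩
    exact hF.prim_dd ψ hk.1
  · rintro ψ ψ' hne _ ⟨k, hk, rfl⟩ _ ⟨l, hl, rfl⟩
    rw [h.ip_dd_dd _ _ hk.1 hl.1, gram_ne (by rwa [hk.2.rpI_eq, hl.2.rpI_eq])]

theorem Gr.locF_eq_mul (h : Gr ℓ p) (μ : MP F N) {ψ : I F} (hψ : Reg ℓ ψ) :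
    ∃ y ∈ Algebra.adjoin ℂ ((fun k => dd ℓ (p ψ k)) '' {k | 0 < k ∧ ee ℓ ψ ∣ k}),
      locF ℓ p μ ψ = y * S (fun k => dd ℓ (p ψ k)) N (μ ψ).1 := by
  refine ⟨∏ φ ∈ ({φ ∈ insert ψ μ.support | rpI ℓ φ = ψ}).erase ψ,
    S (fun k => dd ℓ (p φ k)) N (μ φ).1,
    Subalgebra.prod_mem _ fun φ hφ => S_mem_adjoin_b (fun k hk => ?_) _, by
    rw [locF_eq μ ψ (subset_insert ψ _)]
    exact (prod_erase_mul {φ ∈ insert ψ μ.support | rpI ℓ φ = ψ}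
      (fun φ => S (fun k => dd ℓ (p φ k)) N (μ φ).1)
      (mem_filter.2 ⟨mem_insert_self _ _, hψ.rpI_eq⟩)).symm⟩
  obtain ⟨h1, h2⟩ := mem_erase.1 hφ
  obtain rfl := (mem_filter.1 h2).2
  exact ⟨_, ⟨Nat.mul_pos (per_div_pos_b φ) hk, (ee_dvd_of_not_reg fun h3 =>
    h1 h3.rpI_eq.symm).mul_right _⟩, (h.dd_eq φ hk).symm⟩

theorem clsF_ne_of_rc {X Y : Finset ℕ} (he : 0 < e) (h : rc e X ≠ rc e Y) :
    clsF e X ≠ clsF e Y := fun h' => h <| funext fun j => by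
  by_cases hj : j < e
  · exact congrFun h' ⟨j, hj⟩
  · have : ∀ X, rc e X j = 0 := fun X => card_eq_zero.2 (filter_eq_empty_iff.2 fun x _ hx =>
      hj (hx ▸ Nat.mod_lt x he))
    rw [this, this]

theorem Gr.ip_locF_eq_zero (hℓ : ℓ ≠ ringChar F) (h : Gr ℓ p) (hF : Fk r p) {μ ν : MP F N}
    {ψ : I F} (hψ : Reg ℓ ψ) (hN : sz N (μ ψ).1 ≤ N) (hc : cd ℓ μ ψ ≠ cd ℓ ν ψ) :
    ip (locF ℓ p μ ψ) (locF ℓ p ν ψ) = 0 := by
  simp only [cd, if_pos hψ] at hc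
  by_cases hn : nn ℓ μ ψ = nn ℓ ν ψ
  · obtain ⟨y, hy, h1⟩ := h.locF_eq_mul μ hψ
    obtain ⟨y', hy', h2⟩ := h.locF_eq_mul ν hψ
    rw [h1, h2]
    refine ip_S_mul_eq_zero (w := fun k => (nl F ℓ (ψ.per * k) : ℂ)⁻¹)
      (fun k hk => hF.prim_dd ψ hk) (fun k l hk hl => by rw [h.ip_dd_dd _ _ hk hl, gram_reg hψ])
      (fun k hk hek => ?_) (ee_pos hℓ ψ) (μ ψ).2 (ν ψ).2 hN
      (clsF_ne_of_rc (ee_pos hℓ ψ) fun h3 => hc (Prod.ext hn h3)) hy hy'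
    rw [(nl_eq_one_iff (Nat.mul_pos (per_pos ψ) hk)).2 (mt (e0_dvd_per_mul_iff ψ k).1 hek),
      Nat.cast_one, inv_one]
  · have hr : 0 < r := hF.ord ▸ (isOfFinOrder_iff_pow_eq_one.2 ⟨Fintype.card Fˣ,
      Fintype.card_pos, MonoidHom.ext fun x => by
        rw [MonoidHom.pow_apply, ← map_pow, pow_card_eq_one, map_one, MonoidHom.one_apply]⟩).orderOf_pos
    refine (hF.isHom_locF μ ψ).ip_eq_zero (hF.isHom_locF ν ψ) fun h3 => hn ?_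
    exact Nat.eq_of_mul_eq_mul_left (per_pos ψ) (Nat.eq_of_mul_eq_mul_left hr h3)

theorem stCore (hℓ : ℓ ≠ ringChar F) (hP : StP F) : StCore F ℓ := by
  intro N μ ν hμ _ hc
  obtain ⟨ψ, hψ⟩ := Function.ne_iff.1 hc
  have hR : Reg ℓ ψ := by_contra fun h => hψ (by simp only [cd, if_neg h])
  have hG := hP.gr ℓ Fact.out hℓ
  refine (hG.ip_dd_schur hP.fk μ ν (T := insert ψ ((μ.support ∪ ν.support).image (rpI ℓ)))
    (fun φ hφ => ?_) (fun φ hφ => ?_) fun φ hφ => ?_).trans (prod_eq_zero (mem_insert_self _ _)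
      (hG.ip_locF_eq_zero hℓ hP.fk hR ((sz_le_deg_b μ ψ).trans hμ) hψ))
  · rcases mem_insert.1 hφ with rfl | hφ
    · exact hR
    · obtain ⟨φ, -, rfl⟩ := mem_image.1 hφ
      exact reg_rpI φ
  · exact mem_insert_of_mem (mem_image_of_mem _ (mem_union_left _ hφ))
  · exact mem_insert_of_mem (mem_image_of_mem _ (mem_union_right _ hφ))

end Cfsg.GLn
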