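import Cfsg.Agent.GLn.Cnt
import Cfsg.Agent.GLn.Core

/-! The piece `Cmp` of S4536. -/

set_option autoImplicit false

namespace Cfsg.GLn

open Finset SymCh

universe u

variable {F : Type u} [Field F] [Fintype F] {N ℓ : ℕ} [hl : Fact ℓ.Prime]

local notation "q" => Fintype.card F

namespace Cmp

theorem fix_of (hℓ : ℓ ≠ ringChar F) {lam : Fˣ} (h : ¬ ℓ ∣ orderOf lam) {φ : I F}
    (hi : ∃ i, iu lam * (rpI ℓ φ).rep = (rpI ℓ φ).rep ^ q ^ (e0 F ℓ * i)) : mulI lam φ = φ := by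
  obtain ⟨u, hu, hφ⟩ := exists_io_of_rpI (rfl : rpI ℓ φ = _)
  obtain ⟨b, hb⟩ : ∃ b, (io u).per ∣ e0 F ℓ * ℓ ^ b := by
    by_cases h1 : u = 1
    · exact ⟨0, (per_io_dvd_iff _ _).2 (by rw [h1, one_pow])⟩
    · obtain ⟨b, hb⟩ := per_io_of_pElt hℓ hu h1
      exact ⟨b, hb.dvd⟩
  generalize (rpI ℓ φ).rep = s at hi hφ
  obtain ⟨i, hi⟩ := hi
  have key : ∀ n, iu (lam ^ n) * s = s ^ q ^ (e0 F ℓ * i * n) := fun n => by
    induction n with
    | zero => simp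
    | succ n ih =>
      rw [pow_succ, map_mul, mul_assoc, hi, ← iu_pow_q (lam ^ n) (e0 F ℓ * i), ← mul_pow, ih,
        Cnt.pow_pow_q, mul_add_one]
  obtain ⟨m, hm⟩ := exists_pow_eq_self_of_coprime (x := lam) (n := ℓ ^ b)
    (((Nat.Prime.coprime_iff_not_dvd hl.out).2 h).pow_left b)
  have h2 := (per_io_dvd_iff u (e0 F ℓ * i * (ℓ ^ b * m))).1 (hb.trans ⟨i * m, by ring⟩)
  rw [hφ, mulI_io, ← mul_assoc, ← hm, ← pow_mul, key, ← io_pow_q (s * u), mul_pow, h2]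

theorem eq_of_inactive (hℓ : ℓ ≠ ringChar F) {ν ν' : MP F N} (h : cd ℓ ν = cd ℓ ν') {φ : I F}
    (h0 : ww ℓ ν (rpI ℓ φ) = 0) : ν φ = ν' φ := by
  by_cases hφ : φ = rpI ℓ φ
  · exact Cnt.eq_of_ww hℓ h (hφ ▸ reg_rpI φ) (hφ ▸ h0)
  · rw [((ww_eq_zero_iff hℓ ν (reg_rpI φ)).1 h0).2 φ hφ rfl,
      ((ww_eq_zero_iff hℓ ν' (reg_rpI φ)).1 (ww_eq_of_cd h ▸ h0)).2 φ hφ rfl]

omit hl in
theorem mulI_pow_of {lam : Fˣ} {φ : I F} (h : mulI lam φ = φ) (j : ℕ) : mulI (lam ^ j) φ = φ := by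
  induction j with
  | zero => rw [pow_zero, mulI_one]
  | succ j ih => rw [pow_succ, mulI_mul, h, ih]

omit hl in
theorem powI_iff (lam : Fˣ) {lam₁ : Fˣ} {φ : I F} (h : mulI lam₁ φ = φ) (φ' : I F) :
    powI (orderOf lam) φ = powI (orderOf lam) φ' ↔
      powI (orderOf (lam * lam₁)) φ = powI (orderOf (lam * lam₁)) φ' := by
  simp only [powI_eq_iff, mul_pow, mulI_mul, mulI_pow_of h]

omit hl in
theorem mul_per (lam : Fˣ) {lam₁ : Fˣ} {φ : I F} (h : mulI lam₁ φ = φ) :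
    orderOf lam * (powI (orderOf lam) φ).per =
      orderOf (lam * lam₁) * (powI (orderOf (lam * lam₁)) φ).per := by
  rw [← sum_per_fib (orderOf_dvd_q_sub_one _), ← sum_per_fib (orderOf_dvd_q_sub_one _)]
  congr 1
  ext φ'
  rw [mem_fib (orderOf_pos _), mem_fib (orderOf_pos _), eq_comm, powI_iff lam h, eq_comm]

theorem nl_le {r r' c : ℕ} (hr : 0 < r) (hr' : 0 < r') (hc : ¬ ℓ ∣ c) (hd : r' ∣ r * c) {φ : I F}
    (h : ∀ φ', rpI ℓ φ' = rpI ℓ φ → r * (powI r φ').per = r' * (powI r' φ').per) {m : ℕ}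
    (hm : 0 < m) : nl F ℓ ((powI r φ).per * m) ≤ nl F ℓ ((powI r' φ).per * m) := by
  have hk := Nat.mul_pos (per_pos (powI r φ)) hm
  have hk' := Nat.mul_pos (per_pos (powI r' φ)) hm
  rw [← card_Lk hk, ← card_Lk hk']
  refine card_le_card fun w hw => ?_
  obtain ⟨hw, hw'⟩ := mem_Lk.1 hw
  refine mem_Lk.2 ⟨?_, hw'⟩
  obtain ⟨v, hu, rfl⟩ : ∃ v : (K F)ˣ, (∃ a, orderOf v = ℓ ^ a) ∧ v ^ r = w := by
    obtain ⟨u, rfl⟩ := exists_pow_eq hr w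
    exact ⟨_, exists_orderOf_pPartK u, by rw [← pPartK_pow, pPartK_eq_self_iff.2 hw']⟩
  have h1 : (powI r (io (φ.rep * v))).per ∣ (powI r φ).per * m := by
    rw [powI_io, mul_pow, ← mem_Mk_per hk]
    exact mul_mem_Mk ((mem_Mk_per hk).2 (dvd_mul_right _ _)) hw
  replace h1 := mul_dvd_mul_left r h1
  rw [h _ (by rw [rpI_io, pRegPartK_mul, pRegPartK_eq_one_iff.2 hu, mul_one, rpI]), ← mul_assoc,
    h φ rfl, mul_assoc, Nat.mul_dvd_mul_iff_left hr', powI_io, mul_pow, ← mem_Mk_per hk'] at h1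
  have h2 : v ^ r' ∈ Mk F ((powI r' φ).per * m) := by
    simpa using mul_mem_Mk (inv_mem_Mk ((mem_Mk_per hk').2 (dvd_mul_right _ _) :
      φ.rep ^ r' ∈ _)) h1
  obtain ⟨t, ht⟩ := hd
  obtain ⟨a, ha⟩ := hw'
  obtain ⟨j, hj⟩ := exists_pow_eq_self_of_coprime (x := v ^ r) (n := c)
    (ha ▸ ((Nat.Prime.coprime_iff_not_dvd hl.out).2 hc).symm.pow_right a)
  rw [← hj, ← pow_mul v, ht, pow_mul]
  exact pow_mem_Mk (pow_mem_Mk h2 t) j

theorem gram_eq (lam : Fˣ) {lam₁ : Fˣ} (h₁ : ¬ ℓ ∣ orderOf lam₁) {φ φ' : I F}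
    (h : ∀ χ, rpI ℓ χ = rpI ℓ φ → mulI lam₁ χ = χ) (h' : mulI lam₁ φ' = φ') {m : ℕ} (hm : 0 < m)
    (m' : ℕ) : gram ℓ (powI (orderOf lam) φ) m (powI (orderOf lam) φ') m' =
      gram ℓ (powI (orderOf (lam * lam₁)) φ) m (powI (orderOf (lam * lam₁)) φ') m' := by
  have hr := orderOf_pos lam
  have hr' := orderOf_pos (lam * lam₁)
  have e1 := mul_per lam (h φ rfl)
  have e2 := mul_per lam h'
  have e3 := mul_per lam (h _ (rpI_rpI φ))
  have e4 : nl F ℓ ((powI (orderOf lam) φ).per * m) =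
      nl F ℓ ((powI (orderOf (lam * lam₁)) φ).per * m) :=
    le_antisymm (nl_le hr hr' h₁ (Commute.all _ _).orderOf_mul_dvd_mul_orderOf
      (fun χ hχ => mul_per lam (h χ hχ)) hm) (nl_le hr' hr h₁ (by
        simpa using (Commute.all (lam * lam₁) lam₁⁻¹).orderOf_mul_dvd_mul_orderOf)
      (fun χ hχ => (mul_per lam (h χ hχ)).symm) hm)
  simp only [gram, rpI_powI, ← powI_iff lam (h _ (rpI_rpI φ)), e4]
  refine if_congr (and_congr_left' ?_) ?_ rfl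
  · rw [← Nat.mul_right_inj hr.ne', ← mul_assoc, ← mul_assoc, e1, e2, mul_assoc, mul_assoc,
      Nat.mul_right_inj hr'.ne']
  · have c1 : (orderOf lam : ℂ) ≠ 0 := Nat.cast_ne_zero.2 hr.ne'
    have c2 : (orderOf (lam * lam₁) : ℂ) ≠ 0 := Nat.cast_ne_zero.2 hr'.ne'
    rw [← mul_div_mul_left _ _ c1, ← mul_div_mul_left ((_ * m : ℕ) : ℂ) _ c2]
    simp only [← Nat.cast_mul, ← mul_assoc, e1, e3]

omit hl in
theorem ph_core {e : ℕ} (he : 0 < e) {X : Finset ℕ} (hX : #X = N) (h : SymCh.wt e X = 0)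
    {ρ : Multiset ℕ} {k : ℕ} (hk : k ∈ ρ) (h0 : 0 < k) (hd : e ∣ k) : ph N X ρ = 0 := by
  obtain ⟨ρ, rfl⟩ := Multiset.exists_cons_of_mem hk
  rw [ph, phi_cons]
  refine sum_eq_zero fun i _ => by_contra fun hne => ?_
  have h1 := base_cls_le he (by_contra fun h' => hne (phi_eq_zero_of_not_injective h' ρ))
    fun j => not_lt.1 fun h' => hne (phi_eq_zero_of_neg h' ρ)
  have h2 := sum_eq_base_add he X
  rw [cls_sub_single _ _ hd, cls_lab hX] at h1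
  simp only [Pi.sub_apply, sum_sub_distrib, sum_pi_single', mem_univ, if_true] at h1
  rw [sum_lab hX fun x => x, ← Nat.cast_sum, h2, h] at h1
  omega

omit hl in
theorem ee_dvd (r : ℕ) (ψ : I F) : ee ℓ ψ ∣ ee ℓ (powI r ψ) :=
  (e0_dvd_per_mul_iff _ _).1 (((e0_dvd_per_mul_iff _ _).2 dvd_rfl).trans
    (mul_dvd_mul_right (per_powI_dvd r ψ) _))

variable (ℓ) in
/-- the active orbits -/
def Act (r : ℕ) (M : MP F N) (o : I F) : Prop := ∃ φ, powI r φ = o ∧ 0 < ww ℓ M (rpI ℓ φ)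

theorem ww_eq_of_powI {lam : Fˣ} {M : MP F N} (hM : act lam M = M) {φ φ' : I F}
    (h : powI (orderOf lam) φ = powI (orderOf lam) φ') : ww ℓ M (rpI ℓ φ') = ww ℓ M (rpI ℓ φ) := by
  obtain ⟨j, rfl⟩ := (powI_eq_iff lam).1 h
  rw [← act_pow_of hM j, ww_act, rpI_mulI, mulI_inv_mulI, act_pow_of hM j]

theorem act_iff {lam : Fˣ} {M : MP F N} (hM : act lam M = M) (φ : I F) :
    Act ℓ (orderOf lam) M (powI (orderOf lam) φ) ↔ 0 < ww ℓ M (rpI ℓ φ) :=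
  ⟨fun ⟨_, h1, h2⟩ => h2.trans_eq (ww_eq_of_powI hM h1).symm, fun h => ⟨φ, rfl, h⟩⟩

theorem act_rpI {lam : Fˣ} {M : MP F N} (hM : act lam M = M) (o : I F) :
    Act ℓ (orderOf lam) M (rpI ℓ o) ↔ Act ℓ (orderOf lam) M o := by
  obtain ⟨φ, rfl⟩ := powI_surjective (orderOf_pos lam) o
  rw [rpI_powI, act_iff hM, act_iff hM, rpI_rpI]

variable [DecidableEq F] [Laws F]

theorem ip_core (hℓ : ℓ ≠ ringChar F) (hP : StP F) {ψ : I F} (hψ : Reg ℓ ψ) (r : ℕ) (X : Bt N)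
    (h : SymCh.wt (ee ℓ ψ) X.1 = 0) :
    ip (S (fun k => dd ℓ (pp (powI r ψ) k)) N X.1) (S (fun k => dd ℓ (pp (powI r ψ) k)) N X.1) =
      1 := by
  rw [ip_S (w := fun k => (nl F ℓ ((powI r ψ).per * k) : ℂ)⁻¹) (fun k hk => hP.fk.prim_dd _ hk)
    fun k l hk hl => by rw [(hP.gr ℓ Fact.out hℓ).ip_dd_dd _ _ hk hl, gram_reg (hψ.powI r)],
    if_pos rfl, ← Rat.cast_one (α := ℂ), ← (sum_ph_mul_ph (mem_bs_sz X.2) (mem_bs_sz X.2)).trans
      (if_pos rfl), Rat.cast_sum]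
  refine sum_congr rfl fun ρ hρ => ?_
  by_cases h0 : ph N X.1 ρ = 0
  · simp [h0]
  rw [Multiset.prod_eq_one, mul_one]
  intro x hx
  obtain ⟨k, hk, rfl⟩ := Multiset.mem_map.1 hx
  have hk0 := (mem_ptn.1 hρ).2 k hk
  rw [(nl_eq_one_iff (Nat.mul_pos (per_pos _) hk0)).2 fun h1 => h0 (ph_core (ee_pos hℓ ψ) X.2 h hk
    hk0 ((ee_dvd r ψ).trans ((e0_dvd_per_mul_iff _ k).1 h1))), Nat.cast_one, inv_one]

open Classical in
theorem AA_eq (hℓ : ℓ ≠ ringChar F) (hP : StP F) (lam : Fˣ) {μ ν M : MP F N}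
    (hM : lift (orderOf lam) μ = M) (h : cd ℓ M = cd ℓ (lift (orderOf lam) ν)) :
    AA ℓ μ ν = ip (schur (fun o k => dd ℓ (pp o k)) (μ.filter (Act ℓ (orderOf lam) M)))
      (schur (fun o k => dd ℓ (pp o k)) (ν.filter (Act ℓ (orderOf lam) M))) := by
  have hr := orderOf_pos lam
  have hG := hP.gr ℓ Fact.out hℓ
  have hA : act lam M = M := hM ▸ act_lift_orderOf lam μ
  let T := μ.support ∪ ν.support
  have e1 : ∀ κ : MP F N, κ.support ⊆ T → schur (fun o k => dd ℓ (pp o k)) κ =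
      schur (fun o k => dd ℓ (pp o k)) (κ.filter (Act ℓ (orderOf lam) M)) *
        ∏ o ∈ T with ¬ Act ℓ (orderOf lam) M o, S (fun k => dd ℓ (pp o k)) N (κ o).1 := by
    intro κ hκ
    rw [schur_eq_prod_b _ _ hκ, schur_eq_prod_b _ _ (T := T.filter (Act ℓ (orderOf lam) M))
      (by rw [Finsupp.support_filter]; exact filter_subset_filter _ hκ),
      ← prod_filter_mul_prod_filter_not T (Act ℓ (orderOf lam) M)]
    congr 1
    exact prod_congr rfl fun o ho => by rw [Finsupp.filter_apply_pos _ _ (mem_filter.1 ho).2]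
  have e2 : ∀ κ : MP F N, schur (fun o k => dd ℓ (pp o k)) (κ.filter (Act ℓ (orderOf lam) M)) ∈
      Algebra.adjoin ℂ {x | ∃ o k, Act ℓ (orderOf lam) M o ∧ 0 < k ∧ x = dd ℓ (pp o k)} :=
    fun κ => Subalgebra.prod_mem _ fun o ho => S_mem_adjoin_b (fun k hk => by
      rw [Finsupp.support_filter] at ho
      exact ⟨o, k, (mem_filter.1 ho).2, hk, rfl⟩) _
  have e3 : ∀ κ : MP F N, ∏ o ∈ T with ¬ Act ℓ (orderOf lam) M o,
      S (fun k => dd ℓ (pp o k)) N (κ o).1 ∈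
      Algebra.adjoin ℂ {x | ∃ o k, ¬ Act ℓ (orderOf lam) M o ∧ 0 < k ∧ x = dd ℓ (pp o k)} :=
    fun κ => Subalgebra.prod_mem _ fun o ho => S_mem_adjoin_b (fun k hk => by
      exact ⟨o, k, (mem_filter.1 ho).2, hk, rfl⟩) _
  have e4 : ∀ φ, ¬ Act ℓ (orderOf lam) M (powI (orderOf lam) φ) → ww ℓ M (rpI ℓ φ) = 0 :=
    fun φ hφ => Nat.eq_zero_of_not_pos (mt (act_iff hA φ).2 hφ)
  have e5 : ∀ o, ¬ Act ℓ (orderOf lam) M o → ν o = μ o := fun o ho => by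
    obtain ⟨φ, rfl⟩ := powI_surjective hr o
    rw [← lift_apply hr, ← lift_apply hr, hM, eq_of_inactive hℓ h (e4 φ ho)]
  have e6 : ∀ o ∈ T, ¬ Act ℓ (orderOf lam) M o → Reg ℓ o := fun o hT ho => by
    obtain ⟨φ, rfl⟩ := powI_surjective hr o
    by_cases hφ : φ = rpI ℓ φ
    · exact Reg.powI _ (hφ ▸ reg_rpI φ)
    · have := ((ww_eq_zero_iff hℓ M (reg_rpI φ)).1 (e4 φ ho)).2 φ hφ rfl
      rw [← hM, lift_apply hr] at this
      rcases mem_union.1 hT with h1 | h1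
      · exact absurd this (Finsupp.mem_support_iff.1 h1)
      · exact absurd ((e5 _ ho).trans this) (Finsupp.mem_support_iff.1 h1)
  rw [AA, ← ip_dd_dd, chi, chi, dd_schur, dd_schur, e1 μ subset_union_left,
    e1 ν subset_union_right, ip_mul_mul_adjoin _ _ _ (e2 μ) (e2 ν) (e3 μ) (e3 ν),
    ip_prod_prod_adjoin (fun ψ => (fun k => dd ℓ (pp ψ k)) '' {k | 0 < k ∧ Reg ℓ ψ}),
    prod_eq_one, mul_one]
  · intro o ho
    obtain ⟨hT, ho⟩ := mem_filter.1 ho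
    obtain ⟨φ, rfl⟩ := powI_surjective hr o
    have h1 := (e6 _ hT ho).rpI_eq
    rw [rpI_powI] at h1
    rw [e5 _ ho, ← h1]
    refine ip_core hℓ hP (reg_rpI φ) _ _ ?_
    rw [← lift_apply hr, hM]
    exact ((ww_eq_zero_iff hℓ M (reg_rpI φ)).1 (e4 φ ho)).1
  · rintro ψ _ ⟨k, hk, rfl⟩
    exact hP.fk.prim_dd ψ hk.1
  · rintro ψ ψ' hne _ ⟨k, hk, rfl⟩ _ ⟨l, hl, rfl⟩
    rw [hG.ip_dd_dd _ _ hk.1 hl.1, gram_ne (by rwa [hk.2.rpI_eq, hl.2.rpI_eq])]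
  · exact fun o ho => S_mem_adjoin_b (fun k hk => by
      exact ⟨k, ⟨hk, e6 o (mem_filter.1 ho).1 (mem_filter.1 ho).2⟩, rfl⟩) _
  · exact fun o ho => S_mem_adjoin_b (fun k hk => by
      exact ⟨k, ⟨hk, e6 o (mem_filter.1 ho).1 (mem_filter.1 ho).2⟩, rfl⟩) _
  · rintro _ ⟨o, k, -, hk, rfl⟩
    exact hP.fk.prim_dd o hk
  · rintro _ ⟨o, k, -, hk, rfl⟩
    exact hP.fk.prim_dd o hk
  · rintro _ ⟨o, k, ho, hk, rfl⟩ _ ⟨o', k', ho', hk', rfl⟩
    rw [hG.ip_dd_dd _ _ hk hk', gram_ne fun h1 =>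
      ho' ((act_rpI hA o').1 (h1 ▸ (act_rpI hA o).2 ho))]

end Cmp

open Cmp in
theorem stCmp [DecidableEq F] [Laws F] (hℓ : ℓ ≠ ringChar F) (hP : StP F) : StCmp F ℓ := by
  classical
  rintro N μ₀ lam₁ ⟨h₁, h₂, h₃⟩
  have hfix : ∀ φ, 0 < ww ℓ μ₀ (rpI ℓ φ) → mulI lam₁ φ = φ := fun φ h => fix_of hℓ h₁ (h₃ _ h)
  refine ⟨fun μ hμ => Finsupp.ext fun φ => ?_, fun lam μ ν μ' ν' hμ hν cμ cν => ?_⟩
  · rcases (ww ℓ μ₀ (rpI ℓ φ)).eq_zero_or_pos with h | h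
    · have h4 := (cd_act_congr lam₁ hμ).trans h₂
      exact eq_of_inactive hℓ (h4.trans hμ.symm) (ww_eq_of_cd h4 ▸ h)
    · rw [← act_apply_mulI lam₁ μ φ, hfix φ h]
  have hr := orderOf_pos lam
  have hr' := orderOf_pos (lam * lam₁)
  have hG := hP.gr ℓ Fact.out hℓ
  rw [AA_eq hℓ hP lam rfl (cμ.trans cν.symm),
    AA_eq hℓ hP (lam * lam₁) hμ.symm (hν ▸ cμ.trans cν.symm)]
  have hA := act_lift_orderOf lam μ
  have hA' := hμ ▸ act_lift_orderOf (lam * lam₁) μ'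
  rw [← ww_eq_of_cd cμ] at hfix
  generalize hM : lift (orderOf lam) μ = M at hA hA' hfix ⊢
  choose σ hσ using powI_surjective (F := F) hr
  have a1 : ∀ o, Act ℓ (orderOf lam) M o → 0 < ww ℓ M (rpI ℓ (σ o)) := fun o ho =>
    (act_iff hA _).1 ((hσ o).symm ▸ ho)
  have e1 : ∀ (p : I F → ℕ → H (1 : Fˣ →* ℂˣ)) (κ : MP F N),
      schur p (κ.filter (Act ℓ (orderOf lam) M)) =
      schur (fun o k => if Act ℓ (orderOf lam) M o then p o k else 0)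
        (κ.filter (Act ℓ (orderOf lam) M)) := fun p κ =>
    prod_congr rfl fun o ho => by
      rw [Finsupp.support_filter] at ho
      simp only [if_pos (mem_filter.1 ho).2]
  have e2 : ∀ κ κ' : MP F N, lift (orderOf lam) κ = lift (orderOf (lam * lam₁)) κ' →
      schur (fun o k => dd ℓ (pp o k)) (κ'.filter (Act ℓ (orderOf (lam * lam₁)) M)) =
      schur (fun o k => dd ℓ (pp (powI (orderOf (lam * lam₁)) (σ o)) k))
        (κ.filter (Act ℓ (orderOf lam) M)) := fun κ κ' h => by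
    have h4 : ∀ o, κ' (powI (orderOf (lam * lam₁)) (σ o)) = κ o := fun o => by
      rw [← lift_apply hr', ← h, lift_apply hr, hσ]
    symm
    simp only [schur, Finsupp.prod, Finsupp.support_filter]
    refine prod_bij (fun o _ => powI (orderOf (lam * lam₁)) (σ o)) (fun o ho => ?_)
      (fun o ho o' _ h5 => ?_) (fun o ho => ?_) fun o ho => ?_
    · obtain ⟨h5, h6⟩ := mem_filter.1 ho
      exact mem_filter.2 ⟨by rwa [Finsupp.mem_support_iff, h4, ← Finsupp.mem_support_iff],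
        (act_iff hA' _).2 (a1 o h6)⟩
    · rw [← hσ o, ← hσ o', powI_iff lam (hfix _ (a1 o (mem_filter.1 ho).2)), h5]
    · obtain ⟨h5, φ, rfl, h6⟩ := mem_filter.1 ho
      have h7 := ((powI_iff lam (hfix φ h6) _).1 (hσ _).symm).symm
      exact ⟨powI (orderOf lam) φ, mem_filter.2 ⟨by
        rwa [Finsupp.mem_support_iff, ← h4, h7, ← Finsupp.mem_support_iff], φ, rfl, h6⟩, h7⟩
    · have h6 := (mem_filter.1 ho).2
      rw [Finsupp.filter_apply_pos _ _ h6,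
        Finsupp.filter_apply_pos _ _ ((act_iff hA' _).2 (a1 o h6)), h4]
  rw [e2 μ μ' hμ, e2 ν ν' hν, e1, e1 _ ν, e1 (fun o k => dd ℓ (pp (powI _ (σ o)) k)),
    e1 (fun o k => dd ℓ (pp (powI _ (σ o)) k)) ν]
  refine ip_schur_eq (fun o m hm => ?_) (fun o m hm => ?_) (fun o m o' m' hm hm' => ?_) _ _
  · split_ifs
    exacts [hP.fk.prim_dd _ hm, prim_zero]
  · split_ifs
    exacts [hP.fk.prim_dd _ hm, prim_zero]
  · by_cases ho : Act ℓ (orderOf lam) M o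
    · by_cases ho' : Act ℓ (orderOf lam) M o'
      · simp only [if_pos ho, if_pos ho']
        rw [hG.ip_dd_dd _ _ hm hm', hG.ip_dd_dd _ _ hm hm', ← gram_eq lam h₁
          (fun χ hχ => hfix χ (by rw [hχ]; exact a1 o ho)) (hfix _ (a1 o' ho')) hm, hσ, hσ]
      · simp only [if_neg ho', ip_zero_right]
    · simp only [if_neg ho, ip_zero_left]

end Cfsg.GLn
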