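import Cfsg.Agent.GLn.HallA
import Mathlib.LinearAlgebra.Matrix.Block
import Mathlib.NumberTheory.LegendreSymbol.AddCharacter

/-! The twisted Gelfand-Graev functions: definitions. -/

set_option autoImplicit false
set_option linter.unusedSectionVars false

namespace Cfsg.GLn

open Matrix

universe u

variable {F : Type u} [Field F] [Fintype F] [DecidableEq F]

/-- upper unitriangular matrices -/
def IsU {n : ℕ} (A : Matrix (Fin n) (Fin n) F) : Prop :=
  (∀ a b, b < a → A a b = 0) ∧ ∀ a, A a a = 1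

/-- the sum of the superdiagonal entries -/
def sd {n : ℕ} (A : Matrix (Fin n) (Fin n) F) : F :=
  ∑ a : Fin n, ∑ b : Fin n, if (b : ℕ) = a + 1 then A a b else 0

section basic
variable {n : ℕ} {A B : Matrix (Fin n) (Fin n) F}

theorem IsU.one : IsU (1 : Matrix (Fin n) (Fin n) F) :=
  ⟨fun _ _ h => Matrix.one_apply_ne h.ne', fun _ => Matrix.one_apply_eq _⟩

theorem IsU.mul (hA : IsU A) (hB : IsU B) : IsU (A * B) := by
  refine ⟨fun a b h => ?_, fun a => ?_⟩
  · rw [Matrix.mul_apply]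
    refine Finset.sum_eq_zero fun c _ => ?_
    rcases lt_or_ge c a with hc | hc
    · rw [hA.1 _ _ hc, zero_mul]
    · rw [hB.1 _ _ (h.trans_le hc), mul_zero]
  · rw [Matrix.mul_apply, Finset.sum_eq_single a, hA.2, hB.2, one_mul]
    · intro c _ hc
      rcases lt_or_gt_of_ne hc with hc | hc
      · rw [hA.1 _ _ hc, zero_mul]
      · rw [hB.1 _ _ hc, mul_zero]
    · simp

theorem IsU.det (hA : IsU A) : A.det = 1 := by
  rw [Matrix.det_of_isUpperTriangular fun a b h => hA.1 a b h]
  simp [hA.2]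

theorem sd_one : sd (1 : Matrix (Fin n) (Fin n) F) = 0 := by
  refine Finset.sum_eq_zero fun a _ => Finset.sum_eq_zero fun b _ => ?_
  split_ifs with h
  · exact Matrix.one_apply_ne fun h' => by subst h'; omega
  · rfl

theorem IsU.sd_mul (hA : IsU A) (hB : IsU B) : sd (A * B) = sd A + sd B := by
  simp only [sd, ← Finset.sum_add_distrib]
  refine Finset.sum_congr rfl fun a _ => Finset.sum_congr rfl fun b _ => ?_
  split_ifs with h
  · rw [Matrix.mul_apply, Finset.sum_eq_add a b (fun h' => by subst h'; omega), hA.2, hB.2,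
      one_mul, mul_one, add_comm]
    · intro c _ hc
      rcases lt_or_ge c a with h1 | h1
      · rw [hA.1 _ _ h1, zero_mul]
      · have h2 : (c : ℕ) ≠ a := fun h => hc.1 (Fin.ext h)
        have h3 : (c : ℕ) ≠ b := fun h => hc.2 (Fin.ext h)
        have h4 : (a : ℕ) ≤ c := h1
        rw [hB.1 c b (show (b : ℕ) < c by omega), mul_zero]
    · simp
    · simp
  · simp

end basic

variable (F) in
/-- the upper unitriangular subgroup -/
def Uni (n : ℕ) : Subgroup (G F n) where
  carrier := {g | IsU g.val}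
  one_mem' := IsU.one
  mul_mem' := IsU.mul
  inv_mem' := fun {g} hg => by
    obtain ⟨k, hk⟩ : g⁻¹ ∈ Submonoid.powers g :=
      mem_powers_iff_mem_zpowers.2 (inv_mem (Subgroup.mem_zpowers g))
    rw [← hk]
    clear hk
    induction k with
    | zero => exact IsU.one
    | succ k ih => simp only [pow_succ]; exact IsU.mul ih hg

theorem mem_Uni {n : ℕ} {g : G F n} : g ∈ Uni F n ↔ IsU g.val := Iff.rfl

theorem dt_of_mem_Uni {n : ℕ} {g : G F n} (hg : g ∈ Uni F n) : dt g = 1 :=
  Units.ext (IsU.det hg)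

variable (ψ : AddChar F ℂ)

/-- the regular character of the unitriangular group -/
noncomputable def psiU (n : ℕ) : Uni F n →* ℂ where
  toFun u := ψ (sd u.1.val)
  map_one' := by simp [sd_one]
  map_mul' a b := by
    rw [← AddChar.map_add_eq_mul, ← IsU.sd_mul a.2 b.2]; rfl

open Classical in
/-- the regular character extended by zero -/
noncomputable def psi0 {n : ℕ} (g : G F n) : ℂ := if g ∈ Uni F n then ψ (sd g.val) else 0

theorem psi0_of_mem {n : ℕ} {g : G F n} (hg : g ∈ Uni F n) : psi0 ψ g = ψ (sd g.val) := if_pos hg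
theorem psi0_of_not_mem {n : ℕ} {g : G F n} (hg : g ∉ Uni F n) : psi0 ψ g = 0 := if_neg hg

theorem psi0_mul {n : ℕ} (g : G F n) {t : G F n} (ht : t ∈ Uni F n) :
    psi0 ψ (g * t) = psi0 ψ g * ψ (sd t.val) := by
  by_cases hg : g ∈ Uni F n
  · rw [psi0_of_mem ψ (mul_mem hg ht), psi0_of_mem ψ hg, ← AddChar.map_add_eq_mul,
      ← IsU.sd_mul hg ht]; rfl
  · rw [psi0_of_not_mem ψ hg, psi0_of_not_mem ψ (by rwa [mul_mem_cancel_right ht]), zero_mul]

theorem psi0_mul' {n : ℕ} (g : G F n) {t : G F n} (ht : t ∈ Uni F n) :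
    psi0 ψ (t * g) = psi0 ψ g * ψ (sd t.val) := by
  by_cases hg : g ∈ Uni F n
  · rw [psi0_of_mem ψ (mul_mem ht hg), psi0_of_mem ψ hg, ← AddChar.map_add_eq_mul, add_comm,
      ← IsU.sd_mul ht hg]; rfl
  · rw [psi0_of_not_mem ψ hg, psi0_of_not_mem ψ (by rwa [mul_mem_cancel_left ht]), zero_mul]

theorem psi0_conj {n : ℕ} (g : G F n) {t : G F n} (ht : t ∈ Uni F n) :
    psi0 ψ (t⁻¹ * g * t) = psi0 ψ g := by
  conv_rhs => rw [show g = t * (t⁻¹ * g) by group, psi0_mul' ψ _ ht]
  exact psi0_mul ψ _ ht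

variable (F) in
/-- the fixed non-trivial additive character -/
noncomputable def psiF : AddChar F ℂ := AddChar.FiniteField.primitiveChar_to_Complex F

variable (F) in
theorem psiF_ne_one : psiF F ≠ 1 := by
  simpa [psiF] using AddChar.FiniteField.primitiveChar_to_Complex_isPrimitive F (one_ne_zero (α := F))

variable (ω : Fˣ →* ℂˣ)

/-- the twisted Gelfand-Graev function -/
noncomputable def Gam (n : ℕ) : H ω :=
  (Nat.card (Uni F n) : ℂ)⁻¹ • ∑ g, psi0 (psiF F) g • orb ω n g

theorem orb_apply' {n : ℕ} (g : G F n) (x : Obj F) :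
    orb ω n g x = ∑ z : G F n, if (⟨n, z * g * z⁻¹⟩ : Obj F) = x then (ω (dt z) : ℂ) else 0 := by
  classical
  change (∑ z : G F n, Finsupp.single (⟨n, z * g * z⁻¹⟩ : Obj F) (ω (dt z) : ℂ)) x = _
  simp only [Finsupp.finsetSum_apply, Finsupp.single_apply]

theorem Gam_isHom (n : ℕ) : IsHom n (Gam ω n) := fun x hx => by
  rw [Gam, H.smul_apply, H.sum_apply, Finset.sum_eq_zero, mul_zero]
  intro g _
  rw [H.smul_apply, orb_apply', Finset.sum_eq_zero, mul_zero]
  exact fun z _ => if_neg fun h : _ = x => hx (h ▸ rfl)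

theorem Gam_apply {n : ℕ} (g : G F n) : Gam ω n ⟨n, g⟩ =
    (Nat.card (Uni F n) : ℂ)⁻¹ * ∑ z : G F n, ω (dt z) * psi0 (psiF F) (z⁻¹ * g * z) := by
  rw [Gam, H.smul_apply, H.sum_apply]
  congr 1
  simp only [H.smul_apply, orb_apply', Finset.mul_sum, Sigma.mk.injEq, heq_eq_eq, true_and]
  rw [Finset.sum_comm]
  refine Finset.sum_congr rfl fun z _ => ?_
  rw [Finset.sum_eq_single (z⁻¹ * g * z), if_pos (by group), mul_comm]
  · intro h _ hh
    rw [if_neg fun h' => hh (by rw [← h']; group), mul_zero]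
  · simp

end Cfsg.GLn
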