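import Cfsg.Agent.GLn.Defs
import Cfsg.Agent.GLn.GG0
import Cfsg.Agent.GLn.Clif
import Cfsg.Agent.Blk.Defect
import Cfsg.Prelude.Def_CaseTheorems

/-!
# S4536: frozen definitions, part 2, and the statements of the pieces (plan: `docs/GLn.md`)
-/

set_option autoImplicit false

namespace Cfsg.GLn

open Matrix Finset

universe u

variable {F : Type u} [Field F] [Fintype F] [DecidableEq F] {ω : Fˣ →* ℂˣ} {N : ℕ}

/-- projection to the series of the irreducible character `χ` of `GL_n` -/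
noncomputable def pj (n : ℕ) (χ : H (1 : Fˣ →* ℂˣ)) (a : H ω) : H ω :=
  mk ω n (pjG (cm χ n) (cm a n))

/-- Fock families -/
structure Fk (r : ℕ) (p : I F → ℕ → H ω) : Prop where
  ord : orderOf ω = r
  prim : ∀ o m, 0 < m → Prim (p o m)
  hom : ∀ o m, 0 < m → IsHom (r * (o.per * m)) (p o m)
  ip : ∀ o m o' m', 0 < m → 0 < m' →
    ip (p o m) (p o' m') = if o = o' ∧ m = m' then (m : ℂ) else 0
  gam : ∀ o m, 0 < m → GLn.ip (p o m) (Gam ω (r * (o.per * m))) = 1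

/-- the Gram matrix of the truncations -/
def Gr (ℓ : ℕ) (p : I F → ℕ → H ω) : Prop :=
  ∀ o m o' m', 0 < m → 0 < m' → ip (dd ℓ (p o m)) (p o' m') = gram ℓ o m o' m'

variable (F) in
/-- piece `Dim` -/
def StDim : Prop := ∀ (S : I F → Prop) (n : ℕ), (PT S n).Finite ∧ ∀ ω : Fˣ →* ℂˣ,
  Module.finrank ℂ (HS ω S n) ≤ if orderOf ω ∣ n then (PT S (n / orderOf ω)).ncard else 0

variable [Laws F]

variable (ω) in
/-- the degenerate Gelfand-Graev functions -/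
noncomputable def GamA (α : Fin N → ℕ) : H ω := ∏ i, Gam ω (α i)

/-- the twisted complete symmetric functions -/
noncomputable def hT (lam : Fˣ) (o : I F) (m : ℕ) : H (chr lam) :=
  pj (orderOf lam * (o.per * m)) (hG (orderOf lam) o m) (Gam (chr lam) (orderOf lam * (o.per * m)))

/-- the twisted power sums -/
noncomputable def pT (lam : Fˣ) (o : I F) : ℕ → H (chr lam) := lg (hT lam o)

/-- the twisted characters -/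
noncomputable def sG (lam : Fˣ) (μ : MP F N) : H (chr lam) :=
  pj (deg μ) (chi μ) (GamA (chr lam) (alpha μ))

variable (F)

/-- piece `Pw` -/
structure StP : Prop where
  fk : Fk 1 (pp (F := F))
  gr : ∀ ℓ : ℕ, ℓ.Prime → ℓ ≠ ringChar F → Gr ℓ (pp (F := F))
  tens : ∀ (lam : Fˣ) (o : I F) (m : ℕ), 0 < m → tens lam (pp o m) = pp (mulI lam o) m
  ng : ∀ (o : I F) (m : ℕ), 0 < m → ∃ ε : ℂ, ng (pp o m) = ε • pp o m ∧ (Reg 2 o → ε = 1)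

/-- piece `Vir` -/
def StVir : Prop := ∀ a b : H (1 : Fˣ →* ℂˣ), Vc a → Vc b → Vc (a * b)

/-- piece `Int` -/
def StInt : Prop := ∀ (o : I F) (m : ℕ), Vc (ex (pp o) m)

/-- piece `GG2` -/
def StGG : Prop := ∀ (N : ℕ) (α : Fin N → ℕ) (n : ℕ), ∑ i, α i = n →
  IsCharacter (G F n) (cm (GamA 1 α) n) ∧
  ∃ θ : (dt (F := F) (n := n)).ker → ℂ, IsCharacter _ θ ∧ ∀ g : G F n,
    ∑ᶠ ω : Fˣ →* ℂˣ, GamA ω α ⟨n, g⟩ = Nat.card Fˣ * extendByZero _ θ g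

/-- piece `Sch`: consequences of `Fk` -/
structure Sch {ω : Fˣ →* ℂˣ} (r : ℕ) (p : I F → ℕ → H ω) : Prop where
  hom : ∀ {N : ℕ} (ν : MP F N), IsHom (r * deg ν) (schur p ν)
  orth : ∀ {N : ℕ} (μ ν : MP F N), ip (schur p μ) (schur p ν) = if μ = ν then 1 else 0
  gamA : ∀ {N : ℕ} (ν : MP F N), ip (schur p ν) (GamA ω fun i => r * alpha ν i) = 1
  fin : ∀ N n : ℕ, {ν : MP F N | deg ν = n}.Finite
  cpl : ∀ (N n : ℕ) (a : H ω), n ≤ N → IsHom (r * n) a →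
    (∀ ν : MP F N, deg ν = n → ip a (schur p ν) = 0) → a = 0
  cpl0 : ∀ (n : ℕ) (a : H ω), ¬ r ∣ n → IsHom n a → a = 0
  cplP : ∀ a : H ω, Prim a → (∀ o m, 0 < m → ip a (p o m) = 0) → a = 0
  gam : ∀ n : ℕ, ∃ s : Finset (I F →₀ ℕ), (∀ l, l ∈ s ↔ (l.sum fun o m => o.per * m) = n) ∧
    Gam ω (r * n) = ∑ l ∈ s, l.prod fun o m => ex (p o) m

def StSch : Prop := ∀ (ω : Fˣ →* ℂˣ) (r : ℕ) (p : I F → ℕ → H ω), Fk r p → Sch F r p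

/-- piece `Irr` -/
structure StIrr : Prop where
  irr : ∀ {N n : ℕ} (μ : MP F N), deg μ = n → IsIrrCharacter (G F n) (cm (chi μ) n)
  surj : ∀ {N n : ℕ}, n ≤ N → ∀ χ : IrrCharacter (G F n), ∃ μ : MP F N, deg μ = n ∧
    cm (chi μ) n = χ.1
  tens : ∀ {N : ℕ} (lam : Fˣ) (μ : MP F N), tens lam (chi μ) = chi (act lam μ)

/-- piece `Tw` -/
def StTw : Prop := ∀ lam : Fˣ, Fk (orderOf lam) (pT lam) ∧ ∀ (N : ℕ) (ν : MP F N),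
  orderOf lam * deg ν ≤ N → schur (pT lam) ν = sG lam (lift (orderOf lam) ν)

variable (ℓ : ℕ)

/-- piece `Core` -/
def StCore : Prop := ∀ (N : ℕ) (μ ν : MP F N), deg μ ≤ N → deg ν ≤ N → cd ℓ μ ≠ cd ℓ ν →
  AA ℓ μ ν = 0

/-- piece `Bas`: consequences of `Fk` and `Gr` -/
def StBas : Prop := ∀ (ω : Fˣ →* ℂˣ) (r : ℕ) (p : I F → ℕ → H ω), Fk r p → Gr ℓ p →
  (∀ (N : ℕ) (ν : MP F N), deg ν ≤ N → dd ℓ (schur p ν) ∈ Submodule.span ℂ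
    ((fun ν₀ : MP F N => dd ℓ (schur p ν₀)) '' {ν₀ | Basic ℓ ν₀ ∧ deg ν₀ = deg ν})) ∧
  (∀ a ∈ Algebra.adjoin ℂ {x | ∃ ψ m, Reg ℓ ψ ∧ 0 < m ∧ x = p ψ m}, dd ℓ a = 0 → a = 0) ∧
  ∀ (N : ℕ) (μ ν : MP F N), ip (dd ℓ (schur p μ)) (schur p ν) = AA ℓ μ ν

/-- piece `H4` -/
def StH4 : Prop := ∀ (lam : Fˣ) (N : ℕ) (μ ν : MP F N), deg μ ≤ N → deg ν ≤ N →
  cd ℓ μ ≠ cd ℓ ν → ip (dd ℓ (sG lam μ)) (sG lam ν) = 0

/-- piece `TwD` -/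
def StTwD : Prop := ∀ lam : Fˣ, Gr ℓ (pT lam)

/-- piece `Cmp` -/
def StCmp : Prop := ∀ (N : ℕ) (μ₀ : MP F N) (lam₁ : Fˣ), Y1 ℓ μ₀ lam₁ →
  (∀ μ : MP F N, cd ℓ μ = cd ℓ μ₀ → act lam₁ μ = μ) ∧
  ∀ (lam : Fˣ) (μ ν μ' ν' : MP F N),
    lift (orderOf lam) μ = lift (orderOf (lam * lam₁)) μ' →
    lift (orderOf lam) ν = lift (orderOf (lam * lam₁)) ν' →
    cd ℓ (lift (orderOf lam) μ) = cd ℓ μ₀ → cd ℓ (lift (orderOf lam) ν) = cd ℓ μ₀ →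
    AA ℓ μ ν = AA ℓ μ' ν'

omit [Laws F] in
/-- piece `Cnt` -/
def StCnt : Prop := ∀ (N : ℕ) (μ : MP F N), (ℓ + 1) * deg μ ≤ N → 0 < deg μ →
  ∃ Y : Subgroup Fˣ, (∀ lam ∈ Y, Y1 ℓ μ lam) ∧
    ∑ lam : Fˣ, (BS ℓ lam μ).ncard ≤ Nat.card Y * bd ℓ μ

/-- piece `DG1` -/
def StDG1 : Prop := ∀ M : Ideal AlgInt, IsPModular ℓ M → ∀ (N n : ℕ) (μ : MP F N)
  (χ : IrrCharacter (G F n)), deg μ = n → n ≤ N → cm (chi μ) n = χ.1 →
  ∀ D, IsDefectGroup ℓ M (blockOf M χ.1) D → ∃ E : Subgroup (G F n), Nat.card E = ℓ ^ W ℓ μ ∧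
    (∀ a ∈ E, ∀ b ∈ E, a * b = b * a) ∧ (∀ a ∈ E, a ^ ℓ = 1) ∧ IsConjLE E D

/-- piece `DG2` -/
def StDG2 : Prop := ∀ M : Ideal AlgInt, IsPModular 2 M → ∀ (N n : ℕ) (μ : MP F N)
  (χ : IrrCharacter (G F n)), deg μ = n → n ≤ N → cm (chi μ) n = χ.1 → (∀ ψ, Even (nn 2 μ ψ)) →
  ∀ D, IsDefectGroup 2 M (blockOf M χ.1) D → ∀ s,
    SectionalPRankLE 2 s (D ⊓ (dt (F := F) (n := n)).ker : Subgroup (G F n)) → W 2 μ ≤ s

end Cfsg.GLn
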