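import Cfsg.Agent.CT.SymCount

/-! Numerical inequalities for the descent from `GL_n` to `SL_n`. -/

set_option autoImplicit false

namespace Cfsg.GLn.Num

open Finset MulAction

variable {A I β : Type*} [CommGroup A] [Fintype A] [Fintype I] [DecidableEq I] [DecidableEq β]
  [MulAction A I]

/-- The number of `z`-invariant choice functions. -/
def fx (Y : I → Finset β) (z : A) : ℕ := #{f ∈ Fintype.piFinset Y | ∀ i, f (z • i) = f i}

/-- The bound for one orbit of length `o`. -/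
def tb (o c : ℕ) : ℕ := c ^ (o - 1) * (c + o - 1)

/-- The orbits. -/
abbrev Orb (A I : Type*) [Group A] [MulAction A I] := orbitRel.Quotient A I

theorem fx_le_prod (Y : I → Finset β) (z : A) (R : Finset I) (hR : ∀ j ∈ R, z⁻¹ • j ∉ R) :
    fx Y z ≤ ∏ i ∈ univ \ R, #(Y i) := by
  classical
  rw [← Finset.card_pi]
  refine card_le_card_of_injOn (fun f i _ => f i) ?_ ?_
  · intro f hf
    simp only [coe_filter, Fintype.mem_piFinset, Set.mem_setOf_eq] at hf
    simp only [mem_coe, mem_pi]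
    exact fun i _ => hf.1 i
  · intro f hf g hg h
    simp only [coe_filter, Fintype.mem_piFinset, Set.mem_setOf_eq] at hf hg
    funext j
    by_cases hj : j ∈ R
    · have h1 := congrFun (congrFun h (z⁻¹ • j)) (by simp [hR j hj])
      have h2 := hf.2 (z⁻¹ • j)
      have h3 := hg.2 (z⁻¹ • j)
      rw [smul_inv_smul] at h2 h3
      rw [h2, h3]; exact h1
    · exact congrFun (congrFun h j) (by simp [hj])

theorem card_fiber_orb (ω : Orb A I) [DecidableEq (Orb A I)] :
    #{i : I | (Quotient.mk _ i : Orb A I) = ω} = (stabilizer A ω.out).index := by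
  classical
  rw [index_stabilizer, ← Set.ncard_coe_finset]
  congr 1
  ext i
  simp only [coe_filter, mem_univ, true_and, Set.mem_setOf_eq]
  conv_lhs => rw [← Quotient.out_eq ω]
  exact Quotient.eq

theorem eq_out {γ : Type*} {c : I → γ} (hc : ∀ (g : A) i, c (g • i) = c i) {i : I} {ω : Orb A I}
    (h : (Quotient.mk _ i : Orb A I) = ω) : c i = c ω.out := by
  rw [← Quotient.out_eq ω] at h
  obtain ⟨g, hg⟩ := Quotient.exact h
  rw [← hg]; exact hc g _

theorem prod_orb {M : Type*} [CommMonoid M] {c : I → M} (hc : ∀ (g : A) i, c (g • i) = c i)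
    [Fintype (Orb A I)] :
    ∏ i, c i = ∏ ω : Orb A I, c ω.out ^ (stabilizer A ω.out).index := by
  classical
  rw [← prod_fiberwise univ (fun i => (Quotient.mk _ i : Orb A I))]
  refine prod_congr rfl fun ω _ => ?_
  rw [← card_fiber_orb, ← prod_const]
  exact prod_congr rfl fun i hi => eq_out hc (by simpa using hi)

theorem fx_le_prod_orb (Y : I → Finset β) (hY : ∀ (g : A) i, #(Y (g • i)) = #(Y i)) (z : A)
    [Fintype (Orb A I)] [∀ i : I, DecidablePred (· ∈ stabilizer A i)] :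
    fx Y z ≤ ∏ ω : Orb A I, #(Y ω.out) ^
      ((stabilizer A ω.out).index - if z ∈ stabilizer A ω.out then 0 else 1) := by
  classical
  let q : I → Orb A I := fun i => Quotient.mk _ i
  have hq : ∀ (g : A) i, q (g • i) = q i := fun g i => Quotient.sound ⟨g, rfl⟩
  have hqo : ∀ ω : Orb A I, q ω.out = ω := fun ω => Quotient.out_eq ω
  let R : Finset I := {j | j = z • (q j).out ∧ j ≠ (q j).out}
  refine (fx_le_prod Y z R ?_).trans (le_of_eq ?_)
  · intro j hj hj'
    simp only [R, mem_filter, mem_univ, true_and, hq] at hj hj'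
    apply hj'.2
    rw [inv_smul_eq_iff]; exact hj.1
  · rw [← prod_fiberwise _ q]
    refine prod_congr rfl fun ω _ => ?_
    rw [prod_congr rfl (g := fun _ => #(Y ω.out))
      (fun i hi => eq_out (c := fun i => #(Y i)) hY (by simpa using (mem_filter.1 hi).2)),
      prod_const, ← card_fiber_orb]
    congr 1
    split_ifs with hz
    · congr 1
      ext i
      simp only [R, mem_filter, mem_sdiff, mem_univ, true_and]
      refine ⟨fun h => h.2, fun h => ⟨?_, h⟩⟩
      have h' : q i = ω := h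
      rw [h', mem_stabilizer_iff.1 hz]; tauto
    · rw [← card_erase_of_mem (a := z • ω.out) (by simpa using (hq z _).trans (hqo ω))]
      congr 1
      ext i
      simp only [R, mem_filter, mem_sdiff, mem_univ, true_and, mem_erase]
      constructor
      · rintro ⟨h1, h2⟩
        refine ⟨fun h => h1 ?_, h2⟩
        rw [h2]; exact ⟨h, h ▸ hz⟩
      · rintro ⟨h1, h2⟩
        have h' : q i = ω := h2
        refine ⟨fun h => h1 ?_, h2⟩
        rw [h'] at h; exact h.1

theorem sum_quot (K S : Subgroup A) (hK : K ≤ S) (c : ℕ) [Fintype (A ⧸ K)]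
    [DecidablePred (· ∈ S.map (QuotientGroup.mk' K))] :
    ∑ t : A ⧸ K, c ^ (S.index - if t ∈ S.map (QuotientGroup.mk' K) then 0 else 1) =
      K.relIndex S * tb S.index c := by
  classical
  have h1 : #{t : A ⧸ K | t ∈ S.map (QuotientGroup.mk' K)} = K.relIndex S := by
    have : K.relIndex S = Nat.card (S.map (QuotientGroup.mk' K)) := by
      rw [← Subgroup.relIndex_ker, QuotientGroup.ker_mk']
    rw [this, ← Fintype.card_subtype, ← Nat.card_eq_fintype_card]
  have h2 : #{t : A ⧸ K | t ∈ S.map (QuotientGroup.mk' K)} +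
      #{t : A ⧸ K | ¬ t ∈ S.map (QuotientGroup.mk' K)} = K.relIndex S * S.index := by
    rw [card_filter_add_card_filter_not, card_univ, ← Nat.card_eq_fintype_card,
      Subgroup.relIndex_mul_index hK, Subgroup.index]
  obtain ⟨o, ho⟩ : ∃ o, S.index = o + 1 :=
    Nat.exists_eq_succ_of_ne_zero Subgroup.index_ne_zero_of_finite
  rw [← sum_filter_add_sum_filter_not univ (· ∈ S.map (QuotientGroup.mk' K)),
    sum_congr rfl (g := fun _ => c ^ (o + 1)) (fun t ht => by
      rw [if_pos (mem_filter.1 ht).2, ho, Nat.sub_zero]),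
    sum_congr (s₂ := {t : A ⧸ K | ¬ t ∈ S.map (QuotientGroup.mk' K)}) rfl
      (g := fun _ => c ^ o) (fun t ht => by
      rw [if_neg (mem_filter.1 ht).2, ho, Nat.add_sub_cancel]),
    sum_const, sum_const, smul_eq_mul, smul_eq_mul, tb, ho]
  rw [h1, ho] at h2
  have h3 : #{t : A ⧸ K | ¬ t ∈ S.map (QuotientGroup.mk' K)} = K.relIndex S * o := by
    rw [mul_add] at h2; omega
  rw [h1, h3, Nat.add_sub_cancel, ← add_assoc, Nat.add_sub_cancel]
  ring

/-- The basic estimate. -/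
theorem sum_fx_le (Y : I → Finset β) (hY : ∀ (g : A) i, #(Y (g • i)) = #(Y i))
    (K : I → Subgroup A) (hK : ∀ i, K i ≤ stabilizer A i) (hK' : ∀ (g : A) i, K (g • i) = K i)
    [Fintype (Orb A I)] :
    ∑ z : A, fx Y z ≤ Nat.card (⨅ i, K i : Subgroup A) * ∏ ω : Orb A I,
      (K ω.out).relIndex (stabilizer A ω.out) * tb (stabilizer A ω.out).index #(Y ω.out) := by
  classical
  let Φ : A →* (∀ ω : Orb A I, A ⧸ K ω.out) := Pi.monoidHom fun ω => QuotientGroup.mk' _
  have hker : Φ.ker = ⨅ i, K i := by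
    ext z
    simp only [MonoidHom.mem_ker, Subgroup.mem_iInf, funext_iff]
    refine ⟨fun h i => ?_, fun h ω => (QuotientGroup.eq_one_iff z).2 (h _)⟩
    rw [eq_out hK' (i := i) rfl]; exact (QuotientGroup.eq_one_iff z).1 (h _)
  let G : ∀ ω : Orb A I, A ⧸ K ω.out → ℕ := fun ω t => #(Y ω.out) ^ ((stabilizer A ω.out).index -
    if t ∈ (stabilizer A ω.out).map (QuotientGroup.mk' (K ω.out)) then 0 else 1)
  have h1 : ∀ z, fx Y z ≤ ∏ ω, G ω (Φ z ω) := by
    intro z
    refine (fx_le_prod_orb Y hY z).trans (le_of_eq (prod_congr rfl fun ω _ => ?_))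
    have : z ∈ stabilizer A ω.out ↔
        Φ z ω ∈ (stabilizer A ω.out).map (QuotientGroup.mk' (K ω.out)) := by
      conv_lhs => rw [← Subgroup.comap_map_eq_self (f := QuotientGroup.mk' (K ω.out))
        (H := stabilizer A ω.out) (by rw [QuotientGroup.ker_mk']; exact hK _)]
      rfl
    simp only [G, this]
  calc ∑ z : A, fx Y z ≤ ∑ z : A, ∏ ω, G ω (Φ z ω) := sum_le_sum fun z _ => h1 z
    _ = ∑ t : ∀ ω : Orb A I, A ⧸ K ω.out, #{z | Φ z = t} * ∏ ω, G ω (t ω) := by
      rw [← sum_fiberwise univ Φ]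
      refine sum_congr rfl fun t _ => ?_
      rw [← smul_eq_mul, ← sum_const]
      exact sum_congr rfl fun z hz => by rw [(mem_filter.1 hz).2]
    _ ≤ ∑ t : ∀ ω : Orb A I, A ⧸ K ω.out, Nat.card Φ.ker * ∏ ω, G ω (t ω) := by
      refine sum_le_sum fun t _ => Nat.mul_le_mul_right _ ?_
      by_cases ht : t ∈ Set.range Φ
      · rw [MonoidHom.card_fiber_eq_of_mem_range Φ ht (y := 1) ⟨1, map_one Φ⟩,
          ← Fintype.card_subtype, Nat.card_eq_fintype_card]
        exact le_of_eq (by convert rfl; rfl)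
      · rw [card_eq_zero.2]
        · exact Nat.zero_le _
        · exact filter_eq_empty_iff.2 fun z _ h => ht ⟨z, h⟩
    _ = _ := by
      rw [← mul_sum, hker, ← Fintype.piFinset_univ, ← prod_univ_sum]
      congr 1
      exact prod_congr rfl fun ω _ => sum_quot _ _ (hK _) _

/-! ### Pure arithmetic -/

theorem tb_le_succ_pow {o : ℕ} (ho : 0 < o) (C : ℕ) : tb o C ≤ (C + 1) ^ o := by
  obtain ⟨k, rfl⟩ := Nat.exists_eq_succ_of_ne_zero ho.ne'
  have h : ∀ k : ℕ, C ^ k * (C + (k + 1)) ≤ (C + 1) ^ (k + 1) := by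
    intro k
    induction k with
    | zero => simp
    | succ k ih =>
      calc C ^ (k + 1) * (C + (k + 1 + 1)) ≤ C ^ k * (C + (k + 1)) * (C + 1) := by
            rw [pow_succ, mul_assoc, mul_assoc]
            exact Nat.mul_le_mul_left _ (by nlinarith)
        _ ≤ _ := by rw [pow_succ _ (k + 1)]; exact Nat.mul_le_mul_right _ ih
  refine le_trans ?_ (h k)
  simp only [tb, Nat.succ_eq_add_one, Nat.add_sub_cancel]
  exact Nat.mul_le_mul_left _ (by omega)

theorem mul_tb_le {a c C o : ℕ} (ha : 0 < a) (ho : 0 < o) (h : a * c ≤ C) :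
    a * tb o c ≤ tb o C := by
  have hc : c ≤ C := le_trans (Nat.le_mul_of_pos_left _ ha) h
  rcases Nat.lt_or_ge 1 o with h1 | h1
  · obtain ⟨k, rfl⟩ : ∃ k, o = k + 2 := ⟨o - 2, by omega⟩
    simp only [tb, show k + 2 - 1 = k + 1 by omega]
    calc a * (c ^ (k + 1) * (c + (k + 2) - 1)) = c ^ k * (a * c) * (c + (k + 2) - 1) := by ring
      _ ≤ C ^ k * C * (C + (k + 2) - 1) := by gcongr
      _ = _ := by ring
  · obtain rfl : o = 1 := by omega
    simpa [tb] using h

theorem tb_mono {o c C : ℕ} (h : c ≤ C) : tb o c ≤ tb o C := by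
  unfold tb; gcongr

theorem mul_tb_le_pow {a c o p w : ℕ} (ha : 0 < a) (ho : 0 < o) (h : a * c < p ^ w) :
    a * tb o c ≤ (p ^ w) ^ o :=
  ((mul_tb_le ha ho le_rfl).trans (tb_le_succ_pow ho _)).trans (Nat.pow_le_pow_left h _)

theorem two_mul_tb_le {o x : ℕ} (ho : 0 < o) (hx : 0 < x) : 2 * tb o x ≤ (2 * x) ^ o := by
  obtain ⟨k, rfl⟩ := Nat.exists_eq_succ_of_ne_zero ho.ne'
  have h1 : k + 1 ≤ 2 ^ k := Nat.lt_two_pow_self
  simp only [tb, Nat.succ_eq_add_one, Nat.add_sub_cancel, ← add_assoc]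
  calc 2 * (x ^ k * (x + k)) ≤ 2 * (x ^ k * (2 ^ k * x)) := by gcongr; nlinarith
    _ = _ := by ring

theorem four_mul_tb_le {o x : ℕ} (ho : 3 ≤ o) (hx : 2 ≤ x) : 4 * tb o x ≤ (2 * x) ^ o := by
  obtain ⟨k, rfl⟩ : ∃ k, o = k + 3 := ⟨o - 3, by omega⟩
  have h1 : k + 1 ≤ 2 ^ k := Nat.lt_two_pow_self
  simp only [tb, show k + 3 - 1 = k + 2 by omega, show x + (k + 3) - 1 = x + (k + 2) by omega]
  calc 4 * (x ^ (k + 2) * (x + (k + 2))) ≤ 4 * (x ^ (k + 2) * (2 * 2 ^ k * x)) := by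
        gcongr; nlinarith
    _ = _ := by ring

/-- The multipartition bound with the extra factor. -/
theorem mul_cc_lt {a e p w : ℕ} (ha : 0 < a) (hw : 1 ≤ w) (h : a * e < p) :
    a * SymCh.cc e w < p ^ w := by
  obtain ⟨k, rfl⟩ : ∃ k, w = 1 + k := ⟨w - 1, by omega⟩
  have h1 := SymCh.cc_add_le e 1 k
  rw [SymCh.cc_one_right] at h1
  have h2 : e + 1 ≤ p := lt_of_le_of_lt (Nat.le_mul_of_pos_left _ ha) h
  have h3 : 0 < p ^ k := Nat.pow_pos (by omega)
  calc a * SymCh.cc e (1 + k) ≤ a * (p ^ k * e) := by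
        gcongr; exact h1.trans (by gcongr)
    _ = p ^ k * (a * e) := by ring
    _ < p ^ k * p := by gcongr
    _ = _ := by ring

theorem pn_le_two_pow (m : ℕ) : SymCh.pn m ≤ 2 ^ (m - 1) := by
  induction m with
  | zero => simp [SymCh.pn_zero]
  | succ m ih =>
    rcases m with _ | m
    · simp [SymCh.pn_one]
    · have := SymCh.pn_succ_le (m + 1)
      simp only [Nat.add_sub_cancel] at ih ⊢
      rw [pow_succ]; omega

/-! ### The case where `p` does not divide `q - 1` -/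

theorem prod_orb_pow {w : I → ℕ} (hw : ∀ (g : A) i, w (g • i) = w i) (p : ℕ) [Fintype (Orb A I)] :
    ∏ ω : Orb A I, (p ^ w ω.out) ^ (stabilizer A ω.out).index = p ^ ∑ i, w i := by
  rw [← prod_pow_eq_pow_sum, prod_orb (A := A) (c := fun i => p ^ w i) (fun g i => by rw [hw])]

/-- Case `e > 1`: `K i` is the subgroup fixing all orbits in the family `i`. -/
theorem sum_fx_le_pow (Y : I → Finset β) (hY : ∀ (g : A) i, #(Y (g • i)) = #(Y i))
    (K : I → Subgroup A) (hK : ∀ i, K i ≤ stabilizer A i) (hK' : ∀ (g : A) i, K (g • i) = K i)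
    {p : ℕ} {w : I → ℕ} (hw : ∀ (g : A) i, w (g • i) = w i)
    (h : ∀ i, (K i).relIndex (stabilizer A i) * #(Y i) < p ^ w i) :
    ∑ z : A, fx Y z ≤ Nat.card (⨅ i, K i : Subgroup A) * p ^ ∑ i, w i := by
  classical
  letI : Fintype (Orb A I) := Fintype.ofFinite _
  refine (sum_fx_le Y hY K hK hK').trans (Nat.mul_le_mul_left _ ?_)
  rw [← prod_orb_pow hw]
  exact prod_le_prod' fun ω _ => mul_tb_le_pow
    (Nat.pos_of_ne_zero (Subgroup.index_ne_zero_of_finite (H := Subgroup.subgroupOf _ _)))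
    (Nat.pos_of_ne_zero Subgroup.index_ne_zero_of_finite) (h _)

/-! ### The case where `p` divides `q - 1` -/

theorem prod_mul_sum_fx_le (Y : I → Finset β) (hY : ∀ (g : A) i, #(Y (g • i)) = #(Y i))
    {m : I → ℕ} (hm : ∀ (g : A) i, m (g • i) = m i) [Fintype (Orb A I)] (φ : Orb A I → ℕ)
    (h : ∀ ω : Orb A I, φ ω * tb (stabilizer A ω.out).index #(Y ω.out) ≤
      (2 ^ m ω.out) ^ (stabilizer A ω.out).index) :
    (∏ ω, φ ω) * ∑ z : A, fx Y z ≤ Nat.card (⨅ i : I, stabilizer A i : Subgroup A) * 2 ^ ∑ i, m i := by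
  have h1 := sum_fx_le Y hY (stabilizer A) (fun _ => le_rfl) (fun g i => by
    ext z; simp only [mem_stabilizer_iff]; rw [smul_comm z g, smul_left_cancel_iff])
  simp only [Subgroup.relIndex_self, one_mul] at h1
  refine (Nat.mul_le_mul_left _ h1).trans ?_
  rw [mul_left_comm, ← prod_mul_distrib, ← prod_orb_pow hm]
  exact Nat.mul_le_mul_left _ (prod_le_prod' fun ω _ => h ω)

theorem two_mul_tb_le' {o c m : ℕ} (ho : 0 < o) (hm : 0 < m) (h : c ≤ 2 ^ (m - 1)) :
    2 * tb o c ≤ (2 ^ m) ^ o := by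
  obtain ⟨k, rfl⟩ := Nat.exists_eq_succ_of_ne_zero hm.ne'
  refine (Nat.mul_le_mul_left _ (tb_mono h)).trans
    ((two_mul_tb_le ho (by positivity)).trans (le_of_eq ?_))
  simp [pow_succ']

theorem two_mul_sum_fx_le [Nonempty I] (Y : I → Finset β)
    (hY : ∀ (g : A) i, #(Y (g • i)) = #(Y i))
    {m : I → ℕ} (hm : ∀ (g : A) i, m (g • i) = m i) (hm0 : ∀ i, 0 < m i)
    (h : ∀ i, #(Y i) ≤ 2 ^ (m i - 1)) :
    2 * ∑ z : A, fx Y z ≤ Nat.card (⨅ i : I, stabilizer A i : Subgroup A) * 2 ^ ∑ i, m i := by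
  classical
  letI : Fintype (Orb A I) := Fintype.ofFinite _
  refine le_trans (Nat.mul_le_mul_right _ ?_) (prod_mul_sum_fx_le Y hY hm (fun _ => 2)
    fun ω => two_mul_tb_le' (Nat.pos_of_ne_zero Subgroup.index_ne_zero_of_finite) (hm0 _) (h _))
  obtain ⟨i⟩ := ‹Nonempty I›
  exact single_le_prod' (f := fun _ : Orb A I => 2) (fun _ _ => by norm_num)
    (mem_univ (Quotient.mk _ i))

theorem four_mul_sum_fx_le (Y : I → Finset β) (hY : ∀ (g : A) i, #(Y (g • i)) = #(Y i))
    {m : I → ℕ} (hm : ∀ (g : A) i, m (g • i) = m i) (hm0 : ∀ i, 0 < m i)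
    (h : ∀ i, #(Y i) ≤ 2 ^ (m i - 1))
    (h4 : (∃ i j : I, j ∉ orbit A i) ∨ ∀ i, 4 * tb (stabilizer A i).index #(Y i) ≤
      (2 ^ m i) ^ (stabilizer A i).index) [Nonempty I] :
    4 * ∑ z : A, fx Y z ≤ Nat.card (⨅ i : I, stabilizer A i : Subgroup A) * 2 ^ ∑ i, m i := by
  classical
  letI : Fintype (Orb A I) := Fintype.ofFinite _
  rcases h4 with ⟨i, j, hij⟩ | h4
  · refine le_trans (Nat.mul_le_mul_right _ ?_) (prod_mul_sum_fx_le Y hY hm (fun _ => 2)
      fun ω => two_mul_tb_le' (Nat.pos_of_ne_zero Subgroup.index_ne_zero_of_finite) (hm0 _) (h _))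
    have hne : (Quotient.mk _ j : Orb A I) ≠ Quotient.mk _ i := fun h => hij (Quotient.exact h)
    rw [prod_const]
    refine Nat.pow_le_pow_right (n := 2) (i := 2) (by norm_num) ?_
    rw [← card_pair hne]
    exact card_le_card (subset_univ _)
  · refine le_trans (Nat.mul_le_mul_right _ ?_) (prod_mul_sum_fx_le Y hY hm (fun _ => 4)
      fun ω => h4 _)
    obtain ⟨i⟩ := ‹Nonempty I›
    exact single_le_prod' (f := fun _ : Orb A I => 4) (fun _ _ => by norm_num)
      (mem_univ (Quotient.mk _ i))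

theorem arith_odd {M : ℕ} (hM : 3 ≤ M) : 2 ^ M + (M - 1) * 2 ^ (M - 2) ≤ 2 * 3 ^ (M - 1) := by
  obtain ⟨k, rfl⟩ : ∃ k, M = k + 3 := ⟨M - 3, by omega⟩
  simp only [show k + 3 - 1 = k + 2 by omega, show k + 3 - 2 = k + 1 by omega]
  induction k with
  | zero => norm_num
  | succ k ih =>
    have := ih (by omega)
    simp only [pow_succ] at this ⊢
    nlinarith [Nat.one_le_two_pow (n := k)]

theorem arith_two {k : ℕ} (hk : 4 ≤ k) : 2 * (2 * k - 1) ≤ 2 ^ k := by
  induction k, hk using Nat.le_induction with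
  | base => norm_num
  | succ k hk ih => rw [pow_succ]; omega

/-- Case `e = 1`. -/
theorem sum_dim_le {p : ℕ} [hp : Fact p.Prime] {C : Type*} [Group C] [Fintype C] [IsCyclic C]
    (hC : IsPGroup p C) [Nonempty I] (hA : ∀ i : I, ¬ p ∣ (stabilizer A i).index)
    {m : I → ℕ} (hm : ∀ (g : A) i, m (g • i) = m i) (hm0 : ∀ i, 0 < m i)
    (Y : C → I → Finset β) (hY : ∀ η (g : A) i, #(Y η (g • i)) = #(Y η i))
    (hY' : ∀ η i, #(Y η i) ≤ SymCh.pn (m i / orderOf η))
    (d : C → A → ℕ) (hd : ∀ η z, d η z ≤ fx (Y η) z)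
    (hd' : ∀ η z, d η z ≠ 0 → ∀ i, orderOf η ∣ m i) :
    ∑ η, ∑ z, d η z ≤ Nat.card (⨅ i : I, stabilizer A i : Subgroup A) * p ^ (∑ i, m i - 1) ∨
      (p = 2 ∧ Subsingleton I ∧ (∑ i, m i = 2 ∨ ∑ i, m i = 4) ∧
        ∑ η, ∑ z, d η z ≤ Nat.card (⨅ i : I, stabilizer A i : Subgroup A) * 2 ^ ∑ i, m i) := by
  classical
  set a := Nat.card (⨅ i : I, stabilizer A i : Subgroup A)
  set M := ∑ i, m i with hM
  have hp2 := hp.out.two_le
  have hle : ∀ i, m i ≤ M := fun i => single_le_sum (fun _ _ => Nat.zero_le _) (mem_univ i)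
  obtain ⟨i₀⟩ := id ‹Nonempty I›
  have hM0 : 0 < M := (hm0 i₀).trans_le (hle i₀)
  let C' : Finset C := {η | η ≠ 1 ∧ ∀ i, orderOf η ∣ m i}
  have hsplit : ∑ η, ∑ z, d η z = ∑ z, d 1 z + ∑ η ∈ C', ∑ z, d η z := by
    rw [← add_sum_erase _ _ (mem_univ (1 : C))]
    congr 1
    refine (sum_subset (fun η hη => ?_) fun η hη hη' => ?_).symm
    · simpa using (mem_filter.1 hη).2.1
    · refine sum_eq_zero fun z _ => ?_
      by_contra h
      exact hη' (mem_filter.2 ⟨mem_univ _, by simpa using hη, hd' η z h⟩)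
  have hY1 : ∀ i, #(Y 1 i) ≤ 2 ^ (m i - 1) := fun i =>
    (hY' 1 i).trans (by rw [orderOf_one, Nat.div_one]; exact pn_le_two_pow _)
  have hd1 : ∑ z, d 1 z ≤ ∑ z : A, fx (Y 1) z := sum_le_sum fun z _ => hd 1 z
  have h2 : 2 * ∑ z, d 1 z ≤ a * 2 ^ M :=
    (Nat.mul_le_mul_left _ hd1).trans (two_mul_sum_fx_le _ (hY 1) hm hm0 hY1)
  have hpd : ∀ η ∈ C', p ∣ orderOf η := by
    intro η hη
    obtain ⟨k, hk⟩ := IsPGroup.iff_orderOf.1 hC η
    rw [hk]
    refine dvd_pow_self p ?_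
    rintro rfl
    exact (mem_filter.1 hη).2.1 (by simpa using hk)
  have hη2 : ∀ η ∈ C', 2 * ∑ z, d η z ≤ a * 2 ^ (M / p) := by
    intro η hη
    have hdv := (mem_filter.1 hη).2.2
    refine (Nat.mul_le_mul_left _ (sum_le_sum fun z _ => hd η z)).trans
      ((two_mul_sum_fx_le (m := fun i => m i / orderOf η) _ (hY η) (fun g i => by rw [hm])
        (fun i => Nat.div_pos (Nat.le_of_dvd (hm0 i) (hdv i)) (orderOf_pos η))
        (fun i => (hY' η i).trans (pn_le_two_pow _))).trans ?_)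
    refine Nat.mul_le_mul_left _ (Nat.pow_le_pow_right (by norm_num) ?_)
    rw [Nat.le_div_iff_mul_le (by omega), sum_mul]
    exact sum_le_sum fun i _ => (Nat.mul_le_mul_left _
      (Nat.le_of_dvd (orderOf_pos η) (hpd η hη))).trans (Nat.div_mul_le_self _ _)
  have hrest : 2 * ∑ η ∈ C', ∑ z, d η z ≤ #C' * (a * 2 ^ (M / p)) := by
    rw [mul_sum, ← smul_eq_mul, ← sum_const]; exact sum_le_sum hη2
  have hcard : ∀ k, 0 < k → (∀ η ∈ C', η ^ k = 1) → #C' + 1 ≤ k := by
    intro k hk h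
    refine le_trans ?_ (IsCyclic.card_pow_eq_one_le (α := C) hk)
    rw [← card_insert_of_notMem (a := 1) (by simp [C'])]
    refine card_le_card fun η hη => ?_
    rcases mem_insert.1 hη with rfl | hη
    · simp
    · simpa using h η hη
  have hcard' : ∀ i, #C' + 1 ≤ m i := fun i => hcard _ (hm0 i) fun η hη =>
    orderOf_dvd_iff_pow_eq_one.1 ((mem_filter.1 hη).2.2 i)
  obtain ⟨M', hM'⟩ : ∃ M', M = M' + 1 := ⟨M - 1, by omega⟩
  rcases C'.eq_empty_or_nonempty with h0 | ⟨η₀, hη₀⟩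
  · left
    rw [hsplit, h0, sum_empty, add_zero]
    rw [hM', pow_succ, ← mul_assoc] at h2
    rw [hM', Nat.add_sub_cancel]
    refine le_trans (by omega : _ ≤ a * 2 ^ M') ?_
    gcongr
  have hpm : ∀ i, p ∣ m i := fun i => (hpd _ hη₀).trans ((mem_filter.1 hη₀).2.2 i)
  rcases hp2.lt_or_eq with hp3 | rfl
  · left
    have hM3 : 3 ≤ M := le_trans hp3 ((Nat.le_of_dvd (hm0 i₀) (hpm i₀)).trans (hle i₀))
    have h3 : M / p ≤ M - 2 := by
      have : M / p ≤ M / 3 := Nat.div_le_div_left hp3 (by norm_num)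
      omega
    have h4 : #C' * (a * 2 ^ (M / p)) ≤ (M - 1) * (a * 2 ^ (M - 2)) := by
      have := hcard' i₀
      have := hle i₀
      gcongr
      · omega
      · norm_num
    have h5 := Nat.mul_le_mul_left a (arith_odd hM3)
    have h6 : a * 3 ^ (M - 1) ≤ a * p ^ (M - 1) := by gcongr; omega
    rw [hsplit]
    nlinarith
  obtain ⟨k, hk⟩ : 2 ∣ M := dvd_sum fun i _ => hpm i
  have hk2 : M / 2 = k := by omega
  have hkk : 2 ^ M = 2 ^ k * 2 ^ k := by rw [← pow_add]; congr 1; omega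
  have hMM : 2 ^ M = 2 * 2 ^ (M - 1) := by rw [hM', pow_succ']; rfl
  rw [hk2] at hrest
  have fin : 4 * ∑ z, d 1 z ≤ a * 2 ^ M → 2 * #C' ≤ 2 ^ k →
      ∑ η, ∑ z, d η z ≤ a * 2 ^ (M - 1) := by
    intro h4 h5
    have : 2 * (#C' * (a * 2 ^ k)) ≤ a * 2 ^ M := by
      rw [hkk]; nlinarith [Nat.mul_le_mul_left (a * 2 ^ k) h5]
    rw [hsplit]
    rw [hMM] at h4 this
    nlinarith
  by_cases hI : Subsingleton I
  · have hMi : ∀ i, M = m i := fun i => by rw [hM, Fintype.sum_subsingleton _ i]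
    by_cases h24 : M = 2 ∨ M = 4
    · refine Or.inr ⟨rfl, hI, h24, ?_⟩
      have := hcard' i₀
      rw [← hMi] at this
      have h5 : #C' ≤ 2 ^ k := by
        rcases h24 with h | h
        · obtain rfl : k = 1 := by omega
          omega
        · obtain rfl : k = 2 := by omega
          omega
      have : #C' * (a * 2 ^ k) ≤ a * 2 ^ M := by
        rw [hkk]; nlinarith [Nat.mul_le_mul_left (a * 2 ^ k) h5]
      rw [hsplit]; omega
    refine Or.inl (fin ((Nat.mul_le_mul_left _ hd1).trans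
      (four_mul_sum_fx_le _ (hY 1) hm hm0 hY1 (Or.inr fun i => ?_))) ?_)
    · have : stabilizer A i = ⊤ := eq_top_iff.2 fun g _ => Subsingleton.elim _ _
      rw [this, Subgroup.index_top]
      have h5 := SymCh.four_mul_cc_lt (w := m i) (by have := hMi i; omega)
      rw [SymCh.cc_one_left] at h5
      have := hY' 1 i
      rw [orderOf_one, Nat.div_one] at this
      simp only [tb]
      simp only [Nat.sub_self, pow_zero, Nat.add_sub_cancel, one_mul, pow_one]
      omega
    · rcases Nat.lt_or_ge k 4 with h | h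
      · obtain rfl : k = 3 := by omega
        have := hcard 2 (by norm_num) fun η hη => by
          obtain ⟨j, hj⟩ := IsPGroup.iff_orderOf.1 hC η
          have h1 := (mem_filter.1 hη).2.2 i₀
          rw [← hMi, hk] at h1
          refine orderOf_dvd_iff_pow_eq_one.1 (Nat.Coprime.dvd_of_dvd_mul_right ?_ h1)
          rw [hj]; exact Nat.Coprime.pow_left _ (by norm_num)
        omega
      · have := arith_two h
        have := hcard' i₀
        rw [← hMi] at this
        omega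
  · rw [not_subsingleton_iff_nontrivial] at hI
    refine Or.inl (fin ((Nat.mul_le_mul_left _ hd1).trans
      (four_mul_sum_fx_le _ (hY 1) hm hm0 hY1 ?_)) ?_)
    · by_cases h : ∃ i j : I, j ∉ orbit A i
      · exact Or.inl h
      push Not at h
      refine Or.inr fun i => ?_
      have h1 : 1 < (stabilizer A i).index := by
        rw [index_stabilizer, Set.eq_univ_of_forall (h i), Set.ncard_univ]
        exact Finite.one_lt_card
      have h3 : 3 ≤ (stabilizer A i).index := by have := hA i; omega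
      obtain ⟨j, hj⟩ : ∃ j, m i = j + 2 := ⟨m i - 2, by have := hpm i; have := hm0 i; omega⟩
      have h5 := hY1 i
      rw [hj] at h5 ⊢
      refine (Nat.mul_le_mul_left _ (tb_mono h5)).trans
        ((four_mul_tb_le h3 ?_).trans (le_of_eq ?_))
      · exact Nat.le_self_pow (by omega) 2
      · rw [pow_succ' 2 (j + 1)]; rfl
    · obtain ⟨i, j, hij⟩ := exists_pair_ne I
      have h1 : m i + m j ≤ M := by
        rw [← sum_pair hij]; exact sum_le_sum_of_subset (subset_univ _)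
      have := hcard' i
      have := hcard' j
      have h3 : k - 1 < 2 ^ (k - 1) := Nat.lt_two_pow_self
      obtain ⟨l, rfl⟩ : ∃ l, k = l + 1 := ⟨k - 1, by omega⟩
      simp only [Nat.add_sub_cancel, pow_succ] at h3 ⊢
      omega

end Cfsg.GLn.Num
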