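import Cfsg.Agent.GLn.ArC
import Cfsg.Agent.GLn.Num
import Cfsg.Agent.GLn.Defs2
import Cfsg.Agent.CT.SymCore

/-! The piece `StCnt`. -/

set_option autoImplicit false

namespace Cfsg.GLn

open Finset SymCh MulAction

universe u

variable {F : Type u} [Field F] [Fintype F] {N ℓ : ℕ} [hl : Fact ℓ.Prime]

local notation "q" => Fintype.card F

namespace Cnt

theorem sum_le_sum_comp {S T : Type*} [Fintype S] [Fintype T] (b : S → ℕ) (g : T → S)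
    (h : ∀ s, b s ≠ 0 → ∃ t, g t = s) : ∑ s, b s ≤ ∑ t, b (g t) := by
  classical
  refine (sum_le_sum_of_ne_zero (t := univ.image g) fun s _ hs => ?_).trans
    (sum_image_le_of_nonneg fun _ _ => Nat.zero_le _)
  simpa using h s hs

theorem exists_modEq {d e j j' : ℕ} (hd : 0 < d) (h : j ≡ j' [MOD d.gcd e]) :
    ∃ i, j + e * i ≡ j' [MOD d] := by
  obtain ⟨t, ht⟩ := h.dvd
  refine ⟨((d.gcdB e * t) % d).toNat, Int.natCast_modEq_iff.1 ?_⟩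
  push_cast
  rw [Int.toNat_of_nonneg (Int.emod_nonneg _ (by exact_mod_cast hd.ne'))]
  refine (((Int.mod_modEq _ _).mul_left _).add_left _).trans (Int.modEq_iff_dvd.2 ⟨d.gcdA e * t, ?_⟩)
  rw [Nat.gcd_eq_gcd_ab] at ht
  linear_combination ht

omit hl in
theorem pow_pow_q (x : (K F)ˣ) (i j : ℕ) : (x ^ q ^ i) ^ q ^ j = x ^ q ^ (i + j) := by
  rw [← pow_mul, ← pow_add]

/-- scalars which act on `x` as a power of `Fr ^ e` -/
noncomputable def Kx (e : ℕ) (x : (K F)ˣ) : Subgroup Fˣ where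
  carrier := {z | ∃ i, iu z * x = x ^ q ^ (e * i)}
  one_mem' := ⟨0, by simp⟩
  mul_mem' := by
    rintro a b ⟨i, hi⟩ ⟨j, hj⟩
    refine ⟨i + j, ?_⟩
    rw [map_mul, mul_assoc, hj, mul_add, ← pow_pow_q, ← hi, mul_pow, iu_pow_q]
  inv_mem' := by
    rintro a ⟨i, hi⟩
    obtain ⟨d, hd⟩ := Nat.exists_eq_succ_of_ne_zero (per_pos (io x)).ne'
    refine ⟨i * d, ?_⟩
    rw [map_inv, inv_mul_eq_iff_eq_mul, ← iu_pow_q a (e * (i * d)), ← mul_pow, hi, pow_pow_q,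
      eq_comm, ← per_io_dvd_iff, hd]
    exact ⟨e * i, by rw [Nat.succ_eq_add_one]; ring⟩

omit hl in
theorem Kx_io {e : ℕ} {x y : (K F)ˣ} (h : io x = io y) : Kx e x = Kx e y := by
  obtain ⟨n, rfl⟩ := io_eq_iff.1 h
  ext z
  refine exists_congr fun i => ?_
  rw [pow_right_comm, ← iu_pow_q z n, ← mul_pow, (pow_q_injective n).eq_iff, iu_pow_q]

omit hl in
theorem Kx_mulI (e : ℕ) (g : Fˣ) (o : I F) : Kx e (mulI g o).rep = Kx e o.rep := by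
  rw [Kx_io (io_rep (mulI g o))]
  ext z
  refine exists_congr fun i => ?_
  rw [mul_pow, iu_pow_q, mul_left_comm, mul_right_inj]

omit hl in
theorem relIndex_le {A : Type*} [CommGroup A] (f : A →* Fˣ) (e : ℕ) (o : I F) (S : Subgroup A)
    (hS : ∀ z ∈ S, mulI (f z) o = o) :
    ((Kx e o.rep).comap f).relIndex S ≤ o.per.gcd e := by
  have hg := Nat.gcd_pos_of_pos_left e (per_pos o)
  choose j hj using fun z : S => mulI_eq_iff.1 (hS z z.2)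
  rw [← Nat.card_fin (o.per.gcd e)]
  refine Nat.card_le_card_of_injective (fun c => (⟨j c.out % _, Nat.mod_lt _ hg⟩ : Fin _))
    fun c c' h => ?_
  obtain ⟨i, hi⟩ := exists_modEq (per_pos o) (Fin.ext_iff.1 h)
  rw [← c.out_eq, ← c'.out_eq]
  refine QuotientGroup.eq.2 ⟨i, ?_⟩
  replace hi := (pow_q_eq_pow_q_iff o.rep (j c.out + e * i) (j c'.out)).2 (by rwa [io_rep])
  rw [← pow_pow_q, ← hj, ← hj, mul_pow, iu_pow_q] at hi
  simp only [Subgroup.coe_subtype, Subgroup.coe_mul, Subgroup.coe_inv, map_mul, map_inv]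
  rw [mul_assoc, ← hi, inv_mul_cancel_left]

variable (ℓ) in
/-- the scalars which fix the block -/
def AG (μ : MP F N) : Subgroup Fˣ where
  carrier := {z | ¬ ℓ ∣ orderOf z ∧ cd ℓ (act z μ) = cd ℓ μ}
  one_mem' := ⟨by simpa using hl.out.ne_one, by rw [act_one]⟩
  mul_mem' {a b} ha hb := ⟨by
    rw [← orderOf_iu, map_mul]
    exact not_dvd_orderOf_mul (orderOf_iu a ▸ ha.1) (orderOf_iu b ▸ hb.1), by rw [act_mul, cd_act_congr _ hb.2, ha.2]⟩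
  inv_mem' ha := ⟨by simpa using ha.1, by
    rw [← cd_act_congr _ ha.2, ← act_mul, inv_mul_cancel, act_one]⟩

variable {μ : MP F N}

theorem ww_mulI (z : AG ℓ μ) (ψ : I F) : ww ℓ μ (mulI z.1 ψ) = ww ℓ μ ψ := by
  rw [← ww_eq_of_cd z.2.2, ww_act, pRegPart_eq_self_iff.2 z.2.1, mulI_inv_mulI, ww_eq_of_cd z.2.2]

variable (ℓ μ) in
/-- the active orbits -/
abbrev J : Type u := {ψ : I F // 0 < ww ℓ μ ψ}

noncomputable instance : Fintype (J ℓ μ) :=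
  @Fintype.ofFinite _ ((finite_support_ww μ).subset fun _ h => ne_of_gt h)

noncomputable instance : Fintype (AG ℓ μ) := Fintype.ofFinite _

noncomputable instance : SMul (AG ℓ μ) (J ℓ μ) where
  smul z i := ⟨mulI z.1 i.1, i.2.trans_eq (ww_mulI z i.1).symm⟩

theorem smul_val (z : AG ℓ μ) (i : J ℓ μ) : (z • i).1 = mulI z.1 i.1 := rfl

noncomputable instance : MulAction (AG ℓ μ) (J ℓ μ) where
  one_smul _ := Subtype.ext (by rw [smul_val, OneMemClass.coe_one, mulI_one])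
  mul_smul _ _ _ := Subtype.ext (by rw [smul_val, smul_val, smul_val, Subgroup.coe_mul, mulI_mul])

theorem W_eq : W ℓ μ = ∑ i : J ℓ μ, ww ℓ μ i.1 := by
  rw [W_eq_sum μ (t := univ.map (Function.Embedding.subtype _ : J ℓ μ ↪ I F))
    fun ψ h => mem_map.2 ⟨⟨ψ, h⟩, mem_univ _, rfl⟩, sum_map]
  rfl

theorem eq_of_ww (hℓ : ℓ ≠ ringChar F) {ν ν' : MP F N} (h : cd ℓ ν = cd ℓ ν') {ψ : I F}
    (hψ : Reg ℓ ψ) (h0 : ww ℓ ν ψ = 0) : ν ψ = ν' ψ := by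
  have he := ee_pos hℓ ψ
  have h1 := sum_eq_base_add he (ν ψ).1
  have h2 := sum_eq_base_add he (ν' ψ).1
  have h3 := clsF_eq_of_rc (rc_eq_of_cd h hψ)
  rw [((ww_eq_zero_iff hℓ ν hψ).1 h0).1, mul_zero, add_zero] at h1
  rw [((ww_eq_zero_iff hℓ ν' hψ).1 (ww_eq_of_cd h ▸ h0)).1, mul_zero, add_zero, ← h3] at h2
  have h4 := (ν ψ).sz_add_tri.trans h1
  obtain ⟨Y, hY⟩ := bc_base he ((sum_clsF he _).trans (ν ψ).2) h4
  refine Subtype.ext ((mem_singleton.1 (hY ▸ mem_bc.2 ⟨mem_bs_sz (ν ψ).2, rfl⟩)).trans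
    (mem_singleton.1 (hY ▸ mem_bc.2 ⟨mem_bs.2 ⟨(ν' ψ).2, h2.trans h4.symm⟩, h3.symm⟩)).symm)

theorem ncard_le_fx (hℓ : ℓ ≠ ringChar F) (lam : Fˣ) (z : AG ℓ μ) (hz : z.1 ^ orderOf lam = 1)
    (Y : J ℓ μ → Finset (Finset ℕ))
    (hY : ∀ ν ∈ BS ℓ lam μ, ∀ i, (lift (orderOf lam) ν i.1).1 ∈ Y i) :
    (BS ℓ lam μ).ncard ≤ Num.fx Y z := by
  have hr := orderOf_pos lam
  rw [Num.fx, ← Set.ncard_coe_finset]
  refine Set.ncard_le_ncard_of_injOn (fun ν i => (lift (orderOf lam) ν i.1).1) (fun ν hν => ?_)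
    (fun ν hν ν' hν' h => ?_) (finite_toSet _)
  · simp only [coe_filter, Fintype.mem_piFinset, Set.mem_setOf_eq]
    exact ⟨hY ν hν, fun i => by rw [smul_val, act_eq_self_iff.1 (act_lift hr hz ν)]⟩
  ext1 o
  by_cases ho : Reg ℓ o
  · obtain ⟨φ, rfl⟩ := powI_surjective hr o
    rw [← ho.rpI_eq, rpI_powI, ← lift_apply hr, ← lift_apply hr]
    by_cases h0 : 0 < ww ℓ μ (rpI ℓ φ)
    · exact Subtype.ext (congrFun h ⟨_, h0⟩)
    · exact eq_of_ww hℓ (hν.2.2.trans hν'.2.2.symm) (reg_rpI φ)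
        (by rw [ww_eq_of_cd hν.2.2]; omega)
  · rw [Finsupp.notMem_support_iff.1 fun e => ho (hν.1 o e),
      Finsupp.notMem_support_iff.1 fun e => ho (hν'.1 o e)]

theorem mem_AG {lam : Fˣ} (h : (BS ℓ lam μ).ncard ≠ 0) : pRegPart ℓ lam ∈ AG ℓ μ := by
  obtain ⟨ν, hν⟩ := Set.nonempty_of_ncard_ne_zero h
  refine ⟨not_dvd_orderOf_pRegPart lam, ?_⟩
  rw [← cd_act_congr _ hν.2.2, act_lift (orderOf_pos lam), hν.2.2]
  exact orderOf_dvd_iff_pow_eq_one.1 (orderOf_dvd_of_mem_zpowers (pRegPart_mem_zpowers ℓ lam))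

theorem nn_lift (lam : Fˣ) {ν : MP F N} (hν : Basic ℓ ν) {ψ : I F} (hψ : Reg ℓ ψ) :
    nn ℓ (lift (orderOf lam) ν) ψ =
      orderOf (pPart ℓ lam) * sz N (lift (orderOf lam) ν ψ).1 := by
  have hr := orderOf_pos lam
  have ha := orderOf_pos (pPart ℓ lam)
  have h1 : #(fib (orderOf (pPart ℓ lam)) (powI (orderOf (pPart ℓ lam)) ψ)) =
      orderOf (pPart ℓ lam) := by
    have := card_fib_mul_per (orderOf_dvd_q_sub_one (pPart ℓ lam)) ψ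
    obtain ⟨a, h⟩ := exists_orderOf_pPart (p := ℓ) lam
    rw [show (powI (orderOf (pPart ℓ lam)) ψ).per = ψ.per by
      rw [powI, per_io, Nat.Coprime.orderOf_pow (h ▸ ((hl.out.coprime_iff_not_dvd.2
        hψ).symm.pow_right a)), ← per_io, io_rep]] at this
    exact Nat.eq_of_mul_eq_mul_right (per_pos ψ) this
  rw [← h1, ← smul_eq_mul, ← sum_const, nn_eq_sum _ _ (subset_union_left (s₂ := fib
    (orderOf (pPart ℓ lam)) (powI (orderOf (pPart ℓ lam)) ψ))), sum_filter, eq_comm]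
  refine sum_subset_zero_on_sdiff subset_union_right (fun φ hφ => ?_) fun φ hφ => ?_
  · obtain ⟨h2, h3⟩ := mem_sdiff.1 hφ
    refine if_neg fun h4 => h3 ?_
    have h5 := hν _ ((mem_support_lift hr).1 ((mem_union.1 h2).resolve_right h3))
    obtain ⟨j, rfl⟩ := (powI_eq_iff lam (φ := ψ) (φ' := φ)).1
      (by rw [← h5.rpI_eq, rpI_powI, h4])
    rw [rpI_mulI, hψ.rpI_eq] at h4
    rw [mem_fib ha, ← pPart_mul_pRegPart ℓ (lam ^ j), mulI_mul, h4, powI_mulI_of]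
    rw [pPart_pow, pow_right_comm, pow_orderOf_eq_one, one_pow]
  · obtain ⟨j, rfl⟩ := (powI_eq_iff _).1 ((mem_fib ha).1 hφ).symm
    rw [if_pos (by rw [rpI_mulI, pRegPart_pow, pRegPart_pPart, one_pow, mulI_one, hψ.rpI_eq]),
      per_mulI, Nat.div_self (per_pos ψ), one_mul, act_eq_self_iff.1 (act_lift hr _ ν)]
    rw [pow_right_comm, orderOf_dvd_iff_pow_eq_one.1
      (orderOf_dvd_of_mem_zpowers (pPart_mem_zpowers ℓ lam)), one_pow]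

variable (ℓ μ) in
/-- the local kernels -/
noncomputable def KJ (i : J ℓ μ) : Subgroup (AG ℓ μ) :=
  (Kx (e0 F ℓ) i.1.rep).comap (AG ℓ μ).subtype

theorem KJ_le (i : J ℓ μ) : KJ ℓ μ i ≤ stabilizer (AG ℓ μ) i := fun _ ⟨_, h⟩ =>
  Subtype.ext (mulI_eq_iff.2 ⟨_, h⟩)

theorem case1 [DecidableEq F] (hℓ : ℓ ≠ ringChar F) (h : ¬ ℓ ∣ q - 1) (hN : 2 * deg μ ≤ N) :
    ∑ lam : Fˣ, (BS ℓ lam μ).ncard ≤ Nat.card (⨅ i, KJ ℓ μ i : Subgroup _) * ℓ ^ W ℓ μ := by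
  have hr := fun lam : Fˣ => not_dvd_orderOf_units h lam
  let Y : J ℓ μ → Finset (Finset ℕ) := fun i =>
    bc N (ee ℓ i.1) (clsF (ee ℓ i.1) (μ i.1).1) (nn ℓ μ i.1)
  have hY : ∀ i, #(Y i) = cc (ee ℓ i.1) (ww ℓ μ i.1) := fun i => by
    have he := ee_pos hℓ i.1
    have h1 := nn_add_tri hℓ μ (reg_of_ww_pos i.2)
    have h2 := (sum_clsF he _).trans (μ i.1).2
    have h3 := tri_le_base (clsF (ee ℓ i.1) (μ i.1).1)
    have h4 := nn_le_deg (ℓ := ℓ) μ i.1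
    have h5 := sz_le_deg μ i.1
    rw [h2] at h3
    exact card_bc he h2 (le_clsF (mem_bs_sz (μ i.1).2) (by omega)) h1
  refine (sum_le_sum_comp _ (fun z : AG ℓ μ => z.1) fun lam hlam =>
    ⟨⟨_, mem_AG hlam⟩, pRegPart_eq_self_iff.2 (hr lam)⟩).trans ((sum_le_sum fun z _ =>
    ncard_le_fx hℓ z.1 z (pow_orderOf_eq_one _) Y fun ν hν i => ?_).trans ?_)
  · have hi := reg_of_ww_pos i.2
    refine mem_bc.2 ⟨?_, clsF_eq_of_rc (rc_eq_of_cd hν.2.2 hi)⟩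
    rw [← nn_eq_of_cd hν.2.2, nn_lift _ hν.1 hi, pPart_eq_one_iff.2 (hr _), orderOf_one, one_mul]
    exact mem_bs_sz (lift _ ν i.1).2
  rw [W_eq]
  refine Num.sum_fx_le_pow Y (fun g i => by rw [hY, hY, smul_val, ee_mulI, ww_mulI]) _ KJ_le
    (fun g i => by rw [KJ, KJ, smul_val, Kx_mulI]) (fun g i => ww_mulI g i.1) fun i => ?_
  rw [hY]
  refine Num.mul_cc_lt (Nat.pos_of_ne_zero Subgroup.index_ne_zero_of_finite) i.2
    ((Nat.mul_le_mul_right _ (relIndex_le _ _ _ _ fun z hz => congrArg Subtype.val hz)).trans_lt ?_)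
  rw [ee, Nat.mul_div_cancel' (Nat.gcd_dvd_right _ _)]
  exact e0_lt hℓ

theorem KJ_eq (h : ℓ ∣ q - 1) (i : J ℓ μ) : KJ ℓ μ i = stabilizer (AG ℓ μ) i :=
  (KJ_le i).antisymm fun z hz => by
    obtain ⟨j, hj⟩ := mulI_eq_iff.1 ((smul_val z i).symm.trans (congrArg Subtype.val hz))
    exact ⟨j, by rw [e0_eq_one_iff.2 h, one_mul]; exact hj⟩

theorem nonempty_J (h : ℓ ∣ q - 1) (h0 : 0 < deg μ) : Nonempty (J ℓ μ) := by
  obtain ⟨φ, hφ⟩ := Finsupp.ne_iff.1 (deg_eq_zero_iff.not.1 h0.ne')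
  exact ⟨⟨rpI ℓ φ, ww_eq_nn h μ _ ▸ Nat.pos_of_ne_zero fun e => hφ (nn_eq_zero_iff.1 e φ rfl)⟩⟩

theorem not_dvd_index (S : Subgroup (AG ℓ μ)) : ¬ ℓ ∣ S.index := fun hi => by
  obtain ⟨z, hz⟩ := exists_prime_orderOf_dvd_card' ℓ (hi.trans S.index_dvd_card)
  exact z.2.1 (by rw [Subgroup.orderOf_coe, hz])

theorem case2 [DecidableEq F] (hℓ : ℓ ≠ ringChar F) (h : ℓ ∣ q - 1) (h0 : 0 < deg μ) :
    ∑ lam : Fˣ, (BS ℓ lam μ).ncard ≤ Nat.card (⨅ i, KJ ℓ μ i : Subgroup _) * bd ℓ μ := by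
  haveI := nonempty_J h h0
  obtain ⟨C, hC0⟩ : ∃ C : Subgroup Fˣ, ∀ η, η ∈ C ↔ ∃ a, orderOf η = ℓ ^ a :=
    ⟨_, fun _ => CommGroup.mem_primaryComponent_iff_orderOf⟩
  haveI : Fintype C := Fintype.ofFinite _
  have hC : ∀ (η : C) (z : AG ℓ μ), pPart ℓ (η.1 * z.1) = η.1 ∧ pRegPart ℓ (η.1 * z.1) = z.1 :=
    fun η z => pPart_pRegPart_unique (Commute.all _ _) ((hC0 _).1 η.2) z.2.1
  have h1 : ∀ (η : C) (z : AG ℓ μ), ∀ ν ∈ BS ℓ (η.1 * z.1) μ, ∀ i : J ℓ μ, ww ℓ μ i.1 =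
      orderOf η * sz N (lift (orderOf (η.1 * z.1)) ν i.1).1 := fun η z ν hν i => by
    rw [ww_eq_nn h, ← nn_eq_of_cd hν.2.2, nn_lift _ hν.1 (reg_of_ww_pos i.2), (hC η z).1,
      Subgroup.orderOf_coe]
  have h2 := sum_le_sum_comp (fun lam => (BS ℓ lam μ).ncard) (fun t : C × AG ℓ μ => t.1.1 * t.2.1)
    fun lam hlam => ⟨⟨⟨_, (hC0 _).2 (exists_orderOf_pPart lam)⟩, ⟨_, mem_AG hlam⟩⟩,
      pPart_mul_pRegPart ℓ lam⟩
  rw [Fintype.sum_prod_type] at h2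
  have h3 := Num.sum_dim_le (A := AG ℓ μ) (I := J ℓ μ) (C := C) (p := ℓ)
    (IsPGroup.iff_orderOf.2 fun η => by rw [← Subgroup.orderOf_coe]; exact (hC0 _).1 η.2)
    (fun i => not_dvd_index _) (m := fun i => ww ℓ μ i.1)
    (fun g i => ww_mulI g i.1) (fun i => i.2) (fun η i => bs N (ww ℓ μ i.1 / orderOf η))
    (fun η g i => by rw [smul_val, ww_mulI]) (fun η i => card_bs_le _ _)
    (fun η z => (BS ℓ (η.1 * z.1) μ).ncard) (fun η z => ncard_le_fx hℓ _ z (by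
      have := pRegPart_mem_zpowers ℓ (η.1 * z.1)
      rw [(hC η z).2] at this
      exact orderOf_dvd_iff_pow_eq_one.1 (orderOf_dvd_of_mem_zpowers this))
      _ fun ν hν i => by
        rw [h1 η z ν hν, Nat.mul_div_cancel_left _ (orderOf_pos η)]
        exact mem_bs_sz (lift _ ν i.1).2) fun η z hz i => by
      obtain ⟨ν, hν⟩ := Set.nonempty_of_ncard_ne_zero hz
      exact ⟨_, h1 η z ν hν i⟩
  rw [← W_eq] at h3
  simp only [KJ_eq h]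
  obtain h3 | ⟨rfl, h4, h5, h3⟩ := h3
  · refine h2.trans (h3.trans (Nat.mul_le_mul_left _ ?_))
    rw [bd]; split_ifs
    · rfl
    · exact Nat.pow_le_pow_right hl.out.pos (Nat.sub_le _ _)
  · have h6 : ∀ ψ, Even (nn 2 μ ψ) := fun ψ => by
      rw [← ww_eq_nn h]
      rcases Nat.eq_zero_or_pos (ww 2 μ ψ) with e | e
      · simp [e]
      · rw [W_eq, Fintype.sum_subsingleton _ (⟨ψ, e⟩ : J 2 μ)] at h5
        rcases h5 with h5 | h5 <;> rw [h5] <;> decide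
    rw [bd, if_neg fun e => e.2 ⟨rfl, h6⟩]
    exact h2.trans h3

end Cnt

theorem stCnt [DecidableEq F] (hℓ : ℓ ≠ ringChar F) : StCnt F ℓ := fun N μ hN h0 => by
  refine ⟨(⨅ i, Cnt.KJ ℓ μ i).map (Cnt.AG ℓ μ).subtype, ?_, ?_⟩
  · rintro _ ⟨z, hz, rfl⟩
    exact ⟨z.2.1, z.2.2, fun ψ hψ => Subgroup.mem_iInf.1 hz ⟨ψ, hψ⟩⟩
  rw [Subgroup.card_map_of_injective (Subgroup.subtype_injective _)]
  by_cases h : ℓ ∣ q - 1
  · exact Cnt.case2 hℓ h h0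
  · rw [bd, if_neg fun e => h e.1]
    exact Cnt.case1 hℓ h ((Nat.mul_le_mul_right _ (Nat.succ_le_succ hl.out.one_le)).trans hN)

end Cfsg.GLn
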