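import Cfsg.Agent.GLn.Hall

/-!
# S4536: the raw Mackey formula (statement only)
-/

set_option autoImplicit false

namespace Cfsg.GLn

open ComplexConjugate

universe u

variable {F : Type u} [Field F] [Fintype F] [DecidableEq F] {ω : Fˣ →* ℂˣ}

/-- the term of the Mackey formula of the double coset with block sizes `A, B, C, D` -/
noncomputable def mk4 (a b c d : H ω) (A B C D : ℕ) : ℂ :=
  ((Nat.card (G F A) * Nat.card (G F B) * Nat.card (G F C) * Nat.card (G F D) : ℕ) : ℂ)⁻¹ *
    ∑ gA : G F A, ∑ gB : G F B, ∑ gC : G F C, ∑ gD : G F D,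
      De a A B gA gB * De b C D gC gD * conj (De c A C gA gC * De d B D gB gD)

variable (ω) in
/-- the raw Mackey formula (terms with `x.1 + y.1 ≠ k` vanish) -/
def RawMackey : Prop :=
  ∀ (i j k l : ℕ) (a b c d : H ω), IsHom i a → IsHom j b → IsHom k c → IsHom l d →
    i + j = k + l →
    ip (a * b) (c * d) = ∑ x ∈ Finset.HasAntidiagonal.antidiagonal i,
      ∑ y ∈ Finset.HasAntidiagonal.antidiagonal j, mk4 a b c d x.1 x.2 y.1 y.2

end Cfsg.GLn
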