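import Cfsg.Agent.GLn.Assoc
import Cfsg.Agent.GLn.Raw

/-!
# S4536: commutativity and the operator form of the Mackey formula from the raw Mackey formula
-/

set_option autoImplicit false

namespace Cfsg.GLn

open Matrix ComplexConjugate Finset Finset.HasAntidiagonal

universe u

variable {F : Type u} [Field F] [Fintype F] [DecidableEq F] {ω : Fˣ →* ℂˣ} {i j k l N : ℕ}
  {a b c d : H ω}

theorem ip_orb_mul (x : G F i) (y : G F j) (c : H ω) :
    ip (orb ω i x * orb ω j y) c = conj (De c i j x y) := by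
  have := (isHom_orb (ω := ω) y).ip_eq (DeRgt c i j x)
  rw [ip_orb, DeRgt_apply] at this
  rw [(isHom_orb x).ip_mul_lft (isHom_orb y), this]
  simp only [ip_orb, DeLft_apply, DeRgt_apply, classInner, div_eq_inv_mul]

theorem IsHom.eq_smul_one (h : IsHom 0 a) : a = a ⟨0, 1⟩ • (1 : H ω) :=
  h.ext (isHom_one.smul _) fun g => by
    rw [H.smul_apply, one_apply, mul_one, Subsingleton.elim g 1]

theorem mk4_eq_zero₁ (h : IsHom i a) {A B C D : ℕ} (e : A + B ≠ i) : mk4 a b c d A B C D = 0 := by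
  simp [mk4, h.de_eq_zero e]
theorem mk4_eq_zero₂ (h : IsHom i b) {A B C D : ℕ} (e : C + D ≠ i) : mk4 a b c d A B C D = 0 := by
  simp [mk4, h.de_eq_zero e]
theorem mk4_eq_zero₃ (h : IsHom i c) {A B C D : ℕ} (e : A + C ≠ i) : mk4 a b c d A B C D = 0 := by
  simp [mk4, h.de_eq_zero e]
theorem mk4_eq_zero₄ (h : IsHom i d) {A B C D : ℕ} (e : B + D ≠ i) : mk4 a b c d A B C D = 0 := by
  simp [mk4, h.de_eq_zero e]

theorem mk4_swap (hc : ∀ (A C : ℕ) (x : G F A) (y : G F C), De c A C x y = De c C A y x)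
    (hd : ∀ (A C : ℕ) (x : G F A) (y : G F C), De d A C x y = De d C A y x) (A B C D : ℕ) :
    mk4 a b c d A B C D = mk4 b a c d C D A B := by
  unfold mk4
  congr 1
  · congr 2; ring
  · rw [(sum_congr rfl fun _ _ => sum_comm).trans sum_comm]
    refine sum_congr rfl fun z _ => ?_
    rw [(sum_congr rfl fun _ _ => sum_comm).trans sum_comm]
    refine sum_congr rfl fun w _ => sum_congr rfl fun x _ => sum_congr rfl fun y _ => ?_
    rw [hc A C, hd B D, mul_comm (De a A B x y)]

theorem comm_hom (hM : RawMackey ω) (n : ℕ) :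
    ∀ (i j : ℕ) (a b : H ω), i + j = n → IsHom i a → IsHom j b → a * b = b * a := by
  induction n using Nat.strong_induction_on with
  | _ n ih =>
  have co : ∀ {k : ℕ} {c : H ω}, k < n → IsHom k c →
      ∀ (A C : ℕ) (x : G F A) (y : G F C), De c A C x y = De c C A y x := fun hk hc A C x y => by
    by_cases e : A + C < n
    · rw [← star_inj]
      change conj _ = conj _
      rw [← ip_orb_mul, ← ip_orb_mul, ih _ e A C _ _ rfl (isHom_orb x) (isHom_orb y)]
    · rw [hc.de_eq_zero (by omega), hc.de_eq_zero (by omega)]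
  intro i j a b hn ha hb
  rcases i.eq_zero_or_pos with rfl | hi
  · rw [ha.eq_smul_one, H.smul_mul, H.mul_smul, H.one_mul, H.mul_one]
  rcases j.eq_zero_or_pos with rfl | hj
  · rw [hb.eq_smul_one, H.smul_mul, H.mul_smul, H.one_mul, H.mul_one]
  have key : ∀ {k l : ℕ} {c d : H ω}, IsHom k c → IsHom l d → k < n → l < n → i + j = k + l →
      ip (a * b - b * a) (c * d) = 0 := fun hc hd hk hl e => by
    rw [ip_sub_left, hM _ _ _ _ _ _ _ _ ha hb hc hd e, hM _ _ _ _ _ _ _ _ hb ha hc hd (by omega),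
      sum_comm, sub_eq_zero]
    exact sum_congr rfl fun _ _ => sum_congr rfl fun _ _ => mk4_swap (co hk hc) (co hl hd) _ _ _ _
  refine sub_eq_zero.1 (eq_zero_of_ip_self ?_)
  rw [ip_sub_right, key ha hb (by omega) (by omega) rfl, key hb ha (by omega) (by omega) (by omega),
    sub_zero]

theorem comm_of_raw (hM : RawMackey ω) (a b : H ω) : a * b = b * a := by
  induction a using H.induction with
  | h0 => rw [H.zero_mul, H.mul_zero]
  | h2 a a' h h' => rw [H.add_mul, H.mul_add, h, h']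
  | h1 i a ha =>
  induction b using H.induction with
  | h0 => rw [H.zero_mul, H.mul_zero]
  | h2 b b' h h' => rw [H.add_mul, H.mul_add, h, h']
  | h1 j b hb => exact comm_hom hM _ i j a b rfl ha hb

/-- the product against a homogeneous element -/
theorem IsHom.ip_mul_right (h : IsHom k c) (a b : H ω) : ip (a * b) c = ∑ y ∈ antidiagonal k,
    (∑ g, ∑ g', a ⟨y.1, g⟩ * b ⟨y.2, g'⟩ * conj (De c y.1 y.2 g g')) /
      (Nat.card (G F y.1) * Nat.card (G F y.2)) := by
  induction a using H.induction with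
  | h0 => simp [H.zero_mul]
  | h2 a a' h h' => simp only [H.add_mul, ip_add_left, h, h', H.add_apply, add_mul, sum_add_distrib,
      add_div]
  | h1 i a ha =>
  induction b using H.induction with
  | h0 => simp [H.mul_zero]
  | h2 b b' h h' => simp only [H.mul_add, ip_add_left, h, h', H.add_apply, add_mul, mul_add,
      sum_add_distrib, add_div]
  | h1 j b hb =>
  rw [ha.ip_mul hb, sum_eq_single (i, j)]
  · rintro ⟨A, B⟩ - e
    by_cases e1 : A = i
    · have e2 : B ≠ j := fun e2 => e (by rw [e1, e2])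
      simp [fun g => hb ⟨B, g⟩ e2]
    · simp [fun g => ha ⟨A, g⟩ e1]
  · intro e
    simp [h.de_eq_zero (mt mem_antidiagonal.2 e)]

theorem ip_mul_orb (h : ∀ x : Obj F, N ≤ x.1 → c x = 0) (y : G F j) (a : H ω) :
    ip (c * orb ω j y) a =
      ∑ A ∈ range N, (Nat.card (G F A) : ℂ)⁻¹ * ∑ x, c ⟨A, x⟩ * conj (De a A j x y) := by
  conv_lhs => rw [← sum_cp h, H.sum_mul, ip_sum_left]
  refine sum_congr rfl fun A _ => ?_
  rw [(isHom_cp c).ip_mul_rgt (isHom_orb y)]
  simp only [ip_orb, DeRgt_apply, cp_apply, div_eq_inv_mul]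

theorem raw_gen (hM : RawMackey ω) (h : ∀ x : Obj F, N ≤ x.1 → a x = 0) (hb : IsHom j b)
    (c d : H ω) : ip (a * b) (c * d) =
      ∑ y ∈ antidiagonal j, ∑ A ∈ range N, ∑ B ∈ range N, mk4 a b c d A B y.1 y.2 := by
  induction c using H.induction with
  | h0 => simp [H.zero_mul, mk4]
  | h2 c c' h h' => simp only [H.add_mul, ip_add_right, h, h', mk4, De_add, add_mul, map_add,
      mul_add, sum_add_distrib]
  | h1 k c hc =>
  induction d using H.induction with
  | h0 => simp [H.mul_zero, mk4]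
  | h2 d d' h h' => simp only [H.mul_add, ip_add_right, h, h', mk4, De_add, map_add,
      mul_add, sum_add_distrib]
  | h1 l d hd =>
  have e : ∀ A B C D, mk4 a b c d A B C D = ∑ n ∈ range N, mk4 (cp n a) b c d A B C D :=
    fun A B C D => by
      conv_lhs => rw [← sum_cp h]
      simp only [mk4, De_sum, sum_mul, ← mul_sum]
      congr 1
      simp only [sum_comm (s := range N)]
  conv_lhs => rw [← sum_cp h, H.sum_mul, ip_sum_left]
  simp only [e]
  rw [(sum_congr rfl fun _ _ => (sum_congr rfl fun _ _ => sum_comm).trans sum_comm).trans sum_comm]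
  refine sum_congr rfl fun i hi => ?_
  have ha := isHom_cp (n := i) a
  by_cases e : i + j = k + l
  · rw [hM _ _ _ _ _ _ _ _ ha hb hc hd e, sum_comm]
    refine sum_congr rfl fun y _ => ?_
    rw [← sum_product']
    refine sum_subset (fun x hx => ?_) fun x _ hx => mk4_eq_zero₁ ha (mt mem_antidiagonal.2 hx)
    have := mem_antidiagonal.1 hx
    have := mem_range.1 hi
    exact mem_product.2 ⟨mem_range.2 (by omega), mem_range.2 (by omega)⟩
  · rw [((ha.mul hb).ip_eq_zero (hc.mul hd) e)]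
    refine (sum_eq_zero fun y hy => sum_eq_zero fun A _ => sum_eq_zero fun B _ => ?_).symm
    have := mem_antidiagonal.1 hy
    by_contra hne
    have h1 := mt (mk4_eq_zero₁ ha) hne
    have h3 := mt (mk4_eq_zero₃ hc) hne
    have h4 := mt (mk4_eq_zero₄ hd) hne
    omega

theorem mackey_of_raw (hM : RawMackey ω) {ι : Type*} (s : Finset ι) (c : H ω) (c' c'' : ι → H ω)
    (hc : ∀ (i j : ℕ) (g₁ : G F i) (g₂ : G F j),
      De c i j g₁ g₂ = ∑ t ∈ s, c' t ⟨i, g₁⟩ * c'' t ⟨j, g₂⟩)
    (a b x : H ω) (a' b' : ι → H ω) (ha : ∀ t ∈ s, ∀ y, ip (c' t * y) a = ip y (a' t))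
    (hb : ∀ t ∈ s, ∀ y, ip (c'' t * y) b = ip y (b' t)) :
    ip (c * x) (a * b) = ip x (∑ t ∈ s, a' t * b' t) := by
  induction x using H.induction with
  | h0 => simp [H.mul_zero]
  | h2 x x' h h' => rw [H.mul_add, ip_add_left, ip_add_left, h, h']
  | h1 j x hx =>
  obtain ⟨N, hN⟩ : ∃ N, (∀ o : Obj F, N ≤ o.1 → c o = 0) ∧
      ∀ t ∈ s, (∀ o : Obj F, N ≤ o.1 → c' t o = 0) ∧ ∀ o : Obj F, N ≤ o.1 → c'' t o = 0 := by
    choose f hf using H.exists_bound (ω := ω)
    refine ⟨f c + s.sup fun t => f (c' t) + f (c'' t), fun o h => hf _ _ (by omega), fun t ht => ?_⟩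
    have := le_sup (f := fun t => f (c' t) + f (c'' t)) ht
    exact ⟨fun o h => hf _ _ (by omega), fun o h => hf _ _ (by omega)⟩
  rw [raw_gen hM hN.1 hx, ip_sum_right]
  simp only [← ip_conj (a' _ * b' _) x, hx.ip_mul_right, map_sum]
  rw [sum_comm (s := s)]
  refine sum_congr rfl fun y _ => ?_
  have e1 : ∀ t ∈ s, ∀ g : G F y.1, conj (a' t ⟨y.1, g⟩) = _ := fun t ht g =>
    (ip_orb g _).symm.trans ((ha t ht _).symm.trans (ip_mul_orb (hN.2 t ht).1 g a))
  have e2 : ∀ t ∈ s, ∀ g : G F y.2, conj (b' t ⟨y.2, g⟩) = _ := fun t ht g =>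
    (ip_orb g _).symm.trans ((hb t ht _).symm.trans (ip_mul_orb (hN.2 t ht).2 g b))
  have e3 : ∀ A B, mk4 c x a b A B y.1 y.2 = ∑ t ∈ s, ∑ g : G F y.1, ∑ g' : G F y.2,
      ((Nat.card (G F A) : ℂ)⁻¹ * ∑ z, c' t ⟨A, z⟩ * conj (De a A y.1 z g)) *
      ((Nat.card (G F B) : ℂ)⁻¹ * ∑ z, c'' t ⟨B, z⟩ * conj (De b B y.2 z g')) *
      (De x y.1 y.2 g g' / (Nat.card (G F y.1) * Nat.card (G F y.2))) := fun A B => by
    simp only [mk4, hc, sum_mul, mul_sum, sum_comm (s := s)]
    rw [(sum_congr rfl fun _ _ => sum_comm).trans sum_comm]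
    refine sum_congr rfl fun g _ => ?_
    rw [(sum_congr rfl fun _ _ => sum_comm).trans sum_comm]
    refine sum_congr rfl fun g' _ => sum_comm.trans ?_
    refine sum_congr rfl fun z _ => sum_congr rfl fun w _ => sum_congr rfl fun t _ => ?_
    push_cast
    rw [map_mul]
    ring
  simp only [e3, map_div₀, map_sum, map_mul, Complex.conj_conj, map_natCast, sum_div]
  rw [(sum_congr rfl fun _ _ => sum_comm).trans sum_comm]
  refine sum_congr rfl fun t ht => ?_
  rw [(sum_congr rfl fun _ _ => sum_comm).trans sum_comm]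
  refine sum_congr rfl fun g _ => ?_
  rw [(sum_congr rfl fun _ _ => sum_comm).trans sum_comm]
  refine sum_congr rfl fun g' _ => ?_
  rw [e1 t ht, e2 t ht, sum_mul_sum, mul_div_assoc, sum_mul]
  simp only [sum_mul]

theorem laws_of_raw (hM : ∀ ω : Fˣ →* ℂˣ, RawMackey ω) : Laws F where
  assoc _ := H.mul_assoc
  comm ω := comm_of_raw (hM ω)
  one_mul _ := H.one_mul
  mackey ω _ := mackey_of_raw (hM ω)

end Cfsg.GLn
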