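import Cfsg.Agent.GLn.Defs2
import Cfsg.Agent.GLn.Fock
import Cfsg.Agent.GLn.Sym
import Cfsg.Agent.GLn.Mu
import Cfsg.Agent.GLn.ArB
import Cfsg.Agent.CT.SymCore

/-! Defect groups of the blocks of `GL_n(q)`, combinatorial part: removing rim hooks. -/

set_option autoImplicit false
set_option linter.unusedSectionVars false
set_option linter.unusedVariables false

namespace Cfsg.GLn.DG

open Finset SymCh ComplexConjugate

universe u

variable {F : Type u} [Field F] [Fintype F] [DecidableEq F] [Laws F] {ω : Fˣ →* ℂˣ} {N : ℕ}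

section one

variable {p : ℕ → H ω} (hp : ∀ k, 0 < k → Prim (p k))
  (h : ∀ k l, 0 < k → 0 < l → ip (p k) (p l) = if k = l then (k : ℂ) else 0)

include hp h

theorem adj_chm {r m : ℕ} (hr : 0 < r) (hm : r ≤ m) (f : Multiset ℕ → ℚ) :
    adj (p r) (chm p m f) = chm p (m - r) fun ρ => f (r ::ₘ ρ) := by
  have e : ∀ ρ ∈ ptn m, adj (p r) (pm p ρ) = ((ρ.count r * r : ℕ) : ℂ) • pm p (ρ.erase r) := by
    intro ρ hρ
    have h0 := (mem_ptn.1 hρ).2
    have := (hp r hr).adj_multiset (a := p) ρ (fun j hj => hp j (h0 j hj)) r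
      fun i hi hir => by rw [h i r (h0 i hi) hr, if_neg hir]
    rw [h r r hr hr, if_pos rfl] at this
    rw [Nat.cast_mul]
    exact this
  rw [chm, map_sum, chm, ← Finset.sum_filter_add_sum_filter_not (ptn m) (r ∈ ·),
    sum_ptn_filter_mem hr hm, Finset.sum_eq_zero (s := (ptn m).filter _), add_zero]
  · refine Finset.sum_congr rfl fun ρ hρ => ?_
    have h1 : r ::ₘ ρ ∈ ptn m := by
      rw [mem_ptn] at hρ ⊢
      refine ⟨by rw [Multiset.sum_cons, hρ.1]; omega, fun x hx => ?_⟩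
      rcases Multiset.mem_cons.1 hx with rfl | hx
      exacts [hr, hρ.2 x hx]
    rw [map_smul, e _ h1, Multiset.erase_cons_head, smul_smul, zz_cons, Multiset.count_cons_self]
    congr 1
    have h2 : (zz ρ : ℂ) ≠ 0 := Nat.cast_ne_zero.2 (zz_pos (mem_ptn.1 hρ).2).ne'
    have h3 : (r : ℂ) ≠ 0 := Nat.cast_ne_zero.2 hr.ne'
    have h4 : (ρ.count r : ℂ) + 1 ≠ 0 := Nat.cast_add_one_ne_zero _
    push_cast
    field_simp
  · intro ρ hρ
    rw [map_smul, e _ (mem_filter.1 hρ).1, Multiset.count_eq_zero.2 (mem_filter.1 hρ).2]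
    simp

theorem adj_pm_chm {σ : Multiset ℕ} (hσ : ∀ r ∈ σ, 0 < r) {m : ℕ} (hm : σ.sum ≤ m)
    (f : Multiset ℕ → ℚ) :
    adj (pm p σ) (chm p m f) = chm p (m - σ.sum) fun ρ => f (σ + ρ) := by
  induction σ using Multiset.induction_on generalizing m f with
  | empty => simp [adj_one_left]
  | cons r σ ih =>
    rw [Multiset.sum_cons] at hm
    rw [pm_cons, adj_mul_left, adj_chm hp h (hσ r (by simp)) (by omega),
      ih (fun x hx => hσ x (by simp [hx])) (by omega), Multiset.sum_cons, Nat.sub_sub]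
    simp only [Multiset.cons_add]

theorem ip_chm_pm {m : ℕ} (f : Multiset ℕ → ℚ) {ρ : Multiset ℕ} (hρ : ρ ∈ ptn m) :
    ip (chm p m f) (pm p ρ) = f ρ := by
  have e : ∀ σ ∈ ptn m, ip (pm p σ) (pm p ρ) = if σ = ρ then (zz σ : ℂ) else 0 := fun σ hσ => by
    have := ip_pm hp (w := fun _ => 1) (by simpa using h) (mem_ptn.1 hσ).2 (mem_ptn.1 hρ).2
    simpa using this
  rw [chm, ip_sum_left, Finset.sum_eq_single ρ]
  · rw [ip_smul_left, e ρ hρ, if_pos rfl]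
    have h2 : (zz ρ : ℂ) ≠ 0 := Nat.cast_ne_zero.2 (zz_pos (mem_ptn.1 hρ).2).ne'
    push_cast
    field_simp
  · intro σ hσ h1
    rw [ip_smul_left, e σ hσ, if_neg h1, mul_zero]
  · exact fun h1 => absurd hρ h1

end one

theorem chm_phi_mem {A : Type*} [CommRing A] [Algebra ℂ A] (p : ℕ → A) (e m : ℕ)
    {σ : Multiset ℕ} (hσ : ∀ r ∈ σ, e ∣ r) (β : Fin N → ℤ) :
    chm p m (fun ρ => phi β (σ + ρ)) ∈ Submodule.span ℂ
      ((fun X => S p N X) '' {X | X ∈ bs N m ∧ clsF e X = cls e β}) := by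
  induction σ using Multiset.induction_on generalizing β with
  | empty =>
    simp only [zero_add]
    by_cases h0 : ∀ ρ ∈ ptn m, phi β ρ = 0
    · rw [chm, Finset.sum_eq_zero fun ρ hρ => by simp [h0 ρ hρ]]
      exact zero_mem _
    · push Not at h0
      obtain ⟨ρ, hρ, h1⟩ := h0
      have hi : Function.Injective β := by
        by_contra hi; exact h1 (phi_eq_zero_of_not_injective hi ρ)
      have hn : ∀ i, 0 ≤ β i := fun i => by
        by_contra hn; exact h1 (phi_eq_zero_of_neg (not_le.1 hn) ρ)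
      obtain ⟨X, hX, w, rfl⟩ := exists_lab_comp hi hn
      have hs := sum_eq_of_phi_ne_zero h1
      have hX' : X ∈ bs N m := by
        rw [mem_bs]
        refine ⟨hX, ?_⟩
        rw [(mem_ptn.1 hρ).1, sum_del] at hs
        have h2 : ∑ i, (lab N X ∘ w) i = ∑ i, lab N X i := Equiv.sum_comp w (lab N X)
        rw [h2, sum_lab hX fun x => x] at hs
        have h3 : ((∑ x ∈ X, x : ℕ) : ℤ) = ((m + tri N : ℕ) : ℤ) := by push_cast; exact hs
        exact_mod_cast h3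
      have : chm p m (phi (lab N X ∘ w)) = ((sg w : ℚ) : ℂ) • S p N X := by
        rw [S_eq_chm, sz_of_mem hX', chm, chm, Finset.smul_sum]
        refine Finset.sum_congr rfl fun ρ _ => ?_
        rw [phi_comp, smul_smul, ph]
        congr 1
        push_cast
        ring
      rw [this]
      exact Submodule.smul_mem _ _ (Submodule.subset_span
        ⟨X, ⟨hX', by rw [cls_comp, cls_lab hX]⟩, rfl⟩)
  | cons r σ ih =>
    have := chm_sum p m univ (fun _ => 1)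
      fun (i : Fin N) ρ => phi (β - Pi.single i (r : ℤ)) (σ + ρ)
    simp only [one_mul] at this
    simp only [Multiset.cons_add, phi_cons, this]
    refine Submodule.sum_mem _ fun i _ => Submodule.smul_mem _ _ ?_
    rw [← cls_sub_single β i (hσ r (by simp))]
    exact ih (fun x hx => hσ x (by simp [hx])) _

theorem sz_add_tri {X : Finset ℕ} (h : #X = N) : sz N X + tri N = ∑ x ∈ X, x :=
  (mem_bs.1 (mem_bs_sz h)).2.symm

theorem sz_zero : sz N (0 : Bt N).1 = 0 := Nat.sub_self _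

theorem S_zero {A : Type*} [CommRing A] [Algebra ℂ A] (p : ℕ → A) : S p N (0 : Bt N).1 = 1 := by
  rw [S_eq_chm, sz_zero, chm_zero]
  have h3 : lab N (0 : Bt N).1 = del N := by
    funext i
    have : (0 : Bt N).1 = univ.image (Fin.val : Fin N → ℕ) := by
      ext x; simp [show (0 : Bt N).1 = range N from rfl, Fin.exists_iff]
    rw [this, lab_image Fin.val_strictMono]
    rfl
  rw [ph, h3, phi_zero, dd_self del_injective]
  simp

theorem schur_eq {A : Type*} [CommRing A] [Algebra ℂ A] (p : I F → ℕ → A) (μ : MP F N) (ψ : I F) :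
    schur p μ = S (p ψ) N (μ ψ).1 * schur p (μ.erase ψ) :=
  (Finsupp.mul_prod_erase' μ ψ (fun o X => S (p o) N X.1) fun o => S_zero (p o)).symm

theorem erase_update (μ : MP F N) (ψ : I F) (X : Bt N) : (μ.update ψ X).erase ψ = μ.erase ψ := by
  ext φ
  by_cases h : φ = ψ
  · subst h; simp
  · simp [Finsupp.erase_ne h]

theorem schur_update {A : Type*} [CommRing A] [Algebra ℂ A] (p : I F → ℕ → A) (μ : MP F N)
    (ψ : I F) (X : Bt N) : schur p (μ.update ψ X) = S (p ψ) N X.1 * schur p (μ.erase ψ) := by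
  rw [schur_eq p _ ψ, erase_update]; simp

theorem schur_single {A : Type*} [CommRing A] [Algebra ℂ A] (p : I F → ℕ → A) (ψ : I F)
    (X : Bt N) : schur p (Finsupp.single ψ X : MP F N) = S (p ψ) N X.1 :=
  Finsupp.prod_single_index (S_zero (p ψ))

theorem deg_eq (μ : MP F N) (ψ : I F) : deg μ = ψ.per * sz N (μ ψ).1 + deg (μ.erase ψ) :=
  (Finsupp.add_sum_erase' μ ψ (fun o X => o.per * sz N X.1) fun o => by
    rw [sz_zero, mul_zero]).symm

theorem deg_update (μ : MP F N) (ψ : I F) (X : Bt N) :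
    deg (μ.update ψ X) = ψ.per * sz N X.1 + deg (μ.erase ψ) := by
  rw [deg_eq _ ψ, erase_update]; simp

theorem deg_single (ψ : I F) (X : Bt N) :
    deg (Finsupp.single ψ X : MP F N) = ψ.per * sz N X.1 :=
  Finsupp.sum_single_index (by rw [sz_zero, mul_zero])

theorem S_mem_adjoin {A : Type*} [CommRing A] [Algebra ℂ A] (p : ℕ → A) (X : Finset ℕ)
    {s : Set A} (hs : ∀ m, 0 < m → p m ∈ s) : S p N X ∈ Algebra.adjoin ℂ s := by
  refine Subalgebra.sum_mem _ fun ρ hρ => Subalgebra.smul_mem _ ?_ _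
  refine Subalgebra.multiset_prod_mem _ fun x hx => ?_
  obtain ⟨m, hm, rfl⟩ := Multiset.mem_map.1 hx
  exact Algebra.subset_adjoin (hs m ((mem_ptn.1 hρ).2 m hm))

theorem schur_mem_adjoin {A : Type*} [CommRing A] [Algebra ℂ A] (p : I F → ℕ → A) (μ : MP F N)
    {s : Set A} (hs : ∀ o ∈ μ.support, ∀ m, 0 < m → p o m ∈ s) :
    schur p μ ∈ Algebra.adjoin ℂ s :=
  Subalgebra.prod_mem _ fun o ho => S_mem_adjoin _ _ (hs o ho)

theorem chi_eq (μ : MP F N) (ψ : I F) : chi μ = S (pp ψ) N (μ ψ).1 * chi (μ.erase ψ) :=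
  schur_eq pp μ ψ

theorem chi_update (μ : MP F N) (ψ : I F) (X : Bt N) :
    chi (μ.update ψ X) = S (pp ψ) N X.1 * chi (μ.erase ψ) := schur_update pp μ ψ X

theorem chi_single (ψ : I F) (X : Bt N) :
    chi (Finsupp.single ψ X : MP F N) = S (pp ψ) N X.1 := schur_single pp ψ X

variable {ℓ : ℕ}

theorem Basic.update {μ : MP F N} (h : Basic ℓ μ) {ψ : I F} (hψ : Reg ℓ ψ) (X : Bt N) :
    Basic ℓ (μ.update ψ X) := fun o ho => by
  by_cases h1 : o = ψ
  · exact h1 ▸ hψ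
  · refine h o ?_
    simpa [Function.update_of_ne h1] using ho

variable [Fact ℓ.Prime]

theorem nn_basic {μ : MP F N} (h : Basic ℓ μ) (ψ : I F) : nn ℓ μ ψ = sz N (μ ψ).1 := by
  rw [nn, Finsupp.sum, Finset.sum_eq_single ψ]
  · by_cases h1 : ψ ∈ μ.support
    · rw [if_pos (h ψ h1).rpI_eq, Nat.div_self (per_pos ψ), one_mul]
    · rw [Finsupp.notMem_support_iff.1 h1, sz_zero]; simp
  · intro φ hφ h1
    rw [if_neg]
    rwa [(h φ hφ).rpI_eq]
  · intro h1
    rw [Finsupp.notMem_support_iff.1 h1, sz_zero]; simp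

theorem wt_zero {e : ℕ} (he : 0 < e) : SymCh.wt e (0 : Bt N).1 = 0 := by
  have h1 := sum_eq_base_add he (0 : Bt N).1
  have h2 := tri_le_base (clsF e (0 : Bt N).1)
  rw [sum_clsF he, (0 : Bt N).2] at h2
  rw [← sz_add_tri (0 : Bt N).2, sz_zero] at h1
  have : e * SymCh.wt e (0 : Bt N).1 = 0 := by omega
  exact (Nat.mul_eq_zero.1 this).resolve_left he.ne'

theorem ww_basic (hℓ : ℓ ≠ ringChar F) {μ : MP F N} (h : Basic ℓ μ) (ψ : I F) :
    ww ℓ μ ψ = SymCh.wt (ee ℓ ψ) (μ ψ).1 := by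
  have he := ee_pos hℓ ψ
  unfold ww
  split_ifs with h1
  · rw [nn_basic h, sz_add_tri (μ ψ).2, sum_eq_base_add he, Nat.add_sub_cancel_left,
      Nat.mul_div_cancel_left _ he]
  · have : μ ψ = 0 := by
      by_contra h2; exact h1 (h ψ (Finsupp.mem_support_iff.2 h2))
    rw [this, wt_zero he]

theorem W_basic (hℓ : ℓ ≠ ringChar F) {μ : MP F N} (h : Basic ℓ μ) :
    W ℓ μ = μ.sum fun ψ X => SymCh.wt (ee ℓ ψ) X.1 := by
  rw [W, finsum_eq_sum_of_support_subset (s := μ.support)]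
  · exact Finset.sum_congr rfl fun ψ _ => ww_basic hℓ h ψ
  · intro ψ hψ
    by_contra h1
    refine hψ ?_
    rw [ww_basic hℓ h, Finsupp.notMem_support_iff.1 h1, wt_zero (ee_pos hℓ ψ)]

theorem W_update (hℓ : ℓ ≠ ringChar F) {μ : MP F N} (h : Basic ℓ μ) {ψ : I F} (hψ : Reg ℓ ψ)
    (X : Bt N) : W ℓ (μ.update ψ X) + SymCh.wt (ee ℓ ψ) (μ ψ).1 =
      W ℓ μ + SymCh.wt (ee ℓ ψ) X.1 := by
  rw [W_basic hℓ h, W_basic hℓ (Basic.update h hψ X),
    ← Finsupp.add_sum_erase' μ ψ _ fun o => wt_zero (ee_pos hℓ o),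
    ← Finsupp.add_sum_erase' (μ.update ψ X) ψ _ fun o => wt_zero (ee_pos hℓ o), erase_update]
  simp only [Finsupp.coe_update, Function.update_self]
  ring

theorem exists_of_W_pos (hℓ : ℓ ≠ ringChar F) {μ : MP F N} (h : Basic ℓ μ) (h0 : W ℓ μ ≠ 0) :
    ∃ ψ, Reg ℓ ψ ∧ SymCh.wt (ee ℓ ψ) (μ ψ).1 ≠ 0 := by
  rw [W_basic hℓ h] at h0
  obtain ⟨ψ, h1, h2⟩ := Finset.exists_ne_zero_of_sum_ne_zero h0
  exact ⟨ψ, h ψ h1, h2⟩

theorem nn_eq_of_cd {μ ν : MP F N} (h : cd ℓ μ = cd ℓ ν) (ψ : I F) : nn ℓ μ ψ = nn ℓ ν ψ := by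
  by_cases h1 : Reg ℓ ψ
  · have := congrFun h ψ
    simp only [cd, if_pos h1] at this
    exact congrArg Prod.fst this
  · have : ∀ μ : MP F N, nn ℓ μ ψ = 0 := fun μ => Finset.sum_eq_zero fun φ _ =>
      if_neg (by rintro rfl; exact h1 (reg_rpI φ))
    rw [this, this]

theorem W_eq_of_cd {μ ν : MP F N} (h : cd ℓ μ = cd ℓ ν) : W ℓ μ = W ℓ ν := by
  unfold W
  congr 1
  funext ψ
  unfold ww
  split_ifs with h1
  · have := congrFun h ψ
    simp only [cd, if_pos h1] at this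
    have h2 : clsF (ee ℓ ψ) (μ ψ).1 = clsF (ee ℓ ψ) (ν ψ).1 :=
      funext fun j => congrFun (congrArg Prod.snd this) j
    rw [nn_eq_of_cd h, h2]
  · rfl

/-- the basic subalgebra -/
abbrev bset (ℓ : ℕ) : Set (H (1 : Fˣ →* ℂˣ)) := {x | ∃ ψ m, Reg ℓ ψ ∧ 0 < m ∧ x = pp ψ m}

theorem chi_mem {μ : MP F N} (h : Basic ℓ μ) : chi μ ∈ Algebra.adjoin ℂ (bset ℓ) :=
  schur_mem_adjoin _ _ fun o ho m hm => ⟨o, m, h o ho, hm, rfl⟩

theorem pp_ip (hP : StP F) (ψ : I F) (k l : ℕ) (hk : 0 < k) (hl : 0 < l) :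
    ip (pp ψ k) (pp ψ l) = if k = l then (k : ℂ) else 0 := by
  rw [hP.fk.ip ψ k ψ l hk hl]; simp

theorem adj_pm_mul (hP : StP F) (μ : MP F N) (ψ : I F) {σ : Multiset ℕ} (hσ : ∀ r ∈ σ, 0 < r)
    (y : H (1 : Fˣ →* ℂˣ)) :
    adj (pm (pp ψ) σ) (y * chi (μ.erase ψ)) = adj (pm (pp ψ) σ) y * chi (μ.erase ψ) := by
  induction σ using Multiset.induction_on generalizing y with
  | empty => simp [adj_one_left]
  | cons r σ ih =>
    have hr := hσ r (by simp)
    have h0 : adj (pp ψ r) (chi (μ.erase ψ)) = 0 := by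
      refine (hP.fk.prim ψ r hr).adj_eq_zero (s := {x | ∃ φ m, φ ≠ ψ ∧ 0 < m ∧ x = pp φ m}) ?_ ?_
        (schur_mem_adjoin _ _ fun o ho m hm => ⟨o, m, ?_, hm, rfl⟩)
      · rintro _ ⟨φ, m, -, hm, rfl⟩; exact hP.fk.prim φ m hm
      · rintro _ ⟨φ, m, h1, hm, rfl⟩
        rw [hP.fk.ip φ m ψ r hm hr, if_neg fun h => h1 h.1]
      · rintro rfl; simp at ho
    rw [pm_cons, adj_mul_left, adj_mul_left, (hP.fk.prim ψ r hr).adj_mul, h0, mul_zero, add_zero,
      ih fun x hx => hσ x (by simp [hx])]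

/-- the combinatorial step -/
theorem step (hP : StP F) (hℓ : ℓ ≠ ringChar F) (hS : StSch F) (hB : StBas F ℓ) {μ : MP F N}
    (h : Basic ℓ μ) {ψ : I F} (hψ : Reg ℓ ψ) {e : ℕ} {σ ρ : Multiset ℕ} (hσ : ∀ r ∈ σ, 0 < r)
    (he : ∀ r ∈ σ, e ∣ r) (hρ : ∀ r ∈ ρ, 0 < r) (h0 : ph N (μ ψ).1 (σ + ρ) ≠ 0)
    {a : H (1 : Fˣ →* ℂˣ)} {c : ℂ} (hc : c ≠ 0)
    (ha : adj a (chi μ) = c • adj (pm (pp ψ) σ) (chi μ)) :
    ∃ X : Bt N, sz N X.1 + σ.sum = sz N (μ ψ).1 ∧ clsF e X.1 = clsF e (μ ψ).1 ∧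
      ip (dd ℓ (chi (μ.update ψ X)) * a) (chi μ) ≠ 0 := by
  have hprim := hP.fk.prim ψ
  have hip := pp_ip hP ψ
  have hsum : ρ.sum + σ.sum = sz N (μ ψ).1 := by
    have := sum_eq_of_phi_ne_zero h0
    rw [sum_lab_of_mem (mem_bs_sz (μ ψ).2), Multiset.sum_add] at this
    omega
  obtain ⟨m, hm⟩ : ∃ m, m = ρ.sum := ⟨_, rfl⟩
  obtain ⟨Y, hYd⟩ : ∃ Y, Y = chm (pp ψ) m fun ρ => ph N (μ ψ).1 (σ + ρ) := ⟨_, rfl⟩
  obtain ⟨C, hC⟩ : ∃ C, C = chi (μ.erase ψ) := ⟨_, rfl⟩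
  have hZ : adj (pm (pp ψ) σ) (chi μ) = Y * C := by
    rw [chi_eq μ ψ, adj_pm_mul hP μ ψ hσ, S_eq_chm, adj_pm_chm hprim hip hσ (by omega),
      show sz N (μ ψ).1 - σ.sum = m by omega, hYd, hC]
  have hY : Y ∈ Submodule.span ℂ ((fun X => S (pp ψ) N X) ''
      {X | X ∈ bs N m ∧ clsF e X = clsF e (μ ψ).1}) := by
    have := chm_phi_mem (pp ψ) e m he (lab N (μ ψ).1)
    rw [cls_lab (μ ψ).2] at this
    rw [hYd]
    exact this
  have hZs : Y * C ∈ Submodule.span ℂ ((fun X : Bt N => chi (μ.update ψ X)) ''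
      {X | X.1 ∈ bs N m ∧ clsF e X.1 = clsF e (μ ψ).1}) := by
    clear hZ hYd
    induction hY using Submodule.span_induction with
    | mem x hx =>
      obtain ⟨X, hX, rfl⟩ := hx
      obtain ⟨X, rfl⟩ : ∃ X' : Bt N, X'.1 = X := ⟨⟨X, (mem_bs.1 hX.1).1⟩, rfl⟩
      refine Submodule.subset_span ⟨X, hX, ?_⟩
      beta_reduce
      rw [hC, chi_update]
    | zero => rw [zero_mul]; exact zero_mem _
    | add x y _ _ h1 h2 => rw [add_mul]; exact add_mem h1 h2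
    | smul c x _ h1 => rw [smul_mul_assoc]; exact Submodule.smul_mem _ _ h1
  have hZ0 : Y * C ≠ 0 := by
    intro h1
    have h2 := congrArg (adj (pm (pp ψ) ρ)) h1
    rw [hC, adj_pm_mul hP μ ψ hρ, hYd, adj_pm_chm hprim hip hρ hm.ge, hm, Nat.sub_self, chm_zero,
      map_zero, add_zero, smul_mul_assoc, one_mul, smul_eq_zero] at h2
    rcases h2 with h2 | h2
    · exact h0 (by exact_mod_cast h2)
    · have : ip (chi (μ.erase ψ)) (chi (μ.erase ψ)) = _ :=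
        (hS 1 1 pp hP.fk).orth (μ.erase ψ) (μ.erase ψ)
      rw [if_pos rfl, h2] at this
      simp at this
  generalize Y * C = Z at hZ hZs hZ0
  have hZA : Z ∈ Algebra.adjoin ℂ (bset ℓ) := by
    refine Submodule.span_le (p := (Algebra.adjoin ℂ (bset ℓ)).toSubmodule).2 ?_ hZs
    rintro _ ⟨X, -, rfl⟩
    exact chi_mem (Basic.update h hψ X)
  have hd : ip (dd ℓ Z) Z ≠ 0 := fun h1 => hZ0
    ((hB 1 1 pp hP.fk (hP.gr ℓ Fact.out hℓ)).2.1 Z hZA
      (eq_zero_of_ip_self (by rw [ip_dd_dd, h1])))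
  by_contra hc'
  push Not at hc'
  refine hd ?_
  have : ∀ Z' ∈ Submodule.span ℂ ((fun X : Bt N => chi (μ.update ψ X)) ''
      {X | X.1 ∈ bs N m ∧ clsF e X.1 = clsF e (μ ψ).1}), ip (dd ℓ Z') Z = 0 := by
    intro Z' hZ'
    induction hZ' using Submodule.span_induction with
    | mem x hx =>
      obtain ⟨X, hX, rfl⟩ := hx
      have h1 := hc' X (by rw [sz_of_mem hX.1, hm]; exact hsum) hX.2
      rw [mul_comm, ip_mul_adj, ha, hZ, ip_smul_right, mul_eq_zero, map_eq_zero] at h1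
      exact h1.resolve_left hc
    | zero => rw [map_zero, ip_zero_left]
    | add x y _ _ h1 h2 => rw [map_add, ip_add_left, h1, h2, add_zero]
    | smul c x _ h1 => rw [map_smul, ip_smul_left, h1, mul_zero]
  exact this Z hZs

end Cfsg.GLn.DG
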