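import Cfsg.Agent.GLn.DGa
import Cfsg.Agent.GLn.Peel
import Cfsg.Agent.Blk.Over

/-! Defect groups of the blocks of `GL_n(q)` contain an elementary abelian group of rank `W`. -/

set_option autoImplicit false
set_option linter.unusedSectionVars false
set_option linter.unusedVariables false

namespace Cfsg.GLn.DG

open Finset SymCh ComplexConjugate

universe u

variable {F : Type u} [Field F] [Fintype F] [DecidableEq F] [Laws F] {ω : Fˣ →* ℂˣ} {N : ℕ}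
  {ℓ : ℕ} [Fact ℓ.Prime] {M : Ideal AlgInt}

theorem prim_sub {a b : H ω} (ha : Prim a) (hb : Prim b) : Prim (a - b) := by
  have := ha.add (hb.smul (-1))
  rwa [neg_one_smul, ← sub_eq_add_neg] at this

theorem adj_sub (a b y : H ω) : adj (a - b) y = adj a y - adj b y :=
  ext_ip fun z => by rw [ip_sub_right, ← ip_mul_adj, ← ip_mul_adj, ← ip_mul_adj, sub_mul,
    ip_sub_left]

theorem adj_smul (c : ℂ) (a y : H ω) : adj (c • a) y = conj c • adj a y :=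
  ext_ip fun z => by rw [ip_smul_right, ← ip_mul_adj, ← ip_mul_adj, smul_mul_assoc, ip_smul_left,
    Complex.conj_conj]

theorem isClassFunction_cm (a : H (1 : Fˣ →* ℂˣ)) (n : ℕ) : IsClassFunction (G F n) (cm a n) :=
  fun g z => by simpa using a.conj g z

theorem ip_pp_dd (hP : StP F) (hℓ : ℓ ≠ ringChar F) {φ ψ : I F} (hφ : Reg ℓ φ) (hψ : Reg ℓ ψ)
    {m e : ℕ} (hm : 0 < m) (he : 0 < e) :
    ip (pp φ m) (dd ℓ (pp ψ e)) = (nl F ℓ (ψ.per * e) : ℂ)⁻¹ * ip (pp φ m) (pp ψ e) := by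
  rw [← ip_dd, hP.gr ℓ Fact.out hℓ φ m ψ e hm he, hP.fk.ip φ m ψ e hm he, gram, hφ.rpI_eq,
    hψ.rpI_eq]
  by_cases h : φ = ψ ∧ m = e
  · obtain ⟨rfl, rfl⟩ := h
    have h1 : (φ.per : ℂ) ≠ 0 := Nat.cast_ne_zero.2 (per_pos φ).ne'
    rw [if_pos ⟨rfl, rfl⟩, if_pos ⟨rfl, rfl⟩]
    push_cast
    field_simp
  · rw [if_neg h, if_neg, mul_zero]
    rintro ⟨h1, rfl⟩
    exact h ⟨rfl, Nat.eq_of_mul_eq_mul_left (per_pos φ) h1⟩

theorem adj_eq_of_ip (hP : StP F) {a b : H (1 : Fˣ →* ℂˣ)} (ha : Prim a) (hb : Prim b)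
    (h : ∀ φ m, Reg ℓ φ → 0 < m → ip (pp φ m) a = ip (pp φ m) b) {y : H (1 : Fˣ →* ℂˣ)}
    (hy : y ∈ Algebra.adjoin ℂ (bset ℓ)) : adj a y = adj b y := by
  rw [← sub_eq_zero, ← adj_sub]
  refine (prim_sub ha hb).adj_eq_zero ?_ ?_ hy
  · rintro _ ⟨φ, m, -, hm, rfl⟩; exact hP.fk.prim φ m hm
  · rintro _ ⟨φ, m, h1, hm, rfl⟩; rw [ip_sub_right, h φ m h1 hm, sub_self]

theorem adj_dd (hP : StP F) (hℓ : ℓ ≠ ringChar F) {ψ : I F} (hψ : Reg ℓ ψ) {e : ℕ} (he : 0 < e)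
    {y : H (1 : Fˣ →* ℂˣ)} (hy : y ∈ Algebra.adjoin ℂ (bset ℓ)) :
    adj (dd ℓ (pp ψ e)) y = (nl F ℓ (ψ.per * e) : ℂ)⁻¹ • adj (pp ψ e) y := by
  rw [adj_eq_of_ip hP ((hP.fk.prim ψ e he).dd ℓ)
    ((hP.fk.prim ψ e he).smul (nl F ℓ (ψ.per * e) : ℂ)⁻¹) _ hy, adj_smul, map_inv₀, map_natCast]
  intro φ m h1 hm
  rw [ip_pp_dd hP hℓ h1 hψ hm he, ip_smul_right, map_inv₀, map_natCast]

theorem isHom_chi (hP : StP F) (hS : StSch F) (μ : MP F N) : IsHom (deg μ) (chi μ) := by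
  have := (hS 1 1 pp hP.fk).hom μ
  rwa [one_mul] at this

theorem isHom_pp (hP : StP F) (ψ : I F) {m : ℕ} (hm : 0 < m) : IsHom (ψ.per * m) (pp ψ m) := by
  have := hP.fk.hom ψ m hm
  rwa [one_mul] at this

/-- every block contains a basic character -/
theorem exists_basic (hℓ : ℓ ≠ ringChar F) (hP : StP F) (hS : StSch F) (hI : StIrr F)
    (hC : StCore F ℓ) (hB : StBas F ℓ) (hM : IsPModular ℓ M) {n : ℕ} {μ : MP F N}
    {χ : IrrCharacter (G F n)} (hn : deg μ = n) (hN : n ≤ N) (hχ : cm (chi μ) n = χ.1) :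
    ∃ (ν : MP F N) (χ' : IrrCharacter (G F n)), Basic ℓ ν ∧ deg ν = n ∧ cm (chi ν) n = χ'.1 ∧
      blockOf M χ.1 = blockOf M χ'.1 ∧ cd ℓ ν = cd ℓ μ := by
  have h1 : dd ℓ (chi μ) ∈ _ := (hB 1 1 pp hP.fk (hP.gr ℓ Fact.out hℓ)).1 N μ (hn ▸ hN)
  have h2 : ip (dd ℓ (chi μ)) (chi μ) ≠ 0 := fun h => by
    have h3 : dd ℓ (chi μ) = 0 := eq_zero_of_ip_self (by rw [ip_dd_dd, h])
    have h4 := congrFun (cm_dd (Fact.out : ℓ.Prime) hℓ (chi μ) n) 1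
    rw [h3, hχ, pRegularPart, if_pos (by
      rw [IsPRegular, orderOf_one, Nat.dvd_one]; exact (Fact.out : ℓ.Prime).ne_one)] at h4
    exact IrrCharacter.one_ne_zero χ h4.symm
  obtain ⟨ν, hν, hd, h3⟩ : ∃ ν : MP F N, Basic ℓ ν ∧ deg ν = deg μ ∧
      ip (dd ℓ (chi ν)) (chi μ) ≠ 0 := by
    by_contra hc
    push Not at hc
    refine h2 ?_
    generalize dd ℓ (chi μ) = Z at h1
    induction h1 using Submodule.span_induction with
    | mem x hx => obtain ⟨ν, hν, rfl⟩ := hx; exact hc ν hν.1 hν.2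
    | zero => rw [ip_zero_left]
    | add x y _ _ h1 h2 => rw [ip_add_left, h1, h2, add_zero]
    | smul c x _ h1 => rw [ip_smul_left, h1, mul_zero]
  refine ⟨ν, ⟨_, hI.irr ν (hd.trans hn)⟩, hν, hd.trans hn, rfl, ?_, ?_⟩
  · refine (isPBlock_blockOf χ).eq_blockOf hM (hM.sameBlock_symm
      (hM.sameBlock_of_classInner_pRegularPart_ne_zero ?_))
    have h4 := ((isHom_chi hP hS ν).dd ℓ).ip_eq (chi μ)
    rw [hd, hn] at h4
    rw [← hχ, ← cm_dd Fact.out hℓ]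
    exact h4 ▸ h3
  · by_contra h4
    exact h3 (hC N ν μ (by omega) (by omega) h4)

theorem not_one_mem_eig_pPart {k : ℕ} {y : G F k} (h : ∀ α ∈ eig ⟨k, y⟩, ℓ ∣ orderOf α) :
    (1 : (K F)ˣ) ∉ eig ⟨k, pPart ℓ y⟩ := by
  rw [pPart, eig_pow, Multiset.mem_map]
  rintro ⟨α, hα, h1⟩
  have hp : ℓ.Prime := Fact.out
  have h2 : ℓ ∣ pPartExp ℓ (orderOf y) := (h α hα).trans (orderOf_dvd_of_pow_eq_one h1)
  have h3 : ℓ ∣ orderOf y := (h α hα).trans (orderOf_dvd_of_mem_eig hα)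
  have h4 := (pPartExp_modEq_one hp (orderOf_pos y).ne').of_dvd
    (dvd_pow_self ℓ (hp.factorization_pos_of_dvd (orderOf_pos y).ne' h3).ne')
  exact hp.one_lt.ne' (Nat.dvd_one.1 ((h4.dvd_iff dvd_rfl).1 h2))

theorem coprime_one {i k : ℕ} {v : G F k} (h : (1 : (K F)ˣ) ∉ eig ⟨k, v⟩) :
    IsCoprime (chp (1 : G F i)) (chp v) :=
  (isCoprime_iff_eig (x := ⟨i, 1⟩) (y := ⟨k, v⟩)).2 (by
    rw [eig_one, Multiset.disjoint_left]
    intro a ha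
    rwa [Multiset.eq_of_mem_replicate ha])

/-- the geometric step -/
theorem geo1 (hℓ : ℓ ≠ ringChar F) (hM : IsPModular ℓ M) {i k : ℕ}
    {χ : IrrCharacter (G F (i + k))} {θ : IrrCharacter (G F i)} {c d a : H (1 : Fˣ →* ℂˣ)}
    (hc : cm c (i + k) = χ.1) (hd : cm d i = θ.1) (hd' : IsHom i d) (ha : IsHom k a)
    (hpr : Prim a) (hs : ∀ y, a y ≠ 0 → ∃ α ∈ eig y, ℓ ∣ orderOf α)
    (h : ip (dd ℓ d * a) c ≠ 0) {D : Subgroup (G F (i + k))}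
    (hD : IsDefectGroup ℓ M (blockOf M χ.1) D) :
    ∃ D1, IsDefectGroup ℓ M (blockOf M θ.1) D1 ∧ ∃ v : G F k, orderOf v = ℓ ∧
      IsConjLE ((D1.prod (Subgroup.zpowers v)).map diag) D := by
  classical
  have hp : ℓ.Prime := Fact.out
  rw [(hd'.dd ℓ).ip_mul ha, Finset.sum_comm] at h
  obtain ⟨y, -, hy⟩ := Finset.exists_ne_zero_of_sum_ne_zero (div_ne_zero_iff.1 h).1
  have hy0 : a ⟨k, y⟩ ≠ 0 := fun h0 => hy (by simp [h0])
  have hall : ∀ α ∈ eig ⟨k, y⟩, ℓ ∣ orderOf α := by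
    obtain ⟨o, m, -, h1, -⟩ := hpr.supp hy0
    obtain ⟨β, hβ, h2⟩ := hs _ hy0
    intro α hα
    rw [h1] at hα hβ
    rw [← orderOf_rep_io, io_of_mem_nsmul hα, ← io_of_mem_nsmul hβ, orderOf_rep_io]
    exact h2
  have hk : ℓ ∣ orderOf y := by
    obtain ⟨β, hβ, h2⟩ := hs _ hy0
    exact h2.trans (orderOf_dvd_of_mem_eig hβ)
  let C := Subgroup.centralizer ({pPart ℓ y} : Set (G F k))
  let f : G F i × C →* G F (i + k) := diag.comp ((MonoidHom.id _).prodMap C.subtype)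
  have hf : Function.Injective f := diag_injective.comp
    (Function.Injective.prodMap Function.injective_id Subtype.val_injective)
  let u2 : C := ⟨pPart ℓ y, Subgroup.mem_centralizer_singleton_iff.2 rfl⟩
  let t : C := ⟨pRegPart ℓ y, pRegPart_mem_centralizer_pPart ℓ y⟩
  have hr : f.range = Subgroup.centralizer {f (1, u2)} := by
    have : f (1, u2) = diag (1, pPart ℓ y) := rfl
    rw [this, centralizer_diag (coprime_one (not_one_mem_eig_pPart hall))]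
    ext z
    constructor
    · rintro ⟨⟨x, w⟩, rfl⟩
      exact ⟨(x, w.1), ⟨Subgroup.mem_centralizer_singleton_iff.2 (by simp), w.2⟩, rfl⟩
    · rintro ⟨⟨x, w⟩, h1, rfl⟩
      exact ⟨(x, ⟨w, h1.2⟩), rfl⟩
  have hu : ∃ j : ℕ, orderOf u2 = ℓ ^ j := by
    rw [← Subgroup.orderOf_coe]; exact exists_orderOf_pPart y
  have ht : ¬ ℓ ∣ orderOf t := by
    rw [← Subgroup.orderOf_coe]; exact not_dvd_orderOf_pRegPart y
  obtain ⟨θ1, h1, D1, hD1, h2⟩ := peel_val hM f hf hr hu (isPBlock_blockOf χ)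
    (hM.mem_blockOf_self χ) θ.isClassFunction ht (by
      intro h0
      refine hy ?_
      have h1 := congrArg (fun z => a ⟨k, y⟩ * conj z) h0
      simp only [map_sum, map_mul, Complex.conj_conj, map_zero, mul_zero, Finset.mul_sum] at h1
      rw [← h1]
      refine Finset.sum_congr rfl fun x _ => ?_
      have h2 : f (x, u2 * t) = diag (x, y) := by
        change diag (x, pPart ℓ y * pRegPart ℓ y) = _
        rw [pPart_mul_pRegPart]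
      rw [h2, ← hd, ← cm_dd hp hℓ, ← hc]
      by_cases h3 : dd ℓ d ⟨i, x⟩ = 0
      · simp [h3]
      · rw [De_of_coprime]
        · ring
        refine (isCoprime_iff_eig (x := ⟨i, x⟩) (y := ⟨k, y⟩)).2
          (Multiset.disjoint_left.2 fun {α} h4 h5 => h3 ?_)
        rw [dd_apply, if_pos ⟨α, h4, hall α h5⟩]) hD
  obtain rfl := IrrCharacter.eq_of_classInner_ne_zero h1
  have : ℓ ∣ Nat.card (Subgroup.zpowers (pPart ℓ y)) := by
    rw [Nat.card_zpowers, orderOf_pPart]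
    exact dvd_pow_self ℓ (hp.factorization_pos_of_dvd (orderOf_pos y).ne' hk).ne'
  obtain ⟨v, hv⟩ := exists_prime_orderOf_dvd_card' ℓ this
  refine ⟨D1, hD1, v.1, by rw [Subgroup.orderOf_coe, hv], (IsConjLE.of_le ?_).trans h2⟩
  rintro _ ⟨⟨x, w⟩, ⟨h3, h4⟩, rfl⟩
  obtain ⟨j, hj⟩ := Subgroup.zpowers_le_of_mem v.2 h4
  exact ⟨(x, u2 ^ j), ⟨h3, j, rfl⟩, by rw [← show _ = w from hj]; rfl⟩

theorem ext_elem {G G1 G2 : Type*} [Group G] [Group G1] [Group G2] (f : G1 × G2 →* G)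
    (hf : Function.Injective f) {E : Subgroup G1} {w : ℕ} (h1 : Nat.card E = ℓ ^ w)
    (h2 : ∀ a ∈ E, ∀ b ∈ E, a * b = b * a) (h3 : ∀ a ∈ E, a ^ ℓ = 1) {v : G2}
    (hv : orderOf v = ℓ) :
    Nat.card ((E.prod (Subgroup.zpowers v)).map f) = ℓ ^ (w + 1) ∧
      (∀ a ∈ (E.prod (Subgroup.zpowers v)).map f, ∀ b ∈ (E.prod (Subgroup.zpowers v)).map f,
        a * b = b * a) ∧ ∀ a ∈ (E.prod (Subgroup.zpowers v)).map f, a ^ ℓ = 1 := by
  refine ⟨?_, ?_, ?_⟩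
  · rw [Subgroup.card_map_of_injective hf, Nat.card_congr (E.prodEquiv _).toEquiv, Nat.card_prod,
      h1, Nat.card_zpowers, hv, pow_succ]
  · rintro _ ⟨⟨a, _⟩, ⟨ha, i, rfl⟩, rfl⟩ _ ⟨⟨b, _⟩, ⟨hb, j, rfl⟩, rfl⟩
    rw [← map_mul, ← map_mul, Prod.mk_mul_mk, Prod.mk_mul_mk, h2 a ha b hb]
    simp only [← zpow_add, add_comm]
  · rintro _ ⟨⟨a, _⟩, ⟨ha, i, rfl⟩, rfl⟩
    rw [← map_pow, Prod.pow_mk, h3 a ha]
    beta_reduce
    rw [← zpow_natCast, ← zpow_mul, mul_comm i, zpow_mul, zpow_natCast, ← hv, pow_orderOf_eq_one,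
      one_zpow]
    exact map_one f

theorem dg1_basic (hℓ : ℓ ≠ ringChar F) (hP : StP F) (hS : StSch F) (hI : StIrr F)
    (hB : StBas F ℓ) (hM : IsPModular ℓ M) (n : ℕ) : ∀ (μ : MP F N)
    (χ : IrrCharacter (G F n)), Basic ℓ μ → deg μ = n → cm (chi μ) n = χ.1 →
    ∀ D, IsDefectGroup ℓ M (blockOf M χ.1) D → ∃ E : Subgroup (G F n), Nat.card E = ℓ ^ W ℓ μ ∧
      (∀ a ∈ E, ∀ b ∈ E, a * b = b * a) ∧ (∀ a ∈ E, a ^ ℓ = 1) ∧ IsConjLE E D := by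
  induction n using Nat.strong_induction_on with
  | _ n ih =>
  intro μ χ hμ hn hχ D hD
  by_cases h0 : W ℓ μ = 0
  · exact ⟨⊥, by simp [h0], by simp, by simp, .of_le bot_le⟩
  obtain ⟨ψ, hψ, hw⟩ := exists_of_W_pos hℓ hμ h0
  have he := ee_pos hℓ ψ
  obtain ⟨e, hee⟩ : ∃ e, e = ee ℓ ψ := ⟨_, rfl⟩
  rw [← hee] at he hw
  obtain ⟨w, hw⟩ := Nat.exists_eq_succ_of_ne_zero hw
  have hb := sum_eq_base_add he (μ ψ).1
  have hb' := tri_le_base (clsF e (μ ψ).1)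
  rw [sum_clsF he, (μ ψ).2] at hb'
  obtain ⟨m₀, hm₀⟩ := Nat.exists_eq_add_of_le' hb'
  have hnl : 1 < nl F ℓ (ψ.per * e) :=
    (one_lt_nl_iff (Nat.mul_pos (per_pos ψ) he)).2 ((e0_dvd_per_mul_iff ψ e).2 (hee ▸ dvd_rfl))
  obtain ⟨X, h1, h2, h3⟩ := step hP hℓ hS hB hμ hψ (e := e) (σ := {e})
    (ρ := Multiset.replicate w e + Multiset.replicate m₀ 1) (by simpa using he) (by simp)
    (by
      intro r hr
      rcases Multiset.mem_add.1 hr with h | h <;> rw [Multiset.eq_of_mem_replicate h]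
      exacts [he, one_pos])
    (by
      have := ph_replicate_ne_zero (N := N) he (w := w + 1) hm₀.symm (X := (μ ψ).1)
        (mem_bc.2 ⟨mem_bs.2 ⟨(μ ψ).2, by rw [hb, hw, hm₀, Nat.succ_eq_add_one]; ring⟩, rfl⟩)
      rwa [Multiset.replicate_succ, Multiset.cons_add, ← Multiset.singleton_add] at this)
    (a := pp ψ e - dd ℓ (pp ψ e)) (c := 1 - (nl F ℓ (ψ.per * e) : ℂ)⁻¹)
    (by
      rw [sub_ne_zero, ne_comm, Ne, inv_eq_one, Nat.cast_eq_one]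
      exact hnl.ne')
    (by rw [adj_sub, adj_dd hP hℓ hψ he (chi_mem hμ), sub_smul, one_smul, pm]; simp)
  rw [Multiset.sum_singleton] at h1
  have hW : W ℓ μ = W ℓ (μ.update ψ X) + 1 := by
    have h4 := W_update hℓ hμ hψ X
    have h5 := sum_eq_base_add he X.1
    rw [← sz_add_tri X.2, h2] at h5
    rw [← sz_add_tri (μ ψ).2, ← h1, hw] at hb
    have : SymCh.wt e X.1 = w := Nat.eq_of_mul_eq_mul_left he (by
      rw [Nat.succ_eq_add_one, mul_add] at hb; omega)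
    rw [← hee, this, hw] at h4
    omega
  obtain rfl : deg (μ.update ψ X) + ψ.per * e = n := by
    rw [← hn, deg_update, deg_eq μ ψ, ← h1]; ring
  obtain ⟨D1, hD1, v, hv, h4⟩ := geo1 hℓ hM (θ := ⟨_, hI.irr (μ.update ψ X) rfl⟩) hχ rfl
    (isHom_chi hP hS _) ((isHom_pp hP ψ he).sub ((isHom_pp hP ψ he).dd ℓ))
    (prim_sub (hP.fk.prim ψ e he) ((hP.fk.prim ψ e he).dd ℓ)) (fun y hy => by
      by_contra hc
      exact hy (by rw [H.sub_apply, dd_apply, if_neg hc, sub_self])) h3 hD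
  obtain ⟨E, h5, h6, h7, h8⟩ := ih _ (Nat.lt_add_of_pos_right (Nat.mul_pos (per_pos ψ) he))
    (μ.update ψ X) ⟨_, hI.irr (μ.update ψ X) rfl⟩ (Basic.update hμ hψ X) rfl rfl D1 hD1
  obtain ⟨h9, h10, h11⟩ := ext_elem diag diag_injective h5 h6 h7 hv
  exact ⟨_, hW ▸ h9, h10, h11, (isConjLE_prod_map diag h8 (.refl _)).trans h4⟩

end DG

/-- piece `DG1` -/
theorem stDG1 {F : Type*} [Field F] [Fintype F] [DecidableEq F] [Laws F] {ℓ : ℕ} [Fact ℓ.Prime]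
    (hℓ : ℓ ≠ ringChar F) (hP : StP F) (hS : StSch F) (hI : StIrr F) (hC : StCore F ℓ)
    (hB : StBas F ℓ) : StDG1 F ℓ := by
  intro M hM N n μ χ hn hN hχ D hD
  obtain ⟨ν, χ', h1, h2, h3, h4, h5⟩ := DG.exists_basic hℓ hP hS hI hC hB hM hn hN hχ
  rw [← DG.W_eq_of_cd h5]
  exact DG.dg1_basic hℓ hP hS hI hB hM n ν χ' h1 h2 h3 D (h4 ▸ hD)

end Cfsg.GLn
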