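import Cfsg.Agent.GLn.GG0

/-! The twisted Gelfand-Graev functions are group-like. -/

set_option autoImplicit false
set_option linter.unusedSectionVars false

namespace Cfsg.GLn

open Matrix

universe u

variable {F : Type u} [Field F] [Fintype F] [DecidableEq F] (ψ : AddChar F ℂ) (ω : Fˣ →* ℂˣ)

section blocks
variable {i j n : ℕ} (e : Fin i ⊕ Fin j ≃ Fin n) (h1 : ∀ a, (e (.inl a) : ℕ) = a)
  (h2 : ∀ b, (e (.inr b) : ℕ) = i + b) (A : Matrix (Fin i) (Fin i) F)
  (B : Matrix (Fin i) (Fin j) F) (C : Matrix (Fin j) (Fin i) F) (D : Matrix (Fin j) (Fin j) F)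
include h1 h2

theorem isU_reindex : IsU (reindex e e (fromBlocks A B C D)) ↔ IsU A ∧ C = 0 ∧ IsU D := by
  constructor
  · rintro ⟨h3, h4⟩
    refine ⟨⟨fun a b h => ?_, fun a => ?_⟩, ?_, fun a b h => ?_, fun a => ?_⟩
    · simpa using h3 (e (.inl a)) (e (.inl b)) (by rwa [Fin.lt_def, h1, h1])
    · simpa using h4 (e (.inl a))
    · ext a b
      simpa using h3 (e (.inr a)) (e (.inl b)) (by rw [Fin.lt_def, h1, h2]; omega)
    · simpa using h3 (e (.inr a)) (e (.inr b)) (by rw [Fin.lt_def, h2, h2]; omega)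
    · simpa using h4 (e (.inr a))
  · rintro ⟨h3, rfl, h4⟩
    refine ⟨fun a b h => ?_, fun a => ?_⟩
    · obtain ⟨a, rfl⟩ := e.surjective a
      obtain ⟨b, rfl⟩ := e.surjective b
      rw [Fin.lt_def] at h
      rcases a with a | a <;> rcases b with b | b <;> simp only [h1, h2] at h
      · simpa using h3.1 a b h
      · omega
      · simp
      · simpa using h4.1 a b (by rw [Fin.lt_def]; omega)
    · obtain ⟨a, rfl⟩ := e.surjective a
      rcases a with a | a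
      · simpa using h3.2 a
      · simpa using h4.2 a

theorem sd_reindex : sd (reindex e e (fromBlocks A 0 C D)) = sd A + sd D := by
  simp only [sd, ← e.sum_comp, Fintype.sum_sum_type, h1, h2, Finset.sum_add_distrib]
  simp only [reindex_apply, submatrix_apply, Equiv.symm_apply_apply, fromBlocks_apply₁₁,
    fromBlocks_apply₁₂, fromBlocks_apply₂₁, fromBlocks_apply₂₂, Matrix.zero_apply, ite_self,
    Finset.sum_const_zero, add_assoc, add_right_inj]
  rw [zero_add, add_eq_right]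
  exact Finset.sum_eq_zero fun a _ => Finset.sum_eq_zero fun b _ => if_neg (by omega)

end blocks

theorem blk_mem_Uni {i j : ℕ} (a : G F i) (v : Matrix (Fin i) (Fin j) F) (b : G F j) :
    blk a v b ∈ Uni F (i + j) ↔ a ∈ Uni F i ∧ b ∈ Uni F j := by
  rw [mem_Uni, blk_val, blkM, isU_reindex finSumFinEquiv (fun _ => rfl) (fun _ => rfl)]
  simp [mem_Uni]

theorem blk_inj {i j : ℕ} {a a' : G F i} {v v' : Matrix (Fin i) (Fin j) F} {b b' : G F j}
    (h : blk a v b = blk a' v' b') : a = a' ∧ v = v' ∧ b = b' := by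
  have h1 := fromBlocks_inj.1 ((reindex _ _).injective (congrArg Units.val h))
  exact ⟨Units.ext h1.1, h1.2.1, Units.ext h1.2.2.2⟩

theorem card_Uni_add (i j : ℕ) : Nat.card (Uni F (i + j)) =
    Nat.card (Uni F i) * Nat.card (Uni F j) * Fintype.card F ^ (i * j) := by
  have h : Nat.card (Matrix (Fin i) (Fin j) F) = Fintype.card F ^ (i * j) := by
    simp [Matrix, ← pow_mul, mul_comm]
  rw [← h, ← Nat.card_prod, ← Nat.card_prod]
  refine (Nat.card_eq_of_bijective (fun x : (Uni F i × Uni F j) × Matrix (Fin i) (Fin j) F =>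
    (⟨blk x.1.1 x.2 x.1.2, (blk_mem_Uni _ _ _).2 ⟨x.1.1.2, x.1.2.2⟩⟩ : Uni F (i + j)))
    ⟨fun x y hxy => ?_, fun u => ?_⟩).symm
  · obtain ⟨h1, h2, h3⟩ := blk_inj (congrArg Subtype.val hxy)
    exact Prod.ext (Prod.ext (Subtype.ext h1) (Subtype.ext h3)) h2
  · obtain ⟨M, hM⟩ := (reindex finSumFinEquiv finSumFinEquiv).surjective u.1.val
    have hu : IsU _ := u.2
    rw [← hM, ← M.fromBlocks_toBlocks,
      isU_reindex finSumFinEquiv (fun _ => rfl) (fun _ => rfl)] at hu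
    refine ⟨⟨⟨⟨GeneralLinearGroup.mkOfDetNeZero _ (hu.1.det.trans_ne one_ne_zero), hu.1⟩,
      ⟨GeneralLinearGroup.mkOfDetNeZero _ (hu.2.2.det.trans_ne one_ne_zero), hu.2.2⟩⟩,
      M.toBlocks₁₂⟩, Subtype.ext (Units.ext ?_)⟩
    rw [← hM]
    conv_rhs => rw [← M.fromBlocks_toBlocks, hu.2.1]
    simp [blkM]

theorem exists_jump {j n : ℕ} (R : Matrix (Fin j) (Fin n) F) (hR : ∀ y, ∃ x, R *ᵥ x = y)
    {ρ₀ : Fin j → F} (h0 : ρ₀ ≠ 0) (hC : ∀ a : Fin n, (a : ℕ) < j → (ρ₀ ᵥ* R) a = 0) :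
    ∃ (k l : Fin n) (x : Fin n → F) (ρ : Fin j → F), (l : ℕ) = k + 1 ∧ R *ᵥ x = 0 ∧ x k = 1 ∧
      (∀ a, k < a → x a = 0) ∧ (∀ a, a ≤ k → (ρ ᵥ* R) a = 0) ∧ (ρ ᵥ* R) l ≠ 0 := by
  let S : ℕ → Submodule F (Fin j → F) := fun k =>
    (Submodule.pi {a : Fin n | k ≤ (a : ℕ)} fun _ => ⊥).map R.mulVecLin
  have hS : ∀ k y, y ∈ S k ↔ ∃ x : Fin n → F, (∀ a : Fin n, k ≤ (a : ℕ) → x a = 0) ∧ R *ᵥ x = y :=
    fun k y => by simp [S, Submodule.mem_pi]
  have hmono : Monotone S := fun k l h y hy => by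
    obtain ⟨x, h1, h2⟩ := (hS _ _).1 hy
    exact (hS _ _).2 ⟨x, fun a ha => h1 a (h.trans ha), h2⟩
  have hr : ∀ (k : Fin n) (m : ℕ), (k : ℕ) < m → R *ᵥ Pi.single k 1 ∈ S m := fun k m h =>
    (hS _ _).2 ⟨_, fun a ha => Pi.single_eq_of_ne (fun h' => by subst h'; omega) _, rfl⟩
  have hstep : ∀ k : Fin n, R *ᵥ Pi.single k 1 ∈ S k → S (k + 1) ≤ S k := fun k hk y hy => by
    obtain ⟨x, h1, rfl⟩ := (hS _ _).1 hy
    have h2 : x = (x - x k • Pi.single k 1) + x k • Pi.single k 1 := by simp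
    rw [h2, Matrix.mulVec_add, Matrix.mulVec_smul]
    refine add_mem ((hS _ _).2 ⟨_, fun a ha => ?_, rfl⟩) ((S k).smul_mem _ hk)
    by_cases h : a = k
    · subst h; simp
    · have : (a : ℕ) ≠ k := fun h' => h (Fin.ext h')
      simp [h, h1 a (by omega)]
  have hn : S n = ⊤ := eq_top_iff.2 fun y _ => by
    obtain ⟨x, hx⟩ := hR y
    exact (hS _ _).2 ⟨x, fun a ha => absurd a.2 (by omega), hx⟩
  have hj : S j ≠ ⊤ := fun h => h0 (by
    funext b
    obtain ⟨x, h1, h2⟩ := (hS j (Pi.single b 1)).1 (h ▸ Submodule.mem_top)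
    have h3 : ρ₀ ⬝ᵥ (R *ᵥ x) = 0 := by
      rw [Matrix.dotProduct_mulVec]
      refine Finset.sum_eq_zero fun a _ => ?_
      rcases lt_or_ge (a : ℕ) j with h | h
      · rw [hC a h, zero_mul]
      · rw [h1 a h, mul_zero]
    simpa [h2] using h3)
  have hjn : j ≤ n := by
    by_contra h
    exact hj (eq_top_iff.2 (hn ▸ hmono (by omega)))
  obtain ⟨k, hk, hk'⟩ : ∃ k : Fin n, (k : ℕ) < j ∧ R *ᵥ Pi.single k 1 ∈ S k := by
    by_contra! h
    have h1 : ∀ m, m ≤ j → m ≤ Module.finrank F (S m) := fun m => by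
      induction m with
      | zero => simp
      | succ m ih =>
        intro hm
        exact (ih (by omega)).trans_lt (Submodule.finrank_lt_finrank_of_lt (lt_of_le_of_ne
          (hmono m.le_succ) fun h2 => h ⟨m, by omega⟩ hm (h2 ▸ hr ⟨m, by omega⟩ _ m.lt_succ_self)))
    exact hj (Submodule.eq_top_of_finrank_eq (le_antisymm (Submodule.finrank_le _)
      (by simpa using h1 j le_rfl)))
  obtain ⟨k, l, hl, hk, hl'⟩ : ∃ k l : Fin n, (l : ℕ) = k + 1 ∧ R *ᵥ Pi.single k 1 ∈ S k ∧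
      R *ᵥ Pi.single l 1 ∉ S l := by
    by_contra! h
    have h1 : ∀ m, (k : ℕ) ≤ m → ∀ hm : m < n, R *ᵥ Pi.single ⟨m, hm⟩ 1 ∈ S m := fun m hm => by
      induction m, hm using Nat.le_induction with
      | base => exact fun _ => hk'
      | succ m hm ih => exact fun hm' => h ⟨m, by omega⟩ ⟨m + 1, hm'⟩ rfl (ih _)
    have h2 : ∀ m, (k : ℕ) ≤ m → m ≤ n → S m ≤ S k := fun m hm => by
      induction m, hm using Nat.le_induction with
      | base => exact fun _ => le_rfl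
      | succ m hm ih => exact fun hm' => (hstep ⟨m, hm'⟩ (h1 m hm hm')).trans (ih (by omega))
    exact hj (eq_top_iff.2 (hn ▸ (h2 n k.2.le le_rfl).trans (hmono hk.le)))
  obtain ⟨x, h1, h2⟩ := (hS _ _).1 hk
  obtain ⟨f, h3, h4⟩ := Submodule.exists_le_ker_of_notMem hl'
  have h5 : ∀ a, ((fun b => f (Pi.single b 1)) ᵥ* R) a = f (R *ᵥ Pi.single a 1) := fun a => by
    rw [LinearMap.pi_apply_eq_sum_univ f]
    simp only [Matrix.vecMul, dotProduct, Matrix.mulVec_single_one, Matrix.col_apply, smul_eq_mul]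
    refine Finset.sum_congr rfl fun b _ => ?_
    rw [mul_comm]
    congr 2
    funext c
    simp [Pi.single_apply, eq_comm]
  refine ⟨k, l, Pi.single k 1 - x, fun b => f (Pi.single b 1), hl, by
    rw [Matrix.mulVec_sub, h2, sub_self], by simp [h1 k le_rfl], fun a ha => by
      simp [ha.ne', h1 a ha.le], fun a ha => ?_, by rwa [h5]⟩
  rw [h5]
  exact h4 (hr a l (by have : (a : ℕ) ≤ k := ha; omega))

section rodier
variable {i j : ℕ}

/-- the second block decomposition -/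
def swE (i j : ℕ) : Fin j ⊕ Fin i ≃ Fin (i + j) := finSumFinEquiv.trans (finCongr (add_comm j i))

/-- the block permutation matrix -/
def swG (i j : ℕ) : G F (i + j) where
  val := reindex finSumFinEquiv (swE i j) (fromBlocks 0 1 1 0)
  inv := reindex (swE i j) finSumFinEquiv (fromBlocks 0 1 1 0)
  val_inv := by simp [fromBlocks_multiply]
  inv_val := by simp [fromBlocks_multiply]

/-- the unipotent radical of the second parabolic -/
def swU (y : Matrix (Fin j) (Fin i) F) : G F (i + j) where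
  val := reindex (swE i j) (swE i j) (fromBlocks 1 y 0 1)
  inv := reindex (swE i j) (swE i j) (fromBlocks 1 (-y) 0 1)
  val_inv := by simp [fromBlocks_multiply]
  inv_val := by simp [fromBlocks_multiply]

theorem swU_mem (y : Matrix (Fin j) (Fin i) F) : swU y ∈ Uni F (i + j) :=
  (isU_reindex (swE i j) (fun _ => rfl) (fun _ => rfl) _ _ _ _).2 ⟨IsU.one, rfl, IsU.one⟩

theorem dt_swG : dt (swG i j : G F (i + j)) = (-1) ^ (i * j) := by
  let σ : Equiv.Perm (Fin (i + j)) :=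
    finSumFinEquiv.symm.trans ((Equiv.sumComm _ _).trans (swE i j))
  have h : (swG i j : G F (i + j)).val = σ.permMatrix F := by
    ext a b
    obtain ⟨a, rfl⟩ := finSumFinEquiv.surjective a
    obtain ⟨b, rfl⟩ := (swE i j).surjective b
    rcases a with a | a <;> rcases b with b | b <;>
      simp [swG, σ, Matrix.one_apply, -finSumFinEquiv_apply_left, -finSumFinEquiv_apply_right]
  have h1 : ∀ a, (σ (Fin.castAdd j a) : ℕ) = j + a := fun a => by simp [σ, swE, add_comm]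
  have h2 : ∀ a, (σ (Fin.natAdd i a) : ℕ) = a := fun a => by simp [σ, swE]
  have h3 : Equiv.Perm.sign σ = (-1) ^ (i * j) := by
    rw [Equiv.Perm.sign_eq_prod_prod_Ioi]
    simp only [← Finset.prod_ite_mem_eq (Finset.Ioi _), Fin.prod_univ_add, Finset.mem_Ioi,
      Fin.lt_def, h1, h2, Fin.val_castAdd, Fin.val_natAdd, add_lt_add_iff_left,
      ← ite_not (α := ℤˣ) (p := _ < _) (y := 1), ← ite_and, and_not_self]
    simp [(Fin.isLt _).trans_le, (Fin.isLt _).le.trans, pow_mul']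
  refine Units.ext ?_
  rw [GeneralLinearGroup.val_det_apply, h, Matrix.det_permutation, h3]
  simp

theorem psi0_swG (a : G F i) (v : Matrix (Fin i) (Fin j) F) (b : G F j) :
    psi0 ψ ((swG i j)⁻¹ * blk a v b * swG i j) = if v = 0 then psi0 ψ a * psi0 ψ b else 0 := by
  have h : ((swG i j)⁻¹ * blk a v b * swG i j).val =
      reindex (swE i j) (swE i j) (fromBlocks b.val 0 v a.val) := by
    change (swG i j).inv * blkM a.val v b.val * (swG i j).val = _
    simp [swG, blkM, fromBlocks_multiply]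
  have h1 : (swG i j)⁻¹ * blk a v b * swG i j ∈ Uni F (i + j) ↔
      b ∈ Uni F j ∧ v = 0 ∧ a ∈ Uni F i := by
    rw [mem_Uni, h, isU_reindex (swE i j) (fun _ => rfl) (fun _ => rfl)]; rfl
  by_cases h2 : b ∈ Uni F j ∧ v = 0 ∧ a ∈ Uni F i
  · rw [psi0_of_mem ψ (h1.2 h2), h, sd_reindex (swE i j) (fun _ => rfl) (fun _ => rfl),
      if_pos h2.2.1, psi0_of_mem ψ h2.1, psi0_of_mem ψ h2.2.2, AddChar.map_add_eq_mul, mul_comm]
  · rw [psi0_of_not_mem ψ (mt h1.1 h2)]
    split_ifs with h3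
    · by_cases h4 : a ∈ Uni F i
      · rw [psi0_of_not_mem ψ fun h5 => h2 ⟨h5, h3, h4⟩, mul_zero]
      · rw [psi0_of_not_mem ψ h4, zero_mul]
    · rfl

theorem big_val (z₁ : G F i) (x : Matrix (Fin i) (Fin j) F) (z₂ : G F j)
    (y : Matrix (Fin j) (Fin i) F) : (blk z₁ x z₂ * swG i j * swU y).val =
      reindex finSumFinEquiv (swE i j) (fromBlocks x (x * y + z₁.val) z₂.val (z₂.val * y)) := by
  change blkM z₁.val x z₂.val * (swG i j).val * (swU y).val = _
  simp [swG, swU, blkM, fromBlocks_multiply]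

theorem sum_psi0_big (g₁ z₁ : G F i) (g₂ z₂ : G F j) (x : Matrix (Fin i) (Fin j) F)
    (y : Matrix (Fin j) (Fin i) F) :
    ∑ v, psi0 ψ ((blk z₁ x z₂ * swG i j * swU y)⁻¹ * blk g₁ v g₂ * (blk z₁ x z₂ * swG i j * swU y)) =
      psi0 ψ (z₁⁻¹ * g₁ * z₁) * psi0 ψ (z₂⁻¹ * g₂ * z₂) := by
  have h1 : ∀ v, blk g₁ v g₂ * blk z₁ x z₂ = blk z₁ x z₂ * blk (z₁⁻¹ * g₁ * z₁)
      ((z₁⁻¹).val * (g₁.val * x + v * z₂.val - x * (z₂⁻¹ * g₂ * z₂).val)) (z₂⁻¹ * g₂ * z₂) :=
    fun v => by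
      rw [blk_mul, blk_mul, ← Matrix.mul_assoc, Units.mul_inv, Matrix.one_mul, sub_add_cancel]
      congr 1 <;> group
  have h2 : ∀ v, (blk z₁ x z₂ * swG i j * swU y)⁻¹ * blk g₁ v g₂ * (blk z₁ x z₂ * swG i j * swU y) =
      (swU y)⁻¹ * ((swG i j)⁻¹ * ((blk z₁ x z₂)⁻¹ * (blk g₁ v g₂ * blk z₁ x z₂)) * swG i j) *
        swU y := fun v => by group
  simp only [h2, psi0_conj ψ _ (swU_mem y), h1, inv_mul_cancel_left, psi0_swG]
  rw [Finset.sum_eq_single ((x * (z₂⁻¹ * g₂ * z₂).val - g₁.val * x) * (z₂⁻¹).val), if_pos]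
  · rw [Matrix.mul_assoc, Units.inv_mul, Matrix.mul_one]; simp
  · intro v _ hv
    refine if_neg fun h => hv ?_
    have h3 := congrArg (z₁.val * ·) h
    simp only [← Matrix.mul_assoc, Units.mul_inv, Matrix.one_mul, Matrix.mul_zero] at h3
    rw [sub_eq_zero, ← eq_sub_iff_add_eq'] at h3
    rw [← h3, Matrix.mul_assoc, Units.mul_inv, Matrix.mul_one]
  · simp

variable {ψ} in
theorem sum_psi0_small (hψ : ψ ≠ 1) (g₁ : G F i) (g₂ : G F j) (z : G F (i + j))
    (hz : (z.val.submatrix (Fin.natAdd i) fun b => swE i j (.inl b)).det = 0) :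
    ∑ v, psi0 ψ (z⁻¹ * blk g₁ v g₂ * z) = 0 := by
  obtain ⟨ρ₀, h0, h1⟩ := Matrix.exists_vecMul_eq_zero_iff.2 hz
  obtain ⟨k, l, x, ρ, hl, hx, hk, hx', hρ, hρ'⟩ := exists_jump (z.val.submatrix (Fin.natAdd i) id)
    (fun y => ⟨(z⁻¹).val *ᵥ Fin.append 0 y, by
      funext b
      change (z.val *ᵥ ((z⁻¹).val *ᵥ Fin.append 0 y)) (Fin.natAdd i b) = _
      rw [Matrix.mulVec_mulVec, Units.mul_inv, Matrix.one_mulVec, Fin.append_right]⟩) h0
    (fun a ha => congrFun h1 ⟨a, ha⟩)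
  obtain ⟨c, hc⟩ := AddChar.ne_one_iff.1 hψ
  set φ := ρ ᵥ* z.val.submatrix (Fin.natAdd i) id with hφ
  let s : Matrix (Fin i) (Fin j) F :=
    (c / φ l) • vecMulVec (fun a => (z.val *ᵥ x) (Fin.castAdd j a)) ρ
  have h2 : (z⁻¹ * blk 1 s 1 * z).val = 1 + (c / φ l) • vecMulVec x φ := by
    rw [mul_assoc, Units.val_mul, Units.inv_mul_eq_iff_eq_mul, Matrix.mul_add, Matrix.mul_one,
      Matrix.mul_smul, Matrix.mul_vecMulVec]
    ext a b
    have h3 : φ b = ∑ r, ρ r * z.val (Fin.natAdd i r) b := rfl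
    rw [Units.val_mul, Matrix.mul_apply, Fin.sum_univ_add, blk_val]
    refine Fin.addCases (fun a => ?_) (fun a => ?_) a
    · simp only [blkM_ll, blkM_lr, Units.val_one, s, Matrix.smul_apply, vecMulVec_apply,
        Matrix.add_apply, smul_eq_mul, h3, Finset.mul_sum, mul_assoc,
        Matrix.one_apply, ite_mul, one_mul, zero_mul, Finset.sum_ite_eq, Finset.mem_univ, if_true]
    · have h4 : (z.val *ᵥ x) (Fin.natAdd i a) = 0 := congrFun hx a
      simp [blkM_rl, blkM_rr, vecMulVec_apply, h4, Matrix.one_apply]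
  have h3 : ∀ a b : Fin (i + j), (b : ℕ) ≤ a → x a * φ b = 0 := fun a b h => by
    rcases lt_or_ge k a with h' | h'
    · rw [hx' a h', zero_mul]
    · rw [hρ b (le_trans h h'), mul_zero]
  have h4 : z⁻¹ * blk 1 s 1 * z ∈ Uni F (i + j) := by
    rw [mem_Uni, h2]
    exact ⟨fun a b h => by simp [Matrix.one_apply_ne h.ne', vecMulVec_apply, h3 a b h.le],
      fun a => by simp [vecMulVec_apply, h3 a a le_rfl]⟩
  have h5 : sd (z⁻¹ * blk 1 s 1 * z).val = c := by
    rw [h2, sd, Finset.sum_eq_single k, Finset.sum_eq_single l, if_pos hl]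
    · have : k ≠ l := fun h => by subst h; omega
      simp [Matrix.one_apply_ne this, vecMulVec_apply, hk, hρ']
    · exact fun b _ hb => if_neg fun h => hb (Fin.ext (h.trans hl.symm))
    · simp
    · refine fun a _ ha => Finset.sum_eq_zero fun b _ => ?_
      split_ifs with h
      · have h6 : a ≠ b := fun h => by subst h; omega
        have h7 : x a * φ b = 0 := by
          rcases lt_or_gt_of_ne ha with h' | h'
          · rw [hρ b (by have : (a : ℕ) < k := h'; change (b : ℕ) ≤ k; omega), mul_zero]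
          · rw [hx' a h', zero_mul]
        simp [Matrix.one_apply_ne h6, vecMulVec_apply, h7]
      · rfl
    · simp
  have h6 : (∑ v, psi0 ψ (z⁻¹ * blk g₁ v g₂ * z)) * ψ c = ∑ v, psi0 ψ (z⁻¹ * blk g₁ v g₂ * z) := by
    rw [Finset.sum_mul]
    refine Fintype.sum_equiv (Equiv.addLeft (g₁.val * s)) _ _ fun v => ?_
    rw [← h5, ← psi0_mul ψ _ h4]
    congr 1
    have := blk_mul g₁ 1 v s g₂ 1
    simp only [mul_one, Units.val_one, Matrix.mul_one] at this
    rw [Equiv.coe_addLeft, ← this]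
    group
  exact by_contra fun h => hc ((mul_eq_left₀ h).1 h6)

variable {ψ} in
/-- Rodier's formula, with an arbitrary weight depending on the determinant -/
theorem sum_psi0_rodier (hψ : ψ ≠ 1) (c : Fˣ → ℂ) (g₁ : G F i) (g₂ : G F j) :
    ∑ v, ∑ z : G F (i + j), c (dt z) * psi0 ψ (z⁻¹ * blk g₁ v g₂ * z) =
      ((Fintype.card F : ℂ) ^ (i * j)) ^ 2 * ∑ z₁ : G F i, ∑ z₂ : G F j,
        c (dt z₁ * dt z₂ * (-1) ^ (i * j)) *
          (psi0 ψ (z₁⁻¹ * g₁ * z₁) * psi0 ψ (z₂⁻¹ * g₂ * z₂)) := by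
  rw [Finset.sum_comm]
  simp only [← Finset.mul_sum]
  rw [← Fintype.sum_of_injective (fun t : (G F i × G F j) × Matrix (Fin i) (Fin j) F ×
    Matrix (Fin j) (Fin i) F => blk t.1.1 t.2.1 t.1.2 * swG i j * swU t.2.2) ?_ (fun t =>
      c (dt t.1.1 * dt t.1.2 * (-1) ^ (i * j)) *
        (psi0 ψ (t.1.1⁻¹ * g₁ * t.1.1) * psi0 ψ (t.1.2⁻¹ * g₂ * t.1.2))) _ ?_ ?_]
  · simp only [Fintype.sum_prod_type, Finset.sum_const, Finset.card_univ, Fintype.card_prod,
      card_mat, nsmul_eq_mul, Finset.mul_sum, mul_comm j i, sq]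
    push_cast
    rfl
  · rintro ⟨⟨z₁, z₂⟩, x, y⟩ ⟨⟨z₁', z₂'⟩, x', y'⟩ h
    have h1 := congrArg Units.val h
    simp only [big_val] at h1
    obtain ⟨rfl, h2, h3, h4⟩ := fromBlocks_inj.1 ((reindex _ _).injective h1)
    obtain rfl := Units.ext h3
    obtain rfl : y = y' := by simpa [← Matrix.mul_assoc] using congrArg ((z₂⁻¹).val * ·) h4
    obtain rfl := Units.ext (add_left_cancel h2)
    rfl
  · intro z hz
    rw [sum_psi0_small hψ, mul_zero]
    by_contra h
    apply hz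
    obtain ⟨M, hM⟩ := (reindex finSumFinEquiv (swE i j)).surjective z.val
    rw [← M.fromBlocks_toBlocks] at hM
    generalize M.toBlocks₁₁ = A, M.toBlocks₁₂ = B, M.toBlocks₂₁ = C, M.toBlocks₂₂ = D at hM
    have h1 : C.det ≠ 0 := by
      convert h
      ext a b
      simp [← hM]
    let z₂ : G F j := GeneralLinearGroup.mkOfDetNeZero C h1
    have h2 : z₂.val = C := rfl
    have h3 : (z * (swU ((z₂⁻¹).val * D))⁻¹ * (swG i j)⁻¹).val =
        blkM (B - A * ((z₂⁻¹).val * D)) A C := by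
      change z.val * (swU _).inv * (swG i j).inv = _
      simp [← hM, swU, swG, blkM, fromBlocks_multiply, ← Matrix.mul_assoc, ← h2, sub_eq_neg_add]
    have h4 : (B - A * ((z₂⁻¹).val * D)).det ≠ 0 := fun h => by
      have h5 := (dt (z * (swU ((z₂⁻¹).val * D))⁻¹ * (swG i j)⁻¹)).ne_zero
      rw [GeneralLinearGroup.val_det_apply, h3] at h5
      simp only [blkM, det_reindex_self, det_fromBlocks_zero₂₁, h, zero_mul, ne_eq,
        not_true_eq_false] at h5
    refine ⟨((GeneralLinearGroup.mkOfDetNeZero _ h4, z₂), A, (z₂⁻¹).val * D), ?_⟩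
    have h5 : blk (GeneralLinearGroup.mkOfDetNeZero _ h4) A z₂ = _ := Units.ext h3.symm
    simp only [h5, inv_mul_cancel_right]
  · rintro ⟨⟨z₁, z₂⟩, x, y⟩
    simp only [sum_psi0_big, map_mul, dt_blk, dt_swG, dt_of_mem_Uni (swU_mem y), mul_one]

theorem H.om_pow_eq_one {ω : Fˣ →* ℂˣ} (a : H ω) {n : ℕ} {g : G F n} (h : a ⟨n, g⟩ ≠ 0) (t : Fˣ) :
    ω (t ^ n) = 1 := by
  have h1 := a.conj g (GeneralLinearGroup.scalar _ t)
  have h2 : dt (GeneralLinearGroup.scalar (Fin n) t) = t ^ n := Units.ext (by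
    simp [GeneralLinearGroup.scalar])
  have h3 : GeneralLinearGroup.scalar (Fin n) t * g = g * GeneralLinearGroup.scalar (Fin n) t :=
    Units.ext (Matrix.scalar_commute t.val (fun _ => mul_comm _ _) g.val).eq
  rw [h3, mul_inv_cancel_right, h2] at h1
  exact Units.ext ((mul_eq_right₀ h).1 h1.symm)

theorem card_Uni_ne (n : ℕ) : (Nat.card (Uni F n) : ℂ) ≠ 0 := Nat.cast_ne_zero.2 Nat.card_pos.ne'

theorem De_Gam (g₁ : G F i) (g₂ : G F j) :
    De (Gam ω (i + j)) i j g₁ g₂ = Gam ω i ⟨i, g₁⟩ * Gam ω j ⟨j, g₂⟩ := by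
  have h : De (Gam ω (i + j)) i j g₁ g₂ =
      ω ((-1) ^ (i * j)) * (Gam ω i ⟨i, g₁⟩ * Gam ω j ⟨j, g₂⟩) := by
    simp only [De, Gam_apply, ← Finset.mul_sum]
    rw [sum_psi0_rodier (psiF_ne_one F) (fun t => ω t), card_Uni_add, mul_mul_mul_comm, Finset.sum_mul_sum]
    generalize psiF F = ψ
    have h1 : ∀ (z₁ : G F i) (z₂ : G F j), (ω (dt z₁ * dt z₂ * (-1) ^ (i * j)) : ℂ) *
        (psi0 ψ (z₁⁻¹ * g₁ * z₁) * psi0 ψ (z₂⁻¹ * g₂ * z₂)) = ω ((-1) ^ (i * j)) *
          (ω (dt z₁) * psi0 ψ (z₁⁻¹ * g₁ * z₁) * (ω (dt z₂) * psi0 ψ (z₂⁻¹ * g₂ * z₂))) :=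
      fun _ _ => by simp only [map_mul, Units.val_mul]; ring
    simp only [h1, ← Finset.mul_sum, ← Finset.sum_mul]
    have := card_Uni_ne (F := F) i
    have := card_Uni_ne (F := F) j
    have := cardF_ne (F := F)
    push_cast
    field_simp
  by_cases h0 : Gam ω j ⟨j, g₂⟩ = 0
  · rw [h, h0, mul_zero, mul_zero]
  · rw [h, pow_mul, H.om_pow_eq_one _ h0, Units.val_one, one_mul]

end rodier

theorem Gam_zero : Gam ω 0 = 1 := by
  refine (Gam_isHom ω 0).ext isHom_one fun g => ?_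
  have h : ∀ g : G F 0, g = 1 := fun g => Units.ext (Subsingleton.elim _ _)
  have h1 : Nat.card (Uni F 0) = 1 :=
    Nat.card_eq_one_iff_exists.2 ⟨1, fun u => Subtype.ext (h _)⟩
  rw [one_apply, Gam_apply, h1, Finset.sum_eq_single 1, psi0_of_mem _ (by rw [h (_ * _)]; exact one_mem _)]
  · simp [sd]
  · exact fun b _ hb => absurd (h b) hb
  · exact fun h => absurd (Finset.mem_univ _) h

/-- the twisted Gelfand-Graev functions are group-like -/
theorem grpLike_Gam : GrpLike 1 (Gam ω) where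
  pos := one_pos
  zero := Gam_zero ω
  hom m := (one_mul m).symm ▸ Gam_isHom ω m
  de m i j g₁ g₂ := by
    by_cases h : i + j = m
    · subst h
      rw [De_Gam ω, Finset.sum_eq_single (i, j)]
      · rintro ⟨a, b⟩ h1 h2
        by_cases h3 : i = a
        · have h4 : j ≠ b := fun h => h2 (by rw [h3, h])
          rw [Gam_isHom ω b ⟨j, g₂⟩ h4, mul_zero]
        · rw [Gam_isHom ω a ⟨i, g₁⟩ h3, zero_mul]
      · simp
    · rw [(Gam_isHom ω m).de_eq_zero h]
      refine (Finset.sum_eq_zero fun x hx => ?_).symm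
      have h1 := Finset.HasAntidiagonal.mem_antidiagonal.1 hx
      by_cases h3 : i = x.1
      · rw [Gam_isHom ω x.2 ⟨j, g₂⟩ (show j ≠ x.2 by omega), mul_zero]
      · rw [Gam_isHom ω x.1 ⟨i, g₁⟩ h3, zero_mul]

end Cfsg.GLn
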