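import Cfsg.Agent.GLn.GG
import Cfsg.Agent.GLn.Comm
import Cfsg.Agent.CT.Induction
import Cfsg.Agent.Blk.NilpAb
import Mathlib.LinearAlgebra.Matrix.Transvection

/-! Induced functions in the Hall algebra; products of Gelfand-Graev functions; integrality. -/

set_option autoImplicit false
set_option linter.unusedSectionVars false

namespace Cfsg.GLn

open Matrix ComplexConjugate Polynomial

universe u

variable {F : Type u} [Field F] [Fintype F] [DecidableEq F] {ω : Fˣ →* ℂˣ} {i j n : ℕ}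

variable (ω) in
/-- twisted induction from a subgroup -/
noncomputable def indH (K : Subgroup (G F n)) (ϑ : K → ℂ) : H ω :=
  (Nat.card K : ℂ)⁻¹ • ∑ g, extendByZero K ϑ g • orb ω n g

theorem isHom_indH (K : Subgroup (G F n)) (ϑ : K → ℂ) : IsHom n (indH ω K ϑ) :=
  (IsHom.sum fun g _ => (isHom_orb g).smul _).smul _

theorem indH_apply (K : Subgroup (G F n)) (ϑ : K → ℂ) (g : G F n) : indH ω K ϑ ⟨n, g⟩ =
    (Nat.card K : ℂ)⁻¹ * ∑ z : G F n, ω (dt z) * extendByZero K ϑ (z⁻¹ * g * z) := by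
  rw [indH, H.smul_apply, H.sum_apply]
  congr 1
  simp only [H.smul_apply, orb_apply, Finset.mul_sum]
  rw [Finset.sum_comm]
  refine Finset.sum_congr rfl fun z _ => ?_
  rw [Finset.sum_eq_single (z⁻¹ * g * z), if_pos (by group), mul_comm]
  · intro h _ hh
    rw [if_neg fun h' => hh (by rw [← h']; group), mul_zero]
  · simp

theorem ip_indH (K : Subgroup (G F n)) (ϑ : K → ℂ) (c : H ω) : ip (indH ω K ϑ) c =
    (Nat.card K : ℂ)⁻¹ * ∑ g, extendByZero K ϑ g * conj (c ⟨n, g⟩) := by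
  simp only [indH, ip_smul_left, ip_sum_left, ip_orb]

theorem indH_one_apply (K : Subgroup (G F n)) (ϑ : K → ℂ) (g : G F n) :
    indH 1 K ϑ ⟨n, g⟩ = indFun K ϑ g := by
  simp [indH_apply, indFun_apply]

theorem sum_indH_apply [Fintype (Fˣ →* ℂˣ)] {K : Subgroup (G F n)} (hK : K ≤ (dt (n := n)).ker)
    (ϑ : K → ℂ) (g : G F n) : ∑ ω : Fˣ →* ℂˣ, indH ω K ϑ ⟨n, g⟩ = Nat.card Fˣ *
      extendByZero _ (indFun (K.subgroupOf (dt (n := n)).ker) fun k => ϑ ⟨k, k.2⟩) g := by
  classical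
  simp only [indH_apply, ← Finset.mul_sum]
  rw [Finset.sum_comm]
  simp only [← Finset.sum_mul, sum_unitsHom_apply]
  by_cases hg : g ∈ (dt (n := n)).ker
  · rw [extendByZero_of_mem _ _ hg, indFun_apply, mul_left_comm,
      Nat.card_congr (Subgroup.subgroupOfEquivOfLe hK).toEquiv]
    congr 1
    rw [Finset.mul_sum]
    refine (Fintype.sum_of_injective (Subtype.val : (dt (n := n)).ker → G F n) Subtype.val_injective
      _ _ (fun z hz => ?_) fun z => ?_).symm
    · rw [if_neg fun h : dt z = 1 => hz ⟨⟨z, h⟩, rfl⟩, zero_mul]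
    · rw [if_pos (show dt (z : G F n) = 1 from z.2)]
      congr 1
      by_cases h : (z : G F n)⁻¹ * g * z ∈ K
      · rw [extendByZero_of_mem _ _ h, extendByZero_of_mem _ _ (by exact h)]; rfl
      · rw [extendByZero_of_not_mem _ _ h, extendByZero_of_not_mem _ _ (by exact h)]
  · rw [extendByZero_of_not_mem _ _ hg, mul_zero, Finset.sum_eq_zero, mul_zero]
    intro z _
    rw [extendByZero_of_not_mem _ _ fun h => hg ?_, mul_zero]
    simpa [mul_comm (dt z)⁻¹] using hK h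

theorem Gam_eq_indH : Gam ω n = indH ω (Uni F n) (psiU (psiF F) n) := by
  rw [Gam, indH]
  congr 2
  funext g
  congr 1
  by_cases h : g ∈ Uni F n
  · rw [psi0_of_mem _ h, extendByZero_of_mem _ _ h]; rfl
  · rw [psi0_of_not_mem _ h, extendByZero_of_not_mem _ _ h]

variable (F i j) in
/-- the standard maximal parabolic subgroup -/
def Par : Subgroup (G F (i + j)) where
  carrier := {g | ∃ a v b, g = blk a v b}
  one_mem' := ⟨1, 0, 1, blk_one.symm⟩
  mul_mem' := by
    rintro _ _ ⟨a, v, b, rfl⟩ ⟨a', v', b', rfl⟩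
    exact ⟨_, _, _, blk_mul _ _ _ _ _ _⟩
  inv_mem' := by
    rintro _ ⟨a, v, b, rfl⟩
    exact ⟨a⁻¹, _, b⁻¹, Units.ext rfl⟩

theorem blk_mem_Par (a : G F i) (v : Matrix (Fin i) (Fin j) F) (b : G F j) :
    blk a v b ∈ Par F i j := ⟨a, v, b, rfl⟩

/-- coordinates on the parabolic subgroup -/
noncomputable def parE : (G F i × G F j) × Matrix (Fin i) (Fin j) F ≃ Par F i j :=
  Equiv.ofBijective (fun x => ⟨blk x.1.1 x.2 x.1.2, blk_mem_Par _ _ _⟩)
    ⟨fun x y h => by
      obtain ⟨h1, h2, h3⟩ := blk_inj (congrArg Subtype.val h)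
      exact Prod.ext (Prod.ext h1 h3) h2, fun ⟨_, a, v, b, rfl⟩ => ⟨((a, b), v), rfl⟩⟩

theorem parE_symm_blk (a : G F i) (v : Matrix (Fin i) (Fin j) F) (b : G F j) (h) :
    parE.symm ⟨blk a v b, h⟩ = ((a, b), v) := parE.symm_apply_apply ((a, b), v)

/-- the Levi quotient -/
noncomputable def parL : Par F i j →* G F i × G F j :=
  MonoidHom.mk' (fun p => (parE.symm p).1) (by
    rintro ⟨_, a, v, b, rfl⟩ ⟨_, a', v', b', rfl⟩
    have h : (⟨blk a v b, blk_mem_Par _ _ _⟩ * ⟨blk a' v' b', blk_mem_Par _ _ _⟩ : Par F i j) =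
      ⟨_, blk_mem_Par _ _ _⟩ := Subtype.ext (blk_mul _ _ _ _ _ _)
    exact (congrArg (fun p => (parE.symm p).1) h).trans ((congrArg Prod.fst
      (parE_symm_blk _ _ _ _)).trans (congrArg₂ (· * ·) (congrArg Prod.fst (parE_symm_blk a v b _))
        (congrArg Prod.fst (parE_symm_blk a' v' b' _))).symm))

theorem parL_blk (a : G F i) (v : Matrix (Fin i) (Fin j) F) (b : G F j) (h) :
    parL ⟨blk a v b, h⟩ = (a, b) := congrArg Prod.fst (parE_symm_blk a v b h)

theorem card_Par : Nat.card (Par F i j) =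
    Nat.card (G F i) * Nat.card (G F j) * Fintype.card F ^ (i * j) := by
  rw [← Nat.card_congr parE, Nat.card_prod, Nat.card_prod, ← card_mat,
    Nat.card_eq_fintype_card (α := Matrix _ _ _)]

theorem sum_parab (f : G F (i + j) → ℂ) (hf : ∀ g, g ∉ Par F i j → f g = 0) :
    ∑ g, f g = ∑ a, ∑ b, ∑ v, f (blk a v b) := by
  rw [← Fintype.sum_of_injective (fun x => (parE x : G F (i + j)))
    (Subtype.val_injective.comp parE.injective) (fun x => f (blk x.1.1 x.2 x.1.2)) f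
    (fun g hg => hf g fun h => hg ⟨parE.symm ⟨g, h⟩, by simp⟩) fun _ => rfl]
  simp only [Fintype.sum_prod_type]

theorem IsHom.mul_eq_indH {a b : H ω} (ha : IsHom i a) (hb : IsHom j b) :
    a * b = indH ω (Par F i j) fun p => a ⟨i, (parL p).1⟩ * b ⟨j, (parL p).2⟩ := by
  refine ext_ip' fun c => ?_
  rw [ha.ip_mul hb, ip_indH, sum_parab _ fun g hg => by rw [extendByZero_of_not_mem _ _ hg, zero_mul],
    card_Par]
  simp only [extendByZero_of_mem _ _ (blk_mem_Par _ _ _), parL_blk, De, map_mul, map_sum, map_inv₀,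
    map_pow, map_natCast, ← Finset.mul_sum, mul_left_comm _ ((Fintype.card F : ℂ) ^ (i * j))⁻¹]
  have := cardG_ne (F := F) i
  have := cardG_ne (F := F) j
  have := cardF_ne (F := F)
  push_cast
  field_simp

theorem Uni_le_Par : Uni F (i + j) ≤ Par F i j := fun u hu => by
  obtain ⟨M, hM⟩ := (reindex finSumFinEquiv finSumFinEquiv).surjective u.val
  rw [mem_Uni, ← hM, ← M.fromBlocks_toBlocks,
    isU_reindex finSumFinEquiv (fun _ => rfl) (fun _ => rfl)] at hu
  refine ⟨GeneralLinearGroup.mkOfDetNeZero _ (hu.1.det.trans_ne one_ne_zero), M.toBlocks₁₂,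
    GeneralLinearGroup.mkOfDetNeZero _ (hu.2.2.det.trans_ne one_ne_zero), Units.ext ?_⟩
  rw [← hM]
  conv_lhs => rw [← M.fromBlocks_toBlocks, hu.2.1]
  simp [blkM]

theorem parL_mem (u : Uni F (i + j)) : (parL (Subgroup.inclusion Uni_le_Par u)).1 ∈ Uni F i ∧
    (parL (Subgroup.inclusion Uni_le_Par u)).2 ∈ Uni F j := by
  obtain ⟨u, hu⟩ := u
  obtain ⟨a, v, b, rfl⟩ := Uni_le_Par hu
  have h : parL (Subgroup.inclusion Uni_le_Par ⟨blk a v b, hu⟩) = (a, b) := parL_blk a v b _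
  rw [h]
  exact (blk_mem_Uni a v b).1 hu

/-- the first diagonal block -/
noncomputable def uniL : Uni F (i + j) →* Uni F i :=
  ((MonoidHom.fst _ _).comp (parL.comp (Subgroup.inclusion Uni_le_Par))).codRestrict _
    fun u => (parL_mem u).1

/-- the second diagonal block -/
noncomputable def uniR : Uni F (i + j) →* Uni F j :=
  ((MonoidHom.snd _ _).comp (parL.comp (Subgroup.inclusion Uni_le_Par))).codRestrict _
    fun u => (parL_mem u).2

theorem indH_Uni_mul (ϑ₁ : Uni F i → ℂ) (ϑ₂ : Uni F j → ℂ) :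
    indH ω (Uni F i) ϑ₁ * indH ω (Uni F j) ϑ₂ =
      indH ω (Uni F (i + j)) fun u => ϑ₁ (uniL u) * ϑ₂ (uniR u) := by
  refine ext_ip' fun c => ?_
  have h : ∀ a v b, extendByZero (Uni F (i + j)) (fun u => ϑ₁ (uniL u) * ϑ₂ (uniR u)) (blk a v b) =
      extendByZero _ ϑ₁ a * extendByZero _ ϑ₂ b := fun a v b => by
    by_cases h : a ∈ Uni F i ∧ b ∈ Uni F j
    · rw [extendByZero_of_mem _ _ ((blk_mem_Uni a v b).2 h), extendByZero_of_mem _ _ h.1,
        extendByZero_of_mem _ _ h.2]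
      congr 2
      · exact Subtype.ext (congrArg Prod.fst (parL_blk a v b _))
      · exact Subtype.ext (congrArg Prod.snd (parL_blk a v b _))
    · rw [extendByZero_of_not_mem _ _ (mt (blk_mem_Uni a v b).1 h)]
      rcases not_and_or.1 h with h | h <;> simp [extendByZero_of_not_mem _ _ h]
  rw [ip_indH, sum_parab _ fun g hg => by
    rw [extendByZero_of_not_mem _ _ fun h => hg (Uni_le_Par h), zero_mul], card_Uni_add]
  simp only [indH, H.smul_mul, H.sum_mul]
  simp only [H.mul_smul, H.mul_sum, ip_smul_left, ip_sum_left, ip_orb_mul, h, De, map_mul, map_sum,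
    map_inv₀, map_pow, map_natCast, Finset.mul_sum]
  push_cast
  refine Finset.sum_congr rfl fun a _ => Finset.sum_congr rfl fun b _ =>
    Finset.sum_congr rfl fun v _ => ?_
  rw [mul_inv, mul_inv]
  ring

theorem exists_conj_mem_of_Gam {g : G F n} (h : Gam ω n ⟨n, g⟩ ≠ 0) :
    ∃ z : G F n, z⁻¹ * g * z ∈ Uni F n := by
  by_contra! h'
  simp [Gam_apply, psi0_of_not_mem _ (h' _)] at h

theorem IsU.charpoly {A : Matrix (Fin n) (Fin n) F} (hA : IsU A) : A.charpoly = (X - 1) ^ n := by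
  rw [Matrix.charpoly_of_isUpperTriangular A fun a b h => hA.1 a b h]
  simp [hA.2]

/-- the Gelfand-Graev functions are supported on the unipotent elements -/
theorem charpoly_of_Gam {x : Obj F} (h : Gam ω n x ≠ 0) : x.2.val.charpoly = (X - 1) ^ x.1 := by
  obtain ⟨m, g⟩ := x
  obtain rfl : m = n := by_contra fun h' => h (Gam_isHom ω n _ h')
  obtain ⟨z, hz⟩ := exists_conj_mem_of_Gam h
  rw [← IsU.charpoly hz, Units.val_mul, Matrix.charpoly_mul_comm, ← Units.val_mul,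
    mul_inv_cancel_left]

theorem card_Uni_one : Nat.card (Uni F 1) = 1 :=
  Nat.card_eq_one_iff_exists.2 ⟨1, fun u => Subtype.ext (Units.ext (by
    ext a b
    obtain rfl := Subsingleton.elim a b
    simpa using u.2.2 a))⟩

theorem card_Uni (n : ℕ) : Nat.card (Uni F n) = Fintype.card F ^ n.choose 2 := by
  induction n with
  | zero => exact Nat.card_eq_one_iff_exists.2 ⟨1, fun u =>
      Subtype.ext (Units.ext (Subsingleton.elim _ _))⟩
  | succ n ih => rw [card_Uni_add, ih, card_Uni_one, mul_one, mul_one, ← pow_add, Nat.choose_succ_succ,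
      Nat.choose_one_right, add_comm]

theorem orderOf_dvd_of_Gam {x : Obj F} (h : Gam ω n x ≠ 0) :
    orderOf x.2 ∣ Fintype.card F ^ n.choose 2 := by
  obtain ⟨m, g⟩ := x
  obtain rfl : m = n := by_contra fun h' => h (Gam_isHom ω n _ h')
  obtain ⟨z, hz⟩ := exists_conj_mem_of_Gam h
  have h1 := Subgroup.orderOf_dvd_natCard _ hz
  rw [card_Uni, orderOf_dvd_iff_pow_eq_one] at h1
  rw [orderOf_dvd_iff_pow_eq_one]
  have h2 := conj_pow (a := z⁻¹) (b := g) (i := Fintype.card F ^ m.choose 2)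
  rw [inv_inv, h1] at h2
  exact conj_eq_one_iff.1 (by rw [inv_inv]; exact h2.symm)

theorem ip_Gam (c : H ω) : ip c (Gam ω n) =
    (Nat.card (Uni F n) : ℂ)⁻¹ * ∑ g, conj (psi0 (psiF F) g) * c ⟨n, g⟩ := by
  rw [← ip_conj]
  simp only [Gam, ip_smul_left, ip_sum_left, ip_orb, map_mul, map_sum, map_inv₀, map_natCast,
    Complex.conj_conj]

theorem ip_one_Gam : ip (mk 1 n (1 : G F n → ℂ)) (Gam 1 n) = if n ≤ 1 then 1 else 0 := by
  classical
  rw [← ip_conj, Gam_eq_indH, ip_indH, sum_extendByZero_mul]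
  have h : ∀ g : G F n, mk 1 n (1 : G F n → ℂ) ⟨n, g⟩ = 1 := mk_apply_of (by simp)
  simp only [h, map_one, mul_one]
  rw [sum_hom_units]
  have h1 : psiU (psiF F) n = 1 ↔ n ≤ 1 := by
    refine ⟨fun h => by_contra fun hn => ?_, fun hn => MonoidHom.ext fun u => ?_⟩
    · obtain ⟨c, hc⟩ := AddChar.ne_one_iff.1 (psiF_ne_one F)
      obtain ⟨m, rfl⟩ : ∃ m, n = m + 2 := ⟨n - 2, by omega⟩
      have h2 : IsU (transvection (0 : Fin (m + 2)) 1 c) := ⟨fun a b hab => by
        have : ¬ (0 = a ∧ 1 = b) := by rintro ⟨rfl, rfl⟩; simp at hab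
        simp [transvection, Matrix.one_apply_ne hab.ne', this], fun a => by
        have : ¬ (0 = a ∧ 1 = a) := by rintro ⟨rfl, h⟩; simp at h
        simp [transvection, this]⟩
      have h3 := DFunLike.congr_fun h
        ⟨GeneralLinearGroup.mkOfDetNeZero _ (h2.det.trans_ne one_ne_zero), h2⟩
      refine hc (Eq.trans (congrArg _ ?_) h3)
      change c = sd (1 + Matrix.single 0 1 c)
      have h4 : ∀ A B : Matrix (Fin (m + 2)) (Fin (m + 2)) F, sd (A + B) = sd A + sd B :=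
        fun A B => by simp only [sd, ← Finset.sum_add_distrib, Matrix.add_apply, ite_add_ite, add_zero]
      rw [h4, sd_one, zero_add, sd, Finset.sum_eq_single 0, Finset.sum_eq_single 1]
      · simp
      · intro b _ hb; simp [hb.symm]
      · simp
      · intro b _ hb; simp [hb.symm]
      · simp
    · change psiF F (sd _) = 1
      have h2 : sd u.1.val = 0 :=
        Finset.sum_eq_zero fun a _ => Finset.sum_eq_zero fun b _ => if_neg (by omega)
      rw [h2, AddChar.map_zero_eq_one]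
  simp only [h1]
  split_ifs
  · rw [← Nat.card_eq_fintype_card, inv_mul_cancel₀ (card_Uni_ne n), map_one]
  · simp

theorem IsHom.isCharacter_mul {a b : H (1 : Fˣ →* ℂˣ)} (ha : IsHom i a) (hb : IsHom j b)
    (ha' : IsCharacter _ fun g => a ⟨i, g⟩) (hb' : IsCharacter _ fun g => b ⟨j, g⟩) :
    IsCharacter _ fun g => (a * b) ⟨i + j, g⟩ := by
  simp only [ha.mul_eq_indH hb, indH_one_apply]
  exact ((ha'.comp ((MonoidHom.fst _ _).comp parL)).mul
    (hb'.comp ((MonoidHom.snd _ _).comp parL))).indFun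

theorem IsHom.isGen_mul {a b : H (1 : Fˣ →* ℂˣ)} (ha : IsHom i a) (hb : IsHom j b)
    (ha' : IsGeneralizedCharacter _ fun g => a ⟨i, g⟩)
    (hb' : IsGeneralizedCharacter _ fun g => b ⟨j, g⟩) :
    IsGeneralizedCharacter _ fun g => (a * b) ⟨i + j, g⟩ := by
  simp only [ha.mul_eq_indH hb, indH_one_apply]
  exact ((ha'.comp ((MonoidHom.fst _ _).comp parL)).mul
    (hb'.comp ((MonoidHom.snd _ _).comp parL))).indFun

/-- all components are generalized characters -/
def Vir (a : H (1 : Fˣ →* ℂˣ)) : Prop := ∀ n, IsGeneralizedCharacter (G F n) fun g => a ⟨n, g⟩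

theorem IsHom.vir {a : H (1 : Fˣ →* ℂˣ)} (ha : IsHom n a)
    (h : IsGeneralizedCharacter (G F n) fun g => a ⟨n, g⟩) : Vir a := fun m => by
  by_cases e : m = n
  · exact e ▸ h
  · simp only [ha ⟨m, _⟩ e]; exact .zero

theorem Vir.zero : Vir (0 : H (1 : Fˣ →* ℂˣ)) := fun _ => .zero
theorem Vir.add {a b : H (1 : Fˣ →* ℂˣ)} (ha : Vir a) (hb : Vir b) : Vir (a + b) :=
  fun n => (ha n).add (hb n)
theorem Vir.neg {a : H (1 : Fˣ →* ℂˣ)} (ha : Vir a) : Vir (-a) := fun n => (ha n).neg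
theorem Vir.sum {ι : Type*} {s : Finset ι} {a : ι → H (1 : Fˣ →* ℂˣ)} (h : ∀ t ∈ s, Vir (a t)) :
    Vir (∑ t ∈ s, a t) := Finset.sum_induction a Vir (fun _ _ => Vir.add) Vir.zero h
theorem Vir.one : Vir (1 : H (1 : Fˣ →* ℂˣ)) := isHom_one.vir (by
  simp only [one_apply]; exact IsCharacter.one.isGeneralizedCharacter)

theorem Vir.mul {a b : H (1 : Fˣ →* ℂˣ)} (ha : Vir a) (hb : Vir b) : Vir (a * b) := by
  obtain ⟨N, hN⟩ := a.exists_bound
  obtain ⟨M, hM⟩ := b.exists_bound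
  rw [← sum_cp hN, ← sum_cp hM, H.sum_mul]
  refine Vir.sum fun i _ => ?_
  rw [H.mul_sum]
  refine Vir.sum fun j _ => ((isHom_cp a).mul (isHom_cp b)).vir
    ((isHom_cp a).isGen_mul (isHom_cp b) ?_ ?_)
  · simpa only [cp_apply] using ha i
  · simpa only [cp_apply] using hb j

variable [Laws F]

variable (F) in
/-- the subring of generalized characters -/
def ZZ : Subring (H (1 : Fˣ →* ℂˣ)) where
  carrier := {a | Vir a}
  mul_mem' := Vir.mul
  one_mem' := Vir.one
  add_mem' := Vir.add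
  zero_mem' := Vir.zero
  neg_mem' := Vir.neg

theorem mem_ZZ {a : H (1 : Fˣ →* ℂˣ)} :
    a ∈ ZZ F ↔ ∀ n, IsGeneralizedCharacter (G F n) fun g => a ⟨n, g⟩ := Iff.rfl

theorem exists_prod_Gam_eq {ι : Type*} (s : Finset ι) (α : ι → ℕ) (hn : n = ∑ t ∈ s, α t) :
    ∃ ϑ : Uni F n → ℂ, IsCharacter _ ϑ ∧
      ∀ ω : Fˣ →* ℂˣ, ∏ t ∈ s, Gam ω (α t) = indH ω (Uni F n) ϑ := by
  classical
  subst hn
  induction s using Finset.induction_on with
  | empty => exact ⟨_, (isIrrCharacter_monoidHom (psiU (psiF F) 0)).isCharacter, fun ω => by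
      rw [Finset.prod_empty, ← Gam_zero ω]; exact Gam_eq_indH⟩
  | insert t s ht ih =>
    obtain ⟨ϑ, h1, h2⟩ := ih
    rw [Finset.sum_insert ht]
    refine ⟨_, ((isIrrCharacter_monoidHom (psiU (psiF F) (α t))).isCharacter.comp uniL).mul
      (h1.comp uniR), fun ω => ?_⟩
    rw [Finset.prod_insert ht, h2, Gam_eq_indH]
    exact indH_Uni_mul _ _

/-- products of Gelfand-Graev functions come from a character of the special linear group -/
theorem exists_char_prod_Gam [Fintype (Fˣ →* ℂˣ)] {ι : Type*} (s : Finset ι) (α : ι → ℕ)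
    (hn : n = ∑ t ∈ s, α t) : ∃ θ : (dt (F := F) (n := n)).ker → ℂ, IsCharacter _ θ ∧
      ∀ g, ∑ ω : Fˣ →* ℂˣ, (∏ t ∈ s, Gam ω (α t)) ⟨n, g⟩ = Nat.card Fˣ * extendByZero _ θ g := by
  classical
  obtain ⟨ϑ, h1, h2⟩ := exists_prod_Gam_eq (F := F) s α hn
  have hK : Uni F n ≤ (dt (n := n)).ker := fun _ => dt_of_mem_Uni
  refine ⟨_, (h1.comp (Subgroup.subgroupOfEquivOfLe hK).toMonoidHom).indFun, fun g => ?_⟩
  simp only [h2]
  exact sum_indH_apply hK ϑ g

theorem isCharacter_prod_Gam {ι : Type*} (s : Finset ι) (α : ι → ℕ) (hn : n = ∑ t ∈ s, α t) :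
    IsCharacter (G F n) fun g => (∏ t ∈ s, Gam (1 : Fˣ →* ℂˣ) (α t)) ⟨n, g⟩ := by
  obtain ⟨ϑ, h1, h2⟩ := exists_prod_Gam_eq (F := F) s α hn
  simp only [h2, indH_one_apply]
  exact h1.indFun

theorem Gam_mem_ZZ : Gam 1 n ∈ ZZ F := (Gam_isHom 1 n).vir (by
  simpa using (isCharacter_prod_Gam (F := F) (n := n) {()} (fun _ => n)
    (by simp)).isGeneralizedCharacter)

theorem exists_conj_mem_of_prod_Gam {ι : Type*} (s : Finset ι) (α : ι → ℕ) (hn : n = ∑ t ∈ s, α t)
    {g : G F n} (h : (∏ t ∈ s, Gam ω (α t)) ⟨n, g⟩ ≠ 0) : ∃ z : G F n, z⁻¹ * g * z ∈ Uni F n := by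
  obtain ⟨ϑ, -, h2⟩ := exists_prod_Gam_eq (F := F) s α hn
  by_contra! h'
  simp [h2, indH_apply, extendByZero_of_not_mem _ _ (h' _)] at h

end Cfsg.GLn
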