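import Cfsg.Agent.Blk.IndexTwo

/-! Sectional rank lemmas. -/

set_option autoImplicit false

namespace Cfsg

variable {p s : ℕ} {G : Type*} [Group G]

/-- an elementary abelian section, given by two homomorphisms -/
theorem SectionalPRankLE.card_le_of_section (h : SectionalPRankLE p s G) {A E : Type*} [Group A]
    [Group E] (f : A →* G) (π : A →* E) (hπ : Function.Surjective π) (hk : f.ker ≤ π.ker)
    (hc : ∀ a b : E, a * b = b * a) (he : ∀ a : E, a ^ p = 1) : Nat.card E ≤ p ^ s := by
  let ψ : f.range →* E := f.rangeRestrict.liftOfSurjective f.rangeRestrict_surjective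
    ⟨π, by rwa [MonoidHom.ker_rangeRestrict]⟩
  have hψ : Function.Surjective ψ := fun x => by
    obtain ⟨a, rfl⟩ := hπ x
    exact ⟨f.rangeRestrict a, MonoidHom.liftOfRightInverse_comp_apply _ _ _ _ _⟩
  let e := QuotientGroup.quotientKerEquivOfSurjective ψ hψ
  rw [← Nat.card_congr e.toEquiv, ← Subgroup.card_top]
  refine h f.range ψ.ker ⊤ ⟨⟨fun a b => Subtype.ext (e.injective ?_)⟩⟩ fun a _ => e.injective ?_
  · simp only [Subgroup.coe_mul, map_mul]; exact hc _ _
  · rw [map_pow, he, map_one]

theorem SectionalPRankLE.of_injective (h : SectionalPRankLE p s G) {A : Type*} [Group A]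
    (f : A →* G) (hf : Function.Injective f) : SectionalPRankLE p s A := by
  intro H N _ E hc he
  refine h.card_le_of_section (A := E.comap (QuotientGroup.mk' N))
    (f.comp (H.subtype.comp (Subgroup.subtype _)))
    (((QuotientGroup.mk' N).comp (Subgroup.subtype _)).codRestrict E fun x => x.2) ?_ ?_
    (fun a b => hc.1.1 a b) fun a => Subtype.ext (he a a.2)
  · rintro ⟨x, hx⟩
    obtain ⟨y, rfl⟩ := QuotientGroup.mk_surjective x
    exact ⟨⟨y, hx⟩, rfl⟩
  · intro x hx
    obtain rfl : x = 1 := Subtype.ext (Subtype.ext (hf (hx.trans (map_one f).symm)))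
    exact one_mem _

theorem SectionalPRankLE.of_isConjLE {D E : Subgroup G} (h : SectionalPRankLE p s D)
    (hE : IsConjLE E D) : SectionalPRankLE p s E := by
  obtain ⟨x, hx⟩ := hE
  exact h.of_injective
    ((Subgroup.inclusion hx).comp (E.equivMapOfInjective _ (MulAut.conj x).injective).toMonoidHom)
    ((Subgroup.inclusion_injective hx).comp (MulEquiv.injective _))

theorem quot_frattini_elem [hp : Fact p.Prime] {A : Type*} [Group A] [Finite A]
    (hA : IsPGroup p A) :
    (∀ a b : A ⧸ frattini A, a * b = b * a) ∧ ∀ a : A ⧸ frattini A, a ^ p = 1 := by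
  refine ⟨fun a b => ?_, fun a => ?_⟩
  · obtain ⟨a, rfl⟩ := QuotientGroup.mk_surjective a
    obtain ⟨b, rfl⟩ := QuotientGroup.mk_surjective b
    simp only [← QuotientGroup.mk_mul, QuotientGroup.eq]
    refine commutator_le_frattini_of_isPGroup hA ?_
    have := Subgroup.commutator_mem_commutator (Subgroup.mem_top b⁻¹) (Subgroup.mem_top a⁻¹)
    simpa [commutatorElement_def, mul_assoc, commutator_def] using this
  · obtain ⟨a, rfl⟩ := QuotientGroup.mk_surjective a
    rw [← QuotientGroup.mk_pow, QuotientGroup.eq_one_iff]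
    exact pow_mem_frattini_of_isPGroup hA _

/-- the product of two non-cyclic `p`-groups has sectional rank at least four -/
theorem SectionalPRankLE.four_le [hp : Fact p.Prime] {A B : Type*} [Group A] [Group B] [Finite A]
    [Finite B] (h : SectionalPRankLE p s (A × B)) (hA : IsPGroup p A) (hB : IsPGroup p B)
    (hA' : ¬ IsCyclic A) (hB' : ¬ IsCyclic B) : 4 ≤ s := by
  have h1 := h.card_le_of_section (MonoidHom.id _)
    ((QuotientGroup.mk' (frattini A)).prodMap (QuotientGroup.mk' (frattini B)))
    ((QuotientGroup.mk'_surjective _).prodMap (QuotientGroup.mk'_surjective _)) (by simp)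
    (fun a b => Prod.ext ((quot_frattini_elem hA).1 _ _) ((quot_frattini_elem hB).1 _ _))
    fun a => Prod.ext ((quot_frattini_elem hA).2 _) ((quot_frattini_elem hB).2 _)
  have h2 := Nat.le_of_dvd (Nat.pos_of_ne_zero Subgroup.index_ne_zero_of_finite)
    (sq_dvd_index_frattini_of_not_isCyclic hA hA')
  have h3 := Nat.le_of_dvd (Nat.pos_of_ne_zero Subgroup.index_ne_zero_of_finite)
    (sq_dvd_index_frattini_of_not_isCyclic hB hB')
  rw [Nat.card_prod] at h1
  have h4 : p ^ 4 ≤ p ^ s := le_trans (by
    rw [show p ^ 4 = p ^ 2 * p ^ 2 by ring]; exact Nat.mul_le_mul h2 h3) h1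
  exact (Nat.pow_le_pow_iff_right hp.out.one_lt).1 h4

/-- the same for subgroups of two groups whose product embeds, up to conjugation, in `D` -/
theorem SectionalPRankLE.four_le_of_isConjLE [hp : Fact p.Prime] {G₁ G₂ : Type*} [Group G₁]
    [Group G₂] [Finite G₁] [Finite G₂] {D : Subgroup G} (h : SectionalPRankLE p s D)
    (f : G₁ × G₂ →* G) (hf : Function.Injective f) {A : Subgroup G₁} {B : Subgroup G₂}
    (hc : IsConjLE ((A.prod B).map f) D) (hA : IsPGroup p A) (hB : IsPGroup p B)
    (hA' : ¬ IsCyclic A) (hB' : ¬ IsCyclic B) : 4 ≤ s :=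
  ((h.of_isConjLE hc).of_injective
    ((A.prodEquiv B).symm.trans ((A.prod B).equivMapOfInjective f hf)).toMonoidHom
    (MulEquiv.injective _)).four_le hA hB hA' hB'

/-- an elementary abelian group loses at most a factor `p` in the kernel of a map to a cyclic
group -/
theorem card_le_mul_card_inf_ker [hp : Fact p.Prime] {C : Type*} [Group C] [IsCyclic C] [Finite G]
    (δ : G →* C) {E : Subgroup G} (he : ∀ a ∈ E, a ^ p = 1) :
    Nat.card E ≤ p * Nat.card (E ⊓ δ.ker : Subgroup G) := by
  classical
  have h1 : Nat.card (E.map δ) ≤ p := by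
    haveI : Finite (E.map δ) := Finite.of_surjective _ (δ.subgroupMap_surjective E)
    letI : Fintype (E.map δ) := Fintype.ofFinite _
    have := IsCyclic.card_pow_eq_one_le (α := E.map δ) hp.out.pos
    rwa [Finset.filter_true_of_mem, Finset.card_univ, ← Nat.card_eq_fintype_card] at this
    rintro ⟨_, a, ha, rfl⟩ -
    exact Subtype.ext (by simp [← map_pow, he a ha])
  rw [← Subgroup.relIndex_ker] at h1
  rw [← (δ.ker.subgroupOf E).index_mul_card, ← Subgroup.inf_subgroupOf_left,
    Nat.card_congr (Subgroup.subgroupOfEquivOfLe inf_le_left).toEquiv,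
    Subgroup.inf_subgroupOf_left]
  exact Nat.mul_le_mul_right _ h1

end Cfsg
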