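import Cfsg.Agent.GLn.DGb
import Cfsg.Agent.GLn.GG
import Cfsg.Agent.GLn.GG2
import Cfsg.Agent.GLn.Two

/-! Defect groups of the `2`-blocks of `GL_n(q)`: an elementary abelian section inside `SL_n(q)`. -/

set_option autoImplicit false
set_option linter.unusedSectionVars false
set_option linter.unusedVariables false

namespace Cfsg.GLn.DG

open Finset SymCh ComplexConjugate

universe u

variable {F : Type u} [Field F] [Fintype F] [DecidableEq F] [Laws F] {ω : Fˣ →* ℂˣ} {N : ℕ}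
  {M : Ideal AlgInt}

theorem odd_q (h2 : 2 ≠ ringChar F) : Odd (Fintype.card F) :=
  Nat.coprime_two_right.1 (coprime_q_prime Nat.prime_two h2)

theorem nl_two_ne (h2 : 2 ≠ ringChar F) {d : ℕ} (hd : 0 < d) : nl F 2 (d * 2) ≠ nl F 2 d ^ 2 := by
  have h1 := one_lt_q_pow (F := F) hd
  have ho : Odd (Fintype.card F ^ d) := (odd_q h2).pow
  rw [nl, nl, pow_mul, ← pow_mul 2]
  generalize Fintype.card F ^ d = Q at h1 ho
  obtain ⟨Q, rfl⟩ : ∃ R, Q = R + 1 := ⟨Q - 1, by omega⟩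
  intro h
  have h3 := Nat.pow_right_injective le_rfl h
  rw [show (Q + 1) ^ 2 - 1 = Q * (Q + 2) from Nat.sub_eq_of_eq_add (by ring),
    Nat.factorization_mul (by omega) (by omega), Nat.add_sub_cancel, Finsupp.add_apply] at h3
  have h4 : (Q + 2).factorization 2 = Q.factorization 2 := by omega
  have h5 := (Nat.prime_two.pow_dvd_iff_le_factorization (k := 2) (n := Q) (by omega))
  have h6 := (Nat.prime_two.pow_dvd_iff_le_factorization (k := 2) (n := Q + 2) (by omega))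
  rw [h4, ← h5] at h6
  obtain ⟨r, hr⟩ := ho
  omega

theorem ee_two (h2 : 2 ≠ ringChar F) (ψ : I F) : ee 2 ψ = 1 := by
  have h1 : e0 F 2 = 1 := e0_eq_one_iff.2 (even_iff_two_dvd.1 (Nat.Odd.sub_odd (odd_q h2) odd_one))
  exact Nat.dvd_one.1 (h1 ▸ ee_dvd_e0 ψ)

theorem wt_one (X : Bt N) : SymCh.wt 1 X.1 = sz N X.1 := by
  have h1 := sum_eq_base_add one_pos X.1
  have h2 := sum_clsF one_pos X.1
  rw [Fin.sum_univ_one, X.2] at h2
  rw [← sz_add_tri X.2, base, Fin.sum_univ_one, h2] at h1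
  simp at h1
  omega

theorem neg_ne_self (h2 : 2 ≠ ringChar F) : (-1 : (K F)ˣ) ≠ 1 := fun h => by
  have h1 : ((2 : ℕ) : F) = 0 := by
    have : ((2 : ℕ) : K F) = 0 := by
      have := congrArg Units.val h
      simp only [Units.val_neg, Units.val_one] at this
      linear_combination -this
    exact (algebraMap F (K F)).injective (by rw [map_natCast, this, map_zero])
  exact h2 ((Nat.prime_dvd_prime_iff_eq (CharP.char_is_prime F _) Nat.prime_two).1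
    ((ringChar.spec F 2).1 h1)).symm

theorem two_dvd_neg (h2 : 2 ≠ ringChar F) {α : (K F)ˣ} (h : ¬ 2 ∣ orderOf α) :
    2 ∣ orderOf (-α) := by
  by_contra h1
  have o1 : Odd (orderOf α * orderOf (-α)) :=
    (Nat.odd_iff.2 (by omega)).mul (Nat.odd_iff.2 (by omega))
  have h3 : (-α) ^ (orderOf α * orderOf (-α)) = 1 := by
    rw [mul_comm, pow_mul, pow_orderOf_eq_one, one_pow]
  rw [o1.neg_pow, pow_mul, pow_orderOf_eq_one, one_pow] at h3
  exact neg_ne_self h2 h3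

theorem not_one_mem_eig_neg (h2 : 2 ≠ ringChar F) (k : ℕ) :
    (1 : (K F)ˣ) ∉ eig ⟨k, (-1 : G F k)⟩ := by
  rw [eig_neg, eig_one, Multiset.map_replicate]
  exact fun h => neg_ne_self h2 (Multiset.eq_of_mem_replicate h).symm

/-- the geometric step -/
theorem geo2 (h2 : 2 ≠ ringChar F) (hM : IsPModular 2 M) {i k : ℕ}
    {χ : IrrCharacter (G F (i + k))} {θ : IrrCharacter (G F i)} {c d a : H (1 : Fˣ →* ℂˣ)}
    (hc : cm c (i + k) = χ.1) (hd : cm d i = θ.1) (hd' : IsHom i d) (ha : IsHom k a)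
    (h : ip (dd 2 d * ng (dd 2 a)) c ≠ 0) {D : Subgroup (G F (i + k))}
    (hD : IsDefectGroup 2 M (blockOf M χ.1) D) :
    ∃ θ2 : IrrCharacter (G F k), classInner (cm a k) θ2.1 ≠ 0 ∧ ∃ D1 D2,
      IsDefectGroup 2 M (blockOf M θ.1) D1 ∧ IsDefectGroup 2 M (blockOf M θ2.1) D2 ∧
      -1 ∈ D2 ∧ IsConjLE ((D1.prod D2).map diag) D := by
  classical
  rw [(hd'.dd 2).ip_mul (ha.dd 2).ng] at h
  have hr : (diag : G F i × G F k →* _).range = 
      Subgroup.centralizer {diag ((1 : G F i), (-1 : G F k))} := by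
    rw [centralizer_diag (coprime_one (not_one_mem_eig_neg h2 k))]
    ext z
    constructor
    · rintro ⟨⟨x, w⟩, rfl⟩
      exact ⟨(x, w), ⟨Subgroup.mem_centralizer_singleton_iff.2 (by simp),
        Subgroup.mem_centralizer_singleton_iff.2 (by simp)⟩, rfl⟩
    · rintro ⟨x, -, rfl⟩
      exact ⟨x, rfl⟩
  have hu : ∃ j : ℕ, orderOf (-1 : G F k) = 2 ^ j := by
    obtain ⟨j, -, hj⟩ := (Nat.dvd_prime_pow Nat.prime_two (m := 1)).1
      (orderOf_dvd_of_pow_eq_one (x := (-1 : G F k)) (by simp))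
    exact ⟨j, hj⟩
  obtain ⟨θ1, θ2, h1, h3, D1, D2, h4, h5, h6, h7⟩ := peel_cf hM diag diag_injective hr hu
    (isPBlock_blockOf χ) (hM.mem_blockOf_self χ) θ.isClassFunction (isClassFunction_cm a k) (by
      intro h0
      refine (div_ne_zero_iff.1 h).1 ?_
      have h1 := congrArg conj h0
      simp only [map_sum, map_mul, Complex.conj_conj, map_zero] at h1
      rw [← h1]
      refine Finset.sum_congr rfl fun x _ => ?_
      rw [← Equiv.sum_comp (Equiv.neg (G F k))]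
      refine Finset.sum_congr rfl fun y _ => ?_
      rw [← hd, ← cm_dd Nat.prime_two h2, ← cm_dd Nat.prime_two h2, ← hc, Equiv.neg_apply,
        ng_apply, neg_neg, neg_one_mul]
      by_cases h3 : dd 2 d ⟨i, x⟩ = 0
      · simp [h3]
      by_cases h4 : dd 2 a ⟨k, y⟩ = 0
      · simp [h4]
      rw [De_of_coprime]
      · ring
      refine (isCoprime_iff_eig (x := ⟨i, x⟩) (y := ⟨k, -y⟩)).2
        (Multiset.disjoint_left.2 fun {α} h5 h6 => h3 ?_)
      rw [eig_neg, Multiset.mem_map] at h6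
      obtain ⟨β, hβ, rfl⟩ := h6
      rw [dd_apply, if_pos ⟨_, h5, two_dvd_neg h2 fun h7 =>
        h4 (by rw [dd_apply, if_pos ⟨β, hβ, h7⟩])⟩]) hD
  obtain rfl := IrrCharacter.eq_of_classInner_ne_zero h1
  exact ⟨θ2, h3, D1, D2, h4, h5, h6, h7⟩

theorem ptn_two : ptn 2 = {{1, 1}, {2}} := by rw [ptn_eq_ptnC 2 2 le_rfl]; decide

theorem ph_one_ne {m : ℕ} {X : Finset ℕ} (h : X ∈ bs N m) : ph N X (Multiset.replicate m 1) ≠ 0 :=
  phi_replicate_one_ne_zero (lab_strictMono (mem_bs.1 h).1).injective (lab_nonneg X)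
    (by rw [sum_lab_of_mem h, sum_del])

theorem ip_dd_S_ne (h2 : 2 ≠ ringChar F) (hP : StP F) {ψ : I F} (hψ : Reg 2 ψ) {X Y : Finset ℕ}
    (hX : X ∈ bs N 2) (hY : Y ∈ bs N 2) (h : X ≠ Y) :
    ip (dd 2 (S (pp ψ) N X)) (S (pp ψ) N Y) ≠ 0 := by
  have e : ∀ Z, dd 2 (S (pp ψ) N Z) = S (fun k => dd 2 (pp ψ k)) N Z := fun Z =>
    map_S (ddA 2) (pp ψ) N Z
  rw [← ip_dd_dd, e, e, ip_S (fun k hk => (hP.fk.prim ψ k hk).dd 2)
    (w := fun k => (nl F 2 (ψ.per * k) : ℂ)⁻¹) (fun k l hk hl => by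
      rw [ip_dd_dd, ip_dd, ip_pp_dd hP h2 hψ hψ hk hl, pp_ip hP ψ k l hk hl]
      split_ifs with h1
      · rw [h1, mul_comm]
      · rw [mul_zero]), sz_of_mem hX, sz_of_mem hY, if_pos rfl, ptn_two,
    Finset.sum_pair (by decide)]
  have h1 := sum_ph_mul_ph hX hY
  rw [if_neg h, ptn_two, Finset.sum_pair (by decide), add_eq_zero_iff_neg_eq] at h1
  have h3 : ph N X {1, 1} * ph N Y {1, 1} / zz {1, 1} ≠ 0 := by
    have e2 : ({1, 1} : Multiset ℕ) = Multiset.replicate 2 1 := rfl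
    refine div_ne_zero (mul_ne_zero ?_ ?_) (Nat.cast_ne_zero.2 (zz_pos (by simp)).ne') <;> rw [e2]
    exacts [ph_one_ne hX, ph_one_ne hY]
  rw [← h1, Rat.cast_neg, neg_mul, ← sub_eq_add_neg, ← mul_sub]
  refine mul_ne_zero (Rat.cast_ne_zero.2 h3) (sub_ne_zero.2 fun h4 => ?_)
  simp only [Multiset.insert_eq_cons, Multiset.map_cons, Multiset.map_singleton,
    Multiset.prod_cons, Multiset.prod_singleton, mul_one, ← mul_inv, inv_inj] at h4
  exact nl_two_ne h2 (per_pos ψ) (by rw [sq]; exact_mod_cast h4.symm)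

open Classical in
/-- truncation to the unipotent elements -/
noncomputable def uni : H ω →ₗ[ℂ] H ω := mu fun α => if α = 1 then 1 else 0

theorem uni_Gam (n : ℕ) : uni (Gam ω n) = Gam ω n := H.ext fun x => by
  by_cases h : Gam ω n x = 0
  · rw [uni, mu_apply, h, mul_zero]
  · rw [uni, mu_apply, Multiset.prod_eq_one, one_mul]
    intro z hz
    obtain ⟨α, hα, rfl⟩ := Multiset.mem_map.1 hz
    rw [mem_eig, show chp x.2 = _ from charpoly_of_Gam h] at hα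
    simp only [map_pow, map_sub, Polynomial.aeval_X, map_one] at hα
    exact if_pos (Units.ext (sub_eq_zero.1 (pow_eq_zero_iff'.1 hα).1))

theorem ip_eq_zero_of_uni (h2 : 2 ≠ ringChar F) {k : ℕ} {z c : H ω} (hz : IsHom k z)
    (h : ∀ g : G F k, dt g = 1 → ¬ 2 ∣ orderOf g → z ⟨k, g⟩ = 0) (hc : uni c = c) :
    ip z c = 0 := by
  rw [← hc, hz.ip_eq, classInner_def, Finset.sum_eq_zero, mul_zero]
  intro g _
  by_cases h1 : ∀ α ∈ eig ⟨k, g⟩, α = 1
  · rw [h g, zero_mul]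
    · refine iu_injective ?_
      rw [← prod_eig, map_one, Multiset.prod_eq_one h1]
    · rw [dvd_orderOf_iff Nat.prime_two h2]
      rintro ⟨α, hα, h3⟩
      rw [h1 α hα, orderOf_one] at h3
      omega
  · push Not at h1
    obtain ⟨α, hα, h3⟩ := h1
    rw [uni, mu_apply, Multiset.prod_eq_zero (Multiset.mem_map.2 ⟨α, hα, if_neg h3⟩), zero_mul,
      map_zero, mul_zero]

/-- the defect groups of the blocks of weight two meet `SL` in a non-cyclic group -/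
theorem not_isCyclic (h2 : 2 ≠ ringChar F) (hP : StP F) (hS : StSch F) (hI : StIrr F)
    (hM : IsPModular 2 M) {ψ : I F} (hψ : Reg 2 ψ) {θ : IrrCharacter (G F (ψ.per * 2))}
    (h : classInner (cm (pp ψ 1 * pp ψ 1) (ψ.per * 2)) θ.1 ≠ 0) {D : Subgroup (G F (ψ.per * 2))}
    (hD : IsDefectGroup 2 M (blockOf M θ.1) D) (h1 : -1 ∈ D) :
    ¬ IsCyclic (D ⊓ dt.ker : Subgroup _) := by
  classical
  intro hcyc
  have hd := per_pos ψ
  obtain ⟨N, hN⟩ : ∃ N, N = ψ.per * 2 := ⟨_, rfl⟩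
  have hN2 : 2 ≤ N := by omega
  have hp1 := isHom_pp hP ψ one_pos
  have hp2 := isHom_pp hP ψ two_pos
  rw [mul_one] at hp1
  have hpp : IsHom (ψ.per * 2) (pp ψ 1 * pp ψ 1) := by rw [mul_two]; exact hp1.mul hp1
  have e1 : pm (pp ψ) {1, 1} = pp ψ 1 * pp ψ 1 := by simp [pm]
  have e2 : pm (pp ψ) {2} = pp ψ 2 := by simp [pm]
  have hdeg : ∀ X : Bt N, X.1 ∈ bs N 2 → deg (Finsupp.single ψ X : MP F N) = ψ.per * 2 :=
    fun X hX => by rw [deg_single, sz_of_mem hX]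
  obtain ⟨ν, hν, hθ⟩ := hI.surj hN.ge θ
  obtain ⟨Y, hY, rfl⟩ : ∃ Y : Bt N, Y.1 ∈ bs N 2 ∧ ν = Finsupp.single ψ Y := by
    rw [← hθ, ← hpp.ip_eq, ← e1, pm_eq_sum_S _ hN2 (by rw [ptn_two]; simp), ip_sum_left] at h
    obtain ⟨X, hX, h3⟩ := Finset.exists_ne_zero_of_sum_ne_zero h
    obtain ⟨X, rfl⟩ : ∃ X' : Bt N, X'.1 = X := ⟨⟨X, (mem_bs.1 hX).1⟩, rfl⟩
    refine ⟨X, hX, ?_⟩
    by_contra h4
    have h5 : ip (chi (Finsupp.single ψ X)) (chi ν) = _ := (hS 1 1 pp hP.fk).orth _ ν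
    rw [if_neg (Ne.symm h4), chi_single] at h5
    exact h3 (by rw [ip_smul_left, h5, mul_zero])
  have hmem : ∀ X ∈ bs N 2, ∃ χ ∈ blockOf M θ.1, cm (S (pp ψ) N X) (ψ.per * 2) = χ.1 := by
    intro X hX
    obtain ⟨X, rfl⟩ : ∃ X' : Bt N, X'.1 = X := ⟨⟨X, (mem_bs.1 hX).1⟩, rfl⟩
    by_cases h3 : Y.1 = X.1
    · exact ⟨θ, hM.mem_blockOf_self θ, by rw [← h3, ← chi_single, hθ]⟩
    refine ⟨⟨_, hI.irr _ (hdeg X hX)⟩, hM.sameBlock_of_classInner_pRegularPart_ne_zero ?_,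
      by rw [← chi_single]⟩
    have h4 := ip_dd_S_ne h2 hP hψ hY hX h3
    rw [← chi_single, ← chi_single, ((hdeg Y hY ▸ isHom_chi hP hS _ : IsHom (ψ.per * 2) _).dd
      2).ip_eq] at h4
    rw [← hθ, ← cm_dd Nat.prime_two h2]
    exact h4
  let SL := (dt (F := F) (n := ψ.per * 2)).ker
  obtain ⟨b, hb, hcov, hDb⟩ := (isPBlock_blockOf θ).exists_covered_isDefectGroup (N := SL) hM hD
  have hlt := hDb.blockRank_lt_of_isCyclic hM hb (by
    rw [← Subgroup.inf_subgroupOf_right]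
    exact (Subgroup.subgroupOfEquivOfLe inf_le_right).isCyclic.2 hcyc) (by
    have h3 : (-1 : G F (ψ.per * 2)) ∈ SL := Units.ext (by
      simp [Matrix.det_neg, pow_mul'])
    intro h4
    have h5 : (⟨-1, h3⟩ : SL) ∈ D.subgroupOf SL := h1
    rw [h4, Subgroup.mem_bot, Subtype.ext_iff] at h5
    refine not_one_mem_eig_neg h2 (ψ.per * 2) ?_
    rw [show (-1 : G F (ψ.per * 2)) = 1 from h5, eig_one, Multiset.mem_replicate]
    exact ⟨by omega, rfl⟩)
  have hle := (finrank_span_res_le hM (isPBlock_blockOf θ) hb hcov).trans (Nat.le_of_lt_succ hlt)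
  let R : H (1 : Fˣ →* ℂˣ) →ₗ[ℂ] SL → ℂ :=
    { toFun := fun a => pRegularPart 2 fun n : SL => a ⟨_, n.1⟩
      map_add' := fun a b => funext fun n => by
        simp only [pRegularPart, Pi.add_apply, H.add_apply]; split_ifs <;> simp
      map_smul' := fun c a => funext fun n => by
        simp only [pRegularPart, Pi.smul_apply, H.smul_apply]; split_ifs <;> simp }
  have hR : ∀ ρ ∈ ptn 2, R (pm (pp ψ) ρ) ∈ Submodule.span ℂ
      ((fun χ : IrrCharacter (G F (ψ.per * 2)) => pRegularPart 2 (fun n : SL => χ.1 n)) ''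
        blockOf M θ.1) := by
    intro ρ hρ
    rw [pm_eq_sum_S _ hN2 hρ, map_sum]
    refine Submodule.sum_mem _ fun X hX => ?_
    rw [map_smul]
    obtain ⟨χ, h3, h4⟩ := hmem X hX
    exact Submodule.smul_mem _ _ (Submodule.subset_span ⟨χ, h3, by beta_reduce; rw [← h4]; rfl⟩)
  obtain ⟨w, hw⟩ := finrank_le_one_iff.1 hle
  obtain ⟨s, hs⟩ := hw ⟨_, hR {1, 1} (by rw [ptn_two]; simp)⟩
  obtain ⟨t, ht⟩ := hw ⟨_, hR {2} (by rw [ptn_two]; simp)⟩
  replace hs : s • w.1 = R (pp ψ 1 * pp ψ 1) := e1 ▸ congrArg Subtype.val hs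
  replace ht : t • w.1 = R (pp ψ 2) := e2 ▸ congrArg Subtype.val ht
  have key : ∀ z, IsHom (ψ.per * 2) z → R z = 0 → ∀ c, uni c = c → ip z c = 0 :=
    fun z hz h3 c hc => ip_eq_zero_of_uni h2 hz (fun g h4 h5 => by
      have := congrFun h3 ⟨g, h4⟩
      rwa [show R z ⟨g, h4⟩ = _ from if_pos (by rwa [IsPRegular, ← Subgroup.orderOf_coe])]
        at this) hc
  have g1 : ip (pp ψ 1) (Gam 1 ψ.per) = 1 := by simpa using hP.fk.gam ψ 1 one_pos
  have g2 : ip (pp ψ 2) (Gam 1 (ψ.per * 2)) = 1 := by simpa using hP.fk.gam ψ 2 two_pos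
  have g3 : ip (pp ψ 1 * pp ψ 1) (Gam 1 (ψ.per * 2)) = 1 := by
    rw [mul_two, (grpLike_Gam 1).ip_mul_hom (by rwa [one_mul]) (by rwa [one_mul]), g1, one_mul]
  have g0 : ip (Gam (1 : Fˣ →* ℂˣ) ψ.per) 1 = 0 := (Gam_isHom _ _).ip_eq_zero isHom_one hd.ne'
  have g1' : ip (Gam 1 ψ.per) (pp ψ 1) = 1 := by rw [ip_cj, g1, map_one]
  have g4 : ip (pp ψ 2) (Gam 1 ψ.per * Gam 1 ψ.per) = 0 := by
    rw [ip_cj, (hP.fk.prim ψ 2 two_pos).ip_mul_eq_zero g0 g0, map_zero]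
  have g5 : ip (pp ψ 1 * pp ψ 1) (Gam 1 ψ.per * Gam 1 ψ.per) = 2 := by
    have := (hP.fk.prim ψ 1 one_pos)
    have h3 : adj (pp ψ 1) (Gam 1 ψ.per) = 1 := by
      refine ext_ip fun y => ?_
      induction y using H.induction with
      | h0 => simp
      | h1 n a ha =>
        rw [← ip_mul_adj]
        rcases n with _ | n
        · rw [show ψ.per = ψ.per + 0 from rfl,
            (grpLike_Gam 1).ip_mul_hom (by rwa [one_mul]) (by rwa [one_mul]), g1, one_mul, Gam_zero]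
        · rw [(hp1.mul ha).ip_eq_zero (Gam_isHom _ _) (by omega),
            ha.ip_eq_zero isHom_one (by omega)]
      | h2 a b ha hb => rw [ip_add_left, ip_add_left, ha, hb]
    rw [ip_mul_adj, this.adj_mul, h3, one_mul, mul_one, ip_add_right, g1]
    norm_num
  have u2 : uni (Gam (1 : Fˣ →* ℂˣ) ψ.per * Gam 1 ψ.per) = Gam 1 ψ.per * Gam 1 ψ.per := by
    have := uni_Gam (ω := (1 : Fˣ →* ℂˣ)) ψ.per
    rw [uni] at this ⊢
    rw [mu_mul, this]
  have k1 := key (t • (pp ψ 1 * pp ψ 1) - s • pp ψ 2) ((hpp.smul t).sub (hp2.smul s)) (by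
    rw [map_sub, map_smul, map_smul, ← hs, ← ht, smul_comm, sub_self])
  have k2 := k1 _ (uni_Gam (ψ.per * 2))
  have k3 := k1 _ u2
  rw [ip_sub_left, ip_smul_left, ip_smul_left, g2, g3] at k2
  rw [ip_sub_left, ip_smul_left, ip_smul_left, g4, g5] at k3
  have k4 : s = 0 := by linear_combination k3 / 2 - k2
  have k5 := key _ hpp (by rw [← hs, k4, zero_smul]) _ (uni_Gam (ψ.per * 2))
  rw [g3] at k5
  exact one_ne_zero k5

/-- an elementary abelian quotient of order at least `2 ^ w` -/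
def Sec (Q : Type u) [Group Q] (w : ℕ) : Prop :=
  ∃ (E : Type u) (_ : Group E) (π : Q →* E), Function.Surjective π ∧
    (∀ a b : E, a * b = b * a) ∧ (∀ a : E, a ^ 2 = 1) ∧ 2 ^ w ≤ Nat.card E

theorem Sec.prod {G G1 G2 : Type u} [Group G] [Group G1] [Group G2] [Finite G2]
    (f : G1 × G2 →* G) (hf : Function.Injective f) {A : Subgroup G1} {B : Subgroup G2} {w : ℕ}
    (hA : Sec A w) (hB : IsPGroup 2 B) (hB' : ¬ IsCyclic B) : Sec ((A.prod B).map f) (w + 2) := by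
  obtain ⟨E, _, π, h1, h2, h3, h4⟩ := hA
  have h5 := Nat.le_of_dvd (Nat.pos_of_ne_zero Subgroup.index_ne_zero_of_finite)
    (sq_dvd_index_frattini_of_not_isCyclic hB hB')
  refine ⟨E × (B ⧸ frattini B), inferInstance, (π.prodMap (QuotientGroup.mk' _)).comp
    (((A.prod B).equivMapOfInjective f hf).symm.trans (A.prodEquiv B)).toMonoidHom,
    (h1.prodMap (QuotientGroup.mk'_surjective _)).comp (MulEquiv.surjective _),
    fun a b => Prod.ext (h2 _ _) ((quot_frattini_elem hB).1 _ _),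
    fun a => Prod.ext (h3 _) ((quot_frattini_elem hB).2 _), ?_⟩
  rw [Nat.card_prod, pow_add]
  exact Nat.mul_le_mul h4 h5

theorem dg2_basic (h2 : 2 ≠ ringChar F) (hP : StP F) (hS : StSch F) (hI : StIrr F)
    (hB : StBas F 2) (hM : IsPModular 2 M) (n : ℕ) : ∀ (μ : MP F N)
    (χ : IrrCharacter (G F n)), Basic 2 μ → (∀ ψ, Even (sz N (μ ψ).1)) → deg μ = n →
    cm (chi μ) n = χ.1 → ∀ D, IsDefectGroup 2 M (blockOf M χ.1) D →
    ∃ Q : Subgroup (G F n), Q ≤ dt.ker ∧ IsConjLE Q D ∧ Sec Q (W 2 μ) := by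
  induction n using Nat.strong_induction_on with
  | _ n ih =>
  intro μ χ hμ hev hn hχ D hD
  by_cases h0 : W 2 μ = 0
  · exact ⟨⊥, bot_le, .of_le bot_le, PUnit, inferInstance, 1, fun _ => ⟨1, rfl⟩,
      fun _ _ => rfl, fun _ => rfl, by simp [h0]⟩
  obtain ⟨ψ, hψ, hw⟩ := exists_of_W_pos h2 hμ h0
  rw [ee_two h2, wt_one] at hw
  obtain ⟨w, hw⟩ : ∃ w, sz N (μ ψ).1 = w + 2 := by
    obtain ⟨r, hr⟩ := hev ψ
    exact ⟨sz N (μ ψ).1 - 2, by omega⟩
  have hpr := hP.fk.prim ψ 1 one_pos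
  have hadj : ∀ y ∈ Algebra.adjoin ℂ (bset 2), adj (ng (dd 2 (pp ψ 1))) y =
      (nl F 2 (ψ.per * 1) : ℂ)⁻¹ • adj (pp ψ 1) y := fun y hy => by
    rw [← adj_dd hP h2 hψ one_pos hy]
    refine adj_eq_of_ip hP (hpr.dd 2).ng (hpr.dd 2) (fun φ m h1 hm => ?_) hy
    obtain ⟨ε, h3, h4⟩ := hP.ng φ m hm
    rw [← ip_ng, h3, h4 h1, one_smul]
  have hnl : (nl F 2 (ψ.per * 1) : ℂ)⁻¹ ≠ 0 := inv_ne_zero (Nat.cast_ne_zero.2 (nl_pos _).ne')
  obtain ⟨X, h1, -, h3⟩ := step hP h2 hS hB hμ hψ (e := 1) (σ := {1, 1})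
    (ρ := Multiset.replicate w 1) (by simp) (by simp)
    (fun r hr => by rw [Multiset.eq_of_mem_replicate hr]; exact one_pos)
    (by
      have := ph_one_ne (mem_bs_sz (μ ψ).2)
      rwa [hw, add_comm, Multiset.replicate_add] at this)
    (a := ng (dd 2 (pp ψ 1 * pp ψ 1))) (mul_ne_zero hnl hnl)
    (by
      have e1 : pm (pp ψ) {1, 1} = pp ψ 1 * pp ψ 1 := by simp [pm]
      rw [dd_mul, ng_mul, adj_mul_left, hadj _ (chi_mem hμ), map_smul,
        hadj _ (hpr.adj_mem_adjoin (by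
          rintro _ ⟨φ, m, -, hm, rfl⟩; exact hP.fk.prim φ m hm) (chi_mem hμ)),
        e1, adj_mul_left, smul_smul])
  replace h1 : sz N X.1 + 2 = sz N (μ ψ).1 := h1
  have hW : W 2 μ = W 2 (μ.update ψ X) + 2 := by
    have h4 := W_update h2 hμ hψ X
    rw [ee_two h2, wt_one, wt_one] at h4
    omega
  obtain rfl : deg (μ.update ψ X) + ψ.per * 2 = n := by
    rw [← hn, deg_update, deg_eq μ ψ, ← h1]; ring
  have hp1 := isHom_pp hP ψ one_pos
  obtain ⟨θ2, h4, D1, D2, hD1, hD2, h5, h6⟩ := geo2 h2 hM (θ := ⟨_, hI.irr (μ.update ψ X) rfl⟩)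
    hχ rfl (isHom_chi hP hS _) (by rw [mul_one] at hp1; rw [mul_two]; exact hp1.mul hp1) h3 hD
  obtain ⟨Q, h7, h8, h9⟩ := ih _ (Nat.lt_add_of_pos_right (Nat.mul_pos (per_pos ψ) two_pos))
    (μ.update ψ X) ⟨_, hI.irr (μ.update ψ X) rfl⟩ (Basic.update hμ hψ X) (fun φ => by
      by_cases h : φ = ψ
      · have := hev ψ
        rw [← h1, Nat.even_add] at this
        simpa [h] using this
      · simpa [Function.update_of_ne h] using hev φ) rfl rfl D1 hD1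
  refine ⟨(Q.prod (D2 ⊓ dt.ker)).map diag, ?_,
    (isConjLE_prod_map diag h8 (.of_le inf_le_left)).trans h6,
    hW ▸ h9.prod diag diag_injective (hD2.isPGroup.to_le inf_le_left)
      (not_isCyclic h2 hP hS hI hM hψ h4 hD2 h5)⟩
  rintro _ ⟨⟨x, y⟩, ⟨hx, -, hy⟩, rfl⟩
  rw [MonoidHom.mem_ker, dt_diag, show dt x = 1 from h7 hx, show dt y = 1 from hy, mul_one]

end DG

/-- piece `DG2` -/
theorem stDG2 {F : Type*} [Field F] [Fintype F] [DecidableEq F] [Laws F] (h2 : 2 ≠ ringChar F)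
    (hP : StP F) (hS : StSch F) (hI : StIrr F) (hC : StCore F 2) (hB : StBas F 2) : StDG2 F := by
  intro M hM N n μ χ hn hN hχ hev D hD s hs
  obtain ⟨ν, χ', h1, h3, h4, h5, h6⟩ := DG.exists_basic h2 hP hS hI hC hB hM hn hN hχ
  obtain ⟨Q, h7, ⟨x, h8⟩, E, _, π, h9, h10, h11, h12⟩ := DG.dg2_basic h2 hP hS hI hB hM n ν χ' h1
    (fun ψ => by rw [← DG.nn_basic h1, DG.nn_eq_of_cd h6]; exact hev ψ) h3 h4 D (h5 ▸ hD)
  have h13 : IsConjLE Q (D ⊓ dt.ker) := ⟨x, le_inf h8 (by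
    rintro _ ⟨y, hy, rfl⟩
    exact (MonoidHom.normal_ker _).conj_mem y (h7 hy) x)⟩
  rw [← DG.W_eq_of_cd h6]
  exact (Nat.pow_le_pow_iff_right one_lt_two).1 (h12.trans
    ((hs.of_isConjLE h13).card_le_of_section (MonoidHom.id _) π h9 (by simp) h10 h11))

end Cfsg.GLn
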