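import Mathlib.Dynamics.PeriodicPts.Lemmas
import Mathlib.NumberTheory.Basic
import Mathlib.GroupTheory.OrderOfElement
import Mathlib.Algebra.BigOperators.Finprod
import Mathlib.Data.ZMod.Basic
import Mathlib.FieldTheory.Finite.Basic
import Mathlib.Tactic.Ring
import Mathlib.Data.Set.Finite.Basic

/-!
# Orbits of a map all of whose points are periodic; the map `x ↦ x ^ q`
-/

set_option autoImplicit false

namespace Cfsg.GLn.Dyn

open Function
open scoped Classical

universe u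

variable {W : Type u}

/-- all points are periodic -/
def AllPer (T : W → W) : Prop := ∀ x, x ∈ periodicPts T

/-- two points have the same orbit -/
def orbS (T : W → W) : Setoid W where
  r x y := ∃ m n : ℕ, T^[m] x = T^[n] y
  iseqv := ⟨fun _ => ⟨0, 0, rfl⟩, fun ⟨m, n, h⟩ => ⟨n, m, h.symm⟩,
    fun {x y z} ⟨m, n, h⟩ ⟨m', n', h'⟩ => ⟨m' + m, n + n', by
      rw [iterate_add_apply, h, ← iterate_add_apply, add_comm m' n, iterate_add_apply, h',
        ← iterate_add_apply]⟩⟩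

/-- the set of orbits -/
def Orb (T : W → W) : Type u := Quotient (orbS T)

/-- the orbit of a point -/
def omk (T : W → W) (x : W) : Orb T := Quotient.mk (orbS T) x

/-- a representative of an orbit -/
noncomputable def Orb.rep {T : W → W} (O : Orb T) : W := Quotient.out O

/-- the length of an orbit -/
noncomputable def Orb.per {T : W → W} (O : Orb T) : ℕ := minimalPeriod T O.rep

/-- the points of an orbit -/
noncomputable def Orb.pts {T : W → W} (O : Orb T) : Finset W :=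
  (Finset.range O.per).image fun i => T^[i] O.rep

variable {T : W → W}

@[simp] theorem omk_rep (O : Orb T) : omk T O.rep = O := Quotient.out_eq O

theorem omk_surj (O : Orb T) : ∃ x, omk T x = O := ⟨_, omk_rep O⟩

theorem omk_eq_iff' {x y : W} : omk T x = omk T y ↔ ∃ m n : ℕ, T^[m] x = T^[n] y :=
  Quotient.eq (r := orbS T)

@[simp] theorem omk_iterate (x : W) (n : ℕ) : omk T (T^[n] x) = omk T x :=
  omk_eq_iff'.2 ⟨0, n, rfl⟩

@[simp] theorem omk_apply (x : W) : omk T (T x) = omk T x := omk_iterate x 1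

theorem AllPer.injective (h : AllPer T) : Injective T := fun x y hxy => by
  obtain ⟨m, hm, hx⟩ := h x
  obtain ⟨n, hn, hy⟩ := h y
  exact hx.eq_of_apply_eq hy hm hn hxy

theorem AllPer.surjective (h : AllPer T) : Surjective T := fun x =>
  periodicPts_subset_range (h x)

theorem AllPer.omk_eq_iff (h : AllPer T) {x y : W} : omk T x = omk T y ↔ ∃ n : ℕ, T^[n] x = y := by
  refine ⟨fun hxy => ?_, fun ⟨n, hn⟩ => hn ▸ (omk_iterate x n).symm⟩
  obtain ⟨m, n, hmn⟩ := omk_eq_iff'.1 hxy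
  obtain ⟨k, hk, hy⟩ := h y
  refine ⟨n * (k - 1) + m, ?_⟩
  rw [iterate_add_apply, hmn, ← iterate_add_apply]
  have : n * (k - 1) + n = k * n := by
    obtain ⟨j, rfl⟩ : ∃ j, k = j + 1 := ⟨k - 1, by omega⟩
    rw [Nat.add_sub_cancel]; ring
  rw [this]
  exact hy.mul_const n

theorem AllPer.per_pos (h : AllPer T) (O : Orb T) : 0 < O.per :=
  minimalPeriod_pos_of_mem_periodicPts (h _)

theorem AllPer.per_omk (h : AllPer T) (x : W) : (omk T x).per = minimalPeriod T x := by
  obtain ⟨n, hn⟩ := h.omk_eq_iff.1 (omk_rep (omk T x)).symm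
  rw [Orb.per, ← hn, minimalPeriod_apply_iterate (h x)]

theorem AllPer.iterate_eq_iff (h : AllPer T) (x : W) (k : ℕ) :
    T^[k] x = x ↔ (omk T x).per ∣ k := by
  rw [h.per_omk]
  exact isPeriodicPt_iff_minimalPeriod_dvd

theorem AllPer.mem_pts (h : AllPer T) {O : Orb T} {x : W} : x ∈ O.pts ↔ omk T x = O := by
  rw [Orb.pts, Finset.mem_image]
  constructor
  · rintro ⟨i, -, rfl⟩
    rw [omk_iterate, omk_rep]
  · intro hx
    obtain ⟨n, hn⟩ := h.omk_eq_iff.1 ((omk_rep O).trans hx.symm)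
    exact ⟨n % O.per, Finset.mem_range.2 (Nat.mod_lt _ (h.per_pos O)),
      by rw [Orb.per, iterate_mod_minimalPeriod_eq, hn]⟩

theorem Orb.injOn (O : Orb T) :
    Set.InjOn (fun i => T^[i] O.rep) (Finset.range O.per : Set ℕ) := by
  rw [Finset.coe_range]
  exact iterate_injOn_Iio_minimalPeriod

theorem Orb.card_pts (O : Orb T) : O.pts.card = O.per := by
  rw [Orb.pts, Finset.card_image_of_injOn O.injOn, Finset.card_range]

theorem Orb.sum_pts {A : Type*} [AddCommMonoid A] (O : Orb T) (f : W → A) :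
    ∑ x ∈ O.pts, f x = ∑ i ∈ Finset.range O.per, f (T^[i] O.rep) :=
  Finset.sum_image O.injOn

theorem Orb.prod_pts {A : Type*} [CommMonoid A] (O : Orb T) (f : W → A) :
    ∏ x ∈ O.pts, f x = ∏ i ∈ Finset.range O.per, f (T^[i] O.rep) :=
  Finset.prod_image O.injOn

/-- the points of the orbit of `x`, enumerated from `x` -/
theorem AllPer.pts_omk (h : AllPer T) (x : W) :
    (omk T x).pts = (Finset.range (minimalPeriod T x)).image fun i => T^[i] x := by
  ext y
  rw [h.mem_pts, eq_comm, h.omk_eq_iff, Finset.mem_image]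
  constructor
  · rintro ⟨n, rfl⟩
    exact ⟨n % minimalPeriod T x, Finset.mem_range.2 (Nat.mod_lt _
      (minimalPeriod_pos_of_mem_periodicPts (h x))), iterate_mod_minimalPeriod_eq⟩
  · rintro ⟨n, -, hn⟩
    exact ⟨n, hn⟩

theorem AllPer.sum_pts_omk (h : AllPer T) {A : Type*} [AddCommMonoid A] (x : W) (f : W → A) :
    ∑ y ∈ (omk T x).pts, f y = ∑ i ∈ Finset.range (minimalPeriod T x), f (T^[i] x) := by
  rw [h.pts_omk]
  refine Finset.sum_image ?_
  rw [Finset.coe_range]
  exact iterate_injOn_Iio_minimalPeriod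

theorem inv_iterate {A : Type*} {f : W → A} (hf : ∀ x, f (T x) = f x) (x : W) (n : ℕ) :
    f (T^[n] x) = f x := by
  induction n with
  | zero => rfl
  | succ n ih => rw [iterate_succ_apply', hf, ih]

theorem AllPer.inv_of_omk_eq (h : AllPer T) {A : Type*} {f : W → A} (hf : ∀ x, f (T x) = f x)
    {x y : W} (hxy : omk T x = omk T y) : f x = f y := by
  obtain ⟨n, rfl⟩ := h.omk_eq_iff.1 hxy
  exact (inv_iterate hf x n).symm

theorem AllPer.inv_rep (h : AllPer T) {A : Type*} {f : W → A} (hf : ∀ x, f (T x) = f x)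
    (x : W) : f (omk T x).rep = f x := h.inv_of_omk_eq hf (omk_rep _)

/-- a sum over a union of orbits, orbit by orbit -/
theorem AllPer.sum_orbits (h : AllPer T) {A : Type*} [AddCommMonoid A] (S : Finset W)
    (R : Finset (Orb T)) (hSR : ∀ x, x ∈ S ↔ omk T x ∈ R) (f : W → A) :
    ∑ x ∈ S, f x = ∑ O ∈ R, ∑ x ∈ O.pts, f x := by
  rw [← Finset.sum_fiberwise_of_maps_to (g := omk T) (fun x hx => (hSR x).1 hx)]
  refine Finset.sum_congr rfl fun O hO => Finset.sum_congr ?_ fun _ _ => rfl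
  ext x
  rw [Finset.mem_filter, h.mem_pts, hSR]
  exact ⟨fun hx => hx.2, fun hx => ⟨hx ▸ hO, hx⟩⟩

theorem AllPer.prod_orbits (h : AllPer T) {A : Type*} [CommMonoid A] (S : Finset W)
    (R : Finset (Orb T)) (hSR : ∀ x, x ∈ S ↔ omk T x ∈ R) (f : W → A) :
    ∏ x ∈ S, f x = ∏ O ∈ R, ∏ x ∈ O.pts, f x :=
  h.sum_orbits (A := Additive A) S R hSR f

theorem AllPer.sum_pts_inv (h : AllPer T) {A : Type*} [AddCommMonoid A] (O : Orb T) {f : W → A}
    (hf : ∀ x, f (T x) = f x) : ∑ x ∈ O.pts, f x = O.per • f O.rep := by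
  rw [← O.card_pts, ← Finset.sum_const]
  exact Finset.sum_congr rfl fun x hx =>
    h.inv_of_omk_eq hf ((h.mem_pts.1 hx).trans (omk_rep O).symm)

/-- a sum of an invariant function over a union of orbits -/
theorem AllPer.sum_orbits_inv (h : AllPer T) {A : Type*} [AddCommMonoid A] (S : Finset W)
    (R : Finset (Orb T)) (hSR : ∀ x, x ∈ S ↔ omk T x ∈ R) {f : W → A}
    (hf : ∀ x, f (T x) = f x) : ∑ x ∈ S, f x = ∑ O ∈ R, O.per • f O.rep := by
  rw [h.sum_orbits S R hSR]
  exact Finset.sum_congr rfl fun O _ => h.sum_pts_inv O hf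

/-- the fixed points of `T^[k]` as a finite set -/
noncomputable def fixF (T : W → W) (k : ℕ) (hk : {x | T^[k] x = x}.Finite) : Finset W :=
  hk.toFinset

@[simp] theorem mem_fixF {k : ℕ} {hk : {x | T^[k] x = x}.Finite} {x : W} :
    x ∈ fixF T k hk ↔ T^[k] x = x := by simp [fixF]

/-- the orbits whose length divides `k` as a finite set -/
noncomputable def orbF (T : W → W) (k : ℕ) (hk : {x | T^[k] x = x}.Finite) : Finset (Orb T) :=
  (fixF T k hk).image (omk T)

theorem AllPer.mem_orbF (h : AllPer T) {k : ℕ} {hk : {x | T^[k] x = x}.Finite} {O : Orb T} :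
    O ∈ orbF T k hk ↔ O.per ∣ k := by
  rw [orbF, Finset.mem_image]
  constructor
  · rintro ⟨x, hx, rfl⟩
    exact (h.iterate_eq_iff x k).1 (mem_fixF.1 hx)
  · intro hO
    exact ⟨O.rep, mem_fixF.2 ((h.iterate_eq_iff _ k).2 (by rwa [omk_rep])), omk_rep O⟩

theorem AllPer.finite_orb (h : AllPer T) {k : ℕ} (hk : {x | T^[k] x = x}.Finite) :
    {O : Orb T | O.per ∣ k}.Finite :=
  (orbF T k hk).finite_toSet.subset fun _ hO => h.mem_orbF.2 hO

/-- sum over the fixed points of `T^[k]`, with arbitrary finite sets -/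
theorem AllPer.sum_fix_gen (h : AllPer T) {A : Type*} [AddCommMonoid A] {k : ℕ} (S : Finset W)
    (hS : ∀ x, x ∈ S ↔ T^[k] x = x) (R : Finset (Orb T)) (hR : ∀ O, O ∈ R ↔ O.per ∣ k)
    {f : W → A} (hf : ∀ x, f (T x) = f x) : ∑ x ∈ S, f x = ∑ O ∈ R, O.per • f O.rep :=
  h.sum_orbits_inv S R (fun x => by rw [hS, hR, h.iterate_eq_iff]) hf

/-- sum of an invariant function over the fixed points of `T^[k]` -/
theorem AllPer.sum_fix (h : AllPer T) {A : Type*} [AddCommMonoid A] {k : ℕ}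
    (hk : {x | T^[k] x = x}.Finite) {f : W → A} (hf : ∀ x, f (T x) = f x) :
    ∑ x ∈ fixF T k hk, f x = ∑ O ∈ orbF T k hk, O.per • f O.rep :=
  h.sum_fix_gen _ (fun _ => mem_fixF) _ (fun _ => h.mem_orbF) hf

/-- sum of any function over the fixed points of `T^[k]` -/
theorem AllPer.sum_fix' (h : AllPer T) {A : Type*} [AddCommMonoid A] {k : ℕ}
    (hk : {x | T^[k] x = x}.Finite) (f : W → A) :
    ∑ x ∈ fixF T k hk, f x = ∑ O ∈ orbF T k hk, ∑ x ∈ O.pts, f x :=
  h.sum_orbits _ _ (fun x => by rw [mem_fixF, h.mem_orbF, h.iterate_eq_iff]) f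

theorem AllPer.prod_fix' (h : AllPer T) {A : Type*} [CommMonoid A] {k : ℕ}
    (hk : {x | T^[k] x = x}.Finite) (f : W → A) :
    ∏ x ∈ fixF T k hk, f x = ∏ O ∈ orbF T k hk, ∏ x ∈ O.pts, f x :=
  h.prod_orbits _ _ (fun x => by rw [mem_fixF, h.mem_orbF, h.iterate_eq_iff]) f

/-- the count of the fixed points of `T^[k]` -/
theorem AllPer.card_fix (h : AllPer T) {k : ℕ} (hk : {x | T^[k] x = x}.Finite) :
    (fixF T k hk).card = ∑ O ∈ orbF T k hk, O.per := by
  have := h.sum_fix (A := ℕ) hk (f := fun _ => 1) (fun _ => rfl)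
  simpa using this

/-- summing over `k` steps along an orbit whose length divides `k` -/
theorem sum_range_of_dvd {A : Type*} [AddCommMonoid A] (x : W) (f : W → A) {k : ℕ}
    (hk : minimalPeriod T x ∣ k) :
    ∑ i ∈ Finset.range k, f (T^[i] x) =
      (k / minimalPeriod T x) • ∑ i ∈ Finset.range (minimalPeriod T x), f (T^[i] x) := by
  obtain ⟨c, rfl⟩ := hk
  rcases Nat.eq_zero_or_pos (minimalPeriod T x) with h0 | h0
  · simp [h0]
  rw [Nat.mul_div_cancel_left _ h0]
  induction c with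
  | zero => simp
  | succ c ih =>
    rw [Nat.mul_succ, Finset.sum_range_add, ih, succ_nsmul]
    congr 1
    refine Finset.sum_congr rfl fun i _ => ?_
    rw [add_comm, iterate_add_apply, ((isPeriodicPt_minimalPeriod T x).mul_const c).eq]

/-! ### The order of `q` modulo a prime power -/

theorem orderOf_zmod_dvd_iff (q N n : ℕ) : orderOf (q : ZMod N) ∣ n ↔ q ^ n ≡ 1 [MOD N] := by
  rw [orderOf_dvd_iff_pow_eq_one, ← Nat.cast_pow, ← Nat.cast_one (R := ZMod N),
    ZMod.natCast_eq_natCast_iff]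

theorem orderOf_zmod_pos {q N : ℕ} (hN : 0 < N) (h : q.Coprime N) : 0 < orderOf (q : ZMod N) := by
  haveI : NeZero N := ⟨hN.ne'⟩
  have := orderOf_pos (ZMod.unitOfCoprime q h)
  rwa [← orderOf_units, ZMod.coe_unitOfCoprime] at this

theorem modEq_pow_of_modEq {l x : ℕ} (h : x ≡ 1 [MOD l]) (k : ℕ) :
    x ^ l ^ k ≡ 1 [MOD l ^ (k + 1)] := by
  have h1 : (l : ℤ) ∣ (x : ℤ) - 1 := by
    have := (Nat.modEq_iff_dvd.1 h.symm)
    simpa using this
  have h2 := dvd_sub_pow_of_dvd_sub h1 k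
  apply Nat.ModEq.symm
  rw [Nat.modEq_iff_dvd]
  simpa using h2

/-- the order of `q` modulo `l ^ a` is the order modulo `l` times a power of `l` -/
theorem orderOf_zmod_pow {l : ℕ} (hl : l.Prime) {q : ℕ} (hq : q.Coprime l) {a : ℕ} (ha : 0 < a) :
    ∃ b, b < a ∧ orderOf (q : ZMod (l ^ a)) = orderOf (q : ZMod l) * l ^ b := by
  obtain ⟨k, rfl⟩ : ∃ k, a = k + 1 := ⟨a - 1, by omega⟩
  have h1 : orderOf (q : ZMod l) ∣ orderOf (q : ZMod (l ^ (k + 1))) := by
    rw [orderOf_zmod_dvd_iff]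
    exact ((orderOf_zmod_dvd_iff _ _ _).1 dvd_rfl).of_dvd (dvd_pow_self l (by omega))
  have h2 : orderOf (q : ZMod (l ^ (k + 1))) ∣ orderOf (q : ZMod l) * l ^ k := by
    rw [orderOf_zmod_dvd_iff, pow_mul]
    exact modEq_pow_of_modEq ((orderOf_zmod_dvd_iff _ _ _).1 dvd_rfl) k
  obtain ⟨c, hc⟩ := h1
  rw [hc] at h2
  obtain ⟨b, hb, rfl⟩ := (Nat.dvd_prime_pow hl).1
    (Nat.dvd_of_mul_dvd_mul_left (orderOf_zmod_pos hl.pos hq) h2)
  exact ⟨b, by omega, hc⟩

theorem orderOf_zmod_dvd_sub_one {l : ℕ} (hl : l.Prime) {q : ℕ} (hq : q.Coprime l) :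
    orderOf (q : ZMod l) ∣ l - 1 := by
  rw [orderOf_zmod_dvd_iff, ← Nat.totient_prime hl]
  exact Nat.ModEq.pow_totient hq

/-! ### The map `x ↦ x ^ q` -/

section Pow

variable {M : Type*} [Monoid M]

theorem iterate_pow (q n : ℕ) (x : M) : (fun y : M => y ^ q)^[n] x = x ^ q ^ n := by
  induction n with
  | zero => simp
  | succ n ih => rw [iterate_succ_apply', ih, ← pow_mul, pow_succ]

end Pow

section PowG

variable {M : Type*} [Group M]

theorem pow_pow_eq_iff (q n : ℕ) (x : M) : x ^ q ^ n = x ↔ q ^ n ≡ 1 [MOD orderOf x] := by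
  rw [← pow_eq_pow_iff_modEq, pow_one]

/-- the period of `x` under `y ↦ y ^ q` is the order of `q` modulo the order of `x` -/
theorem minimalPeriod_pow (q : ℕ) (x : M) :
    minimalPeriod (fun y : M => y ^ q) x = orderOf (q : ZMod (orderOf x)) := by
  apply Nat.dvd_antisymm
  · rw [← isPeriodicPt_iff_minimalPeriod_dvd, IsPeriodicPt, IsFixedPt, iterate_pow,
      pow_pow_eq_iff, ← orderOf_zmod_dvd_iff]
  · rw [orderOf_zmod_dvd_iff, ← pow_pow_eq_iff, ← iterate_pow]
    exact isPeriodicPt_minimalPeriod _ _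

theorem mem_periodicPts_pow {q : ℕ} {x : M} (hx : 0 < orderOf x) (h : q.Coprime (orderOf x)) :
    x ∈ periodicPts (fun y : M => y ^ q) := by
  rw [← minimalPeriod_pos_iff_mem_periodicPts, minimalPeriod_pow]
  exact orderOf_zmod_pos hx h

/-- the period of a non-trivial `l`-element -/
theorem minimalPeriod_pow_of_prime_pow {l : ℕ} (hl : l.Prime) {q : ℕ} (hq : q.Coprime l) {x : M}
    {a : ℕ} (hx : x ^ l ^ a = 1) (h1 : x ≠ 1) :
    ∃ b, minimalPeriod (fun y : M => y ^ q) x = orderOf (q : ZMod l) * l ^ b := by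
  obtain ⟨c, -, hc⟩ := (Nat.dvd_prime_pow hl).1 (orderOf_dvd_of_pow_eq_one hx)
  have hc0 : 0 < c := by
    rcases Nat.eq_zero_or_pos c with rfl | h
    · exact absurd (orderOf_eq_one_iff.1 (by simpa using hc)) h1
    · exact h
  obtain ⟨b, -, hb⟩ := orderOf_zmod_pow hl hq hc0
  exact ⟨b, by rw [minimalPeriod_pow, hc, hb]⟩

/-- the period of a product of commuting elements of coprime orders -/
theorem minimalPeriod_pow_mul (q : ℕ) {x y : M} (hc : Commute x y)
    (h : (orderOf x).Coprime (orderOf y)) :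
    minimalPeriod (fun z : M => z ^ q) (x * y) =
      Nat.lcm (minimalPeriod (fun z : M => z ^ q) x) (minimalPeriod (fun z : M => z ^ q) y) := by
  have key : ∀ n, minimalPeriod (fun z : M => z ^ q) (x * y) ∣ n ↔
      minimalPeriod (fun z : M => z ^ q) x ∣ n ∧ minimalPeriod (fun z : M => z ^ q) y ∣ n := by
    intro n
    simp only [minimalPeriod_pow, orderOf_zmod_dvd_iff]
    rw [hc.orderOf_mul_eq_mul_orderOf_of_coprime h, Nat.modEq_and_modEq_iff_modEq_mul h]
  apply Nat.dvd_antisymm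
  · exact (key _).2 ⟨Nat.dvd_lcm_left _ _, Nat.dvd_lcm_right _ _⟩
  · exact Nat.lcm_dvd ((key _).1 dvd_rfl).1 ((key _).1 dvd_rfl).2

end PowG

end Cfsg.GLn.Dyn
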