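import Cfsg.Agent.GLn.HallA
import Cfsg.Agent.GLn.Sym0
import Cfsg.Agent.GLn.Dyn
import Cfsg.Agent.GLn.BrauerLift
import Cfsg.Agent.CT.SymCount
import Cfsg.Agent.Grp.PPart

/-!
# S4536: frozen definitions, part 1 (plan: `docs/GLn.md`)
-/

set_option autoImplicit false

namespace Cfsg.GLn

open Matrix Finset

universe u

variable (F : Type u) [Field F] [Fintype F] [DecidableEq F]

/-! ### arithmetic of the algebraic closure -/

/-- the algebraic closure -/
abbrev K : Type u := AlgebraicClosure F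

/-- the Frobenius map on the units -/
noncomputable def fr : (K F)ˣ → (K F)ˣ := fun y => y ^ Fintype.card F

/-- the Frobenius orbits (monic irreducible polynomials other than `X`) -/
abbrev I : Type u := Dyn.Orb (fr F)

noncomputable instance : DecidableEq (I F) := Classical.decEq _
noncomputable instance : DecidableEq (K F)ˣ := Classical.decEq _

/-- the fixed faithful character -/
noncomputable def th : (K F)ˣ →* ℂˣ := (BL.exists_injective_hom F (K F)).choose

/-- the units of the field with `q ^ k` elements (`0 < k`) -/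
noncomputable def Mk (k : ℕ) : Finset (K F)ˣ := by
  classical exact if h : {x : (K F)ˣ | x ^ Fintype.card F ^ k = x}.Finite then h.toFinset else ∅

/-- `ℓ`-part of `q ^ k - 1` -/
def nl (ℓ k : ℕ) : ℕ := ℓ ^ (Fintype.card F ^ k - 1).factorization ℓ

/-- the order of `q` modulo `ℓ` -/
noncomputable def e0 (ℓ : ℕ) : ℕ := orderOf (Fintype.card F : ZMod ℓ)

variable {F}

/-- the orbit of an element -/
noncomputable abbrev io (x : (K F)ˣ) : I F := Dyn.omk (fr F) x

/-- discrete logarithm in `Mk k` -/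
noncomputable def lgz (k : ℕ) (ξ : (K F)ˣ) : ℕ :=
  Classical.epsilon fun a : ℕ => (th F ξ : ℂ) =
    Complex.exp (2 * Real.pi * Complex.I / ((Fintype.card F ^ k - 1 : ℕ) : ℂ)) ^ a

/-- the perfect symmetric pairing on `Mk k` -/
noncomputable def pr (k : ℕ) (ξ : (K F)ˣ) : (K F)ˣ →* ℂˣ := th F ^ lgz k ξ

/-- the inclusion of the units of `F` -/
noncomputable def iu : Fˣ →* (K F)ˣ := Units.map (algebraMap F (K F) : F →* K F)

/-- the linear character of `Fˣ` attached to `λ` -/
noncomputable def chr (lam : Fˣ) : Fˣ →* ℂˣ := (pr 1 (iu lam)).comp iu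

/-- `r`-th power of an orbit -/
noncomputable def powI (r : ℕ) (o : I F) : I F := io (o.rep ^ r)

/-- product of an orbit with an element of `F` -/
noncomputable def mulI (lam : Fˣ) (o : I F) : I F := io (iu lam * o.rep)

/-- the `ℓ'`-part of an orbit -/
noncomputable def rpI (ℓ : ℕ) (o : I F) : I F := io (pRegPart ℓ o.rep)

/-- `ℓ'`-orbits -/
def Reg (ℓ : ℕ) (o : I F) : Prop := ¬ ℓ ∣ orderOf o.rep

/-- the order of `q ^ per o` modulo `ℓ` -/
noncomputable def ee (ℓ : ℕ) (o : I F) : ℕ := e0 F ℓ / Nat.gcd o.per (e0 F ℓ)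

/-- the fibre of `powI r` (`r ∣ q - 1`) -/
noncomputable def fib (r : ℕ) (o : I F) : Finset (I F) := by
  classical exact if h : {φ | powI r φ = o}.Finite then h.toFinset else ∅

/-- the Gram matrix of the `ℓ`-regular truncations of the power sums -/
noncomputable def gram (ℓ : ℕ) (o : I F) (m : ℕ) (o' : I F) (m' : ℕ) : ℂ :=
  if o.per * m = o'.per * m' ∧ rpI ℓ o = rpI ℓ o' then
    ((o.per * m : ℕ) : ℂ) / (((rpI ℓ o).per * nl F ℓ (o.per * m) : ℕ) : ℂ) else 0

/-! ### eigenvalues and pointwise multiplications -/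

/-- a nonzero element as a unit -/
noncomputable def un (a : K F) : (K F)ˣ := by
  classical exact if h : a = 0 then 1 else Units.mk0 a h

/-- the eigenvalues -/
noncomputable def eig (x : Obj F) : Multiset (K F)ˣ := (x.2.val.charpoly.aroots (K F)).map un

omit [Fintype F] in
theorem eig_conj {n : ℕ} (g z : G F n) : eig ⟨n, z * g * z⁻¹⟩ = eig ⟨n, g⟩ := by
  simp only [eig, Units.val_mul, Matrix.coe_units_inv]
  rw [Matrix.charpoly_units_conj]

variable {ω : Fˣ →* ℂˣ}

/-- pointwise multiplication by a function of the eigenvalues -/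
noncomputable def sc (φ : Multiset (K F)ˣ → ℂ) : H ω →ₗ[ℂ] H ω where
  toFun a := ⟨Finsupp.onFinset a.1.support (fun x => φ (eig x) * a x)
      (fun x hx => Finsupp.mem_support_iff.2 (right_ne_zero_of_mul hx)), fun n g z => by
    simp only [Finsupp.onFinset_apply, eig_conj, a.conj]; ring⟩
  map_add' a b := H.ext fun x => mul_add (φ (eig x)) (a x) (b x)
  map_smul' c a := H.ext fun x => mul_left_comm (φ (eig x)) c (a x)

@[simp] theorem sc_apply (φ : Multiset (K F)ˣ → ℂ) (a : H ω) (x : Obj F) :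
    sc φ a x = φ (eig x) * a x := rfl

/-- multiplicative pointwise multiplications (they are algebra endomorphisms) -/
noncomputable def mu (Φ : (K F)ˣ → ℂ) : H ω →ₗ[ℂ] H ω := sc fun s => (s.map Φ).prod

/-- `ℓ`-regular truncation -/
noncomputable def dd (ℓ : ℕ) : H ω →ₗ[ℂ] H ω := mu fun α => if ℓ ∣ orderOf α then 0 else 1

/-- tensoring with `chr λ ∘ det` -/
noncomputable def tens (lam : Fˣ) : H ω →ₗ[ℂ] H ω := mu fun α => pr 1 (iu lam) α

/-- the component on `GL_n` -/
abbrev cm (a : H ω) (n : ℕ) : G F n → ℂ := fun g => a ⟨n, g⟩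

/-- translation by `-1` -/
noncomputable def ng (a : H ω) : H ω :=
  ⟨Finsupp.onFinset (a.1.support.map ⟨fun x => ⟨x.1, -x.2⟩, fun x y h => by
      obtain ⟨n, g⟩ := x; obtain ⟨m, g'⟩ := y
      obtain ⟨rfl, h⟩ := Sigma.mk.inj_iff.1 h
      exact congrArg (Sigma.mk _) (neg_injective (eq_of_heq h))⟩) (fun x => a ⟨x.1, -x.2⟩)
      (fun x hx => Finset.mem_map.2 ⟨_, Finsupp.mem_support_iff.2 hx,
        congrArg (Sigma.mk _) (neg_neg x.2)⟩), fun n g z => by
    simp only [Finsupp.onFinset_apply, ← a.conj, mul_neg, neg_mul]⟩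

@[simp] theorem ng_apply (a : H ω) (n : ℕ) (g : G F n) : ng a ⟨n, g⟩ = a ⟨n, -g⟩ := rfl

/-- all components are generalized characters -/
def Vc (a : H (1 : Fˣ →* ℂˣ)) : Prop := ∀ n, IsGeneralizedCharacter (G F n) (cm a n)

variable (ω) in
/-- homogeneous elements with all eigenvalues in `S` -/
def HS (S : I F → Prop) (n : ℕ) : Submodule ℂ (H ω) where
  carrier := {a | IsHom n a ∧ ∀ x, (∃ α ∈ eig x, ¬ S (io α)) → a x = 0}
  zero_mem' := ⟨IsHom.zero, fun _ _ => rfl⟩
  add_mem' ha hb := ⟨ha.1.add hb.1, fun x hx => by simp [ha.2 x hx, hb.2 x hx]⟩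
  smul_mem' c _ ha := ⟨ha.1.smul c, fun x hx => by simp [ha.2 x hx]⟩

/-- class parameters of `GL_n` with eigenvalues in `S` -/
def PT (S : I F → Prop) (n : ℕ) : Set (Multiset (I F × ℕ)) :=
  {τ | (∀ x ∈ τ, S x.1 ∧ 0 < x.2) ∧ (τ.map fun x => x.1.per * x.2).sum = n}

/-! ### multipartitions -/

/-- beta-sets with `N` beads -/
def Bt (N : ℕ) : Type := {X : Finset ℕ // #X = N}

instance (N : ℕ) : Zero (Bt N) := ⟨⟨range N, card_range N⟩⟩
instance (N : ℕ) : DecidableEq (Bt N) := inferInstanceAs (DecidableEq {X : Finset ℕ // #X = N})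

variable (F) in
/-- multipartitions -/
abbrev MP (N : ℕ) : Type u := I F →₀ Bt N

variable {N : ℕ}

/-- a finitely supported function -/
noncomputable def fsp (f : I F → Bt N) : MP F N := by
  classical exact if h : (Function.support f).Finite then Finsupp.ofSupportFinite f h else 0

/-- the degree -/
noncomputable def deg (μ : MP F N) : ℕ := μ.sum fun o X => o.per * sz N X.1

/-- pull back along the `r`-th power map -/
noncomputable def lift (r : ℕ) (ν : MP F N) : MP F N := fsp fun φ => ν (powI r φ)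

/-- the action of `Fˣ` -/
noncomputable def act (lam : Fˣ) (μ : MP F N) : MP F N := fsp fun φ => μ (mulI lam⁻¹ φ)

/-- the type of the degenerate Gelfand-Graev character -/
noncomputable def alpha (μ : MP F N) (i : Fin N) : ℕ := μ.sum fun o X => o.per * par N X.1 i

/-- supported on `ℓ'`-orbits -/
def Basic (ℓ : ℕ) (μ : MP F N) : Prop := ∀ o ∈ μ.support, Reg ℓ o

/-- the size of the part of `μ` over the `ℓ'`-orbit `ψ` -/
noncomputable def nn (ℓ : ℕ) (μ : MP F N) (ψ : I F) : ℕ :=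
  μ.sum fun φ X => if rpI ℓ φ = ψ then φ.per / ψ.per * sz N X.1 else 0

/-- runner counts -/
def rc (e : ℕ) (X : Finset ℕ) (j : ℕ) : ℕ := #{x ∈ X | x % e = j}

/-- the core data -/
noncomputable def cd (ℓ : ℕ) (μ : MP F N) (ψ : I F) : ℕ × (ℕ → ℕ) := by
  classical exact if Reg ℓ ψ then (nn ℓ μ ψ, rc (ee ℓ ψ) (μ ψ).1) else 0

/-- the local weight -/
noncomputable def ww (ℓ : ℕ) (μ : MP F N) (ψ : I F) : ℕ := by
  classical exact if Reg ℓ ψ then
    (nn ℓ μ ψ + SymCh.tri N - SymCh.base (SymCh.clsF (ee ℓ ψ) (μ ψ).1)) / ee ℓ ψ else 0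

/-- the weight -/
noncomputable def W (ℓ : ℕ) (μ : MP F N) : ℕ := ∑ᶠ ψ, ww ℓ μ ψ

/-- the bound for `l(B)` -/
noncomputable def bd (ℓ : ℕ) (μ : MP F N) : ℕ := by
  classical exact if ℓ ∣ Fintype.card F - 1 ∧ ¬ (ℓ = 2 ∧ ∀ ψ, Even (nn ℓ μ ψ)) then
    ℓ ^ (W ℓ μ - 1) else ℓ ^ W ℓ μ

/-- the elements of `Fˣ` which permute the covered blocks of `SL_n` freely -/
def Y1 (ℓ : ℕ) (μ : MP F N) (lam : Fˣ) : Prop :=
  ¬ ℓ ∣ orderOf lam ∧ cd ℓ (act lam μ) = cd ℓ μ ∧
    ∀ ψ, 0 < ww ℓ μ ψ → ∃ i, iu lam * ψ.rep = ψ.rep ^ Fintype.card F ^ (e0 F ℓ * i)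

/-- the twisted basic sets -/
def BS (ℓ : ℕ) (lam : Fˣ) (μ : MP F N) : Set (MP F N) :=
  {ν | Basic ℓ ν ∧ orderOf lam * deg ν = deg μ ∧ cd ℓ (lift (orderOf lam) ν) = cd ℓ μ}

/-- monomials in several families of power sums -/
def pmon {A : Type*} [CommRing A] (p : I F → ℕ → A) (τ : Multiset (I F × ℕ)) : A :=
  (τ.map fun x => p x.1 x.2).prod

/-- products of Schur functions -/
noncomputable def schur {A : Type*} [CommRing A] [Algebra ℂ A] (p : I F → ℕ → A) (μ : MP F N) :
    A := μ.prod fun o X => S (p o) N X.1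

/-! ### Green's characters -/

variable (F) in
/-- the trivial characters -/
noncomputable def one (n : ℕ) : H (1 : Fˣ →* ℂˣ) := mk 1 n 1

variable [Laws F]

/-- the primitive elements -/
noncomputable def P (k : ℕ) (ξ : (K F)ˣ) : H (1 : Fˣ →* ℂˣ) :=
  sc (fun s => (s.map fun α => (pr k ξ α : ℂ)).sum / k) (lg (one F) k)

/-- the power sums -/
noncomputable def pp (o : I F) (m : ℕ) : H (1 : Fˣ →* ℂˣ) :=
  (-1 : ℂ) ^ (o.per * m + 1) • P (o.per * m) o.rep

/-- the irreducible characters -/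
noncomputable def chi (μ : MP F N) : H (1 : Fˣ →* ℂˣ) := schur pp μ

/-- inner products on the `ℓ`-regular elements -/
noncomputable def AA (ℓ : ℕ) (μ ν : MP F N) : ℂ := ip (dd ℓ (chi μ)) (chi ν)

/-- the regular characters of the series `fib r o` -/
noncomputable def hG (r : ℕ) (o : I F) (m : ℕ) : H (1 : Fˣ →* ℂˣ) := ∏ φ ∈ fib r o, ex (pp φ) m

end Cfsg.GLn
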