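import Cfsg.Agent.GLn.Mu
import Cfsg.Agent.GLn.Defs2

/-!
# S4536: types of elements of `GL_n(F)` and the dimension bound `StDim`
-/

set_option autoImplicit false

namespace Cfsg.GLn

open Matrix Polynomial Finset

universe u

variable {F : Type u} [Field F] [Fintype F] {n i j : ℕ}

theorem aeval_pow_q (α : K F) (k : ℕ) (p : F[X]) :
    aeval (α ^ Fintype.card F ^ k) p = aeval α p ^ Fintype.card F ^ k := by
  have := aeval_algHom_apply (FiniteField.frobeniusAlgHom F (K F) ^ k) α p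
  simpa only [AlgHom.coe_pow, FiniteField.coe_frobeniusAlgHom, pow_iterate] using this

theorem exists_aeval_rep_eq {o : I F} {β : (K F)ˣ} (h : β ∈ Mk F o.per) :
    ∃ p : F[X], aeval (o.rep : K F) p = β := by
  classical
  haveI := Fact.mk (mp_irreducible o)
  have hf := (mp_monic o).ne_zero
  haveI := (AdjoinRoot.powerBasis hf).finite
  haveI : Finite (AdjoinRoot (mp o)) := Module.finite_of_finite F
  haveI := Fintype.ofFinite (AdjoinRoot (mp o))
  let φ : AdjoinRoot (mp o) →ₐ[F] K F :=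
    AdjoinRoot.liftAlgHom _ (Algebra.ofId _ _) o.rep (minpoly.aeval F _)
  have hc : Fintype.card (AdjoinRoot (mp o)) = Fintype.card F ^ o.per := by
    rw [Module.card_eq_pow_finrank (K := F), (AdjoinRoot.powerBasis hf).finrank,
      AdjoinRoot.powerBasis_dim, mp_natDegree]
  have : univ.image (Units.map (φ : AdjoinRoot (mp o) →* K F)) = Mk F o.per := by
    refine eq_of_subset_of_card_le (fun x hx => ?_) ?_
    · obtain ⟨u, -, rfl⟩ := mem_image.1 hx
      rw [mem_Mk (per_pos o), ← map_pow, ← hc]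
      exact congrArg _ (Units.ext (FiniteField.pow_card _))
    · rw [card_image_of_injective _ (Units.map_injective (f := (φ : AdjoinRoot (mp o) →* K F))
        φ.toRingHom.injective), card_univ,
        Fintype.card_units, hc, card_Mk (per_pos o)]
  obtain ⟨u, -, rfl⟩ := mem_image.1 (this ▸ h)
  obtain ⟨p, hp⟩ := AdjoinRoot.mk_surjective (u : AdjoinRoot (mp o))
  refine ⟨p, ?_⟩
  change _ = φ u
  rw [← hp, ← AdjoinRoot.aeval_eq, ← aeval_algHom_apply,
    show φ (AdjoinRoot.root _) = o.rep from AdjoinRoot.liftAlgHom_root ..]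

omit [Fintype F] in
theorem exists_unit_aeval (a : G F n) {p : F[X]} (h : ∀ α ∈ eig ⟨n, a⟩, aeval (α : K F) p ≠ 0) :
    ∃ z : G F n, z.val = aeval a.val p := by
  have : IsCoprime p (chp a) := (isCoprime_iff_aeval_ne_zero_of_isAlgClosed F (K F) _ _).2 fun β =>
    or_iff_not_imp_right.2 fun hβ => by
      obtain ⟨α, hα, rfl⟩ := Multiset.mem_map.1 ((eig_map_coe ⟨n, a⟩).symm ▸
        mem_aroots.2 ⟨chp_ne_zero a, not_not.1 hβ⟩)
      exact h α hα
  obtain ⟨u, v, huv⟩ := this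
  have h1 := congrArg (aeval a.val) huv
  rw [map_add, map_mul, map_mul, aeval_self_charpoly, mul_zero, add_zero, map_one] at h1
  exact ⟨⟨_, _, mul_eq_one_comm.1 h1, h1⟩, rfl⟩

/-- determinants in the centraliser of a primary element -/
theorem exists_commute_dt {a : G F n} {o : I F} {e : ℕ} (h : eig ⟨n, a⟩ = e • o.pts.val) (t : Fˣ) :
    ∃ z : G F n, z * a = a * z ∧ dt z = t ^ e := by
  obtain ⟨β, hβ, hn⟩ := exists_norm_eq (per_pos o) (one_dvd _) (iu_mem t)
  obtain ⟨p, hp⟩ := exists_aeval_rep_eq hβ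
  obtain ⟨z, hz⟩ := exists_unit_aeval a (p := p) fun α hα => by
    obtain ⟨k, rfl⟩ := io_eq_iff.1 ((io_rep o).trans (io_of_mem_nsmul (h ▸ hα)).symm)
    rw [Units.val_pow_eq_pow_val, aeval_pow_q, hp]
    exact pow_ne_zero _ β.ne_zero
  refine ⟨z, Units.ext ?_, iu_injective (Units.ext ?_)⟩
  · rw [Units.val_mul, Units.val_mul, hz]
    nth_rewrite 2 [← aeval_X (R := F) a.val]
    nth_rewrite 3 [← aeval_X (R := F) a.val]
    rw [← map_mul, ← map_mul, mul_comm]
  · rw [← prod_eig, ← Units.coeHom_apply, map_multiset_prod, Units.coeHom, MonoidHom.coe_mk,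
      OneHom.coe_mk, eig_map_coe_aeval p hz, h, Multiset.map_nsmul, Multiset.prod_nsmul, map_pow,
      ← hn, Units.val_pow_eq_pow_val, Nat.div_one]
    congr 1
    refine (o.prod_pts fun α => aeval (α : K F) p).trans ?_
    simp only [fr_iterate, Units.val_pow_eq_pow_val, aeval_pow_q, hp, one_mul, Units.coe_prod]

/-- `x` has the elementary divisors `τ` -/
def Ty (x : Obj F) (τ : Multiset (I F × ℕ)) : Prop :=
  ∃ (m : ℕ) (f : Fin m → I F × ℕ), univ.val.map f = τ ∧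
    Mdl x.2 _ (piRoot fun i => mp (f i).1 ^ (f i).2)

theorem exists_equiv_of_map_eq {α β γ : Type*} [Fintype α] [Fintype β] {f : α → γ} {g : β → γ}
    (h : univ.val.map f = univ.val.map g) : ∃ σ : α ≃ β, ∀ a, g (σ a) = f a := by
  classical
  refine ⟨Equiv.ofFiberEquiv (f := f) (g := g) fun c => Fintype.equivOfCardEq ?_,
    Equiv.ofFiberEquiv_map _⟩
  have := congrArg (Multiset.count c) h
  simp only [Multiset.count_map, eq_comm (a := c)] at this
  rw [Fintype.card_subtype, Fintype.card_subtype]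
  exact this

theorem Ty.conj {x y : Obj F} {τ : Multiset (I F × ℕ)} (hx : Ty x τ) (hy : Ty y τ) :
    ∃ z : G F x.1, (⟨x.1, z * x.2 * z⁻¹⟩ : Obj F) = y := by
  obtain ⟨m, f, rfl, hx⟩ := hx
  obtain ⟨m', f', e, hy⟩ := hy
  obtain ⟨σ, hσ⟩ := exists_equiv_of_map_eq e.symm
  obtain rfl : f = fun a => f' (σ a) := funext fun a => (hσ a).symm
  have := hx.equiv (T' := piRoot fun i => mp (f' i).1 ^ (f' i).2)
    (LinearEquiv.piCongrLeft F (fun i => AdjoinRoot (mp (f' i).1 ^ (f' i).2)) σ) fun v => by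
      ext i
      obtain ⟨i, rfl⟩ := σ.surjective i
      have e := fun v => Equiv.piCongrLeft_apply_apply
        (fun i => AdjoinRoot (mp (f' i).1 ^ (f' i).2)) σ v i
      exact (e _).trans (congrArg (AdjoinRoot.root _ * ·) (e v).symm)
  obtain ⟨n, x⟩ := x
  obtain ⟨n', y⟩ := y
  obtain rfl : n = n' := this.finrank.symm.trans hy.finrank
  obtain ⟨z, rfl⟩ := this.conj hy
  exact ⟨z, rfl⟩

theorem Ty.of_conj {g : G F n} {τ : Multiset (I F × ℕ)} (h : Ty ⟨n, g⟩ τ) (z : G F n) :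
    Ty ⟨n, z * g * z⁻¹⟩ τ :=
  let ⟨m, f, e, h⟩ := h; ⟨m, f, e, h.of_conj z⟩

theorem Ty.nil : Ty (⟨0, 1⟩ : Obj F) 0 :=
  ⟨0, Fin.elim0, by simp, LinearEquiv.ofSubsingleton _ _, fun _ => Subsingleton.elim _ _⟩

theorem Ty.cons {a : G F i} {c : I F × ℕ} (ha : IsCyc a (mp c.1 ^ c.2)) {y : Obj F}
    {τ : Multiset (I F × ℕ)} (hy : Ty y τ) : Ty ⟨i + y.1, diag (a, y.2)⟩ (c ::ₘ τ) := by
  obtain ⟨m, f, rfl, hy⟩ := hy
  refine ⟨m + 1, Fin.cons c f, ?_, Mdl.cons ha hy⟩
  rw [Fin.univ_succ, Finset.cons_val, Multiset.map_cons, Finset.map_val, Multiset.map_map]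
  rfl

theorem exists_ty_of (τ : Multiset (I F × ℕ)) : ∃ x : Obj F, Ty x τ := by
  induction τ using Multiset.induction_on with
  | empty => exact ⟨_, Ty.nil⟩
  | cons c τ ih =>
    obtain ⟨a, ha, -⟩ := exists_isCyc_mp c.1 c.2
    exact ⟨_, Ty.cons ha ih.choose_spec⟩

theorem exists_ty (x : Obj F) : ∃ τ : Multiset (I F × ℕ), (∀ c ∈ τ, 0 < c.2) ∧ Ty x τ := by
  obtain ⟨m, f, e, hf, h⟩ := exists_mdl_piRoot x.2
  choose o ho using fun i => exists_mp (hf i).1 (hf i).2.1 (hf i).2.2.1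
  obtain rfl : f = fun i => mp (o i) := funext fun i => (ho i).symm
  refine ⟨_, fun c hc => ?_, m, fun i => (o i, e i), rfl, h⟩
  obtain ⟨i, -, rfl⟩ := Multiset.mem_map.1 hc
  exact (hf i).2.2.2

theorem Ty.split {x : Obj F} {c : I F × ℕ} {τ : Multiset (I F × ℕ)} (h : Ty x (c ::ₘ τ)) :
    ∃ (a : G F (c.1.per * c.2)) (y : Obj F) (z : G F x.1), IsCyc a (mp c.1 ^ c.2) ∧
      eig ⟨_, a⟩ = c.2 • c.1.pts.val ∧ Ty y τ ∧
      (⟨x.1, z * x.2 * z⁻¹⟩ : Obj F) = ⟨_ + y.1, diag (a, y.2)⟩ := by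
  obtain ⟨a, ha, ha'⟩ := exists_isCyc_mp c.1 c.2
  obtain ⟨y, hy⟩ := exists_ty_of τ
  obtain ⟨z, hz⟩ := h.conj (Ty.cons ha hy)
  exact ⟨a, y, z, ha, ha', hy, hz⟩

variable [DecidableEq F] {ω : Fˣ →* ℂˣ}

theorem Ty.eig_eq {x : Obj F} {τ : Multiset (I F × ℕ)} (h : Ty x τ) :
    eig x = (τ.map fun c => c.2 • c.1.pts.val).sum := by
  induction τ using Multiset.induction_on generalizing x with
  | empty =>
    obtain ⟨z, hz⟩ := h.conj Ty.nil
    rw [← eig_conj x.2 z, hz, eig_zero]; rfl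
  | cons c τ ih =>
    obtain ⟨a, y, z, -, ha, hy, hz⟩ := h.split
    rw [← eig_conj x.2 z, hz, eig_diag, ha, ih hy, Multiset.map_cons, Multiset.sum_cons]

theorem Ty.deg {x : Obj F} {τ : Multiset (I F × ℕ)} (h : Ty x τ) :
    (τ.map fun c => c.1.per * c.2).sum = x.1 := by
  rw [← card_eig, h.eig_eq]
  refine .symm ((map_multiset_sum Multiset.cardHom _).trans ?_)
  simp [Multiset.cardHom, Dyn.Orb.card_pts, mul_comm]

theorem Ty.rep_mem_eig {x : Obj F} {τ : Multiset (I F × ℕ)} (h : Ty x τ) {c : I F × ℕ}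
    (hc : c ∈ τ) (h0 : 0 < c.2) : c.1.rep ∈ eig x := by
  obtain ⟨τ, rfl⟩ := Multiset.exists_cons_of_mem hc
  rw [h.eig_eq, Multiset.map_cons, Multiset.sum_cons, Multiset.mem_add,
    Multiset.mem_nsmul_of_ne_zero h0.ne']
  exact .inl (mem_pts.2 (io_rep _))

theorem H.om_eq_one (a : H ω) {g z : G F n} (hg : a ⟨n, g⟩ ≠ 0) (h : z * g = g * z) :
    ω (dt z) = 1 := by
  have := a.conj g z
  rw [h, mul_inv_cancel_right] at this
  exact Units.ext ((mul_eq_right₀ hg).1 this.symm)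

theorem H.conj_ne_zero (a : H ω) {g : G F n} (hg : a ⟨n, g⟩ ≠ 0) (z : G F n) :
    a ⟨n, z * g * z⁻¹⟩ ≠ 0 := by
  rw [a.conj]; exact mul_ne_zero (Units.ne_zero _) hg

theorem Ty.orderOf_dvd {x : Obj F} {τ : Multiset (I F × ℕ)} (h : Ty x τ) {a : H ω} (hx : a x ≠ 0)
    {c : I F × ℕ} (hc : c ∈ τ) : orderOf ω ∣ c.2 := by
  obtain ⟨τ, rfl⟩ := Multiset.exists_cons_of_mem hc
  obtain ⟨b, y, z, -, hb, -, hz⟩ := h.split
  have h1 := a.conj_ne_zero (g := x.2) hx z
  rw [hz] at h1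
  refine orderOf_dvd_of_pow_eq_one (MonoidHom.ext fun t => ?_)
  obtain ⟨w, hw, hw'⟩ := exists_commute_dt hb t
  have := a.om_eq_one h1 (z := diag (w, 1)) (by rw [← map_mul, ← map_mul]; simp [hw])
  rwa [dt_diag, map_one, mul_one, hw', map_pow] at this

omit [DecidableEq F] in
theorem finite_PT (S : I F → Prop) (n : ℕ) : (PT S n).Finite := by
  classical
  have h : {o : I F | o.per ≤ n}.Finite :=
    ((allPer F).finite_orb (finite_fix n.factorial_pos)).subset fun o ho =>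
      Nat.dvd_factorial (per_pos o) ho
  refine (Set.finite_Iic (n • (h.toFinset ×ˢ range (n + 1)).val)).subset fun τ ⟨h1, h2⟩ => ?_
  refine Multiset.le_iff_count.2 fun c => ?_
  by_cases hc : c ∈ τ
  · have h3 : c.1.per * c.2 ≤ n :=
      h2 ▸ Multiset.single_le_sum (by simp) _ (Multiset.mem_map_of_mem _ hc)
    have h4 := per_pos c.1
    have h5 := (h1 c hc).2
    rw [Multiset.count_nsmul, Multiset.count_eq_one_of_mem (Finset.nodup _) (mem_product.2
      ⟨h.mem_toFinset.2 (show c.1.per ≤ n by nlinarith), mem_range.2 (by nlinarith)⟩), mul_one]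
    refine (Multiset.count_le_card _ _).trans ?_
    rw [← h2, ← Multiset.card_map (fun x : I F × ℕ => x.1.per * x.2), ← mul_one (Multiset.card _),
      ← smul_eq_mul]
    refine Multiset.card_nsmul_le_sum fun k hk => ?_
    obtain ⟨c, hc, rfl⟩ := Multiset.mem_map.1 hk
    exact Nat.mul_pos (per_pos _) (h1 c hc).2
  · simp [hc]

omit [DecidableEq F] in
theorem orderOf_om_pos (ω : Fˣ →* ℂˣ) : 0 < orderOf ω := by
  obtain ⟨lam, rfl⟩ := chr_bijective.2 ω
  rw [orderOf_chr]; exact orderOf_pos _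

/-- the supports of the elements of `HS` -/
theorem exists_PT_of_ne_zero {S : I F → Prop} {a : H ω} (ha : a ∈ HS ω S n) {x : Obj F}
    (hx : a x ≠ 0) : orderOf ω ∣ n ∧ ∃ τ ∈ PT S (n / orderOf ω),
      Ty x (τ.map fun c => (c.1, orderOf ω * c.2)) := by
  obtain ⟨τ, h0, hτ⟩ := exists_ty x
  have hr := orderOf_om_pos ω
  have e : (τ.map fun c => (c.1, c.2 / orderOf ω)).map (fun c => (c.1, orderOf ω * c.2)) = τ := by
    rw [Multiset.map_map]
    refine (Multiset.map_congr rfl fun c hc => ?_).trans (Multiset.map_id τ)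
    exact Prod.ext rfl (Nat.mul_div_cancel' (hτ.orderOf_dvd hx hc))
  have hn : n = orderOf ω *
      ((τ.map fun c => (c.1, c.2 / orderOf ω)).map fun c => c.1.per * c.2).sum := by
    rw [← not_not.1 (mt (ha.1 x) hx), ← hτ.deg, ← Multiset.sum_map_mul_left]
    conv_lhs => rw [← e, Multiset.map_map]
    simp only [Function.comp_def, mul_left_comm]
  refine ⟨⟨_, hn⟩, _, ⟨fun c hc' => ?_, ?_⟩, e.symm ▸ hτ⟩
  · obtain ⟨c, hc, rfl⟩ := Multiset.mem_map.1 hc'
    refine ⟨by_contra fun h => hx (ha.2 x ⟨_, hτ.rep_mem_eig hc (h0 c hc), by rwa [io_rep]⟩), ?_⟩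
    exact Nat.div_pos (Nat.le_of_dvd (h0 c hc) (hτ.orderOf_dvd hx hc)) hr
  · conv_rhs => rw [hn, Nat.mul_div_cancel_left _ hr]

variable (F) in
theorem stDim : StDim F := fun S n => ⟨finite_PT S n, fun ω => by
  split_ifs with h
  · haveI := (finite_PT S (n / orderOf ω)).fintype
    choose rep hrep using exists_ty_of (F := F)
    let L : HS ω S n →ₗ[ℂ] PT S (n / orderOf ω) → ℂ := LinearMap.pi fun τ =>
      H.ev (rep (τ.1.map fun c => (c.1, orderOf ω * c.2))) ∘ₗ (HS ω S n).subtype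
    have hL : Function.Injective L := (injective_iff_map_eq_zero L).2 fun a ha =>
      Subtype.ext (H.ext fun x => by_contra fun hx => by
        obtain ⟨-, τ, h1, h2⟩ := exists_PT_of_ne_zero a.2 hx
        obtain ⟨z, hz⟩ := h2.conj (hrep _)
        exact a.1.conj_ne_zero (g := x.2) hx z (hz ▸ congrFun ha ⟨τ, h1⟩))
    refine (LinearMap.finrank_le_finrank_of_injective hL).trans ?_
    rw [Module.finrank_fintype_fun_eq_card, ← Nat.card_eq_fintype_card, Nat.card_coe_set_eq]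
  · rw [(Submodule.eq_bot_iff _).2 fun a ha => H.ext fun x => by_contra fun hx =>
      h (exists_PT_of_ne_zero ha hx).1, finrank_bot]⟩

end Cfsg.GLn
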