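import Cfsg.Agent.GLn.Mackey
import Cfsg.Agent.GLn.Comm

/-! The ring laws and the Mackey formula hold in the Hall algebra. -/

set_option autoImplicit false

namespace Cfsg.GLn

universe u

instance laws (F : Type u) [Field F] [Fintype F] [DecidableEq F] : Laws F :=
  laws_of_raw fun ω => rawMackey ω

end Cfsg.GLn
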