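import Cfsg.Agent.GLn.Dim
import Cfsg.Agent.GLn.ArC
import Cfsg.Agent.GLn.GG2
import Cfsg.Agent.GLn.Fock

/-!
# S4536: the Gram matrix of the truncated twisted power sums (`StTwD`)
-/

set_option autoImplicit false

namespace Cfsg.GLn

open Finset Polynomial ComplexConjugate

universe u

variable {F : Type u} [Field F] [Fintype F] [DecidableEq F] {ω : Fˣ →* ℂˣ} {ℓ r : ℕ}

theorem eig_of_Gam {n : ℕ} {x : Obj F} (h : Gam ω n x ≠ 0) {α : (K F)ˣ} (hα : α ∈ eig x) :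
    α = 1 := by
  have := mem_eig.1 hα
  rw [chp, charpoly_of_Gam h, map_pow, map_sub, aeval_X, map_one] at this
  exact Units.ext (sub_eq_zero.1 (eq_zero_of_pow_eq_zero this))

theorem dd_Gam [hl : Fact ℓ.Prime] (n : ℕ) : dd ℓ (Gam ω n) = Gam ω n := H.ext fun x => by
  rw [dd_apply]
  split_ifs with h
  · obtain ⟨α, h1, h2⟩ := h
    refine .symm (by_contra fun h => ?_)
    rw [eig_of_Gam h h1, orderOf_one] at h2
    exact hl.out.not_dvd_one h2
  · rfl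

theorem mem_HS_reg {a : H ω} {n : ℕ} (h : IsHom n a) : dd ℓ a ∈ HS ω (Reg ℓ) n :=
  ⟨h.dd ℓ, fun x ⟨α, h1, h2⟩ => by
    rw [dd_apply, if_pos ⟨α, h1, by rwa [Reg, not_not, orderOf_rep_io] at h2⟩]⟩

theorem dd_eq_of_ip {a : H ω} (h : ip (dd ℓ a) a = ip a a) : dd ℓ a = a := by
  refine sub_eq_zero.1 (eq_zero_of_ip_self ?_)
  rw [ip_sub_left, ip_sub_right, ip_sub_right, ip_dd_dd, ← ip_dd, h]; simp

variable [Laws F] {p : I F → ℕ → H ω}

theorem dd_lg_Gam [Fact ℓ.Prime] (n : ℕ) : dd ℓ (lg (Gam ω) n) = lg (Gam ω) n :=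
  (map_lg (ddA ℓ : H ω →ₐ[ℂ] H ω).toRingHom _ n).trans
    (congrFun (congrArg _ (funext fun k => dd_Gam k)) n)

namespace TwD

omit [Laws F] in
theorem div_pos' {k : ℕ} (hk : 0 < k) {o : I F} (ho : o ∈ Ok F k) : 0 < k / o.per :=
  Nat.div_pos (Nat.le_of_dvd hk ((mem_Ok hk).1 ho)) (per_pos o)

omit [Laws F] in
/-- sums of power sums of degree `k` -/
noncomputable def sv (p : I F → ℕ → H ω) (k : ℕ) (s : Finset (I F)) : H ω :=
  ∑ o ∈ s, (o.per : ℂ) • p o (k / o.per)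

theorem prim_sv (hp : Fk r p) {k : ℕ} (hk : 0 < k) {s : Finset (I F)} (hs : s ⊆ Ok F k) :
    Prim (sv p k s) := Prim.sum fun o ho => (hp.prim o _ (div_pos' hk (hs ho))).smul _

theorem isHom_sv (hp : Fk r p) {k : ℕ} (hk : 0 < k) {s : Finset (I F)} (hs : s ⊆ Ok F k) :
    IsHom (r * k) (sv p k s) := IsHom.sum fun o ho => by
  have := hp.hom o _ (div_pos' hk (hs ho))
  rw [Nat.mul_div_cancel' ((mem_Ok hk).1 (hs ho))] at this
  exact this.smul _

theorem ip_sv_p (hp : Fk r p) {k : ℕ} (hk : 0 < k) {s : Finset (I F)} (hs : s ⊆ Ok F k) (o : I F)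
    {m : ℕ} (hm : 0 < m) : ip (sv p k s) (p o m) = if o ∈ s ∧ o.per * m = k then (k : ℂ) else 0 := by
  have key : ∀ o' ∈ s, o' ≠ o → ip ((o'.per : ℂ) • p o' (k / o'.per)) (p o m) = 0 := fun o' ho' e => by
    rw [ip_smul_left, hp.ip _ _ _ _ (div_pos' hk (hs ho')) hm, if_neg fun h => e h.1, mul_zero]
  rw [sv, ip_sum_left]
  by_cases h : o ∈ s
  · rw [sum_eq_single_of_mem o h key, ip_smul_left, hp.ip _ _ _ _ (div_pos' hk (hs h)) hm]
    obtain ⟨c, rfl⟩ := (mem_Ok hk).1 (hs h)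
    rw [Nat.mul_div_cancel_left _ (per_pos o)]
    by_cases e : c = m
    · simp [h, e]
    · simp [e, Ne.symm e, (per_pos o).ne']
  · rw [if_neg fun h' => h h'.1]
    exact sum_eq_zero fun o' ho' => key o' ho' fun e => h (e ▸ ho')

theorem ip_sv_sv (hp : Fk r p) {k : ℕ} (hk : 0 < k) {s t : Finset (I F)} (hs : s ⊆ Ok F k)
    (ht : t ⊆ Ok F k) : ip (sv p k s) (sv p k t) = k * ∑ o ∈ t ∩ s, (o.per : ℂ) := by
  nth_rewrite 2 [sv]
  rw [ip_sum_right, ← sum_ite_mem, mul_sum]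
  refine sum_congr rfl fun o ho => ?_
  rw [ip_smul_right, ip_sv_p hp hk hs o (div_pos' hk (ht ho)),
    Nat.mul_div_cancel' ((mem_Ok hk).1 (ht ho))]
  split_ifs <;> simp_all [mul_comm]

theorem lg_Gam_eq (hp : Fk r p) (hS : Sch F r p) {k : ℕ} (hk : 0 < k) :
    lg (Gam ω) (r * k) = (r : ℂ) • sv p k (Ok F k) := by
  have hr : 0 < r := hp.ord ▸ orderOf_om_pos ω
  have h1 := (grpLike_Gam ω).prim_lg (r * k)
  refine sub_eq_zero.1 (hS.cplP _ ?_ fun o m hm => ?_)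
  · rw [sub_eq_add_neg, ← neg_smul]
    exact h1.add ((prim_sv hp hk subset_rfl).smul _)
  · rw [ip_sub_left, ip_smul_left, ip_sv_p hp hk subset_rfl o hm, ← ip_conj,
      (hp.prim o m hm).ip_lg (grpLike_Gam ω), sub_eq_zero]
    by_cases e : o.per * m = k
    · rw [if_pos ⟨(mem_Ok hk).2 ⟨m, e.symm⟩, e⟩, ← e, hp.gam o m hm]; simp
    · rw [if_neg fun h => e h.2, (hp.hom o m hm).ip_eq_zero (Gam_isHom ω _)
        fun h => e (Nat.eq_of_mul_eq_mul_left hr h)]; simp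

variable (ℓ) in
/-- the `ℓ`-regular primitive elements -/
noncomputable def vv (p : I F → ℕ → H ω) (ψ : I F) (k : ℕ) : H ω :=
  sv p k {o ∈ Ok F k | rpI ℓ o = ψ}

variable [Fact ℓ.Prime]

theorem dd_vv (hp : Fk r p) (hS : Sch F r p) (ha : ∀ o m o' m', 0 < m → 0 < m' →
    rpI ℓ o ≠ rpI ℓ o' → ip (dd ℓ (p o m)) (p o' m') = 0) (ψ : I F) {k : ℕ} (hk : 0 < k) :
    dd ℓ (vv ℓ p ψ k) = vv ℓ p ψ k := by
  have hr : (r : ℂ) ≠ 0 := Nat.cast_ne_zero.2 (hp.ord ▸ orderOf_om_pos ω).ne'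
  have e : sv p k (Ok F k) = vv ℓ p ψ k + sv p k {o ∈ Ok F k | ¬ rpI ℓ o = ψ} :=
    (sum_filter_add_sum_filter_not _ _ _).symm
  have h1 : dd ℓ (sv p k (Ok F k)) = sv p k (Ok F k) := smul_right_injective _ hr <| by
    simp only [← map_smul, ← lg_Gam_eq hp hS hk, dd_lg_Gam]
  have h2 : ip (dd ℓ (vv ℓ p ψ k)) (sv p k {o ∈ Ok F k | ¬ rpI ℓ o = ψ}) = 0 := by
    simp only [vv, sv, map_sum, map_smul, ip_sum_left, ip_sum_right, ip_smul_left, ip_smul_right]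
    refine sum_eq_zero fun o ho => mul_eq_zero_of_right _ (sum_eq_zero fun o' ho' => ?_)
    rw [mem_filter] at ho ho'
    rw [ha _ _ _ _ (div_pos' hk ho'.1) (div_pos' hk ho.1) fun h => ho.2 (h ▸ ho'.2), mul_zero]
  have h3 : ip (vv ℓ p ψ k) (sv p k {o ∈ Ok F k | ¬ rpI ℓ o = ψ}) = 0 := by
    rw [vv, ip_sv_sv hp hk (filter_subset _ _) (filter_subset _ _),
      disjoint_iff_inter_eq_empty.1 (disjoint_filter_filter_not _ _ _).symm, sum_empty, mul_zero]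
  have h4 := ip_dd ℓ (vv ℓ p ψ k) (sv p k (Ok F k))
  rw [h1, e, ip_add_right, ip_add_right, h2, h3, add_zero, add_zero] at h4
  exact dd_eq_of_ip h4

theorem ip_vv_vv (hp : Fk r p) {ψ : I F} (hψ : Reg ℓ ψ) {k : ℕ} (hk : 0 < k) (hd : ψ.per ∣ k) :
    ip (vv ℓ p ψ k) (vv ℓ p ψ k) = k * (ψ.per * nl F ℓ k : ℕ) := by
  rw [vv, ip_sv_sv hp hk (filter_subset _ _) (filter_subset _ _), inter_self, ← Nat.cast_sum,
    sum_per_rpI hψ hk hd]

omit [Fact ℓ.Prime] in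
theorem ip_vv_ne (hp : Fk r p) {ψ ψ' : I F} (h : ψ ≠ ψ') {k : ℕ} (hk : 0 < k) :
    ip (vv ℓ p ψ k) (vv ℓ p ψ' k) = 0 := by
  rw [vv, vv, ip_sv_sv hp hk (filter_subset _ _) (filter_subset _ _), sum_eq_zero, mul_zero]
  intro o ho
  simp only [mem_inter, mem_filter] at ho
  exact (h (ho.2.2.symm.trans ho.1.2)).elim

theorem prod_mem_HS {S : I F → Prop} {ι : Type*} {s : Multiset ι} {a : ι → H ω} {n : ι → ℕ}
    (h : ∀ i ∈ s, a i ∈ HS ω S (n i)) : (s.map a).prod ∈ HS ω S (s.map n).sum := by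
  induction s using Multiset.induction_on with
  | empty => exact one_mem_HS
  | cons i s ih =>
    simp only [Multiset.map_cons, Multiset.prod_cons, Multiset.sum_cons]
    exact mul_mem_HS (h i (Multiset.mem_cons_self _ _))
      (ih fun j hj => h j (Multiset.mem_cons_of_mem hj))

/-- an `ℓ`-regular primitive element orthogonal to all `vv` vanishes -/
theorem eq_zero_of_vv (hD : StDim F) (hp : Fk r p) (hv : ∀ ψ k, 0 < k →
    dd ℓ (vv ℓ p ψ k) = vv ℓ p ψ k) {k : ℕ} {a : H ω} (ha : a ∈ HS ω (Reg ℓ) (r * k)) (hP : Prim a)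
    (h : ∀ ψ, Reg ℓ ψ → ψ.per ∣ k → 0 < k → ip (vv ℓ p ψ k) a = 0) : a = 0 := by
  have hr : 0 < r := hp.ord ▸ orderOf_om_pos ω
  let v : I F × ℕ → H ω := fun c => vv ℓ p c.1 (c.1.per * c.2)
  have hpos : ∀ c : I F × ℕ, 0 < c.2 → 0 < c.1.per * c.2 := fun c => Nat.mul_pos (per_pos _)
  have h1 : ∀ c : I F × ℕ, 0 < c.2 → Prim (v c) := fun c hc =>
    prim_sv hp (hpos c hc) (filter_subset _ _)
  have h2 : ∀ c : I F × ℕ, 0 < c.2 → IsHom (r * (c.1.per * c.2)) (v c) := fun c hc =>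
    isHom_sv hp (hpos c hc) (filter_subset _ _)
  have hli := (linearIndependent_multiset (s := {c | Reg ℓ c.1 ∧ 0 < c.2}) (a := v)
    (fun c hc => h1 c hc.2) (fun c hc h0 => by
      have := ip_vv_vv hp hc.1 (hpos c hc.2) ⟨_, rfl⟩
      rw [show vv ℓ p c.1 _ = 0 from h0, ip_zero_left, ← Nat.cast_mul, eq_comm,
        Nat.cast_eq_zero] at this
      exact (Nat.mul_pos (hpos c hc.2) (Nat.mul_pos (per_pos _) (nl_pos _))).ne' this)
    fun c hc c' hc' e => by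
      by_cases e1 : c.1.per * c.2 = c'.1.per * c'.2
      · refine (congrArg (fun k => ip (v c) (vv ℓ p c'.1 k)) e1.symm).trans
          (ip_vv_ne hp (fun e2 => e (Prod.ext e2 ?_)) (hpos c hc.2))
        exact Nat.eq_of_mul_eq_mul_left (per_pos _) (e2 ▸ e1)
      · exact (h2 c hc.2).ip_eq_zero (h2 c' hc'.2) fun e2 =>
          e1 (Nat.eq_of_mul_eq_mul_left hr e2)).comp
    (fun τ : PT (F := F) (Reg ℓ) k => ⟨τ.1, τ.2.1⟩) fun τ τ' e => Subtype.ext (congrArg (·.1) e)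
  have hm : ∀ τ : PT (F := F) (Reg ℓ) k, (τ.1.map v).prod ∈ HS ω (Reg ℓ) (r * k) := fun τ => by
    have := prod_mem_HS (S := Reg ℓ) (s := τ.1) (a := v) fun c hc =>
      hv _ _ (hpos c (τ.2.1 c hc).2) ▸ mem_HS_reg (h2 c (τ.2.1 c hc).2)
    rwa [Multiset.sum_map_mul_left, τ.2.2] at this
  haveI := (hD (Reg ℓ) k).1.fintype
  haveI : FiniteDimensional ℂ (HS ω (Reg ℓ) (r * k)) :=
    Submodule.finiteDimensional_of_le (S₂ := Hn ω (r * k)) fun _ h => h.1
  have hle := (hD (Reg ℓ) (r * k)).2 ω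
  rw [hp.ord, if_pos ⟨k, rfl⟩, Nat.mul_div_cancel_left _ hr, ← Nat.card_coe_set_eq,
    Nat.card_eq_fintype_card, ← finrank_span_eq_card hli] at hle
  have heq := Submodule.eq_of_le_of_finrank_le
    (Submodule.span_le.2 (Set.range_subset_iff.2 hm)) hle
  have h3 : ∀ b ∈ HS ω (Reg ℓ) (r * k), ipL a b = 0 := fun b hb => by
    refine (Submodule.span_le (p := LinearMap.ker (ipL a))).2 ?_ (heq ▸ hb)
    rintro _ ⟨⟨τ, hτ, hk⟩, rfl⟩
    refine (ipL_apply _ _).trans ?_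
    change ip (τ.map v).prod a = 0
    induction τ using Multiset.induction_on with
    | empty => exact hP.one_ip
    | cons c τ _ =>
      have hc := hτ c (Multiset.mem_cons_self _ _)
      rw [Multiset.map_cons, Multiset.prod_cons, hP.ip_mul, (h1 c hc.2).ip_one, zero_mul, add_zero]
      induction τ using Multiset.induction_on with
      | empty =>
        obtain rfl : c.1.per * c.2 = k := by simpa using hk
        rw [h _ hc.1 ⟨_, rfl⟩ (hpos c hc.2), zero_mul]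
      | cons c' τ _ =>
        rw [Multiset.map_cons, Multiset.prod_cons, ip_mul_one,
          (h1 c' (hτ c' (by simp)).2).ip_one, zero_mul, mul_zero]
  exact eq_zero_of_ip_self ((ipL_apply _ _).symm.trans (h3 a ha))

theorem gr_of (hD : StDim F) (hp : Fk r p) (hS : Sch F r p) (ha : ∀ o m o' m', 0 < m → 0 < m' →
    rpI ℓ o ≠ rpI ℓ o' → ip (dd ℓ (p o m)) (p o' m') = 0) : Gr ℓ p := fun o m o' m' hm hm' => by
  have hk : 0 < o.per * m := Nat.mul_pos (per_pos _) hm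
  have hv := fun ψ k (hk : 0 < k) => dd_vv hp hS ha ψ hk
  have hd : (rpI ℓ o).per ∣ o.per * m := (per_rpI_dvd o).mul_right m
  have h0 : (((rpI ℓ o).per * nl F ℓ (o.per * m) : ℕ) : ℂ) ≠ 0 :=
    Nat.cast_ne_zero.2 (Nat.mul_pos (per_pos _) (nl_pos _)).ne'
  have e : dd ℓ (p o m) = (((rpI ℓ o).per * nl F ℓ (o.per * m) : ℕ) : ℂ)⁻¹ •
      vv ℓ p (rpI ℓ o) (o.per * m) := by
    refine sub_eq_zero.1 (eq_zero_of_vv hD hp hv (sub_mem (mem_HS_reg (hp.hom o m hm))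
      (Submodule.smul_mem _ _ (hv _ _ hk ▸ mem_HS_reg (isHom_sv hp hk (filter_subset _ _))))) ?_
      fun ψ hψ _ _ => ?_)
    · rw [sub_eq_add_neg, ← neg_smul]
      exact ((hp.prim o m hm).dd ℓ).add ((prim_sv hp hk (filter_subset _ _)).smul _)
    · rw [ip_sub_right, ← ip_dd, hv _ _ hk, ip_smul_right, map_inv₀, map_natCast, sub_eq_zero]
      by_cases e : rpI ℓ o = ψ
      · subst e
        rw [ip_vv_vv hp hψ hk hd, vv, ip_sv_p hp hk (filter_subset _ _) o hm,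
          if_pos ⟨mem_filter.2 ⟨(mem_Ok hk).2 ⟨_, rfl⟩, rfl⟩, rfl⟩, mul_comm _ (Nat.cast _),
          inv_mul_cancel_left₀ h0]
      · rw [ip_vv_ne hp (Ne.symm e) hk, vv, ip_sv_p hp hk (filter_subset _ _) o hm,
          mul_zero, if_neg]
        exact fun h => e (mem_filter.1 h.1).2
  rw [e, ip_smul_left, vv, ip_sv_p hp hk (filter_subset _ _) o' hm', gram, mul_ite, mul_zero,
    div_eq_inv_mul]
  refine if_congr ⟨fun h => ⟨h.2.symm, (mem_filter.1 h.1).2.symm⟩, fun h =>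
    ⟨mem_filter.2 ⟨(mem_Ok hk).2 ⟨_, h.1⟩, h.2.symm⟩, h.1.symm⟩⟩ rfl rfl

omit [Fact ℓ.Prime] [DecidableEq F] [Laws F] in
theorem schur_single' {A : Type*} [CommRing A] [Algebra ℂ A] {N : ℕ} (p : I F → ℕ → A) (o : I F)
    {X : Bt N} (hX : X ≠ 0) : schur p (Finsupp.single o X) = S (p o) N X.1 := by
  rw [schur, Finsupp.prod, Finsupp.support_single _ hX, prod_singleton, Finsupp.single_eq_same]

omit [DecidableEq F] [Laws F] in
theorem cd_lift_ne {N : ℕ} (hr : 0 < r) {o o' : I F} (h : rpI ℓ o ≠ rpI ℓ o') {X : Bt N} (hX : X ≠ 0)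
    (X' : Bt N) : cd ℓ (lift r (Finsupp.single o X)) ≠ cd ℓ (lift r (Finsupp.single o' X')) :=
  fun e => by
    obtain ⟨φ, rfl⟩ := powI_surjective hr o
    have := nn_eq_zero_iff.1 ((congrFun (nn_eq_of_cd e) (rpI ℓ φ)).trans
      (nn_eq_zero_iff.2 fun φ' h' => ?_)) φ rfl
    · rw [lift_apply hr, Finsupp.single_eq_same] at this
      exact hX this
    · rw [lift_apply hr, Finsupp.single_eq_of_ne]
      rintro rfl
      exact h (by rw [rpI_powI, rpI_powI, h'])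

omit [Fact ℓ.Prime] in
theorem pT_mem_span (hT : StTw F) (lam : Fˣ) (o : I F) {m N : ℕ} (hm : 0 < m)
    (hN : orderOf lam * (o.per * m) ≤ N) : pT lam o m ∈ Submodule.span ℂ
      {a | ∃ X : Bt N, X ≠ 0 ∧ deg (lift (orderOf lam) (Finsupp.single o X)) ≤ N ∧
        a = sG lam (lift (orderOf lam) (Finsupp.single o X))} := by
  have h1 : m ≤ N := le_trans (Nat.le_mul_of_pos_left _ (per_pos o))
    ((Nat.le_mul_of_pos_left _ (orderOf_pos lam)).trans hN)
  have := pm_eq_sum_S (pT lam o) h1 (ρ := {m}) (SymCh.mem_ptn.2 ⟨by simp, by simpa⟩)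
  rw [show pm (pT lam o) {m} = pT lam o m by simp [pm]] at this
  rw [this]
  refine Submodule.sum_mem _ fun X hX => Submodule.smul_mem _ _ (Submodule.subset_span ?_)
  let Y : Bt N := ⟨X, (SymCh.mem_bs.1 hX).1⟩
  have hY : sz N Y.1 = m := sz_of_mem hX
  have h0 : Y ≠ 0 := fun h => hm.ne' (hY ▸ Bt.sz_eq_zero_iff.2 h)
  have h2 : orderOf lam * deg (Finsupp.single o Y) ≤ N := by rwa [deg_single, hY]
  exact ⟨Y, h0, by rwa [deg_lift_orderOf], by rw [← (hT lam).2 N _ h2, schur_single' _ _ h0]⟩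

end TwD

variable (F ℓ) in
theorem stTwD [Fact ℓ.Prime] (hT : StTw F) (h4 : StH4 F ℓ) (hS : StSch F) (hD : StDim F) :
    StTwD F ℓ := fun lam => by
  refine TwD.gr_of hD (hT lam).1 (hS _ _ _ (hT lam).1) fun o m o' m' hm hm' h => ?_
  have h1 := TwD.pT_mem_span hT lam o hm (Nat.le_add_right _ (orderOf lam * (o'.per * m')))
  have h2 := TwD.pT_mem_span hT lam o' hm' (Nat.le_add_left _ (orderOf lam * (o.per * m)))
  generalize pT lam o m = a at h1
  generalize pT lam o' m' = b at h2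
  induction h1 using Submodule.span_induction with
  | zero => simp
  | add _ _ _ _ h h' => rw [map_add, ip_add_left, h, h', add_zero]
  | smul _ _ _ h => rw [map_smul, ip_smul_left, h, mul_zero]
  | mem a ha =>
  induction h2 using Submodule.span_induction with
  | zero => simp
  | add _ _ _ _ h h' => rw [ip_add_right, h, h', add_zero]
  | smul _ _ _ h => rw [ip_smul_right, h, mul_zero]
  | mem b hb =>
  obtain ⟨X, hX, hd, rfl⟩ := ha
  obtain ⟨Y, -, hd', rfl⟩ := hb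
  exact h4 lam _ _ _ hd hd' (TwD.cd_lift_ne (orderOf_pos lam) h hX Y)

end Cfsg.GLn
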