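import Cfsg.Agent.GLn.Set
import Cfsg.Agent.GLn.Peel
import Cfsg.Agent.GLn.Two
import Cfsg.Agent.GLn.TwD
import Cfsg.Agent.GLn.Cnt
import Cfsg.Agent.GLn.DGb
import Cfsg.Agent.GLn.Laws

/-! Assembly of S4536 from the pieces. -/

set_option autoImplicit false

namespace Cfsg.GLn

open ComplexConjugate Finset

universe u v

theorem transport_iso {G : Type u} {H : Type v} [Group G] [Group H] [Finite G] (e : H ≃* G)
    {p s : ℕ} {M : Ideal AlgInt} (hM : IsPModular p M)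
    (h : ∀ (b : Set (IrrCharacter H)) (Q : Subgroup H), IsPBlock M b → IsDefectGroup p M b Q →
      SectionalPRankLE p s Q → blockRank p b ≤ p ^ s)
    {B : Set (IrrCharacter G)} (hB : IsPBlock M B) {D : Subgroup G} (hD : IsDefectGroup p M B D)
    (hs : SectionalPRankLE p s D) : blockRank p B ≤ p ^ s := by
  have : Finite H := Finite.of_equiv _ e.symm.toEquiv
  have := Fintype.ofFinite H
  have hb := hB.image_comap_of_not_dvd hM e.toMonoidHom e.surjective (by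
    rw [(MonoidHom.ker_eq_bot_iff _).2 e.injective, Subgroup.card_bot, Nat.dvd_one]
    exact hM.prime.ne_one)
  obtain ⟨χ, hχ⟩ := hB.nonempty hM
  refine (blockRank_image_congr hM.prime e.symm B).symm.trans_le (h _ _ hb
    (isDefectGroup_comap_of_cover hM e.toMonoidHom e.injective (by
      rw [MonoidHom.range_eq_top.2 e.surjective, top_sup_eq]) hB hb
      ⟨χ, hχ, _, ⟨χ, hχ, rfl⟩, ?_⟩ hD) (hs.of_injective (e.toMonoidHom.subgroupComap D) ?_))
  · exact ((IrrCharacter.comap e.toMonoidHom e.surjective χ).classInner_self).trans_ne one_ne_zero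
  · exact fun x y h => Subtype.ext (e.injective (congrArg Subtype.val h))

theorem finrank_le_ncard {E ι : Type*} [AddCommGroup E] [Module ℂ E] {s : Set ι} (hs : s.Finite)
    (f : ι → E) {V : Submodule ℂ E} (h : V ≤ Submodule.span ℂ (f '' s)) :
    Module.finrank ℂ V ≤ s.ncard := by
  classical
  have := FiniteDimensional.span_of_finite ℂ (hs.image f)
  refine (Submodule.finrank_mono h).trans ?_
  obtain ⟨t, rfl⟩ := hs.exists_finset_coe
  rw [Set.ncard_coe_finset, ← coe_image]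
  exact (finrank_span_finset_le_card _).trans card_image_le

variable {F : Type u} [Field F] [Fintype F] [DecidableEq F] [Laws F] {N n ℓ : ℕ}
  [hl : Fact ℓ.Prime]

theorem bd_le (hℓ : ℓ ≠ ringChar F) (h1 : StDG1 F ℓ) (h2 : 2 ≠ ringChar F → StDG2 F)
    {M : Ideal AlgInt} (hM : IsPModular ℓ M) {μ : MP F N} {χ : IrrCharacter (G F n)}
    (hμ : deg μ = n) (hN : n ≤ N) (hχ : cm (chi μ) n = χ.1) {D : Subgroup (G F n)}
    (hD : IsDefectGroup ℓ M (blockOf M χ.1) D) {s : ℕ}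
    (hs : SectionalPRankLE ℓ s (D ⊓ (dt (F := F) (n := n)).ker : Subgroup (G F n))) :
    bd ℓ μ ≤ ℓ ^ s := by
  obtain ⟨E, e1, e2, e3, x, hx⟩ := h1 M hM N n μ χ hμ hN hχ D hD
  have h3 : Nat.card (E ⊓ (dt (F := F) (n := n)).ker : Subgroup (G F n)) ≤ ℓ ^ s := by
    refine hs.card_le_of_isConjLE ⟨x, ?_⟩ (fun a ha b hb => e2 a ha.1 b hb.1) fun a ha => e3 a ha.1
    rintro _ ⟨a, ha, rfl⟩
    exact ⟨hx ⟨a, ha.1, rfl⟩, (MonoidHom.normal_ker _).conj_mem a ha.2 x⟩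
  rw [bd]
  split_ifs with h
  · have := (card_le_mul_card_inf_ker dt e3).trans (Nat.mul_le_mul_left ℓ h3)
    rw [e1, ← pow_succ', Nat.pow_le_pow_iff_right hl.out.one_lt] at this
    exact Nat.pow_le_pow_right hl.out.pos (by omega)
  · rcases not_and_or.1 h with h | h
    · refine (e1.symm.trans (congrArg (fun X : Subgroup (G F n) => Nat.card X)
        (inf_eq_left.2 fun a ha => ?_).symm)).trans_le h3
      have h4 : orderOf (dt a) ∣ ℓ := orderOf_dvd_of_pow_eq_one (by rw [← map_pow, e3 a ha, map_one])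
      rcases (Nat.dvd_prime hl.out).1 h4 with h5 | h5
      · exact orderOf_eq_one_iff.1 h5
      · exact absurd (h5 ▸ orderOf_dvd_q_sub_one (dt a)) h
    · obtain ⟨rfl, h⟩ := not_not.1 h
      exact Nat.pow_le_pow_right two_pos (h2 hℓ M hM N n μ χ hμ hN hχ h D hD s hs)

theorem dd_mem_span (hℓ : ℓ ≠ ringChar F) (hT : StTw F) (hD : StTwD F ℓ) (lam : Fˣ)
    {μ ν : MP F N} (hN : deg μ ≤ N) (h : cd ℓ (lift (orderOf lam) ν) = cd ℓ μ) :
    dd ℓ (schur (pT lam) ν) ∈ Submodule.span ℂ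
      ((fun ν₀ : MP F N => dd ℓ (schur (pT lam) ν₀)) '' BS ℓ lam μ) := by
  have hd : orderOf lam * deg ν = deg μ := (deg_lift_orderOf lam ν).symm.trans (deg_eq_of_cd h)
  have h1 := (stBas hℓ (stP F) _ _ _ (hT lam).1 (hD lam)).1 N ν
    ((Nat.le_mul_of_pos_left _ (orderOf_pos lam)).trans (hd.trans_le hN))
  have key : ∀ x y : MP F N, orderOf lam * deg x = deg μ → orderOf lam * deg y = deg μ →
      cd ℓ (lift (orderOf lam) x) = cd ℓ μ → cd ℓ (lift (orderOf lam) y) ≠ cd ℓ μ →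
      ip (dd ℓ (schur (pT lam) x)) (dd ℓ (schur (pT lam) y)) = 0 := fun x y hx hy h2 h3 => by
    rw [ip_dd_dd, (hT lam).2 N x (hx.trans_le hN), (hT lam).2 N y (hy.trans_le hN)]
    exact stH4 hℓ lam N _ _ (((deg_lift_orderOf lam x).trans hx).trans_le hN)
      (((deg_lift_orderOf lam y).trans hy).trans_le hN) fun e => h3 (e.symm.trans h2)
  have h2 : {ν₀ : MP F N | Basic ℓ ν₀ ∧ deg ν₀ = deg ν} ⊆ BS ℓ lam μ ∪
      {y | orderOf lam * deg y = deg μ ∧ cd ℓ (lift (orderOf lam) y) ≠ cd ℓ μ} := fun y hy => by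
    by_cases e : cd ℓ (lift (orderOf lam) y) = cd ℓ μ
    · exact Or.inl ⟨hy.1, hy.2 ▸ hd, e⟩
    · exact Or.inr ⟨hy.2 ▸ hd, e⟩
  have h3 := Submodule.span_mono (Set.image_mono h2) h1
  rw [Set.image_union, Submodule.span_union] at h3
  obtain ⟨y, hy, z, hz, e⟩ := Submodule.mem_sup.1 h3
  rw [← e, eq_zero_of_mem_span hz ?_, add_zero]
  · exact hy
  rintro _ ⟨w, hw, rfl⟩
  have h4 : y ∈ LinearMap.ker (ipL (dd ℓ (schur (pT lam) w))) := by
    refine Submodule.span_le.2 ?_ hy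
    rintro _ ⟨x, hx, rfl⟩
    exact (ipL_apply _ _).trans (key x w hx.2.1 hw.1 hx.2.2 hw.2)
  rw [ip_cj, eq_sub_of_add_eq' e, ip_sub_left, key ν w hd hw.1 h hw.2,
    (ipL_apply _ _).symm.trans h4, sub_zero, map_zero]

theorem main_ker (hℓ : ℓ ≠ ringChar F) (hT : StTw F) (hD : StTwD F ℓ) (hC : StCmp F ℓ)
    (hK : StCnt F ℓ) (h1 : StDG1 F ℓ) (h2 : 2 ≠ ringChar F → StDG2 F) (hn : 0 < n)
    {M : Ideal AlgInt} (hM : IsPModular ℓ M) {s : ℕ}
    (b : Set (IrrCharacter (dt (F := F) (n := n)).ker)) (Q : Subgroup (dt (F := F) (n := n)).ker)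
    (hb : IsPBlock M b) (hQ : IsDefectGroup ℓ M b Q) (hs : SectionalPRankLE ℓ s Q) :
    blockRank ℓ b ≤ ℓ ^ s := by
  classical
  obtain ⟨N, hN'⟩ : ∃ N, (ℓ + 1) * n ≤ N := ⟨_, le_rfl⟩
  have hN : n ≤ N := (Nat.le_mul_of_pos_left _ (Nat.succ_pos _)).trans hN'
  set S := ab hℓ hn hN
  obtain ⟨θ, hθ⟩ := hb.nonempty hM
  obtain ⟨χ, hχ⟩ := irrOver_nonempty θ
  obtain ⟨μ₀, rfl⟩ := S.bij.2 χ
  obtain ⟨D, hD', hDQ⟩ := (isPBlock_blockOf (M := M) (S.χ μ₀)).exists_isDefectGroup_inf_eq hM hb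
    ⟨_, hM.mem_blockOf_self _, θ, hθ, hχ⟩ (Q := Q.map (dt (F := F) (n := n)).ker.subtype)
    (Subgroup.map_subtype_le _) (by rwa [Subgroup.subgroupOf,
      Subgroup.comap_map_eq_self_of_injective (Subgroup.subtype_injective _)])
  have h3 := bd_le hℓ h1 h2 hM μ₀.2 hN rfl hD' (hDQ ▸ hs.of_injective
    (Q.equivMapOfInjective _ (Subgroup.subtype_injective _)).symm.toMonoidHom
    (MulEquiv.injective _))
  obtain ⟨Y, hY, h4⟩ := hK _ μ₀.1 (by rwa [μ₀.2]) (by rwa [μ₀.2])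
  have hact : ∀ lam μ, S.act (chr lam) μ = μ ↔ act lam μ.1 = μ.1 := fun lam μ => by
    rw [Subtype.ext_iff]
    change act ((chrE F).symm (chrE F lam)) μ.1 = μ.1 ↔ _
    rw [MulEquiv.symm_apply_apply]
  have hAA : ∀ (lam : Fˣ) (μ ν : {μ : MP F N // deg μ = n}) (μ' ν'),
      lift (orderOf lam) μ' = μ.1 → lift (orderOf lam) ν' = ν.1 →
      classInner (pRegularPart ℓ (S.s (chr lam) μ)) (S.s (chr lam) ν) = AA ℓ μ' ν' := by
    intro lam μ ν μ' ν' e1 e2
    have hh := isHom_sG lam μ.1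
    rw [μ.2] at hh
    rw [ab_s, ab_s, ← AA_eq hl.out hℓ hh, ← e1, ← e2,
      ← (hT lam).2 _ μ' (by rw [← deg_lift_orderOf, e1, μ.2]; exact hN),
      ← (hT lam).2 _ ν' (by rw [← deg_lift_orderOf, e2, ν.2]; exact hN)]
    exact (stBas hℓ (stP F) _ _ _ (hT lam).1 (hD lam)).2.2 _ μ' ν'
  have h5 := S.card_mul_blockRank_le hM hb hθ hχ (Y.map (chrH F)) ?_
    (fun ω => (BS ℓ ((chrE F).symm ω) μ₀.1).ncard) ?_
  · rw [Subgroup.card_map_of_injective chr_injective] at h5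
    exact (Nat.le_of_mul_le_mul_left ((h5.trans_eq ((chrE F).symm.toEquiv.sum_comp
      fun lam => (BS ℓ lam μ₀.1).ncard)).trans h4) Nat.card_pos).trans h3
  · rintro _ ⟨lam₁, h6, rfl⟩ ω μ ν hμ hν
    obtain ⟨lam, rfl⟩ := chr_bijective.2 ω
    obtain ⟨h7, h8⟩ := hC _ μ₀.1 lam₁ (hY _ h6)
    change classInner (pRegularPart ℓ (S.s (chr lam * chr lam₁) μ)) (S.s (chr lam * chr lam₁) ν) = _
    rw [← chr_mul]
    have h9 : ∀ x, S.cd x = S.cd μ₀ → (S.act (chr (lam * lam₁)) x = x ↔ S.act (chr lam) x = x) :=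
      fun x hx => by rw [hact, hact, act_mul, h7 x.1 hx]
    by_cases e1 : S.act (chr lam) μ = μ
    · by_cases e2 : S.act (chr lam) ν = ν
      · obtain ⟨μ', a1⟩ := exists_lift_of_act ((hact _ _).1 e1)
        obtain ⟨ν', a2⟩ := exists_lift_of_act ((hact _ _).1 e2)
        obtain ⟨μ'', a3⟩ := exists_lift_of_act ((hact _ _).1 ((h9 μ hμ).2 e1))
        obtain ⟨ν'', a4⟩ := exists_lift_of_act ((hact _ _).1 ((h9 ν hν).2 e2))
        rw [hAA _ μ ν _ _ a1 a2, hAA _ μ ν _ _ a3 a4]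
        exact (h8 lam _ _ _ _ (a1.trans a3.symm) (a2.trans a4.symm) (a1 ▸ hμ) (a2 ▸ hν)).symm
      · rw [S.s_eq_zero e2, S.s_eq_zero (mt (h9 ν hν).1 e2)]
        simp [classInner]
    · rw [S.s_eq_zero e1, S.s_eq_zero (mt (h9 μ hμ).1 e1)]
      simp [classInner, pRegularPart]
  · intro ω
    obtain ⟨lam, rfl⟩ := (chrE F).surjective ω
    rw [MulEquiv.symm_apply_apply, chrE_apply]
    have hf : (BS ℓ lam μ₀.1).Finite := (finite_deg _ (n / orderOf lam)).subset fun ν hν => by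
      rw [Set.mem_setOf, ← μ₀.2, ← hν.2.1, Nat.mul_div_cancel_left _ (orderOf_pos lam)]
    let L : H (chr lam) →ₗ[ℂ] (G F n → ℂ) := LinearMap.pi fun g => H.ev ⟨n, g⟩
    refine finrank_le_ncard hf (fun ν => L (dd ℓ (schur (pT lam) ν))) (Submodule.span_le.2 ?_)
    rintro _ ⟨μ, hμ, rfl⟩
    by_cases e1 : S.act (chr lam) μ = μ
    · obtain ⟨ν, a1⟩ := exists_lift_of_act ((hact _ _).1 e1)
      have := Submodule.apply_mem_span_image_of_mem_span L
        (dd_mem_span hℓ hT hD lam (μ := μ₀.1) (ν := ν) (μ₀.2.trans_le hN) (a1 ▸ hμ))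
      rw [(hT lam).2 _ ν (by rw [← deg_lift_orderOf, a1, μ.2]; exact hN), a1, Set.image_image]
        at this
      simp only [ab_s, S, ← cm_dd hl.out hℓ]
      exact this
    · simp only [S.s_eq_zero e1, show pRegularPart ℓ (0 : G F n → ℂ) = 0 from funext fun g => by
        simp [pRegularPart]]
      exact Submodule.zero_mem _

omit [Laws F] [DecidableEq F] in
/-- the special linear group as a kernel -/
noncomputable def slE (n : ℕ) :
    (dt (F := F) (n := n)).ker ≃* Matrix.SpecialLinearGroup (Fin n) F where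
  toFun g := ⟨g.1.1, congrArg Units.val g.2⟩
  invFun g := ⟨Matrix.SpecialLinearGroup.toGL g, Units.ext g.2⟩
  left_inv _ := Subtype.ext (Units.ext rfl)
  right_inv _ := rfl
  map_mul' _ _ := rfl

omit [Laws F] [DecidableEq F] in
theorem main_SL (hℓ : ℓ ≠ ringChar F) (hT : ∀ [DecidableEq F], StTw F)
    (hC : ∀ [DecidableEq F], StCmp F ℓ) (h2 : ∀ [DecidableEq F], 2 ≠ ringChar F → StDG2 F)
    (hn : 0 < n) {M : Ideal AlgInt} (hM : IsPModular ℓ M)
    {B : Set (IrrCharacter (Matrix.SpecialLinearGroup (Fin n) F))} (hB : IsPBlock M B)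
    {D : Subgroup (Matrix.SpecialLinearGroup (Fin n) F)} (hD : IsDefectGroup ℓ M B D) {s : ℕ}
    (hs : SectionalPRankLE ℓ s D) : blockRank ℓ B ≤ ℓ ^ s := by
  classical
  exact transport_iso (slE n) hM (main_ker hℓ hT
    (stTwD F ℓ hT (stH4 hℓ) (stSch (stDim F)) (stDim F)) hC (stCnt hℓ)
    (stDG1 hℓ (stP F) (stSch (stDim F)) irrF (stCore hℓ (stP F)) (stBas hℓ (stP F))) h2 hn hM)
    hB hD hs

end Cfsg.GLn
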