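import Cfsg.Agent.CT.Basic

/-!
# S4536: the (determinant-twisted) Hall algebra of class functions on the groups `GL_n(F)`

FROZEN definitions (plan: `docs/GLn.md`).
-/

set_option autoImplicit false

namespace Cfsg.GLn

open Matrix ComplexConjugate

universe u

variable (F : Type u) [Field F] [Fintype F] [DecidableEq F]

/-- the general linear group -/
abbrev G (n : ℕ) : Type u := GL (Fin n) F

/-- an element of some `GL_n(F)` -/
abbrev Obj : Type u := Σ n : ℕ, G F n

variable {F}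

/-- the determinant -/
abbrev dt {n : ℕ} : G F n →* Fˣ := Matrix.GeneralLinearGroup.det

/-- block upper triangular matrices -/
def blkM {i j : ℕ} (a : Matrix (Fin i) (Fin i) F) (u : Matrix (Fin i) (Fin j) F)
    (b : Matrix (Fin j) (Fin j) F) : Matrix (Fin (i + j)) (Fin (i + j)) F :=
  reindex finSumFinEquiv finSumFinEquiv (fromBlocks a u 0 b)

omit [Fintype F] [DecidableEq F] in
theorem blkM_mul {i j : ℕ} (a a' : Matrix (Fin i) (Fin i) F) (u u' : Matrix (Fin i) (Fin j) F)
    (b b' : Matrix (Fin j) (Fin j) F) :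
    blkM a u b * blkM a' u' b' = blkM (a * a') (a * u' + u * b') (b * b') := by
  simp [blkM, fromBlocks_multiply]

omit [Fintype F] [DecidableEq F] in
theorem blkM_one {i j : ℕ} : blkM (1 : Matrix (Fin i) (Fin i) F) 0 (1 : Matrix (Fin j) (Fin j) F) = 1 := by
  simp [blkM]

/-- block upper triangular elements of the general linear group -/
def blk {i j : ℕ} (a : G F i) (u : Matrix (Fin i) (Fin j) F) (b : G F j) : G F (i + j) where
  val := blkM a.val u b.val
  inv := blkM a.inv (-(a.inv * u * b.inv)) b.inv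
  val_inv := by
    rw [blkM_mul, a.val_inv, b.val_inv, Matrix.mul_neg, ← Matrix.mul_assoc, ← Matrix.mul_assoc,
      a.val_inv, Matrix.one_mul, neg_add_cancel, blkM_one]
  inv_val := by
    rw [blkM_mul, a.inv_val, b.inv_val, Matrix.neg_mul, Matrix.mul_assoc, b.inv_val,
      Matrix.mul_one, add_neg_cancel, blkM_one]

omit [Fintype F] [DecidableEq F] in
@[simp] theorem blk_val {i j : ℕ} (a : G F i) (u : Matrix (Fin i) (Fin j) F) (b : G F j) :
    (blk a u b).val = blkM a.val u b.val := rfl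

omit [Fintype F] [DecidableEq F] in
theorem blk_mul {i j : ℕ} (a a' : G F i) (u u' : Matrix (Fin i) (Fin j) F) (b b' : G F j) :
    blk a u b * blk a' u' b' = blk (a * a') (a.val * u' + u * b'.val) (b * b') :=
  Units.ext (blkM_mul _ _ _ _ _ _)

omit [Fintype F] [DecidableEq F] in
theorem blk_one {i j : ℕ} : blk (1 : G F i) 0 (1 : G F j) = 1 := Units.ext blkM_one

omit [Fintype F] [DecidableEq F] in
theorem dt_blk {i j : ℕ} (a : G F i) (u : Matrix (Fin i) (Fin j) F) (b : G F j) :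
    dt (blk a u b) = dt a * dt b :=
  Units.ext (by simp [blkM])

/-- block diagonal embedding -/
def diag {i j : ℕ} : G F i × G F j →* G F (i + j) where
  toFun x := blk x.1 0 x.2
  map_one' := blk_one
  map_mul' x y := by rw [blk_mul]; simp

/-- the `ω ∘ det`-equivariant finitely supported functions -/
def Hs (ω : Fˣ →* ℂˣ) : Submodule ℂ (Obj F →₀ ℂ) where
  carrier := {a | ∀ (n : ℕ) (g z : G F n), a ⟨n, z * g * z⁻¹⟩ = ω (dt z) * a ⟨n, g⟩}
  zero_mem' := by simp
  add_mem' ha hb n g z := by simp only [Finsupp.add_apply, ha n g z, hb n g z, mul_add]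
  smul_mem' c a ha n g z := by simp only [Finsupp.smul_apply, ha n g z, smul_eq_mul]; ring

/-- the twisted Hall algebra -/
def H (ω : Fˣ →* ℂˣ) : Type u := Hs ω

variable {ω : Fˣ →* ℂˣ}

noncomputable instance : AddCommGroup (H ω) := inferInstanceAs (AddCommGroup (Hs ω))
noncomputable instance : Module ℂ (H ω) := inferInstanceAs (Module ℂ (Hs ω))
instance : CoeFun (H ω) fun _ => Obj F → ℂ := ⟨fun a => a.1⟩

@[ext] theorem H.ext {a b : H ω} (h : ∀ x, a x = b x) : a = b := Subtype.ext (Finsupp.ext h)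
theorem H.conj (a : H ω) {n : ℕ} (g z : G F n) : a ⟨n, z * g * z⁻¹⟩ = ω (dt z) * a ⟨n, g⟩ :=
  a.2 n g z
@[simp] theorem H.zero_apply (x : Obj F) : (0 : H ω) x = 0 := rfl
@[simp] theorem H.add_apply (a b : H ω) (x : Obj F) : (a + b) x = a x + b x := rfl
@[simp] theorem H.neg_apply (a : H ω) (x : Obj F) : (-a) x = -a x := rfl
@[simp] theorem H.sub_apply (a b : H ω) (x : Obj F) : (a - b) x = a x - b x := rfl
@[simp] theorem H.smul_apply (c : ℂ) (a : H ω) (x : Obj F) : (c • a) x = c * a x := rfl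

/-- evaluation as a linear map -/
def H.ev (x : Obj F) : H ω →ₗ[ℂ] ℂ := ⟨⟨fun a => a x, fun _ _ => rfl⟩, fun _ _ => rfl⟩

theorem H.sum_apply {ι : Type*} (s : Finset ι) (a : ι → H ω) (x : Obj F) :
    (∑ i ∈ s, a i) x = ∑ i ∈ s, a i x := map_sum (H.ev x) a s

variable (ω) in
/-- the conjugation average of the point mass at `g`, times `#GL_n` -/
noncomputable def orb (n : ℕ) (g : G F n) : H ω :=
  ⟨∑ z : G F n, Finsupp.single ⟨n, z * g * z⁻¹⟩ (ω (dt z) : ℂ), fun m g' t => by
    classical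
    by_cases h : n = m
    · subst h
      simp only [Finsupp.finset_sum_apply, Finsupp.single_apply, Sigma.mk.injEq, heq_eq_eq, true_and,
        Finset.mul_sum]
      refine (Fintype.sum_equiv (Equiv.mulLeft t) _ _ fun z => ?_).symm
      have : (t * z * g * (t * z)⁻¹ = t * g' * t⁻¹) ↔ z * g * z⁻¹ = g' := by
        constructor
        · intro h; simpa [mul_assoc] using congrArg (fun x => t⁻¹ * x * t) h
        · rintro rfl; simp [mul_assoc]
      simp only [Equiv.coe_mulLeft, this, map_mul, Units.val_mul, mul_ite, mul_zero]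
    · simp [Finsupp.finset_sum_apply, Finsupp.single_apply, h]⟩

variable (ω) in
/-- the equivariant projection of a function on `GL_n` (it is `f` itself when `f` is equivariant) -/
noncomputable def mk (n : ℕ) (f : G F n → ℂ) : H ω :=
  (Nat.card (G F n) : ℂ)⁻¹ • ∑ g, f g • orb ω n g

variable (ω) in
/-- the Harish-Chandra product of two point masses -/
noncomputable def mu0 (x y : Obj F) : H ω :=
  ((Nat.card (G F x.1) * Nat.card (G F y.1) * Fintype.card F ^ (x.1 * y.1) : ℕ) : ℂ)⁻¹ •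
    ∑ u, orb ω _ (blk x.2 u y.2)

variable (ω) in
/-- the Harish-Chandra product -/
noncomputable def hmul : H ω →ₗ[ℂ] H ω →ₗ[ℂ] H ω :=
  ((Finsupp.lsum ℂ fun x => LinearMap.toSpanSingleton ℂ _
    (Finsupp.lsum ℂ fun y => LinearMap.toSpanSingleton ℂ _ (mu0 ω x y))).compl₁₂
      (Hs ω).subtype (Hs ω).subtype)

noncomputable instance : Mul (H ω) := ⟨fun a b => hmul ω a b⟩
noncomputable instance : One (H ω) := ⟨orb ω 0 1⟩

theorem mul_def (a b : H ω) :
    a * b = a.1.sum fun x α => b.1.sum fun y β => (α * β) • mu0 ω x y := by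
  change (Finsupp.lsum ℂ fun x => LinearMap.toSpanSingleton ℂ _
    (Finsupp.lsum ℂ fun y => LinearMap.toSpanSingleton ℂ _ (mu0 ω x y))) a.1 b.1 = _
  simp only [Finsupp.coe_lsum, Finsupp.sum, LinearMap.coe_sum,
    Finset.sum_apply, LinearMap.toSpanSingleton_apply, LinearMap.smul_apply, Finset.smul_sum,
    smul_smul]

/-- the hermitian form -/
noncomputable def ip (a b : H ω) : ℂ :=
  a.1.sum fun x α => α * conj (b x) / Nat.card (G F x.1)

/-- the Harish-Chandra restriction -/
noncomputable def De (a : H ω) (i j : ℕ) (g₁ : G F i) (g₂ : G F j) : ℂ :=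
  ((Fintype.card F : ℂ) ^ (i * j))⁻¹ * ∑ u, a ⟨i + j, blk g₁ u g₂⟩

/-- homogeneous elements -/
def IsHom (n : ℕ) (a : H ω) : Prop := ∀ x : Obj F, x.1 ≠ n → a x = 0

/-- primitive elements -/
def Prim (a : H ω) : Prop :=
  a ⟨0, 1⟩ = 0 ∧ ∀ (i j : ℕ) (g₁ : G F i) (g₂ : G F j), 0 < i → 0 < j → De a i j g₁ g₂ = 0

/-- group-like families, `h m` of degree `δ * m` -/
structure GrpLike (δ : ℕ) (h : ℕ → H ω) : Prop where
  pos : 0 < δ
  zero : h 0 = 1
  hom : ∀ m, IsHom (δ * m) (h m)
  de : ∀ (m i j : ℕ) (g₁ : G F i) (g₂ : G F j),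
    De (h m) i j g₁ g₂ = ∑ x ∈ Finset.HasAntidiagonal.antidiagonal m, h x.1 ⟨i, g₁⟩ * h x.2 ⟨j, g₂⟩

variable (F) in
/-- the ring laws (piece `Laws`) together with the Mackey formula in operator form -/
class Laws : Prop where
  assoc : ∀ (ω : Fˣ →* ℂˣ) (a b c : H ω), a * b * c = a * (b * c)
  comm : ∀ (ω : Fˣ →* ℂˣ) (a b : H ω), a * b = b * a
  one_mul : ∀ (ω : Fˣ →* ℂˣ) (a : H ω), 1 * a = a
  /-- Mackey: if `Δ c = ∑ c' ⊗ c''` and `D` are the adjoints, then `D_c (a b) = ∑ D_c' a D_c'' b` -/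
  mackey : ∀ (ω : Fˣ →* ℂˣ) (ι : Type) (s : Finset ι) (c : H ω) (c' c'' : ι → H ω),
    (∀ (i j : ℕ) (g₁ : G F i) (g₂ : G F j),
      De c i j g₁ g₂ = ∑ t ∈ s, c' t ⟨i, g₁⟩ * c'' t ⟨j, g₂⟩) →
    ∀ (a b x : H ω) (a' b' : ι → H ω), (∀ t ∈ s, ∀ y, ip (c' t * y) a = ip y (a' t)) →
      (∀ t ∈ s, ∀ y, ip (c'' t * y) b = ip y (b' t)) →
      ip (c * x) (a * b) = ip x (∑ t ∈ s, a' t * b' t)

variable [Laws F]

noncomputable instance : CommRing (H ω) :=
  { (inferInstance : AddCommGroup (H ω)), (inferInstance : Mul (H ω)),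
    (inferInstance : One (H ω)) with
    mul_assoc := Laws.assoc ω
    mul_comm := Laws.comm ω
    one_mul := Laws.one_mul ω
    mul_one a := (Laws.comm ω a 1).trans (Laws.one_mul ω a)
    left_distrib a b c := map_add (hmul ω a) b c
    right_distrib a b c := LinearMap.map_add₂ (hmul ω) a b c
    zero_mul a := LinearMap.map_zero₂ (hmul ω) a
    mul_zero a := map_zero (hmul ω a) }

noncomputable instance : Algebra ℂ (H ω) :=
  Algebra.ofModule (fun c a b => LinearMap.map_smul₂ (hmul ω) c a b)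
    fun c a b => map_smul (hmul ω a) c b

end Cfsg.GLn
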