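import Cfsg.Agent.GLn.Hall

/-! Basic properties of the twisted Hall algebra that do not need the ring laws. -/

set_option autoImplicit false
set_option linter.unusedSectionVars false

namespace Cfsg.GLn

open Matrix ComplexConjugate Finset

universe u

variable {F : Type u} [Field F] [Fintype F] [DecidableEq F] {ω : Fˣ →* ℂˣ} {a b c : H ω}
  {i j n N : ℕ}

theorem om_mul_conj (ω : Fˣ →* ℂˣ) (t : Fˣ) : (ω t : ℂ) * conj (ω t : ℂ) = 1 := by
  rw [Complex.mul_conj, Complex.normSq_eq_norm_sq, Complex.norm_eq_one_of_pow_eq_one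
    (n := Fintype.card Fˣ) (by rw [← Units.val_pow_eq_pow_val, ← map_pow, pow_card_eq_one]; simp)
    Fintype.card_ne_zero]
  simp

theorem conj_om (ω : Fˣ →* ℂˣ) (t : Fˣ) : conj (ω t : ℂ) = ω t⁻¹ := by
  rw [map_inv, Units.val_inv_eq_inv_val]
  exact eq_inv_of_mul_eq_one_right (om_mul_conj ω t)

theorem cardG_ne (n : ℕ) : (Nat.card (G F n) : ℂ) ≠ 0 := Nat.cast_ne_zero.2 Nat.card_pos.ne'

theorem cardF_ne : (Fintype.card F : ℂ) ≠ 0 := Nat.cast_ne_zero.2 Fintype.card_ne_zero

theorem card_mat (i j : ℕ) : Fintype.card (Matrix (Fin i) (Fin j) F) = Fintype.card F ^ (i * j) := by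
  change Fintype.card (Fin i → Fin j → F) = _
  simp [← pow_mul, mul_comm]

theorem H.exists_bound (a : H ω) : ∃ N, ∀ x : Obj F, N ≤ x.1 → a x = 0 :=
  ⟨a.1.support.sup (·.1) + 1, fun x hx => by_contra fun h => by
    have := le_sup (f := fun y : Obj F => y.1) (Finsupp.mem_support_iff.2 h)
    omega⟩

theorem H.sum_eq_range {M : Type*} [AddCommMonoid M] (h : ∀ x : Obj F, N ≤ x.1 → a x = 0)
    (f : Obj F → ℂ → M) (hf : ∀ x, f x 0 = 0) :
    a.1.sum f = ∑ n ∈ range N, ∑ g, f ⟨n, g⟩ (a ⟨n, g⟩) := by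
  rw [Finsupp.sum_of_support_subset _ (s := (range N).sigma fun _ => univ) (fun x hx => by
    simpa using lt_of_not_ge fun e => Finsupp.mem_support_iff.1 hx (h x e)) _ fun x _ => hf x,
    sum_sigma]

theorem IsHom.sum_eq {M : Type*} [AddCommMonoid M] (h : IsHom n a)
    (f : Obj F → ℂ → M) (hf : ∀ x, f x 0 = 0) : a.1.sum f = ∑ g, f ⟨n, g⟩ (a ⟨n, g⟩) := by
  rw [H.sum_eq_range (N := n + 1) (fun x hx => h x (by omega)) f hf, sum_range_succ,
    sum_eq_zero fun m hm => sum_eq_zero fun g _ => by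
      rw [h ⟨m, g⟩ (mem_range.1 hm).ne, hf], zero_add]

/-! ### the hermitian form -/

theorem ip_eq_range (h : ∀ x : Obj F, N ≤ x.1 → a x = 0) (b : H ω) : ip a b =
    ∑ n ∈ range N, classInner (fun g => a ⟨n, g⟩) fun g => b ⟨n, g⟩ := by
  rw [ip, H.sum_eq_range h _ (by simp)]
  simp only [classInner_def, mul_sum, div_eq_inv_mul]

theorem ip_eq_range' (a : H ω) (h : ∀ x : Obj F, N ≤ x.1 → b x = 0) : ip a b =
    ∑ n ∈ range N, classInner (fun g => a ⟨n, g⟩) fun g => b ⟨n, g⟩ := by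
  obtain ⟨K, hK⟩ := a.exists_bound
  rw [ip_eq_range (N := max K N) fun x hx => hK x (le_of_max_le_left hx)]
  refine (sum_subset (range_subset_range.2 (le_max_right _ _)) fun m _ hm => ?_).symm
  simp [classInner_def, fun g => h ⟨m, g⟩ (by simpa using hm)]

theorem IsHom.ip_eq (h : IsHom n a) (b : H ω) :
    ip a b = classInner (fun g => a ⟨n, g⟩) fun g => b ⟨n, g⟩ := by
  rw [ip, h.sum_eq _ (by simp)]
  simp only [classInner_def, mul_sum, div_eq_inv_mul]

theorem ip_conj (a b : H ω) : conj (ip a b) = ip b a := by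
  obtain ⟨K, hK⟩ := a.exists_bound
  rw [ip_eq_range hK, ip_eq_range' b hK]
  simp [classInner_def, mul_comm]

theorem IsHom.ip_eq' (h : IsHom n b) (a : H ω) :
    ip a b = classInner (fun g => a ⟨n, g⟩) fun g => b ⟨n, g⟩ := by
  rw [← ip_conj, h.ip_eq]
  simp [classInner_def, mul_comm]

theorem IsHom.ip_eq_zero {m : ℕ} (h : IsHom n a) (h' : IsHom m b) (e : n ≠ m) : ip a b = 0 := by
  simp [h.ip_eq, classInner_def, fun g => h' ⟨n, g⟩ e]

/-- the form as a linear map in the first argument -/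
noncomputable def ipL (b : H ω) : H ω →ₗ[ℂ] ℂ :=
  (Finsupp.lsum ℂ fun x => LinearMap.toSpanSingleton ℂ ℂ (conj (b x) / Nat.card (G F x.1))).comp
    (Hs ω).subtype

theorem ipL_apply (a b : H ω) : ipL b a = ip a b := by
  change Finsupp.lsum ℂ _ a.1 = _
  simp [ip, Finsupp.sum, mul_div_assoc]

theorem ip_add_left (a a' b : H ω) : ip (a + a') b = ip a b + ip a' b := by
  simp only [← ipL_apply, map_add]
theorem ip_sub_left (a a' b : H ω) : ip (a - a') b = ip a b - ip a' b := by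
  simp only [← ipL_apply, map_sub]
theorem ip_neg_left (a b : H ω) : ip (-a) b = -ip a b := by simp only [← ipL_apply, map_neg]
theorem ip_smul_left (c : ℂ) (a b : H ω) : ip (c • a) b = c * ip a b := by
  simp only [← ipL_apply, map_smul, smul_eq_mul]
@[simp] theorem ip_zero_left (b : H ω) : ip 0 b = 0 := by simp only [← ipL_apply, map_zero]
theorem ip_sum_left {ι : Type*} (s : Finset ι) (a : ι → H ω) (b : H ω) :
    ip (∑ i ∈ s, a i) b = ∑ i ∈ s, ip (a i) b := by simp only [← ipL_apply, map_sum]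
theorem ip_add_right (a b b' : H ω) : ip a (b + b') = ip a b + ip a b' := by
  rw [← ip_conj, ip_add_left, map_add, ip_conj, ip_conj]
theorem ip_sub_right (a b b' : H ω) : ip a (b - b') = ip a b - ip a b' := by
  rw [← ip_conj, ip_sub_left, map_sub, ip_conj, ip_conj]
theorem ip_neg_right (a b : H ω) : ip a (-b) = -ip a b := by
  rw [← ip_conj, ip_neg_left, map_neg, ip_conj]
theorem ip_smul_right (c : ℂ) (a b : H ω) : ip a (c • b) = conj c * ip a b := by
  rw [← ip_conj, ip_smul_left, map_mul, ip_conj]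
@[simp] theorem ip_zero_right (a : H ω) : ip a 0 = 0 := by rw [← ip_conj, ip_zero_left, map_zero]
theorem ip_sum_right {ι : Type*} (s : Finset ι) (a : H ω) (b : ι → H ω) :
    ip a (∑ i ∈ s, b i) = ∑ i ∈ s, ip a (b i) := by
  rw [← ip_conj, ip_sum_left, map_sum]; simp only [ip_conj]

theorem ip_self_eq (a : H ω) :
    ip a a = ((∑ x ∈ a.1.support, ‖a x‖ ^ 2 / Nat.card (G F x.1) : ℝ) : ℂ) := by
  simp [ip, Finsupp.sum, Complex.mul_conj, Complex.normSq_eq_norm_sq]

theorem ip_self_nonneg (a : H ω) : ∃ r : ℝ, 0 ≤ r ∧ ip a a = r :=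
  ⟨_, sum_nonneg fun _ _ => by positivity, ip_self_eq a⟩

theorem eq_zero_of_ip_self (h : ip a a = 0) : a = 0 := H.ext fun x => by_contra fun hx => by
  rw [ip_self_eq, Complex.ofReal_eq_zero, sum_eq_zero_iff_of_nonneg fun _ _ => by positivity] at h
  have := h x (Finsupp.mem_support_iff.2 hx)
  rw [div_eq_zero_iff, Nat.cast_eq_zero, or_iff_left Nat.card_pos.ne', sq_eq_zero_iff,
    norm_eq_zero] at this
  exact hx this

theorem ext_ip (h : ∀ y, ip y a = ip y b) : a = b :=
  sub_eq_zero.1 (eq_zero_of_ip_self (by rw [ip_sub_right, h, sub_self]))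

theorem ext_ip' (h : ∀ y, ip a y = ip b y) : a = b :=
  ext_ip fun y => by rw [← ip_conj, h, ip_conj]

/-! ### point masses -/

theorem orb_apply (g x : G F n) :
    orb ω n g ⟨n, x⟩ = ∑ z : G F n, if z * g * z⁻¹ = x then (ω (dt z) : ℂ) else 0 := by
  classical
  simp [orb, Finsupp.finsetSum_apply, Finsupp.single_apply]

theorem isHom_orb (g : G F n) : IsHom n (orb ω n g) := fun x hx => by
  classical
  exact (Finsupp.finsetSum_apply _ _ _).trans (sum_eq_zero fun z _ =>
    Finsupp.single_eq_of_ne fun e => hx (congrArg Sigma.fst e))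

theorem ip_orb (g : G F n) (c : H ω) : ip (orb ω n g) c = conj (c ⟨n, g⟩) := by
  simp only [(isHom_orb g).ip_eq, classInner_def, orb_apply, sum_mul]
  rw [sum_comm]
  simp only [ite_mul, zero_mul, sum_ite_eq, mem_univ, if_true, H.conj, map_mul, ← mul_assoc,
    om_mul_conj, one_mul, sum_const, card_univ, nsmul_eq_mul, ← Nat.card_eq_fintype_card]
  rw [inv_mul_cancel₀ (cardG_ne n), one_mul]

theorem IsHom.zero : IsHom n (0 : H ω) := fun _ _ => rfl
theorem IsHom.add (h : IsHom n a) (h' : IsHom n b) : IsHom n (a + b) := fun x hx => by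
  simp [h x hx, h' x hx]
theorem IsHom.sub (h : IsHom n a) (h' : IsHom n b) : IsHom n (a - b) := fun x hx => by
  simp [h x hx, h' x hx]
theorem IsHom.neg (h : IsHom n a) : IsHom n (-a) := fun x hx => by simp [h x hx]
theorem IsHom.smul (h : IsHom n a) (c : ℂ) : IsHom n (c • a) := fun x hx => by simp [h x hx]
theorem IsHom.sum {ι : Type*} {s : Finset ι} {a : ι → H ω} (h : ∀ i ∈ s, IsHom n (a i)) :
    IsHom n (∑ i ∈ s, a i) := fun x hx => by
  rw [H.sum_apply]; exact sum_eq_zero fun i hi => h i hi x hx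
theorem isHom_one : IsHom 0 (1 : H ω) := isHom_orb 1

theorem isHom_mk (f : G F n → ℂ) : IsHom n (mk ω n f) :=
  (IsHom.sum fun g _ => (isHom_orb g).smul _).smul _

theorem mk_apply (f : G F n → ℂ) (x : G F n) :
    mk ω n f ⟨n, x⟩ = (Nat.card (G F n) : ℂ)⁻¹ * ∑ z, ω (dt z) * f (z⁻¹ * x * z) := by
  simp only [mk, H.smul_apply, H.sum_apply, orb_apply, mul_sum]
  rw [sum_comm]
  refine sum_congr rfl fun z _ => ?_
  rw [sum_eq_single (z⁻¹ * x * z) (fun g _ hg => by
    rw [if_neg fun e => hg (by rw [← e]; group)]; simp) (by simp), if_pos (by group)]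
  ring

theorem mk_apply_of {f : G F n → ℂ} (hf : ∀ g z, f (z * g * z⁻¹) = ω (dt z) * f g) (x : G F n) :
    mk ω n f ⟨n, x⟩ = f x := by
  have : ∀ z, ω (dt z) * f (z⁻¹ * x * z) = f x := fun z => by rw [← hf]; congr 1; group
  simp only [mk_apply, this, sum_const, card_univ, nsmul_eq_mul, ← Nat.card_eq_fintype_card]
  rw [inv_mul_cancel_left₀ (cardG_ne n)]

theorem ip_mk (f : G F n → ℂ) (c : H ω) : ip (mk ω n f) c = classInner f fun g => c ⟨n, g⟩ := by
  simp only [mk, ip_smul_left, ip_sum_left, ip_orb, classInner_def]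

theorem one_apply (g : G F 0) : (1 : H ω) ⟨0, g⟩ = 1 := by
  change orb ω 0 1 _ = _
  simp [orb_apply, Subsingleton.elim g 1, Subsingleton.elim (default : G F 0) 1]

theorem ip_one (c : H ω) : ip 1 c = conj (c ⟨0, 1⟩) := ip_orb 1 c

/-- the homogeneous component -/
noncomputable def cp (n : ℕ) (a : H ω) : H ω := mk ω n fun g => a ⟨n, g⟩

theorem isHom_cp (a : H ω) : IsHom n (cp n a) := isHom_mk _
@[simp] theorem cp_apply (a : H ω) (g : G F n) : cp n a ⟨n, g⟩ = a ⟨n, g⟩ :=
  mk_apply_of (a.conj · ·) g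

theorem IsHom.ext (h : IsHom n a) (h' : IsHom n b) (e : ∀ g, a ⟨n, g⟩ = b ⟨n, g⟩) : a = b :=
  H.ext fun ⟨m, g⟩ => by
    by_cases hm : m = n
    · subst hm; exact e g
    · rw [h _ hm, h' _ hm]

theorem IsHom.cp_eq (h : IsHom n a) : cp n a = a := (isHom_cp a).ext h (cp_apply a)

theorem sum_cp (h : ∀ x : Obj F, N ≤ x.1 → a x = 0) : ∑ n ∈ range N, cp n a = a :=
  H.ext fun ⟨m, g⟩ => by
    rw [H.sum_apply, sum_eq_single m (fun k _ hk => isHom_cp a _ hk.symm) fun hm => by
      rw [cp_apply, h _ (by simpa using hm)], cp_apply]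

theorem H.induction {P : H ω → Prop} (h0 : P 0) (h1 : ∀ n a, IsHom n a → P a)
    (h2 : ∀ a b, P a → P b → P (a + b)) (a : H ω) : P a := by
  obtain ⟨N, h⟩ := a.exists_bound
  rw [← sum_cp h]
  exact sum_induction _ P h2 h0 fun n _ => h1 n _ (isHom_cp a)

variable (ω) in
/-- the homogeneous part of degree `n` -/
def Hn (n : ℕ) : Submodule ℂ (H ω) where
  carrier := {a | IsHom n a}
  zero_mem' := IsHom.zero
  add_mem' := IsHom.add
  smul_mem' c _ h := h.smul c

theorem mem_Hn : a ∈ Hn ω n ↔ IsHom n a := Iff.rfl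

instance : FiniteDimensional ℂ (Hn ω n) :=
  FiniteDimensional.of_injective
    (LinearMap.pi fun g : G F n => (H.ev ⟨n, g⟩).comp (Hn ω n).subtype)
    fun a b h => Subtype.ext (IsHom.ext a.2 b.2 fun g => congrFun h g)

/-! ### product and restriction -/

theorem H.mul_add (a b c : H ω) : a * (b + c) = a * b + a * c := map_add (hmul ω a) b c
theorem H.add_mul (a b c : H ω) : (a + b) * c = a * c + b * c := LinearMap.map_add₂ (hmul ω) a b c
theorem H.mul_zero (a : H ω) : a * 0 = 0 := map_zero (hmul ω a)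
theorem H.zero_mul (a : H ω) : 0 * a = 0 := LinearMap.map_zero₂ (hmul ω) a
theorem H.mul_smul (t : ℂ) (a b : H ω) : a * (t • b) = t • (a * b) := map_smul (hmul ω a) t b
theorem H.smul_mul (t : ℂ) (a b : H ω) : (t • a) * b = t • (a * b) :=
  LinearMap.map_smul₂ (hmul ω) t a b
theorem H.mul_sum {ι : Type*} (s : Finset ι) (a : H ω) (b : ι → H ω) :
    a * ∑ i ∈ s, b i = ∑ i ∈ s, a * b i := map_sum (hmul ω a) b s
theorem H.sum_mul {ι : Type*} (s : Finset ι) (a : ι → H ω) (b : H ω) :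
    (∑ i ∈ s, a i) * b = ∑ i ∈ s, a i * b := LinearMap.map_sum₂ (hmul ω) s a b

theorem ip_mu0 (x y : Obj F) (c : H ω) : ip (mu0 ω x y) c =
    conj (De c x.1 y.1 x.2 y.2) / (Nat.card (G F x.1) * Nat.card (G F y.1)) := by
  simp only [mu0, ip_smul_left, ip_sum_left, ip_orb, De, map_mul, map_inv₀, map_pow, map_natCast,
    map_sum]
  push_cast
  ring

theorem ip_mul (a b c : H ω) : ip (a * b) c = a.1.sum fun x α => b.1.sum fun y β =>
    α * β * conj (De c x.1 y.1 x.2 y.2) / (Nat.card (G F x.1) * Nat.card (G F y.1)) := by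
  simp only [mul_def, Finsupp.sum, ip_sum_left, ip_smul_left, ip_mu0, mul_div_assoc]

theorem IsHom.ip_mul (h : IsHom i a) (h' : IsHom j b) (c : H ω) : ip (a * b) c =
    (∑ x, ∑ y, a ⟨i, x⟩ * b ⟨j, y⟩ * conj (De c i j x y)) /
      (Nat.card (G F i) * Nat.card (G F j)) := by
  rw [GLn.ip_mul, h.sum_eq _ (by simp)]
  simp only [sum_div]
  exact sum_congr rfl fun x _ => h'.sum_eq _ (by simp)

theorem IsHom.mul (h : IsHom i a) (h' : IsHom j b) : IsHom (i + j) (a * b) := by
  rw [mul_def, h.sum_eq _ (by simp)]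
  refine IsHom.sum fun x _ => ?_
  rw [h'.sum_eq _ (by simp)]
  exact IsHom.sum fun y _ => ((IsHom.sum fun u _ => isHom_orb _).smul _).smul _

theorem IsHom.de_eq_zero (h : IsHom n a) (e : i + j ≠ n) (x : G F i) (y : G F j) :
    De a i j x y = 0 := by simp [De, fun u => h ⟨_, blk x u y⟩ e]

theorem De_add (a b : H ω) (x : G F i) (y : G F j) :
    De (a + b) i j x y = De a i j x y + De b i j x y := by simp [De, sum_add_distrib, mul_add]
theorem De_smul (t : ℂ) (a : H ω) (x : G F i) (y : G F j) :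
    De (t • a) i j x y = t * De a i j x y := by simp [De, ← mul_sum, mul_left_comm]
@[simp] theorem De_zero (x : G F i) (y : G F j) : De (0 : H ω) i j x y = 0 := by simp [De]

/-- `De` as a linear map -/
noncomputable def DeL (x : G F i) (y : G F j) : H ω →ₗ[ℂ] ℂ :=
  ⟨⟨fun a => De a i j x y, fun a b => De_add a b x y⟩, fun t a => De_smul t a x y⟩

theorem De_sub (a b : H ω) (x : G F i) (y : G F j) :
    De (a - b) i j x y = De a i j x y - De b i j x y := map_sub (DeL x y) a b
theorem De_sum {ι : Type*} (s : Finset ι) (a : ι → H ω) (x : G F i) (y : G F j) :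
    De (∑ t ∈ s, a t) i j x y = ∑ t ∈ s, De (a t) i j x y := map_sum (DeL x y) a s

theorem blk_inv_diag (z : G F i) (w : G F j) : (blk z 0 w)⁻¹ = blk z⁻¹ 0 w⁻¹ :=
  (map_inv diag (z, w)).symm

theorem De_conj (a : H ω) (x z : G F i) (y w : G F j) :
    De a i j (z * x * z⁻¹) (w * y * w⁻¹) = ω (dt z) * ω (dt w) * De a i j x y := by
  rw [De, De, mul_left_comm, mul_sum _ _ ((ω (dt z) : ℂ) * _)]
  congr 1
  refine (Fintype.sum_bijective (fun u : Matrix (Fin i) (Fin j) F => z.val * u * (w⁻¹).val) ?_ _ _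
    fun u => ?_).symm
  · refine Finite.injective_iff_bijective.1 fun u v e => ?_
    simpa [Matrix.mul_assoc] using congrArg (fun m => (z⁻¹).val * m * w.val) e
  · rw [← Units.val_mul, ← map_mul, ← dt_blk z 0 w, ← a.conj, blk_inv_diag, blk_mul, blk_mul]
    simp

theorem De_conj_left (a : H ω) (x z : G F i) (y : G F j) :
    De a i j (z * x * z⁻¹) y = ω (dt z) * De a i j x y := by simpa using De_conj a x z y 1

theorem De_conj_right (a : H ω) (x : G F i) (y w : G F j) :
    De a i j x (w * y * w⁻¹) = ω (dt w) * De a i j x y := by simpa using De_conj a x 1 y w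

/-- equality of objects through the entries -/
theorem obj_eq {m : ℕ} (e : n = m) {x : G F n} {y : G F m}
    (h : ∀ r s, x.val r s = y.val (r.cast e) (s.cast e)) : (⟨n, x⟩ : Obj F) = ⟨m, y⟩ := by
  subst e
  exact congrArg _ (Units.ext (Matrix.ext h))

section entries
variable (a : Matrix (Fin i) (Fin i) F) (u : Matrix (Fin i) (Fin j) F) (b : Matrix (Fin j) (Fin j) F)
@[simp] theorem blkM_ll (r s : Fin i) : blkM a u b (Fin.castAdd j r) (Fin.castAdd j s) = a r s := by
  simp [blkM]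
@[simp] theorem blkM_lr (r : Fin i) (s : Fin j) :
    blkM a u b (Fin.castAdd j r) (Fin.natAdd i s) = u r s := by simp [blkM]
@[simp] theorem blkM_rl (r : Fin j) (s : Fin i) :
    blkM a u b (Fin.natAdd i r) (Fin.castAdd j s) = 0 := by simp [blkM]
@[simp] theorem blkM_rr (r s : Fin j) : blkM a u b (Fin.natAdd i r) (Fin.natAdd i s) = b r s := by
  simp [blkM]
end entries

theorem blk_zero_right (x : G F i) (u : Matrix (Fin i) (Fin 0) F) (y : G F 0) :
    (⟨i + 0, blk x u y⟩ : Obj F) = ⟨i, x⟩ := obj_eq rfl fun r s => blkM_ll x.val u y.val r s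

theorem blk_zero_left (x : G F 0) (u : Matrix (Fin 0) (Fin j) F) (y : G F j) :
    (⟨0 + j, blk x u y⟩ : Obj F) = ⟨j, y⟩ :=
  (obj_eq (zero_add j).symm fun r s => by
    rw [← blkM_rr x.val u y.val r s]; congr 1 <;> ext <;> simp).symm

theorem De_zero_right (a : H ω) (x : G F i) (y : G F 0) : De a i 0 x y = a ⟨i, x⟩ := by
  simp only [De, blk_zero_right]
  simp [card_mat]

theorem De_zero_left (a : H ω) (x : G F 0) (y : G F j) : De a 0 j x y = a ⟨j, y⟩ := by
  simp [De, blk_zero_left, card_mat]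

theorem exists_adj (c a : H ω) : ∃ a', ∀ y, ip (c * y) a = ip y a' := by
  obtain ⟨N, h⟩ := a.exists_bound
  refine ⟨∑ j ∈ range N, mk ω j fun g => c.1.sum fun x α =>
    conj α * De a x.1 j x.2 g / Nat.card (G F x.1), fun y => ?_⟩
  induction y using H.induction with
  | h0 => rw [H.mul_zero, ip_zero_left, ip_zero_left]
  | h2 y z h1 h2 => rw [H.mul_add, ip_add_left, ip_add_left, h1, h2]
  | h1 j y hy =>
    rw [ip_sum_right, sum_eq_single j (fun k _ hk => hy.ip_eq_zero (isHom_mk _) hk.symm) fun hj => by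
      rw [← ip_conj, ip_mk]
      simp [classInner_def, Finsupp.sum, De, fun (x : Obj F) g u =>
        h ⟨_, blk x.2 u g⟩ (show N ≤ x.1 + j by simp at hj; omega)], ← ip_conj _ y, ip_mk, ip_mul]
    rw [Finsupp.sum, sum_congr rfl fun x _ => hy.sum_eq _ (by simp)]
    simp only [classInner_def, Finsupp.sum, map_mul, map_inv₀, map_natCast, map_sum, map_div₀,
      Complex.conj_conj, sum_mul, mul_sum]
    rw [sum_comm]
    exact sum_congr rfl fun _ _ => sum_congr rfl fun _ _ => by ring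

end Cfsg.GLn
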