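import Cfsg.Agent.GLn.IntA
import Cfsg.Agent.GLn.Defs2
import Cfsg.Agent.GLn.Ar
import Cfsg.Agent.GLn.Pw
import Cfsg.Agent.GLn.GG2

/-! The piece `Int`: the complete symmetric functions of Green's power sums are virtual characters. -/

set_option autoImplicit false

namespace Cfsg.GLn.IntB

open Finset Polynomial Neck

universe u

variable {F : Type u} [Field F] [Fintype F] [DecidableEq F]

local notation "q" => Fintype.card F

theorem one_val (n : ℕ) (g : G F n) : one F n ⟨n, g⟩ = 1 :=
  mk_apply_of (f := 1) (fun _ _ => by simp) g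

theorem grp_one : GrpLike 1 (one F) where
  pos := one_pos
  zero := (isHom_mk _).ext isHom_one fun g => (one_val 0 g).trans (one_apply g).symm
  hom m := (one_mul m).symm ▸ isHom_mk _
  de m i j g₁ g₂ := by
    have hh : ∀ n, IsHom n (one F n) := fun n => isHom_mk _
    by_cases h : i + j = m
    · subst h
      have : De (one F (i + j)) i j g₁ g₂ = 1 := by
        have hq : (q : ℂ) ≠ 0 := by simp
        simp [De, one_val, card_mat, hq]
      rw [this, Finset.sum_eq_single (i, j)]
      · simp [one_val]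
      · rintro ⟨a, b⟩ h1 h2
        by_cases h3 : i = a
        · have h4 : j ≠ b := fun h => h2 (by rw [h3, h])
          rw [hh b ⟨j, g₂⟩ h4, mul_zero]
        · rw [hh a ⟨i, g₁⟩ h3, zero_mul]
      · simp
    · rw [(hh m).de_eq_zero h]
      refine (Finset.sum_eq_zero fun x hx => ?_).symm
      have h1 := Finset.HasAntidiagonal.mem_antidiagonal.1 hx
      by_cases h3 : i = x.1
      · rw [hh x.2 ⟨j, g₂⟩ (show j ≠ x.2 by omega), mul_zero]
      · rw [hh x.1 ⟨i, g₁⟩ h3, zero_mul]

omit [Fintype F] [DecidableEq F] in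
theorem un_val (α : (K F)ˣ) : un (α : K F) = α := by
  simp [un]

omit [DecidableEq F] in
theorem aeval_pow_q (f : F[X]) (a : K F) (i : ℕ) : aeval (a ^ q ^ i) f = aeval a f ^ q ^ i := by
  induction i with
  | zero => simp
  | succ i ih =>
    have := Polynomial.aeval_algHom_apply (FiniteField.frobeniusAlgHom F (K F)) (a ^ q ^ i) f
    simp only [FiniteField.coe_frobeniusAlgHom] at this
    rw [pow_succ, pow_mul, pow_mul, this, ih]

omit [DecidableEq F] in
theorem aroots_irr {f : F[X]} (hf : Irreducible f) (hm : f.Monic) {α : (K F)ˣ}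
    (hα : aeval (α : K F) f = 0) : (io α).per = f.natDegree ∧
      (f.aroots (K F)).map un = (range f.natDegree).val.map fun i => α ^ q ^ i := by
  have hmin : minpoly F (α : K F) = f := (minpoly.eq_of_irreducible_of_monic hf hα hm).symm
  have key : ∀ n, (io α).per ∣ n ↔ f.natDegree ∣ n := fun n => by
    rw [per_io_dvd_iff, hf.natDegree_dvd_iff_dvd_X_pow_card_pow_sub_X, ← hmin, minpoly.dvd_iff,
      Nat.card_eq_fintype_card, Units.ext_iff]
    simp [sub_eq_zero]
  have hp : (io α).per = f.natDegree := Nat.dvd_antisymm ((key _).2 dvd_rfl) ((key _).1 dvd_rfl)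
  refine ⟨hp, (Multiset.eq_of_le_of_card_le ?_ ?_).symm⟩
  · refine (Multiset.le_iff_subset ?_).2 fun β hβ => ?_
    · refine Multiset.Nodup.map_on (fun i hi j hj e => ?_) (range _).nodup
      rw [← hp, (allPer F).per_omk] at hi hj
      exact Function.iterate_injOn_Iio_minimalPeriod (f := fr F) (x := α) (by simpa using hi)
        (by simpa using hj) (by simpa only [fr_iterate] using e)
    · obtain ⟨i, -, rfl⟩ := Multiset.mem_map.1 hβ
      refine Multiset.mem_map.2 ⟨(α : K F) ^ q ^ i, ?_, by rw [← Units.val_pow_eq_pow_val, un_val]⟩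
      rw [mem_aroots, aeval_pow_q, hα, zero_pow (pow_pos Fintype.card_pos i).ne']
      exact ⟨hf.ne_zero, rfl⟩
  · simp [IsAlgClosed.card_aroots_eq_natDegree]

omit [DecidableEq F] in
theorem map_range_mul {α : (K F)ˣ} {d : ℕ} (h : α ^ q ^ d = α) (e : ℕ) :
    ((range (e * d)).val.map fun i => α ^ q ^ i) = e • (range d).val.map fun i => α ^ q ^ i := by
  induction e with
  | zero => simp
  | succ e ih =>
    have h1 : ∀ n, α ^ q ^ (n * d) = α := fun n => by
      induction n with
      | zero => simp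
      | succ n ih => rw [add_mul, one_mul, pow_add, pow_mul, ih, h]
    rw [add_mul, one_mul, range_val, Multiset.range_add, Multiset.map_add, ← range_val, ih,
      succ_nsmul, Multiset.map_map]
    congr 1
    exact Multiset.map_congr rfl fun i _ => by
      rw [Function.comp, pow_add, pow_mul, h1]

/-- the support of primitive elements -/
theorem supp {ω : Fˣ →* ℂˣ} {c : H ω} (h : Prim c) {n : ℕ} {g : G F n} (hg : c ⟨n, g⟩ ≠ 0)
    {α : (K F)ˣ} (hα : α ∈ eig ⟨n, g⟩) :
    α ^ q ^ n = α ∧ eig ⟨n, g⟩ = (range n).val.map fun i => α ^ q ^ i := by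
  obtain ⟨f, e, hf, hm, hX, he, hc⟩ := h.primary hg
  have h1 : eig ⟨n, g⟩ = e • (f.aroots (K F)).map un := by
    rw [← Multiset.map_nsmul, ← aroots_pow, ← hc]; rfl
  have h2 : n = e * f.natDegree := by rw [← natDegree_pow, ← hc, chp_natDegree]
  rw [h1] at hα
  obtain ⟨a, ha, rfl⟩ := Multiset.mem_map.1 (Multiset.mem_of_mem_nsmul hα)
  have ha0 : a ≠ 0 := by
    rintro rfl
    have := (mem_aroots.1 ha).2
    rw [← Polynomial.coeff_zero_eq_aeval_zero', map_eq_zero] at this
    exact coeff_zero_ne_of_ne_X hf hm hX this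
  have h3 : (un a : K F) = a := by simp [un, ha0]
  obtain ⟨h4, h5⟩ := aroots_irr hf hm (α := un a) (by rw [h3]; exact (mem_aroots.1 ha).2)
  refine ⟨(per_io_dvd_iff _ _).1 (by rw [h4, h2]; exact dvd_mul_left _ _), ?_⟩
  rw [h1, h5, ← map_range_mul ((per_io_dvd_iff _ _).1 h4.dvd), ← h2]

/-- the eigenvalues on the support of a primitive element -/
def Good (k : ℕ) (s : Multiset (K F)ˣ) : Prop :=
  0 < k ∧ s.card = k ∧ ∀ α ∈ s, α ^ q ^ k = α ∧ s = (range k).val.map fun i => α ^ q ^ i

theorem card_eig (x : Obj F) : (eig x).card = x.1 := by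
  rw [eig, Multiset.card_map]; exact card_evs (K F) x

/-- the multiplicative operators as algebra maps -/
noncomputable def muH [Laws F] {ω : Fˣ →* ℂˣ} (Φ : (K F)ˣ → ℂ) : H ω →ₐ[ℂ] H ω :=
  pwmAlg (m := fun x => ((eig x).map Φ).prod) (fun n g z => by simp only [eig_conj])
    (by rw [show eig (⟨0, 1⟩ : Obj F) = (evs (K F) ⟨0, 1⟩).map un from rfl, evs_zero]; simp)
    fun i j g₁ g₂ u => by
      rw [show eig (⟨_, blk g₁ u g₂⟩ : Obj F) = (evs (K F) ⟨_, blk g₁ u g₂⟩).map un from rfl,
        evs_blk, Multiset.map_add, Multiset.map_add, Multiset.prod_add]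
      rfl

theorem muH_apply [Laws F] {ω : Fˣ →* ℂˣ} (Φ : (K F)ˣ → ℂ) (a : H ω) :
    muH Φ a = sc (fun s => (s.map Φ).prod) a := H.ext fun _ => rfl

theorem sc_sum {ω : Fˣ →* ℂˣ} {ι : Type*} (T : Finset ι) (c : ι → ℂ)
    (φ : ι → Multiset (K F)ˣ → ℂ) (a : H ω) :
    ∑ t ∈ T, c t • sc (φ t) a = sc (fun s => ∑ t ∈ T, c t * φ t s) a := H.ext fun x => by
  simp only [H.sum_apply, H.smul_apply, sc_apply, sum_mul, mul_assoc]

theorem prod_eq_esymm (s : Multiset ℂ) (y : ℂ) :
    (s.map fun r => 1 + y * r).prod = ∑ j ∈ range (s.card + 1), y ^ j * s.esymm j := by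
  have := congrArg (eval 1) (Multiset.prod_X_add_C_eq_sum_esymm (s.map (y • ·)))
  simp only [← Multiset.pow_smul_esymm] at this
  simpa [eval_multiset_prod, eval_finsetSum] using this

variable [Laws F]

theorem vir_esymm (a n j : ℕ) :
    sc (fun s => (s.map fun α => (th F α : ℂ) ^ a).esymm j) (one F n) ∈ ZZ F := by
  refine IsHom.vir (n := n) (fun x hx => ?_) ?_
  · rw [sc_apply, show one F n x = 0 from isHom_mk _ x hx, mul_zero]
  convert BL.green_GL (n := Fin n) (th F ^ a) j using 2 with g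
  rw [sc_apply, one_val, mul_one, eig, Multiset.map_map]
  congr 1
  refine Multiset.map_congr rfl fun x hx => ?_
  have h0 : x ≠ 0 := by
    rintro rfl
    have := (mem_aroots.1 hx).2
    rw [← Polynomial.coeff_zero_eq_aeval_zero', map_eq_zero] at this
    have h2 := Matrix.det_eq_sign_charpoly_coeff g.val
    rw [this, mul_zero] at h2
    exact g.det_ne_zero h2
  simp [un, h0]

theorem sc_lg {k : ℕ} {φ ψ : Multiset (K F)ˣ → ℂ} (h : ∀ s, Good k s → φ s = ψ s) :
    sc φ (lg (one F) k) = sc ψ (lg (one F) k) := H.ext fun x => by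
  rw [sc_apply, sc_apply]
  by_cases h0 : lg (one F) k x = 0
  · rw [h0, mul_zero, mul_zero]
  obtain ⟨n, g⟩ := x
  obtain rfl : n = k := by
    by_contra e
    exact h0 (grp_one.isHom_lg k _ (by simpa using e))
  rw [h _ ⟨Nat.pos_of_ne_zero ?_, card_eig _, fun α hα => supp (grp_one.prim_lg n) h0 hα⟩]
  rintro rfl
  rw [lg_zero] at h0
  exact h0 rfl

/-- the primitive elements of the powers of `th` -/
noncomputable def Q (k a : ℕ) : H (1 : Fˣ →* ℂˣ) :=
  sc (fun s => (s.map fun α => (th F α : ℂ) ^ a).sum / k) (lg (one F) k)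

theorem dat : Dat q (Q (F := F)) where
  fr k a := sc_lg fun s hs => by
    obtain ⟨α, hα⟩ := Multiset.card_pos_iff_exists_mem.1 (hs.2.1.symm ▸ hs.1 : 0 < s.card)
    obtain ⟨h1, h2⟩ := hs.2.2 α hα
    congr 1
    rw [h2, Multiset.map_map, Multiset.map_map]
    have e1 := sum_range_succ' (fun i => (th F (α ^ q ^ i) : ℂ) ^ a) k
    rw [sum_range_succ, h1, pow_zero, pow_one, add_left_inj] at e1
    refine Eq.trans (sum_congr rfl fun i _ => ?_) e1.symm
    simp only [Function.comp, map_pow, Units.val_pow_eq_pow_val, ← pow_mul, pow_succ, mul_assoc]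
  per k a b := sc_lg fun s hs => by
    congr 2
    refine Multiset.map_congr rfl fun α hα => ?_
    rw [pow_add, pow_add, pow_mul, ← Units.val_pow_eq_pow_val, ← map_pow, (hs.2.2 α hα).1]

theorem eval_tm (a k : ℕ) (y : ℂ) :
    eval (algebraMap ℂ _ y) (∑ T ∈ (range k).powerset, tm q (Q (F := F)) a k T) =
      muH (fun α => 1 + y * (th F α : ℂ) ^ a) (lg (one F) k) := by
  simp only [tm, eval_finsetSum, eval_mul, eval_pow, eval_X, eval_C, ← map_pow, ← Algebra.smul_def,
    Q, muH_apply]
  rw [sc_sum]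
  refine sc_lg fun s hs => ?_
  have h1 : ∀ α ∈ s, ∑ T ∈ (range k).powerset, y ^ #T * (th F α : ℂ) ^ (a * ∑ i ∈ T, q ^ i) =
      (s.map fun α => 1 + y * (th F α : ℂ) ^ a).prod := fun α hα => by
    conv_rhs => rw [(hs.2.2 α hα).2, Multiset.map_map]
    refine Eq.trans ?_ (prod_one_add (range k)).symm
    refine sum_congr rfl fun T _ => ?_
    simp only [map_pow, Units.val_pow_eq_pow_val, ← pow_mul, prod_mul_distrib, prod_const,
      prod_pow_eq_pow_sum, ← sum_mul, mul_comm a]
  have h2 : (k : ℂ) ≠ 0 := Nat.cast_ne_zero.2 hs.1.ne'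
  simp only [← mul_div_assoc, ← sum_div, ← Multiset.sum_map_mul_left]
  rw [← Multiset.sum_map_sum, Multiset.map_congr rfl h1, Multiset.map_const', Multiset.sum_replicate,
    hs.2.1, nsmul_eq_mul, mul_div_cancel_left₀ _ h2]

theorem hG (a n j : ℕ) :
    (ex (fun k => ∑ T ∈ (range k).powerset, tm q (Q (F := F)) a k T) n).coeff j ∈ ZZ F := by
  have : ex (fun k => ∑ T ∈ (range k).powerset, tm q (Q (F := F)) a k T) n = ∑ j ∈ range (n + 1),
      monomial j (sc (fun s => (s.map fun α => (th F α : ℂ) ^ a).esymm j) (one F n)) := by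
    refine poly_ext fun y => ?_
    have h1 := map_ex (evalRingHom (algebraMap ℂ _ y))
      (fun k => ∑ T ∈ (range k).powerset, tm q (Q (F := F)) a k T) n
    have h2 := map_ex (muH (ω := 1) fun α => 1 + y * (th F α : ℂ) ^ a).toRingHom (lg (one F)) n
    simp only [coe_evalRingHom, eval_tm] at h1
    rw [ex_lg grp_one.zero] at h2
    refine (h1.trans h2.symm).trans ?_
    simp only [eval_finsetSum, eval_monomial, ← map_pow, mul_comm _ (algebraMap _ _ _),
      ← Algebra.smul_def, sc_sum]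
    refine (muH_apply _ _).trans (H.ext fun x => ?_)
    rw [sc_apply, sc_apply]
    by_cases hx : x.1 = n
    · have := prod_eq_esymm ((eig x).map fun α => (th F α : ℂ) ^ a) y
      rw [Multiset.map_map, Multiset.card_map, card_eig, hx] at this
      exact congrArg (· * _) this
    · rw [show one F n x = 0 from isHom_mk _ x hx, mul_zero, mul_zero]
  rw [this, finsetSum_coeff]
  refine sum_mem fun i _ => ?_
  rw [coeff_monomial]
  split_ifs
  exacts [vir_esymm a n i, zero_mem _]

theorem P_eq {c m : ℕ} {ξ : (K F)ˣ} (hξ : ξ ∈ Mk F c) :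
    P (c * m) ξ = pf q Q c (lgz c ξ) m := sc_lg fun s hs => by
  congr 2
  refine Multiset.map_congr rfl fun α hα => ?_
  rw [pr_compat (dvd_mul_right c m) hξ ((mem_Mk hs.1).2 (hs.2.2 α hα).1),
    Nat.mul_div_cancel_left _ (pos_of_mem_Mk hξ), prod_pow_q, pr_apply]
  simp only [map_pow, Units.val_pow_eq_pow_val, ← pow_mul, mul_comm]

end Cfsg.GLn.IntB

namespace Cfsg.GLn

universe u

/-- piece `Int` -/
theorem stInt (F : Type u) [Field F] [Fintype F] [DecidableEq F] [Laws F] : StInt F := by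
  intro o m
  have h1 := IntB.dat.mem (ZZ F) IntB.hG (per_pos o) (lgz o.per o.rep)
  have h2 := Neck.ex_neg_mem (ZZ F) h1 m
  have : ex (pp o) = ex fun k => ((-1) ^ o.per) ^ k *
      (-Neck.pf (Fintype.card F) IntB.Q o.per (lgz o.per o.rep)) k := ex_congr fun k _ => by
    rw [pp, IntB.P_eq (rep_mem_Mk (per_pos o) dvd_rfl), Algebra.smul_def]
    simp [pow_succ, pow_mul]
  change _ ∈ ZZ F
  rw [this, ex_pow_mul]
  exact mul_mem (pow_mem (pow_mem (neg_mem (one_mem _)) _) _) h2

end Cfsg.GLn
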