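import Cfsg.Agent.GLn.SymA
import Cfsg.Agent.GLn.Dyn

/-! The necklace argument for integrality, abstract form. -/

set_option autoImplicit false

namespace Cfsg.GLn.Neck

open Finset Polynomial Function Dyn

/-- periodic binary words -/
abbrev Wd : Type := {w : ℕ → Bool // ∃ k, 0 < k ∧ ∀ i, w (i + k) = w i}

/-- the shift -/
def sh (w : Wd) : Wd := ⟨fun i => w.1 (i + 1), w.2.imp fun k h =>
  ⟨h.1, fun i => by simp only [add_right_comm i k 1, h.2]⟩⟩

theorem sh_iter (k : ℕ) (w : Wd) (i : ℕ) : (sh^[k] w).1 i = w.1 (i + k) := by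
  induction k generalizing w with
  | zero => rfl
  | succ k ih => rw [iterate_succ_apply, ih]; rfl

theorem fix_iff {k : ℕ} {w : Wd} : sh^[k] w = w ↔ ∀ i, w.1 (i + k) = w.1 i :=
  ⟨fun h i => by rw [← sh_iter, h], fun h => Subtype.ext (funext fun i => by rw [sh_iter, h])⟩

theorem allPer_sh : AllPer sh := fun w =>
  w.2.elim fun k h => ⟨k, h.1, fix_iff.2 h.2⟩

theorem fix_mod {k : ℕ} {w : Wd} (h : sh^[k] w = w) (i : ℕ) : w.1 (i % k) = w.1 i := by
  have key : ∀ m j, w.1 (j + k * m) = w.1 j := by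
    intro m
    induction m with
    | zero => intro j; rfl
    | succ m ih => intro j; rw [mul_add, mul_one, ← add_assoc, fix_iff.1 h, ih]
  conv_rhs => rw [← Nat.mod_add_div i k, key]

/-- the support in one period -/
def sp (k : ℕ) (w : Wd) : Finset ℕ := (range k).filter fun i => w.1 i

/-- the word of a subset -/
def wd {k : ℕ} (hk : 0 < k) (T : Finset ℕ) : Wd :=
  ⟨fun i => decide (i % k ∈ T), k, hk, fun i => by simp only [Nat.add_mod_right]⟩

theorem wd_fix {k : ℕ} (hk : 0 < k) (T : Finset ℕ) : sh^[k] (wd hk T) = wd hk T :=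
  fix_iff.2 fun i => by simp [wd]

theorem wd_sp {k : ℕ} (hk : 0 < k) {w : Wd} (h : sh^[k] w = w) : wd hk (sp k w) = w :=
  Subtype.ext (funext fun i => by simp [wd, sp, Nat.mod_lt _ hk, fix_mod h])

theorem sp_wd {k : ℕ} (hk : 0 < k) {T : Finset ℕ} (h : T ⊆ range k) : sp k (wd hk T) = T := by
  ext i
  simp only [sp, wd, mem_filter, mem_range, decide_eq_true_eq]
  exact ⟨fun hi => by rw [← Nat.mod_eq_of_lt hi.1]; exact hi.2, fun hi =>
    ⟨mem_range.1 (h hi), by rwa [Nat.mod_eq_of_lt (mem_range.1 (h hi))]⟩⟩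

theorem fin_fix {k : ℕ} (hk : 0 < k) : {w | sh^[k] w = w}.Finite :=
  (((range k).powerset.finite_toSet).image (wd hk)).subset fun w hw =>
    ⟨sp k w, mem_coe.2 (mem_powerset.2 (filter_subset _ _)), wd_sp hk hw⟩

theorem sum_fix_eq {M : Type*} [AddCommMonoid M] {k : ℕ} (hk : 0 < k) (f : Finset ℕ → M) :
    ∑ T ∈ (range k).powerset, f T = ∑ w ∈ fixF sh k (fin_fix hk), f (sp k w) :=
  sum_nbij' (wd hk) (sp k) (fun T _ => mem_fixF.2 (wd_fix hk T)) (fun w _ => by simp [sp])
    (fun T hT => sp_wd hk (mem_powerset.1 hT)) (fun w hw => wd_sp hk (mem_fixF.1 hw))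
    fun T hT => by rw [sp_wd hk (mem_powerset.1 hT)]

theorem sum_sp {M : Type*} [AddCommMonoid M] (k : ℕ) (w : Wd) (g : ℕ → M) :
    ∑ i ∈ sp k w, g i = ∑ i ∈ range k, if w.1 i then g i else 0 := sum_filter _ _

theorem sum_sp_mul {c : ℕ} {w : Wd} (h : sh^[c] w = w) (q m : ℕ) :
    ∑ i ∈ sp (c * m) w, q ^ i = (∑ i ∈ sp c w, q ^ i) * ∑ j ∈ range m, q ^ (c * j) := by
  induction m with
  | zero => simp [sp]
  | succ m ih =>
    rw [sum_range_succ, mul_add (∑ i ∈ sp c w, q ^ i), ← ih, sum_sp, sum_sp, sum_sp, mul_add,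
      mul_one, sum_range_add, sum_mul]
    congr 1
    refine sum_congr rfl fun i _ => ?_
    rw [← fix_mod h (c * m + i), Nat.mul_add_mod, fix_mod h]
    split_ifs <;> ring

theorem card_sp_mul {c : ℕ} {w : Wd} (h : sh^[c] w = w) (m : ℕ) :
    #(sp (c * m) w) = #(sp c w) * m := by
  simpa using sum_sp_mul h 1 m

theorem sum_sp_sh {k : ℕ} {w : Wd} (h : sh^[k] w = w) (q : ℕ) :
    q * ∑ i ∈ sp k (sh w), q ^ i + (if w.1 0 then 1 else 0) =
      ∑ i ∈ sp k w, q ^ i + if w.1 0 then q ^ k else 0 := by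
  have h0 : w.1 k = w.1 0 := by simpa using fix_iff.1 h 0
  have e1 := sum_range_succ' (fun i => if w.1 i then q ^ i else 0) k
  have e2 := sum_range_succ (fun i => if w.1 i then q ^ i else 0) k
  rw [sum_sp, sum_sp, mul_sum, ← h0, ← e2, e1, h0, pow_zero]
  congr 1
  refine sum_congr rfl fun i _ => ?_
  change q * (if w.1 (i + 1) = true then q ^ i else 0) = _
  split_ifs <;> simp [pow_succ']

variable {A : Type*} [CommRing A] [Algebra ℂ A]

/-- the data -/
structure Dat (q : ℕ) (Q : ℕ → ℕ → A) : Prop where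
  fr : ∀ k a, Q k (q * a) = Q k a
  per : ∀ k a b, Q k (q ^ k * a + b) = Q k (a + b)

/-- the families to be exponentiated -/
def pf (q : ℕ) (Q : ℕ → ℕ → A) (c b m : ℕ) : A := Q (c * m) (b * ∑ j ∈ range m, q ^ (c * j))

/-- the term of a subset -/
noncomputable def tm (q : ℕ) (Q : ℕ → ℕ → A) (a k : ℕ) (T : Finset ℕ) : A[X] :=
  X ^ #T * C (Q k (a * ∑ i ∈ T, q ^ i))

variable {q : ℕ} {Q : ℕ → ℕ → A}

omit [Algebra ℂ A] in
theorem Dat.tm_sh (D : Dat q Q) (a : ℕ) {k : ℕ} {w : Wd} (h : sh^[k] w = w) :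
    tm q Q a k (sp k (sh w)) = tm q Q a k (sp k w) := by
  have h1 := sum_sp_sh h 1
  simp only [one_pow, sum_const, smul_eq_mul, mul_one, one_mul, add_left_inj] at h1
  have h2 := sum_sp_sh h q
  rw [tm, tm, h1, ← D.fr, mul_left_comm]
  congr 2
  by_cases h0 : w.1 0
  · rcases Nat.eq_zero_or_pos k with rfl | hk
    · simp [sp]
    have : 0 ∈ sp k w := by simp [sp, hk, h0]
    rw [← add_sum_erase _ _ this] at h2 ⊢
    simp only [h0, if_true, pow_zero] at h2 ⊢
    have h3 : q * ∑ i ∈ sp k (sh w), q ^ i = q ^ k + ∑ i ∈ (sp k w).erase 0, q ^ i := by omega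
    rw [h3, mul_add, mul_comm a, D.per, mul_add, mul_one]
  · simp only [h0] at h2
    simp only [Bool.false_eq_true, if_false, add_zero] at h2
    rw [h2]

open Classical in
/-- the invariant term of a word -/
noncomputable def tw (q : ℕ) (Q : ℕ → ℕ → A) (a k : ℕ) (w : Wd) : A[X] :=
  if sh^[k] w = w then tm q Q a k (sp k w) else 0

omit [Algebra ℂ A] in
theorem Dat.tw_sh (D : Dat q Q) (a k : ℕ) (w : Wd) : tw q Q a k (sh w) = tw q Q a k w := by
  have : sh^[k] (sh w) = sh w ↔ sh^[k] w = w := by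
    rw [← iterate_succ_apply, iterate_succ_apply']
    exact allPer_sh.injective.eq_iff
  unfold tw
  by_cases h : sh^[k] w = w
  · rw [if_pos h, if_pos (this.2 h), D.tm_sh a h]
  · rw [if_neg h, if_neg (mt this.1 h)]

/-- the family of an orbit -/
noncomputable def po (q : ℕ) (Q : ℕ → ℕ → A) (a : ℕ) (O : Orb sh) (k : ℕ) : A[X] :=
  if O.per ∣ k then O.per • tw q Q a k O.rep else 0

theorem Dat.ex_po (D : Dat q Q) (a : ℕ) (w : Wd) {c : ℕ} (hc : (omk sh w).per = c) (n : ℕ) :
    ex (po q Q a (omk sh w)) n = if c ∣ n then X ^ (#(sp c w) * (n / c)) *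
      C (ex (pf q Q c (a * ∑ i ∈ sp c w, q ^ i)) (n / c)) else 0 := by
  have hp : 0 < c := hc ▸ allPer_sh.per_pos _
  have hw : sh^[c] w = w := (allPer_sh.iterate_eq_iff w c).2 (hc ▸ dvd_rfl)
  rw [ex_stretch hp fun k hk => by rw [po, hc, if_neg hk]]
  refine if_congr Iff.rfl ?_ rfl
  rw [pow_mul, map_ex, ← ex_pow_mul]
  congr 1
  funext m
  have hw' : sh^[c * m] w = w := (allPer_sh.iterate_eq_iff w _).2 (hc ▸ dvd_mul_right _ _)
  rw [po, hc, if_pos (dvd_mul_right _ _), allPer_sh.inv_rep (D.tw_sh a _), tw, if_pos hw',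
    ← Nat.cast_smul_eq_nsmul ℂ, smul_smul, inv_mul_cancel₀ (by exact_mod_cast hp.ne'), one_smul, tm,
    card_sp_mul hw, sum_sp_mul hw, pow_mul, pf, mul_assoc]

theorem Dat.ex_eq (D : Dat q Q) (a n : ℕ) [DecidableEq (Orb sh)] :
    ex (fun k => ∑ T ∈ (range k).powerset, tm q Q a k T) n =
      ∑ l ∈ finsuppAntidiag (orbF sh n.factorial (fin_fix n.factorial_pos)) n,
        ∏ O ∈ orbF sh n.factorial (fin_fix n.factorial_pos), ex (po q Q a O) (l O) := by
  rw [← ex_sum]
  refine ex_congr_le (fun k hk hkn => ?_) n le_rfl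
  rw [sum_fix_eq hk, sum_congr rfl (g := tw q Q a k) fun w hw => by
    rw [tw, if_pos (mem_fixF.1 hw)], allPer_sh.sum_fix _ (D.tw_sh a k), Finset.sum_apply]
  refine sum_subset_zero_on_sdiff (fun O hO => ?_) (fun O hO => ?_) fun O hO => ?_
  · rw [allPer_sh.mem_orbF] at hO ⊢
    exact hO.trans (Nat.dvd_factorial hk hkn)
  · rw [mem_sdiff, allPer_sh.mem_orbF, allPer_sh.mem_orbF] at hO
    rw [po, if_neg hO.2]
  · rw [po, if_pos (allPer_sh.mem_orbF.1 hO)]

theorem per_wd {c : ℕ} (hc : 0 < c) : (omk sh (wd hc {0})).per = c := by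
  refine Nat.dvd_antisymm ((allPer_sh.iterate_eq_iff _ c).1 (wd_fix hc _)) ?_
  have := fix_iff.1 ((allPer_sh.iterate_eq_iff (wd hc {0}) _).2 dvd_rfl) 0
  simpa [wd, Nat.dvd_iff_mod_eq_zero] using this

theorem omk_eq_wd {c : ℕ} (hc : 0 < c) {w : Wd} (hw : sh^[c] w = w) (h1 : #(sp c w) = 1) :
    omk sh w = omk sh (wd hc {0}) := by
  obtain ⟨j, hj⟩ := card_eq_one.1 h1
  have hjc : j < c := by
    have : j ∈ sp c w := hj ▸ mem_singleton_self j
    exact mem_range.1 (mem_filter.1 this).1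
  rw [← omk_iterate w j, ← wd_sp hc hw, hj]
  congr 1
  refine Subtype.ext (funext fun i => ?_)
  rw [sh_iter]
  simp only [wd, mem_singleton, decide_eq_decide]
  conv_lhs => rhs; rw [← Nat.mod_eq_of_lt hjc]
  rw [← Nat.dvd_iff_mod_eq_zero, ← Nat.ModEq, ← Nat.modEq_zero_iff_dvd]
  exact ⟨fun h => Nat.ModEq.add_right_cancel' j (by simpa using h),
    fun h => by simpa using h.add_right j⟩

theorem Dat.mem (D : Dat q Q) (R : Subring A)
    (hG : ∀ a n j, (ex (fun k => ∑ T ∈ (range k).powerset, tm q Q a k T) n).coeff j ∈ R)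
    {c : ℕ} (hc : 0 < c) (b m : ℕ) : ex (pf q Q c b) m ∈ R := by
  classical
  induction hn : c * m using Nat.strong_induction_on generalizing c b m with
  | _ n ih =>
  induction m using Nat.strong_induction_on generalizing c b with
  | _ m ih' =>
  rcases Nat.eq_zero_or_pos m with rfl | hm
  · rw [ex_zero]; exact R.one_mem
  have hnp : 0 < n := hn ▸ Nat.mul_pos hc hm
  set S := orbF sh n.factorial (fin_fix n.factorial_pos) with hS
  have hO : omk sh (wd hc {0}) ∈ S := allPer_sh.mem_orbF.2 (by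
    rw [per_wd]; exact Nat.dvd_factorial hc (hn ▸ Nat.le_mul_of_pos_right _ hm))
  have single : ∀ O ∈ S, ∏ O' ∈ S, ex (po q Q b O') (Finsupp.single O n O') =
      ex (po q Q b O) n := fun O hO => by
    rw [prod_eq_single_of_mem O hO fun O' _ h => by rw [Finsupp.single_eq_of_ne h, ex_zero],
      Finsupp.single_eq_same]
  have h1 := hG b n m
  rw [D.ex_eq, ← add_sum_erase _ _ (a := Finsupp.single (omk sh (wd hc {0})) n) (by
    simp [mem_finsuppAntidiag, Finsupp.single_apply, ← hS, hO, hnp.ne']), coeff_add, ← hS,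
    single _ hO, D.ex_po b _ (per_wd hc), if_pos (hn ▸ dvd_mul_right _ _), sp_wd hc (by simpa),
    ← hn, Nat.mul_div_cancel_left _ hc, card_singleton, one_mul, sum_singleton, pow_zero, mul_one,
    mul_comm, coeff_C_mul, coeff_X_pow_self, mul_one, hn] at h1
  refine (R.add_mem_cancel_right ?_).1 h1
  rw [finsetSum_coeff]
  refine R.sum_mem fun l hl => ?_
  obtain ⟨hl0, hl⟩ := mem_erase.1 hl
  rw [mem_finsuppAntidiag] at hl
  by_cases h : ∀ O ∈ S, l O < n
  · suffices ∏ O ∈ S, ex (po q Q b O) (l O) ∈ lifts R.subtype by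
      obtain ⟨x, hx⟩ := (lifts_iff_coeff_lifts _).1 this m
      exact hx ▸ x.2
    refine prod_mem fun O hO => ?_
    rw [← omk_rep O, D.ex_po b _ rfl, omk_rep]
    split_ifs with hd
    · refine mul_mem (X_pow_mem_lifts _ _) ?_
      exact C_mem_lifts R.subtype ⟨_, ih _ (h O hO) (allPer_sh.per_pos O) _ _
        (Nat.mul_div_cancel' hd)⟩
    · exact zero_mem _
  · push Not at h
    obtain ⟨O, hO', hle⟩ := h
    have hl2 : l = Finsupp.single O n := by
      have e := hl.1
      rw [← add_sum_erase _ _ hO'] at e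
      ext O'
      by_cases h : O' = O
      · subst h; rw [Finsupp.single_eq_same]; omega
      · rw [Finsupp.single_eq_of_ne h]
        by_cases h2 : O' ∈ S
        · have := single_le_sum (f := l) (fun _ _ => Nat.zero_le _) (mem_erase.2 ⟨h, h2⟩)
          omega
        · exact Finsupp.notMem_support_iff.1 fun h3 => h2 (hl.2 h3)
    subst hl2
    rw [single O hO', ← omk_rep O, D.ex_po b _ rfl, omk_rep]
    split_ifs with hd
    · rw [mul_comm, coeff_C_mul, coeff_X_pow]
      split_ifs with he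
      · rw [mul_one]
        have hp := allPer_sh.per_pos O
        have hw : sh^[O.per] O.rep = O.rep :=
          (allPer_sh.iterate_eq_iff _ _).2 (by rw [omk_rep])
        refine ih' _ ?_ hp _ (Nat.mul_div_cancel' hd)
        by_contra hlt
        have h2 : 0 < n / O.per := by omega
        have h3 : #(sp O.per O.rep) = 1 := by
          rcases Nat.lt_trichotomy #(sp O.per O.rep) 1 with h | h | h
          · rw [Nat.lt_one_iff.1 h] at he; omega
          · exact h
          · nlinarith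
        rw [h3, one_mul] at he
        have h4 : O.per = c := by
          have := Nat.mul_div_cancel' hd
          rw [← he, ← hn] at this
          exact Nat.eq_of_mul_eq_mul_right hm this
        rw [h4] at hw h3
        exact hl0 (by rw [← omk_eq_wd hc hw h3, omk_rep])
      · rw [mul_zero]; exact R.zero_mem
    · exact R.zero_mem

theorem ex_neg_mem (R : Subring A) {p : ℕ → A} (h : ∀ n, ex p n ∈ R) (n : ℕ) : ex (-p) n ∈ R := by
  induction n using Nat.strong_induction_on with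
  | _ n ih =>
    rcases Nat.eq_zero_or_pos n with rfl | hn
    · rw [ex_zero]; exact R.one_mem
    have e := ex_add p (-p) n
    rw [add_neg_cancel, ex_zero_fun, if_neg hn.ne',
      ← add_sum_erase _ _ (a := (0, n)) (by simp), ex_zero, one_mul] at e
    rw [eq_neg_of_add_eq_zero_left e.symm]
    refine R.neg_mem (R.sum_mem fun x hx => R.mul_mem (h _) (ih _ ?_))
    obtain ⟨h1, h2⟩ := mem_erase.1 hx
    rw [HasAntidiagonal.mem_antidiagonal] at h2
    by_contra h3
    exact h1 (Prod.ext (by simp only; omega) (by simp only; omega))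

theorem poly_ext {f g : A[X]} (h : ∀ y : ℂ, f.eval (algebraMap ℂ A y) = g.eval (algebraMap ℂ A y)) :
    f = g := by
  rw [← sub_eq_zero]
  ext j
  refine (Module.forall_dual_apply_eq_zero_iff ℂ _).1 fun φ => ?_
  set d := f - g
  have : (∑ i ∈ d.support, monomial i (φ (d.coeff i))) = 0 := by
    refine Polynomial.funext fun y => ?_
    have h0 : d.eval (algebraMap ℂ A y) = 0 := by rw [eval_sub, h, sub_self]
    rw [eval_eq_sum, Polynomial.sum] at h0
    rw [eval_finsetSum, eval_zero, ← map_zero φ, ← h0, map_sum]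
    refine sum_congr rfl fun i _ => ?_
    rw [eval_monomial, ← map_pow, mul_comm (d.coeff i), ← Algebra.smul_def, map_smul,
      smul_eq_mul, mul_comm]
  have h2 := congrArg (coeff · j) this
  simp only [finsetSum_coeff, coeff_monomial, sum_ite_eq', coeff_zero] at h2
  split_ifs at h2 with h3
  · exact h2
  · rw [notMem_support_iff.1 h3, map_zero]

end Cfsg.GLn.Neck
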