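import Cfsg.Agent.GLn.TwA
import Cfsg.Agent.GLn.ArC
import Cfsg.Agent.GLn.Mu

/-! The piece `Irr`. -/

set_option autoImplicit false

namespace Cfsg.GLn

open Finset

universe u

variable {F : Type u} [Field F] [Fintype F] [DecidableEq F] [Laws F] {N n : ℕ}

theorem IrrP.S_congr {A : Type*} [CommRing A] [Algebra ℂ A] {p q : ℕ → A}
    (h : ∀ k, 0 < k → p k = q k) {X : Finset ℕ} (hX : #X = N) : S p N X = S q N X := by
  rw [S_eq_sum p hX, S_eq_sum q hX]
  simp only [exZ, ex_congr h]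

theorem chr_GamA (α : Fin N → ℕ) (h : ∑ i, α i = n) : Chr n (GamA (1 : Fˣ →* ℂˣ) α) :=
  (ser_prod_Gam (ω := 1) univ α h.symm).2.1

theorem irr_chi (hP : StP F) (hS : StSch F) (hI : StInt F) (μ : MP F N) : Irr (deg μ) (chi μ) := by
  have h := hS _ _ _ hP.fk
  refine irr_of_vc (y := GamA 1 (alpha μ)) (by simpa [chi] using h.hom μ) ?_
    (by simpa [chi] using h.orth μ μ) (chr_GamA _ (sum_alpha μ)) (by simpa [chi] using h.gamA μ)
  exact (ZZ F).prod_mem fun o _ => S_mem_subring _ (μ o).2 (ZZ F) fun k _ => hI o k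

theorem stIrr (hP : StP F) (hS : StSch F) (hI : StInt F) : StIrr F where
  irr μ h := h ▸ (irr_chi hP hS hI μ).2
  surj {N n} hn χ := by
    by_contra h0
    have h1 := (hS _ _ _ hP.fk).cpl N n (ofC χ) hn (by simpa using (irr_ofC χ).1) fun ν hν => by
      by_contra h2
      subst hν
      exact h0 ⟨ν, rfl, by rw [← cm_ofC χ, (irr_ofC χ).eq_of_ip (irr_chi hP hS hI ν) h2]⟩
    have h2 := (irr_ofC χ).ip_self
    rw [h1, ip_zero_left] at h2
    exact zero_ne_one h2
  tens lam μ := by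
    rw [chi, chi, schur, schur, prod_act, ← tensA_apply, Finsupp.prod, map_prod]
    exact prod_congr rfl fun o _ => by
      rw [map_S]; exact IrrP.S_congr (hP.tens lam o) (μ o).2

end Cfsg.GLn
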