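import Cfsg.Agent.GLn.MackeyB
import Cfsg.Agent.GLn.Raw

/-! The Mackey formula for the Hall algebra. -/

set_option autoImplicit false
set_option linter.unusedSectionVars false

namespace Cfsg.GLn

open Matrix ComplexConjugate Finset Module

universe u

variable {F : Type u} [Field F] [Fintype F] [DecidableEq F] {ω : Fˣ →* ℂˣ} {n i j k l : ℕ}

/-- order preserving block decompositions -/
def OrdE (e : Fin k ⊕ Fin l ≃ Fin n) : Prop := ∀ s, (e s : ℕ) = finSumFinEquiv s

/-- the inflation of `c ⊗ d` to the parabolic of `e` -/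
noncomputable def pfH (e : Fin k ⊕ Fin l ≃ Fin n) (c d : H ω) (g : G F n) : ℂ :=
  pf e (zx fun x => c ⟨k, x⟩) (zx fun y => d ⟨l, y⟩) g.val

theorem cardSt_ne (W : Submodule F (Fin n → F)) : (Nat.card (St W) : ℂ) ≠ 0 :=
  Nat.cast_ne_zero.2 Nat.card_pos.ne'

theorem mul_eq_mk {c d : H ω} (hc : IsHom k c) (hd : IsHom l d) {e : Fin k ⊕ Fin l ≃ Fin n}
    (he : OrdE e) : c * d =
      ((Nat.card (G F n) : ℂ) / Nat.card (St (co (F := F) e))) • mk ω n (pfH e c d) := by
  obtain rfl : k + l = n := by simpa using Fintype.card_congr e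
  obtain rfl : e = finSumFinEquiv := Equiv.ext fun s => Fin.ext (he s)
  refine ext_ip' fun y => ?_
  have h1 := cardG_ne (F := F) (k + l)
  have h2 := cardG_ne (F := F) k
  have h3 := cardG_ne (F := F) l
  have h4 := cardF_ne (F := F)
  rw [hc.ip_mul hd, ip_smul_left, ip_mk, classInner_def, card_St]
  simp only [pfH, sum_pfG, De, map_mul, map_inv₀, map_pow, map_natCast, map_sum, ← mul_sum,
    mul_left_comm _ ((Fintype.card F : ℂ) ^ (k * l))⁻¹]
  change _ = _ * (_ * ∑ x, ∑ x', _ * _ * ∑ u, conj (y ⟨k + l, blk x u x'⟩))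
  field_simp

variable (ω) in
/-- the contribution of `z` -/
noncomputable def mPhi (f₁ f₂ : G F n → ℂ) (z : G F n) : ℂ :=
  ∑ g, f₁ g * conj (ω (dt z) * f₂ (z⁻¹ * g * z))

theorem ip_mk_mk (f₁ f₂ : G F n → ℂ) : ip (mk ω n f₁) (mk ω n f₂) =
    (Nat.card (G F n) : ℂ)⁻¹ * (Nat.card (G F n) : ℂ)⁻¹ * ∑ z, mPhi ω f₁ f₂ z := by
  rw [ip_mk, classInner_def, mul_assoc]
  simp only [mk_apply, mPhi, map_mul, map_inv₀, map_natCast, map_sum, mul_sum]
  rw [sum_comm]
  refine sum_congr rfl fun z _ => sum_congr rfl fun g _ => by ring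

theorem mPhi_dc {f₁ f₂ : G F n → ℂ} {p q : G F n}
    (hp : ∀ g, f₁ (p * g * p⁻¹) = ω (dt p) * f₁ g)
    (hq : ∀ g, f₂ (q⁻¹ * g * q⁻¹⁻¹) = ω (dt q⁻¹) * f₂ g) (z : G F n) :
    mPhi ω f₁ f₂ (p * z * q) = mPhi ω f₁ f₂ z := by
  rw [mPhi, ← (MulAut.conj p).toEquiv.sum_comp]
  refine sum_congr rfl fun g _ => ?_
  have h : (p * z * q)⁻¹ * (p * g * p⁻¹) * (p * z * q) = q⁻¹ * (z⁻¹ * g * z) * q⁻¹⁻¹ := by group
  have h1 := om_mul_conj ω (dt p)
  have h2 : (ω (dt q) : ℂ) * ω (dt q⁻¹) = 1 := by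
    rw [← Units.val_mul, ← map_mul, ← map_mul]; simp
  change f₁ (p * g * p⁻¹) * conj (_ * f₂ (_ * (p * g * p⁻¹) * _)) = _
  rw [h, hp, hq, map_mul dt, map_mul dt, map_mul ω, map_mul ω, Units.val_mul, Units.val_mul,
    mul_assoc _ (ω (dt q) : ℂ), ← mul_assoc (ω (dt q) : ℂ), h2, one_mul,
    mul_assoc (ω (dt p) : ℂ) (ω (dt z) : ℂ), map_mul conj (ω (dt p) : ℂ)]
  linear_combination (f₁ g * conj (ω (dt z) * f₂ (z⁻¹ * g * z))) * h1

variable {A B C D : ℕ}

theorem sum_zx_blkM (α : G F (A + B) → ℂ) {x : Mt F A A} {y : Mt F B B}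
    (h : ¬ (IsUnit x ∧ IsUnit y)) : ∑ u, zx α (blkM x u y) = 0 :=
  sum_eq_zero fun u _ => zx_of_not α (mt (isUnit_blocks _ x u y).1 h)

theorem sum_pfG4 (e : Fin (A + B) ⊕ Fin (C + D) ≃ Fin n) (e' : Fin (A + C) ⊕ Fin (B + D) ≃ Fin n)
    (he : ∀ s, e' (Equiv.sumCongr finSumFinEquiv finSumFinEquiv
      (Equiv.sumSumSumComm _ _ _ _ s)) = e (Equiv.sumCongr finSumFinEquiv finSumFinEquiv s))
    (α : G F (A + B) → ℂ) (β : G F (C + D) → ℂ) (γ : G F (A + C) → ℂ) (δ : G F (B + D) → ℂ) :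
    ∑ g : G F n, pf e (zx α) (zx β) g.val * conj (pf e' (zx γ) (zx δ) g.val) =
      (Fintype.card F : ℂ) ^ (A * D) * ∑ x, ∑ y, ∑ z, ∑ w, (∑ u, α (blk x u y)) *
        (∑ u, β (blk z u w)) * conj ((∑ u, γ (blk x u z)) * ∑ u, δ (blk y u w)) := by
  rw [← sum_units (f := fun M => pf e (zx α) (zx β) M * conj (pf e' (zx γ) (zx δ) M))
    fun M hM => by rw [pf_of_not _ _ _ hM, zero_mul]]
  simp only [conj_pf]
  rw [sum_pf_pf e e' he, sum_units₂ fun x y hxy => by rw [sum_zx_blkM α hxy, zero_mul]]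
  congr 1
  refine sum_congr rfl fun x _ => sum_congr rfl fun y _ => ?_
  rw [sum_units₂ fun z w hzw => by rw [sum_zx_blkM β hzw, zero_mul]]
  simp only [← blk_val, zx_val, map_mul, map_sum]
  simp only [mul_assoc, ← mul_sum]

theorem finrank_co_inf (e : Fin (A + B) ⊕ Fin (C + D) ≃ Fin n)
    (e' : Fin (A + C) ⊕ Fin (B + D) ≃ Fin n)
    (he : ∀ s, e' (Equiv.sumCongr finSumFinEquiv finSumFinEquiv
      (Equiv.sumSumSumComm _ _ _ _ s)) = e (Equiv.sumCongr finSumFinEquiv finSumFinEquiv s)) :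
    finrank F (co (F := F) e ⊓ co e' :) = A := by
  have h : co (F := F) e ⊓ co e' =
      Pi.spanSubset F (Set.range fun s => e (.inl (Fin.castAdd B s))) := by
    have h1 : ∀ s, e' (.inr (Fin.castAdd D s)) = e (.inl (Fin.natAdd A s)) :=
      fun s => he (.inl (.inr s))
    have h2 : ∀ s, e' (.inr (Fin.natAdd B s)) = e (.inr (Fin.natAdd C s)) :=
      fun s => he (.inr (.inr s))
    ext v
    simp only [Submodule.mem_inf, mem_co, Pi.mem_spanSubset_iff, e.surjective.forall, Sum.forall,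
      Fin.forall_fin_add, h1, h2, Set.mem_range, EmbeddingLike.apply_eq_iff_eq, Sum.inl.injEq,
      reduceCtorEq, exists_false, not_false_eq_true, forall_const, exists_apply_eq_apply,
      not_true_eq_false, IsEmpty.forall_iff]
    have h3 : ∀ (s : Fin B), ¬ ∃ t : Fin A, Fin.castAdd B t = Fin.natAdd A s := by
      rintro s ⟨t, ht⟩
      have := congrArg Fin.val ht
      have := t.2
      simp only [Fin.val_castAdd, Fin.val_natAdd] at *
      omega
    simp only [h3, not_false_eq_true, forall_const]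
    tauto
  rw [h, Pi.dim_spanSubset, Set.ncard_range_of_injective
    (f := fun s => e (.inl (Fin.castAdd B s))) (fun s t hst => by simpa using hst), Nat.card_fin]

theorem om_neg_one (a : H ω) {x : G F A} {y : G F B} (h : De a A B x y ≠ 0) :
    ω ((-1) ^ B) = 1 := by
  have h1 := De_conj_right a x y (-1)
  have h2 : dt (-1 : G F B) = (-1) ^ B := by
    ext
    simp [det_neg]
  rw [neg_one_mul, inv_neg_one, mul_neg_one, neg_neg, h2] at h1
  exact Units.ext (mul_right_cancel₀ h (h1.symm.trans (one_mul _).symm))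

open Classical in
theorem sum_mPhi (a b c d : H ω) {e : Fin (A + B) ⊕ Fin (C + D) ≃ Fin n}
    {e' : Fin (A + C) ⊕ Fin (B + D) ≃ Fin n} (he : OrdE e) (he' : OrdE e') :
    ∑ z with finrank F (co (F := F) e ⊓ actS z (co e') :) = A, mPhi ω (pfH e a b) (pfH e' c d) z =
      Nat.card (St (co (F := F) e)) * Nat.card (St (co (F := F) e')) * mk4 a b c d A B C D := by
  let E := (Equiv.sumCongr finSumFinEquiv finSumFinEquiv).trans e
  let E' := (Equiv.sumCongr finSumFinEquiv finSumFinEquiv).trans e'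
  let σ : Equiv.Perm (Fin n) := E'.symm.trans ((Equiv.sumSumSumComm _ _ _ _).symm.trans E)
  have hσ : ∀ s, σ (E' s) = E ((Equiv.sumSumSumComm _ _ _ _).symm s) := fun s => by simp [σ]
  have hc : ∀ s, (e'.trans σ) (Equiv.sumCongr finSumFinEquiv finSumFinEquiv
      (Equiv.sumSumSumComm _ _ _ _ s)) = e (Equiv.sumCongr finSumFinEquiv finSumFinEquiv s) :=
    fun s => (hσ _).trans (by rw [Equiv.symm_apply_apply]; rfl)
  have hs : Equiv.Perm.sign σ = (-1) ^ (B * C) := by
    refine sign_blocks σ E' (fun s => ?_) (fun s => ?_) (fun s => ?_) fun s => ?_ <;>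
      rw [hσ] <;> exact ⟨(he' _).trans (by simp), (he _).trans (by simp)⟩
  set w : G F n := pmG σ
  have hw : finrank F (co (F := F) e ⊓ actS w (co e') :) = A := by
    rw [actS_pmG, finrank_co_inf e _ hc]
  have hq := cardF_ne (F := F)
  -- the order of the stabilizer
  have hN := sum_pfG4 (F := F) e _ hc 1 1 1 1
  simp only [← pf_pmG σ] at hN
  simp only [pf_one, Pi.one_apply, sum_const, card_univ, card_mat, nsmul_eq_mul,
    apply_ite conj, map_one, map_zero, map_mul, map_natCast, mul_one, ite_mul, one_mul, zero_mul,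
    ← ite_and, sum_boole, Nat.cast_pow, map_pow] at hN
  -- the value at `w`
  have hP : mPhi ω (pfH e a b) (pfH e' c d) w = (Fintype.card F : ℂ) ^ (A * D) *
      (Fintype.card F ^ (A * B) * Fintype.card F ^ (C * D) * (Fintype.card F ^ (A * C) *
        Fintype.card F ^ (B * D))) * ∑ x, ∑ y, ∑ z, ∑ t, De a A B x y * De b C D z t *
          conj (De c A C x z * De d B D y t) := by
    have h1 : ∀ (a : H ω) (i j : ℕ) (x : G F i) (y : G F j),
        ∑ u, a ⟨i + j, blk x u y⟩ = Fintype.card F ^ (i * j) * De a i j x y := fun a i j x y => by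
      rw [De, mul_inv_cancel_left₀ (pow_ne_zero _ hq)]
    simp only [mPhi, pfH, w, pf_pmG, map_mul conj, mul_left_comm _ (conj (ω _ : ℂ)), ← mul_sum]
    rw [sum_pfG4 e _ hc, dt_pmG σ hs]
    simp only [h1, mul_sum, map_mul, map_pow, map_natCast]
    refine sum_congr rfl fun x _ => sum_congr rfl fun y _ => sum_congr rfl fun z _ =>
      sum_congr rfl fun t _ => ?_
    by_cases h : De a A B x y = 0
    · simp [h]
    · rw [← map_pow, pow_mul, map_pow, om_neg_one a h]
      simp only [one_pow, Units.val_one, map_one]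
      ring
  have hd := card_dc (St (co (F := F) e)) (St (co (F := F) e')) w
  rw [sum_congr rfl (g := fun _ => mPhi ω (pfH e a b) (pfH e' c d) w) fun z hz => by
    obtain ⟨p, hp, q, hq, rfl⟩ := (rank_dc _ _ w z).1 ((mem_filter.1 hz).2.trans hw.symm)
    exact mPhi_dc (pf_conj e a b hp) (pf_conj e' c d (inv_mem hq)) w, sum_const, nsmul_eq_mul,
    ← Nat.cast_mul, ← hd, hP, mk4]
  simp only [← rank_dc, hw, Nat.card_eq_fintype_card, Fintype.card_subtype, Set.mem_ofPred_eq,
    Nat.cast_mul]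
  rw [hN]
  have h1 := cardG_ne (F := F) A
  have h2 := cardG_ne (F := F) B
  have h3 := cardG_ne (F := F) C
  have h4 := cardG_ne (F := F) D
  rw [Nat.card_eq_fintype_card] at h1 h2 h3 h4
  field_simp

variable (ω) in
/-- the Mackey formula -/
theorem rawMackey : RawMackey ω := by
  classical
  intro i j k l a b c d ha hb hc hd h
  let e : Fin i ⊕ Fin j ≃ Fin (i + j) := finSumFinEquiv
  let e' : Fin k ⊕ Fin l ≃ Fin (i + j) := finSumFinEquiv.trans (finCongr h.symm)
  have he : OrdE e := fun _ => rfl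
  have he' : OrdE e' := fun _ => rfl
  clear_value e e'
  generalize i + j = n at e e' he he' h
  have hn : i + j = n := by simpa using Fintype.card_congr e
  have hr : ∀ z : G F n, finrank F (co (F := F) e ⊓ actS z (co e') :) ≤ i := fun z =>
    (Submodule.finrank_mono inf_le_left).trans (finrank_co e).le
  have h1 := cardG_ne (F := F) n
  have h2 := cardSt_ne (co (F := F) e)
  have h3 := cardSt_ne (co (F := F) e')
  rw [mul_eq_mk ha hb he, mul_eq_mk hc hd he', ip_smul_left, ip_smul_right, ip_mk_mk,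
    ← sum_fiberwise_of_maps_to (t := Finset.HasAntidiagonal.antidiagonal i)
      (g := fun z : G F n => (finrank F (co (F := F) e ⊓ actS z (co e') :),
        i - finrank F (co (F := F) e ⊓ actS z (co e') :)))
      fun z _ => mem_antidiagonal.2 (Nat.add_sub_cancel' (hr z)), mul_sum, mul_sum, mul_sum]
  refine sum_congr rfl fun ⟨A, B⟩ hx => ?_
  obtain rfl : A + B = i := mem_antidiagonal.1 hx
  rw [filter_congr (q := fun z => finrank F (co (F := F) e ⊓ actS z (co e') :) = A) fun z _ =>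
    ⟨fun h => (Prod.ext_iff.1 h).1, fun h => by simp [h]⟩]
  have hz : ∀ C D, A + C ≠ k → mk4 a b c d A B C D = 0 := fun C D hC => by
    simp [mk4, hc.de_eq_zero hC]
  by_cases hC : ∃ C D, C + D = j ∧ A + C = k
  · obtain ⟨C, D, rfl, rfl⟩ := hC
    obtain rfl : B + D = l := by omega
    rw [sum_mPhi a b c d he he', sum_eq_single_of_mem (C, D) (mem_antidiagonal.2 rfl)
      fun y hy hne => hz _ _ fun hy' => hne ?_]
    · simp only [map_div₀, map_natCast]
      field_simp
    · have := mem_antidiagonal.1 hy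
      exact Prod.ext (by omega) (by omega)
  · rw [sum_eq_zero (s := Finset.HasAntidiagonal.antidiagonal j) fun y hy =>
      hz _ _ fun hy' => hC ⟨_, _, mem_antidiagonal.1 hy, hy'⟩, sum_eq_zero, mul_zero, mul_zero,
      mul_zero]
    intro z hz
    refine (hC ⟨k - A, j - (k - A), ?_⟩).elim
    have h4 := (mem_filter.1 hz).2
    have h5 := Submodule.finrank_sup_add_finrank_inf_eq (co (F := F) e) (actS z (co e'))
    have h6 := Submodule.finrank_le (co (F := F) e ⊔ actS z (co e'))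
    have h7 := Submodule.finrank_mono (inf_le_right (a := co (F := F) e) (b := actS z (co e')))
    rw [finrank_actS, finrank_co] at h5 h7
    rw [finrank_co] at h5
    rw [finrank_fin_fun] at h6
    omega

end Cfsg.GLn
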