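import Cfsg.Agent.GLn.HallA

/-! Mackey formula for the Hall algebra, part A: double cosets and block sums of matrices. -/

set_option autoImplicit false
set_option linter.unusedSectionVars false

namespace Cfsg.GLn

open Matrix ComplexConjugate Finset

universe u

/-- the size of a double coset -/
theorem card_dc {Γ : Type*} [Group Γ] [Finite Γ] (P Q : Subgroup Γ) (w : Γ) :
    Nat.card {z | ∃ p ∈ P, ∃ q ∈ Q, z = p * w * q} * Nat.card {g | g ∈ P ∧ w⁻¹ * g * w ∈ Q} =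
      Nat.card P * Nat.card Q := by
  let _ : MulAction (P × Q) Γ :=
    { smul := fun x z => x.1 * z * (x.2 : Γ)⁻¹
      one_smul := fun z => by change (1 : Γ) * z * (1 : Γ)⁻¹ = z; simp
      mul_smul := fun x y z => by
        change (x.1 * y.1 : Γ) * z * (x.2 * y.2 : Γ)⁻¹ = x.1 * (y.1 * z * (y.2 : Γ)⁻¹) * (x.2 : Γ)⁻¹
        group }
  have hs : ∀ (x : P × Q) (z : Γ), x • z = x.1 * z * (x.2 : Γ)⁻¹ := fun _ _ => rfl
  rw [← Nat.card_prod P, ← Nat.card_congr (MulAction.orbitProdStabilizerEquivGroup (P × Q) w),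
    Nat.card_prod]
  congr 1
  · congr 2
    ext z
    constructor
    · rintro ⟨p, hp, q, hq, rfl⟩
      exact ⟨(⟨p, hp⟩, ⟨q⁻¹, Q.inv_mem hq⟩), by simp [hs]⟩
    · rintro ⟨x, rfl⟩
      exact ⟨x.1, x.1.2, (x.2 : Γ)⁻¹, Q.inv_mem x.2.2, rfl⟩
  · refine Nat.card_congr ⟨fun g => ⟨(⟨g, g.2.1⟩, ⟨_, g.2.2⟩), ?_⟩, fun x => ⟨x.1.1, x.1.1.2, ?_⟩,
      fun g => rfl, fun x => Subtype.ext (Prod.ext rfl (Subtype.ext ?_))⟩
    · simp [hs, mul_assoc]
    · have := x.2
      rw [MulAction.mem_stabilizer_iff, hs, mul_inv_eq_iff_eq_mul] at this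
      rw [mul_assoc, this, inv_mul_cancel_left]
      exact x.1.2.2
    · have := x.2
      rw [MulAction.mem_stabilizer_iff, hs, mul_inv_eq_iff_eq_mul] at this
      change w⁻¹ * x.1.1 * w = x.1.2
      rw [mul_assoc, this, inv_mul_cancel_left]

variable {F : Type u} [Field F] [Fintype F] [DecidableEq F] {ω : Fˣ →* ℂˣ}

/-- square matrices -/
abbrev Mt (F : Type u) (i j : ℕ) : Type u := Matrix (Fin i) (Fin j) F

theorem sum_fromBlocks {α β γ δ : Type*} [Fintype α] [Fintype β] [Fintype γ] [Fintype δ]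
    [DecidableEq α] [DecidableEq β] [DecidableEq γ] [DecidableEq δ] {ι κ : Type*} [Fintype ι]
    [Fintype κ] [DecidableEq ι] [DecidableEq κ] (e : α ⊕ β ≃ ι) (e' : γ ⊕ δ ≃ κ)
    (f : Matrix ι κ F → ℂ) :
    ∑ M, f M = ∑ A, ∑ D, ∑ B, ∑ C, f (reindex e e' (fromBlocks A B C D)) := by
  simp only [← Fintype.sum_prod_type']
  symm
  refine Function.Bijective.sum_comp (e := fun x : Matrix α γ F × Matrix β δ F × Matrix α δ F ×
    Matrix β γ F => reindex e e' (fromBlocks x.1 x.2.2.1 x.2.2.2 x.2.1)) ⟨fun x y h => ?_,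
      fun M => ?_⟩ f
  · have := fromBlocks_inj.1 ((reindex e e').injective h)
    exact Prod.ext this.1 (Prod.ext this.2.2.2 (Prod.ext this.2.1 this.2.2.1))
  · refine ⟨(((reindex e e').symm M).toBlocks₁₁, ((reindex e e').symm M).toBlocks₂₂,
      ((reindex e e').symm M).toBlocks₁₂, ((reindex e e').symm M).toBlocks₂₁), ?_⟩
    simp only [fromBlocks_toBlocks, Equiv.apply_symm_apply]

section pf

variable {ι : Type*} [Fintype ι] [DecidableEq ι] {k l : ℕ}

/-- the function `α ⊗ β` inflated to the parabolic of `e` -/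
noncomputable def pf (e : Fin k ⊕ Fin l ≃ ι) (α : Mt F k k → ℂ) (β : Mt F l l → ℂ)
    (M : Matrix ι ι F) : ℂ :=
  if (M.submatrix e e).toBlocks₂₁ = 0 then
    α (M.submatrix e e).toBlocks₁₁ * β (M.submatrix e e).toBlocks₂₂ else 0

theorem pf_blocks (e : Fin k ⊕ Fin l ≃ ι) (α : Mt F k k → ℂ) (β : Mt F l l → ℂ) (x : Mt F k k)
    (u : Mt F k l) (v : Mt F l k) (y : Mt F l l) :
    pf e α β (reindex e e (fromBlocks x u v y)) = if v = 0 then α x * β y else 0 := by
  simp [pf]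

theorem sum_pf (e : Fin k ⊕ Fin l ≃ ι) (α : Mt F k k → ℂ) (β : Mt F l l → ℂ)
    (h : Matrix ι ι F → ℂ) : ∑ M, pf e α β M * h M =
      ∑ x, ∑ y, ∑ u, α x * β y * h (reindex e e (fromBlocks x u 0 y)) := by
  rw [sum_fromBlocks e e]
  simp only [pf_blocks, ite_mul, zero_mul, sum_ite_eq', mem_univ, if_true]

theorem conj_pf (e : Fin k ⊕ Fin l ≃ ι) (α : Mt F k k → ℂ) (β : Mt F l l → ℂ) (M : Matrix ι ι F) :
    conj (pf e α β M) = pf e (fun x => conj (α x)) (fun y => conj (β y)) M := by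
  simp only [pf, apply_ite conj, map_mul, map_zero]

variable {A B C D : ℕ}

theorem pf_blocks4 (e : Fin (A + B) ⊕ Fin (C + D) ≃ ι) (e' : Fin (A + C) ⊕ Fin (B + D) ≃ ι)
    (he : ∀ s, e' (Equiv.sumCongr finSumFinEquiv finSumFinEquiv
      (Equiv.sumSumSumComm _ _ _ _ s)) = e (Equiv.sumCongr finSumFinEquiv finSumFinEquiv s))
    (γ : Mt F (A + C) (A + C) → ℂ) (δ : Mt F (B + D) (B + D) → ℂ)
    (x : Mt F A A) (y : Mt F B B) (z : Mt F C C) (w : Mt F D D) (ab : Mt F A B) (ba : Mt F B A)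
    (cd : Mt F C D) (dc : Mt F D C) (ac : Mt F A C) (ad : Mt F A D) (bc : Mt F B C)
    (bd : Mt F B D) :
    pf e' γ δ (reindex e e (fromBlocks
      (reindex finSumFinEquiv finSumFinEquiv (fromBlocks x ab ba y))
      (reindex finSumFinEquiv finSumFinEquiv (fromBlocks ac ad bc bd)) 0
      (reindex finSumFinEquiv finSumFinEquiv (fromBlocks z cd dc w)))) =
    if ba = 0 then if dc = 0 then if bc = 0 then γ (blkM x ac z) * δ (blkM y bd w)
      else 0 else 0 else 0 := by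
  have h : reindex e e (fromBlocks
      (reindex finSumFinEquiv finSumFinEquiv (fromBlocks x ab ba y))
      (reindex finSumFinEquiv finSumFinEquiv (fromBlocks ac ad bc bd)) 0
      (reindex finSumFinEquiv finSumFinEquiv (fromBlocks z cd dc w))) =
      reindex e' e' (fromBlocks (blkM x ac z)
        (reindex finSumFinEquiv finSumFinEquiv (fromBlocks ab ad 0 cd))
        (reindex finSumFinEquiv finSumFinEquiv (fromBlocks ba bc 0 dc)) (blkM y bd w)) := by
    ext s t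
    obtain ⟨s, rfl⟩ := ((Equiv.sumCongr finSumFinEquiv finSumFinEquiv).trans e).surjective s
    obtain ⟨t, rfl⟩ := ((Equiv.sumCongr finSumFinEquiv finSumFinEquiv).trans e).surjective t
    conv_rhs => rw [Equiv.trans_apply, Equiv.trans_apply, ← he, ← he]
    rcases s with (s | s) | (s | s) <;> rcases t with (t | t) | (t | t) <;> simp
  rw [h, pf_blocks]
  have : reindex finSumFinEquiv finSumFinEquiv (fromBlocks ba bc 0 dc) = 0 ↔
      ba = 0 ∧ dc = 0 ∧ bc = 0 := by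
    rw [← Equiv.eq_symm_apply]
    simp only [reindex_symm, reindex_apply, submatrix_zero, Pi.zero_apply]
    rw [← fromBlocks_zero, fromBlocks_inj]
    tauto
  simp only [this, ite_and]

theorem sum_pf_pf (e : Fin (A + B) ⊕ Fin (C + D) ≃ ι) (e' : Fin (A + C) ⊕ Fin (B + D) ≃ ι)
    (he : ∀ s, e' (Equiv.sumCongr finSumFinEquiv finSumFinEquiv
      (Equiv.sumSumSumComm _ _ _ _ s)) = e (Equiv.sumCongr finSumFinEquiv finSumFinEquiv s))
    (α : Mt F (A + B) (A + B) → ℂ) (β : Mt F (C + D) (C + D) → ℂ)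
    (γ : Mt F (A + C) (A + C) → ℂ) (δ : Mt F (B + D) (B + D) → ℂ) :
    ∑ M, pf e α β M * pf e' γ δ M = (Fintype.card F : ℂ) ^ (A * D) *
      ∑ x, ∑ y, (∑ u, α (blkM x u y)) * ∑ z, ∑ w, (∑ u, β (blkM z u w)) *
        ((∑ u, γ (blkM x u z)) * ∑ u, δ (blkM y u w)) := by
  rw [sum_pf, sum_fromBlocks finSumFinEquiv finSumFinEquiv]
  simp only [sum_fromBlocks (ι := Fin (C + D)) finSumFinEquiv finSumFinEquiv,
    sum_fromBlocks (ι := Fin (A + B)) (κ := Fin (C + D)) finSumFinEquiv finSumFinEquiv,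
    pf_blocks4 e e' he]
  simp only [mul_ite, mul_zero, sum_ite_irrel, sum_const_zero, sum_ite_eq', mem_univ, if_true,
    sum_const, card_univ, card_mat, nsmul_eq_mul, Nat.cast_pow]
  simp only [blkM, mul_assoc, ← mul_sum, ← sum_mul]

end pf

/-- the sign of the block permutation -/
theorem sign_blocks {A B C D n : ℕ} (σ : Equiv.Perm (Fin n))
    (E : (Fin A ⊕ Fin C) ⊕ (Fin B ⊕ Fin D) ≃ Fin n)
    (h₁ : ∀ s, (E (.inl (.inl s)) : ℕ) = s ∧ (σ (E (.inl (.inl s))) : ℕ) = s)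
    (h₂ : ∀ s, (E (.inl (.inr s)) : ℕ) = A + s ∧ (σ (E (.inl (.inr s))) : ℕ) = A + B + s)
    (h₃ : ∀ s, (E (.inr (.inl s)) : ℕ) = A + C + s ∧ (σ (E (.inr (.inl s))) : ℕ) = A + s)
    (h₄ : ∀ s, (E (.inr (.inr s)) : ℕ) = A + C + (B + s) ∧
      (σ (E (.inr (.inr s))) : ℕ) = A + B + (C + s)) :
    Equiv.Perm.sign σ = (-1) ^ (B * C) := by
  have key : ∀ s t, (if E s < E t then (if σ (E s) < σ (E t) then (1 : ℤˣ) else -1) else 1) =
      Sum.elim (Sum.elim (fun _ => 1) fun _ => Sum.elim (fun _ => 1)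
        (Sum.elim (fun _ => -1) fun _ => 1) t) (fun _ => 1) s := by
    rintro ((s | s) | (s | s)) ((t | t) | (t | t)) <;>
      simp only [Fin.lt_def, h₁, h₂, h₃, h₄, Sum.elim_inl, Sum.elim_inr] <;>
      have := s.2 <;> have := t.2 <;> split_ifs <;> first | rfl | omega
  rw [Equiv.Perm.sign_eq_prod_prod_Ioi, ← E.prod_comp]
  simp only [← filter_lt_eq_Ioi, prod_filter, ← E.prod_comp, key]
  simp [Fintype.prod_sum_type, ← pow_mul]

end Cfsg.GLn
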