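import Cfsg.Agent.GLn.MackeyA
import Cfsg.Agent.GLn.Pair

/-! Mackey formula for the Hall algebra, part B: parabolic subgroups. -/

set_option autoImplicit false
set_option linter.unusedSectionVars false

namespace Cfsg.GLn

open Matrix ComplexConjugate Finset Module

universe u

variable {F : Type u} [Field F] [Fintype F] [DecidableEq F] {ω : Fˣ →* ℂˣ} {n k l : ℕ}

open Classical in
/-- extension by zero -/
noncomputable def zx (α : G F n → ℂ) (M : Mt F n n) : ℂ := if h : IsUnit M then α h.unit else 0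

theorem zx_val (α : G F n → ℂ) (g : G F n) : zx α g.val = α g := by
  rw [zx, dif_pos g.isUnit, IsUnit.unit_of_val_units]

theorem zx_of_not (α : G F n → ℂ) {M : Mt F n n} (h : ¬ IsUnit M) : zx α M = 0 := dif_neg h

theorem sum_units {f : Mt F n n → ℂ} (h : ∀ M, ¬ IsUnit M → f M = 0) :
    ∑ M, f M = ∑ g : G F n, f g.val :=
  (Fintype.sum_of_injective Units.val Units.val_injective _ _
    (fun M hM => h M fun hu => hM ⟨hu.unit, rfl⟩) fun _ => rfl).symm

theorem sum_units₂ {f : Mt F k k → Mt F l l → ℂ}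
    (h : ∀ x y, ¬ (IsUnit x ∧ IsUnit y) → f x y = 0) :
    ∑ x, ∑ y, f x y = ∑ x : G F k, ∑ y : G F l, f x.val y.val := by
  rw [sum_units fun x hx => sum_eq_zero fun y _ => h x y fun e => hx e.1]
  exact sum_congr rfl fun x _ => sum_units fun y hy => h _ y fun e => hy e.2

theorem isUnit_blocks (e : Fin k ⊕ Fin l ≃ Fin n) (x : Mt F k k) (u : Mt F k l) (y : Mt F l l) :
    IsUnit (reindex e e (fromBlocks x u 0 y)) ↔ IsUnit x ∧ IsUnit y := by
  simp only [isUnit_iff_isUnit_det, det_reindex_self, det_fromBlocks_zero₂₁, IsUnit.mul_iff]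

theorem eq_blocks (e : Fin k ⊕ Fin l ≃ Fin n) {M : Mt F n n}
    (h : (M.submatrix e e).toBlocks₂₁ = 0) : reindex e e (fromBlocks (M.submatrix e e).toBlocks₁₁
      (M.submatrix e e).toBlocks₁₂ 0 (M.submatrix e e).toBlocks₂₂) = M := by
  rw [← h, fromBlocks_toBlocks]
  simp

theorem pf_of_not (e : Fin k ⊕ Fin l ≃ Fin n) (α : G F k → ℂ) (β : G F l → ℂ) {M : Mt F n n}
    (h : ¬ IsUnit M) : pf e (zx α) (zx β) M = 0 := by
  rw [pf]
  split_ifs with h0
  · rw [← eq_blocks e h0, isUnit_blocks, not_and_or] at h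
    rcases h with h | h <;> simp [zx_of_not _ h]
  · rfl

theorem blocks_mul (e : Fin k ⊕ Fin l ≃ Fin n) (x x' : Mt F k k) (u u' : Mt F k l)
    (y y' : Mt F l l) : reindex e e (fromBlocks x u 0 y) * reindex e e (fromBlocks x' u' 0 y') =
      reindex e e (fromBlocks (x * x') (x * u' + u * y') 0 (y * y')) := by
  simp [fromBlocks_multiply]

/-- block triangular elements with respect to `e` -/
def cb (e : Fin k ⊕ Fin l ≃ Fin n) (a : G F k) (u : Mt F k l) (b : G F l) : G F n where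
  val := reindex e e (fromBlocks a.val u 0 b.val)
  inv := reindex e e (fromBlocks a.inv (-(a.inv * u * b.inv)) 0 b.inv)
  val_inv := by
    rw [blocks_mul, a.val_inv, b.val_inv, Matrix.mul_neg, ← Matrix.mul_assoc, ← Matrix.mul_assoc,
      a.val_inv, Matrix.one_mul, neg_add_cancel]
    simp
  inv_val := by
    rw [blocks_mul, a.inv_val, b.inv_val, Matrix.neg_mul, Matrix.mul_assoc, b.inv_val,
      Matrix.mul_one, add_neg_cancel]
    simp

theorem cb_val (e : Fin k ⊕ Fin l ≃ Fin n) (a : G F k) (u : Mt F k l) (b : G F l) :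
    (cb e a u b).val = reindex e e (fromBlocks a.val u 0 b.val) := rfl

theorem cb_mul (e : Fin k ⊕ Fin l ≃ Fin n) (a a' : G F k) (u u' : Mt F k l) (b b' : G F l) :
    cb e a u b * cb e a' u' b' = cb e (a * a') (a.val * u' + u * b'.val) (b * b') :=
  Units.ext (blocks_mul _ _ _ _ _ _ _)

theorem cb_inv (e : Fin k ⊕ Fin l ≃ Fin n) (a : G F k) (u : Mt F k l) (b : G F l) :
    (cb e a u b)⁻¹ = cb e a⁻¹ (-(a.inv * u * b.inv)) b⁻¹ := Units.ext rfl

theorem dt_cb (e : Fin k ⊕ Fin l ≃ Fin n) (a : G F k) (u : Mt F k l) (b : G F l) :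
    dt (cb e a u b) = dt a * dt b := Units.ext (by simp [cb])

theorem pf_cb (e : Fin k ⊕ Fin l ≃ Fin n) (α : G F k → ℂ) (β : G F l → ℂ) (a : G F k)
    (u : Mt F k l) (b : G F l) : pf e (zx α) (zx β) (cb e a u b).val = α a * β b := by
  rw [cb_val, pf_blocks, if_pos rfl, zx_val, zx_val]

theorem sum_pfG (e : Fin k ⊕ Fin l ≃ Fin n) (α : G F k → ℂ) (β : G F l → ℂ) (h : G F n → ℂ) :
    ∑ g : G F n, pf e (zx α) (zx β) g.val * h g =
      ∑ x, ∑ y, ∑ u, α x * β y * h (cb e x u y) := by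
  simp only [← zx_val h]
  rw [← sum_units (f := fun M => pf e (zx α) (zx β) M * zx h M)
    fun M hM => by rw [zx_of_not _ hM, mul_zero], sum_pf, sum_units₂ fun x y hxy =>
      sum_eq_zero fun u _ => by rw [zx_of_not h (mt (isUnit_blocks e x u y).1 hxy), mul_zero]]
  simp only [zx_val, ← cb_val]

/-! ### the action on subspaces -/

/-- the image of a subspace -/
def actS (g : G F n) (W : Submodule F (Fin n → F)) : Submodule F (Fin n → F) :=
  W.map (toLin' g.val)

theorem actS_mul (g h : G F n) (W : Submodule F (Fin n → F)) :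
    actS (g * h) W = actS g (actS h W) := by
  simp only [actS, Units.val_mul, toLin'_mul, Submodule.map_comp]

theorem actS_one (W : Submodule F (Fin n → F)) : actS 1 W = W := by simp [actS]

theorem toLin_inj (g : G F n) : Function.Injective (toLin' g.val) :=
  (GeneralLinearGroup.toLin g).toLinearEquiv.injective

theorem actS_inf (g : G F n) (W W' : Submodule F (Fin n → F)) :
    actS g (W ⊓ W') = actS g W ⊓ actS g W' := Submodule.map_inf _ (toLin_inj g)

theorem finrank_actS (g : G F n) (W : Submodule F (Fin n → F)) :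
    finrank F (actS g W) = finrank F W :=
  (Submodule.equivMapOfInjective _ (toLin_inj g) W).finrank_eq.symm

/-- the stabilizer of a subspace -/
def St (W : Submodule F (Fin n → F)) : Subgroup (G F n) where
  carrier := {g | actS g W = W}
  one_mem' := actS_one W
  mul_mem' {g h} hg hh := by
    change actS _ W = W at *
    rw [actS_mul, hh, hg]
  inv_mem' {g} hg := by
    change actS _ W = W at *
    conv_lhs => rw [← hg, ← actS_mul, inv_mul_cancel, actS_one]

theorem mem_St {W : Submodule F (Fin n → F)} {g : G F n} : g ∈ St W ↔ actS g W = W := Iff.rfl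

theorem rank_dc (W₁ W₂ : Submodule F (Fin n → F)) (w z : G F n) :
    finrank F (W₁ ⊓ actS z W₂ :) = finrank F (W₁ ⊓ actS w W₂ :) ↔
      ∃ p ∈ St W₁, ∃ q ∈ St W₂, z = p * w * q := by
  constructor
  · intro h
    obtain ⟨g, h₁, h₂⟩ := exists_gl_pair W₁ (actS w W₂) W₁ (actS z W₂) rfl
      ((finrank_actS _ _).trans (finrank_actS _ _).symm) h.symm
    refine ⟨g, h₁, (z⁻¹ * g * w)⁻¹, inv_mem ?_, by group⟩
    change actS g (actS w W₂) = actS z W₂ at h₂
    rw [mem_St, actS_mul, actS_mul, h₂, ← actS_mul, inv_mul_cancel, actS_one]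
  · rintro ⟨p, hp, q, hq, rfl⟩
    rw [actS_mul, mem_St.1 hq, actS_mul, ← finrank_actS p (W₁ ⊓ actS w W₂), actS_inf, mem_St.1 hp]

/-- the first block of coordinates -/
noncomputable def co (e : Fin k ⊕ Fin l ≃ Fin n) : Submodule F (Fin n → F) :=
  Pi.spanSubset F (Set.range fun s => e (.inl s))

theorem mem_co {e : Fin k ⊕ Fin l ≃ Fin n} {v : Fin n → F} :
    v ∈ co (F := F) e ↔ ∀ t, v (e (.inr t)) = 0 := by
  rw [co, Pi.mem_spanSubset_iff]
  refine ⟨fun h t => h _ (by simp), fun h s hs => ?_⟩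
  obtain ⟨s | s, rfl⟩ := e.surjective s
  · simp at hs
  · exact h s

theorem finrank_co (e : Fin k ⊕ Fin l ≃ Fin n) : finrank F (co (F := F) e) = k := by
  rw [co, Pi.dim_spanSubset, Set.ncard_range_of_injective (f := fun s => e (.inl s))
    (e.injective.comp Sum.inl_injective), Nat.card_fin]

theorem mem_St_co {e : Fin k ⊕ Fin l ≃ Fin n} {g : G F n} :
    g ∈ St (co (F := F) e) ↔ (g.val.submatrix e e).toBlocks₂₁ = 0 := by
  constructor
  · intro h
    ext t s
    have : toLin' g.val (Pi.single (e (.inl s)) 1) ∈ actS g (co e) :=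
      Submodule.mem_map_of_mem (mem_co.2 fun t => by simp)
    rw [mem_St.1 h] at this
    simpa [toBlocks₂₁, toLin'_apply] using mem_co.1 this t
  · intro h
    refine Submodule.eq_of_le_of_finrank_eq ?_ (finrank_actS _ _)
    rintro _ ⟨v, hv, rfl⟩
    refine mem_co.2 fun t => ?_
    have h' : ∀ s, g.val (e (.inr t)) (e (.inl s)) = 0 := fun s => congrFun (congrFun h t) s
    simp [mulVec, dotProduct, ← e.sum_comp, mem_co.1 hv, h']

theorem exists_cb {e : Fin k ⊕ Fin l ≃ Fin n} {g : G F n} (h : g ∈ St (co (F := F) e)) :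
    ∃ x u y, g = cb e x u y := by
  have h1 := eq_blocks e (mem_St_co.1 h)
  obtain ⟨⟨x, hx⟩, y, hy⟩ := (isUnit_blocks e _ _ _).1 (h1.symm ▸ g.isUnit)
  exact ⟨x, _, y, Units.ext (by rw [cb_val, hx, hy, h1])⟩

theorem pf_of_not_mem {e : Fin k ⊕ Fin l ≃ Fin n} {g : G F n} (h : g ∉ St (co (F := F) e))
    (α : Mt F k k → ℂ) (β : Mt F l l → ℂ) : pf e α β g.val = 0 := if_neg (mt mem_St_co.2 h)

open Classical in
theorem pf_one (e : Fin k ⊕ Fin l ≃ Fin n) (g : G F n) :
    pf e (zx 1) (zx 1) g.val = if g ∈ St (co (F := F) e) then 1 else 0 := by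
  split_ifs with h
  · obtain ⟨x, u, y, rfl⟩ := exists_cb h
    simp [pf_cb]
  · exact pf_of_not_mem h _ _

theorem card_St (e : Fin k ⊕ Fin l ≃ Fin n) : (Nat.card (St (co (F := F) e)) : ℂ) =
    Nat.card (G F k) * Nat.card (G F l) * Fintype.card F ^ (k * l) := by
  classical
  have := sum_pfG (F := F) e 1 1 1
  simp only [pf_one, Pi.one_apply, mul_one, sum_boole, sum_const, card_univ, card_mat,
    nsmul_eq_mul, Nat.cast_pow] at this
  simp only [Nat.card_eq_fintype_card, Fintype.card_subtype, this, mul_assoc]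

theorem pf_conj (e : Fin k ⊕ Fin l ≃ Fin n) (c d : H ω) {p : G F n} (hp : p ∈ St (co (F := F) e))
    (g : G F n) : pf e (zx fun x => c ⟨k, x⟩) (zx fun y => d ⟨l, y⟩) (p * g * p⁻¹).val =
      ω (dt p) * pf e (zx fun x => c ⟨k, x⟩) (zx fun y => d ⟨l, y⟩) g.val := by
  by_cases hg : g ∈ St (co (F := F) e)
  · obtain ⟨x, u, y, rfl⟩ := exists_cb hp
    obtain ⟨x', u', y', rfl⟩ := exists_cb hg
    rw [cb_inv, cb_mul, cb_mul, pf_cb, pf_cb, H.conj, H.conj, dt_cb, map_mul, Units.val_mul]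
    ring
  · rw [pf_of_not_mem hg, pf_of_not_mem, mul_zero]
    rwa [Subgroup.mul_mem_cancel_right _ (inv_mem hp), Subgroup.mul_mem_cancel_left _ hp]

/-- the permutation matrix -/
def pmG (σ : Equiv.Perm (Fin n)) : G F n :=
  ⟨σ⁻¹.permMatrix F, σ.permMatrix F, by rw [← permMatrix_mul]; simp,
    by rw [← permMatrix_mul]; simp⟩

theorem pmG_conj (σ : Equiv.Perm (Fin n)) (g : G F n) :
    ((pmG σ)⁻¹ * g * pmG σ).val = g.val.submatrix σ σ := by
  change σ.permMatrix F * g.val * σ⁻¹.permMatrix F = _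
  rw [PEquiv.toMatrix_toPEquiv_mul, PEquiv.mul_toMatrix_toPEquiv]
  rfl

theorem dt_pmG (σ : Equiv.Perm (Fin n)) {m : ℕ} (h : Equiv.Perm.sign σ = (-1) ^ m) :
    dt (pmG σ : G F n) = (-1) ^ m := by
  ext
  change det (σ⁻¹.permMatrix F) = _
  rw [det_permutation, Equiv.Perm.sign_inv, h]
  simp

theorem actS_pmG (σ : Equiv.Perm (Fin n)) (e : Fin k ⊕ Fin l ≃ Fin n) :
    actS (pmG σ) (co (F := F) e) = co (e.trans σ) := by
  refine Submodule.eq_of_le_of_finrank_eq ?_ (by rw [finrank_actS, finrank_co, finrank_co])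
  rintro _ ⟨v, hv, rfl⟩
  refine mem_co.2 fun t => ?_
  change (σ⁻¹.permMatrix F *ᵥ v) _ = 0
  rw [permMatrix_mulVec]
  simpa using mem_co.1 hv t

theorem pf_pmG (σ : Equiv.Perm (Fin n)) (e : Fin k ⊕ Fin l ≃ Fin n) (α : Mt F k k → ℂ)
    (β : Mt F l l → ℂ) (g : G F n) :
    pf e α β ((pmG σ)⁻¹ * g * pmG σ).val = pf (e.trans σ) α β g.val := by
  rw [pmG_conj]
  rfl

end Cfsg.GLn
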