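import Cfsg.Agent.GLn.Sym0

/-! Symmetric functions of one family: the exponential calculus. -/

set_option autoImplicit false

namespace Cfsg.GLn

open Finset

variable {A B : Type*} [CommRing A] [Algebra ℂ A] [CommRing B] [Algebra ℂ B]

theorem natCast_mul_cancel {n : ℕ} (hn : n ≠ 0) {x y : A} (h : (n : A) * x = n * y) : x = y := by
  have e : ∀ z : A, z = (n : ℂ)⁻¹ • ((n : A) * z) := fun z => by
    rw [← nsmul_eq_mul, ← Nat.cast_smul_eq_nsmul ℂ, smul_smul, inv_mul_cancel₀ (by exact_mod_cast hn),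
      one_smul]
  rw [e x, h, ← e y]

/-- Newton's recursion. -/
theorem mul_ex_succ (p : ℕ → A) (n : ℕ) :
    ((n + 1 : ℕ) : A) * ex p (n + 1) = ∑ k ∈ range (n + 1), p (k + 1) * ex p (n - k) := by
  rw [ex_succ, ← nsmul_eq_mul, ← Nat.cast_smul_eq_nsmul ℂ, smul_smul]
  push_cast
  rw [mul_inv_cancel₀ (by exact_mod_cast n.succ_ne_zero), one_smul]

omit [Algebra ℂ A] in
theorem sum_range_eq_Icc (p h : ℕ → A) (n : ℕ) :
    ∑ k ∈ range (n + 1), p (k + 1) * h (n - k) = ∑ r ∈ Icc 1 (n + 1), p r * h (n + 1 - r) := by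
  rw [← Finset.Ico_add_one_right_eq_Icc, sum_Ico_eq_sum_range]
  refine sum_congr (by simp) fun k _ => ?_
  rw [add_comm 1 k, Nat.add_sub_add_right]

theorem mul_ex (p : ℕ → A) (n : ℕ) :
    (n : A) * ex p n = ∑ r ∈ Icc 1 n, p r * ex p (n - r) := by
  cases n with
  | zero => simp
  | succ n => rw [mul_ex_succ, sum_range_eq_Icc]

theorem eq_ex {p h : ℕ → A} (h0 : h 0 = 1)
    (hs : ∀ n, ((n + 1 : ℕ) : A) * h (n + 1) = ∑ k ∈ range (n + 1), p (k + 1) * h (n - k)) :
    h = ex p := by
  funext n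
  induction n using Nat.strong_induction_on with
  | _ n ih =>
    cases n with
    | zero => rw [h0, ex_zero]
    | succ n =>
      refine natCast_mul_cancel n.succ_ne_zero ?_
      rw [hs, mul_ex_succ]
      exact sum_congr rfl fun k _ => by rw [ih _ (by omega)]

theorem eq_ex' {p h : ℕ → A} (h0 : h 0 = 1)
    (hs : ∀ n : ℕ, 0 < n → (n : A) * h n = ∑ r ∈ Icc 1 n, p r * h (n - r)) : h = ex p :=
  eq_ex h0 fun n => by rw [hs _ n.succ_pos, sum_range_eq_Icc]

theorem ex_congr_le {p q : ℕ → A} {m : ℕ} (h : ∀ k, 0 < k → k ≤ m → p k = q k) :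
    ∀ n ≤ m, ex p n = ex q n := by
  intro n
  induction n using Nat.strong_induction_on with
  | _ n ih =>
    intro hn
    cases n with
    | zero => rw [ex_zero, ex_zero]
    | succ n =>
      rw [ex_succ, ex_succ]
      congr 1
      refine sum_congr rfl fun k hk => ?_
      rw [mem_range] at hk
      rw [ih _ (by omega) (by omega), h _ (by omega) (by omega)]

theorem ex_congr {p q : ℕ → A} (h : ∀ k, 0 < k → p k = q k) : ex p = ex q :=
  funext fun n => ex_congr_le (fun k hk _ => h k hk) n le_rfl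

theorem ex_one (p : ℕ → A) : ex p 1 = p 1 := by
  rw [ex_succ]; simp [ex_zero]

theorem ex_lg {h : ℕ → A} (h0 : h 0 = 1) : ex (lg h) = h := by
  refine (eq_ex h0 fun n => ?_).symm
  rw [sum_range_succ, lg_succ, Nat.sub_self, h0]
  ring

theorem lg_ex (p : ℕ → A) {n : ℕ} (hn : 0 < n) : lg (ex p) n = p n := by
  induction n using Nat.strong_induction_on with
  | _ n ih =>
    obtain ⟨n, rfl⟩ : ∃ m, n = m + 1 := ⟨n - 1, by omega⟩
    rw [lg_succ, mul_ex_succ, sum_range_succ, Nat.sub_self, ex_zero, mul_one,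
      sum_congr rfl (f := fun k => lg (ex p) (k + 1) * ex p (n - k)) fun k hk => by
        rw [ih (k + 1) (by simpa using hk) k.succ_pos]]
    ring

theorem map_ex (f : A →+* B) (p : ℕ → A) (n : ℕ) : f (ex p n) = ex (fun k => f (p k)) n := by
  refine congrFun (eq_ex (h := fun n => f (ex p n)) (by simp [ex_zero]) fun n => ?_) n
  have := congrArg f (mul_ex_succ p n)
  simpa [map_sum] using this

omit [Algebra ℂ A] [Algebra ℂ B] in
theorem map_lg (f : A →+* B) (h : ℕ → A) (n : ℕ) : f (lg h n) = lg (fun k => f (h k)) n := by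
  induction n using Nat.strong_induction_on with
  | _ n ih =>
    cases n with
    | zero => simp [lg_zero]
    | succ n =>
      rw [lg_succ, lg_succ, map_sub, map_mul, map_natCast, map_sum]
      congr 1
      exact sum_congr rfl fun k hk => by rw [map_mul, ih _ (by simpa using hk)]

omit [Algebra ℂ A] [Algebra ℂ B] in
theorem map_pm (f : A →+* B) (p : ℕ → A) (ρ : Multiset ℕ) :
    f (pm p ρ) = pm (fun k => f (p k)) ρ := by
  simp [pm, map_multiset_prod, Multiset.map_map]

theorem map_S (f : A →ₐ[ℂ] B) (p : ℕ → A) (N : ℕ) (X : Finset ℕ) :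
    f (S p N X) = S (fun k => f (p k)) N X := by
  simp only [S, map_sum, map_smul]
  exact sum_congr rfl fun ρ _ => congrArg _ (map_pm (f : A →+* B) p ρ)

open PowerSeries in
/-- The generating series. -/
theorem mk_ex_eq {p : ℕ → A} {F : A⟦X⟧} (h0 : constantCoeff F = 1)
    (hd : d⁄dX A F = (mk fun k => p (k + 1)) * F) : mk (ex p) = F := by
  have : (fun n => coeff n F) = ex p := eq_ex (by simpa using h0) fun n => by
    have := congrArg (coeff n) hd
    rw [coeff_derivative, coeff_mul, Nat.sum_antidiagonal_eq_sum_range_succ_mk] at this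
    simp only [coeff_mk] at this
    rw [← this]; push_cast; ring
  ext n
  rw [coeff_mk, ← this]

open PowerSeries in
theorem derivative_mk_ex (p : ℕ → A) :
    d⁄dX A (mk (ex p)) = (mk fun k => p (k + 1)) * mk (ex p) := by
  ext n
  rw [coeff_derivative, coeff_mul, Nat.sum_antidiagonal_eq_sum_range_succ_mk]
  simp only [coeff_mk]
  rw [← mul_ex_succ]; push_cast; ring

open PowerSeries in
theorem mk_ex_add (p q : ℕ → A) : mk (ex (p + q)) = mk (ex p) * mk (ex q) := by
  refine mk_ex_eq (by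
    rw [map_mul, ← coeff_zero_eq_constantCoeff_apply, ← coeff_zero_eq_constantCoeff_apply]
    simp [ex_zero]) ?_
  have : (mk fun k => (p + q) (k + 1)) = (mk fun k => p (k + 1)) + mk fun k => q (k + 1) := by
    ext n; simp
  rw [Derivation.leibniz, derivative_mk_ex, derivative_mk_ex, this]
  simp only [smul_eq_mul]; ring

open PowerSeries in
theorem mk_ex_zero : mk (ex (0 : ℕ → A)) = 1 := by
  refine mk_ex_eq (by simp) ?_
  have : (mk fun k => (0 : ℕ → A) (k + 1)) = 0 := by ext n; simp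
  rw [this]; simp

open PowerSeries in
theorem mk_ex_sum {ι : Type*} (s : Finset ι) (p : ι → ℕ → A) :
    mk (ex (∑ i ∈ s, p i)) = ∏ i ∈ s, mk (ex (p i)) := by
  classical
  induction s using Finset.induction_on with
  | empty => simpa using mk_ex_zero
  | insert a s ha ih => rw [sum_insert ha, prod_insert ha, mk_ex_add, ih]

theorem ex_add (p q : ℕ → A) (n : ℕ) :
    ex (p + q) n = ∑ x ∈ antidiagonal n, ex p x.1 * ex q x.2 := by
  have := congrArg (PowerSeries.coeff n) (mk_ex_add p q)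
  simpa [PowerSeries.coeff_mul] using this

theorem ex_zero_fun (n : ℕ) : ex (0 : ℕ → A) n = if n = 0 then 1 else 0 := by
  have := congrArg (PowerSeries.coeff n) (mk_ex_zero (A := A))
  simpa [PowerSeries.coeff_one] using this

theorem ex_sum {ι : Type*} [DecidableEq ι] (s : Finset ι) (p : ι → ℕ → A) (n : ℕ) :
    ex (∑ i ∈ s, p i) n = ∑ l ∈ finsuppAntidiag s n, ∏ i ∈ s, ex (p i) (l i) := by
  have := congrArg (PowerSeries.coeff n) (mk_ex_sum s p)
  simpa [PowerSeries.coeff_prod] using this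

theorem ex_pow_mul (c : A) (p : ℕ → A) (n : ℕ) :
    ex (fun k => c ^ k * p k) n = c ^ n * ex p n := by
  refine (congrFun (eq_ex (h := fun n => c ^ n * ex p n) (by simp [ex_zero]) fun n => ?_) n).symm
  rw [mul_left_comm, mul_ex_succ, mul_sum]
  refine sum_congr rfl fun k hk => ?_
  rw [mem_range] at hk
  rw [show n + 1 = k + 1 + (n - k) by omega, pow_add]; ring

theorem ex_geom (c : A) (n : ℕ) : ex (fun k => c ^ k) n = c ^ n := by
  refine (congrFun (eq_ex (h := fun n => c ^ n) (by simp) fun n => ?_) n).symm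
  rw [sum_congr rfl (g := fun _ => c ^ (n + 1)) fun k hk => by
    rw [mem_range] at hk
    rw [← pow_add, show k + 1 + (n - k) = n + 1 by omega]]
  simp

open PowerSeries in
theorem mk_ex_neg_geom (c : A) : mk (ex fun k => -c ^ k) = 1 - C c * X := by
  refine mk_ex_eq (by simp) ?_
  ext n
  rw [mul_sub, mul_one, mul_left_comm, map_sub, map_sub, map_sub, coeff_C_mul]
  cases n with
  | zero => simp
  | succ n => simp [pow_succ, mul_comm]

theorem ex_stretch {d : ℕ} (hd : 0 < d) {p : ℕ → A} (hp : ∀ k, ¬ d ∣ k → p k = 0) (n : ℕ) :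
    ex p n = if d ∣ n then ex (fun k => (d : ℂ)⁻¹ • p (d * k)) (n / d) else 0 := by
  refine (congrFun (eq_ex' (h := fun n => if d ∣ n then
    ex (fun k => (d : ℂ)⁻¹ • p (d * k)) (n / d) else 0) (by simp [ex_zero]) fun n _ => ?_) n).symm
  by_cases h : d ∣ n
  · obtain ⟨m, rfl⟩ := h
    rw [if_pos (dvd_mul_right _ _), Nat.mul_div_cancel_left _ hd, Nat.cast_mul, mul_assoc, mul_ex,
      mul_sum]
    refine sum_of_injOn (fun j => d * j) (fun a _ b _ h => Nat.eq_of_mul_eq_mul_left hd h)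
      (fun j hj => ?_) (fun r hr hr' => ?_) fun j _ => ?_
    · rw [mem_coe, mem_Icc] at hj ⊢
      exact ⟨Nat.mul_pos hd hj.1, Nat.mul_le_mul_left _ hj.2⟩
    · rw [hp r, zero_mul]
      rintro ⟨j, rfl⟩
      rw [mem_Icc] at hr
      refine hr' ⟨j, ?_, rfl⟩
      rw [mem_coe, mem_Icc]
      exact ⟨Nat.pos_of_mul_pos_left hr.1 |> fun h => h, Nat.le_of_mul_le_mul_left hr.2 hd⟩
    · rw [← Nat.mul_sub, if_pos (dvd_mul_right _ _), Nat.mul_div_cancel_left _ hd, ← mul_assoc,
        ← nsmul_eq_mul, ← Nat.cast_smul_eq_nsmul ℂ, smul_smul,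
        mul_inv_cancel₀ (by exact_mod_cast hd.ne'), one_smul]
  · rw [if_neg h, mul_zero]
    refine (sum_eq_zero fun r hr => ?_).symm
    rw [mem_Icc] at hr
    by_cases h2 : d ∣ r
    · rw [if_neg fun h3 => h (by simpa [Nat.sub_add_cancel hr.2] using dvd_add h3 h2), mul_zero]
    · rw [hp r h2, zero_mul]

end Cfsg.GLn
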