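import Cfsg.Agent.GLn.Ar
import Cfsg.Agent.GLn.Pw
import Cfsg.Agent.GLn.GG2
import Cfsg.Agent.GLn.SymA

/-! The primitive elements attached to functions on the algebraic closure. -/

set_option autoImplicit false

namespace Cfsg.GLn

open ComplexConjugate Finset Polynomial

universe u

variable {F : Type u} [Field F] [Fintype F] [DecidableEq F] {ω : Fˣ →* ℂˣ}

local notation "q" => Fintype.card F


namespace Pw

theorem cInv_eig (φ : Multiset (K F)ˣ → ℂ) : CInv fun x : Obj F => φ (eig x) :=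
  fun _ g z => congrArg φ (eig_conj g z)

theorem sc_eq (φ : Multiset (K F)ˣ → ℂ) (a : H ω) : sc φ a = pwm (cInv_eig φ) a := rfl

theorem eig_blk' {i j : ℕ} (g₁ : G F i) (u : Matrix (Fin i) (Fin j) F) (g₂ : G F j) :
    eig ⟨i + j, blk g₁ u g₂⟩ = eig ⟨i, g₁⟩ + eig ⟨j, g₂⟩ := by
  exact (congrArg (Multiset.map un) (evs_blk (K F) g₁ u g₂)).trans (Multiset.map_add _ _ _)

theorem card_eig' (x : Obj F) : (eig x).card = x.1 := by
  rw [eig, Multiset.card_map]; exact card_evs (K F) x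

theorem prim_sc {a : H ω} (ha : Prim a) (φ : Multiset (K F)ˣ → ℂ) : Prim (sc φ a) :=
  ha.pwm (cInv_eig φ) fun i j g₁ g₂ u => by simp only [eig_blk']

theorem ip_sc' (φ : Multiset (K F)ˣ → ℂ) (a b : H ω) :
    ip (sc φ a) b = ip a (sc (fun s => conj (φ s)) b) := ip_pwm (cInv_eig φ) a b

theorem isHom_sc {n : ℕ} {a : H ω} (ha : IsHom n a) (φ : Multiset (K F)ˣ → ℂ) : IsHom n (sc φ a) :=
  ha.pwm (cInv_eig φ)

theorem sc_sum_mul (φ : (K F)ˣ → ℂ) (a b : H ω) : sc (fun s => (s.map φ).sum) (a * b) =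
    sc (fun s => (s.map φ).sum) a * b + a * sc (fun s => (s.map φ).sum) b :=
  pwm_mul_of_add (cInv_eig fun s => (s.map φ).sum) (fun i j g₁ g₂ u => by
    simp only [eig_blk', Multiset.map_add, Multiset.sum_add]) a b

theorem one_apply' {n : ℕ} (g : G F n) : one F n ⟨n, g⟩ = 1 :=
  mk_apply_of (by simp) g

theorem isHom_one' (n : ℕ) : IsHom n (one F n) := isHom_mk _

theorem grpLike_one : GrpLike 1 (one F) := by
  refine ⟨one_pos, (isHom_one' 0).ext isHom_one fun g => by rw [one_apply', one_apply],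
    fun m => by simpa using isHom_one' m, fun m i j g₁ g₂ => ?_⟩
  by_cases h : i + j = m
  · subst h
    rw [sum_eq_single (i, j) (fun x hx hne => ?_) (by simp)]
    · simp only [De, one_apply', sum_const, card_univ, card_mat, nsmul_eq_mul, mul_one]
      rw [Nat.cast_pow, inv_mul_cancel₀ (pow_ne_zero _ cardF_ne)]
    · have := HasAntidiagonal.mem_antidiagonal.1 hx
      rw [isHom_one' x.1 ⟨i, g₁⟩ fun e => hne (Prod.ext e.symm (by simp only at e ⊢; omega)),
        zero_mul]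
  · rw [(isHom_one' m).de_eq_zero h, sum_eq_zero fun x hx => ?_]
    have := HasAntidiagonal.mem_antidiagonal.1 hx
    by_cases e : i = x.1
    · rw [isHom_one' x.2 ⟨j, g₂⟩ (by simp only; omega), mul_zero]
    · rw [isHom_one' x.1 ⟨i, g₁⟩ e, zero_mul]

omit [DecidableEq F] in
theorem natDegree_minpoly_eq (α : (K F)ˣ) : (minpoly F (α : K F)).natDegree = (io α).per := by
  have hf := minpoly.irreducible (Algebra.IsIntegral.isIntegral (R := F) (α : K F))
  have : ∀ n, (minpoly F (α : K F)).natDegree ∣ n ↔ (io α).per ∣ n := fun n => by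
    rw [hf.natDegree_dvd_iff_dvd_X_pow_card_pow_sub_X, minpoly.dvd_iff, per_io_dvd_iff,
      Nat.card_eq_fintype_card]
    simp [sub_eq_zero, Units.ext_iff]
  exact Nat.dvd_antisymm ((this _).2 dvd_rfl) ((this _).1 dvd_rfl)

omit [DecidableEq F] in
theorem aroots_minpoly (α : (K F)ˣ) :
    ((minpoly F (α : K F)).aroots (K F)).map un = (io α).pts.val := by
  have hi := Algebra.IsIntegral.isIntegral (R := F) (α : K F)
  refine (Multiset.eq_of_le_of_card_le ((Multiset.le_iff_subset (io α).pts.nodup).2 fun β hβ => ?_)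
    (le_of_eq ?_)).symm
  · obtain ⟨n, rfl⟩ := io_eq_iff.1 (mem_pts.1 hβ).symm
    refine Multiset.mem_map.2 ⟨((α ^ q ^ n : (K F)ˣ) : K F), mem_aroots.2 ⟨minpoly.ne_zero hi, ?_⟩,
      by simp only [un, dif_neg (Units.ne_zero _), Units.mk0_val]⟩
    clear hβ
    induction n with
    | zero => simp
    | succ n ih =>
      have := aeval_algHom_apply (FiniteField.frobeniusAlgHom F (K F)) ((α ^ q ^ n : (K F)ˣ) : K F)
        (minpoly F (α : K F))
      rw [ih, map_zero, FiniteField.coe_frobeniusAlgHom] at this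
      simpa [pow_succ, pow_mul] using this
  · rw [Multiset.card_map, IsAlgClosed.card_aroots_eq_natDegree, natDegree_minpoly_eq,
      card_val, Dyn.Orb.card_pts]

theorem prim_supp {a : H ω} (ha : Prim a) {x : Obj F} (h : a x ≠ 0) :
    ∃ (o : I F) (m : ℕ), 0 < m ∧ eig x = m • o.pts.val ∧ x.1 = o.per * m := by
  obtain ⟨f, k, hf, hm, hX, hk, hc⟩ := ha.primary (n := x.1) (g := x.2) h
  obtain ⟨a, ha⟩ := IsAlgClosed.exists_aeval_eq_zero (K F) f (degree_pos_of_irreducible hf).ne'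
  have h0 : a ≠ 0 := by
    rintro rfl
    rw [← coeff_zero_eq_aeval_zero', map_eq_zero] at ha
    exact coeff_zero_ne_of_ne_X hf hm hX ha
  have e : f = minpoly F ((Units.mk0 a h0 : (K F)ˣ) : K F) :=
    minpoly.eq_of_irreducible_of_monic hf ha hm
  refine ⟨io (Units.mk0 a h0), k, hk, ?_, ?_⟩
  · rw [eig, show x.2.val.charpoly = _ from hc, aroots_pow, Multiset.map_nsmul, e, aroots_minpoly]
  · rw [← chp_natDegree x.2, hc, natDegree_pow, e, natDegree_minpoly_eq, mul_comm]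

/-- a derivation applied to a sequence, in terms of its Newton sums -/
theorem deriv_newton {A : Type*} [CommRing A] [Algebra ℂ A] (D : A →ₗ[ℂ] A)
    (hD : ∀ a b, D (a * b) = D a * b + a * D b) {h : ℕ → A} (h0 : h 0 = 1) (n : ℕ) :
    D (h n) = ∑ x ∈ antidiagonal n, ((x.1 : ℂ)⁻¹ • D (lg h x.1)) * h x.2 := by
  have hD1 : D 1 = 0 := by simpa using hD 1 1
  have hn : ∀ (k : ℕ) (a : A), D (k * a) = k * D a := fun k a => by
    rw [← nsmul_eq_mul, map_nsmul, nsmul_eq_mul]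
  induction n using Nat.strong_induction_on with
  | _ n ih =>
    rcases Nat.eq_zero_or_pos n with rfl | hn0
    · simp [h0, hD1]
    refine natCast_mul_cancel hn0.ne' ?_
    have e1 : ∑ x ∈ antidiagonal n, lg h x.1 * D (h x.2) = ∑ x ∈ antidiagonal n,
        ((x.1 : ℂ)⁻¹ • D (lg h x.1)) * (x.2 * h x.2) := by
      rw [sum_congr rfl (g := fun x : ℕ × ℕ => lg h x.1 * ∑ y ∈ antidiagonal x.2,
        ((y.1 : ℂ)⁻¹ • D (lg h y.1)) * h y.2) fun x hx => ?_]
      · simp only [newton h0, mul_sum]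
        rw [sum_sigma', sum_sigma']
        refine sum_nbij' (fun z => ⟨(z.2.1, z.1.1 + z.2.2), (z.1.1, z.2.2)⟩)
          (fun z => ⟨(z.2.1, z.1.1 + z.2.2), (z.1.1, z.2.2)⟩) ?_ ?_ ?_ ?_ ?_ <;>
        · rintro ⟨⟨i, j⟩, ⟨k, l⟩⟩ hz
          simp only [mem_sigma, HasAntidiagonal.mem_antidiagonal, and_true] at hz ⊢
          all_goals first
          | omega
          | (obtain ⟨_, rfl⟩ := hz; rfl)
          | ring
      · have := HasAntidiagonal.mem_antidiagonal.1 hx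
        rcases Nat.eq_zero_or_pos x.1 with h1 | h1
        · rw [h1, lg_zero, zero_mul, zero_mul]
        · rw [ih x.2 (by omega)]
    rw [← hn, newton h0, map_sum, mul_sum]
    simp only [hD, sum_add_distrib, e1]
    rw [← sum_add_distrib]
    refine sum_congr rfl fun x hx => ?_
    rw [← HasAntidiagonal.mem_antidiagonal.1 hx]
    have : (x.1 : A) * ((x.1 : ℂ)⁻¹ • D (lg h x.1)) = D (lg h x.1) := by
      rcases Nat.eq_zero_or_pos x.1 with h1 | h1
      · rw [h1, lg_zero, map_zero, smul_zero, mul_zero]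
      · rw [← nsmul_eq_mul, ← Nat.cast_smul_eq_nsmul ℂ, smul_smul,
          mul_inv_cancel₀ (Nat.cast_ne_zero.2 h1.ne'), one_smul]
    push_cast
    linear_combination (-h x.2) * this

end Pw

open Pw

variable [Laws F]

/-- the primitive element attached to a function -/
noncomputable def Pf (k : ℕ) (φ : (K F)ˣ → ℂ) : H (1 : Fˣ →* ℂˣ) :=
  sc (fun s => (s.map φ).sum / k) (lg (one F) k)

theorem P_eq_Pf (k : ℕ) (ξ : (K F)ˣ) : P k ξ = Pf k fun α => (pr k ξ α : ℂ) := rfl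

theorem prim_lg_one (k : ℕ) : Prim (lg (one F) k) := grpLike_one.prim_lg k

theorem isHom_lg_one (k : ℕ) : IsHom k (lg (one F) k) := by
  simpa using (grpLike_one (F := F)).isHom_lg k

theorem prim_Pf (k : ℕ) (φ : (K F)ˣ → ℂ) : Prim (Pf k φ) := prim_sc (prim_lg_one k) _

theorem isHom_Pf (k : ℕ) (φ : (K F)ˣ → ℂ) : IsHom k (Pf k φ) :=
  isHom_sc (isHom_lg_one k) _

theorem Pf_apply (k : ℕ) (φ : (K F)ˣ → ℂ) (x : Obj F) :
    Pf k φ x = ((eig x).map φ).sum / k * lg (one F) k x := rfl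

theorem lg_one_supp {k : ℕ} {x : Obj F} (h : lg (one F) k x ≠ 0) :
    ∃ (o : I F) (m : ℕ), 0 < m ∧ eig x = m • o.pts.val ∧ k = o.per * m := by
  obtain ⟨o, m, hm, h1, h2⟩ := prim_supp (prim_lg_one k) h
  exact ⟨o, m, hm, h1, by rw [← h2]; by_contra e; exact h (isHom_lg_one k x (Ne.symm e))⟩

theorem sum_eig_eq {k : ℕ} {x : Obj F} (h : lg (one F) k x ≠ 0) {α : (K F)ˣ} (hα : α ∈ eig x)
    {M : Type*} [AddCommMonoid M] (φ : (K F)ˣ → M) :
    ((eig x).map φ).sum = ∑ j ∈ range k, φ (α ^ q ^ j) := by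
  obtain ⟨o, m, hm, h1, h2⟩ := lg_one_supp h
  have h3 : Dyn.omk (fr F) α = o :=
    (allPer F).mem_pts.1 (Multiset.mem_of_mem_nsmul (h1 ▸ hα))
  have h4 := (allPer F).per_omk α
  rw [h3] at h4
  have h5 := Dyn.sum_range_of_dvd (T := fr F) α φ (k := k) (by rw [← h4, h2]; exact dvd_mul_right _ _)
  rw [← (allPer F).sum_pts_omk, h3, ← h4, h2, Nat.mul_div_cancel_left _ ((allPer F).per_pos o)] at h5
  rw [h1, Multiset.map_nsmul, Multiset.sum_nsmul, h2]
  exact h5.symm.trans (sum_congr rfl fun j _ => congrArg φ (Dyn.iterate_pow _ _ _))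

theorem mem_Mk_of_eig {k : ℕ} {x : Obj F} (h : lg (one F) k x ≠ 0) {α : (K F)ˣ}
    (hα : α ∈ eig x) : α ∈ Mk F k := by
  obtain ⟨o, m, hm, h1, h2⟩ := lg_one_supp h
  have h3 : Dyn.omk (fr F) α = o :=
    (allPer F).mem_pts.1 (Multiset.mem_of_mem_nsmul (h1 ▸ hα))
  rw [mem_Mk_per (h2 ▸ Nat.mul_pos ((allPer F).per_pos o) hm), io, h3, h2]
  exact dvd_mul_right _ _

theorem Pf_congr {k : ℕ} {φ ψ : (K F)ˣ → ℂ} (h : ∀ α ∈ Mk F k, φ α = ψ α) : Pf k φ = Pf k ψ :=
  H.ext fun x => by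
    by_cases hx : lg (one F) k x = 0
    · rw [Pf_apply, Pf_apply, hx, mul_zero, mul_zero]
    · rw [Pf_apply, Pf_apply, Multiset.map_congr rfl fun α hα => h α (mem_Mk_of_eig hx hα)]

/-- `sc` acts on `Pf` through its values on orbits -/
theorem sc_Pf {k : ℕ} (φ : (K F)ˣ → ℂ) (Φ : Multiset (K F)ˣ → ℂ) (c : (K F)ˣ → ℂ)
    (h : ∀ x : Obj F, lg (one F) k x ≠ 0 → ∀ α ∈ eig x, Φ (eig x) = c α) :
    sc Φ (Pf k φ) = Pf k fun α => c α * φ α :=
  H.ext fun x => by
    by_cases hx : lg (one F) k x = 0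
    · rw [sc_apply, Pf_apply, Pf_apply, hx, mul_zero, mul_zero, mul_zero]
    · rw [sc_apply, Pf_apply, Pf_apply,
        Multiset.map_congr (f := fun α => c α * φ α) (g := fun α => Φ (eig x) * φ α) rfl
          fun α hα => by rw [← h x hx α hα], Multiset.sum_map_mul_left]
      ring

theorem Pf_sum {ι : Type*} (k : ℕ) (s : Finset ι) (c : ι → ℂ) (φ : ι → (K F)ˣ → ℂ) :
    Pf k (fun α => ∑ i ∈ s, c i * φ i α) = ∑ i ∈ s, c i • Pf k (φ i) :=
  H.ext fun x => by
    rw [H.sum_apply, Pf_apply, Multiset.sum_map_sum, sum_div, sum_mul]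
    refine sum_congr rfl fun i _ => ?_
    rw [H.smul_apply, Pf_apply, Multiset.sum_map_mul_left]; ring

theorem Pf_comp_pow {k : ℕ} (φ : (K F)ˣ → ℂ) : Pf k (fun α => φ (α ^ q)) = Pf k φ :=
  H.ext fun x => by
    by_cases hx : lg (one F) k x = 0
    · rw [Pf_apply, Pf_apply, hx, mul_zero, mul_zero]
    obtain ⟨o, m, hm, h1, h2⟩ := lg_one_supp hx
    rw [Pf_apply, Pf_apply, h1]
    simp only [Multiset.map_nsmul, Multiset.sum_nsmul]
    congr 3
    refine sum_bij (fun α _ => fr F α) (fun α hα => ?_) (fun _ _ _ _ h => (allPer F).injective h)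
      (fun β hβ => ?_) fun _ _ => rfl
    · exact (allPer F).mem_pts.2 ((Dyn.omk_apply α).trans ((allPer F).mem_pts.1 hα))
    · obtain ⟨α, rfl⟩ := (allPer F).surjective β
      exact ⟨α, (allPer F).mem_pts.2 ((Dyn.omk_apply α).symm.trans ((allPer F).mem_pts.1 hβ)), rfl⟩

theorem Pf_one {k : ℕ} (hk : 0 < k) : Pf k (fun _ => 1) = lg (one F) k :=
  H.ext fun x => by
    by_cases hx : x.1 = k
    · rw [Pf_apply, Multiset.map_const', Multiset.sum_replicate, card_eig', hx, nsmul_one,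
        div_self (Nat.cast_ne_zero.2 hk.ne'), one_mul]
    · rw [isHom_Pf k _ x hx, isHom_lg_one k x hx]

theorem sc_one_eq (φ : (K F)ˣ → ℂ) (n : ℕ) : sc (fun s => (s.map φ).sum) (one F n) =
    ∑ x ∈ antidiagonal n, Pf x.1 φ * one F x.2 := by
  rw [deriv_newton (sc fun s => (s.map φ).sum) (sc_sum_mul φ) grpLike_one.zero]
  refine sum_congr rfl fun x _ => congrArg (· * _) (H.ext fun y => ?_)
  rw [H.smul_apply, sc_apply, Pf_apply]; ring

theorem one_mem_ZZ (n : ℕ) : one F n ∈ ZZ F :=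
  (isHom_one' n).vir (by
    simp only [one_apply']; exact IsCharacter.one.isGeneralizedCharacter)

theorem Pf_mem_ZZ (θ : (K F)ˣ →* ℂˣ) (k : ℕ) : Pf k (fun α => (θ α : ℂ)) ∈ ZZ F := by
  induction k using Nat.strong_induction_on with
  | _ k ih =>
    have h1 : sc (fun s => (s.map fun α => (θ α : ℂ)).sum) (one F k) ∈ ZZ F := by
      refine (isHom_sc (isHom_one' k) _).vir ?_
      convert BL.green_GL (n := Fin k) θ 1 using 2 with g
      rw [sc_apply, one_apply', mul_one, Multiset.esymm, eig, Multiset.map_map]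
      simp only [Multiset.powersetCard_one, Multiset.map_map, Function.comp_apply,
        Multiset.prod_singleton]
      refine congrArg _ (Multiset.map_congr rfl fun a ha => ?_)
      have h0 : a ≠ 0 := by
        rintro rfl
        have := (mem_aroots.1 ha).2
        rw [← coeff_zero_eq_aeval_zero', map_eq_zero, ← neg_one_pow_mul_eq_zero_iff
          (n := Fintype.card (Fin k)), ← Matrix.det_eq_sign_charpoly_coeff] at this
        exact (dt g).ne_zero this
      simp [un, h0]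
    rw [sc_one_eq, ← add_sum_erase _ _ (HasAntidiagonal.mem_antidiagonal.2 (add_zero k) : (k, 0) ∈ _),
      grpLike_one.zero, mul_one] at h1
    refine (add_mem_cancel_right (sum_mem fun x hx => mul_mem (ih _ ?_) (one_mem_ZZ _))).1 h1
    have h3 := mem_erase.1 hx
    have h4 := HasAntidiagonal.mem_antidiagonal.1 h3.2
    by_contra h5
    exact h3.1 (Prod.ext (by simp only; omega) (by simp only; omega))

theorem ip_lg_one_one {k : ℕ} (hk : 0 < k) : ip (lg (one F) k) (one F k) = 1 := by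
  have h1 : ex (fun m => ip (lg (one F) m) (one F m)) = ex fun k => (1 : ℂ) ^ k := by
    funext m
    rw [grpLike_one.ex_ip_lg, ex_geom, one_pow, (isHom_one' m).ip_eq]
    simp only [one_apply']
    exact IrrCharacter.classInner_self ⟨_, IsIrrCharacter.one⟩
  have := congrArg (lg · k) h1
  simpa [lg_ex _ hk] using this

theorem ip_lg_one_Gam {k : ℕ} (hk : 0 < k) : ip (lg (one F) k) (Gam 1 k) = (-1) ^ (k + 1) := by
  have h1 : ex (fun m => ip (lg (one F) m) (Gam 1 m)) = ex fun k => -(-1 : ℂ) ^ k := by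
    funext m
    have h2 := congrArg (PowerSeries.coeff m) (mk_ex_neg_geom (-1 : ℂ))
    rw [PowerSeries.coeff_mk] at h2
    rw [grpLike_one.ex_ip_lg' (grpLike_Gam 1), h2, one, ip_one_Gam]
    rcases m with _ | _ | m <;> simp [PowerSeries.coeff_one, PowerSeries.coeff_X]
  have := congrArg (lg · k) h1
  simp only [lg_ex _ hk] at this
  rw [this, pow_succ]; ring

/-- the value at an element with irreducible characteristic polynomial -/
theorem lg_one_apply_irr {k : ℕ} {g : G F k} (hg : Irreducible (chp g)) :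
    lg (one F) k ⟨k, g⟩ = k := by
  rcases k with _ | k
  · simp [lg_zero]
  rw [lg_succ, ← nsmul_eq_mul, ← Nat.cast_smul_eq_nsmul ℂ, H.sub_apply, H.smul_apply, one_apply',
    H.sum_apply, sum_eq_zero, mul_one, sub_zero]
  intro j hj
  have hj := mem_range.1 hj
  by_contra h
  obtain ⟨a, b, g₁, g₂, u, z, h1, h2, h3⟩ := exists_of_mul_ne_zero h
  have ha : a = j + 1 := by by_contra e; exact h1 (isHom_lg_one _ _ e)
  have hb : b = k - j := by by_contra e; exact h2 (isHom_one' _ _ e)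
  have h4 : chp g = chp g₁ * chp g₂ := by
    have := congrArg (fun x : Obj F => chp x.2) h3
    simpa only [chp_conj, chp_blk] using this
  rcases hg.isUnit_or_isUnit h4 with h5 | h5
  · have := natDegree_eq_zero_of_isUnit h5
    rw [chp_natDegree] at this; omega
  · have := natDegree_eq_zero_of_isUnit h5
    rw [chp_natDegree] at this; omega

theorem exists_irr {α : (K F)ˣ} :
    ∃ g : G F (io α).per, Irreducible (chp g) ∧ α ∈ eig ⟨_, g⟩ := by
  have hi : IsIntegral F (α : K F) := Algebra.IsIntegral.isIntegral _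
  have hf := minpoly.irreducible hi
  have hd := natDegree_minpoly_eq α
  obtain ⟨g, hg⟩ := exists_isCyc (minpoly.monic hi) (minpoly.coeff_zero_ne_zero hi α.ne_zero)
  have hc := hg.chp_eq (minpoly.monic hi)
  rw [← hd]
  refine ⟨g, hc.symm ▸ hf, Multiset.mem_map.2 ⟨α, ?_, by simp [un]⟩⟩
  exact mem_aroots.2 ⟨(chp_monic g).ne_zero, by
    rw [show g.val.charpoly = _ from hc]; exact minpoly.aeval F _⟩

theorem ip_Pf_one_eq {k : ℕ} (hk : 0 < k) : ∃ w : (K F)ˣ → ℝ, (∀ α, 0 ≤ w α) ∧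
    (∀ α, (io α).per = k → 0 < w α) ∧
    ∀ φ : (K F)ˣ → ℂ, ip (Pf k φ) (one F k) = ∑ α ∈ Mk F k, w α * φ α := by
  have hk0 : (k : ℂ) ≠ 0 := Nat.cast_ne_zero.2 hk.ne'
  have hkr : (0 : ℝ) < k := Nat.cast_pos.2 hk
  have hG : (0 : ℝ) < Nat.card (G F k) := Nat.cast_pos.2 Nat.card_pos
  refine ⟨fun α => (∑ g : G F k, (eig ⟨k, g⟩).count α * ‖lg (one F) k ⟨k, g⟩‖ ^ 2) /
    (k ^ 2 * Nat.card (G F k)), fun α => by positivity, fun α hα => ?_, fun φ => ?_⟩
  · subst hα
    obtain ⟨g, hg, hg'⟩ := exists_irr (α := α)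
    refine div_pos (sum_pos' (fun _ _ => by positivity) ⟨g, mem_univ _, ?_⟩) (by positivity)
    rw [lg_one_apply_irr hg, Complex.norm_natCast]
    have : (0 : ℝ) < (eig ⟨_, g⟩).count α := Nat.cast_pos.2 (Multiset.count_pos.2 hg')
    positivity
  · refine mul_left_cancel₀ hk0 ?_
    rw [← (prim_Pf k φ).ip_lg grpLike_one, (isHom_Pf k φ).ip_eq, classInner_def]
    push_cast
    simp only [sum_div, sum_mul, mul_sum]
    rw [sum_comm]
    refine sum_congr rfl fun g _ => ?_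
    by_cases hg : lg (one F) k ⟨k, g⟩ = 0
    · simp [hg]
    rw [Pf_apply, Finset.sum_multiset_map_count, sum_subset (s₂ := Mk F k)
      (fun α hα => mem_Mk_of_eig hg (Multiset.mem_toFinset.1 hα)) (fun α _ hα => by
        rw [Multiset.count_eq_zero_of_notMem (mt Multiset.mem_toFinset.2 hα), zero_smul]),
      mul_assoc, Complex.mul_conj', sum_div, sum_mul, mul_sum]
    refine sum_congr rfl fun α _ => ?_
    have := cardG_ne (F := F) k
    rw [nsmul_eq_mul]; field_simp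

theorem per_gen_sq {k : ℕ} (hk : 0 < k) {c : ℕ} (hc : c = 1 ∨ c = 2) :
    (io (gen F k ^ c)).per = k := by
  have h1 := (mem_Mk_per hk).1 (pow_mem_Mk (gen_mem (F := F) hk) c)
  set d := (io (gen F k ^ c)).per
  have hd : 0 < d := per_pos _
  obtain ⟨m, hm⟩ := h1
  have h2 : (gen F k ^ c) ^ (q ^ d - 1) = 1 := (pow_q_eq_iff _ _).1 (pow_q_per _)
  rw [← pow_mul, ← orderOf_dvd_iff_pow_eq_one, orderOf_gen hk] at h2
  have h3 := one_lt_q_pow (F := F) hd
  have h4 := Nat.le_of_dvd (Nat.mul_pos (by omega) (by omega)) h2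
  by_contra h
  have h5 : 2 ≤ m := by
    rcases m with _ | _ | m <;> simp_all
  have h6 : q ^ d * q ^ d ≤ q ^ k := by
    rw [← pow_add]; exact Nat.pow_le_pow_right (q_pos F) (by rw [hm]; nlinarith)
  obtain ⟨t, ht⟩ : ∃ t, q ^ d = t + 1 := ⟨q ^ d - 1, by omega⟩
  rw [ht, Nat.add_sub_cancel] at h4
  rw [ht] at h6 h3
  have : c * t ≤ 2 * t := Nat.mul_le_mul_right _ (by omega)
  have : q ^ k ≤ 2 * t + 1 := by omega
  nlinarith

theorem ip_P_one {k : ℕ} {ξ : (K F)ˣ} (hξ : ξ ∈ Mk F k) :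
    ip (P k ξ) (one F k) = if ξ = 1 then 1 else 0 := by
  have hk := pos_of_mem_Mk hξ
  obtain ⟨w, w0, w1, hw⟩ := ip_Pf_one_eq (F := F) hk
  have h1 : ∑ α ∈ Mk F k, w α = 1 := by
    have := hw fun _ => 1
    rw [Pf_one hk, ip_lg_one_one hk] at this
    simp only [mul_one] at this
    exact_mod_cast this.symm
  split_ifs with h
  · subst h
    rw [P_eq_Pf, Pf_congr (ψ := fun _ => 1) fun α hα => by rw [pr_one hα, Units.val_one],
      Pf_one hk, ip_lg_one_one hk]
  by_contra h0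
  obtain ⟨z, hz⟩ : ∃ z : ℤ, ip (P k ξ) (one F k) = z := by
    rw [(isHom_one' k).ip_eq']
    exact (mem_ZZ.1 (Pf_mem_ZZ (pr k ξ) k) k).exists_classInner_eq_int (mem_ZZ.1 (one_mem_ZZ k) k)
  have hn : ∀ α, ‖(pr k ξ α : ℂ)‖ = 1 := fun α => by
    have := conj_pr k ξ α
    rw [map_inv, Units.val_inv_eq_inv_val] at this
    have h2 := Complex.mul_conj' (pr k ξ α : ℂ)
    rw [this, mul_inv_cancel₀ (pr k ξ α).ne_zero] at h2
    have h3 : ‖(pr k ξ α : ℂ)‖ ^ 2 = 1 := by exact_mod_cast h2.symm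
    nlinarith [norm_nonneg (pr k ξ α : ℂ)]
  have hz0 : z ≠ 0 := by rintro rfl; exact h0 (by simpa using hz)
  rw [P_eq_Pf, hw] at hz
  obtain ⟨ε, hε, hε'⟩ : ∃ ε : ℝ, ε ^ 2 = 1 ∧ 1 ≤ ε * z := by
    rcases lt_or_gt_of_ne hz0 with h | h
    · exact ⟨-1, by norm_num, by have : (z : ℝ) ≤ -1 := by exact_mod_cast (by omega : z ≤ -1)
                                 linarith⟩
    · exact ⟨1, by norm_num, by have : (1 : ℝ) ≤ z := by exact_mod_cast (by omega : 1 ≤ z)
                                linarith⟩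
  have hre : ∀ α, ε * (pr k ξ α : ℂ).re ≤ 1 := fun α => by
    have := Complex.abs_re_le_norm (pr k ξ α : ℂ)
    rw [hn] at this
    nlinarith [sq_nonneg (ε - (pr k ξ α : ℂ).re), sq_abs (pr k ξ α : ℂ).re,
      abs_nonneg (pr k ξ α : ℂ).re]
  have h2 : ∑ α ∈ Mk F k, w α * (1 - ε * (pr k ξ α : ℂ).re) = 0 := by
    refine le_antisymm ?_ (sum_nonneg fun α _ => mul_nonneg (w0 α) (by linarith [hre α]))
    have h3 := congrArg Complex.re hz
    simp only [Complex.re_sum, Complex.re_ofReal_mul, Complex.intCast_re] at h3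
    simp only [mul_sub, mul_one, sum_sub_distrib, h1, mul_left_comm _ ε, ← mul_sum, h3]
    linarith
  rw [sum_eq_zero_iff_of_nonneg fun α _ => mul_nonneg (w0 α) (by linarith [hre α])] at h2
  have h3 : ∀ c, c = 1 ∨ c = 2 → (pr k ξ (gen F k ^ c) : ℂ) = ε := fun c hc => by
    have h4 := (mul_eq_zero.1 (h2 _ (pow_mem_Mk (gen_mem hk) c))).resolve_left
      (w1 _ (per_gen_sq hk hc)).ne'
    have h5 : (pr k ξ (gen F k ^ c) : ℂ).re = ε := by linear_combination (-ε) * h4 - _ * hε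
    have h6 := Complex.sq_norm (pr k ξ (gen F k ^ c) : ℂ)
    rw [hn, Complex.normSq_apply, h5] at h6
    exact Complex.ext h5 (by simp only [Complex.ofReal_im]; nlinarith)
  have h4 : pr k ξ (gen F k) = 1 := by
    have := (h3 2 (Or.inr rfl)).trans (h3 1 (Or.inl rfl)).symm
    rw [Units.val_inj, map_pow, pow_one, sq] at this
    exact mul_eq_left.1 this
  rw [pr_gen_right hξ] at h4
  exact h (th_injective F (h4.trans (map_one _).symm))

theorem ip_Pf_one {k : ℕ} (hk : 0 < k) (φ : (K F)ˣ → ℂ) :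
    ip (Pf k φ) (one F k) = (∑ α ∈ Mk F k, φ α) / ((q ^ k - 1 : ℕ) : ℂ) := by
  have ht : ((q ^ k - 1 : ℕ) : ℂ) ≠ 0 := Nat.cast_ne_zero.2 (q_pow_sub_pos hk).ne'
  rw [Pf_congr (ψ := fun α => ∑ ξ ∈ Mk F k,
    ((∑ β ∈ Mk F k, φ β * pr k ξ β⁻¹) / ((q ^ k - 1 : ℕ) : ℂ)) * pr k ξ α) fun α hα => ?_, Pf_sum,
    ip_sum_left, sum_eq_single 1 (fun ξ hξ h1 => ?_) fun h => (h (one_mem_Mk hk)).elim]
  · rw [ip_smul_left, ← P_eq_Pf, ip_P_one (one_mem_Mk hk), if_pos rfl, mul_one]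
    exact congrArg (· / _) (sum_congr rfl fun β hβ => by
      rw [pr_one (inv_mem_Mk hβ), Units.val_one, mul_one])
  · rw [ip_smul_left, ← P_eq_Pf, ip_P_one hξ, if_neg h1, mul_zero]
  · simp only [div_mul_eq_mul_div, ← sum_div, sum_mul]
    rw [sum_comm, eq_div_iff ht, sum_eq_single α (fun β hβ hne => ?_) fun h => (h hα).elim]
    · simp only [mul_assoc, ← Units.val_mul, ← map_mul, ← mul_sum]
      rw [sum_pr_left (mul_mem_Mk (inv_mem_Mk hα) hα), if_pos (inv_mul_cancel α)]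
    · simp only [mul_assoc, ← Units.val_mul, ← map_mul, ← mul_sum]
      rw [sum_pr_left (mul_mem_Mk (inv_mem_Mk hβ) hα), if_neg (by rwa [inv_mul_eq_one]), mul_zero]

/-- the inner product formula -/
theorem ip_Pf_Pf {k : ℕ} (hk : 0 < k) (φ ψ : (K F)ˣ → ℂ) : ip (Pf k φ) (Pf k ψ) =
    (∑ j ∈ range k, ∑ α ∈ Mk F k, φ α * conj (ψ (α ^ q ^ j))) / ((q ^ k - 1 : ℕ) : ℂ) := by
  have hk0 : (k : ℂ) ≠ 0 := Nat.cast_ne_zero.2 hk.ne'
  rw [ip_cj, Pf, ip_sc', ← ip_cj, sc_Pf φ _ (fun α => (∑ j ∈ range k, conj (ψ (α ^ q ^ j))) / k)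
    fun x hx α hα => by rw [sum_eig_eq hx hα, map_div₀, map_natCast, map_sum],
    (prim_Pf _ _).ip_lg grpLike_one, ip_Pf_one hk, sum_comm, ← mul_div_assoc, mul_sum]
  congr 1
  refine sum_congr rfl fun α _ => ?_
  rw [← mul_sum]; field_simp

end Cfsg.GLn
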