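import Cfsg.Agent.GLn.PwA
import Cfsg.Agent.GLn.Defs2
import Cfsg.Agent.GLn.ArB
import Cfsg.Agent.GLn.Mu

/-! The piece `StP`. -/

set_option autoImplicit false

namespace Cfsg.GLn

open ComplexConjugate Finset Polynomial Pw

universe u

variable {F : Type u} [Field F] [Fintype F] [DecidableEq F] {ω : Fˣ →* ℂˣ}

local notation "q" => Fintype.card F

namespace Pw

omit [DecidableEq F] in
theorem sum_ite_pow {k : ℕ} {η : (K F)ˣ} (hη : η ∈ Mk F k) (ξ : (K F)ˣ) :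
    ∑ j ∈ range k, (if ξ = η ^ q ^ j then (1 : ℂ) else 0) =
      if io ξ = io η then ((k / (io η).per : ℕ) : ℂ) else 0 := by
  have h4 := (allPer F).per_omk η
  have h5 := Dyn.sum_range_of_dvd (T := fr F) η (fun y => if ξ = y then (1 : ℂ) else 0) (k := k)
    (h4 ▸ (mem_Mk_per (pos_of_mem_Mk hη)).1 hη)
  rw [← (allPer F).sum_pts_omk η fun y => if ξ = y then (1 : ℂ) else 0, ← h4] at h5
  simp only [fr_iterate] at h5
  rw [h5, sum_ite_eq]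
  simp [mem_pts]

omit [DecidableEq F] in
theorem pr_eq_one {k : ℕ} {ξ x : (K F)ˣ} (hξ : ξ ∈ Mk F k) (hx : x ∈ Mk F k)
    (h : (orderOf ξ).Coprime (orderOf x)) : pr k ξ x = 1 := by
  have h2 : pr k ξ x ^ orderOf x = 1 := by rw [← map_pow, pow_orderOf_eq_one, map_one]
  have h3 : pr k ξ x ^ orderOf ξ = 1 := by
    rw [pr_comm hξ hx, ← map_pow, pow_orderOf_eq_one, map_one]
  have := pow_gcd_eq_one.2 ⟨h3, h2⟩
  rwa [h.gcd_eq_one, pow_one] at this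

omit [DecidableEq F] in
theorem sum_reg_pr {ℓ : ℕ} [Fact ℓ.Prime] {k : ℕ} {ζ : (K F)ˣ} (hζ : ζ ∈ Mk F k) :
    ∑ α ∈ Mk F k, (if ℓ ∣ orderOf α then 0 else 1) * (pr k ζ α : ℂ) =
      (if pRegPart ℓ ζ = 1 then ((q ^ k - 1 : ℕ) : ℂ) else 0) / nl F ℓ k := by
  have hk := pos_of_mem_Mk hζ
  have hs := pRegPart_mem_Mk (ℓ := ℓ) hζ
  have hu := pPart_mem_Mk (ℓ := ℓ) hζ
  rw [eq_div_iff (Nat.cast_ne_zero.2 (nl_pos k).ne'), ← sum_pr hs, sum_Mk_split (ℓ := ℓ) k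
    fun x => (pr k (pRegPart ℓ ζ) x : ℂ), sum_mul, ← sum_subset (s₁ := Rk F ℓ k)
    (fun x hx => (mem_Rk.1 hx).1) fun x hx hx' => by
      rw [if_pos (by_contra fun h => hx' (mem_Rk.2 ⟨hx, h⟩)), zero_mul, zero_mul]]
  refine sum_congr rfl fun s hs' => ?_
  obtain ⟨h1, h2⟩ := mem_Rk.1 hs'
  rw [if_neg h2, one_mul, sum_congr rfl fun u hu => by
    rw [map_mul, pr_eq_one hs (mem_Lk.1 hu).1 (coprime_orderOf_of (not_dvd_orderOf_pRegPartK ζ)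
      (mem_Lk.1 hu).2), mul_one], sum_const, card_Lk hk, nsmul_eq_mul, mul_comm]
  congr 2
  conv_lhs => rw [← pPart_mul_pRegPart ℓ ζ, pr_mul hu hs h1]
  rw [pr_eq_one hu h1 (coprime_orderOf_of h2 (exists_orderOf_pPartK ζ)).symm, one_mul]

end Pw

variable [Laws F]

theorem prod_eig_eq {k : ℕ} {x : Obj F} (h : lg (one F) k x ≠ 0) {α : (K F)ˣ} (hα : α ∈ eig x)
    {M : Type*} [CommMonoid M] (φ : (K F)ˣ → M) :
    ((eig x).map φ).prod = ∏ j ∈ range k, φ (α ^ q ^ j) :=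
  sum_eig_eq h hα (M := Additive M) φ

theorem ip_P_P' {k : ℕ} {ξ η : (K F)ˣ} (hη : η ∈ Mk F k) (hξ : ξ ∈ Mk F k) :
    ip (P k ξ) (P k η) = ∑ j ∈ range k, if ξ = η ^ q ^ j then (1 : ℂ) else 0 := by
  have hk := pos_of_mem_Mk hξ
  have ht : ((q ^ k - 1 : ℕ) : ℂ) ≠ 0 := Nat.cast_ne_zero.2 (q_pow_sub_pos hk).ne'
  rw [P_eq_Pf, P_eq_Pf, ip_Pf_Pf hk, sum_div]
  refine sum_congr rfl fun j _ => ?_
  rw [sum_congr rfl fun α hα => by rw [← pr_pow' hη hα], sum_pr_conj hξ (pow_mem_Mk hη _)]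
  split_ifs
  · exact div_self ht
  · exact zero_div _

theorem ip_P_P {k : ℕ} {ξ η : (K F)ˣ} (hξ : ξ ∈ Mk F k) (hη : η ∈ Mk F k) :
    ip (P k ξ) (P k η) = if io ξ = io η then ((k / (io η).per : ℕ) : ℂ) else 0 := by
  rw [ip_P_P' hη hξ, sum_ite_pow hη]

theorem P_pow_q {k : ℕ} {ξ : (K F)ˣ} (hξ : ξ ∈ Mk F k) (n : ℕ) : P k (ξ ^ q ^ n) = P k ξ := by
  induction n with
  | zero => simp
  | succ n ih =>
    rw [← ih, P_eq_Pf, P_eq_Pf, ← Pf_comp_pow fun α => (pr k (ξ ^ q ^ n) α : ℂ)]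
    exact Pf_congr fun α hα => by rw [pow_succ, pow_mul, pr_pow_q (pow_mem_Mk hξ _) hα]

theorem P_rep_io {k : ℕ} {ξ : (K F)ˣ} (hξ : ξ ∈ Mk F k) : P k (io ξ).rep = P k ξ := by
  obtain ⟨n, hn⟩ := exists_rep_io ξ
  rw [hn, P_pow_q hξ]

theorem prim_P (k : ℕ) (ξ : (K F)ˣ) : Prim (P k ξ) := prim_Pf _ _

theorem isHom_P (k : ℕ) (ξ : (K F)ˣ) : IsHom k (P k ξ) := isHom_Pf _ _

theorem prim_pp (o : I F) (m : ℕ) : Prim (pp o m) := (prim_P _ _).smul _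

theorem isHom_pp (o : I F) (m : ℕ) : IsHom (o.per * m) (pp o m) := (isHom_P _ _).smul _

theorem sign_mul_conj (k : ℕ) (z : ℂ) : (-1) ^ k * (conj ((-1 : ℂ) ^ k) * z) = z := by
  rw [map_pow, map_neg, map_one, ← mul_assoc, ← mul_pow]; simp

theorem ip_pp_pp (o : I F) {m : ℕ} (o' : I F) {m' : ℕ} (hm : 0 < m) (hm' : 0 < m') :
    ip (pp o m) (pp o' m') = if o = o' ∧ m = m' then (m : ℂ) else 0 := by
  by_cases h : o.per * m = o'.per * m'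
  · rw [pp, pp, ip_smul_left, ip_smul_right, ← h, sign_mul_conj,
      ip_P_P (rep_mem_Mk_mul o hm) (h ▸ rep_mem_Mk_mul o' hm'), io_rep, io_rep]
    by_cases e : o = o'
    · subst e
      obtain rfl := Nat.eq_of_mul_eq_mul_left (per_pos o) h
      simp [Nat.mul_div_cancel_left _ (per_pos o)]
    · simp [e]
  · rw [(isHom_pp o m).ip_eq_zero (isHom_pp o' m') h, if_neg]
    rintro ⟨rfl, rfl⟩; exact h rfl

theorem ip_Pf_Gam {k : ℕ} (hk : 0 < k) (φ : (K F)ˣ → ℂ) :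
    ip (Pf k φ) (Gam 1 k) = (-1) ^ (k + 1) * φ 1 := by
  rw [← ip_lg_one_Gam (F := F) hk, Pf, ip_sc', mul_comm, ← Complex.conj_conj (φ 1), ← ip_smul_right]
  congr 1
  refine H.ext fun x => ?_
  by_cases hx : Gam (1 : Fˣ →* ℂˣ) k x = 0
  · rw [sc_apply, H.smul_apply, hx, mul_zero, mul_zero]
  have h1 : x.1 = k := by by_contra e; exact hx (Gam_isHom _ _ x e)
  have h2 : eig x = Multiset.replicate k 1 := by
    rw [eig, charpoly_of_Gam hx, aroots_pow, ← C_1, aroots_X_sub_C, h1]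
    simp [un, Multiset.nsmul_singleton]
  rw [sc_apply, H.smul_apply, h2, Multiset.map_replicate, Multiset.sum_replicate, nsmul_eq_mul,
    mul_div_cancel_left₀ _ (Nat.cast_ne_zero.2 hk.ne')]

theorem ip_pp_Gam (o : I F) {m : ℕ} (hm : 0 < m) : ip (pp o m) (Gam 1 (o.per * m)) = 1 := by
  rw [pp, ip_smul_left, P_eq_Pf, ip_Pf_Gam (Nat.mul_pos (per_pos o) hm), ← mul_assoc, ← mul_pow]
  simp

theorem tens_P {k : ℕ} (lam : Fˣ) {ξ : (K F)ˣ} (hξ : ξ ∈ Mk F k) :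
    tens lam (P k ξ) = P k (iu lam * ξ) := by
  have hk := pos_of_mem_Mk hξ
  rw [P_eq_Pf, P_eq_Pf, tens, mu, sc_Pf _ _ (fun α => (pr k (iu lam) α : ℂ)) fun x hx α hα => by
    rw [prod_eig_eq hx hα, pr_iu lam (mem_Mk_of_eig hx hα), map_prod, Units.coe_prod]]
  exact Pf_congr fun α hα => by rw [pr_mul (iu_mem_Mk hk lam) hξ hα, Units.val_mul]

theorem tens_pp (lam : Fˣ) (o : I F) {m : ℕ} (hm : 0 < m) :
    tens lam (pp o m) = pp (mulI lam o) m := by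
  have h := rep_mem_Mk_mul o hm
  rw [pp, pp, map_smul, tens_P lam h, per_mulI, mulI,
    P_rep_io (mul_mem_Mk (iu_mem_Mk (pos_of_mem_Mk h) lam) h)]

theorem ng_lg_one (k : ℕ) : ng (lg (one F) k) = lg (one F) k := by
  have h1 : ∀ n, ng (one F n) = one F n := fun n =>
    (isHom_one' n).ng.ext (isHom_one' n) fun g => by rw [ng_apply, one_apply', one_apply']
  exact (map_lg (ngA (ω := 1)).toRingHom _ k).trans (congrArg (lg · k) (funext h1))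

theorem ng_P (k : ℕ) (ξ : (K F)ˣ) : ng (P k ξ) = (pr k ξ (-1) : ℂ) • P k ξ := by
  rw [P, ng_sc, ng_lg_one]
  refine H.ext fun x => ?_
  rw [H.smul_apply, sc_apply, sc_apply, Multiset.map_map, ← mul_assoc, ← mul_div_assoc,
    ← Multiset.sum_map_mul_left]
  congr 3
  refine Multiset.map_congr rfl fun α _ => ?_
  rw [← Units.val_mul, ← map_mul, neg_one_mul]; rfl

theorem ng_pp (o : I F) (m : ℕ) : ng (pp o m) = (pr (o.per * m) o.rep (-1) : ℂ) • pp o m := by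
  rw [pp, ng_smul, ng_P, smul_comm]

omit [DecidableEq F] [Laws F] in
theorem pr_neg_one {k : ℕ} {ξ : (K F)ˣ} (hξ : ξ ∈ Mk F k) (h : ¬ 2 ∣ orderOf ξ) :
    pr k ξ (-1) = 1 := by
  have h1 : (-1 : (K F)ˣ) ∈ Mk F k := by
    have : iu (-1 : Fˣ) = -1 := Units.ext (by simp [iu_val])
    exact this ▸ iu_mem_Mk (pos_of_mem_Mk hξ) (-1 : Fˣ)
  exact pr_eq_one hξ h1 ((Nat.prime_two.coprime_iff_not_dvd.2 h).symm.coprime_dvd_right
    (orderOf_dvd_of_pow_eq_one (by simp)))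

theorem dd_Pf (ℓ : ℕ) {k : ℕ} (hk : 0 < k) (φ : (K F)ˣ → ℂ) :
    dd ℓ (Pf k φ) = Pf k fun α => (if ℓ ∣ orderOf α then 0 else 1) * φ α :=
  sc_Pf _ _ _ fun x hx α hα => by
    rw [prod_eig_eq hx hα]
    simp only [orderOf_pow_q, prod_const, card_range]
    split_ifs <;> simp [hk.ne']

theorem ip_dd_P {ℓ : ℕ} [Fact ℓ.Prime] {k : ℕ} {ξ η : (K F)ˣ} (hξ : ξ ∈ Mk F k)
    (hη : η ∈ Mk F k) : ip (dd ℓ (P k ξ)) (P k η) = if rpI ℓ (io ξ) = rpI ℓ (io η) then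
      (k : ℂ) / (((rpI ℓ (io ξ)).per * nl F ℓ k : ℕ) : ℂ) else 0 := by
  have hk := pos_of_mem_Mk hξ
  have ht : ((q ^ k - 1 : ℕ) : ℂ) ≠ 0 := Nat.cast_ne_zero.2 (q_pow_sub_pos hk).ne'
  have hr := pRegPart_mem_Mk (ℓ := ℓ) hη
  have h1 : ip (dd ℓ (P k ξ)) (P k η) = (∑ j ∈ range k,
      if pRegPart ℓ ξ = pRegPart ℓ η ^ q ^ j then (1 : ℂ) else 0) / nl F ℓ k := by
    rw [P_eq_Pf, P_eq_Pf, dd_Pf ℓ hk, ip_Pf_Pf hk, sum_div, sum_div]
    refine sum_congr rfl fun j _ => ?_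
    have hj := pow_mem_Mk hη (q ^ j)
    rw [sum_congr rfl fun α hα => by rw [← pr_pow' hη hα, conj_pr, map_inv, ← pr_inv hj hα,
      mul_assoc, ← Units.val_mul, ← pr_mul hξ (inv_mem_Mk hj) hα],
      sum_reg_pr (mul_mem_Mk hξ (inv_mem_Mk hj))]
    have : pRegPart ℓ (ξ * (η ^ q ^ j)⁻¹) = 1 ↔ pRegPart ℓ ξ = pRegPart ℓ η ^ q ^ j := by
      rw [pRegPartK_mul, ← pRegPartK_pow, ← mul_inv_eq_one (a := pRegPart ℓ ξ)]
      exact (congrArg (pRegPart ℓ ξ * · = 1) (map_inv (pRegH F ℓ) _)).to_iff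
    simp only [this]
    split_ifs
    · field_simp
    · simp
  rw [h1, sum_ite_pow hr, rpI_io, rpI_io]
  split_ifs with h
  · rw [Nat.cast_div ((mem_Mk_per hk).1 hr) (Nat.cast_ne_zero.2 (per_pos _).ne'), h, div_div,
      Nat.cast_mul]
  · exact zero_div _

theorem gr_pp {ℓ : ℕ} (hl : ℓ.Prime) : Gr ℓ (pp (F := F)) := fun o m o' m' hm hm' => by
  haveI := Fact.mk hl
  rw [gram]
  by_cases h : o.per * m = o'.per * m'
  · rw [pp, pp, map_smul, ip_smul_left, ip_smul_right, ← h, sign_mul_conj,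
      ip_dd_P (rep_mem_Mk_mul o hm) (h ▸ rep_mem_Mk_mul o' hm'), io_rep, io_rep]
    simp only [true_and]
  · rw [((isHom_pp o m).dd ℓ).ip_eq_zero (isHom_pp o' m') h, if_neg fun e => h e.1]

theorem fk_pp : Fk 1 (pp (F := F)) where
  ord := orderOf_one
  prim o m _ := prim_pp o m
  hom o m _ := (one_mul (o.per * m)).symm ▸ isHom_pp o m
  ip o _ o' _ hm hm' := ip_pp_pp o o' hm hm'
  gam o m hm := (one_mul (o.per * m)).symm ▸ ip_pp_Gam o hm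

variable (F) in
theorem stP : StP F where
  fk := fk_pp
  gr _ hl _ := gr_pp hl
  tens lam o _ hm := tens_pp lam o hm
  ng o m hm := ⟨_, ng_pp o m, fun h => by rw [pr_neg_one (rep_mem_Mk_mul o hm) h, Units.val_one]⟩

end Cfsg.GLn
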