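import Cfsg.Agent.GLn.SchA
import Cfsg.Agent.GLn.GG

/-! The piece `Sch`. -/

set_option autoImplicit false

namespace Cfsg.GLn

open ComplexConjugate Finset SymCh

universe u

variable {F : Type u} [Field F] [Fintype F] [DecidableEq F] {ω : Fˣ →* ℂˣ} {N r : ℕ}
  {p : I F → ℕ → H ω}

theorem Fk.pos (h : Fk r p) : 0 < r := by
  obtain ⟨lam, rfl⟩ := chr_bijective.2 ω
  rw [← h.ord, orderOf_chr]
  exact orderOf_pos lam

theorem Fk.ne_zero (h : Fk r p) (o : I F) {m : ℕ} (hm : 0 < m) : p o m ≠ 0 := fun h0 => by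
  have := h.ip o m o m hm hm
  rw [h0, ip_zero_left, if_pos ⟨rfl, rfl⟩] at this
  exact hm.ne (by exact_mod_cast this)

theorem Fk.ip_one (h : Fk r p) (o : I F) (k l : ℕ) (hk : 0 < k) (hl : 0 < l) :
    GLn.ip (p o k) (p o l) = if k = l then (k : ℂ) else 0 := by
  rw [h.ip o k o l hk hl]; simp

variable [Laws F]

/-- factorisation over the orbits -/
theorem Fk.ip_prod (h : Fk r p) (T : Finset (I F)) {f g : I F → H ω}
    (hf : ∀ o ∈ T, f o ∈ Algebra.adjoin ℂ {x | ∃ m, 0 < m ∧ x = p o m})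
    (hg : ∀ o ∈ T, g o ∈ Algebra.adjoin ℂ {x | ∃ m, 0 < m ∧ x = p o m}) :
    GLn.ip (∏ o ∈ T, f o) (∏ o ∈ T, g o) = ∏ o ∈ T, GLn.ip (f o) (g o) := by
  refine ip_prod_prod_adjoin (fun o => {x | ∃ m, 0 < m ∧ x = p o m}) ?_ ?_ T hf hg
  · rintro o _ ⟨m, hm, rfl⟩; exact h.prim o m hm
  · rintro o o' ho _ ⟨m, hm, rfl⟩ _ ⟨m', hm', rfl⟩
    rw [h.ip o m o' m' hm hm', if_neg fun h => ho h.1]

theorem Fk.ip_S (h : Fk r p) (o : I F) (X Y : Bt N) :
    GLn.ip (S (p o) N X.1) (S (p o) N Y.1) = if X = Y then 1 else 0 := by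
  rw [ip_S_one (h.prim o) (h.ip_one o) X.mem_bs Y.mem_bs]
  exact if_congr Subtype.val_inj rfl rfl

theorem Fk.orth (h : Fk r p) (μ ν : MP F N) :
    GLn.ip (schur p μ) (schur p ν) = if μ = ν then 1 else 0 := by
  rw [schur_eq_prod p μ (subset_union_left (s₂ := ν.support)),
    schur_eq_prod p ν (subset_union_right (s₁ := μ.support)),
    h.ip_prod _ (fun o _ => S_mem_adjoin _ _) fun o _ => S_mem_adjoin _ _]
  simp only [h.ip_S, prod_boole]
  congr 1
  refine propext ⟨fun h => Finsupp.ext fun o => ?_, fun h => by simp [h]⟩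
  by_contra h0
  refine h0 (h o ?_)
  by_contra h1
  rw [mem_union, not_or, Finsupp.notMem_support_iff, Finsupp.notMem_support_iff] at h1
  exact h0 (h1.1.trans h1.2.symm)

theorem Fk.ip_S_prod_ex (h : Fk r p) (o : I F) (X : Bt N) (γ : Fin N → ℕ) :
    GLn.ip (S (p o) N X.1) (∏ i, ex (p o) (γ i)) = kos γ X.1 := by
  rw [prod_ex_eq, ip_sum_right, sum_eq_single X.1]
  · rw [← Int.cast_smul_eq_zsmul ℂ, ip_smul_right, h.ip_S, if_pos rfl]; simp
  · intro Y hY hne
    rw [← Int.cast_smul_eq_zsmul ℂ, ip_smul_right,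
      ip_S_one (h.prim o) (h.ip_one o) X.mem_bs hY, if_neg hne.symm, mul_zero]
  · intro hX
    rw [not_not.1 (mt kos_mem hX), zero_smul, ip_zero_right]

theorem Fk.cplM (hD : StDim F) (h : Fk r p) {n : ℕ} {a : H ω} (ha : IsHom (r * n) a) :
    a ∈ Submodule.span ℂ (pmon p '' PT (fun _ => True) n) := by
  have := (hD (fun _ => True) n).1.to_subtype
  have hli := (linearIndependent_multiset (a := fun x : I F × ℕ => p x.1 x.2) (s := {x | 0 < x.2})
    (fun x hx => h.prim _ _ hx) (fun x hx => h.ne_zero _ hx) fun x hx y hy e => by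
      rw [h.ip _ _ _ _ hx hy, if_neg fun h => e (Prod.ext h.1 h.2)]).comp
    (fun τ : PT (F := F) (fun _ => True) n => ⟨τ.1, fun x hx => (τ.2.1 x hx).2⟩)
    fun x y e => Subtype.ext (congrArg Subtype.val e :)
  rw [Set.image_eq_range]
  refine le_span_of_finrank_le (V := HS ω (fun _ => True) (r * n)) hli
    (fun τ => ⟨isHom_pmon h.hom τ.2, by simp⟩) ?_ ⟨ha, by simp⟩
  have := (hD (fun _ => True) (r * n)).2 ω
  rwa [h.ord, if_pos (dvd_mul_right r n), Nat.mul_div_cancel_left n h.pos] at this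

theorem Fk.cpl0 (hD : StDim F) (h : Fk r p) {n : ℕ} {a : H ω} (hn : ¬ r ∣ n) (ha : IsHom n a) :
    a = 0 := by
  have := (hD (fun _ => True) n).2 ω
  rw [h.ord, if_neg hn, Nat.le_zero, Submodule.finrank_eq_zero] at this
  exact (Submodule.eq_bot_iff _).1 this a ⟨ha, by simp⟩

theorem Fk.mem_span (hD : StDim F) (h : Fk r p) {n : ℕ} (hn : n ≤ N) {a : H ω}
    (ha : IsHom (r * n) a) : a ∈ Submodule.span ℂ (schur p '' {ν : MP F N | deg ν = n}) := by
  refine Submodule.span_le.2 ?_ (h.cplM hD ha)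
  rintro _ ⟨τ, hτ, rfl⟩
  exact Submodule.span_mono (Set.image_mono fun ν hν => hν.2) (pmon_mem_span p hn hτ)

theorem Fk.cplP (hD : StDim F) (h : Fk r p) {a : H ω} (ha : Prim a)
    (h0 : ∀ o m, 0 < m → GLn.ip a (p o m) = 0) : a = 0 := by
  ext ⟨n, g⟩
  rw [← cp_apply]
  by_cases hn : r ∣ n
  · obtain ⟨n, rfl⟩ := hn
    rw [eq_zero_of_mem_span (h.cplM hD (isHom_cp a)) ?_]
    rintro _ ⟨τ, hτ, rfl⟩
    rw [(isHom_pmon h.hom hτ).ip_eq]
    simp only [cp_apply]
    rw [← (isHom_pmon h.hom hτ).ip_eq]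
    induction τ using Multiset.induction_on with
    | empty => exact ha.one_ip
    | cons x τ _ =>
      have hx := (hτ.1 x (Multiset.mem_cons_self _ _)).2
      rw [pmon, Multiset.map_cons, Multiset.prod_cons, ha.ip_mul, ip_cj a, h0 _ _ hx,
        (h.prim _ _ hx).ip_one]
      simp
  · rw [h.cpl0 hD hn (isHom_cp a)]

/-- the stretched family -/
noncomputable def stre (r : ℕ) (p : I F → ℕ → H ω) (o : I F) (k : ℕ) : H ω :=
  if r * o.per ∣ k then ((r * o.per : ℕ) : ℂ) • p o (k / (r * o.per)) else 0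

theorem Fk.ex_stre (h : Fk r p) (o : I F) (k : ℕ) :
    ex (stre r p o) k = if r * o.per ∣ k then ex (p o) (k / (r * o.per)) else 0 := by
  have hd := mul_pos h.pos (per_pos o)
  rw [ex_stretch (p := stre r p o) hd fun k hk => if_neg hk, ex_congr (q := p o) fun k _ => ?_]
  rw [stre, if_pos (dvd_mul_right _ _), Nat.mul_div_cancel_left _ hd, smul_smul,
    inv_mul_cancel₀ (Nat.cast_ne_zero.2 hd.ne'), one_smul]

theorem Fk.lg_Gam (hD : StDim F) (h : Fk r p) {T : Finset (I F)} {k : ℕ} (hk : 0 < k)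
    (hT : ∀ o : I F, r * o.per ≤ k → o ∈ T) : lg (Gam ω) k = ∑ o ∈ T, stre r p o k := by
  have hp : ∀ o : I F, r * o.per ∣ k → 0 < k / (r * o.per) := fun o ho =>
    Nat.div_pos (Nat.le_of_dvd hk ho) (mul_pos h.pos (per_pos o))
  refine sub_eq_zero.1 (h.cplP hD ?_ fun o m hm => ?_)
  · rw [sub_eq_add_neg, ← neg_one_smul ℂ (∑ o ∈ T, _)]
    refine ((grpLike_Gam ω).prim_lg k).add ((Prim.sum fun o _ => ?_).smul _)
    rw [stre]
    split_ifs with ho
    · exact (h.prim _ _ (hp o ho)).smul _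
    · exact prim_zero
  · rw [ip_sub_left, ip_cj (p o m), (h.prim o m hm).ip_lg (grpLike_Gam ω), ip_sum_left,
      sum_eq_single o]
    · rw [stre]
      by_cases e : k = r * (o.per * m)
      · have hd := mul_pos h.pos (per_pos o)
        subst e
        rw [h.gam o m hm, if_pos ⟨m, (mul_assoc _ _ _).symm⟩, ip_smul_left, ← mul_assoc r,
          Nat.mul_div_cancel_left _ hd, h.ip_one o m m hm hm, if_pos rfl]
        simp
      · rw [(h.hom o m hm).ip_eq_zero (Gam_isHom ω k) (Ne.symm e)]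
        split_ifs with ho
        · rw [ip_smul_left, h.ip_one o _ m (hp o ho) hm, if_neg]
          · simp
          · rintro rfl
            exact e (by rw [← mul_assoc, Nat.mul_div_cancel' ho])
        · simp [ip_zero_left]
    · intro o' _ e
      rw [stre]
      split_ifs with ho
      · rw [ip_smul_left, h.ip _ _ _ _ (hp o' ho) hm, if_neg fun h => e h.1, mul_zero]
      · exact ip_zero_left _
    · intro ho
      rw [stre, if_neg fun hd => ho (hT o (Nat.le_of_dvd hk hd)), ip_zero_left]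

theorem Fk.gam_eq (hD : StDim F) (h : Fk r p) (n : ℕ) :
    ∃ s : Finset (I F →₀ ℕ), (∀ l, l ∈ s ↔ (l.sum fun o m => o.per * m) = n) ∧
      Gam ω (r * n) = ∑ l ∈ s, l.prod fun o m => ex (p o) m := by
  classical
  set T := (finite_per_le (F := F) n).toFinset
  have hT : ∀ o : I F, o ∈ T ↔ o.per ≤ n := fun o => by simp [T]
  have hd := fun o : I F => mul_pos h.pos (per_pos o)
  let j : (I F →₀ ℕ) → (I F →₀ ℕ) := fun l => Finsupp.onFinset l.support
    (fun o => l o / (r * o.per)) fun o ho => Finsupp.mem_support_iff.2 fun h0 => ho (by simp [h0])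
  have hj : ∀ l o, j l o = l o / (r * o.per) := fun _ _ => rfl
  set s := {l ∈ finsuppAntidiag T (r * n) | ∀ o ∈ T, r * o.per ∣ l o}
  have hs : ∀ l ∈ s, l.support ⊆ T ∧ ∑ o ∈ T, l o = r * n ∧ ∀ o, l o = r * o.per * j l o := by
    intro l hl
    obtain ⟨h1, h2⟩ := mem_filter.1 hl
    obtain ⟨h3, h4⟩ := mem_finsuppAntidiag.1 h1
    refine ⟨h4, h3, fun o => ?_⟩
    by_cases ho : o ∈ T
    · rw [hj, Nat.mul_div_cancel' (h2 o ho)]
    · simp [hj, Finsupp.notMem_support_iff.1 fun h => ho (h4 h)]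
  refine ⟨s.image j, fun l => ⟨?_, fun hl => ?_⟩, ?_⟩
  · intro hl'
    obtain ⟨l, hl, rfl⟩ := mem_image.1 hl'
    obtain ⟨h1, h2, h3⟩ := hs l hl
    rw [Finsupp.sum_of_support_subset _ (Finsupp.support_onFinset_subset.trans h1) _ (by simp)]
    refine Nat.eq_of_mul_eq_mul_left h.pos ?_
    rw [← h2, mul_sum]
    exact sum_congr rfl fun o _ => by rw [h3 o, mul_assoc]
  · have h1 : l.support ⊆ T := fun o ho => (hT o).2 <| by
      refine (Nat.le_mul_of_pos_right _ (Nat.pos_of_ne_zero (Finsupp.mem_support_iff.1 ho))).trans ?_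
      exact hl ▸ single_le_sum (f := fun o => o.per * l o) (fun _ _ => Nat.zero_le _) ho
    let l' : I F →₀ ℕ := Finsupp.onFinset l.support (fun o => r * o.per * l o)
      fun o ho => Finsupp.mem_support_iff.2 (right_ne_zero_of_mul ho)
    refine mem_image.2 ⟨l', mem_filter.2 ⟨mem_finsuppAntidiag.2
      ⟨?_, Finsupp.support_onFinset_subset.trans h1⟩, fun o _ => dvd_mul_right _ _⟩, ?_⟩
    · rw [← hl, Finsupp.sum_of_support_subset _ h1 _ (by simp), mul_sum]
      exact sum_congr rfl fun o _ => mul_assoc _ _ _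
    · ext o
      exact Nat.mul_div_cancel_left _ (hd o)
  · rw [sum_image fun l hl l' hl' e => Finsupp.ext fun o => by
      rw [(hs l hl).2.2 o, (hs l' hl').2.2 o, e], sum_filter]
    rw [← congrFun (ex_lg (Gam_zero ω)) (r * n), ex_congr_le (q := ∑ o ∈ T, stre r p o)
      (fun k hk hk' => ?_) _ le_rfl, ex_sum]
    · refine sum_congr rfl fun l hl => ?_
      simp only [h.ex_stre, prod_ite_zero]
      split_ifs
      · rw [Finsupp.prod_of_support_subset _ (Finsupp.support_onFinset_subset.trans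
          (mem_finsuppAntidiag.1 hl).2) _ fun _ _ => ex_zero _]
        rfl
      · rfl
    · rw [Finset.sum_apply]
      exact h.lg_Gam hD hk fun o ho => (hT o).2 (Nat.le_of_mul_le_mul_left (ho.trans hk') h.pos)

theorem Fk.ip_gamA (hD : StDim F) (h : Fk r p) (ν : MP F N) :
    GLn.ip (schur p ν) (GamA ω fun i => r * alpha ν i) = 1 := by
  classical
  choose s hs he using h.gam_eq hD
  let L : Fin N → I F →₀ ℕ := fun i => Finsupp.onFinset ν.support (fun o => par N (ν o).1 i)
    fun o ho => Finsupp.mem_support_iff.2 fun h0 => ho (by rw [h0, Bt.zero_val, par_range]; rfl)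
  have key : ∀ (l : Fin N → I F →₀ ℕ) (T : Finset (I F)), ν.support ⊆ T →
      (∀ i, (l i).support ⊆ T) → GLn.ip (schur p ν) (∏ i, (l i).prod fun o m => ex (p o) m) =
        ∏ o ∈ T, (kos (fun i => l i o) (ν o).1 : ℂ) := by
    intro l T h1 h2
    rw [prod_congr rfl fun i _ => Finsupp.prod_of_support_subset _ (h2 i) _ fun _ _ => ex_zero _,
      prod_comm, schur_eq_prod p ν h1, h.ip_prod _ (fun o _ => S_mem_adjoin _ _)
        fun o _ => Subalgebra.prod_mem _ fun _ _ => ex_mem_adjoin _ _]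
    exact prod_congr rfl fun o _ => h.ip_S_prod_ex o _ _
  simp only [GamA, he]
  rw [prod_univ_sum, ip_sum_right, sum_eq_single L]
  · rw [key L _ subset_rfl fun _ => Finsupp.support_onFinset_subset]
    exact prod_eq_one fun o _ => by rw [show (fun i => L i o) = par N (ν o).1 from rfl,
      kos_par (ν o).2, Int.cast_one]
  · intro l hl hne
    set T := ν.support ∪ univ.biUnion fun i => (l i).support
    have h2 : ∀ i, (l i).support ⊆ T := fun i =>
      (subset_biUnion_of_mem (fun i => (l i).support) (mem_univ i)).trans subset_union_right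
    rw [key l T subset_union_left h2]
    by_contra h0
    have h3 : ∀ o ∈ T, kos (fun i => l i o) (ν o).1 ≠ 0 := fun o ho e =>
      h0 (prod_eq_zero ho (by rw [e, Int.cast_zero]))
    have h4 : ∑ o ∈ T, o.per * wt (fun i => l i o) = ∑ o ∈ T, o.per * wt (par N (ν o).1) := by
      simp only [wt, mul_sum]
      rw [sum_comm, sum_comm (s := T)]
      refine sum_congr rfl fun i _ => ?_
      have := (hs _ _).1 (Fintype.mem_piFinset.1 hl i)
      rw [Finsupp.sum_of_support_subset _ (h2 i) _ (by simp),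
        alpha_eq_sum ν (T := T) subset_union_left] at this
      simp only [mul_left_comm _ (i : ℕ), ← mul_sum, this]
    rw [sum_eq_sum_iff_of_le fun o ho => Nat.mul_le_mul_left _ (kos_le (h3 o ho))] at h4
    refine hne (funext fun i => Finsupp.ext fun o => ?_)
    by_cases ho : o ∈ T
    · exact congrFun (kos_eq (h3 o ho) (Nat.eq_of_mul_eq_mul_left (per_pos o) (h4 o ho))) i
    · rw [Finsupp.notMem_support_iff.1 fun h => ho (h2 i h), Finsupp.notMem_support_iff.1
        fun h => ho (subset_union_left (Finsupp.support_onFinset_subset h))]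
  · intro hL
    refine absurd (Fintype.mem_piFinset.2 fun i => (hs _ _).2 ?_) hL
    rw [Finsupp.sum_of_support_subset _ Finsupp.support_onFinset_subset _ (by simp)]
    rfl

theorem stSch (hD : StDim F) : StSch F := fun _ _ p h =>
  { hom := isHom_schur h.hom
    orth := h.orth
    gamA := h.ip_gamA hD
    fin := finite_deg
    cpl := fun _ _ a hn ha h0 => eq_zero_of_mem_span (h.mem_span hD hn ha) (by
      rintro _ ⟨ν, hν, rfl⟩
      rw [ip_cj, h0 ν hν, map_zero])
    cpl0 := fun _ _ => h.cpl0 hD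
    cplP := fun _ => h.cplP hD
    gam := h.gam_eq hD }

end Cfsg.GLn
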