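import Cfsg.Agent.GLn.Defs2
import Cfsg.Agent.GLn.Fock
import Cfsg.Agent.GLn.Sym
import Cfsg.Agent.GLn.ArC

/-! Products of Schur functions in several families: basic facts. -/

set_option autoImplicit false

namespace Cfsg.GLn

open ComplexConjugate Finset SymCh

universe u

section alg
variable {N : ℕ}

theorem Bt.mem_bs (X : Bt N) : X.1 ∈ bs N (sz N X.1) := mem_bs_sz X.2

theorem eq_range_of_sz {X : Finset ℕ} (h : #X = N) (h0 : sz N X = 0) : X = range N := by
  have := range_subset_of_mem_bs (mem_bs_sz h)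
  rw [h0, Nat.sub_zero] at this
  exact (eq_of_subset_of_card_le this (by simp [h])).symm

theorem Bt.sz_eq_zero {X : Bt N} : sz N X.1 = 0 ↔ X = 0 :=
  ⟨fun h => Subtype.ext (eq_range_of_sz X.2 h), fun h => h ▸ sz_range N⟩

theorem par_range : par N (range N) = 0 := by
  have := sum_par (card_range N)
  rw [sz_range, sum_eq_zero_iff] at this
  exact funext fun i => this i (mem_univ i)

theorem bs_zero : bs N 0 = {range N} := by
  ext X
  rw [mem_singleton]
  refine ⟨fun h => eq_range_of_sz (mem_bs.1 h).1 (sz_of_mem h), ?_⟩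
  rintro rfl
  simpa [sz_range] using mem_bs_sz (card_range N)

variable {A : Type*} [CommRing A] [Algebra ℂ A]

theorem S_range (p : ℕ → A) : S p N (range N) = 1 := by
  have := prod_ex_eq p (0 : Fin N → ℕ)
  simp only [Pi.zero_apply, ex_zero, prod_const_one, sum_const_zero, bs_zero, sum_singleton] at this
  rw [← par_range, kos_par (card_range N), one_smul] at this
  exact this.symm

theorem pm_mem_adjoin (p : ℕ → A) {ρ : Multiset ℕ} (h : ∀ k ∈ ρ, 0 < k) :
    pm p ρ ∈ Algebra.adjoin ℂ {x | ∃ m, 0 < m ∧ x = p m} :=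
  Subalgebra.multiset_prod_mem _ fun x hx => by
    obtain ⟨k, hk, rfl⟩ := Multiset.mem_map.1 hx
    exact Algebra.subset_adjoin ⟨k, h k hk, rfl⟩

theorem chm_mem_adjoin (p : ℕ → A) (m : ℕ) (f : Multiset ℕ → ℚ) :
    chm p m f ∈ Algebra.adjoin ℂ {x | ∃ m, 0 < m ∧ x = p m} :=
  Subalgebra.sum_mem _ fun _ hρ => Subalgebra.smul_mem _ (pm_mem_adjoin p (mem_ptn.1 hρ).2) _

theorem S_mem_adjoin (p : ℕ → A) (X : Finset ℕ) :
    S p N X ∈ Algebra.adjoin ℂ {x | ∃ m, 0 < m ∧ x = p m} := chm_mem_adjoin p _ _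

theorem ex_mem_adjoin (p : ℕ → A) (m : ℕ) :
    ex p m ∈ Algebra.adjoin ℂ {x | ∃ m, 0 < m ∧ x = p m} := by
  rw [ex_eq_chm]; exact chm_mem_adjoin p _ _

variable {F : Type u} [Field F] [Fintype F]

theorem schur_eq_prod (p : I F → ℕ → A) (μ : MP F N) {T : Finset (I F)} (h : μ.support ⊆ T) :
    schur p μ = ∏ o ∈ T, S (p o) N (μ o).1 :=
  Finsupp.prod_of_support_subset μ h _ fun o _ => S_range (p o)

theorem alpha_eq_sum (μ : MP F N) {T : Finset (I F)} (h : μ.support ⊆ T) (i : Fin N) :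
    alpha μ i = ∑ o ∈ T, o.per * par N (μ o).1 i :=
  Finsupp.sum_of_support_subset μ h _ fun o _ => by
    rw [Bt.zero_val, par_range, Pi.zero_apply, mul_zero]

theorem schur_zero (p : I F → ℕ → A) : schur p (0 : MP F N) = 1 := by simp [schur]

theorem schur_single (p : I F → ℕ → A) (o : I F) (X : Bt N) :
    schur p (Finsupp.single o X) = S (p o) N X.1 := by
  rw [schur_eq_prod p _ Finsupp.support_single_subset, prod_singleton, Finsupp.single_eq_same]

theorem schur_update (p : I F → ℕ → A) (μ : MP F N) (o : I F) (X : Bt N) :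
    schur p (μ.update o X) = S (p o) N X.1 * schur p (μ.erase o) := by
  rw [schur_eq_prod p _ (Finsupp.support_update_subset μ o (b := X)),
    schur_eq_prod p (μ.erase o) (T := μ.support.erase o) (by rw [Finsupp.support_erase]),
    ← mul_prod_erase _ _ (mem_insert_self o μ.support), erase_insert_eq_erase]
  congr 1
  · simp
  · refine prod_congr rfl fun x hx => ?_
    rw [Finsupp.update_apply, if_neg (ne_of_mem_erase hx), Finsupp.erase_ne (ne_of_mem_erase hx)]

theorem schur_eq_mul_erase (p : I F → ℕ → A) (μ : MP F N) (o : I F) :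
    schur p μ = S (p o) N (μ o).1 * schur p (μ.erase o) := by
  rw [← schur_update, Finsupp.update_self]

theorem per_mul_sz_le (μ : MP F N) (o : I F) : o.per * sz N (μ o).1 ≤ deg μ := by
  rw [deg_eq_sum μ (subset_insert o _)]
  exact single_le_sum (f := fun o => o.per * sz N (μ o).1) (fun _ _ => Nat.zero_le _)
    (mem_insert_self _ _)

theorem finite_deg (N n : ℕ) : {ν : MP F N | deg ν = n}.Finite := by
  have h1 : {X : Bt N | sz N X.1 ≤ n}.Finite := by
    refine Set.Finite.of_finite_image (f := Subtype.val) ?_ Subtype.val_injective.injOn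
    refine ((range (n + 1)).biUnion (bs N)).finite_toSet.subset ?_
    rintro _ ⟨X, hX, rfl⟩
    exact mem_coe.2 (mem_biUnion.2 ⟨_, mem_range.2 (Nat.lt_succ_of_le hX), X.mem_bs⟩)
  refine Set.Finite.of_finite_image (f := fun ν (o : (finite_per_le (F := F) n).toFinset) => ν o)
    ((Set.Finite.pi' fun _ => h1).subset ?_) ?_
  · rintro _ ⟨ν, hν, rfl⟩ o
    exact (sz_le_deg ν o).trans hν.le
  · intro μ hμ ν hν h
    have key : ∀ ν : MP F N, deg ν = n → ∀ o : I F, n < o.per → ν o = 0 := fun ν hν o ho => by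
      by_contra h0
      have := per_mul_sz_le ν o
      have h2 := Nat.pos_of_ne_zero (mt Bt.sz_eq_zero.1 h0)
      nlinarith
    ext1 o
    rcases le_or_gt o.per n with ho | ho
    · exact congrFun h ⟨o, by simpa using ho⟩
    · rw [key μ hμ o ho, key ν hν o ho]

/-- products of homogeneous symmetric functions are combinations of the `schur p ν` -/
theorem prod_mem_span (p : I F → ℕ → A) (m : I F → ℕ) (T : Finset (I F)) (y : I F → A)
    (hy : ∀ o ∈ T, y o ∈ Submodule.span ℂ (S (p o) N '' bs N (m o))) :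
    ∏ o ∈ T, y o ∈ Submodule.span ℂ
      (schur p '' {ν : MP F N | ν.support ⊆ T ∧ ∀ o ∈ T, sz N (ν o).1 = m o}) := by
  induction T using Finset.induction_on with
  | empty => exact Submodule.subset_span ⟨0, by simp, by simp [schur_zero]⟩
  | insert o T ho ih =>
    rw [prod_insert ho]
    have := Submodule.mul_mem_mul (hy o (mem_insert_self _ _))
      (ih fun x hx => hy x (mem_insert_of_mem hx))
    rw [Submodule.span_mul_span] at this
    refine Submodule.span_mono ?_ this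
    rintro _ ⟨_, ⟨X, hX, rfl⟩, _, ⟨ν, ⟨h1, h2⟩, rfl⟩, rfl⟩
    obtain ⟨X, rfl⟩ : ∃ Y : Bt N, Y.1 = X := ⟨⟨X, (mem_bs.1 hX).1⟩, rfl⟩
    refine ⟨ν.update o X, ⟨(Finsupp.support_update_subset ν o).trans
      (insert_subset_insert _ h1), fun x hx => ?_⟩, ?_⟩
    · rw [Finsupp.update_apply]
      split_ifs with h
      · exact h ▸ sz_of_mem hX
      · exact h2 x ((mem_insert.1 hx).resolve_left h)
    · rw [schur_update, Finsupp.erase_of_notMem_support fun h => ho (h1 h)]

/-- the partition of `τ` at `o` -/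
noncomputable def atO (τ : Multiset (I F × ℕ)) (o : I F) : Multiset ℕ :=
  (τ.filter fun x => x.1 = o).map Prod.snd

theorem prod_map_eq_prod_atO {M : Type*} [CommMonoid M] (f : I F → ℕ → M) (τ : Multiset (I F × ℕ))
    {T : Finset (I F)} (h : ∀ x ∈ τ, x.1 ∈ T) :
    (τ.map fun x => f x.1 x.2).prod = ∏ o ∈ T, ((atO τ o).map (f o)).prod := by
  induction τ using Multiset.induction_on with
  | empty => simp [atO]
  | cons x τ ih =>
    rw [Multiset.map_cons, Multiset.prod_cons, ih fun y hy => h y (Multiset.mem_cons_of_mem hy),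
      ← prod_ite_eq_of_mem T x.1 (fun o => f o x.2) (h x (Multiset.mem_cons_self _ _)),
      ← prod_mul_distrib]
    refine prod_congr rfl fun o _ => ?_
    rw [atO, atO, Multiset.filter_cons]
    split_ifs <;> simp

omit [Algebra ℂ A] in
theorem pmon_eq_prod (p : I F → ℕ → A) (τ : Multiset (I F × ℕ)) {T : Finset (I F)}
    (h : ∀ x ∈ τ, x.1 ∈ T) : pmon p τ = ∏ o ∈ T, pm (p o) (atO τ o) :=
  prod_map_eq_prod_atO p τ h

theorem sum_map_eq_sum_atO (τ : Multiset (I F × ℕ)) {T : Finset (I F)} (h : ∀ x ∈ τ, x.1 ∈ T) :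
    (τ.map fun x => x.1.per * x.2).sum = ∑ o ∈ T, o.per * (atO τ o).sum := by
  have := prod_map_eq_prod_atO (M := Multiplicative ℕ)
    (fun o m => Multiplicative.ofAdd (o.per * m)) τ h
  refine Eq.trans this (sum_congr rfl fun o _ => ?_)
  have := Multiset.sum_map_mul_left (s := atO τ o) (a := o.per) (f := id)
  rw [Multiset.map_id] at this
  exact this

theorem pmon_mem_span (p : I F → ℕ → A) {R : I F → Prop} {n : ℕ} (hn : n ≤ N)
    {τ : Multiset (I F × ℕ)} (h : τ ∈ PT R n) : pmon p τ ∈ Submodule.span ℂ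
      (schur p '' {ν : MP F N | (∀ o ∈ ν.support, R o) ∧ deg ν = n}) := by
  have hT : ∀ x ∈ τ, x.1 ∈ (τ.map Prod.fst).toFinset := fun x hx =>
    Multiset.mem_toFinset.2 (Multiset.mem_map_of_mem _ hx)
  have hs := (sum_map_eq_sum_atO τ hT).symm.trans h.2
  rw [pmon_eq_prod p τ hT]
  refine Submodule.span_mono (Set.image_mono ?_)
    (prod_mem_span p (fun o => (atO τ o).sum) _ _ fun o ho => ?_)
  · rintro ν ⟨h1, h2⟩
    refine ⟨fun o ho => ?_, ?_⟩
    · obtain ⟨x, hx, rfl⟩ := Multiset.mem_map.1 (Multiset.mem_toFinset.1 (h1 ho))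
      exact (h.1 x hx).1
    · rw [deg_eq_sum ν h1, ← hs]
      exact sum_congr rfl fun o ho => by rw [h2 o ho]
  · have hle : (atO τ o).sum ≤ N := by
      refine (Nat.le_mul_of_pos_left _ (per_pos o)).trans (le_trans ?_ (hs.le.trans hn))
      exact single_le_sum (f := fun o => o.per * (atO τ o).sum) (fun _ _ => Nat.zero_le _) ho
    rw [pm_eq_sum_S (p o) hle (mem_ptn.2 ⟨rfl, fun k hk => ?_⟩)]
    · exact Submodule.sum_mem _ fun X hX =>
        Submodule.smul_mem _ _ (Submodule.subset_span ⟨X, hX, rfl⟩)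
    · obtain ⟨x, hx, rfl⟩ := Multiset.mem_map.1 hk
      exact (h.1 x (Multiset.mem_of_mem_filter hx)).2

end alg

theorem le_span_of_finrank_le {E ι : Type*} [AddCommGroup E] [Module ℂ E] [Finite ι]
    {V : Submodule ℂ E} [FiniteDimensional ℂ V] {v : ι → E} (hv : LinearIndependent ℂ v)
    (hm : ∀ i, v i ∈ V) (hc : Module.finrank ℂ V ≤ Nat.card ι) :
    V ≤ Submodule.span ℂ (Set.range v) := by
  have := Fintype.ofFinite ι
  refine (Submodule.eq_of_le_of_finrank_le (Submodule.span_le.2 ?_) ?_).ge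
  · rintro _ ⟨i, rfl⟩; exact hm i
  · rwa [finrank_span_eq_card hv, ← Nat.card_eq_fintype_card]

variable {F : Type u} [Field F] [Fintype F] [DecidableEq F] {ω : Fˣ →* ℂˣ} {N : ℕ}

theorem eq_zero_of_mem_span {a : H ω} {s : Set (H ω)} (h : a ∈ Submodule.span ℂ s)
    (h0 : ∀ x ∈ s, ip x a = 0) : a = 0 :=
  eq_zero_of_ip_self ((ipL_apply a a).symm.trans ((Submodule.span_le
    (p := LinearMap.ker (ipL a))).2 (fun x hx => (ipL_apply x a).trans (h0 x hx)) h))

theorem HS_le_Hn (R : I F → Prop) (n : ℕ) : HS ω R n ≤ Hn ω n := fun _ h => h.1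

instance (R : I F → Prop) (n : ℕ) : FiniteDimensional ℂ (HS ω R n) :=
  Submodule.finiteDimensional_of_le (HS_le_Hn R n)

variable [Laws F]

theorem IsHom.prod {ι : Type*} {s : Finset ι} {a : ι → H ω} {n : ι → ℕ}
    (h : ∀ i ∈ s, IsHom (n i) (a i)) : IsHom (∑ i ∈ s, n i) (∏ i ∈ s, a i) := by
  classical
  induction s using Finset.induction_on with
  | empty => exact isHom_one
  | insert i s hi ih =>
    rw [sum_insert hi, prod_insert hi]
    exact (h i (mem_insert_self _ _)).mul (ih fun j hj => h j (mem_insert_of_mem hj))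

theorem IsHom.multiset_prod {ι : Type*} {s : Multiset ι} {a : ι → H ω} {n : ι → ℕ}
    (h : ∀ i ∈ s, IsHom (n i) (a i)) : IsHom (s.map n).sum (s.map a).prod := by
  induction s using Multiset.induction_on with
  | empty => exact isHom_one
  | cons i s ih =>
    simp only [Multiset.map_cons, Multiset.sum_cons, Multiset.prod_cons]
    exact (h i (Multiset.mem_cons_self _ _)).mul (ih fun j hj => h j (Multiset.mem_cons_of_mem hj))

theorem isHom_pm {δ : ℕ} {p : ℕ → H ω} (h : ∀ m, 0 < m → IsHom (δ * m) (p m)) {ρ : Multiset ℕ}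
    (hρ : ∀ k ∈ ρ, 0 < k) : IsHom (δ * ρ.sum) (pm p ρ) := by
  have := IsHom.multiset_prod (s := ρ) fun k hk => h k (hρ k hk)
  rwa [Multiset.sum_map_mul_left, Multiset.map_id'] at this

theorem isHom_chm {δ : ℕ} {p : ℕ → H ω} (h : ∀ m, 0 < m → IsHom (δ * m) (p m)) (m : ℕ)
    (f : Multiset ℕ → ℚ) : IsHom (δ * m) (chm p m f) :=
  IsHom.sum fun _ hρ => ((mem_ptn.1 hρ).1 ▸ isHom_pm h (mem_ptn.1 hρ).2).smul _

theorem isHom_S {δ : ℕ} {p : ℕ → H ω} (h : ∀ m, 0 < m → IsHom (δ * m) (p m)) (X : Finset ℕ) :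
    IsHom (δ * sz N X) (S p N X) := isHom_chm h _ _

theorem isHom_ex {δ : ℕ} {p : ℕ → H ω} (h : ∀ m, 0 < m → IsHom (δ * m) (p m)) (m : ℕ) :
    IsHom (δ * m) (ex p m) := by
  rw [ex_eq_chm]; exact isHom_chm h _ _

theorem isHom_schur {r : ℕ} {p : I F → ℕ → H ω}
    (h : ∀ o m, 0 < m → IsHom (r * (o.per * m)) (p o m)) (ν : MP F N) :
    IsHom (r * deg ν) (schur p ν) := by
  rw [deg, Finsupp.sum, mul_sum]
  refine IsHom.prod fun o _ => ?_
  rw [← mul_assoc]
  exact isHom_S (fun m hm => mul_assoc r o.per m ▸ h o m hm) _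

theorem isHom_pmon {r : ℕ} {p : I F → ℕ → H ω}
    (h : ∀ o m, 0 < m → IsHom (r * (o.per * m)) (p o m)) {R : I F → Prop} {n : ℕ}
    {τ : Multiset (I F × ℕ)} (hτ : τ ∈ PT R n) : IsHom (r * n) (pmon p τ) := by
  rw [← hτ.2, ← Multiset.sum_map_mul_left]
  exact IsHom.multiset_prod fun x hx => h _ _ (hτ.1 x hx).2

end Cfsg.GLn
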