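import Cfsg.Agent.GLn.Sch
import Cfsg.Agent.GLn.Dim
import Cfsg.Agent.GLn.PwB
import Cfsg.Agent.GLn.Irr
import Cfsg.Agent.GLn.Int
import Cfsg.Agent.GLn.Core
import Cfsg.Agent.GLn.ClifC

/-! The Clifford set-up for `GL_n`, and the piece `H4`. -/

set_option autoImplicit false

namespace Cfsg.GLn

open ComplexConjugate Finset

universe u

variable {F : Type u} [Field F] [Fintype F] [DecidableEq F] {N n : ℕ}

variable (F) in
/-- the identification of `Fˣ` with its dual -/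
noncomputable def chrE : Fˣ ≃* (Fˣ →* ℂˣ) := MulEquiv.ofBijective (chrH F) chr_bijective

omit [DecidableEq F] in
theorem chrE_apply (lam : Fˣ) : chrE F lam = chr lam := rfl

noncomputable instance fintypeDual : Fintype (Fˣ →* ℂˣ) := Fintype.ofFinite _

variable [Laws F]

theorem schP : Sch F 1 (pp (F := F)) := stSch (stDim F) _ _ _ (stP F).fk

theorem irrF : StIrr F := stIrr (stP F) (stSch (stDim F)) (stInt F)

theorem isHom_chi (μ : MP F N) : IsHom (deg μ) (chi μ) := one_mul (deg μ) ▸ schP.hom μ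

theorem isHom_GamA (ω : Fˣ →* ℂˣ) (α : Fin N → ℕ) : IsHom (∑ i, α i) (GamA ω α) :=
  IsHom.prod fun _ _ => Gam_isHom ω _

theorem isHom_sG (lam : Fˣ) (μ : MP F N) : IsHom (deg μ) (sG lam μ) := isHom_mk _

theorem AA_eq {ℓ : ℕ} (hl : ℓ.Prime) (hℓ : ℓ ≠ ringChar F) {ω : Fˣ →* ℂˣ} {a : H ω}
    (ha : IsHom n a) (b : H ω) :
    ip (dd ℓ a) b = classInner (pRegularPart ℓ (cm a n)) (cm b n) := by
  rw [(ha.dd ℓ).ip_eq, ← cm_dd hl hℓ]

/-- the Clifford set-up -/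
noncomputable def ab {ℓ : ℕ} [hl : Fact ℓ.Prime] (hℓ : ℓ ≠ ringChar F) (hn : 0 < n) (hN : n ≤ N) :
    Ab ℓ (G F n) Fˣ {μ : MP F N // deg μ = n} (I F → ℕ × (ℕ → ℕ)) where
  δ := dt
  onto := have : Nonempty (Fin n) := ⟨⟨0, hn⟩⟩; Matrix.GeneralLinearGroup.det_surjective
  χ μ := ⟨cm (chi μ.1) n, irrF.irr μ.1 μ.2⟩
  bij := by
    refine ⟨fun μ ν h => Subtype.ext ?_, fun χ => ?_⟩
    · by_contra h0
      have h1 := schP.orth μ.1 ν.1
      have h2 := schP.orth μ.1 μ.1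
      have h3 : cm (chi μ.1) n = cm (chi ν.1) n := congrArg Subtype.val h
      rw [if_neg h0] at h1
      rw [if_pos rfl] at h2
      have h4 := (μ.2 ▸ isHom_chi μ.1).ip_eq
      exact zero_ne_one (h1.symm.trans (((h4 _).trans
        ((congrArg (classInner _) h3.symm).trans (h4 _).symm)).trans h2))
    · obtain ⟨μ, h1, h2⟩ := irrF.surj hN χ
      exact ⟨⟨μ, h1⟩, Subtype.ext h2⟩
  act ω μ := ⟨act ((chrE F).symm ω) μ.1, (deg_act _ _).trans μ.2⟩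
  χ_act ω μ g := by
    change chi (act _ μ.1) ⟨n, g⟩ = _
    rw [← irrF.tens, tens_apply, ← chrE_apply, MulEquiv.apply_symm_apply]
  cd μ := cd ℓ μ.1
  cd_orth μ ν h := by
    have := stCore hℓ (stP F) N μ.1 ν.1 (μ.2.trans_le hN) (ν.2.trans_le hN) h
    rwa [AA, AA_eq hl.out hℓ (μ.2 ▸ isHom_chi μ.1)] at this
  cd_act ω μ ν h := cd_act_congr _ h
  γ ω μ := cm (GamA ω (alpha μ.1)) n
  eqv ω μ g z := H.conj _ g z
  γ_act ω ω₂ μ := by rw [alpha_act]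
  sum_γ μ := by
    obtain ⟨θ, h1, h2⟩ := (stGG (F := F) N (alpha μ.1) n ((sum_alpha _).trans μ.2)).2
    exact ⟨θ, h1, fun g => (finsum_eq_sum_of_fintype _).symm.trans (h2 g)⟩
  ip_γ μ := by
    have := schP.gamA μ.1
    simp only [one_mul] at this
    exact ((μ.2 ▸ isHom_chi μ.1).ip_eq _).symm.trans this

theorem ab_s {ℓ : ℕ} [Fact ℓ.Prime] (hℓ : ℓ ≠ ringChar F)
    (hn : 0 < n) (hN : n ≤ N) (lam : Fˣ) (μ : {μ : MP F N // deg μ = n}) :
    (ab hℓ hn hN).s (chr lam) μ = cm (sG lam μ.1) n := by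
  obtain ⟨μ, rfl⟩ := μ
  exact (cm_pj _ _).symm

theorem stH4 {ℓ : ℕ} [hl : Fact ℓ.Prime] (hℓ : ℓ ≠ ringChar F) : StH4 F ℓ := by
  intro lam N μ ν hμ hν h
  by_cases e : deg μ = deg ν
  · rcases Nat.eq_zero_or_pos (deg μ) with h0 | h0
    · exact absurd (by rw [deg_eq_zero_iff.1 h0, deg_eq_zero_iff.1 (e.symm.trans h0)]) h
    obtain ⟨M, hM⟩ := exists_isPModular hl.out
    have := (ab hℓ h0 hμ).classInner_pRegularPart_s hM (chr lam) (μ := ⟨μ, rfl⟩)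
      (ν := ⟨ν, e.symm⟩) h
    rwa [ab_s, ab_s, ← AA_eq hl.out hℓ (isHom_sG lam μ)] at this
  · exact ((isHom_sG lam μ).dd ℓ).ip_eq_zero (isHom_sG lam ν) e

end Cfsg.GLn
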