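import Cfsg.Agent.GLn.SymA

/-! Symmetric functions of one family: Jacobi-Trudi. -/

set_option autoImplicit false

namespace Cfsg.GLn

open Finset SymCh Equiv

variable {A : Type*} [CommRing A] [Algebra ℂ A] {N : ℕ}

omit [Algebra ℂ A] in
@[simp] theorem pm_zero (p : ℕ → A) : pm p 0 = 1 := by simp [pm]

omit [Algebra ℂ A] in
theorem pm_cons (p : ℕ → A) (r : ℕ) (ρ : Multiset ℕ) : pm p (r ::ₘ ρ) = p r * pm p ρ := by
  simp [pm]

omit [Algebra ℂ A] in
theorem pm_add (p : ℕ → A) (ρ σ : Multiset ℕ) : pm p (ρ + σ) = pm p ρ * pm p σ := by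
  simp [pm]

/-- The characteristic map. -/
noncomputable def chm (p : ℕ → A) (m : ℕ) (f : Multiset ℕ → ℚ) : A :=
  ∑ ρ ∈ ptn m, ((f ρ / zz ρ : ℚ) : ℂ) • pm p ρ

theorem S_eq_chm (p : ℕ → A) (X : Finset ℕ) : S p N X = chm p (sz N X) (ph N X) := rfl

theorem ptn_zero : ptn 0 = {0} := by
  ext ρ
  rw [mem_ptn, mem_singleton]
  refine ⟨fun h => Multiset.eq_zero_of_forall_notMem fun r hr => ?_, by rintro rfl; simp⟩
  have := Multiset.single_le_sum (fun _ _ => Nat.zero_le _) r hr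
  have := h.2 r hr
  omega

theorem chm_zero (p : ℕ → A) (f : Multiset ℕ → ℚ) : chm p 0 f = ((f 0 : ℚ) : ℂ) • (1 : A) := by
  simp [chm, ptn_zero]

theorem chm_congr (p : ℕ → A) {m : ℕ} {f g : Multiset ℕ → ℚ} (h : ∀ ρ ∈ ptn m, f ρ = g ρ) :
    chm p m f = chm p m g := sum_congr rfl fun ρ hρ => by rw [h ρ hρ]

theorem chm_sum (p : ℕ → A) (m : ℕ) {ι : Type*} (s : Finset ι) (c : ι → ℚ)
    (f : ι → Multiset ℕ → ℚ) :
    chm p m (fun ρ => ∑ i ∈ s, c i * f i ρ) = ∑ i ∈ s, ((c i : ℚ) : ℂ) • chm p m (f i) := by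
  simp only [chm, smul_sum, smul_smul]
  rw [sum_comm]
  refine sum_congr rfl fun ρ _ => ?_
  rw [← sum_smul]
  congr 1
  push_cast
  rw [sum_div]
  exact sum_congr rfl fun i _ => by ring

theorem mul_chm (p : ℕ → A) (m : ℕ) (f : Multiset ℕ → ℚ) :
    (m : A) * chm p m f = ∑ r ∈ Icc 1 m, p r * chm p (m - r) fun ρ => f (r ::ₘ ρ) := by
  classical
  have h1 : ∀ r ∈ Icc 1 m, p r * chm p (m - r) (fun ρ => f (r ::ₘ ρ)) =
      ∑ ρ ∈ ptn m, (((r * ρ.count r : ℚ) * (f ρ / zz ρ) : ℚ) : ℂ) • pm p ρ := by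
    intro r hr
    rw [mem_Icc] at hr
    rw [← sum_filter_of_ne (p := fun ρ => r ∈ ρ) (s := ptn m), sum_ptn_filter_mem hr.1 hr.2,
      chm, mul_sum]
    · refine sum_congr rfl fun ρ hρ => ?_
      rw [zz_cons, Multiset.count_cons_self, pm_cons, mul_smul_comm]
      congr 2
      have : (zz ρ : ℚ) ≠ 0 := by exact_mod_cast (zz_pos (mem_ptn.1 hρ).2).ne'
      have : (r : ℚ) ≠ 0 := by exact_mod_cast (by omega : r ≠ 0)
      push_cast
      field_simp
    · intro ρ _ h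
      by_contra h2
      simp [Multiset.count_eq_zero_of_notMem h2] at h
  rw [sum_congr rfl h1, sum_comm, chm, mul_sum]
  refine sum_congr rfl fun ρ hρ => ?_
  rw [← sum_smul, ← nsmul_eq_mul, ← Nat.cast_smul_eq_nsmul ℂ, smul_smul]
  congr 1
  rw [mem_ptn] at hρ
  have h2 : ∑ r ∈ Icc 1 m, r * ρ.count r = m := by
    conv_rhs => rw [← hρ.1]
    rw [Finset.sum_multiset_count_of_subset ρ (Icc 1 m) fun r hr => ?_]
    · exact sum_congr rfl fun r _ => by simp [mul_comm]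
    · rw [Multiset.mem_toFinset] at hr
      have := Multiset.single_le_sum (fun _ _ => Nat.zero_le _) r hr
      have := hρ.2 r hr
      rw [mem_Icc]; omega
  rw [← Rat.cast_sum, ← sum_mul]
  have h3 : ∑ r ∈ Icc 1 m, (r * ρ.count r : ℚ) = m := by exact_mod_cast h2
  rw [h3]; push_cast; ring

theorem ex_eq_chm (p : ℕ → A) (m : ℕ) : ex p m = chm p m fun _ => 1 :=
  (congrFun (eq_ex' (h := fun m => chm p m fun _ => 1) (by simp [chm_zero])
    fun n _ => mul_chm p n _) m).symm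

theorem ex_eq_sum (p : ℕ → A) (m : ℕ) :
    ex p m = ∑ ρ ∈ ptn m, ((zz ρ : ℂ)⁻¹) • pm p ρ := by
  rw [ex_eq_chm, chm]; simp

/-- `ex` extended by zero to negative integers. -/
noncomputable def exZ (p : ℕ → A) (z : ℤ) : A := if 0 ≤ z then ex p z.toNat else 0

@[simp] theorem exZ_nat (p : ℕ → A) (n : ℕ) : exZ p n = ex p n := by simp [exZ]

theorem exZ_neg (p : ℕ → A) {z : ℤ} (h : z < 0) : exZ p z = 0 := if_neg h.not_ge

theorem mul_exZ (p : ℕ → A) {z : ℤ} {m : ℕ} (h : z ≤ m) :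
    (z : A) * exZ p z = ∑ r ∈ Icc 1 m, p r * exZ p (z - r) := by
  rcases lt_or_ge z 0 with h0 | h0
  · rw [exZ_neg p h0, mul_zero]
    exact (sum_eq_zero fun r _ => by rw [exZ_neg p (by omega), mul_zero]).symm
  · obtain ⟨n, rfl⟩ := Int.eq_ofNat_of_zero_le h0
    rw [exZ_nat, Int.cast_natCast, mul_ex]
    refine sum_subset_zero_on_sdiff (Icc_subset_Icc_right (by omega)) (fun r hr => ?_)
      fun r hr => ?_
    · simp only [mem_sdiff, mem_Icc] at hr
      rw [exZ_neg p (by omega), mul_zero]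
    · rw [mem_Icc] at hr
      rw [← exZ_nat, Nat.cast_sub hr.2]

/-- Values of the Young permutation characters. -/
noncomputable def cf (γ : Fin N → ℤ) (ρ : Multiset ℕ) : ℚ := (pp N ρ).coeff γ

theorem cf_cons (γ : Fin N → ℤ) (r : ℕ) (ρ : Multiset ℕ) :
    cf γ (r ::ₘ ρ) = ∑ i, cf (γ - Pi.single i (r : ℤ)) ρ := by
  rw [cf, pp_cons, coeff_mul_ps]; rfl

theorem cf_zero (γ : Fin N → ℤ) : cf γ 0 = if γ = 0 then 1 else 0 := by
  classical
  simp [cf, pp, AddMonoidAlgebra.one_def, Finsupp.single_apply, eq_comm]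

theorem cf_comp (γ : Fin N → ℤ) (v : Perm (Fin N)) (ρ : Multiset ℕ) : cf (γ ∘ v) ρ = cf γ ρ := by
  induction ρ using Multiset.induction_on generalizing γ with
  | empty =>
    rw [cf_zero, cf_zero]
    refine if_congr ⟨fun h => funext fun i => ?_, by rintro rfl; rfl⟩ rfl rfl
    simpa using congrFun h (v.symm i)
  | cons r ρ ih =>
    simp only [cf_cons, comp_sub_single, ih]
    exact Equiv.sum_comp v fun i => cf (γ - Pi.single i (r : ℤ)) ρ

theorem cf_neg {γ : Fin N → ℤ} {i : Fin N} (h : γ i < 0) (ρ : Multiset ℕ) : cf γ ρ = 0 := by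
  induction ρ using Multiset.induction_on generalizing γ with
  | empty => rw [cf_zero, if_neg]; rintro rfl; simp at h
  | cons r ρ ih =>
    rw [cf_cons]
    refine sum_eq_zero fun j _ => ih ?_
    simp only [Pi.sub_apply, Pi.single_apply]
    split_ifs <;> omega

theorem phi_eq_sum_cf (β : Fin N → ℤ) (ρ : Multiset ℕ) :
    phi β ρ = ∑ w : Perm (Fin N), sg w * cf (β - del N ∘ w) ρ := by
  induction ρ using Multiset.induction_on generalizing β with
  | empty =>
    rw [phi_zero, dd]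
    exact sum_congr rfl fun w _ => by simp [cf_zero, sub_eq_zero]
  | cons r ρ ih =>
    simp only [phi_cons, ih, cf_cons, mul_sum]
    rw [sum_comm]
    exact sum_congr rfl fun w _ => sum_congr rfl fun i _ => by rw [sub_right_comm]

theorem prod_exZ_eq (p : ℕ → A) (m : ℕ) (γ : Fin N → ℤ) (h : ∑ i, γ i = m) :
    ∏ i, exZ p (γ i) = chm p m (cf γ) := by
  induction m using Nat.strong_induction_on generalizing γ with
  | _ m ih =>
    by_cases h0 : ∃ i, γ i < 0
    · obtain ⟨i, hi⟩ := h0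
      rw [prod_eq_zero (mem_univ i) (exZ_neg p hi), chm]
      simp [cf_neg hi]
    push Not at h0
    rcases Nat.eq_zero_or_pos m with rfl | hm
    · have : γ = 0 := funext fun i =>
        (sum_eq_zero_iff_of_nonneg fun i _ => h0 i).1 (by simpa using h) i (mem_univ i)
      subst this
      simp [chm_zero, cf_zero, exZ, ex_zero]
    refine natCast_mul_cancel hm.ne' ?_
    rw [mul_chm]
    have e1 : ∀ r ∈ Icc 1 m, chm p (m - r) (fun ρ => cf γ (r ::ₘ ρ)) =
        ∑ i, ∏ j, exZ p ((γ - Pi.single i (r : ℤ) : Fin N → ℤ) j) := by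
      intro r hr
      rw [mem_Icc] at hr
      have := chm_sum p (m - r) univ (fun _ => 1) fun i => cf (γ - Pi.single i (r : ℤ))
      simp only [one_mul, Rat.cast_one, one_smul] at this
      simp only [cf_cons]
      rw [this]
      refine sum_congr rfl fun i _ => (ih _ (by omega) _ ?_).symm
      rw [sum_sub_single, h, Nat.cast_sub hr.2]
    rw [sum_congr rfl fun r hr => by rw [e1 r hr, mul_sum], sum_comm, ← Int.cast_natCast, ← h,
      Int.cast_sum, sum_mul]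
    refine sum_congr rfl fun i _ => ?_
    have hi : γ i ≤ m := h ▸ single_le_sum (fun j _ => h0 j) (mem_univ i)
    rw [← mul_prod_erase _ _ (mem_univ i), ← mul_assoc, mul_exZ p hi, sum_mul]
    refine sum_congr rfl fun r _ => ?_
    rw [← mul_prod_erase _ _ (mem_univ i), mul_assoc]
    congr 2
    · simp
    · exact prod_congr rfl fun j hj => by simp [Pi.single_eq_of_ne (ne_of_mem_erase hj)]

theorem sz_of_mem {m : ℕ} {X : Finset ℕ} (h : X ∈ bs N m) : sz N X = m := by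
  rw [sz, (mem_bs.1 h).2, Nat.add_sub_cancel]

theorem mem_bs_sz {X : Finset ℕ} (h : #X = N) : X ∈ bs N (sz N X) := by
  have := tri_le_sum X
  rw [h] at this
  exact mem_bs.2 ⟨h, by rw [sz]; omega⟩

/-- Jacobi-Trudi, expanded. -/
theorem S_eq_sum (p : ℕ → A) {X : Finset ℕ} (h : #X = N) :
    S p N X = ∑ w : Perm (Fin N), ((Perm.sign w : ℤˣ) : ℤ) •
      ∏ i, exZ p (lab N X i - (w i : ℕ)) := by
  rw [S_eq_chm, chm_congr p (f := ph N X)
    (g := fun ρ => ∑ w : Perm (Fin N), sg w * cf (lab N X - del N ∘ w) ρ)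
    fun ρ _ => phi_eq_sum_cf _ ρ, chm_sum]
  refine sum_congr rfl fun w _ => ?_
  rw [← prod_exZ_eq p _ _ ?_, sg, Rat.cast_intCast, Int.cast_smul_eq_zsmul]
  · rfl
  · simp only [Pi.sub_apply, sum_sub_distrib, Function.comp_apply]
    rw [sum_lab_of_mem (mem_bs_sz h), Equiv.sum_comp w (del N)]; ring

/-- Jacobi-Trudi. -/
theorem S_eq_det (p : ℕ → A) {X : Finset ℕ} (h : #X = N) :
    S p N X = (Matrix.of fun i j : Fin N => exZ p (lab N X j - (i : ℕ))).det := by
  rw [S_eq_sum p h, Matrix.det_apply]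
  rfl

theorem S_mem_subring (p : ℕ → A) {X : Finset ℕ} (h : #X = N) (R : Subring A)
    (hR : ∀ k ≤ sz N X, ex p k ∈ R) : S p N X ∈ R := by
  rw [S_eq_sum p h]
  refine R.sum_mem fun w _ => R.zsmul_mem ?_ _
  by_cases h0 : ∃ i, lab N X i - (w i : ℕ) < 0
  · obtain ⟨i, hi⟩ := h0
    rw [prod_eq_zero (mem_univ i) (exZ_neg p hi)]; exact R.zero_mem
  push Not at h0
  refine R.prod_mem fun i _ => ?_
  rw [exZ, if_pos (h0 i)]
  refine hR _ ?_
  have h1 := single_le_sum (fun j _ => h0 j) (mem_univ i)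
  have h2 : ∑ j, ((w j : ℕ) : ℤ) = ∑ j, del N j := Equiv.sum_comp w (del N)
  rw [sum_sub_distrib, sum_lab_of_mem (mem_bs_sz h), h2] at h1
  omega

theorem pm_eq_sum_S (p : ℕ → A) {m : ℕ} (hm : m ≤ N) {ρ : Multiset ℕ} (hρ : ρ ∈ ptn m) :
    pm p ρ = ∑ X ∈ bs N m, ((ph N X ρ : ℚ) : ℂ) • S p N X := by
  rw [sum_congr rfl fun X hX => by rw [S_eq_chm, sz_of_mem hX], ← chm_sum,
    chm_congr p fun σ hσ => sum_bs_ph_mul_ph hm hρ hσ, chm, sum_eq_single ρ]
  · have : (zz ρ : ℚ) ≠ 0 := by exact_mod_cast (zz_pos (mem_ptn.1 hρ).2).ne'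
    simp [this]
  · intro σ _ h; simp [h.symm]
  · intro h; exact (h hρ).elim

end Cfsg.GLn
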