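import Cfsg.Agent.GLn.TwB

/-! The piece `Tw`. -/

set_option autoImplicit false
set_option linter.unusedSectionVars false

namespace Cfsg.GLn.Tw

open Finset

universe u

variable {F : Type u} [Field F] [Fintype F] [DecidableEq F] {ω : Fˣ →* ℂˣ} {N n r : ℕ}
  {p : I F → ℕ → H ω} {lam : Fˣ}

theorem expand {ι : Type*} [DecidableEq ι] {D : Finset ι} {u : ι → H ω}
    (hu : ∀ μ ∈ D, ∀ ν ∈ D, ip (u μ) (u ν) = if μ = ν then 1 else 0) (h : ∀ μ ∈ D, IsHom n (u μ))
    (hc : ∀ a, IsHom n a → (∀ μ ∈ D, ip a (u μ) = 0) → a = 0) {a : H ω} (ha : IsHom n a) :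
    a = ∑ μ ∈ D, ip a (u μ) • u μ := by
  refine sub_eq_zero.1 (hc _ (ha.sub (IsHom.sum fun μ hμ => (h μ hμ).smul _)) fun ν hν => ?_)
  rw [ip_sub_left, ip_sum_left, sum_congr rfl fun μ hμ => by rw [ip_smul_left, hu μ hμ ν hν]]
  simp [hν]

theorem tri_eq {ι : Type*} [DecidableEq ι] {D : Finset ι} (w : ι → ℕ) {u s T : ι → H ω}
    (hu : ∀ ν ∈ D, T ν = ∑ μ ∈ D, ip (T ν) (u μ) • u μ)
    (hs : ∀ ν ∈ D, u ν = ∑ μ ∈ D, ip (u ν) (s μ) • s μ)
    (ou : ∀ μ ∈ D, ∀ ν ∈ D, μ ≠ ν → ip (u μ) (u ν) = 0)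
    (os : ∀ μ ∈ D, ∀ ν ∈ D, μ ≠ ν → ip (s μ) (s ν) = 0)
    (tu : ∀ μ ∈ D, ∀ ν ∈ D, ip (T ν) (u μ) ≠ 0 → μ = ν ∨ w ν < w μ)
    (ts : ∀ μ ∈ D, ∀ ν ∈ D, ip (T ν) (s μ) ≠ 0 → μ = ν ∨ w ν < w μ)
    (t1 : ∀ ν ∈ D, ip (T ν) (u ν) = 1) (hc : ∀ ν ∈ D, ∀ c : ℂ, u ν = c • s ν → c = 1)
    {ν : ι} (hν : ν ∈ D) : u ν = s ν := by
  induction hk : D.sup w - w ν using Nat.strong_induction_on generalizing ν with
  | _ k ih =>
    have h1 : ∀ μ ∈ D, w ν < w μ → u μ = s μ := fun μ hμ h =>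
      ih _ (by have := le_sup (f := w) hμ; omega) hμ rfl
    have h2 : u ν = ip (u ν) (s ν) • s ν := by
      refine (hs ν hν).trans (sum_eq_single_of_mem ν hν fun μ hμ hne => ?_)
      refine smul_eq_zero_of_left ?_ _
      by_cases h : w ν < w μ
      · rw [← h1 μ hμ h, ou _ hν _ hμ hne.symm]
      have h3 : ip (T ν) (s μ) = 0 := by_contra fun e => (ts μ hμ ν hν e).elim hne h
      rw [hu ν hν, ip_sum_left, sum_eq_single_of_mem ν hν, t1 ν hν, one_smul] at h3
      · exact h3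
      intro μ' hμ' hne'
      rw [ip_smul_left]
      by_contra e
      have h4 := (tu μ' hμ' ν hν (left_ne_zero_of_mul e)).resolve_left hne'
      rw [h1 μ' hμ' h4, os _ hμ' _ hμ (by rintro rfl; exact h h4), mul_zero] at e
      exact e rfl
    rw [h2, hc ν hν _ h2, one_smul]

variable [Laws F]

/-- products of complete symmetric functions -/
noncomputable def E (p : I F → ℕ → H ω) (ν : MP F N) : H ω :=
  ν.prod fun o X => ∏ i, ex (p o) (par N X.1 i)

theorem ip_E (h : Fk r p) (μ ν : MP F N) :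
    ip (schur p μ) (E p ν) = ∏ o ∈ μ.support ∪ ν.support, (kos (par N (ν o).1) (μ o).1 : ℂ) := by
  rw [schur_eq_prod p μ (subset_union_left (s₂ := ν.support)), E,
    Finsupp.prod_of_support_subset _ (subset_union_right (s₁ := μ.support)) _
      (by simp [par_zero, ex_zero]), h.ip_prod _ (fun o _ => S_mem_adjoin _ _)
      fun o _ => Subalgebra.prod_mem _ fun i _ => ex_mem_adjoin _ _]
  exact prod_congr rfl fun o _ => h.ip_S_prod_ex _ _ _

theorem E_tri (h : Fk r p) {μ ν : MP F N} (e : ip (E p ν) (schur p μ) ≠ 0) :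
    μ = ν ∨ wt (alpha ν) < wt (alpha μ) := by
  rw [ip_cj, map_ne_zero, ip_E h, prod_ne_zero_iff] at e
  have h1 : ∀ κ : MP F N, κ.support ⊆ μ.support ∪ ν.support →
      wt (alpha κ) = ∑ o ∈ μ.support ∪ ν.support, o.per * wt (par N (κ o).1) := fun κ hκ => by
    simp only [wt, alpha_eq_sum κ hκ, mul_sum]
    rw [sum_comm]
    exact sum_congr rfl fun _ _ => sum_congr rfl fun _ _ => by ring
  refine or_iff_not_imp_left.2 fun hne => ?_
  obtain ⟨o, ho⟩ := DFunLike.ne_iff.1 hne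
  have h2 : o ∈ μ.support ∪ ν.support := by
    by_contra h1
    rw [mem_union, not_or, Finsupp.notMem_support_iff, Finsupp.notMem_support_iff] at h1
    exact ho (h1.1.trans h1.2.symm)
  rw [h1 _ subset_union_left, h1 _ subset_union_right]
  refine sum_lt_sum (fun o ho => Nat.mul_le_mul_left _ (kos_le (Int.cast_ne_zero.1 (e o ho))))
    ⟨o, h2, Nat.mul_lt_mul_of_pos_left ((kos_tri (Int.cast_ne_zero.1 (e o h2))).resolve_right
      fun e => ho (Subtype.ext (par_inj (ν o).2 (μ o).2 e).symm)) (per_pos o)⟩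

theorem ser_E (ν : MP F N) :
    Ser (orderOf lam * deg ν) (E pp (lift (orderOf lam) ν)) (E (pT lam) ν) := by
  have := Ser.prod ν.support fun o _ => Ser.prod univ fun i _ =>
    (inS_hT (lam := lam) (m := par N (ν o).1 i) o).ser
  simp only [← mul_sum, sum_par (ν _).2, hG, prod_comm (s := univ)] at this
  simp only [E, prod_lift (orderOf_pos lam), pT, fun o => ex_lg (grp_hT (lam := lam) o).zero]
  exact this

theorem irr_lift (ν : MP F N) : Irr (orderOf lam * deg ν) (chi (lift (orderOf lam) ν)) :=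
  deg_lift_orderOf lam ν ▸ irr_chi (stP F) (stSch (stDim F)) (stInt F) _

theorem inS_sG (ν : MP F N) : InS (orderOf lam * deg ν) (chi (lift (orderOf lam) ν))
    (sG lam (lift (orderOf lam) ν)) := by
  rw [sG, deg_lift_orderOf]; exact (irr_lift ν).inS _

theorem fx_chi {μ : MP F N} : Fx (chr lam) (deg μ) (chi μ) ↔ act lam μ = μ := by
  rw [fx_iff (irr_chi (stP F) (stSch (stDim F)) (stInt F) μ).1,
    (stIrr (stP F) (stSch (stDim F)) (stInt F)).tens]
  refine ⟨fun h => by_contra fun e => ?_, fun h => by rw [h]⟩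
  have := (stP F).fk.orth (act lam μ) μ
  rw [if_neg e, ← chi, h, chi, (stP F).fk.orth, if_pos rfl] at this
  exact one_ne_zero this

theorem ip_sG (μ ν : MP F N) : ip (sG lam (lift (orderOf lam) μ)) (sG lam (lift (orderOf lam) ν)) =
    if μ = ν then 1 else 0 := by
  split_ifs with h
  · subst h
    exact (irr_chi (stP F) (stSch (stDim F)) (stInt F) _).norm_pj univ _ (sum_alpha _).symm
      (by simpa [chi, GamA] using (sch (stP F).fk).gamA (lift (orderOf lam) μ))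
      (fx_chi.2 (act_lift_orderOf _ _))
  · by_contra e
    have := (stP F).fk.orth (lift (orderOf lam) μ) (lift (orderOf lam) ν)
    rw [if_neg ((lift_injective (orderOf_pos lam)).ne h), ← chi,
      (inS_sG μ).eq_of_ip (inS_sG ν) e, chi, (stP F).fk.orth, if_pos rfl] at this
    exact one_ne_zero this

theorem cpl_sG (hn : orderOf lam * n ≤ N) (a : H (chr lam)) (ha : IsHom (orderOf lam * n) a)
    (h : ∀ ν : MP F N, deg ν = n → ip a (sG lam (lift (orderOf lam) ν)) = 0) : a = 0 := by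
  rw [← ha.sum_pj]
  refine sum_eq_zero fun χ _ => by_contra fun e => ?_
  obtain ⟨μ, h1, h2⟩ := (stIrr (stP F) (stSch (stDim F)) (stInt F)).surj hn χ
  have h3 : ofC χ = chi μ := (irr_ofC χ).1.ext_cm
    (h1 ▸ (irr_chi (stP F) (stSch (stDim F)) (stInt F) μ).1) (by rw [cm_ofC, h2])
  have h4 := (irr_ofC χ).fx_of_pj e
  rw [h3, ← h1, fx_chi] at h4
  obtain ⟨ν, rfl⟩ := exists_lift_of_act h4
  rw [deg_lift_orderOf] at h1
  obtain rfl := Nat.eq_of_mul_eq_mul_left (orderOf_pos lam) h1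
  rw [h3, (inS_sG ν).pj_eq_smul (by rw [ip_sG, if_pos rfl]), h ν rfl, zero_smul] at e
  exact e rfl

theorem schur_pT (ν : MP F N) (hn : orderOf lam * deg ν ≤ N) :
    schur (pT lam) ν = sG lam (lift (orderOf lam) ν) := by
  have hF := fk_pT lam
  have hD : ∀ {μ : MP F N}, μ ∈ (finite_deg N (deg ν)).toFinset ↔ deg μ = deg ν :=
    Set.Finite.mem_toFinset _
  refine tri_eq (D := (finite_deg N (deg ν)).toFinset) (fun μ => wt (alpha μ))
    (u := schur (pT lam)) (s := fun μ => sG lam (lift (orderOf lam) μ)) (T := E (pT lam))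
    (fun μ hμ => expand (fun μ _ ν _ => hF.orth μ ν) (fun μ hμ => hD.1 hμ ▸ (sch hF).hom μ)
      (fun a ha h => (sch hF).cpl N _ a ((Nat.le_mul_of_pos_left _ hF.pos).trans hn) ha
        fun μ hμ => h μ (hD.2 hμ)) (hD.1 hμ ▸ (ser_E μ).1))
    (fun μ hμ => expand (fun μ _ ν _ => ip_sG μ ν) (fun μ hμ => hD.1 hμ ▸ (inS_sG μ).hom)
      (fun a ha h => cpl_sG hn a ha fun μ hμ => h μ (hD.2 hμ)) (hD.1 hμ ▸ (sch hF).hom μ))
    (fun μ _ κ _ h => by rw [hF.orth, if_neg h]) (fun μ _ κ _ h => by rw [ip_sG, if_neg h])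
    (fun μ _ κ _ => E_tri hF) (fun μ hμ κ hκ e => ?_) (fun μ _ => ?_) (fun μ _ c h => ?_) (hD.2 rfl)
  · rw [← (inS_sG μ).2, ← (irr_lift μ).ip_pj] at e
    have h1 := (hD.1 hκ).trans (hD.1 hμ).symm
    refine (E_tri (stP F).fk (μ := lift (orderOf lam) μ) (ν := lift (orderOf lam) κ) fun h => e ?_).imp
      (fun h => lift_injective hF.pos h) fun h => ?_
    · have h2 := ser_E (lam := lam) κ
      rw [h1] at h2
      rw [h2.2.2 _ (irr_lift μ) h, ip_zero_left]
    · simp only [wt, alpha_lift_orderOf, mul_left_comm _ (orderOf lam), ← mul_sum] at h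
      exact Nat.lt_of_mul_lt_mul_left h
  · rw [ip_cj, ip_E hF, prod_eq_one fun o _ => by rw [kos_par (μ o).2, Int.cast_one], map_one]
  · have h1 := (sch hF).gamA μ
    have h2 := ip_sG (lam := lam) μ μ
    rw [if_pos rfl, sG, deg_lift_orderOf, (irr_lift μ).ip_pj, (irr_lift μ).pj_pj,
      ← (irr_lift μ).ip_pj, ← deg_lift_orderOf, ← sG] at h2
    rwa [h, ip_smul_left, ← alpha_lift_orderOf, h2, mul_one] at h1

end Tw

theorem stTw (F : Type*) [Field F] [Fintype F] [DecidableEq F] [Laws F] : StTw F :=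
  fun lam => ⟨Tw.fk_pT lam, fun _ => Tw.schur_pT⟩

end Cfsg.GLn
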