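import Cfsg.Agent.GLn.Defs2
import Cfsg.Agent.GLn.GG2
import Cfsg.Agent.GLn.ClifB
import Cfsg.Agent.GLn.Fock

/-! Series of twisted class functions. -/

set_option autoImplicit false
set_option linter.unusedSectionVars false

namespace Cfsg.GLn

open Matrix ComplexConjugate

universe u v

section gen
variable {A : Type u} {B : Type v} [Group A] [Fintype A] [Group B] [Fintype B]

theorem classInner_boxt (a a' : A → ℂ) (b b' : B → ℂ) :
    classInner (fun x : A × B => a x.1 * b x.2) (fun x => a' x.1 * b' x.2) =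
      classInner a a' * classInner b b' := by
  simp only [classInner_def, Fintype.sum_prod_type, Nat.card_prod, map_mul]
  rw [mul_mul_mul_comm, Finset.sum_mul_sum]
  push_cast
  rw [mul_inv]
  congr 1
  exact Finset.sum_congr rfl fun _ _ => Finset.sum_congr rfl fun _ _ => by ring

theorem pjG_boxt (χ a : A → ℂ) (ψ b : B → ℂ) :
    pjG (fun x : A × B => χ x.1 * ψ x.2) (fun x => a x.1 * b x.2) =
      fun x => pjG χ a x.1 * pjG ψ b x.2 := by
  funext x
  simp only [pjG, Fintype.sum_prod_type, Nat.card_prod, Prod.fst_one, Prod.snd_one, Prod.fst_mul,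
    Prod.snd_mul, Prod.fst_inv, Prod.snd_inv]
  rw [mul_mul_mul_comm, Finset.sum_mul_sum]
  push_cast
  rw [div_mul_div_comm]
  congr 1
  exact Finset.sum_congr rfl fun _ _ => Finset.sum_congr rfl fun _ _ => by ring

theorem pjG_comp_surj (π : B →* A) (hπ : Function.Surjective π) (χ a : A → ℂ) :
    pjG (fun x => χ (π x)) (fun x => a (π x)) = fun x => pjG χ a (π x) := by
  funext x
  simp only [pjG, map_mul, map_inv, map_one]
  rw [sum_comp_monoidHom_surjective π hπ fun y => χ y * a (y⁻¹ * π x), nsmul_eq_mul,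
    ← π.ker.card_mul_index, Subgroup.index_ker, MonoidHom.range_eq_top.2 hπ, Subgroup.card_top]
  have h1 : (Nat.card π.ker : ℂ) ≠ 0 := Nat.cast_ne_zero.2 Nat.card_pos.ne'
  have h2 : (Nat.card A : ℂ) ≠ 0 := Nat.cast_ne_zero.2 Nat.card_pos.ne'
  push_cast
  field_simp

theorem classInner_eq_zero_of_common {χ θ : A → ℂ} (hχ : IsCharacter A χ) (hθ : IsCharacter A θ)
    (h : classInner θ χ = 0) (η : IrrCharacter A) (h1 : classInner χ η.1 ≠ 0) :
    classInner θ η.1 = 0 := by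
  obtain ⟨a, ha⟩ := hθ.exists_classInner_eq_nat (hχ.sub_irr η h1)
  obtain ⟨b, hb⟩ := hθ.exists_classInner_eq_nat η.isCharacter
  rw [classInner_sub_right, h, hb, zero_sub, neg_eq_iff_add_eq_zero] at ha
  have : b + a = 0 := by exact_mod_cast ha
  rw [hb, show b = 0 by omega, Nat.cast_zero]

end gen

variable {F : Type u} [Field F] [Fintype F] [DecidableEq F] {ω : Fˣ →* ℂˣ} {i j n : ℕ}

local notation "H1" => H (1 : Fˣ →* ℂˣ)

/-- homogeneous characters -/
def Chr (n : ℕ) (x : H1) : Prop := IsHom n x ∧ IsCharacter (G F n) (cm x n)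

/-- irreducible characters -/
def Irr (n : ℕ) (x : H1) : Prop := IsHom n x ∧ IsIrrCharacter (G F n) (cm x n)

theorem eqv_cm (a : H ω) (n : ℕ) : Eqv (ω.comp dt) (cm a n) := fun g z => a.conj g z

theorem cls_cm (a : H1) (n : ℕ) : IsClassFunction (G F n) (cm a n) := fun g z => by
  simpa using a.conj g z

/-- an irreducible character as an element of the Hall algebra -/
noncomputable def ofC (χ : IrrCharacter (G F n)) : H1 := mk 1 n χ.1

theorem cm_ofC (χ : IrrCharacter (G F n)) : cm (ofC χ) n = χ.1 :=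
  funext (mk_apply_of fun g z => by simpa using χ.isClassFunction g z)

theorem irr_ofC (χ : IrrCharacter (G F n)) : Irr n (ofC χ) := ⟨isHom_mk _, cm_ofC χ ▸ χ.2⟩

theorem IsHom.ext_cm {a b : H ω} (ha : IsHom n a) (hb : IsHom n b) (h : cm a n = cm b n) : a = b :=
  ha.ext hb (congrFun h)

theorem Irr.chr {x : H1} (h : Irr n x) : Chr n x := ⟨h.1, h.2.isCharacter⟩

theorem Irr.ip_self {x : H1} (h : Irr n x) : ip x x = 1 :=
  (h.1.ip_eq x).trans (IrrCharacter.classInner_self ⟨_, h.2⟩)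

theorem Irr.ne {x y : H1} (h : Irr n x) (h' : Irr n y) (e : x ≠ y) :
    (⟨_, h.2⟩ : IrrCharacter (G F n)) ≠ ⟨_, h'.2⟩ :=
  fun h1 => e (h.1.ext_cm h'.1 (congrArg Subtype.val h1))

theorem Irr.eq_of_ip {x y : H1} (h : Irr i x) (h' : Irr j y) (e : ip x y ≠ 0) : x = y := by
  obtain rfl : i = j := by_contra fun h1 => e (h.1.ip_eq_zero h'.1 h1)
  refine by_contra fun h1 => e ?_
  have h2 := IrrCharacter.classInner_of_ne (h.ne h' h1)
  rw [h.1.ip_eq]
  exact h2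

theorem Irr.deg_eq {x : H1} (h : Irr i x) (h' : Irr j x) : i = j :=
  by_contra fun h1 => one_ne_zero (h.ip_self.symm.trans (h.1.ip_eq_zero h'.1 h1))

theorem Chr.mul {x y : H1} (h : Chr i x) (h' : Chr j y) : Chr (i + j) (x * y) :=
  ⟨h.1.mul h'.1, h.1.isCharacter_mul h'.1 h.2 h'.2⟩

theorem Chr.ip_nat {x y : H1} (h : Chr n x) (h' : Chr n y) : ∃ k : ℕ, ip x y = k := by
  rw [h.1.ip_eq]; exact h.2.exists_classInner_eq_nat h'.2

theorem Chr.sub_irr {x y : H1} (h : Chr n y) (h' : Irr n x) (e : ip y x ≠ 0) : Chr n (y - x) :=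
  ⟨h.1.sub h'.1, h.2.sub_irr ⟨_, h'.2⟩ (by rwa [h.1.ip_eq] at e)⟩

theorem irr_one' : Irr 0 (1 : H1) := ⟨isHom_one, by
  rw [show cm (1 : H1) 0 = fun _ => 1 from funext one_apply]; exact .one⟩

theorem irr_of_vc {x y : H1} (hx : IsHom n x) (h : Vc x) (h1 : ip x x = 1) (hy : Chr n y)
    (h2 : ip x y = 1) : Irr n x := by
  rw [hx.ip_eq] at h1 h2
  obtain ⟨χ, h3 | h3⟩ := (h n).exists_irr_of_classInner_self_eq_one h1
  · exact ⟨hx, h3 ▸ χ.2⟩
  · obtain ⟨k, hk⟩ := χ.isCharacter.exists_classInner_eq_nat hy.2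
    rw [show (fun g => x ⟨n, g⟩) = -χ.1 from h3, classInner_neg_left, hk,
      neg_eq_iff_add_eq_zero] at h2
    exact absurd h2 (by exact_mod_cast k.succ_ne_zero)

theorem isHom_pj (x : H1) (a : H ω) : IsHom n (pj n x a) := isHom_mk _

theorem cm_pj (x : H1) (a : H ω) : cm (pj n x a) n = pjG (cm x n) (cm a n) :=
  funext (mk_apply_of (Eqv.pjG' (cls_cm x n) (eqv_cm a n)))

theorem pj_add (x : H1) (a b : H ω) : pj n x (a + b) = pj n x a + pj n x b :=
  (isHom_pj _ _).ext_cm ((isHom_pj _ _).add (isHom_pj _ _)) (by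
    change _ = cm (pj n x a) n + cm (pj n x b) n
    rw [cm_pj, cm_pj, cm_pj, ← pjG_add]; rfl)

theorem pj_smul (x : H1) (c : ℂ) (a : H ω) : pj n x (c • a) = c • pj n x a :=
  (isHom_pj _ _).ext_cm ((isHom_pj _ _).smul c) (by
    change _ = c • cm (pj n x a) n
    rw [cm_pj, cm_pj, ← pjG_smul]; rfl)

variable (ω n) in
/-- the projection as a linear map -/
noncomputable def pjL (x : H1) : H ω →ₗ[ℂ] H ω := ⟨⟨pj n x, pj_add x⟩, pj_smul x⟩

theorem pj_zero (x : H1) : pj n x (0 : H ω) = 0 := map_zero (pjL ω n x)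

theorem pj_sum {ι : Type*} (x : H1) (s : Finset ι) (a : ι → H ω) :
    pj n x (∑ t ∈ s, a t) = ∑ t ∈ s, pj n x (a t) := map_sum (pjL ω n x) a s

theorem Irr.ip_pj {x : H1} (h : Irr n x) (a b : H ω) : ip (pj n x a) b = ip a (pj n x b) := by
  rw [(isHom_pj x a).ip_eq, (isHom_pj x b).ip_eq']
  exact (congrArg₂ classInner (cm_pj x a) rfl).trans ((classInner_pjG ⟨_, h.2⟩ _ _).trans
    (congrArg₂ classInner rfl (cm_pj x b).symm))

theorem Irr.pj_pj {x : H1} (h : Irr n x) (a : H ω) : pj n x (pj n x a) = pj n x a :=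
  (isHom_pj _ _).ext_cm (isHom_pj _ _) (by rw [cm_pj, cm_pj]; exact pjG_pjG_self ⟨_, h.2⟩ _)

theorem Irr.pj_pj_ne {x y : H1} (h : Irr n x) (h' : Irr n y) (e : x ≠ y) (a : H ω) :
    pj n x (pj n y a) = 0 :=
  (isHom_pj _ _).ext_cm IsHom.zero (by rw [cm_pj, cm_pj]; exact pjG_pjG_ne (h.ne h' e) _)

theorem IsHom.sum_pj {a : H ω} (h : IsHom n a) :
    ∑ χ : IrrCharacter (G F n), pj n (ofC χ) a = a :=
  (IsHom.sum fun _ _ => isHom_pj _ _).ext h fun g => by
    rw [H.sum_apply]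
    refine Eq.trans (Finset.sum_congr rfl fun χ _ => congrFun (cm_pj (ofC χ) a) g) ?_
    simp only [cm_ofC]
    exact (Finset.sum_apply _ _ _).symm.trans (congrFun (sum_pjG (cm a n)) g)

/-- `a` lies in the series of `x` -/
def InS (n : ℕ) (x : H1) (a : H ω) : Prop := Irr n x ∧ pj n x a = a

theorem Irr.inS {x : H1} (h : Irr n x) (a : H ω) : InS n x (pj n x a) := ⟨h, h.pj_pj a⟩

theorem InS.hom {x : H1} {a : H ω} (h : InS n x a) : IsHom n a := h.2 ▸ isHom_pj x a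

theorem InS.eq_of_ip {x y : H1} {a b : H ω} (h : InS i x a) (h' : InS j y b) (e : ip a b ≠ 0) :
    x = y := by
  obtain rfl : i = j := by_contra fun h1 => e (h.hom.ip_eq_zero h'.hom h1)
  refine by_contra fun h1 => e ?_
  rw [← h.2, ← h'.2, h.1.ip_pj, h.1.pj_pj_ne h'.1 h1, ip_zero_right]

theorem H.induction_inS {P : H ω → Prop} (h0 : P 0) (h1 : ∀ n x a, InS n x a → P a)
    (h2 : ∀ a b, P a → P b → P (a + b)) (a : H ω) : P a := by
  refine H.induction h0 (fun n a ha => ?_) h2 a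
  rw [← ha.sum_pj]
  exact Finset.sum_induction _ P h2 h0 fun χ _ => h1 n _ _ ((irr_ofC χ).inS a)

variable (ω) in
/-- invariance under the twist -/
def Fx (n : ℕ) (x : H1) : Prop := ∀ g : G F n, (ω (dt g) : ℂ) * x ⟨n, g⟩ = x ⟨n, g⟩

theorem Irr.fx_of_pj {x : H1} (h : Irr n x) {a : H ω} (e : pj n x a ≠ 0) : Fx ω n x :=
  by_contra fun h1 => e ((isHom_pj _ _).ext_cm IsHom.zero
    ((cm_pj x a).trans ((eqv_cm a n).pjG_eq_zero' (χ := ⟨_, h.2⟩) h1)))

theorem InS.pj_eq_smul {x : H1} {b : H ω} (h : InS n x b) (h1 : ip b b = 1) (a : H ω) :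
    pj n x a = ip a b • b := by
  refine (isHom_pj _ _).ext_cm (h.hom.smul _) ?_
  rw [h.hom.ip_eq] at h1
  rw [cm_pj, h.hom.ip_eq']
  exact (eqv_cm a n).pjG_eq_smul (eqv_cm b n) (χ := ⟨_, h.1.2⟩)
    ((cm_pj x b).symm.trans (congrArg (cm · n) h.2)) h1

theorem Irr.pj_indH {x : H1} (h : Irr n x) {K : Subgroup (G F n)} {f : K → ℂ}
    (e : pjG (cm x n) (extendByZero K f) = 0) : pj n x (indH ω K f) = 0 := by
  refine ext_ip' fun c => ?_
  have h1 := classInner_pjG ⟨_, h.2⟩ (extendByZero K f) (cm c n)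
  rw [e, classInner_zero_left, ← cm_pj, classInner_def, eq_comm, mul_eq_zero,
    or_iff_right (inv_ne_zero (cardG_ne n))] at h1
  rw [h.ip_pj, ip_indH, h1, mul_zero, ip_zero_left]

theorem ip_indH_one (K : Subgroup (G F n)) [Fintype K] (f : K → ℂ) (x : H1) :
    ip (indH 1 K f) x = classInner f fun k => x ⟨n, k⟩ := by
  rw [ip_indH, sum_extendByZero_mul, classInner_def]

theorem InS.pj_mul {x₁ x₂ x : H1} {a b : H ω} (ha : InS i x₁ a) (hb : InS j x₂ b)
    (hx : Irr (i + j) x) (e : ip (x₁ * x₂) x = 0) : pj (i + j) x (a * b) = 0 := by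
  classical
  have hs : Function.Surjective (parL : Par F i j →* _) := fun y =>
    ⟨⟨_, blk_mem_Par y.1 0 y.2⟩, parL_blk _ _ _ _⟩
  have h1 : IsIrrCharacter (G F i × G F j) fun y => cm x₁ i y.1 * cm x₂ j y.2 :=
    by
      have h2 : IsCharacter (G F i × G F j) fun y => cm x₁ i y.1 * cm x₂ j y.2 :=
        (ha.1.2.isCharacter.comp (MonoidHom.fst (G F i) (G F j))).mul
          (hb.1.2.isCharacter.comp (MonoidHom.snd (G F i) (G F j)))
      rw [h2.isIrr_iff, classInner_boxt, ← ha.1.1.ip_eq, ← hb.1.1.ip_eq, ha.1.ip_self,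
        hb.1.ip_self, mul_one]
  rw [ha.1.1.mul_eq_indH hb.1.1, ip_indH_one] at e
  rw [ha.hom.mul_eq_indH hb.hom]
  refine hx.pj_indH (pjG_extendByZero_eq_zero ⟨_, hx.2⟩ ⟨_, h1.comp_surjective parL hs⟩ ?_ ?_)
  · rw [← conj_classInner, map_eq_zero]
    exact e
  · refine (pjG_comp_surj parL hs (fun y => cm x₁ i y.1 * cm x₂ j y.2)
      fun y => cm a i y.1 * cm b j y.2).trans ?_
    rw [pjG_boxt, ← cm_pj, ← cm_pj, ha.2, hb.2]

/-- the series of `a` are constituents of the character `y` -/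
def Ser (n : ℕ) (y : H1) (a : H ω) : Prop :=
  IsHom n a ∧ Chr n y ∧ ∀ x, Irr n x → ip y x = 0 → pj n x a = 0

theorem InS.ser {x : H1} {a : H ω} (h : InS n x a) : Ser n x a :=
  ⟨h.hom, h.1.chr, fun y hy e => by
    rw [← h.2]
    exact hy.pj_pj_ne h.1 (fun h1 => one_ne_zero (h.1.ip_self.symm.trans (h1 ▸ e))) a⟩

theorem Ser.mul {y z : H1} {a b : H ω} (ha : Ser i y a) (hb : Ser j z b) :
    Ser (i + j) (y * z) (a * b) := by
  refine ⟨ha.1.mul hb.1, ha.2.1.mul hb.2.1, fun x hx e => ?_⟩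
  rw [← ha.1.sum_pj, ← hb.1.sum_pj, H.sum_mul, pj_sum]
  refine Finset.sum_eq_zero fun χ _ => ?_
  rw [H.mul_sum, pj_sum]
  refine Finset.sum_eq_zero fun ψ _ => ?_
  by_cases h1 : ip y (ofC χ) = 0
  · rw [ha.2.2 _ (irr_ofC χ) h1, H.zero_mul, pj_zero]
  by_cases h2 : ip z (ofC ψ) = 0
  · rw [hb.2.2 _ (irr_ofC ψ) h2, H.mul_zero, pj_zero]
  refine ((irr_ofC χ).inS a).pj_mul ((irr_ofC ψ).inS b) hx ?_
  obtain ⟨k₁, e₁⟩ := ((irr_ofC χ).chr.mul (irr_ofC ψ).chr).ip_nat hx.chr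
  obtain ⟨k₂, e₂⟩ := ((ha.2.1.sub_irr (irr_ofC χ) h1).mul (irr_ofC ψ).chr).ip_nat hx.chr
  obtain ⟨k₃, e₃⟩ := (ha.2.1.mul (hb.2.1.sub_irr (irr_ofC ψ) h2)).ip_nat hx.chr
  have h3 : y * z = ofC χ * ofC ψ + (y - ofC χ) * ofC ψ + y * (z - ofC ψ) := by
    rw [← H.add_mul, add_sub_cancel, ← H.mul_add, add_sub_cancel]
  rw [h3, ip_add_left, ip_add_left, e₁, e₂, e₃] at e
  have : k₁ + k₂ + k₃ = 0 := by exact_mod_cast e
  rw [e₁, show k₁ = 0 by omega, Nat.cast_zero]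

theorem ser_indH {K : Subgroup (G F n)} {f : K → ℂ} (hf : IsCharacter K f) :
    Ser n (indH 1 K f) (indH ω K f) := by
  classical
  refine ⟨isHom_indH _ _, ⟨isHom_indH _ _, by
    rw [show cm (indH 1 K f) n = indFun K f from funext (indH_one_apply K f)]; exact hf.indFun⟩,
    fun x hx e => hx.pj_indH (pjG_extend_eq_zero (f := K.subtype) Subtype.val_injective ⟨_, hx.2⟩
      fun η h => ?_)⟩
  rw [ip_indH_one] at e
  rw [pjG_class η hf.isClassFunction,
    classInner_eq_zero_of_common (hx.2.isCharacter.res K) hf e η h, zero_smul]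

theorem pj_deg_zero {x : H1} (h : Irr 0 x) {a : H ω} (ha : IsHom 0 a) : pj 0 x a = a := by
  have h1 : ∀ y : H1, Irr 0 y → y = 1 := fun y hy => hy.eq_of_ip irr_one' fun h => by
    have h2 := hy.ip_self
    rw [ip_one_right] at h
    rw [hy.1.eq_smul_one, h, zero_smul, ip_zero_left] at h2
    exact zero_ne_one h2
  rw [← ha.sum_pj, pj_sum]
  exact Finset.sum_congr rfl fun χ _ => by rw [h1 x h, h1 _ (irr_ofC χ), irr_one'.pj_pj]

variable [Laws F]

theorem ser_one : Ser 0 1 (1 : H ω) := InS.ser ⟨irr_one', pj_deg_zero irr_one' isHom_one⟩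

theorem Ser.prod {ι : Type*} (s : Finset ι) {d : ι → ℕ} {y : ι → H1} {a : ι → H ω}
    (h : ∀ t ∈ s, Ser (d t) (y t) (a t)) : Ser (∑ t ∈ s, d t) (∏ t ∈ s, y t) (∏ t ∈ s, a t) := by
  classical
  induction s using Finset.induction_on with
  | empty => exact ser_one
  | insert t s ht ih =>
    rw [Finset.sum_insert ht, Finset.prod_insert ht, Finset.prod_insert ht]
    exact (h t (Finset.mem_insert_self _ _)).mul (ih fun t ht => h t (Finset.mem_insert_of_mem ht))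

theorem ser_prod_Gam {ι : Type*} (s : Finset ι) (α : ι → ℕ) (hn : n = ∑ t ∈ s, α t) :
    Ser n (∏ t ∈ s, Gam 1 (α t)) (∏ t ∈ s, Gam ω (α t)) := by
  obtain ⟨ϑ, h1, h2⟩ := exists_prod_Gam_eq (F := F) s α hn
  rw [h2, h2]
  exact ser_indH h1

theorem ser_Gam : Ser n (Gam 1 n) (Gam ω n) := by
  simpa using ser_prod_Gam (ω := ω) (n := n) {()} (fun _ => n) (by simp)

theorem Irr.norm_pj {ι : Type*} (s : Finset ι) (α : ι → ℕ) (hn : n = ∑ t ∈ s, α t) {x : H1}
    (h : Irr n x) (h1 : ip x (∏ t ∈ s, Gam 1 (α t)) = 1) (h2 : Fx ω n x) :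
    ip (pj n x (∏ t ∈ s, Gam ω (α t))) (pj n x (∏ t ∈ s, Gam ω (α t))) = 1 := by
  classical
  rcases n with _ | n
  · rw [Finset.prod_eq_one fun t ht => by
      rw [Finset.sum_eq_zero_iff.1 hn.symm t ht, Gam_zero], pj_deg_zero h isHom_one, ip_one_one]
  have := Fintype.ofFinite (Fˣ →* ℂˣ)
  obtain ⟨θ, h3, h4⟩ := exists_char_prod_Gam (F := F) s α hn
  rw [(isHom_pj _ _).ip_eq]
  rw [h.1.ip_eq] at h1
  have h5 := norm_pjG_eq_one (δ := dt (F := F) (n := n + 1)) GeneralLinearGroup.det_surjective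
    (γ := fun ω => cm (∏ t ∈ s, Gam ω (α t)) (n + 1))
    (fun ω => eqv_cm _ _) h3 h4 (χ := ⟨_, h.2⟩) h1 h2
  rw [← cm_pj] at h5
  exact h5

theorem Irr.norm_pj_Gam {x : H1} (h : Irr n x) (h1 : ip x (Gam 1 n) = 1) (h2 : Fx ω n x) :
    ip (pj n x (Gam ω n)) (pj n x (Gam ω n)) = 1 := by
  simpa using h.norm_pj {()} (fun _ => n) (by simp) (by simpa using h1) h2

theorem stGG : StGG F := fun _ α n hn => by
  have := Fintype.ofFinite (Fˣ →* ℂˣ)
  refine ⟨isCharacter_prod_Gam _ α hn.symm, ?_⟩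
  simp only [finsum_eq_sum_of_fintype]
  exact exists_char_prod_Gam _ α hn.symm

omit [Laws F] in
theorem stVir : StVir F := fun _ _ => Vir.mul

end Cfsg.GLn
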