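import Cfsg.Agent.GLn.PwB
import Cfsg.Agent.GLn.Dim
import Cfsg.Agent.GLn.Int
import Cfsg.Agent.GLn.Sch
import Cfsg.Agent.GLn.Irr

/-! The twisted power sums form a Fock family. -/

set_option autoImplicit false
set_option linter.unusedSectionVars false

namespace Cfsg.GLn.Tw

open Finset

universe u

variable {F : Type u} [Field F] [Fintype F] [DecidableEq F] {ω : Fˣ →* ℂˣ} {i j n r m : ℕ}
  {p : I F → ℕ → H ω} {lam : Fˣ}

local notation "H1" => H (1 : Fˣ →* ℂˣ)

theorem eq_one_of_ex {f : ℕ → ℂ} (h : ∀ m, ex f m = 1) (hm : 0 < m) : f m = 1 := by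
  rw [← lg_ex f hm, show ex f = ex fun k => (1 : ℂ) ^ k from
    funext fun k => by rw [h, ex_geom, one_pow], lg_ex _ hm, one_pow]

omit [DecidableEq F] in
/-- the degree -/
noncomputable def dl (l : I F →₀ ℕ) : ℕ := l.sum fun o m => o.per * m

omit [DecidableEq F] in
/-- constant on a fibre -/
noncomputable def lf (r : ℕ) (o : I F) (m : ℕ) : I F →₀ ℕ :=
  Finsupp.indicator (fib r o) fun _ _ => m

omit [DecidableEq F] in
theorem lf_apply (o φ : I F) : lf r o m φ = if φ ∈ fib r o then m else 0 := by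
  rw [lf, Finsupp.indicator_apply, dite_eq_ite]

omit [DecidableEq F] in
theorem dl_lf (o : I F) : dl (lf (orderOf lam) o m) = orderOf lam * (o.per * m) := by
  rw [dl, lf, Finsupp.sum_of_support_subset _ (Finsupp.support_indicator_subset _ _) _ (by simp),
    ← mul_assoc, ← sum_per_fib (orderOf_dvd_q_sub_one lam), sum_mul]
  exact sum_congr rfl fun φ h => by rw [Finsupp.indicator_of_mem h]

omit [DecidableEq F] in
theorem eq_lf {l l' : I F →₀ ℕ} {o : I F} (h : l + l' = lf (orderOf lam) o m)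
    (h1 : ∀ φ, l (mulI lam φ) = l φ) : ∃ i, l = lf (orderOf lam) o i := by
  have h2 : ∀ j φ, l (mulI (lam ^ j) φ) = l φ := fun j => by
    induction j with
    | zero => simp [mulI_one]
    | succ j ih => intro φ; rw [pow_succ, mulI_mul, ih, h1]
  obtain ⟨φ, hφ⟩ := fib_nonempty (orderOf_pos lam) o
  refine ⟨l φ, Finsupp.ext fun ψ => ?_⟩
  rw [lf_apply]
  split_ifs with h3
  · rw [mem_fib (orderOf_pos lam)] at hφ h3
    obtain ⟨j, rfl⟩ := (powI_eq_iff lam).1 (hφ.trans h3.symm)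
    exact h2 j φ
  · have := DFunLike.congr_fun h ψ
    rw [lf_apply, if_neg h3, Finsupp.add_apply] at this
    omega

theorem fx_iff {x : H1} (h : IsHom n x) : Fx (chr lam) n x ↔ tens lam x = x :=
  ⟨fun e => (h.tens lam).ext h fun g => by rw [tens_apply, e],
    fun e g => by rw [← tens_apply, e]⟩

variable [Laws F]

theorem sch (h : Fk r p) : Sch F r p := stSch (stDim F) _ _ _ h

/-- products of complete symmetric functions -/
noncomputable def hl (p : I F → ℕ → H ω) (l : I F →₀ ℕ) : H ω := l.prod fun o m => ex (p o) m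

theorem hl_eq (l : I F →₀ ℕ) {T : Finset (I F)} (h : l.support ⊆ T) :
    hl p l = ∏ o ∈ T, ex (p o) (l o) :=
  Finsupp.prod_of_support_subset _ h _ fun _ _ => ex_zero _

theorem grp (h : Fk r p) (o : I F) : GrpLike (r * o.per) (ex (p o)) :=
  grpLike_ex (Nat.mul_pos h.pos (per_pos o)) (h.prim o) fun k hk => by
    rw [mul_assoc]; exact h.hom o k hk

theorem ip_ex (h : Fk r p) (o : I F) (m m' : ℕ) :
    ip (ex (p o) m) (ex (p o) m') = if m = m' then 1 else 0 := by
  split_ifs with e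
  · subst e
    rw [← (grp h o).ex_ip_lg, ex_congr (q := fun k => (1 : ℂ) ^ k), ex_geom, one_pow]
    intro k hk
    have := (h.prim o k hk).ip_lg (grp h o) k
    rw [lg_ex _ hk, h.ip_one o k k hk hk, if_pos rfl] at this
    rw [lg_ex _ hk, one_pow]
    exact (mul_eq_left₀ (Nat.cast_ne_zero.2 hk.ne')).1 this.symm
  · exact ((grp h o).hom m).ip_eq_zero ((grp h o).hom m') fun e' =>
      e (Nat.eq_of_mul_eq_mul_left (grp h o).pos e')

theorem ip_hl (h : Fk r p) (l l' : I F →₀ ℕ) :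
    ip (hl p l) (hl p l') = if l = l' then 1 else 0 := by
  rw [hl_eq l (subset_union_left (s₂ := l'.support)), hl_eq l' (subset_union_right (s₁ := l.support)),
    h.ip_prod _ (fun o _ => ex_mem_adjoin _ _) fun o _ => ex_mem_adjoin _ _]
  simp only [ip_ex h, prod_boole]
  congr 1
  refine propext ⟨fun h => Finsupp.ext fun o => ?_, fun h => by simp [h]⟩
  by_contra h0
  refine h0 (h o ?_)
  by_contra h1
  rw [mem_union, not_or, Finsupp.notMem_support_iff, Finsupp.notMem_support_iff] at h1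
  exact h0 (h1.1.trans h1.2.symm)

theorem hl_inj (h : Fk r p) {l l' : I F →₀ ℕ} (e : hl p l = hl p l') : l = l' := by
  by_contra h0
  have := ip_hl h l l'
  rw [← e, ip_hl h, if_pos rfl, if_neg h0] at this
  exact one_ne_zero this

theorem exists_de (h : Fk r p) (l : I F →₀ ℕ) : ∃ (ι : Type) (s : Finset ι)
    (u v : ι → I F →₀ ℕ), (∀ t ∈ s, u t + v t = l) ∧
      ∀ a b, ip (a * b) (hl p l) = ∑ t ∈ s, ip a (hl p (u t)) * ip b (hl p (v t)) := by
  induction l using Finsupp.induction with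
  | zero => exact ⟨Unit, univ, 0, 0, by simp, fun a b => by simp [hl, ip_mul_one]⟩
  | single_add o m l ho _ ih =>
    obtain ⟨ι, s, u, v, h1, h2⟩ := ih
    have h3 : ∀ k (l' : I F →₀ ℕ), l' ≤ l → hl p (Finsupp.single o k + l') = ex (p o) k * hl p l' :=
      fun k l' h => by
        rw [hl, Finsupp.prod_add_index_of_disjoint, Finsupp.prod_single_index (ex_zero _), hl]
        exact (disjoint_singleton_left.2 ho).mono Finsupp.support_single_subset
          (Finsupp.support_mono h)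
    refine ⟨(ℕ × ℕ) × ι, antidiagonal m ×ˢ s, fun t => Finsupp.single o t.1.1 + u t.2,
      fun t => Finsupp.single o t.1.2 + v t.2, fun t ht => ?_, fun a b => ?_⟩
    · rw [mem_product, HasAntidiagonal.mem_antidiagonal] at ht
      rw [add_add_add_comm, h1 _ ht.2, ← Finsupp.single_add, ht.1]
    · rw [h3 _ _ le_rfl, ip_mul_mul ((grp h o).ip_mul m) h2, sum_product]
      exact sum_congr rfl fun x _ => sum_congr rfl fun t ht => by
        rw [h3 _ _ (h1 t ht ▸ le_self_add), h3 _ _ (h1 t ht ▸ le_add_self)]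

theorem ip_Gam_ne {x : H1} (e : ip x (Gam 1 n) ≠ 0) : ∃ l, ip x (hl pp l) ≠ 0 := by
  obtain ⟨s, -, h⟩ := (sch (stP F).fk).gam n
  rw [one_mul] at h
  rw [h, ip_sum_right] at e
  obtain ⟨l, -, h⟩ := exists_ne_zero_of_sum_ne_zero e
  exact ⟨l, h⟩

theorem ip_hl_Gam (l : I F →₀ ℕ) : ip (hl pp l) (Gam 1 (dl l)) = 1 := by
  obtain ⟨s, h1, h⟩ := (sch (stP F).fk).gam (dl l)
  rw [one_mul] at h
  rw [h, ip_sum_right]
  exact (sum_congr rfl fun l' _ => ip_hl (stP F).fk l l').trans
    (sum_ite_eq_of_mem _ _ _ ((h1 l).2 rfl))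

theorem irr_hl (l : I F →₀ ℕ) : Irr (dl l) (hl pp l) :=
  irr_of_vc (IsHom.prod fun o _ => by simpa using (grp (stP F).fk o).hom (l o))
    ((ZZ F).prod_mem fun o _ => stInt F o _) (by rw [ip_hl (stP F).fk, if_pos rfl])
    (ser_Gam (ω := 1)).2.1 (ip_hl_Gam l)

theorem exists_hl {x y : H1} (hx : Irr i x) (hy : Irr j y) {l : I F →₀ ℕ}
    (e : ip (x * y) (hl pp l) ≠ 0) : ∃ u v, u + v = l ∧ x = hl pp u ∧ y = hl pp v := by
  obtain ⟨ι, s, u, v, h1, h2⟩ := exists_de (stP F).fk l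
  rw [h2] at e
  obtain ⟨t, ht, h⟩ := exists_ne_zero_of_sum_ne_zero e
  exact ⟨_, _, h1 t ht, hx.eq_of_ip (irr_hl _) (left_ne_zero_of_mul h),
    hy.eq_of_ip (irr_hl _) (right_ne_zero_of_mul h)⟩

theorem tens_hl (l : I F →₀ ℕ) : tens lam (hl pp l) = hl pp (l.equivMapDomain (mulE lam)) := by
  rw [hl, hl, Finsupp.prod_equivMapDomain, ← tensA_apply, Finsupp.prod, map_prod]
  exact prod_congr rfl fun o _ => (map_ex (tensA lam).toRingHom _ _).trans
    (congrFun (ex_congr ((stP F).tens lam o)) _)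

theorem fx_hl {l : I F →₀ ℕ} : Fx (chr lam) (dl l) (hl pp l) ↔ ∀ φ, l (mulI lam φ) = l φ := by
  rw [fx_iff (irr_hl l).1, tens_hl]
  refine ⟨fun h φ => ?_, fun h => congrArg _ (Finsupp.ext fun φ => ?_)⟩
  · rw [← hl_inj (stP F).fk h, Finsupp.equivMapDomain_apply, hl_inj (stP F).fk h]
    exact congrArg _ (mulI_inv_mulI lam φ)
  · rw [Finsupp.equivMapDomain_apply, ← h]
    exact congrArg _ (mulI_mulI_inv lam φ)

theorem hG_eq (o : I F) : hG r o m = hl pp (lf r o m) := by
  rw [lf, hl_eq _ (Finsupp.support_indicator_subset _ _)]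
  exact prod_congr rfl fun φ h => by rw [Finsupp.indicator_of_mem h]

theorem irr_hG (o : I F) : Irr (orderOf lam * (o.per * m)) (hG (orderOf lam) o m) := by
  rw [hG_eq, ← dl_lf]; exact irr_hl _

theorem inS_hT (o : I F) :
    InS (orderOf lam * (o.per * m)) (hG (orderOf lam) o m) (hT lam o m) := (irr_hG o).inS _

theorem norm_hT (o : I F) : ip (hT lam o m) (hT lam o m) = 1 := by
  refine (irr_hG o).norm_pj_Gam ?_ ?_ <;> rw [hG_eq, ← dl_lf]
  · exact ip_hl_Gam _
  · refine fx_hl.2 fun φ => ?_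
    simp only [lf_apply, mem_fib (orderOf_pos lam), powI_mulI_of (pow_orderOf_eq_one lam)]

theorem ip_hT {a : H (chr lam)} {o : I F}
    (h : InS (orderOf lam * (o.per * m)) (hG (orderOf lam) o m) a) :
    ip a (hT lam o m) = ip a (Gam _ (orderOf lam * (o.per * m))) := by
  rw [hT, ← h.1.ip_pj, h.2]

theorem eq_hG {x : H1} {a : H (chr lam)} (h : InS n x a) (ha : a ≠ 0) {u v : I F →₀ ℕ} {o : I F}
    (e : u + v = lf (orderOf lam) o m) (hx : x = hl pp u) : ∃ i, u = lf (orderOf lam) o i := by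
  subst hx
  obtain rfl := h.1.deg_eq (irr_hl u)
  exact eq_lf e (fx_hl.1 (h.1.fx_of_pj (a := a) (by rwa [h.2])))

theorem lf_add (o : I F) : lf r o i + lf r o j = lf r o (i + j) :=
  Finsupp.ext fun φ => by simp only [Finsupp.add_apply, lf_apply]; split_ifs <;> rfl

theorem lf_inj (hr : 0 < r) {o : I F} (h : lf r o i = lf r o j) : i = j := by
  obtain ⟨φ, hφ⟩ := fib_nonempty hr o
  simpa only [lf_apply, if_pos hφ] using DFunLike.congr_fun h φ

theorem ip_mul_hT {a b : H (chr lam)} {o : I F}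
    (ha : InS (orderOf lam * (o.per * i)) (hG (orderOf lam) o i) a)
    (hb : InS (orderOf lam * (o.per * j)) (hG (orderOf lam) o j) b) :
    ip (a * b) (hT lam o (i + j)) = ip a (hT lam o i) * ip b (hT lam o j) := by
  have h1 := (grpLike_Gam (chr lam)).ip_mul_hom (i := orderOf lam * (o.per * i))
    (j := orderOf lam * (o.per * j)) (by rw [one_mul]; exact ha.hom) (by rw [one_mul]; exact hb.hom)
  have h2 := irr_hG (lam := lam) (m := i + j) o
  have h3 := ha.hom.mul hb.hom
  rw [ip_hT ha, ip_hT hb, ← h1, hT, ← h2.ip_pj]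
  rw [mul_add, mul_add] at h2 ⊢
  conv_rhs => rw [← h3.sum_pj, ip_sum_left]
  rw [Fintype.sum_eq_single ⟨_, h2.2⟩, (irr_ofC _).1.ext_cm h2.1 (cm_ofC _)]
  intro χ hχ
  by_contra h4
  have h5 : ip (ofC χ) (Gam 1 _) ≠ 0 := fun h => h4 (by
    rw [(irr_ofC χ).ip_pj, ser_Gam.2.2 _ (irr_ofC χ) (by rw [ip_cj, h, map_zero]), ip_zero_right])
  obtain ⟨l, hl⟩ := ip_Gam_ne h5
  have h6 := (irr_ofC χ).eq_of_ip (irr_hl l) hl
  obtain ⟨u, v, rfl, hu, hv⟩ := exists_hl ha.1 hb.1 (l := l) fun h => h4 (by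
    rw [ha.pj_mul hb (irr_ofC χ) (by rwa [h6]), ip_zero_left])
  rw [hG_eq] at hu hv
  rw [← hl_inj (stP F).fk hu, ← hl_inj (stP F).fk hv, lf_add, ← hG_eq] at h6
  exact hχ (Subtype.ext (by rw [← cm_ofC χ, h6]))

theorem grp_hT (o : I F) : GrpLike (orderOf lam * o.per) (hT lam o) := by
  have hr := orderOf_pos lam
  refine grpLike_of_ip_mul (Nat.mul_pos hr (per_pos o)) ?_
    (fun m => by rw [mul_assoc]; exact isHom_pj _ _) fun m a b => ?_
  · have := irr_hG (lam := lam) (m := 0) o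
    simp only [hT, mul_zero, Gam_zero] at this ⊢
    exact pj_deg_zero this isHom_one
  induction a using H.induction_inS with
  | h0 => simp [ip_zero_left]
  | h2 a a' h h' => simp only [add_mul, ip_add_left, h, h', sum_add_distrib]
  | h1 n x a ha =>
  induction b using H.induction_inS with
  | h0 => simp [ip_zero_left]
  | h2 b b' h h' => simp only [mul_add, ip_add_left, h, h', sum_add_distrib]
  | h1 n' y b hb =>
  by_cases h : ∃ i j, i + j = m ∧ x = hG (orderOf lam) o i ∧ y = hG (orderOf lam) o j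
  · obtain ⟨i, j, rfl, rfl, rfl⟩ := h
    obtain rfl := ha.1.deg_eq (irr_hG o)
    obtain rfl := hb.1.deg_eq (irr_hG o)
    rw [ip_mul_hT ha hb, sum_eq_single (i, j) (fun z hz hne => ?_) (by simp)]
    rw [HasAntidiagonal.mem_antidiagonal] at hz
    rw [ha.hom.ip_eq_zero (inS_hT o).hom fun e => hne ?_, zero_mul]
    have := Nat.eq_of_mul_eq_mul_left (per_pos o) (Nat.eq_of_mul_eq_mul_left hr e)
    exact Prod.ext this.symm (by simp only; omega)
  rw [sum_eq_zero fun z hz => by_contra fun e => h ⟨_, _, HasAntidiagonal.mem_antidiagonal.1 hz,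
    ha.eq_of_ip (inS_hT o) (left_ne_zero_of_mul e), hb.eq_of_ip (inS_hT o) (right_ne_zero_of_mul e)⟩]
  by_contra e
  have h1 := irr_hG (lam := lam) (m := m) o
  have h2 : n + n' = orderOf lam * (o.per * m) :=
    by_contra fun h => e ((ha.hom.mul hb.hom).ip_eq_zero (inS_hT o).hom h)
  have h3 : a * b ≠ 0 := fun h => e (by rw [h, ip_zero_left])
  rw [hT, ← h1.ip_pj, ← h2] at e
  rw [← h2] at h1
  obtain ⟨u, v, h4, hu, hv⟩ := exists_hl ha.1 hb.1 (l := lf (orderOf lam) o m) fun h => e (by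
    rw [ha.pj_mul hb h1 (by rwa [hG_eq]), ip_zero_left])
  obtain ⟨i, rfl⟩ := eq_hG ha (left_ne_zero_of_mul h3) h4 hu
  obtain ⟨j, rfl⟩ := eq_hG hb (right_ne_zero_of_mul h3) (add_comm _ v ▸ h4) hv
  exact h ⟨i, j, lf_inj hr (lf_add o ▸ h4), hG_eq o ▸ hu, hG_eq o ▸ hv⟩

theorem ip_pT_hT {o o' : I F} (h : o ≠ o') (m j : ℕ) : ip (pT lam o m) (hT lam o' j) = 0 := by
  induction m using Nat.strong_induction_on generalizing j with
  | _ m ih =>
    rcases m with _ | m
    · rw [pT, lg_zero, ip_zero_left]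
    rw [pT, lg_succ, ip_sub_left, ip_natCast_mul_left, ip_sum_left, sum_eq_zero fun k hk => ?_,
      sub_zero, mul_eq_zero_iff_left (Nat.cast_ne_zero.2 m.succ_ne_zero)]
    · by_contra e
      have h1 := (inS_hT o).eq_of_ip (inS_hT o') e
      rw [hG_eq, hG_eq] at h1
      obtain ⟨φ, hφ⟩ := fib_nonempty (orderOf_pos lam) o
      have h2 := DFunLike.congr_fun (hl_inj (stP F).fk h1) φ
      rw [lf_apply, lf_apply, if_pos hφ, if_neg] at h2
      · exact m.succ_ne_zero h2
      · rw [mem_fib (orderOf_pos lam)] at hφ ⊢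
        rwa [hφ]
    · rw [(grp_hT o').ip_mul]
      exact sum_eq_zero fun z _ => mul_eq_zero_of_left (ih _ (by rw [mem_range] at hk; omega) _) _

theorem fk_pT (lam : Fˣ) : Fk (orderOf lam) (pT lam) where
  ord := orderOf_chr lam
  prim o m _ := (grp_hT o).prim_lg m
  hom o m _ := by rw [← mul_assoc]; exact (grp_hT o).isHom_lg m
  ip o m o' m' hm hm' := by
    refine ((grp_hT o).ip_lg_lg (grp_hT o') m m').trans ?_
    split_ifs with h
    · obtain ⟨rfl, rfl⟩ := h
      rw [eq_one_of_ex (f := fun m => ip (lg (hT lam o) m) (hT lam o m))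
        (fun m => by rw [(grp_hT o).ex_ip_lg, norm_hT]) hm, mul_one]
    · refine mul_eq_zero_of_right _ ?_
      by_cases e : o = o'
      · subst e
        exact ((grp_hT o).isHom_lg m).ip_eq_zero ((grp_hT o).hom m') fun e =>
          h ⟨rfl, Nat.eq_of_mul_eq_mul_left (grp_hT (lam := lam) o).pos e⟩
      · exact ip_pT_hT e _ _
  gam o m hm := by
    have h1 : ∀ m, ip (hT lam o m) (Gam _ (orderOf lam * (o.per * m))) = 1 := fun m => by
      rw [← ip_hT (inS_hT o), norm_hT]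
    refine eq_one_of_ex (f := fun m => ip (pT lam o m) (Gam _ (orderOf lam * (o.per * m))))
      (fun m => (congrFun (eq_ex (h := fun _ => 1) rfl fun n => ?_) m).symm) hm
    have h2 := congrArg (ip · (Gam _ (orderOf lam * (o.per * (n + 1)))))
      (mul_ex_succ (pT lam o) n)
    simp only [pT, ex_lg (grp_hT o).zero, ip_sum_left, ip_natCast_mul_left, h1] at h2
    refine h2.trans (sum_congr rfl fun k hk => ?_)
    rw [mem_range] at hk
    rw [← h1 (n - k), show n + 1 = k + 1 + (n - k) by omega, mul_add o.per, mul_add]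
    exact (grpLike_Gam _).ip_mul_hom (by rw [one_mul, ← mul_assoc]; exact (grp_hT o).isHom_lg _)
      (by rw [one_mul]; exact isHom_pj _ _)

end Cfsg.GLn.Tw
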